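import Cfsg.Agent.S3056
import Cfsg.Agent.S3076
import Cfsg.Agent.Lib.LocalEven2.CD
import Cfsg.Agent.Lib.Components.Signal

/-!
# Sylow graphs and normal subgroups with `p'`-intersection

Preparation for the strong Alperin--Goldschmidt fusion theorem.
-/

set_option autoImplicit false
set_option linter.unusedSectionVars false

namespace Cfsg.Agent.Lib.LocalEven2.AG

open Subgroup Cfsg Cfsg.Agent.S3056 Cfsg.Agent.S3076 Cfsg.Agent.Lib.Basic
open Cfsg.Agent.Lib.LocalEven2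
open Cfsg.Agent.Lib.Components (le_iSup_centralizer_hyperplane)
open scoped commutatorElement

variable {p : ℕ} [Fact p.Prime]

section conn

variable {Γ : Type*} [Group Γ]

theorem conn_of_connected (h : IsSylowChainConnected p Γ) (S T : Sylow p Γ) : Conn S T := by
  obtain ⟨n, c, h0, hn, -, hi⟩ := h S T
  have key : ∀ i : Fin (n + 1), Conn S (c i) := by
    intro i
    induction i using Fin.induction with
    | zero => rw [h0]
    | succ i ih => exact ih.tail ⟨(hi i).1, (hi i).2⟩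
  rw [← hn]; exact key _

theorem connected_of_conn (h : ∀ S T : Sylow p Γ, Conn S T) : IsSylowChainConnected p Γ := by
  intro S T
  by_cases e : S = T
  · subst e
    exact ⟨0, fun _ => S, rfl, rfl, fun i => inf_le_left, fun i => i.elim0⟩
  · by_cases hinf : (S : Subgroup Γ) ⊓ (T : Subgroup Γ) = ⊥
    · obtain ⟨n, c, h0, hn, hi⟩ := exists_chain_of_conn (h S T)
      refine ⟨n, c, h0, hn, fun i => ?_, fun i => hi i⟩
      rw [hinf]; exact bot_le
    · refine ⟨1, fun i => if i = 0 then S else T, by simp, by simp, ?_, ?_⟩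
      · intro i
        by_cases hi : i = 0
        · simp only [hi, if_true]; exact inf_le_left
        · simp only [hi, if_false]; exact inf_le_right
      · intro i
        have hi0 : i = 0 := Subsingleton.elim _ _
        subst hi0
        simpa using ⟨e, hinf⟩

variable {Γ' : Type*} [Group Γ'] [Finite Γ]

theorem connected_of_equiv (e : Γ ≃* Γ') (h : IsSylowChainConnected p Γ) :
    IsSylowChainConnected p Γ' := by
  have hs : Function.Surjective (e : Γ →* Γ') := e.surjective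
  let f : Sylow p Γ → Sylow p Γ' := Sylow.mapSurjective hs
  have hf : Function.Surjective f := Sylow.mapSurjective_surjective hs p
  have hc : ∀ S : Sylow p Γ, ((f S : Sylow p Γ') : Subgroup Γ') = (S : Subgroup Γ).map (e : Γ →* Γ') :=
    fun S => Sylow.coe_mapSurjective hs S
  have hadj : ∀ A B : Sylow p Γ, Adj A B → Adj (f A) (f B) := by
    rintro A B ⟨h1, h2⟩
    refine ⟨fun e' => h1 ?_, ?_⟩
    · apply Sylow.ext
      have h3 : (A : Subgroup Γ).map (e : Γ →* Γ') = (B : Subgroup Γ).map (e : Γ →* Γ') := by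
        rw [← hc, ← hc, e']
      exact Subgroup.map_injective e.injective h3
    · rw [hc, hc]
      intro h3
      apply h2
      rw [← Subgroup.map_inf_eq _ _ _ e.injective] at h3
      exact (Subgroup.map_eq_bot_iff_of_injective _ e.injective).1 h3
  apply connected_of_conn
  intro S T
  obtain ⟨S, rfl⟩ := hf S
  obtain ⟨T, rfl⟩ := hf T
  exact (conn_of_connected h S T).lift f (fun _ _ hh => hadj _ _ hh)

end conn

section two

variable {Γ : Type*} [Group Γ] [Finite Γ]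

theorem exists_mem_sylow_normal (S : Sylow p Γ) (Y : Subgroup Γ) [Y.Normal] (hY : p ∣ Nat.card Y) :
    ∃ y ∈ (S : Subgroup Γ) ⊓ Y, orderOf y = p := by
  have h1 := card_inf_mul_relIndex' (S : Subgroup Γ) Y
  have h2 : ¬ p ∣ (S : Subgroup Γ).relIndex Y := Cfsg.Agent.Lib.Coprime.sylow_relIndex_normal_not_dvd S Y
  have h3 : p ∣ Nat.card ↥((S : Subgroup Γ) ⊓ Y) := by
    rw [← h1] at hY
    exact ((Fact.out : p.Prime).dvd_mul.1 hY).resolve_right h2
  obtain ⟨y, hy⟩ := exists_prime_orderOf_dvd_card' p h3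
  refine ⟨y, y.2, ?_⟩
  rw [Subgroup.orderOf_coe]; exact hy

/-- An element of a `p`-subgroup of `D` is trivial if `D` has order prime to `p`. -/
theorem eq_one_of_pgroup_mem {S D : Subgroup Γ} (hS : IsPGroup p S) (hD : ¬ p ∣ Nat.card D) {z : Γ} (hzS : z ∈ S)
    (hzD : z ∈ D) : z = 1 := by
  obtain ⟨k, hk⟩ := (IsPGroup.iff_orderOf.1 hS) ⟨z, hzS⟩
  rw [Subgroup.orderOf_mk] at hk
  have h1 : orderOf z ∣ Nat.card D := Subgroup.orderOf_dvd_natCard _ hzD
  rcases Nat.eq_zero_or_pos k with rfl | hk0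
  · rw [pow_zero] at hk
    exact orderOf_eq_one_iff.1 hk
  · exfalso
    apply hD
    rw [hk] at h1
    exact (dvd_pow_self p hk0.ne').trans h1

/-- Elements of two normal subgroups with `p'`-intersection lying in a common `p`-subgroup commute. -/
theorem commute_of_mem {T Y₁ Y₂ : Subgroup Γ} [Y₁.Normal] [Y₂.Normal] (hT : IsPGroup p T)
    (hD : ¬ p ∣ Nat.card ↥(Y₁ ⊓ Y₂)) {a b : Γ} (ha : a ∈ T ⊓ Y₁) (hb : b ∈ T ⊓ Y₂) : a * b = b * a := by
  have h1 : ⁅a, b⁆ ∈ Y₁ ⊓ Y₂ := by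
    refine Subgroup.mem_inf.2 ⟨?_, ?_⟩
    · have e : ⁅a, b⁆ = a * (b * a⁻¹ * b⁻¹) := by rw [commutatorElement_def]; group
      rw [e]
      exact Y₁.mul_mem ha.2 (Subgroup.Normal.conj_mem ‹_› _ (Y₁.inv_mem ha.2) b)
    · rw [commutatorElement_def]
      exact Y₂.mul_mem (Subgroup.Normal.conj_mem ‹_› _ hb.2 a) (Y₂.inv_mem hb.2)
  have h2 : ⁅a, b⁆ ∈ T := by
    rw [commutatorElement_def]
    exact T.mul_mem (T.mul_mem (T.mul_mem ha.1 hb.1) (T.inv_mem ha.1)) (T.inv_mem hb.1)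
  have h3 := eq_one_of_pgroup_mem hT hD h2 h1
  exact commutatorElement_eq_one_iff_mul_comm.1 h3

/-- `D` lies in the stabilizer of the component of every Sylow subgroup. -/
theorem le_compStab (Y₁ Y₂ : Subgroup Γ) [Y₁.Normal] [Y₂.Normal] (h₁ : p ∣ Nat.card Y₁) (h₂ : p ∣ Nat.card Y₂)
    (hD : ¬ p ∣ Nat.card ↥(Y₁ ⊓ Y₂)) (T : Sylow p Γ) : Y₁ ⊓ Y₂ ≤ compStab T := by
  classical
  obtain ⟨a, ha, hao⟩ := exists_mem_sylow_normal T Y₁ h₁
  obtain ⟨b, hb, hbo⟩ := exists_mem_sylow_normal T Y₂ h₂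
  have hT := T.isPGroup'
  have hab : a * b = b * a := commute_of_mem hT hD ha hb
  let E : Subgroup Γ := closure {a, b}
  have hcomm : ∀ x ∈ ({a, b} : Set Γ), ∀ y ∈ ({a, b} : Set Γ), x * y = y * x := by
    rintro x (rfl | rfl) y (rfl | rfl)
    · rfl
    · exact hab
    · exact hab.symm
    · rfl
  letI ic : CommGroup E := closureCommGroupOfComm hcomm
  have hEcomm : ∀ x ∈ E, ∀ y ∈ E, x * y = y * x := by
    intro x hx y hy
    have := mul_comm (⟨x, hx⟩ : E) ⟨y, hy⟩
    exact congrArg Subtype.val this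
  have hEle : E ≤ (T : Subgroup Γ) := by
    rw [closure_le]
    rintro x (rfl | rfl)
    · exact ha.1
    · exact hb.1
  have hEp : ∀ x ∈ E, x ^ p = 1 := by
    intro x hx
    induction hx using Subgroup.closure_induction with
    | mem x hx =>
      rcases hx with rfl | rfl
      · rw [← hao]; exact pow_orderOf_eq_one _
      · rw [← hbo]; exact pow_orderOf_eq_one _
    | one => exact one_pow _
    | mul x y hx hy ihx ihy =>
      rw [(show Commute x y from hEcomm x hx y hy).mul_pow, ihx, ihy, one_mul]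
    | inv x _ ih => rw [inv_pow, ih, inv_one]
  have hEel : IsElementaryAbelian p E := by
    refine ⟨⟨⟨?_⟩⟩, hEp⟩
    intro x y
    exact Subtype.ext (hEcomm x x.2 y y.2)
  have haE : a ∈ E := subset_closure (by simp)
  have hbE : b ∈ E := subset_closure (by simp)
  have hn : E ≤ normalizer ((Y₁ ⊓ Y₂ : Subgroup Γ) : Set Γ) := by
    have : (Y₁ ⊓ Y₂ : Subgroup Γ).Normal := inferInstance
    rw [Subgroup.normalizer_eq_top_iff.2 this]
    exact le_top
  refine (le_iSup_centralizer_hyperplane hEel hD hn).trans (iSup_le ?_)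
  rintro ⟨B, hBE, hB⟩
  -- `B` is nontrivial
  have hB1 : ∃ e ∈ B, e ≠ 1 := by
    by_contra hall
    push Not at hall
    have hbot : B = ⊥ := (Subgroup.eq_bot_iff_forall _).2 hall
    have h3 : Nat.card E ≤ p := by
      have h4 := hB
      rw [hbot, Subgroup.relIndex_bot_left] at h4
      exact h4
    have hzp : zpowers a ≤ E := (zpowers_le).2 haE
    have h5 : Nat.card (zpowers a) = p := by rw [Nat.card_zpowers, hao]
    have h6 : Nat.card (zpowers a) ∣ Nat.card E := Subgroup.card_dvd_of_le hzp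
    have h7 : Nat.card E = p := by
      rw [h5] at h6
      exact le_antisymm h3 (Nat.le_of_dvd Nat.card_pos h6)
    have h8 : zpowers a = E := Subgroup.eq_of_le_of_card_ge hzp (by rw [h5, h7])
    have hbz : b ∈ zpowers a := h8 ▸ hbE
    have hbY : b ∈ Y₁ ⊓ Y₂ := by
      refine Subgroup.mem_inf.2 ⟨?_, hb.2⟩
      obtain ⟨k, rfl⟩ := Subgroup.mem_zpowers_iff.1 hbz
      exact Y₁.zpow_mem ha.2 k
    have h9 := eq_one_of_pgroup_mem hT hD hb.1 hbY
    have h10 : orderOf b = 1 := by rw [h9, orderOf_one]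
    rw [hbo] at h10
    exact (Fact.out : p.Prime).one_lt.ne' h10
  obtain ⟨e, heB, he1⟩ := hB1
  rintro d ⟨hdD, hdC⟩
  have hde : d * e * d⁻¹ = e := by
    have := mem_centralizer_iff.1 hdC e heB
    rw [← this]
    group
  rw [mem_compStab]
  refine conn_of_mem (y := e) (hEle (hBE heB)) ?_ he1
  rw [coe_smul_eq_map]
  exact ⟨e, hEle (hBE heB), hde⟩

/-- A `p`-element of `W ⊔ D` with `D` normal lies in some `D`-conjugate of the Sylow subgroup `W`. -/
theorem exists_mem_smul (W : Sylow p Γ) (D : Subgroup Γ) [hDn : D.Normal] {y : Γ} (hy : IsPGroup p (zpowers y))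
    (hyM : y ∈ (W : Subgroup Γ) ⊔ D) : ∃ d ∈ D, y ∈ ((d • W : Sylow p Γ) : Subgroup Γ) := by
  obtain ⟨m, hm, R, hR, -, hyR, hWR⟩ := Cfsg.Agent.Lib.LocalEven2.exists_conj_common_of_isPGroup (p := p)
    (M := (W : Subgroup Γ) ⊔ D) (A := zpowers y) (B := (W : Subgroup Γ)) hy W.isPGroup'
    ((zpowers_le).2 hyM) le_sup_left
  have h1 : ((m • W : Sylow p Γ) : Subgroup Γ) = R := by
    have h2 : ((m • W : Sylow p Γ) : Subgroup Γ) ≤ R := by
      rw [coe_smul_eq_map]; exact hWR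
    exact le_antisymm h2 ((m • W).is_maximal' hR h2 |>.le)
  have hyin : y ∈ ((m • W : Sylow p Γ) : Subgroup Γ) := by
    rw [h1]; exact hyR (mem_zpowers y)
  obtain ⟨w, hw, n, hn, rfl⟩ := Subgroup.mem_sup_of_normal_right.1 hm
  refine ⟨w * n * w⁻¹, hDn.conj_mem n hn w, ?_⟩
  have h3 : (w * n * w⁻¹) • W = (w * n) • W := by
    have h4 : w⁻¹ • W = W := Sylow.smul_eq_iff_mem_normalizer.2 (Subgroup.le_normalizer (W.1.inv_mem hw))
    rw [mul_smul, h4]
  rw [h3]
  exact hyin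

/-- Two normal subgroups of order divisible by `p` with `p'`-intersection force the Sylow graph
to be connected. -/
theorem conn_of_two_normal (Y₁ Y₂ : Subgroup Γ) [Y₁.Normal] [Y₂.Normal] (h₁ : p ∣ Nat.card Y₁)
    (h₂ : p ∣ Nat.card Y₂) (hD : ¬ p ∣ Nat.card ↥(Y₁ ⊓ Y₂)) (S T : Sylow p Γ) : Conn S T := by
  classical
  obtain ⟨a, ha, hao⟩ := exists_mem_sylow_normal S Y₁ h₁
  obtain ⟨b, hb, hbo⟩ := exists_mem_sylow_normal T Y₂ h₂
  set D : Subgroup Γ := Y₁ ⊓ Y₂ with hDdef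
  haveI hDn : D.Normal := inferInstance
  let q := QuotientGroup.mk' D
  have hs : Function.Surjective q := QuotientGroup.mk'_surjective D
  have hcomm : q a * q b = q b * q a := by
    rw [← map_mul, ← map_mul, QuotientGroup.mk'_eq_mk']
    refine ⟨(a * b)⁻¹ * (b * a), ?_, by group⟩
    have h1 : (a * b)⁻¹ * (b * a) = (b⁻¹ * a⁻¹ * b) * a := by group
    have h2 : (a * b)⁻¹ * (b * a) = b⁻¹ * (a⁻¹ * b * a) := by group
    refine Subgroup.mem_inf.2 ⟨?_, ?_⟩
    · rw [h1]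
      refine Y₁.mul_mem ?_ ha.2
      have := Subgroup.Normal.conj_mem (inferInstance : Y₁.Normal) a⁻¹ (Y₁.inv_mem ha.2) b⁻¹
      simpa using this
    · rw [h2]
      refine Y₂.mul_mem (Y₂.inv_mem hb.2) ?_
      have := Subgroup.Normal.conj_mem (inferInstance : Y₂.Normal) b hb.2 a⁻¹
      simpa using this
  have hpa : IsPGroup p (zpowers a) :=
    IsPGroup.of_card (n := 1) (by rw [Nat.card_zpowers, hao, pow_one])
  have hpb : IsPGroup p (zpowers b) :=
    IsPGroup.of_card (n := 1) (by rw [Nat.card_zpowers, hbo, pow_one])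
  have hpa' : IsPGroup p (zpowers (q a)) := by
    have := hpa.map q
    rwa [MonoidHom.map_zpowers] at this
  have hpb' : IsPGroup p (zpowers (q b)) := by
    have := hpb.map q
    rwa [MonoidHom.map_zpowers] at this
  have hsupp : IsPGroup p ↥(zpowers (q a) ⊔ zpowers (q b)) := by
    refine hpa'.to_sup_of_normal_right' hpb' ?_
    rw [zpowers_le]
    apply Subgroup.centralizer_le_normalizer
    rw [Subgroup.mem_centralizer_iff]
    intro x hx
    obtain ⟨k, rfl⟩ := Subgroup.mem_zpowers_iff.1 hx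
    exact (Commute.zpow_left (show Commute (q b) (q a) from hcomm.symm) k).eq
  obtain ⟨Q, hQ⟩ := hsupp.exists_le_sylow
  obtain ⟨W, rfl⟩ := Sylow.mapSurjective_surjective hs p Q
  have hcW : ((Sylow.mapSurjective hs W : Sylow p (Γ ⧸ D)) : Subgroup (Γ ⧸ D)) = (W : Subgroup Γ).map q :=
    Sylow.coe_mapSurjective hs W
  rw [hcW] at hQ
  have hmem : ∀ x : Γ, q x ∈ zpowers (q a) ⊔ zpowers (q b) → x ∈ (W : Subgroup Γ) ⊔ D := by
    intro x hx
    obtain ⟨w, hw, e⟩ := hQ hx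
    have h1 : w⁻¹ * x ∈ D := QuotientGroup.eq.1 e
    have h2 : x = w * (w⁻¹ * x) := by group
    rw [h2]
    exact Subgroup.mul_mem_sup hw h1
  obtain ⟨d₁, hd₁, ha₁⟩ := exists_mem_smul W D hpa (hmem a (Subgroup.mem_sup_left (mem_zpowers _)))
  obtain ⟨d₂, hd₂, hb₁⟩ := exists_mem_smul W D hpb (hmem b (Subgroup.mem_sup_right (mem_zpowers _)))
  have ha1 : a ≠ 1 := by
    intro e
    rw [e, orderOf_one] at hao
    exact (Fact.out : p.Prime).one_lt.ne hao
  have hb1 : b ≠ 1 := by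
    intro e
    rw [e, orderOf_one] at hbo
    exact (Fact.out : p.Prime).one_lt.ne hbo
  have c1 : Conn S (d₁ • W) := conn_of_mem ha.1 ha₁ ha1
  have c2 : Conn (d₂ • W) T := conn_of_mem hb₁ hb.1 hb1
  have c3 : Conn W ((d₁⁻¹ * d₂) • W) := by
    have := le_compStab Y₁ Y₂ h₁ h₂ hD W (D.mul_mem (D.inv_mem hd₁) hd₂)
    exact (mem_compStab).1 this
  have c4 : Conn (d₁ • W) (d₂ • W) := by
    have := c3.smul d₁
    rwa [← mul_smul, mul_inv_cancel_left] at this
  exact c1.trans (c4.trans c2)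

/-- The Frattini argument. -/
theorem frattini' (D : Sylow p Γ) (K : Subgroup Γ) [hK : K.Normal] (x : Γ) :
    ∃ k ∈ K, k * x ∈ normalizer (((D : Subgroup Γ) ⊓ K : Subgroup Γ) : Set Γ) := by
  set I : Subgroup Γ := (D : Subgroup Γ) ⊓ K with hI
  have hIp : IsPGroup p I := D.isPGroup'.to_le inf_le_left
  have hIK : I ≤ K := inf_le_right
  have hi : ¬ p ∣ I.relIndex K := by
    rw [hI, Subgroup.inf_relIndex_right]
    exact Cfsg.Agent.Lib.Coprime.sylow_relIndex_normal_not_dvd D K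
  let J : Subgroup Γ := I.map (MulAut.conj x).toMonoidHom
  have hJK : J ≤ K := by
    rintro _ ⟨r, hr, rfl⟩
    exact hK.conj_mem _ (hIK hr) x
  have hJp : IsPGroup p J := hIp.map _
  obtain ⟨m, hm, R, hR, hRK, hIR, hJR⟩ := Cfsg.Agent.Lib.LocalEven2.exists_conj_common_of_isPGroup (p := p)
    (M := K) hIp hJp hIK hJK
  -- `R = I`
  have hRI : R ≤ I := by
    have hmul := Subgroup.relIndex_mul_relIndex I R K hIR hRK
    have hnd : ¬ p ∣ I.relIndex R := fun h => hi (hmul ▸ h.trans (dvd_mul_right _ _))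
    obtain ⟨k, hk⟩ := hR.exists_card_eq
    have h1 := card_mul_relIndex_of_le hIR
    have h2 : I.relIndex R ∣ p ^ k := hk ▸ Dvd.intro_left _ h1
    obtain ⟨j, _, hj⟩ := (Nat.dvd_prime_pow (Fact.out : p.Prime)).1 h2
    have h3 : I.relIndex R = 1 := by
      rcases Nat.eq_zero_or_pos j with rfl | hj0
      · rw [hj, pow_zero]
      · exact absurd (hj ▸ dvd_pow_self p hj0.ne') hnd
    exact Subgroup.relIndex_eq_one.1 h3
  refine ⟨m, hm, ?_⟩
  apply Cfsg.Agent.Lib.Coprime.mem_normalizer_of_conj_le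
  intro y hy
  apply hRI
  apply hJR
  refine ⟨x * y * x⁻¹, ⟨y, hy, rfl⟩, ?_⟩
  simp only [MulEquiv.toMonoidHom_eq_coe, MonoidHom.coe_coe, MulAut.conj_apply, mul_inv_rev]
  group

/-- The dichotomy driving the reduction to essential subgroups.  -/
theorem dichotomy (H₀ : Subgroup Γ) [hH₀ : H₀.Normal] (hH₀p : IsPGroup p H₀) (R : Sylow p Γ) :
    (∃ T₀ : Subgroup Γ, H₀ < T₀ ∧ T₀ ≤ (R : Subgroup Γ) ∧
      ∀ m : Γ, ∃ d ∈ centralizer (H₀ : Set Γ), ∃ m' ∈ normalizer (T₀ : Set Γ), m = d * m') ∨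
    ((R : Subgroup Γ) ⊓ centralizer (H₀ : Set Γ) ≤ H₀ ∧
      Cfsg.pPrimePCore p Γ = H₀ ⊔ centralizer (H₀ : Set Γ)) := by
  classical
  have hH₀R : H₀ ≤ (R : Subgroup Γ) := (le_pCore hH₀ hH₀p).trans (pCore_le_sylow R)
  set C : Subgroup Γ := centralizer (H₀ : Set Γ) with hC
  haveI hCn : C.Normal := Subgroup.normal_centralizer
  by_cases h1 : (R : Subgroup Γ) ⊓ C ≤ H₀
  · -- second alternative or `T₀ = R ⊓ L`
    set L : Subgroup Γ := Cfsg.pPrimePCore p Γ with hL
    set O : Subgroup Γ := Cfsg.pPrimeCore p Γ with hO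
    haveI hOn : O.Normal := pPrimeCore_normal p Γ
    haveI hLn : L.Normal := preP_normal (p := p) O
    have hH₀L : H₀ ≤ L := normal_pGroup_le_preP O H₀ hH₀ hH₀p
    have hOL : O ≤ L := ker_le_preP O
    have hOC : O ≤ C := pPrimeCore_le_centralizer H₀ hH₀ hH₀p
    have hi : ¬ p ∣ H₀.relIndex C := by
      have h2 : H₀ ⊓ C = (R : Subgroup Γ) ⊓ C :=
        le_antisymm (inf_le_inf_right _ hH₀R) (le_inf h1 inf_le_right)
      rw [← Subgroup.inf_relIndex_right, h2, Subgroup.inf_relIndex_right]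
      exact Cfsg.Agent.Lib.Coprime.sylow_relIndex_normal_not_dvd R C
    have hCle : C ≤ H₀ ⊔ O := le_sup_pPrimeCore_of_central H₀ C hH₀p le_rfl hi
    have hle : H₀ ⊔ C ≤ L := sup_le hH₀L (hCle.trans (sup_le hH₀L hOL))
    -- `L = O ⊔ (R ⊓ L)`
    have hLOT : L ≤ O ⊔ ((R : Subgroup Γ) ⊓ L) := by
      obtain ⟨a, ha⟩ := relIndex_preP (p := p) O
      have h3 : (O ⊔ ((R : Subgroup Γ) ⊓ L)).relIndex L ∣ p ^ a := by
        rw [← ha]; exact Subgroup.relIndex_dvd_of_le_left _ le_sup_left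
      have h4 : (O ⊔ ((R : Subgroup Γ) ⊓ L)).relIndex L ∣ ((R : Subgroup Γ) ⊓ L).relIndex L :=
        Subgroup.relIndex_dvd_of_le_left _ le_sup_right
      rw [Subgroup.inf_relIndex_right] at h4
      have h5 : ¬ p ∣ (R : Subgroup Γ).relIndex L := Cfsg.Agent.Lib.Coprime.sylow_relIndex_normal_not_dvd R L
      obtain ⟨j, _, hj⟩ := (Nat.dvd_prime_pow (Fact.out : p.Prime)).1 h3
      have h6 : (O ⊔ ((R : Subgroup Γ) ⊓ L)).relIndex L = 1 := by
        rcases Nat.eq_zero_or_pos j with rfl | hj0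
        · rw [hj, pow_zero]
        · exact absurd ((dvd_pow_self p hj0.ne').trans (hj ▸ h4)) h5
      exact Subgroup.relIndex_eq_one.1 h6
    by_cases h2 : L = H₀ ⊔ C
    · exact Or.inr ⟨h1, h2⟩
    · left
      refine ⟨(R : Subgroup Γ) ⊓ L, ?_, inf_le_left, ?_⟩
      · refine lt_of_le_of_ne (le_inf hH₀R hH₀L) fun e => h2 (le_antisymm ?_ hle)
        rw [← e] at hLOT
        exact hLOT.trans (sup_le (hOC.trans le_sup_right) le_sup_left)
      · intro m
        obtain ⟨k, hk, hkm⟩ := frattini' R L m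
        have hk' : k⁻¹ ∈ O ⊔ ((R : Subgroup Γ) ⊓ L) := hLOT (L.inv_mem hk)
        obtain ⟨t, ht, d, hd, e⟩ := Subgroup.mem_sup_of_normal_left.1 hk'
        refine ⟨t, hOC ht, d * (k * m), ?_, ?_⟩
        · exact Subgroup.mul_mem _ (Subgroup.le_normalizer hd) hkm
        · rw [← mul_assoc, ← mul_assoc, e]; group
  · left
    obtain ⟨z, hz, hz'⟩ := SetLike.not_le_iff_exists.1 h1
    set K : Subgroup Γ := H₀ ⊔ C with hK
    haveI hKn : K.Normal := Subgroup.sup_normal _ _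
    refine ⟨(R : Subgroup Γ) ⊓ K, ?_, inf_le_left, ?_⟩
    · refine lt_of_le_of_ne (le_inf hH₀R le_sup_left) fun e => hz' ?_
      rw [e]
      exact ⟨hz.1, Subgroup.mem_sup_right hz.2⟩
    · intro m
      obtain ⟨k, hk, hkm⟩ := frattini' R K m
      have hk' : k⁻¹ ∈ C ⊔ H₀ := by
        rw [sup_comm]; exact K.inv_mem hk
      obtain ⟨c, hc, h, hh, e⟩ := Subgroup.mem_sup_of_normal_right.1 hk'
      refine ⟨c, hc, h * (k * m), ?_, ?_⟩
      · refine Subgroup.mul_mem _ (Subgroup.le_normalizer ⟨hH₀R hh, Subgroup.mem_sup_left hh⟩) hkm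
      · rw [← mul_assoc, ← mul_assoc, e]; group

end two

end Cfsg.Agent.Lib.LocalEven2.AG
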