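import Cfsg.Agent.Lib.LocalEven2.AG1
import Cfsg.Agent.Lib.LocalEven.WeakClosed
import Cfsg.Agent.Lib.Components.Signal3

/-!
# Essential subgroups and words in them

Preparation for the strong Alperin--Goldschmidt fusion theorem.
-/

set_option autoImplicit false
set_option linter.unusedSectionVars false

namespace Cfsg.Agent.Lib.LocalEven2.AG

open Subgroup Cfsg

variable {G : Type*} [Group G] [Finite G] {p : ℕ} [Fact p.Prime]

/-- The data attached to an essential subgroup. -/
structure Ess (P : Sylow p G) (H X : Subgroup G) : Prop where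
  leP : H ≤ (P : Subgroup G)
  syl : ¬ p ∣ ((P : Subgroup G) ⊓ normalizer (H : Set G)).relIndex (normalizer (H : Set G))
  cent : (P : Subgroup G) ⊓ centralizer (H : Set G) ≤ H
  core : (pPrimePCore p ↥(normalizer (H : Set G))).map (normalizer (H : Set G)).subtype =
    H ⊔ centralizer (H : Set G)
  iso : ¬ IsSylowChainConnected p (↥(normalizer (H : Set G)) ⧸ H.subgroupOf (normalizer (H : Set G)))
  le : H ≤ X
  leN : X ≤ normalizer (H : Set G)
  nn : normalizer (H : Set G) ≤ normalizer (X : Set G)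
  dvd : p ∣ H.relIndex X
  least : ∀ Y : Subgroup G, H ≤ Y → Y ≤ normalizer (H : Set G) →
    normalizer (H : Set G) ≤ normalizer (Y : Set G) → p ∣ H.relIndex Y → X ≤ Y

section transport

variable (φ : G ≃* G)

theorem map_centralizer_equiv (H : Subgroup G) :
    (centralizer (H : Set G)).map φ.toMonoidHom = centralizer ((H.map φ.toMonoidHom : Subgroup G) : Set G) := by
  ext y
  obtain ⟨x, rfl⟩ := φ.surjective y
  constructor
  · rintro ⟨x', hx', e⟩
    have : x' = x := φ.injective e
    subst this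
    rw [Subgroup.mem_centralizer_iff]
    rintro _ ⟨h, hh, rfl⟩
    have := Subgroup.mem_centralizer_iff.1 hx' h hh
    simp only [MulEquiv.toMonoidHom_eq_coe, MonoidHom.coe_coe]
    rw [← map_mul, ← map_mul, this]
  · intro hx
    refine ⟨x, ?_, rfl⟩
    rw [SetLike.mem_coe, Subgroup.mem_centralizer_iff]
    intro h hh
    have := Subgroup.mem_centralizer_iff.1 hx (φ h) ⟨h, hh, rfl⟩
    apply φ.injective
    rw [map_mul, map_mul, this]

theorem mem_pResidual_map {X : Subgroup G} {x : G} (hx : x ∈ (pResidual p ↥X).map X.subtype) :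
    φ x ∈ (pResidual p ↥(X.map φ.toMonoidHom)).map (X.map φ.toMonoidHom).subtype := by
  obtain ⟨x₀, hx₀, rfl⟩ := hx
  let e : ↥X ≃* ↥(X.map φ.toMonoidHom) := φ.subgroupMap X
  have h := Cfsg.Agent.Lib.LocalEven.pResidual_map_of_surjective (p := p) e.toMonoidHom e.surjective
  refine ⟨e x₀, ?_, rfl⟩
  rw [← h]
  exact ⟨x₀, hx₀, rfl⟩

theorem Ess.map {P P' : Sylow p G} (hP : (P : Subgroup G).map φ.toMonoidHom = P') {H X : Subgroup G}
    (h : Ess P H X) : Ess P' (H.map φ.toMonoidHom) (X.map φ.toMonoidHom) := by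
  have hinj : Function.Injective φ.toMonoidHom := φ.injective
  set N : Subgroup G := normalizer (H : Set G) with hNdef
  have hN : N.map φ.toMonoidHom = normalizer ((H.map φ.toMonoidHom : Subgroup G) : Set G) :=
    Subgroup.map_equiv_normalizer_eq H φ
  have hNX : (normalizer (X : Set G)).map φ.toMonoidHom = normalizer ((X.map φ.toMonoidHom : Subgroup G) : Set G) :=
    Subgroup.map_equiv_normalizer_eq X φ
  have hC := map_centralizer_equiv φ H
  let e : ↥N ≃* ↥(normalizer ((H.map φ.toMonoidHom : Subgroup G) : Set G)) :=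
    (φ.subgroupMap N).trans (MulEquiv.subgroupCongr hN)
  have he : ∀ s : ↥N, ((e s : ↥(normalizer ((H.map φ.toMonoidHom : Subgroup G) : Set G))) : G) = φ s := fun s => rfl
  refine ⟨?_, ?_, ?_, ?_, ?_, ?_, ?_, ?_, ?_, ?_⟩
  · rw [← hP]; exact Subgroup.map_mono h.leP
  · rw [← hN, ← hP, ← Subgroup.map_inf_eq _ _ _ hinj, Subgroup.relIndex_map_map_of_injective _ _ hinj]
    exact h.syl
  · rw [← hC, ← hP, ← Subgroup.map_inf_eq _ _ _ hinj]
    exact Subgroup.map_mono h.cent
  · have h1 := Cfsg.Agent.Lib.Components.map_pPrimePCore_equiv (p := p) e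
    rw [← h1, ← hC, ← Subgroup.map_sup, ← h.core, Subgroup.map_map, Subgroup.map_map]
    rfl
  · intro hcon
    apply h.iso
    have hq : (H.subgroupOf N).map e.toMonoidHom =
        (H.map φ.toMonoidHom).subgroupOf (normalizer ((H.map φ.toMonoidHom : Subgroup G) : Set G)) := by
      ext y
      obtain ⟨x, rfl⟩ := e.surjective y
      constructor
      · rintro ⟨x', hx', hxx⟩
        have hxx' : x' = x := e.injective hxx
        subst hxx'
        rw [Subgroup.mem_subgroupOf, he]
        exact ⟨_, hx', rfl⟩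
      · intro hx
        refine ⟨x, ?_, rfl⟩
        rw [Subgroup.mem_subgroupOf, he] at hx
        obtain ⟨w, hw, e'⟩ := hx
        have : w = (x : G) := φ.injective e'
        rw [SetLike.mem_coe, Subgroup.mem_subgroupOf, ← this]
        exact hw
    let e' := QuotientGroup.congr _ _ e hq
    exact connected_of_equiv e'.symm hcon
  · exact Subgroup.map_mono h.le
  · rw [← hN]; exact Subgroup.map_mono h.leN
  · rw [← hN, ← hNX]; exact Subgroup.map_mono h.nn
  · rw [Subgroup.relIndex_map_map_of_injective _ _ hinj]; exact h.dvd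
  · intro Y' h1 h2 h3 h4
    obtain ⟨Y, rfl⟩ : ∃ Y : Subgroup G, Y' = Y.map φ.toMonoidHom :=
      ⟨Y'.comap φ.toMonoidHom, (Subgroup.map_comap_eq_self_of_surjective φ.surjective _).symm⟩
    rw [← hN] at h2 h3
    have hNY := Subgroup.map_equiv_normalizer_eq Y φ
    refine Subgroup.map_mono (h.least Y ?_ ?_ ?_ ?_)
    · exact (Subgroup.map_le_map_iff_of_injective hinj).1 h1
    · exact (Subgroup.map_le_map_iff_of_injective hinj).1 h2
    · refine (Subgroup.map_le_map_iff_of_injective hinj).1 ?_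
      rw [show (normalizer (Y : Set G)).map φ.toMonoidHom = _ from hNY]
      exact h3
    · rwa [Subgroup.relIndex_map_map_of_injective _ _ hinj] at h4

end transport

section word

/-- The image of a set under conjugation by `g`, acting on the right. -/
def im (g : G) (A : Set G) : Set G := (fun a => g⁻¹ * a * g) '' A

omit [Finite G] in
theorem mem_im {g x : G} {A : Set G} : x ∈ im g A ↔ g * x * g⁻¹ ∈ A := by
  constructor
  · rintro ⟨a, ha, rfl⟩
    have : g * (g⁻¹ * a * g) * g⁻¹ = a := by group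
    rwa [this]
  · intro h
    exact ⟨_, h, by group⟩

omit [Finite G] in
theorem im_one (A : Set G) : im 1 A = A := by
  ext x; simp [mem_im]

omit [Finite G] in
theorem im_mul (a b : G) (A : Set G) : im (a * b) A = im b (im a A) := by
  ext x
  simp only [mem_im]
  have : a * b * x * (a * b)⁻¹ = a * (b * x * b⁻¹) * a⁻¹ := by group
  rw [this]

omit [Finite G] in
theorem im_mono {a : G} {A B : Set G} (h : A ⊆ B) : im a A ⊆ im a B := Set.image_mono h

omit [Finite G] in
theorem im_of_mem_centralizer {c : G} {A : Set G} (hc : c ∈ centralizer A) : im c A = A := by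
  ext x
  rw [mem_im]
  constructor
  · intro h
    have h1 := Subgroup.mem_centralizer_iff.1 hc _ h
    have h2 : c * x = c * (c * x * c⁻¹) := by
      calc c * x = c * x * c⁻¹ * c := by group
        _ = _ := h1
    have h3 : x = c * x * c⁻¹ := mul_left_cancel h2
    rw [h3]
    exact h
  · intro h
    have := Subgroup.mem_centralizer_iff.1 hc _ h
    rw [← this]
    simpa using h

omit [Finite G] in
/-- `im g` of a subgroup is the conjugate by `g⁻¹`. -/
theorem im_coe (g : G) (Q : Subgroup G) : im g (Q : Set G) = (Cfsg.Agent.Lib.LocalEven.cj g⁻¹ Q : Subgroup G) := by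
  ext x
  rw [mem_im, SetLike.mem_coe, SetLike.mem_coe, Cfsg.Agent.Lib.LocalEven.mem_cj, inv_inv]

omit [Finite G] in
theorem im_coe_of_mem_normalizer {g : G} {Q : Subgroup G} (hg : g ∈ normalizer (Q : Set G)) :
    im g (Q : Set G) = Q := by
  rw [im_coe, Cfsg.Agent.Lib.LocalEven.cj_eq_of_mem_normalizer (Subgroup.inv_mem _ hg)]

/-- Words in elements of essential subgroups. -/
inductive Word (P : Sylow p G) : Set G → G → Prop
  | nil (A : Set G) : Word P A 1
  | cons {A : Set G} {H X : Subgroup G} {x w : G} (hE : Ess P H X)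
      (hx : x ∈ (pResidual p ↥X).map X.subtype) (hA : A ⊆ (H : Set G)) (hw : Word P (im x A) w) :
      Word P A (x * w)

variable {P : Sylow p G}

theorem Word.comp {A : Set G} {a b : G} (ha : Word P A a) (hb : Word P (im a A) b) : Word P A (a * b) := by
  induction ha with
  | nil A => rw [one_mul]; rwa [im_one] at hb
  | cons hE hx hA hw ih =>
    rw [mul_assoc]
    refine Word.cons hE hx hA (ih ?_)
    rwa [← im_mul]

theorem Word.mono {A B : Set G} (h : A ⊆ B) {w : G} (hw : Word P B w) : Word P A w := by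
  induction hw generalizing A with
  | nil B => exact Word.nil A
  | cons hE hx hA hw ih => exact Word.cons hE hx (h.trans hA) (ih (im_mono h))

theorem Word.conj {y : G} (hy : y ∈ normalizer ((P : Subgroup G) : Set G)) {A : Set G} {w : G}
    (hw : Word P A w) : Word P (im y⁻¹ A) (y * w * y⁻¹) := by
  have hP : (P : Subgroup G).map (MulAut.conj y).toMonoidHom = (P : Subgroup G) :=
    Subgroup.mem_normalizer_iff_map_conj_eq.1 hy
  induction hw with
  | nil A => simpa using Word.nil _
  | @cons A H X x w hE hx hA hw ih =>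
    have e : y * (x * w) * y⁻¹ = (y * x * y⁻¹) * (y * w * y⁻¹) := by group
    rw [e]
    refine Word.cons (hE.map (MulAut.conj y) hP) ?_ ?_ ?_
    · exact mem_pResidual_map (MulAut.conj y) hx
    · rintro _ ⟨a, ha, rfl⟩
      refine ⟨a, hA ha, ?_⟩
      simp
    · have e2 : im (y * x * y⁻¹) (im y⁻¹ A) = im y⁻¹ (im x A) := by
        rw [← im_mul, ← im_mul]; congr 1; group
      rw [e2]
      exact ih

/-- The element `g` has the required shape with respect to `A`. -/
def Good (P : Sylow p G) (A : Set G) (g : G) : Prop :=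
  ∃ c ∈ centralizer A, ∃ y ∈ normalizer ((P : Subgroup G) : Set G), ∃ w, Word P A w ∧ g = c * w * y

theorem Good.comp {A : Set G} {a b : G} (ha : Good P A a) (hb : Good P (im a A) b) : Good P A (a * b) := by
  obtain ⟨c₁, hc₁, y₁, hy₁, w₁, hw₁, rfl⟩ := ha
  obtain ⟨c₂, hc₂, y₂, hy₂, w₂, hw₂, rfl⟩ := hb
  have e1 : im (c₁ * w₁ * y₁) A = im y₁ (im w₁ A) := by
    rw [im_mul, im_mul, im_of_mem_centralizer hc₁]
  have e2 : im y₁⁻¹ (im (c₁ * w₁ * y₁) A) = im w₁ A := by
    rw [e1, ← im_mul]; simp [im_one]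
  have hw₃ := hw₂.conj hy₁
  rw [e2] at hw₃
  refine ⟨c₁ * (w₁ * (y₁ * c₂ * y₁⁻¹) * w₁⁻¹), ?_, y₁ * y₂, Subgroup.mul_mem _ hy₁ hy₂, _, hw₁.comp hw₃, ?_⟩
  · refine Subgroup.mul_mem _ hc₁ ?_
    rw [Subgroup.mem_centralizer_iff]
    intro a ha
    have h2 : (c₁ * w₁ * y₁)⁻¹ * a * (c₁ * w₁ * y₁) ∈ im (c₁ * w₁ * y₁) A := ⟨a, ha, rfl⟩
    have h3 := Subgroup.mem_centralizer_iff.1 hc₂ _ h2
    have h4 : c₁⁻¹ * a * c₁ = a := by
      have := Subgroup.mem_centralizer_iff.1 hc₁ a ha
      rw [mul_assoc, this, inv_mul_cancel_left]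
    have h5 : a = w₁ * y₁ * ((c₁ * w₁ * y₁)⁻¹ * a * (c₁ * w₁ * y₁)) * (w₁ * y₁)⁻¹ := by
      calc a = c₁⁻¹ * a * c₁ := h4.symm
        _ = _ := by group
    generalize (c₁ * w₁ * y₁)⁻¹ * a * (c₁ * w₁ * y₁) = b at h3 h5
    rw [h5]
    calc w₁ * y₁ * b * (w₁ * y₁)⁻¹ * (w₁ * (y₁ * c₂ * y₁⁻¹) * w₁⁻¹) = w₁ * y₁ * (b * c₂) * (w₁ * y₁)⁻¹ := by group
      _ = w₁ * y₁ * (c₂ * b) * (w₁ * y₁)⁻¹ := by rw [h3]
      _ = _ := by group
  · group

theorem Good.mono {A B : Set G} (h : A ⊆ B) {g : G} (hg : Good P B g) : Good P A g := by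
  obtain ⟨c, hc, y, hy, w, hw, rfl⟩ := hg
  exact ⟨c, Subgroup.centralizer_le h hc, y, hy, w, hw.mono h, rfl⟩

theorem Good.central {A : Set G} {g d : G} (hd : d ∈ centralizer A) (hg : Good P A g) : Good P A (d * g) := by
  obtain ⟨c, hc, y, hy, w, hw, rfl⟩ := hg
  exact ⟨d * c, Subgroup.mul_mem _ hd hc, y, hy, w, hw, by group⟩

theorem good_one (A : Set G) : Good P A 1 :=
  ⟨1, Subgroup.one_mem _, 1, Subgroup.one_mem _, 1, Word.nil A, by simp⟩

theorem good_of_word {A : Set G} {w : G} (hw : Word P A w) : Good P A w :=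
  ⟨1, Subgroup.one_mem _, 1, Subgroup.one_mem _, w, hw, by simp⟩

theorem good_of_mem_normalizer (A : Set G) {y : G} (hy : y ∈ normalizer ((P : Subgroup G) : Set G)) : Good P A y :=
  ⟨1, Subgroup.one_mem _, y, hy, 1, Word.nil A, by simp⟩

/-- Unfolding a word into the final form. -/
theorem Word.unfold {A : Set G} {w : G} (hw : Word P A w) :
    ∃ (n : ℕ) (H X : Fin n → Subgroup G) (x : Fin n → G), w = (List.ofFn x).prod ∧
      ∀ i : Fin n, Ess P (H i) (X i) ∧ x i ∈ (pResidual p ↥(X i)).map (X i).subtype ∧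
        (fun a => (((List.ofFn x).take i.val).prod)⁻¹ * a * ((List.ofFn x).take i.val).prod) '' A ⊆ (H i : Set G) := by
  induction hw with
  | nil A =>
    exact ⟨0, Fin.elim0, Fin.elim0, Fin.elim0, by simp, fun i => i.elim0⟩
  | @cons A H X x w hE hx hA hw ih =>
    obtain ⟨n, H', X', x', rfl, hi⟩ := ih
    refine ⟨n + 1, Fin.cons H H', Fin.cons X X', Fin.cons x x', ?_, ?_⟩
    · rw [List.ofFn_succ]
      simp
    · intro i
      refine Fin.cases ?_ (fun j => ?_) i
      · simp only [Fin.cons_zero]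
        refine ⟨hE, hx, ?_⟩
        simpa using hA
      · simp only [Fin.cons_succ]
        refine ⟨(hi j).1, (hi j).2.1, ?_⟩
        have h3 := (hi j).2.2
        rintro _ ⟨a, ha, rfl⟩
        apply h3
        refine ⟨x⁻¹ * a * x, ⟨a, ha, rfl⟩, ?_⟩
        rw [List.ofFn_succ, Fin.val_succ, List.take_succ_cons]
        simp only [Fin.cons_zero, Fin.cons_succ, List.prod_cons]
        group

end word

end Cfsg.Agent.Lib.LocalEven2.AG
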