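import Cfsg.Agent.Lib.LocalEven2.AG2

/-!
# Reduction steps for the strong Alperin--Goldschmidt fusion theorem
-/

set_option autoImplicit false
set_option linter.unusedSectionVars false

namespace Cfsg.Agent.Lib.LocalEven2.AG

open Subgroup Cfsg Cfsg.Agent.S3056 Cfsg.Agent.S3076 Cfsg.Agent.Lib.Basic Cfsg.Agent.Lib.LocalEven2
open Cfsg.Agent.Lib.LocalEven (cj mem_cj cj_mul cj_one cj_mono cj_inv_cj cj_cj_inv le_cj_iff
  cj_eq_of_mem_normalizer mem_normalizer_of_cj_eq)

variable {G : Type*} [Group G] [Finite G] {p : ℕ} [Fact p.Prime]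

theorem dvd_relIndex_of_lt {A B : Subgroup G} (hB : IsPGroup p B) (h : A < B) : p ∣ A.relIndex B := by
  obtain ⟨k, hk⟩ := hB.exists_card_eq
  have h1 := card_mul_relIndex_of_le h.le
  have h2 : A.relIndex B ∣ p ^ k := hk ▸ Dvd.intro_left _ h1
  obtain ⟨j, _, hj⟩ := (Nat.dvd_prime_pow (Fact.out : p.Prime)).1 h2
  rcases Nat.eq_zero_or_pos j with rfl | hj0
  · rw [pow_zero] at hj
    exact absurd (Subgroup.relIndex_eq_one.1 hj) h.not_ge
  · rw [hj]; exact dvd_pow_self p hj0.ne'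

theorem exists_sylow_of_le {S K : Subgroup G} (hS : IsPGroup p S) (hnd : ¬ p ∣ S.relIndex K) :
    ∃ R : Sylow p ↥K, (R : Subgroup ↥K) = S.subgroupOf K := by
  have h1 : IsPGroup p ↥(S.subgroupOf K) := hS.comap_of_injective K.subtype K.subtype_injective
  exact ⟨h1.toSylow hnd, IsPGroup.toSylow_coe _ _⟩

section X

variable (H : Subgroup G)

theorem card_map_mk_subgroupOf {Y : Subgroup G} (hY : Y ≤ normalizer (H : Set G)) :
    Nat.card ((Y.subgroupOf (normalizer (H : Set G))).map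
      (QuotientGroup.mk' (H.subgroupOf (normalizer (H : Set G))))) = H.relIndex Y := by
  rw [← Subgroup.relIndex_ker, QuotientGroup.ker_mk']
  have h1 : H.subgroupOf (normalizer (H : Set G)) = H.comap (normalizer (H : Set G)).subtype := rfl
  rw [h1, Subgroup.relIndex_comap, Subgroup.subgroupOf_map_subtype, inf_of_le_left hY]

theorem map_inf_mk {Y₁ Y₂ : Subgroup G} (h1 : H ≤ Y₁) :
    (Y₁.subgroupOf (normalizer (H : Set G))).map (QuotientGroup.mk' (H.subgroupOf (normalizer (H : Set G)))) ⊓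
      (Y₂.subgroupOf (normalizer (H : Set G))).map (QuotientGroup.mk' (H.subgroupOf (normalizer (H : Set G)))) =
    ((Y₁ ⊓ Y₂).subgroupOf (normalizer (H : Set G))).map (QuotientGroup.mk' (H.subgroupOf (normalizer (H : Set G)))) := by
  apply le_antisymm
  · rintro x ⟨⟨y₁, hy₁, rfl⟩, ⟨y₂, hy₂, e⟩⟩
    refine ⟨y₂, ?_, e⟩
    have e1 : y₁⁻¹ * y₂ ∈ H.subgroupOf (normalizer (H : Set G)) := QuotientGroup.eq.1 e.symm
    rw [SetLike.mem_coe, Subgroup.mem_subgroupOf] at hy₁ hy₂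
    rw [Subgroup.mem_subgroupOf] at e1
    rw [SetLike.mem_coe, Subgroup.mem_subgroupOf]
    refine Subgroup.mem_inf.2 ⟨?_, hy₂⟩
    have e2 : (y₂ : G) = y₁ * ((y₁⁻¹ * y₂ : ↥(normalizer (H : Set G))) : G) := by simp
    rw [e2]
    exact Y₁.mul_mem hy₁ (h1 e1)
  · refine le_inf (Subgroup.map_mono ?_) (Subgroup.map_mono ?_)
    · exact Subgroup.comap_mono inf_le_left
    · exact Subgroup.comap_mono inf_le_right

theorem connected_of_inf {Y₁ Y₂ : Subgroup G} (hle₁ : Y₁ ≤ normalizer (H : Set G)) (hle₂ : Y₂ ≤ normalizer (H : Set G))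
    (hn₁ : normalizer (H : Set G) ≤ normalizer (Y₁ : Set G)) (hn₂ : normalizer (H : Set G) ≤ normalizer (Y₂ : Set G))
    (h₁ : H ≤ Y₁) (d₁ : p ∣ H.relIndex Y₁) (d₂ : p ∣ H.relIndex Y₂) (hD : ¬ p ∣ H.relIndex (Y₁ ⊓ Y₂)) :
    IsSylowChainConnected p (↥(normalizer (H : Set G)) ⧸ H.subgroupOf (normalizer (H : Set G))) := by
  set q := QuotientGroup.mk' (H.subgroupOf (normalizer (H : Set G))) with hq
  have hs : Function.Surjective q := QuotientGroup.mk'_surjective _
  haveI hn1 : (Y₁.subgroupOf (normalizer (H : Set G))).Normal :=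
    (Subgroup.normal_subgroupOf_iff_le_normalizer hle₁).2 hn₁
  haveI hn2 : (Y₂.subgroupOf (normalizer (H : Set G))).Normal :=
    (Subgroup.normal_subgroupOf_iff_le_normalizer hle₂).2 hn₂
  haveI : ((Y₁.subgroupOf (normalizer (H : Set G))).map q).Normal := hn1.map _ hs
  haveI : ((Y₂.subgroupOf (normalizer (H : Set G))).map q).Normal := hn2.map _ hs
  apply connected_of_conn
  apply conn_of_two_normal ((Y₁.subgroupOf (normalizer (H : Set G))).map q)
    ((Y₂.subgroupOf (normalizer (H : Set G))).map q)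
  · rwa [card_map_mk_subgroupOf H hle₁]
  · rwa [card_map_mk_subgroupOf H hle₂]
  · rw [map_inf_mk H h₁, card_map_mk_subgroupOf H (inf_le_left.trans hle₁)]
    exact hD

theorem exists_X (hnc : ¬ IsSylowChainConnected p (↥(normalizer (H : Set G)) ⧸ H.subgroupOf (normalizer (H : Set G))))
    (hd : p ∣ H.relIndex (normalizer (H : Set G))) :
    ∃ X : Subgroup G, H ≤ X ∧ X ≤ normalizer (H : Set G) ∧ normalizer (H : Set G) ≤ normalizer (X : Set G) ∧
      p ∣ H.relIndex X ∧ ∀ Y : Subgroup G, H ≤ Y → Y ≤ normalizer (H : Set G) →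
        normalizer (H : Set G) ≤ normalizer (Y : Set G) → p ∣ H.relIndex Y → X ≤ Y := by
  classical
  let 𝓨 : Set (Subgroup G) := {Y | H ≤ Y ∧ Y ≤ normalizer (H : Set G) ∧
    normalizer (H : Set G) ≤ normalizer (Y : Set G) ∧ p ∣ H.relIndex Y}
  have hne : 𝓨.Nonempty := ⟨normalizer (H : Set G), Subgroup.le_normalizer, le_rfl,
    Subgroup.le_normalizer, hd⟩
  obtain ⟨X, hX⟩ := (Set.toFinite 𝓨).exists_minimal hne
  obtain ⟨⟨h1, h2, h3, h4⟩, hmin⟩ := hX
  refine ⟨X, h1, h2, h3, h4, fun Y k1 k2 k3 k4 => ?_⟩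
  have hinf : X ⊓ Y ∈ 𝓨 := by
    refine ⟨le_inf h1 k1, inf_le_left.trans h2, ?_, ?_⟩
    · intro x hx
      refine Subgroup.mem_normalizer_iff.2 fun y => ?_
      have e1 := Subgroup.mem_normalizer_iff.1 (h3 hx) y
      have e2 := Subgroup.mem_normalizer_iff.1 (k3 hx) y
      simp only [Subgroup.mem_inf, SetLike.mem_coe] at e1 e2 ⊢
      rw [e1, e2]
    · by_contra hD
      exact hnc (connected_of_inf H h2 k2 h3 k3 h1 h4 k4 hD)
  have := hmin hinf inf_le_left
  exact this.trans inf_le_right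

end X

section FN

theorem map_normalizer_cj (f : G) (Q : Subgroup G) :
    cj f (normalizer (Q : Set G)) = normalizer ((cj f Q : Subgroup G) : Set G) :=
  Subgroup.map_equiv_normalizer_eq Q (MulAut.conj f)

theorem relIndex_cj (f : G) (A B : Subgroup G) : (cj f A).relIndex (cj f B) = A.relIndex B :=
  Subgroup.relIndex_map_map_of_injective _ _ (MulAut.conj f).injective

theorem exists_fn (P : Sylow p G) (Q : Subgroup G) (hQ : IsPGroup p Q) :
    ∃ f : G, cj f⁻¹ Q ≤ (P : Subgroup G) ∧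
      ¬ p ∣ ((P : Subgroup G) ⊓ normalizer ((cj f⁻¹ Q : Subgroup G) : Set G)).relIndex
        (normalizer ((cj f⁻¹ Q : Subgroup G) : Set G)) := by
  classical
  obtain ⟨U⟩ : Nonempty (Sylow p ↥(normalizer (Q : Set G))) := inferInstance
  set U' : Subgroup G := (U : Subgroup ↥(normalizer (Q : Set G))).map (normalizer (Q : Set G)).subtype with hU'
  have hU'p : IsPGroup p U' := U.isPGroup'.map _
  obtain ⟨W, hW⟩ := hU'p.exists_le_sylow
  obtain ⟨f, hf⟩ := MulAction.exists_smul_eq G P W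
  have hQU : Q ≤ U' := by
    have h1 : (Q.subgroupOf (normalizer (Q : Set G))).Normal := Subgroup.normal_in_normalizer
    have h2 : IsPGroup p ↥(Q.subgroupOf (normalizer (Q : Set G))) :=
      hQ.comap_of_injective _ (Subgroup.subtype_injective _)
    have h3 := normal_pGroup_le_sylow h1 h2 U
    intro x hx
    have hx' : x ∈ normalizer (Q : Set G) := Subgroup.le_normalizer hx
    exact ⟨⟨x, hx'⟩, h3 hx, rfl⟩
  have hWP : (W : Subgroup G) = cj f (P : Subgroup G) := by
    rw [← hf]; exact coe_smul_eq_map P f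
  have hU'P : cj f⁻¹ U' ≤ (P : Subgroup G) := by
    rw [← le_cj_iff, ← hWP]; exact hW
  refine ⟨f, (cj_mono hQU).trans hU'P, ?_⟩
  rw [← map_normalizer_cj]
  have h1 : cj f⁻¹ U' ≤ (P : Subgroup G) ⊓ cj f⁻¹ (normalizer (Q : Set G)) := by
    refine le_inf hU'P (cj_mono ?_)
    rw [hU']; exact Subgroup.map_subtype_le _
  have h2 := Subgroup.relIndex_dvd_of_le_left (cj f⁻¹ (normalizer (Q : Set G))) h1
  intro hd
  have h3 := hd.trans h2
  rw [relIndex_cj] at h3
  apply U.not_dvd_index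
  have h4 : U'.relIndex (normalizer (Q : Set G)) = (U : Subgroup ↥(normalizer (Q : Set G))).index := by
    rw [hU', Subgroup.relIndex]
    congr 1
    exact Subgroup.comap_map_eq_self_of_injective (Subgroup.subtype_injective _) _
  rwa [h4] at h3

theorem exists_extension {P : Sylow p G} {Q' R : Subgroup G}
    (hfn : ¬ p ∣ ((P : Subgroup G) ⊓ normalizer (Q' : Set G)).relIndex (normalizer (Q' : Set G)))
    (hR : IsPGroup p R) (hRN : R ≤ normalizer (Q' : Set G)) :
    ∃ n ∈ normalizer (Q' : Set G), cj n⁻¹ R ≤ (P : Subgroup G) := by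
  classical
  obtain ⟨S, hS⟩ := exists_sylow_of_le (S := (P : Subgroup G) ⊓ normalizer (Q' : Set G))
    (K := normalizer (Q' : Set G)) (P.isPGroup'.to_le inf_le_left) hfn
  have h1 : IsPGroup p ↥(R.subgroupOf (normalizer (Q' : Set G))) :=
    hR.comap_of_injective _ (Subgroup.subtype_injective _)
  obtain ⟨W, hW⟩ := h1.exists_le_sylow
  obtain ⟨n, hn⟩ := MulAction.exists_smul_eq ↥(normalizer (Q' : Set G)) S W
  refine ⟨n, n.2, ?_⟩
  rintro _ ⟨r, hr, rfl⟩
  have h2 : (⟨r, hRN hr⟩ : ↥(normalizer (Q' : Set G))) ∈ (W : Subgroup _) := hW hr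
  rw [← hn, coe_smul_eq_map, hS] at h2
  obtain ⟨s, hs, e⟩ := h2
  have h3 : (s : G) ∈ (P : Subgroup G) := (Subgroup.mem_inf.1 hs).1
  have h4 : (n : G) * s * (n : G)⁻¹ = r := congrArg Subtype.val e
  have h5 : (MulAut.conj (n : G)⁻¹).toMonoidHom r = s := by
    simp only [MulEquiv.toMonoidHom_eq_coe, MonoidHom.coe_coe, MulAut.conj_apply, inv_inv]
    rw [← h4]; group
  rw [h5]; exact h3

end FN

end Cfsg.Agent.Lib.LocalEven2.AG
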