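import Cfsg.Agent.Lib.LocalEven2.AG3
import Cfsg.Agent.Lib.PGroups.AltGen2

/-!
# The middle lemma of the strong Alperin--Goldschmidt fusion theorem
-/

set_option autoImplicit false
set_option linter.unusedSectionVars false

namespace Cfsg.Agent.Lib.LocalEven2.AG

open Subgroup Cfsg Cfsg.Agent.S3056 Cfsg.Agent.S3076 Cfsg.Agent.Lib.Basic Cfsg.Agent.Lib.LocalEven2
open Cfsg.Agent.Lib.LocalEven (cj mem_cj cj_mul cj_one cj_mono cj_inv_cj cj_cj_inv le_cj_iff
  cj_eq_of_mem_normalizer mem_normalizer_of_cj_eq)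

variable {G : Type*} [Group G] [Finite G] {p : ℕ} [Fact p.Prime]

/-- The induction along the connected Sylow graph of a quotient. -/
theorem conn_induction {A : Type*} [Group A] [Finite A] (H₀ : Subgroup A) [hn : H₀.Normal] (R : Sylow p A)
    (hlt : H₀ < (R : Subgroup A)) (Gd : A → Prop) (h1 : Gd 1) (hmul : ∀ a b, Gd a → Gd b → Gd (a * b))
    (hstep : ∀ t z : A, z ∈ (R : Subgroup A) → z ∉ H₀ → t⁻¹ * z * t ∈ (R : Subgroup A) → Gd t)
    (hconn : IsSylowChainConnected p (A ⧸ H₀)) (m : A) : Gd m := by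
  classical
  set q := QuotientGroup.mk' H₀ with hq
  have hs : Function.Surjective q := QuotientGroup.mk'_surjective _
  set Sh : Sylow p (A ⧸ H₀) := Sylow.mapSurjective hs R with hSh
  have hcoe : ((Sh : Sylow p (A ⧸ H₀)) : Subgroup (A ⧸ H₀)) = (R : Subgroup A).map q :=
    Sylow.coe_mapSurjective hs R
  have key : ∀ a : A, ((Sh : Subgroup (A ⧸ H₀)) ⊓ ((q a • Sh : Sylow p (A ⧸ H₀)) : Subgroup (A ⧸ H₀))) ≠ ⊥ →
      Gd a := by
    intro a ha
    obtain ⟨w, hw, hw1⟩ := (Subgroup.bot_or_exists_ne_one _).resolve_left ha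
    have hw2 := (Subgroup.mem_inf.1 hw).1
    have hw3 := (Subgroup.mem_inf.1 hw).2
    rw [hcoe] at hw2
    obtain ⟨r, hr, rfl⟩ := hw2
    rw [coe_smul_eq_map, hcoe] at hw3
    obtain ⟨_, ⟨r', hr', rfl⟩, e⟩ := hw3
    have e1 : q (a * r' * a⁻¹) = q r := by
      rw [map_mul, map_mul, map_inv]
      exact e
    have e2 : (a * r' * a⁻¹)⁻¹ * r ∈ H₀ := QuotientGroup.eq.1 e1
    have e3 : a⁻¹ * r * a = r' * (a⁻¹ * ((a * r' * a⁻¹)⁻¹ * r) * a⁻¹⁻¹) := by group
    refine hstep a r hr (fun hrH => hw1 ((QuotientGroup.eq_one_iff r).2 hrH)) ?_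
    rw [e3]
    exact Subgroup.mul_mem _ hr' (hlt.le (hn.conj_mem _ e2 _))
  have claim : ∀ T : Sylow p (A ⧸ H₀), Conn Sh T → ∃ n, Gd n ∧ T = q n • Sh := by
    intro T hT
    induction hT with
    | refl => exact ⟨1, h1, by rw [map_one, one_smul]⟩
    | @tail b c _ hbc ih =>
      obtain ⟨n, hn', rfl⟩ := ih
      obtain ⟨kh, hkh⟩ := MulAction.exists_smul_eq (A ⧸ H₀) Sh c
      obtain ⟨k, rfl⟩ := hs kh
      subst hkh
      refine ⟨k, ?_, rfl⟩
      have h2 := hbc.smul (q n)⁻¹
      rw [inv_smul_smul, ← mul_smul, ← map_inv, ← map_mul] at h2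
      have h3 := key _ h2.2
      have := hmul _ _ hn' h3
      rwa [mul_inv_cancel_left] at this
  obtain ⟨n, hn', e⟩ := claim _ (conn_of_connected hconn Sh (q m • Sh))
  have h3 : q (n⁻¹ * m) • Sh = Sh := by
    rw [map_mul, map_inv, mul_smul, e, inv_smul_smul]
  have h4 : Gd (n⁻¹ * m) := by
    apply key
    rw [h3, inf_idem]
    intro hbot
    obtain ⟨r, hr, hr'⟩ := SetLike.exists_of_lt hlt
    have : q r ∈ (Sh : Subgroup (A ⧸ H₀)) := by
      rw [hcoe]; exact ⟨r, hr, rfl⟩
    rw [hbot, Subgroup.mem_bot] at this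
    exact hr' ((QuotientGroup.eq_one_iff r).1 this)
  have := hmul _ _ hn' h4
  rwa [mul_inv_cancel_left] at this

theorem good_of_step {P : Sylow p G} {H : Subgroup G} (hHP : H ≤ (P : Subgroup G))
    (IH : ∀ T : Subgroup G, H < T → T ≤ (P : Subgroup G) → ∀ g, im g (T : Set G) ⊆ (P : Set G) → Good P (T : Set G) g)
    {t z : G} (ht : t ∈ normalizer (H : Set G)) (hz : z ∈ (P : Subgroup G)) (hz' : z ∉ H)
    (htz : t⁻¹ * z * t ∈ (P : Subgroup G)) : Good P (H : Set G) t := by
  have hHT : H ≤ (P : Subgroup G) ⊓ cj t (P : Subgroup G) := by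
    refine le_inf hHP fun x hx => ?_
    rw [mem_cj]
    apply hHP
    have h1 := (Subgroup.mem_normalizer_iff.1 (Subgroup.inv_mem _ ht) x).1 hx
    simpa using h1
  have hlt : H < (P : Subgroup G) ⊓ cj t (P : Subgroup G) := by
    refine lt_of_le_of_ne hHT fun e => hz' ?_
    rw [e]
    exact ⟨hz, mem_cj.2 htz⟩
  refine Good.mono hHT (IH _ hlt inf_le_left t ?_)
  rintro _ ⟨y, hy, rfl⟩
  exact mem_cj.1 (Subgroup.mem_inf.1 hy).2

/-- Transport of the centralizer to the normalizer. -/
theorem map_centralizer_subgroupOf (H : Subgroup G) :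
    (centralizer ((H.subgroupOf (normalizer (H : Set G)) : Subgroup _) : Set ↥(normalizer (H : Set G)))).map
      (normalizer (H : Set G)).subtype = centralizer (H : Set G) := by
  ext x
  constructor
  · rintro ⟨d, hd, rfl⟩
    rw [Subgroup.mem_centralizer_iff]
    intro h hh
    have h1 := Subgroup.mem_centralizer_iff.1 hd ⟨h, Subgroup.le_normalizer hh⟩ hh
    exact congrArg Subtype.val h1
  · intro hx
    refine ⟨⟨x, Subgroup.centralizer_le_normalizer _ hx⟩, ?_, rfl⟩
    rw [SetLike.mem_coe, Subgroup.mem_centralizer_iff]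
    intro h hh
    apply Subtype.ext
    exact Subgroup.mem_centralizer_iff.1 hx _ hh

/-- **The middle lemma.** -/
theorem middle {P : Sylow p G} {H : Subgroup G} (hHP : H ≤ (P : Subgroup G))
    (hfn : ¬ p ∣ ((P : Subgroup G) ⊓ normalizer (H : Set G)).relIndex (normalizer (H : Set G)))
    (IH : ∀ T : Subgroup G, H < T → T ≤ (P : Subgroup G) → ∀ g, im g (T : Set G) ⊆ (P : Set G) → Good P (T : Set G) g)
    {m : G} (hm : m ∈ normalizer (H : Set G)) : Good P (H : Set G) m := by
  classical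
  by_cases hHe : H = (P : Subgroup G)
  · exact good_of_mem_normalizer _ (hHe ▸ hm)
  have hlt : H < (P : Subgroup G) := lt_of_le_of_ne hHP hHe
  have hHN : H ≤ normalizer (H : Set G) := Subgroup.le_normalizer
  have hSlt : H < (P : Subgroup G) ⊓ normalizer (H : Set G) := by
    obtain ⟨u, hu, hu', hun⟩ := Cfsg.Agent.Lib.PGroups.exists_mem_normalizer_of_lt P.isPGroup' hlt
    refine lt_of_le_of_ne (le_inf hHP hHN) (fun e => hu' ?_)
    rw [e]
    exact ⟨hu, Cfsg.Agent.Lib.Coprime.mem_normalizer_of_conj_le H u hun⟩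
  obtain ⟨R, hR⟩ := exists_sylow_of_le (S := (P : Subgroup G) ⊓ normalizer (H : Set G))
    (K := normalizer (H : Set G)) (P.isPGroup'.to_le inf_le_left) hfn
  set H₀ : Subgroup ↥(normalizer (H : Set G)) := H.subgroupOf (normalizer (H : Set G)) with hH₀
  haveI hH₀n : H₀.Normal := Subgroup.normal_in_normalizer
  have hH₀p : IsPGroup p H₀ :=
    (P.isPGroup'.to_le hHP).comap_of_injective _ (Subgroup.subtype_injective _)
  have mapH₀ : H₀.map (normalizer (H : Set G)).subtype = H := by
    rw [hH₀, Subgroup.subgroupOf_map_subtype, inf_of_le_left hHN]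
  have hRP : ∀ r : ↥(normalizer (H : Set G)), r ∈ (R : Subgroup _) → (r : G) ∈ (P : Subgroup G) := by
    intro r hr
    rw [hR, Subgroup.mem_subgroupOf] at hr
    exact hr.1
  have hmemR : ∀ r : ↥(normalizer (H : Set G)), (r : G) ∈ (P : Subgroup G) → r ∈ (R : Subgroup _) := by
    intro r hr
    rw [hR, Subgroup.mem_subgroupOf]
    exact ⟨hr, r.2⟩
  have hRlt : H₀ < (R : Subgroup _) := by
    rw [hR]
    refine lt_of_le_of_ne (fun x hx => ?_) ?_
    · rw [Subgroup.mem_subgroupOf]
      exact ⟨hHP hx, x.2⟩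
    · intro e
      have h0 := congrArg (Subgroup.map (normalizer (H : Set G)).subtype) e
      rw [mapH₀, Subgroup.subgroupOf_map_subtype, inf_of_le_left inf_le_right] at h0
      exact hSlt.ne h0
  rcases dichotomy H₀ hH₀p R with ⟨T₀, h1, h2, h3⟩ | ⟨h1, h2⟩
  · set T : Subgroup G := T₀.map (normalizer (H : Set G)).subtype with hT
    have hHT : H < T := by
      rw [← mapH₀, hT]
      exact lt_of_le_of_ne (Subgroup.map_mono h1.le) fun e =>
        h1.ne (Subgroup.map_injective (Subgroup.subtype_injective _) e)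
    have hTP : T ≤ (P : Subgroup G) := by
      rintro _ ⟨t, ht, rfl⟩
      exact hRP _ (h2 ht)
    obtain ⟨d, hd, m', hm', e⟩ := h3 ⟨m, hm⟩
    have hmm : m = (d : G) * (m' : G) := congrArg Subtype.val e
    have hd' : (d : G) ∈ centralizer (H : Set G) := by
      rw [← map_centralizer_subgroupOf]
      exact ⟨d, hd, rfl⟩
    have hm'' : (m' : G) ∈ normalizer (T : Set G) :=
      Subgroup.le_normalizer_map _ ⟨m', hm', rfl⟩
    rw [hmm]
    apply Good.central hd'
    refine Good.mono hHT.le (IH T hHT hTP _ ?_)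
    rw [im_coe_of_mem_normalizer hm'']
    exact hTP
  · have hcent : (P : Subgroup G) ⊓ centralizer (H : Set G) ≤ H := by
      rintro x ⟨hx1, hx2⟩
      have hxN : x ∈ normalizer (H : Set G) := Subgroup.centralizer_le_normalizer _ hx2
      have h3 : (⟨x, hxN⟩ : ↥(normalizer (H : Set G))) ∈
          centralizer ((H.subgroupOf (normalizer (H : Set G)) : Subgroup _) : Set ↥(normalizer (H : Set G))) := by
        rw [Subgroup.mem_centralizer_iff]
        intro h hh
        apply Subtype.ext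
        exact Subgroup.mem_centralizer_iff.1 hx2 _ hh
      have h4 := h1 ⟨hmemR ⟨x, hxN⟩ hx1, h3⟩
      exact h4
    have hcore : (pPrimePCore p ↥(normalizer (H : Set G))).map (normalizer (H : Set G)).subtype =
        H ⊔ centralizer (H : Set G) := by
      rw [h2, Subgroup.map_sup, mapH₀, map_centralizer_subgroupOf]
    by_cases hconn : IsSylowChainConnected p (↥(normalizer (H : Set G)) ⧸ H₀)
    · have := conn_induction H₀ R hRlt (fun a => Good P (H : Set G) (a : G)) (good_one _)
        (fun a b ha hb => by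
          have h3 : im (a : G) (H : Set G) = H := im_coe_of_mem_normalizer a.2
          have := Good.comp ha (show Good P (im (a : G) (H : Set G)) (b : G) by rw [h3]; exact hb)
          exact this)
        (fun t z hz hz' htz => good_of_step hHP IH t.2 (hRP _ hz) (fun h => hz' h) (hRP _ htz))
        hconn ⟨m, hm⟩
      exact this
    · obtain ⟨X, x1, x2, x3, x4, x5⟩ := exists_X H hconn
        ((dvd_relIndex_of_lt (P.isPGroup'.to_le inf_le_left) hSlt).trans
          (Dvd.intro _ (Subgroup.relIndex_mul_relIndex _ _ _ hSlt.le inf_le_right)))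
      have hE : Ess P H X := ⟨hHP, hfn, hcent, hcore, hconn, x1, x2, x3, x4, x5⟩
      haveI hK : (X.subgroupOf (normalizer (H : Set G))).Normal :=
        (Subgroup.normal_subgroupOf_iff_le_normalizer x2).2 x3
      obtain ⟨k, hk, hkm⟩ := frattini' R (X.subgroupOf (normalizer (H : Set G))) ⟨m, hm⟩
      set S₁ : Subgroup G := (P : Subgroup G) ⊓ X with hS₁
      have hmapS₁ : ((R : Subgroup _) ⊓ X.subgroupOf (normalizer (H : Set G))).map
          (normalizer (H : Set G)).subtype = S₁ := by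
        rw [hR]
        ext x
        constructor
        · rintro ⟨r, ⟨h1, h2⟩, rfl⟩
          exact ⟨(Subgroup.mem_inf.1 ((Subgroup.mem_subgroupOf).1 h1)).1, (Subgroup.mem_subgroupOf).1 h2⟩
        · rintro ⟨h1, h2⟩
          exact ⟨⟨x, x2 h2⟩, ⟨Subgroup.mem_subgroupOf.2 ⟨h1, x2 h2⟩, Subgroup.mem_subgroupOf.2 h2⟩, rfl⟩
      have hu : ((k * ⟨m, hm⟩ : ↥(normalizer (H : Set G))) : G) ∈ normalizer (S₁ : Set G) := by
        rw [← hmapS₁]
        exact Subgroup.le_normalizer_map _ ⟨_, hkm, rfl⟩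
      have hnd : ¬ p ∣ S₁.relIndex X := by
        have h3 := Cfsg.Agent.Lib.Coprime.sylow_relIndex_normal_not_dvd R (X.subgroupOf (normalizer (H : Set G)))
        rw [hR] at h3
        have h4 : ((P : Subgroup G) ⊓ normalizer (H : Set G)).subgroupOf (normalizer (H : Set G)) =
          ((P : Subgroup G) ⊓ normalizer (H : Set G)).comap (normalizer (H : Set G)).subtype := rfl
        rw [h4, Subgroup.relIndex_comap, Subgroup.subgroupOf_map_subtype, inf_of_le_left x2,
          ← Subgroup.inf_relIndex_right, inf_assoc, inf_of_le_right x2] at h3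
        rw [hS₁, ← Subgroup.inf_relIndex_right, inf_assoc, inf_idem]
        exact h3
      have hSxp : IsPGroup p S₁ := P.isPGroup'.to_le inf_le_left
      obtain ⟨Sx, hSx⟩ := exists_sylow_of_le (S := S₁) (K := X) hSxp hnd
      have hsup := Cfsg.Agent.Lib.LocalEven.pResidual_sup_sylow Sx
      have hkX : (k : G) ∈ X := hk
      have hmem : (⟨(k : G)⁻¹, X.inv_mem hkX⟩ : ↥X) ∈ pResidual p ↥X ⊔ (Sx : Subgroup ↥X) := by
        rw [hsup]; exact Subgroup.mem_top _
      obtain ⟨z₀, hz₀, s₀, hs₀, e⟩ := Subgroup.mem_sup_of_normal_left.1 hmem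
      have hz : (z₀ : G) ∈ (pResidual p ↥X).map X.subtype := ⟨z₀, hz₀, rfl⟩
      have hs : (s₀ : G) ∈ S₁ := by
        rw [hSx] at hs₀
        exact hs₀
      have e' : (k : G)⁻¹ = (z₀ : G) * (s₀ : G) := (congrArg Subtype.val e).symm
      set u : G := (s₀ : G) * ((k : G) * m) with hudef
      have hum : m = (z₀ : G) * u := by
        rw [hudef, ← mul_assoc, ← e']
        group
      have hHS₁ : H ≤ S₁ := le_inf hHP x1
      have hlt₁ : H < S₁ := by
        refine lt_of_le_of_ne hHS₁ fun e2 => hnd ?_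
        rw [← e2]; exact x4
      have hu' : u ∈ normalizer (S₁ : Set G) :=
        Subgroup.mul_mem _ (Subgroup.le_normalizer hs) hu
      have g1 : Good P (H : Set G) u := Good.mono hHS₁ (IH S₁ hlt₁ inf_le_left u (by
        rw [im_coe_of_mem_normalizer hu']; exact inf_le_left (a := (P : Subgroup G)) (b := X)))
      have g0 : Good P (H : Set G) (z₀ : G) := good_of_word (by
        simpa using Word.cons hE hz (A := (H : Set G)) subset_rfl (Word.nil _))
      rw [hum]
      refine Good.comp g0 ?_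
      rw [im_coe_of_mem_normalizer (x2 z₀.2)]
      exact g1

end Cfsg.Agent.Lib.LocalEven2.AG
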