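import Cfsg.Agent.Lib.LocalEven2.AG4

/-!
# The induction of the strong Alperin--Goldschmidt fusion theorem
-/

set_option autoImplicit false
set_option linter.unusedSectionVars false

namespace Cfsg.Agent.Lib.LocalEven2.AG

open Subgroup Cfsg Cfsg.Agent.S3056 Cfsg.Agent.S3076 Cfsg.Agent.Lib.Basic Cfsg.Agent.Lib.LocalEven2
open Cfsg.Agent.Lib.LocalEven (cj mem_cj cj_mul cj_one cj_mono cj_inv_cj cj_cj_inv le_cj_iff
  cj_eq_of_mem_normalizer mem_normalizer_of_cj_eq)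

variable {G : Type*} [Group G] [Finite G] {p : ℕ} [Fact p.Prime]

theorem card_cj (f : G) (Q : Subgroup G) : Nat.card (cj f Q) = Nat.card Q :=
  Subgroup.card_map_of_injective (MulAut.conj f).injective

theorem card_lt_of_lt {A B : Subgroup G} (h : A < B) : Nat.card A < Nat.card B :=
  Nat.lt_of_le_of_ne (Subgroup.card_le_of_le h.le) fun e => h.ne (Subgroup.eq_of_le_of_card_ge h.le e.ge)

/-- One step of the extension of a fusion to the normalizer. -/
theorem exists_ext_step {P : Sylow p G} {Q₁ Q' : Subgroup G} {r : G} (hQ₁ : Q₁ < (P : Subgroup G))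
    (hr : cj r⁻¹ Q₁ = Q')
    (hfn : ¬ p ∣ ((P : Subgroup G) ⊓ normalizer (Q' : Set G)).relIndex (normalizer (Q' : Set G))) :
    Q₁ < (P : Subgroup G) ⊓ normalizer (Q₁ : Set G) ∧
    ∃ n ∈ normalizer (Q' : Set G), cj (r * n)⁻¹ ((P : Subgroup G) ⊓ normalizer (Q₁ : Set G)) ≤ (P : Subgroup G) := by
  constructor
  · obtain ⟨u, hu, hu', hun⟩ := Cfsg.Agent.Lib.PGroups.exists_mem_normalizer_of_lt P.isPGroup' hQ₁
    refine lt_of_le_of_ne (le_inf hQ₁.le Subgroup.le_normalizer) (fun e => hu' ?_)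
    rw [e]
    exact ⟨hu, Cfsg.Agent.Lib.Coprime.mem_normalizer_of_conj_le Q₁ u hun⟩
  · have hp : IsPGroup p ↥(cj r⁻¹ ((P : Subgroup G) ⊓ normalizer (Q₁ : Set G))) :=
      (P.isPGroup'.to_le inf_le_left).map _
    have hle : cj r⁻¹ ((P : Subgroup G) ⊓ normalizer (Q₁ : Set G)) ≤ normalizer (Q' : Set G) := by
      rw [← hr, ← map_normalizer_cj]
      exact cj_mono inf_le_right
    obtain ⟨n, hn, hn'⟩ := exists_extension hfn hp hle
    refine ⟨n, hn, ?_⟩
    rw [mul_inv_rev, cj_mul]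
    exact hn'

theorem main_step {P : Sylow p G} {Q : Subgroup G} (hQ : Q ≤ (P : Subgroup G))
    (IH : ∀ T : Subgroup G, T ≤ (P : Subgroup G) → Nat.card Q < Nat.card T →
      ∀ g, im g (T : Set G) ⊆ (P : Set G) → Good P (T : Set G) g)
    {g : G} (hg : im g (Q : Set G) ⊆ (P : Set G)) : Good P (Q : Set G) g := by
  classical
  by_cases hQe : Q = (P : Subgroup G)
  · subst hQe
    refine good_of_mem_normalizer _ ?_
    have h1 : g⁻¹ ∈ normalizer ((P : Subgroup G) : Set G) :=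
      Cfsg.Agent.Lib.Coprime.mem_normalizer_of_conj_le _ _ fun x hx => by
        have h2 : g⁻¹ * x * g ∈ (P : Subgroup G) := hg ⟨x, hx, rfl⟩
        simpa using h2
    simpa using Subgroup.inv_mem _ h1
  have hQlt : Q < (P : Subgroup G) := lt_of_le_of_ne hQ hQe
  have hQp : IsPGroup p Q := P.isPGroup'.to_le hQ
  obtain ⟨f, hf1, hf2⟩ := exists_fn P Q hQp
  set Q' : Subgroup G := cj f⁻¹ Q with hQ'
  have hcardQ' : Nat.card Q' = Nat.card Q := card_cj _ _
  set Q₂ : Subgroup G := cj g⁻¹ Q with hQ₂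
  have hQ₂P : Q₂ ≤ (P : Subgroup G) := by
    intro x hx
    have h1 : (x : G) ∈ im g (Q : Set G) := by
      rw [im_coe]; exact hx
    exact hg h1
  have hcardQ₂ : Nat.card Q₂ = Nat.card Q := card_cj _ _
  have hQ₂lt : Q₂ < (P : Subgroup G) := by
    refine lt_of_le_of_ne hQ₂P fun e => ?_
    have := card_lt_of_lt hQlt
    rw [← e] at this
    omega
  have hr₂ : cj (g⁻¹ * f)⁻¹ Q₂ = Q' := by
    rw [mul_inv_rev, inv_inv, cj_mul, hQ₂, cj_cj_inv]
  obtain ⟨h11, n₁, hn₁, h12⟩ := exists_ext_step hQlt (r := f) rfl hf2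
  obtain ⟨h21, n₂, hn₂, h22⟩ := exists_ext_step hQ₂lt hr₂ hf2
  set g₁ : G := f * n₁ with hg₁
  set g₂ : G := g⁻¹ * f * n₂ with hg₂
  have hcj1 : cj g₁⁻¹ Q = Q' := by
    rw [hg₁, mul_inv_rev, cj_mul, ← hQ', cj_eq_of_mem_normalizer (Subgroup.inv_mem _ hn₁)]
  have hcj2 : cj g₂⁻¹ Q₂ = Q' := by
    rw [hg₂, mul_inv_rev, cj_mul, hr₂, cj_eq_of_mem_normalizer (Subgroup.inv_mem _ hn₂)]
  have G1 : Good P (Q : Set G) g₁ := Good.mono (SetLike.coe_subset_coe.2 h11.le)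
    (IH _ inf_le_left (card_lt_of_lt h11) g₁ (by rw [im_coe]; exact h12))
  set N₂ : Subgroup G := (P : Subgroup G) ⊓ normalizer (Q₂ : Set G) with hN₂
  set R₂ : Subgroup G := cj g₂⁻¹ N₂ with hR₂
  have hcR₂ : Nat.card Q < Nat.card R₂ := by
    rw [hR₂, card_cj, ← hcardQ₂]; exact card_lt_of_lt h21
  have hQ'R₂ : Q' ≤ R₂ := by
    rw [← hcj2]; exact cj_mono h21.le
  have G3 : Good P (Q' : Set G) g₂⁻¹ := Good.mono (SetLike.coe_subset_coe.2 hQ'R₂)
    (IH R₂ h22 hcR₂ g₂⁻¹ (by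
      rw [im_coe, inv_inv, hR₂, cj_cj_inv]
      exact inf_le_left (a := (P : Subgroup G))))
  have hm : n₁⁻¹ * n₂ ∈ normalizer (Q' : Set G) := Subgroup.mul_mem _ (Subgroup.inv_mem _ hn₁) hn₂
  have hmid : Good P (Q' : Set G) (n₁⁻¹ * n₂) := middle hf1 hf2
    (fun T hT hTP g' hg' => IH T hTP (by rw [← hcardQ']; exact card_lt_of_lt hT) g' hg') hm
  have e : g = g₁ * ((n₁⁻¹ * n₂) * g₂⁻¹) := by
    rw [hg₁, hg₂]; group
  rw [e]
  refine Good.comp G1 ?_
  rw [show im g₁ (Q : Set G) = (Q' : Set G) by rw [im_coe, hcj1]]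
  refine Good.comp hmid ?_
  rw [im_coe_of_mem_normalizer hm]
  exact G3

/-- The main induction. -/
theorem main_good (P : Sylow p G) (Q : Subgroup G) (hQ : Q ≤ (P : Subgroup G)) :
    ∀ g, im g (Q : Set G) ⊆ (P : Set G) → Good P (Q : Set G) g := by
  induction' h : Nat.card (P : Subgroup G) - Nat.card Q using Nat.strong_induction_on with d ih generalizing Q
  intro g hg
  refine main_step hQ (fun T hT hc g' hg' => ih _ ?_ T hT rfl g' hg') hg
  have := Subgroup.card_le_of_le hT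
  omega

/-- The final form. -/
theorem final_form (P : Sylow p G) (A : Set G) (hA : A ⊆ (P : Set G)) (g : G)
    (hAg : (fun a => g⁻¹ * a * g) '' A ⊆ (P : Set G)) :
    ∃ (n : ℕ) (H X : Fin n → Subgroup G) (x : Fin n → G) (c y : G),
      c ∈ Subgroup.centralizer A ∧ y ∈ Subgroup.normalizer ((P : Subgroup G) : Set G) ∧
      g = c * (List.ofFn x).prod * y ∧
      ∀ i : Fin n, Ess P (H i) (X i) ∧ x i ∈ (pResidual p ↥(X i)).map (X i).subtype ∧
        (fun a => (((List.ofFn x).take i.val).prod)⁻¹ * a * ((List.ofFn x).take i.val).prod) '' A ⊆ (H i : Set G) := by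
  set Q : Subgroup G := closure A with hQ
  have hQP : Q ≤ (P : Subgroup G) := (Subgroup.closure_le _).2 hA
  have hQg : im g (Q : Set G) ⊆ (P : Set G) := by
    rw [im_coe]
    have h1 : Q ≤ cj g (P : Subgroup G) := by
      refine (Subgroup.closure_le _).2 fun a ha => ?_
      rw [SetLike.mem_coe, mem_cj]
      exact hAg ⟨a, ha, rfl⟩
    have h2 := le_cj_iff.1 h1
    exact h2
  obtain ⟨c, hc, y, hy, w, hw, rfl⟩ := (main_good P Q hQP g hQg).mono (show A ⊆ (Q : Set G) from Subgroup.subset_closure)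
  obtain ⟨n, H, X, x, rfl, hi⟩ := hw.unfold
  exact ⟨n, H, X, x, c, y, hc, hy, rfl, hi⟩

end Cfsg.Agent.Lib.LocalEven2.AG
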