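import Cfsg.Agent.Lib.Components.Layer
import Cfsg.Agent.Lib.Struct.Sylow
import Cfsg.Agent.Lib.LocalEven.Subnormal
import Cfsg.Agent.Lib.PGroups.Parts
import Cfsg.Agent.Lib.LocalEven2.Sylow

/-!
Permutation groups whose generalized Fitting subgroup is quasisimple and which contain many
3-cycles: the generalized Fitting subgroup is the alternating group on the moved points.
-/

set_option autoImplicit false

namespace Cfsg.Agent.Lib.LocalEven2.AltLift

open Equiv Equiv.Perm Cfsg
open scoped commutatorElement Pointwise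

section A

variable {α : Type*} [Fintype α] [DecidableEq α]

/-- The 3-cycles of `H`. -/
def Th (H : Subgroup (Perm α)) : Set (Perm α) := {t | t ∈ H ∧ t.IsThreeCycle}

/-- The subgroup generated by the 3-cycles of `H`. -/
def TT (H : Subgroup (Perm α)) : Subgroup (Perm α) := Subgroup.closure (Th H)

theorem TT_le (H : Subgroup (Perm α)) : TT H ≤ H := (Subgroup.closure_le _).2 (fun _ h => h.1)

theorem mem_TT {H : Subgroup (Perm α)} {t : Perm α} (h : t ∈ Th H) : t ∈ TT H :=
  Subgroup.subset_closure h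

theorem conj_mem_Th {H : Subgroup (Perm α)} {g t : Perm α} (hg : g ∈ H) (ht : t ∈ Th H) :
    g * t * g⁻¹ ∈ Th H := by
  refine ⟨H.mul_mem (H.mul_mem hg ht.1) (H.inv_mem hg), ?_⟩
  have : (g * t * g⁻¹).cycleType = t.cycleType := by
    exact Equiv.Perm.cycleType_conj
  exact this.trans ht.2

theorem inv_mem_Th {H : Subgroup (Perm α)} {t : Perm α} (ht : t ∈ Th H) : t⁻¹ ∈ Th H :=
  ⟨H.inv_mem ht.1, ht.2.inv⟩

theorem conj_mem_TT {H : Subgroup (Perm α)} {g t : Perm α} (hg : g ∈ H) (ht : t ∈ TT H) :
    g * t * g⁻¹ ∈ TT H := by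
  induction ht using Subgroup.closure_induction with
  | mem x hx => exact mem_TT (conj_mem_Th hg hx)
  | one => simp [(TT H).one_mem]
  | mul x y _ _ hx hy =>
    have : g * (x * y) * g⁻¹ = (g * x * g⁻¹) * (g * y * g⁻¹) := by group
    rw [this]
    exact (TT H).mul_mem hx hy
  | inv x _ hx =>
    have : g * x⁻¹ * g⁻¹ = (g * x * g⁻¹)⁻¹ := by group
    rw [this]
    exact (TT H).inv_mem hx

/-- `TT H`-orbits. -/
def orb (H : Subgroup (Perm α)) (a x : α) : Prop := ∃ g ∈ TT H, g a = x

theorem orb_self (H : Subgroup (Perm α)) (a : α) : orb H a a := ⟨1, (TT H).one_mem, rfl⟩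

theorem orb_trans {H : Subgroup (Perm α)} {a b c : α} (h1 : orb H a b) (h2 : orb H b c) : orb H a c := by
  obtain ⟨g, hg, rfl⟩ := h1
  obtain ⟨k, hk, rfl⟩ := h2
  exact ⟨k * g, (TT H).mul_mem hk hg, rfl⟩

theorem orb_symm {H : Subgroup (Perm α)} {a b : α} (h1 : orb H a b) : orb H b a := by
  obtain ⟨g, hg, rfl⟩ := h1
  exact ⟨g⁻¹, (TT H).inv_mem hg, by simp⟩

theorem orb_inv {H : Subgroup (Perm α)} {a x : α} {g : Perm α} (hg : g ∈ TT H) :
    orb H a (g x) ↔ orb H a x := by
  constructor
  · intro h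
    exact orb_trans h ⟨g⁻¹, (TT H).inv_mem hg, by simp⟩
  · intro h
    exact orb_trans h ⟨g, hg, rfl⟩

theorem orb_of_moved {H : Subgroup (Perm α)} {a x y : α} {t : Perm α} (ht : t ∈ Th H)
    (hx : orb H a x) (hxt : t x ≠ x) (hyt : t y ≠ y) : orb H a y := by
  have hs := (ht.2.isCycle).sameCycle hxt hyt
  obtain ⟨i, hi⟩ := hs
  refine orb_trans hx ⟨t ^ i, (TT H).zpow_mem (mem_TT ht) i, hi⟩

section G

variable (H : Subgroup (Perm α)) (p : α → Prop) [DecidablePred p]

/-- The group generated by 3-cycles of `H` living on a set. -/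
def GG : Subgroup (Perm (Subtype p)) :=
  Subgroup.closure {t | t.IsThreeCycle ∧ ofSubtype t ∈ H}

theorem GG_le : GG H p ≤ H.comap (ofSubtype : Perm (Subtype p) →* Perm α) :=
  (Subgroup.closure_le _).2 (fun _ h => h.2)

variable {H p}

theorem exists_sub {t : Perm α} (ht : t ∈ Th H) (hinv : ∀ x, p (t x) ↔ p x) (hsub : ∀ x, t x ≠ x → p x) :
    ∃ t' : Perm (Subtype p), t'.IsThreeCycle ∧ ofSubtype t' ∈ H ∧ ofSubtype t' = t := by
  have h1 : ofSubtype (t.subtypePerm hinv) = t := ofSubtype_subtypePerm hinv hsub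
  refine ⟨t.subtypePerm hinv, ?_, by rw [h1]; exact ht.1, h1⟩
  have h2 := Equiv.Perm.cycleType_ofSubtype (g := t.subtypePerm hinv)
  rw [h1] at h2
  show (t.subtypePerm hinv).cycleType = _
  rw [← h2]
  exact ht.2

end G

/-- Primitivity of `GG`. -/
theorem isPreprimitive_GG (H : Subgroup (Perm α)) (a : α) (p : α → Prop) [DecidablePred p]
    (hp : ∀ x, p x ↔ orb H a x) :
    MulAction.IsPreprimitive (GG H p) (Subtype p) := by
  let a₀ : Subtype p := ⟨a, (hp a).2 (orb_self H a)⟩
  have hgen : ∀ t ∈ Th H, ∀ x : α, t x ≠ x → p x →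
      ∃ t' : Perm (Subtype p), t' ∈ GG H p ∧ ofSubtype t' = t := by
    intro t ht x hx hpx
    obtain ⟨t', h1, h2, h3⟩ := exists_sub (p := p) ht
      (fun y => by rw [hp, hp]; exact orb_inv (mem_TT ht))
      (fun y hy => (hp y).2 (orb_of_moved ht ((hp x).1 hpx) hx hy))
    exact ⟨t', Subgroup.subset_closure ⟨h1, h2⟩, h3⟩
  have htrans1 : ∀ g ∈ TT H, (∀ x (hx : p x), (∃ k ∈ GG H p, (k a₀ : α) = x) → ∃ k ∈ GG H p, (k a₀ : α) = g x) ∧
      (∀ x (hx : p x), (∃ k ∈ GG H p, (k a₀ : α) = x) → ∃ k ∈ GG H p, (k a₀ : α) = g⁻¹ x) := by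
    intro g hg
    induction hg using Subgroup.closure_induction with
    | mem t ht =>
      have key : ∀ t ∈ Th H, ∀ x (hx : p x), (∃ k ∈ GG H p, (k a₀ : α) = x) →
          ∃ k ∈ GG H p, (k a₀ : α) = t x := by
        intro t ht x hx hk
        by_cases htx : t x = x
        · rw [htx]; exact hk
        · obtain ⟨t', ht', rfl⟩ := hgen t ht x htx hx
          obtain ⟨k, hk, hkx⟩ := hk
          refine ⟨t' * k, (GG H p).mul_mem ht' hk, ?_⟩
          rw [← hkx, Perm.mul_apply, ofSubtype_apply_coe]
      exact ⟨key t ht, key t⁻¹ (inv_mem_Th ht)⟩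
    | one => simp
    | mul x y _ _ hx hy =>
      constructor
      · intro z hz hk
        have h1 := hy.1 z hz hk
        obtain ⟨k, hk1, hk2⟩ := h1
        have hpy : p (y z) := by rw [← hk2]; exact (k a₀).2
        exact hx.1 _ hpy ⟨k, hk1, hk2⟩
      · intro z hz hk
        have h1 := hx.2 z hz hk
        obtain ⟨k, hk1, hk2⟩ := h1
        have hpy : p (x⁻¹ z) := by rw [← hk2]; exact (k a₀).2
        have := hy.2 _ hpy ⟨k, hk1, hk2⟩
        simpa [mul_inv_rev] using this
    | inv x _ hx =>
      exact ⟨hx.2, by simpa using hx.1⟩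
  have htrans : ∀ x : Subtype p, ∃ k ∈ GG H p, k a₀ = x := by
    rintro ⟨x, hx⟩
    obtain ⟨g, hg, rfl⟩ := (hp x).1 hx
    obtain ⟨k, hk, hk2⟩ := (htrans1 g hg).1 a ((hp a).2 (orb_self H a)) ⟨1, (GG H p).one_mem, rfl⟩
    exact ⟨k, hk, Subtype.ext hk2⟩
  haveI : MulAction.IsPretransitive (GG H p) (Subtype p) := by
    refine ⟨fun x y => ?_⟩
    obtain ⟨k₁, hk₁, h₁⟩ := htrans x
    obtain ⟨k₂, hk₂, h₂⟩ := htrans y
    refine ⟨⟨k₂ * k₁⁻¹, (GG H p).mul_mem hk₂ ((GG H p).inv_mem hk₁)⟩, ?_⟩
    show (k₂ * k₁⁻¹) x = y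
    rw [Perm.mul_apply, ← h₁, ← h₂]
    simp
  refine { toIsPretransitive := ‹_›, isTrivialBlock_of_isBlock := ?_ }
  intro B hB
  by_cases hsub : B.Subsingleton
  · exact Or.inl hsub
  right
  rw [Set.not_subsingleton_iff] at hsub
  obtain ⟨x, hx, y, hy, hxy⟩ := hsub
  rw [MulAction.isBlock_iff_smul_eq_or_disjoint] at hB
  have hfix : ∀ t' : Perm (Subtype p), t'.IsThreeCycle → ofSubtype t' ∈ H → ∀ z ∈ B, t' z ∈ B := by
    intro t' ht' ht'H z hz
    have hmem : t' ∈ GG H p := Subgroup.subset_closure ⟨ht', ht'H⟩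
    rcases hB ⟨t', hmem⟩ with h | h
    · rw [← h]
      exact Set.smul_mem_smul_set (a := (⟨t', hmem⟩ : GG H p)) hz
    · exfalso
      have hd : ∀ w ∈ B, t' w ∉ B := by
        intro w hw hw2
        exact Set.disjoint_left.1 h (Set.smul_mem_smul_set (a := (⟨t', hmem⟩ : GG H p)) hw) hw2
      have h4 : ({x, y, t' x, t' y} : Finset (Subtype p)) ⊆ t'.support := by
        intro w hw
        simp only [Finset.mem_insert, Finset.mem_singleton] at hw
        rw [Equiv.Perm.mem_support]
        rcases hw with rfl | rfl | rfl | rfl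
        · intro h; exact hd _ hx (by rw [h]; exact hx)
        · intro h; exact hd _ hy (by rw [h]; exact hy)
        · intro h
          have := t'.injective h
          exact hd _ hx (by rw [this]; exact hx)
        · intro h
          have := t'.injective h
          exact hd _ hy (by rw [this]; exact hy)
      have h5 := Finset.card_le_card h4
      rw [ht'.card_support] at h5
      have h6 : ({x, y, t' x, t' y} : Finset (Subtype p)).card = 4 := by
        rw [Finset.card_insert_of_notMem, Finset.card_insert_of_notMem, Finset.card_insert_of_notMem,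
          Finset.card_singleton]
        · simp only [Finset.mem_singleton]
          intro h
          exact hxy (t'.injective h)
        · simp only [Finset.mem_insert, Finset.mem_singleton, not_or]
          exact ⟨fun h => hd _ hx (by rw [← h]; exact hy), fun h => hd _ hy (by rw [← h]; exact hy)⟩
        · simp only [Finset.mem_insert, Finset.mem_singleton, not_or]
          exact ⟨hxy, fun h => hd _ hx (by rw [← h]; exact hx), fun h => hd _ hy (by rw [← h]; exact hx)⟩
      omega
  have hG : ∀ g ∈ GG H p, (∀ z ∈ B, g z ∈ B) ∧ (∀ z ∈ B, g⁻¹ z ∈ B) := by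
    intro g hg
    induction hg using Subgroup.closure_induction with
    | mem t' ht' =>
      refine ⟨hfix t' ht'.1 ht'.2, ?_⟩
      refine hfix t'⁻¹ ht'.1.inv ?_
      rw [map_inv]
      exact H.inv_mem ht'.2
    | one => simp
    | mul u v _ _ hu hv =>
      exact ⟨fun z hz => hu.1 _ (hv.1 z hz), fun z hz => by
        simpa [mul_inv_rev] using hv.2 _ (hu.2 z hz)⟩
    | inv u _ hu =>
      exact ⟨hu.2, by simpa using hu.1⟩
  rw [Set.eq_univ_iff_forall]
  intro z
  obtain ⟨k₁, hk₁, h₁⟩ := htrans x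
  obtain ⟨k₂, hk₂, h₂⟩ := htrans z
  have : z = (k₂ * k₁⁻¹) x := by
    rw [Perm.mul_apply, ← h₁, ← h₂]; simp
  rw [this]
  exact (hG _ ((GG H p).mul_mem hk₂ ((GG H p).inv_mem hk₁))).1 x hx

end A

section B

variable {α : Type*} [Fintype α] [DecidableEq α]

/-- The alternating group on a subset, inside `Perm α`. -/
def altS (p : α → Prop) [DecidablePred p] : Subgroup (Perm α) :=
  (alternatingGroup (Subtype p)).map ofSubtype

theorem inv_of_moved {w : Perm α} {p : α → Prop} (h : ∀ x, w x ≠ x → p x) (x : α) : p (w x) ↔ p x := by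
  by_cases hx : w x = x
  · rw [hx]
  · have h1 := h x hx
    have h2 : w (w x) ≠ w x := fun e => hx (w.injective e)
    exact ⟨fun _ => h1, fun _ => h _ h2⟩

theorem mem_altS {p : α → Prop} [DecidablePred p] {w : Perm α} :
    w ∈ altS p ↔ sign w = 1 ∧ ∀ x, w x ≠ x → p x := by
  constructor
  · rintro ⟨w', hw', rfl⟩
    refine ⟨?_, ?_⟩
    · rw [sign_ofSubtype]
      exact hw'
    · intro x hx
      by_contra hn
      exact hx (ofSubtype_apply_of_not_mem _ hn)
  · rintro ⟨h1, h2⟩
    refine ⟨w.subtypePerm (inv_of_moved h2), ?_, ofSubtype_subtypePerm _ h2⟩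
    show sign _ = 1
    rw [← sign_ofSubtype, ofSubtype_subtypePerm _ h2, h1]

theorem altS_le {H : Subgroup (Perm α)} {a : α} {p : α → Prop} [DecidablePred p]
    (hp : ∀ x, p x ↔ orb H a x) {t : Perm α} (ht : t ∈ Th H) (hta : t a ≠ a) : altS p ≤ H := by
  haveI := isPreprimitive_GG H a p hp
  obtain ⟨t', h1, h2, -⟩ := exists_sub (p := p) ht
    (fun y => by rw [hp, hp]; exact orb_inv (mem_TT ht))
    (fun y hy => (hp y).2 (orb_of_moved ht (orb_self H a) hta hy))
  have h3 : alternatingGroup (Subtype p) ≤ GG H p :=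
    alternatingGroup_le_of_isPreprimitive_of_isThreeCycle_mem (G := GG H p) inferInstance h1
      (Subgroup.subset_closure ⟨h1, h2⟩)
  have h4 := h3.trans (GG_le H p)
  rintro _ ⟨w, hw, rfl⟩
  exact h4 hw

theorem qs_alt {X : Type*} [Fintype X] [DecidableEq X] (h : 5 ≤ Nat.card X) :
    IsQuasisimple (alternatingGroup X) := by
  haveI := alternatingGroup.isSimpleGroup h
  have hc : Subgroup.center (alternatingGroup X) = ⊥ :=
    alternatingGroup.center_eq_bot (by omega)
  have hperf : Group.IsPerfect (alternatingGroup X) := by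
    refine ⟨?_⟩
    rcases IsSimpleGroup.eq_bot_or_eq_top_of_normal (commutator (alternatingGroup X)) inferInstance with h1 | h1
    · exfalso
      have h2 := (commutator_eq_bot_iff _).1 h1
      have h3 : Subgroup.center (alternatingGroup X) = ⊤ := Subgroup.center_eq_top_iff.2 h2
      rw [hc] at h3
      exact bot_ne_top h3
    · exact h1
  exact Cfsg.Agent.Lib.Components.qs_of_surjective_simple hperf (MonoidHom.id _)
    Function.surjective_id (by rw [MonoidHom.ker_id, hc])

/-- A perfect group acting on at most four points acts trivially. -/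
theorem act_trivial {X : Type*} [Group X] (hX : IsQuasisimple X) (f : X →* Perm α) (p : α → Prop)
    (hinv : ∀ k y, p (f k y) ↔ p y) (hc : Nat.card (Subtype p) ≤ 4) (k : X) (y : α) (hy : p y) : f k y = y := by
  classical
  let φ : X →* Perm (Subtype p) :=
    { toFun := fun k => (f k).subtypePerm (hinv k)
      map_one' := by
        ext z
        simp
      map_mul' := by
        intro a b
        ext z
        show (f (a * b)) z.1 = (f a) ((f b) z.1)
        rw [map_mul]
        rfl }
  have hs : Group.IsSolvable (Perm (Subtype p)) :=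
    Cfsg.Agent.Lib.Struct.isSolvable_perm_of_card_le_four hc
  have hr : Group.IsSolvable φ.range := inferInstance
  have hperf : Group.IsPerfect φ.range :=
    Cfsg.Agent.Lib.Components.isPerfect_of_surjective hX.1 φ.rangeRestrict φ.rangeRestrict_surjective
  have hsub : Subsingleton φ.range :=
    Cfsg.Agent.Lib.Components.subsingleton_of_perfect_of_solvable hperf.commutator_eq_top hr
  have h1 : φ k = 1 := by
    have : φ.rangeRestrict k = 1 := Subsingleton.elim _ _
    exact congrArg Subtype.val this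
  have h2 := congrArg (fun g : Perm (Subtype p) => ((g ⟨y, hy⟩ : Subtype p) : α)) h1
  simpa [φ] using h2

end B

section Main

variable {α : Type*} [Fintype α] [DecidableEq α]

open Cfsg.Agent.Lib.Components

/-- Moved points of the 3-cycles of `H`. -/
def Mv (H : Subgroup (Perm α)) (x : α) : Prop := ∃ t ∈ Th H, t x ≠ x

theorem TT_normal (H : Subgroup (Perm α)) : ((TT H).subgroupOf H).Normal := by
  refine ⟨fun n hn g => ?_⟩
  rw [Subgroup.mem_subgroupOf] at hn ⊢
  exact conj_mem_TT g.2 hn

theorem case_small (H : Subgroup (Perm α)) (hF : IsQuasisimple (generalizedFittingSubgroup ↥H))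
    (hsmall : ∀ a, ∀ t ∈ Th H, t a ≠ a → Nat.card (Subtype (orb H a)) ≤ 4)
    (hM : Nat.card {x // ¬ Mv H x} ≤ 4) : False := by
  classical
  set K := generalizedFittingSubgroup ↥H with hK
  have hKc : IsComponent K := ⟨(gfit_normal (G := ↥H)).isSubnormal, hF⟩
  let f : ↥K →* Perm α := H.subtype.comp K.subtype
  have hfix : ∀ (k : ↥K) (x : α), Mv H x → f k x = x := by
    rintro k x ⟨t, ht, htx⟩
    rcases component_le_or_commute hKc (TT_normal H).isSubnormal with hle | hcomm
    · have hk : ∀ k : ↥K, f k ∈ TT H := fun k => Subgroup.mem_subgroupOf.1 (hle k.2)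
      exact act_trivial hF f (orb H x) (fun k y => orb_inv (hk k)) (hsmall x t ht htx) k x (orb_self H x)
    · have hcm : ∀ k : ↥K, f k * t = t * f k := by
        intro k
        have h1 : K ≤ Subgroup.centralizer (((TT H).subgroupOf H : Subgroup ↥H) : Set ↥H) :=
          Subgroup.commutator_eq_bot_iff_le_centralizer.1 hcomm
        have h2 : (⟨t, ht.1⟩ : ↥H) ∈ (TT H).subgroupOf H := Subgroup.mem_subgroupOf.2 (mem_TT ht)
        have h3 := Subgroup.mem_centralizer_iff.1 (h1 k.2) _ h2
        have h4 := congrArg Subtype.val h3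
        exact h4.symm
      refine act_trivial hF f (fun y => t y ≠ y) ?_ ?_ k x htx
      · intro k y
        have h1 : t (f k y) = f k (t y) := by
          have := congrArg (fun g : Perm α => g y) (hcm k)
          exact this.symm
        show t (f k y) ≠ f k y ↔ t y ≠ y
        rw [h1]
        exact not_congr ((f k).injective.eq_iff)
      · rw [Nat.card_eq_fintype_card, Fintype.card_subtype]
        have : (Finset.univ.filter (fun y => t y ≠ y)) = t.support := by
          ext y
          simp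
        rw [this, ht.2.card_support]
        omega
  have hfix2 : ∀ (k : ↥K) (x : α), ¬ Mv H x → f k x = x := by
    refine act_trivial hF f (fun x => ¬ Mv H x) ?_ hM
    intro k y
    have h1 : Mv H (f k y) ↔ Mv H y := by
      constructor
      · intro h
        have e := (f k).injective (hfix k _ h)
        rw [e] at h
        exact h
      · intro h
        rw [hfix k y h]
        exact h
    exact not_congr h1
  have hall : ∀ k : ↥K, k = 1 := by
    intro k
    apply Subtype.ext
    apply Subtype.ext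
    ext x
    by_cases hx : Mv H x
    · exact hfix k x hx
    · exact hfix2 k x hx
  haveI := qs_nontrivial hF
  obtain ⟨u, v, huv⟩ := exists_pair_ne ↥K
  exact huv ((hall u).trans (hall v).symm)

/-- The small case never occurs once `H` contains a 3-cycle. -/
theorem case_small' (H : Subgroup (Perm α)) (hF : IsQuasisimple (generalizedFittingSubgroup ↥H))
    (hsmall : ∀ a, ∀ t ∈ Th H, t a ≠ a → Nat.card (Subtype (orb H a)) ≤ 4) {s : Perm α} (hs : s ∈ Th H) :
    False := by
  classical
  set K := generalizedFittingSubgroup ↥H with hK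
  have hKc : IsComponent K := ⟨(gfit_normal (G := ↥H)).isSubnormal, hF⟩
  let f : ↥K →* Perm α := H.subtype.comp K.subtype
  have hfix : ∀ (k : ↥K) (x : α), Mv H x → f k x = x := by
    rintro k x ⟨t, ht, htx⟩
    rcases component_le_or_commute hKc (TT_normal H).isSubnormal with hle | hcomm
    · have hk : ∀ k : ↥K, f k ∈ TT H := fun k => Subgroup.mem_subgroupOf.1 (hle k.2)
      exact act_trivial hF f (orb H x) (fun k y => orb_inv (hk k)) (hsmall x t ht htx) k x (orb_self H x)
    · have hcm : ∀ k : ↥K, f k * t = t * f k := by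
        intro k
        have h1 : K ≤ Subgroup.centralizer (((TT H).subgroupOf H : Subgroup ↥H) : Set ↥H) :=
          Subgroup.commutator_eq_bot_iff_le_centralizer.1 hcomm
        have h2 : (⟨t, ht.1⟩ : ↥H) ∈ (TT H).subgroupOf H := Subgroup.mem_subgroupOf.2 (mem_TT ht)
        have h3 := Subgroup.mem_centralizer_iff.1 (h1 k.2) _ h2
        have h4 := congrArg Subtype.val h3
        exact h4.symm
      refine act_trivial hF f (fun y => t y ≠ y) ?_ ?_ k x htx
      · intro k y
        have h1 : t (f k y) = f k (t y) := by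
          have := congrArg (fun g : Perm α => g y) (hcm k)
          exact this.symm
        show t (f k y) ≠ f k y ↔ t y ≠ y
        rw [h1]
        exact not_congr ((f k).injective.eq_iff)
      · rw [Nat.card_eq_fintype_card, Fintype.card_subtype]
        have : (Finset.univ.filter (fun y => t y ≠ y)) = t.support := by
          ext y
          simp
        rw [this, ht.2.card_support]
        omega
  -- `s` commutes with `K`
  have hcent : (⟨s, hs.1⟩ : ↥H) ∈ Subgroup.centralizer (K : Set ↥H) := by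
    rw [Subgroup.mem_centralizer_iff]
    intro k hk
    have hd : Disjoint (k : Perm α) s := by
      intro y
      by_cases hy : s y = y
      · right; exact hy
      · left
        exact hfix ⟨k, hk⟩ y ⟨s, hs, hy⟩
    exact Subtype.ext hd.commute.eq
  have h1 := centralizer_gfit_le hcent
  obtain ⟨x, hx⟩ : ∃ x, s x ≠ x := by
    by_contra hc
    push_neg at hc
    exact hs.2.ne_one (Equiv.ext hc)
  exact hx (hfix ⟨⟨s, hs.1⟩, h1⟩ x ⟨s, hs, hx⟩)

theorem app_inv' (h : Perm α) (y : α) : h (h⁻¹ y) = y := by simp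

theorem orb_conj {H : Subgroup (Perm α)} {h : Perm α} (hh : h ∈ H) {a z : α} (hz : orb H a z) :
    orb H (h a) (h z) := by
  obtain ⟨g, hg, rfl⟩ := hz
  exact ⟨h * g * h⁻¹, conj_mem_TT hh hg, by simp⟩

theorem conj_normalizes {H : Subgroup (Perm α)} {a : α} {p : α → Prop} [DecidablePred p]
    (hp : ∀ x, p x ↔ orb H a x) {h w : Perm α} (hh : h ∈ H) (hw : w ∈ altS p) :
    h * w * h⁻¹ ∈ Subgroup.normalizer (altS p : Set (Perm α)) := by
  have hw' := mem_altS.1 hw
  by_cases hc : orb H a (h a)
  · have hmem : h * w * h⁻¹ ∈ altS p := by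
      refine mem_altS.2 ⟨?_, ?_⟩
      · simp only [map_mul, map_inv, hw'.1, mul_one]
        simp
      · intro y hy
        have h1 : w (h⁻¹ y) ≠ h⁻¹ y := by
          intro e
          apply hy
          show h (w (h⁻¹ y)) = y
          rw [e, app_inv']
        have h2 := (hp _).1 (hw'.2 _ h1)
        have h3 := orb_conj hh h2
        simp only [app_inv'] at h3
        exact (hp y).2 (orb_trans hc h3)
    exact Subgroup.le_normalizer hmem
  · apply Cfsg.Agent.Lib.PGroups.mem_normalizer_of_conj_le'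
    intro u hu
    have hdisj : Disjoint (h * w * h⁻¹) u := by
      intro y
      by_cases hy : p y
      · left
        have h1 : w (h⁻¹ y) = h⁻¹ y := by
          by_contra hne
          have h2 := (hp _).1 (hw'.2 _ hne)
          have h3 := orb_conj hh h2
          simp only [app_inv'] at h3
          exact hc (orb_trans ((hp y).1 hy) (orb_symm h3))
        show h (w (h⁻¹ y)) = y
        rw [h1, app_inv']
      · right
        by_contra hne
        exact hy ((mem_altS.1 hu).2 y hne)
    have := hdisj.commute.eq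
    rw [this]
    simpa [mul_assoc] using hu

theorem case_big (H : Subgroup (Perm α)) (hF : IsQuasisimple (generalizedFittingSubgroup ↥H))
    {a : α} {t : Perm α} (ht : t ∈ Th H) (hta : t a ≠ a) (p : α → Prop) [DecidablePred p]
    (hp : ∀ x, p x ↔ orb H a x) (h5 : 5 ≤ Nat.card (Subtype p)) :
    (∀ x, Mv H x ↔ p x) ∧ Nonempty (↥(generalizedFittingSubgroup ↥H) ≃* alternatingGroup (Subtype p)) ∧
      (altS p).subgroupOf H = generalizedFittingSubgroup ↥H := by
  set K := generalizedFittingSubgroup ↥H with hK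
  have hKc : IsComponent K := ⟨(gfit_normal (G := ↥H)).isSubnormal, hF⟩
  have hAH := altS_le hp ht hta
  set A' := (altS p).subgroupOf H with hA'
  have heq1 : ↥A' ≃* ↥(altS p) := Subgroup.subgroupOfEquivOfLe hAH
  have heq2 : ↥(alternatingGroup (Subtype p)) ≃* ↥(altS p) :=
    (alternatingGroup (Subtype p)).equivMapOfInjective ofSubtype ofSubtype_injective
  have hqs : IsQuasisimple ↥A' := qs_of_mulEquiv (qs_alt h5) (heq2.trans heq1.symm)
  have hsn : A'.IsSubnormal := by
    refine Cfsg.Agent.Lib.LocalEven.isSubnormal_of_le_normalizer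
      (K := Subgroup.normalClosure (A' : Set ↥H)) (Subgroup.le_normalClosure) ?_
      (Subgroup.normalClosure_normal).isSubnormal
    refine (Subgroup.closure_le _).2 ?_
    intro x hx
    obtain ⟨w, hw, hwx⟩ := Group.mem_conjugatesOfSet_iff.1 hx
    obtain ⟨c, rfl⟩ := isConj_iff.1 hwx
    have h1 := conj_normalizes hp c.2 (Subgroup.mem_subgroupOf.1 hw)
    apply Cfsg.Agent.Lib.PGroups.mem_normalizer_of_conj_le'
    intro u hu
    rw [hA', Subgroup.mem_subgroupOf] at hu ⊢
    have h2 := (Subgroup.mem_normalizer_iff.1 h1 u).1 hu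
    exact h2
  have hA'c : IsComponent A' := ⟨hsn, hqs⟩
  have hKA : A' = K := by
    rcases component_eq_or_commute hA'c hKc with h | h
    · exact h
    · exfalso
      have h1 : A' ≤ Subgroup.centralizer (K : Set ↥H) :=
        Subgroup.commutator_eq_bot_iff_le_centralizer.1 h
      have h2 : A' ≤ K := h1.trans centralizer_gfit_le
      have h3 : ⁅A', A'⁆ = ⊥ := by
        refine le_bot_iff.1 ?_
        rw [← h]
        exact Subgroup.commutator_mono le_rfl h2
      rw [component_self hA'c] at h3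
      exact component_ne_bot hA'c h3
  refine ⟨?_, ⟨(MulEquiv.subgroupCongr hKA.symm).trans (heq1.trans heq2.symm)⟩, hKA⟩
  intro x
  constructor
  · rintro ⟨s, hs, hsx⟩
    by_contra hx
    have hfix : ∀ y, p y → s y = y := by
      intro y hy
      by_contra hne
      exact hx ((hp x).2 (orb_of_moved hs ((hp y).1 hy) hne hsx))
    have hcent : (⟨s, hs.1⟩ : ↥H) ∈ Subgroup.centralizer (K : Set ↥H) := by
      rw [Subgroup.mem_centralizer_iff]
      intro k hk
      have hk2 : (k : Perm α) ∈ altS p := Subgroup.mem_subgroupOf.1 (by rw [← hA', hKA]; exact hk)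
      have hd : Disjoint (k : Perm α) s := by
        intro y
        by_cases hy : p y
        · right; exact hfix y hy
        · left
          by_contra hne
          exact hy ((mem_altS.1 hk2).2 y hne)
      exact Subtype.ext hd.commute.eq
    have h1 := centralizer_gfit_le hcent
    rw [← hK, ← hKA, hA', Subgroup.mem_subgroupOf] at h1
    exact hx ((mem_altS.1 h1).2 x hsx)
  · intro hx
    obtain ⟨g, hg, rfl⟩ := (hp x).1 hx
    have hgH := TT_le H hg
    refine ⟨g * t * g⁻¹, conj_mem_Th hgH ht, ?_⟩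
    simpa using hta

/-- The main theorem: `F*(H)` is the alternating group on the moved points of the 3-cycles of `H`. -/
theorem main_alt (H : Subgroup (Perm α)) (hF : IsQuasisimple (generalizedFittingSubgroup ↥H))
    (hM : Nat.card {x // ¬ Mv H x} ≤ 4) :
    Nonempty (↥(generalizedFittingSubgroup ↥H) ≃* alternatingGroup (Fin (Nat.card {x // Mv H x}))) := by
  classical
  by_cases hbig : ∀ a, ∀ t ∈ Th H, t a ≠ a → Nat.card (Subtype (orb H a)) ≤ 4
  · exact (case_small H hF hbig hM).elim
  · push_neg at hbig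
    obtain ⟨a, t, ht, hta, h5⟩ := hbig
    obtain ⟨h1, ⟨e⟩, -⟩ := case_big H hF ht hta (orb H a) (fun _ => Iff.rfl) h5
    have h2 : Mv H = orb H a := funext fun x => propext (h1 x)
    have hcard : Nat.card (Subtype (orb H a)) = Fintype.card (Fin (Nat.card {x // Mv H x})) := by
      simp [h2]
    have e2 : Subtype (orb H a) ≃ Fin (Nat.card {x // Mv H x}) := by
      refine Fintype.equivOfCardEq ?_
      rw [← hcard, Nat.card_eq_fintype_card]
    exact ⟨e.trans e2.altCongrHom⟩

/-- Once `H` contains a 3-cycle, `F*(H)` is the alternating group on the moved points. -/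
theorem main_alt' (H : Subgroup (Perm α)) (hF : IsQuasisimple (generalizedFittingSubgroup ↥H))
    {s : Perm α} (hs : s ∈ Th H) [DecidablePred (Mv H)] :
    (altS (Mv H)).subgroupOf H = generalizedFittingSubgroup ↥H ∧
    Nonempty (↥(generalizedFittingSubgroup ↥H) ≃* alternatingGroup (Fin (Nat.card {x // Mv H x}))) := by
  classical
  by_cases hbig : ∀ a, ∀ t ∈ Th H, t a ≠ a → Nat.card (Subtype (orb H a)) ≤ 4
  · exact (case_small' H hF hbig hs).elim
  · push_neg at hbig
    obtain ⟨a, t, ht, hta, h5⟩ := hbig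
    have hdec : DecidablePred (orb H a) := Classical.decPred _
    obtain ⟨h1, ⟨e⟩, h3⟩ := case_big H hF ht hta (orb H a) (fun _ => Iff.rfl) h5
    have h2 : Mv H = orb H a := funext fun x => propext (h1 x)
    have hcard : Nat.card (Subtype (orb H a)) = Fintype.card (Fin (Nat.card {x // Mv H x})) := by
      simp [h2]
    have e2 : Subtype (orb H a) ≃ Fin (Nat.card {x // Mv H x}) := by
      refine Fintype.equivOfCardEq ?_
      rw [← hcard, Nat.card_eq_fintype_card]
    refine ⟨?_, ⟨e.trans e2.altCongrHom⟩⟩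
    rw [← h3]
    congr 1
    ext w
    rw [mem_altS, mem_altS]
    simp only [h1]

end Main

section Syl3

variable {α : Type*} [Fintype α] [DecidableEq α]

theorem fix_le_two (P : Sylow 3 (Perm α)) :
    Nat.card {x // ∀ g ∈ (P : Subgroup (Perm α)), g x = x} ≤ 2 := by
  classical
  by_contra hc
  push_neg at hc
  rw [Nat.card_eq_fintype_card, Fintype.card_subtype, Finset.two_lt_card] at hc
  obtain ⟨a, ha, b, hb, c, hc', hab, hac, hbc⟩ := hc
  simp only [Finset.mem_filter, Finset.mem_univ, true_and] at ha hb hc'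
  have ht := isThreeCycle_swap_mul_swap_same hab hac hbc
  set t := swap a b * swap a c with hdef
  have hcomm : ∀ g ∈ (P : Subgroup (Perm α)), g * t * g⁻¹ = t := by
    intro g hg
    have h1 : g * swap a b * g⁻¹ = swap a b := by
      rw [mul_swap_eq_swap_mul, ha g hg, hb g hg]
      simp
    have h2 : g * swap a c * g⁻¹ = swap a c := by
      rw [mul_swap_eq_swap_mul, ha g hg, hc' g hg]
      simp
    calc g * t * g⁻¹ = (g * swap a b * g⁻¹) * (g * swap a c * g⁻¹) := by rw [hdef]; group
      _ = t := by rw [h1, h2]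
  have hP : (P : Subgroup (Perm α)) ≤ Subgroup.normalizer (Subgroup.zpowers t : Set (Perm α)) := by
    intro g hg
    apply Cfsg.Agent.Lib.PGroups.mem_normalizer_of_conj_le'
    intro w hw
    obtain ⟨n, rfl⟩ := hw
    simp only
    rw [← conj_zpow, hcomm g hg]
    exact Subgroup.zpow_mem _ (Subgroup.mem_zpowers t) n
  have hz : IsPGroup 3 (Subgroup.zpowers t) :=
    Cfsg.Agent.Lib.PGroups.isPGroup_zpowers_iff.2 ⟨1, by rw [ht.orderOf, pow_one]⟩
  haveI : Fact (Nat.Prime 3) := ⟨Nat.prime_three⟩
  have hsup := P.isPGroup'.to_sup_of_normal_right' hz hP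
  have h1 := P.is_maximal' hsup le_sup_left
  have h2 : t ∈ (P : Subgroup (Perm α)) := by
    have : t ∈ (P : Subgroup (Perm α)) ⊔ Subgroup.zpowers t :=
      (le_sup_right : Subgroup.zpowers t ≤ _) (Subgroup.mem_zpowers t)
    rwa [h1] at this
  have h3 := ha t h2
  rw [hdef, Perm.mul_apply, swap_apply_left, swap_apply_of_ne_of_ne hac.symm hbc.symm] at h3
  exact hac h3.symm

theorem exists_tc {P : Sylow 3 (Perm α)} {a : α} {g₀ : Perm α} (hg₀ : g₀ ∈ (P : Subgroup (Perm α)))
    (hm : g₀ a ≠ a) : ∃ t ∈ (P : Subgroup (Perm α)), t.IsThreeCycle ∧ t a ≠ a := by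
  classical
  haveI : Fact (Nat.Prime 3) := ⟨Nat.prime_three⟩
  set Q := (P : Subgroup (Perm α)) with hQ
  have hQp : IsPGroup 3 Q := P.isPGroup'
  let S : Subgroup (Perm α) := Q ⊓ MulAction.stabilizer (Perm α) a
  have hSmem : ∀ g, g ∈ S ↔ g ∈ Q ∧ g a = a := by
    intro g
    rw [Subgroup.mem_inf, MulAction.mem_stabilizer_iff]
    rfl
  have hSlt : S < Q := by
    refine lt_of_le_of_ne inf_le_left ?_
    intro h
    have : g₀ ∈ S := by rw [h]; exact hg₀
    exact hm ((hSmem _).1 this).2
  obtain ⟨y, hy, hyS⟩ := SetLike.exists_of_lt (Cfsg.Agent.Lib.LocalEven2.lt_inf_normalizer_of_lt hQp hSlt)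
  obtain ⟨hyQ, hyN⟩ := hy
  -- a suitable power
  have hex : ∃ j : ℕ, y ^ (3 ^ j) ∈ S := by
    obtain ⟨k, hk⟩ := hQp ⟨y, hyQ⟩
    refine ⟨k, ?_⟩
    have : y ^ 3 ^ k = 1 := congrArg Subtype.val hk
    rw [this]
    exact S.one_mem
  have hj0 : Nat.find hex ≠ 0 := by
    intro h0
    have := Nat.find_spec hex
    rw [h0] at this
    simp only [pow_zero, pow_one] at this
    exact hyS this
  set j := Nat.find hex with hj
  obtain ⟨i, hi⟩ := Nat.exists_eq_succ_of_ne_zero hj0
  have hxS : y ^ (3 ^ i) ∉ S := Nat.find_min hex (by omega)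
  have hx3 : (y ^ (3 ^ i)) ^ 3 ∈ S := by
    have := Nat.find_spec hex
    rw [← hj, hi, Nat.succ_eq_add_one, pow_succ, pow_mul] at this
    exact this
  set x := y ^ (3 ^ i) with hx
  have hxQ : x ∈ Q := Q.pow_mem hyQ _
  have hxN : x ∈ Subgroup.normalizer (S : Set (Perm α)) := Subgroup.pow_mem _ hyN _
  have hxa : x a ≠ a := fun e => hxS ((hSmem x).2 ⟨hxQ, e⟩)
  have hx3a : x (x (x a)) = a := by
    have := ((hSmem _).1 hx3).2
    simpa [pow_succ, Perm.mul_apply] using this
  let f : ℤ → α := fun j => (x ^ j) a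
  have hf0 : f 0 = a := by simp [f]
  have hf1 : f 1 = x a := by simp [f]
  have hf2 : f 2 = x (x a) := by
    show (x ^ (2 : ℤ)) a = _
    rw [show (2 : ℤ) = ((2 : ℕ) : ℤ) by norm_num, zpow_natCast, pow_two, Perm.mul_apply]
  have hxx : x (x a) ≠ x a := fun e => hxa (x.injective e)
  have hxxa : x (x a) ≠ a := by
    intro e
    apply hxa
    calc x a = x (x (x a)) := by rw [e]
      _ = a := hx3a
  have hfs : ∀ j : ℤ, x (f j) = f (j + 1) := by
    intro j
    show x ((x ^ j) a) = (x ^ (j + 1)) a
    rw [add_comm, zpow_add, zpow_one, Perm.mul_apply]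
  have hf3 : ∀ j : ℤ, f (j + 3) = f j := by
    intro j
    show (x ^ (j + 3)) a = _
    have : x ^ (j + 3) = x ^ j * x ^ (3 : ℕ) := by
      rw [zpow_add]
      rfl
    rw [this, Perm.mul_apply]
    have h3 : (x ^ (3 : ℕ)) a = a := ((hSmem _).1 hx3).2
    rw [h3]
  have hfcases : ∀ j : ℤ, f j = a ∨ f j = x a ∨ f j = x (x a) := by
    intro j
    have hmod : ∀ q : ℤ, ∀ r : ℤ, f (r + 3 * q) = f r := by
      intro q
      induction q using Int.induction_on with
      | zero => simp
      | succ q ih =>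
        intro r
        have : r + 3 * ((q : ℤ) + 1) = (r + 3 * q) + 3 := by ring
        rw [this, hf3, ih]
      | pred q ih =>
        intro r
        have h1 := hf3 (r + 3 * (-(q : ℤ) - 1))
        have h2 : r + 3 * (-(q : ℤ) - 1) + 3 = r + 3 * (-(q : ℤ)) := by ring
        rw [h2, ih] at h1
        exact h1.symm
    have h1 := hmod (j / 3) (j % 3)
    rw [Int.emod_add_mul_ediv] at h1
    rw [h1]
    have hr : j % 3 = 0 ∨ j % 3 = 1 ∨ j % 3 = 2 := by omega
    rcases hr with h | h | h <;> rw [h]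
    · left; exact hf0
    · right; left; exact hf1
    · right; right; exact hf2
  -- the three-cycle
  have ht := isThreeCycle_swap_mul_swap_same hxxa.symm hxa.symm hxx
  set t := swap a (x (x a)) * swap a (x a) with htdef
  have hta : t a = x a := by
    rw [htdef, Perm.mul_apply, swap_apply_left, swap_apply_of_ne_of_ne hxa hxx.symm]
  have hta1 : t (x a) = x (x a) := by
    rw [htdef, Perm.mul_apply, swap_apply_right, swap_apply_left]
  have hta2 : t (x (x a)) = a := by
    rw [htdef, Perm.mul_apply, swap_apply_of_ne_of_ne hxxa hxx, swap_apply_right]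
  have htz : ∀ z, z ≠ a → z ≠ x a → z ≠ x (x a) → t z = z := by
    intro z h1 h2 h3
    rw [htdef, Perm.mul_apply, swap_apply_of_ne_of_ne h1 h2, swap_apply_of_ne_of_ne h1 h3]
  have htf : ∀ j : ℤ, t (f j) = f (j + 1) := by
    intro j
    rw [← hfs]
    rcases hfcases j with h | h | h <;> rw [h]
    · rw [hta]
    · rw [hta1]
    · rw [hta2, hx3a]
  have htn : ∀ z, (∀ j : ℤ, z ≠ f j) → t z = z := by
    intro z hz
    apply htz z
    · rw [← hf0]; exact hz 0
    · rw [← hf1]; exact hz 1
    · rw [← hf2]; exact hz 2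
  -- the block property
  have hw : ∀ w ∈ Q, ∀ j₀ j₁ : ℤ, w (f j₀) = f j₁ → ∀ j : ℤ, w (f j) = f (j + j₁ - j₀) := by
    intro w hwQ j₀ j₁ h j
    set s := x ^ (-j₁) * w * x ^ j₀ with hs
    have hsS : s ∈ S := by
      rw [hSmem]
      refine ⟨Q.mul_mem (Q.mul_mem (Q.zpow_mem hxQ _) hwQ) (Q.zpow_mem hxQ _), ?_⟩
      show (x ^ (-j₁)) (w ((x ^ j₀) a)) = a
      show (x ^ (-j₁)) (w (f j₀)) = a
      rw [h]
      show (x ^ (-j₁)) ((x ^ j₁) a) = a
      rw [← Perm.mul_apply, ← zpow_add]
      simp
    have hw2 : w = x ^ j₁ * s * x ^ (-j₀) := by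
      rw [hs]; group
    have hcj : ∀ m : ℤ, x ^ (-m) * s * x ^ m ∈ S := by
      intro m
      have h1 : x ^ (-m) ∈ Subgroup.normalizer (S : Set (Perm α)) := Subgroup.zpow_mem _ hxN _
      have h2 := (Subgroup.mem_normalizer_iff.1 h1 s).1 hsS
      have e : x ^ (-m) * s * x ^ m = x ^ (-m) * s * (x ^ (-m))⁻¹ := by
        rw [zpow_neg, inv_inv]
      rw [e]
      exact h2
    have h3 : w * x ^ j = x ^ (j + j₁ - j₀) * (x ^ (-(j - j₀)) * s * x ^ (j - j₀)) := by
      rw [hw2]
      have e1 : x ^ (j + j₁ - j₀) = x ^ j₁ * x ^ (j - j₀) := by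
        rw [← zpow_add]; congr 1; ring
      have e2 : x ^ j = x ^ j₀ * x ^ (j - j₀) := by
        rw [← zpow_add]; congr 1; ring
      rw [e1, e2, zpow_neg, zpow_neg]
      group
    show w ((x ^ j) a) = (x ^ (j + j₁ - j₀)) a
    have h4 := congrArg (fun g : Perm α => g a) h3
    simp only [Perm.mul_apply] at h4
    have h5 := ((hSmem _).1 (hcj (j - j₀))).2
    simp only [Perm.mul_apply] at h5
    rw [h4, h5]
  -- conjugates of `t`
  have hdich : ∀ w ∈ Q, Commute t (w * t * w⁻¹) := by
    intro w hwQ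
    by_cases h : ∃ j₀ j₁ : ℤ, w (f j₀) = f j₁
    · obtain ⟨j₀, j₁, h⟩ := h
      have hw' := hw w hwQ j₀ j₁ h
      have : w * t * w⁻¹ = t := by
        ext z
        show w (t (w⁻¹ z)) = t z
        by_cases hz : ∃ j : ℤ, z = f j
        · obtain ⟨j, rfl⟩ := hz
          have h1 : w⁻¹ (f j) = f (j - j₁ + j₀) := by
            rw [Perm.inv_eq_iff_eq, hw']
            congr 1
            ring
          rw [h1, htf, hw', htf]
          congr 1
          ring
        · push_neg at hz
          have h1 : ∀ i : ℤ, w⁻¹ z ≠ f i := by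
            intro i hi
            apply hz (i + j₁ - j₀)
            rw [← hw', ← hi]
            simp
          rw [htn _ h1, htn z hz]
          simp
      rw [this]
    · push_neg at h
      have hd : Disjoint t (w * t * w⁻¹) := by
        intro z
        by_cases hz : ∃ j : ℤ, z = f j
        · obtain ⟨j, rfl⟩ := hz
          right
          show w (t (w⁻¹ (f j))) = f j
          have h1 : ∀ i : ℤ, w⁻¹ (f j) ≠ f i := by
            intro i hi
            apply h i j
            rw [← hi]
            simp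
          rw [htn _ h1]
          simp
        · push_neg at hz
          left
          exact htn z hz
      exact hd.commute
  let gens : Set (Perm α) := {c | ∃ u ∈ Q, c = u * t * u⁻¹}
  have hgens : ∀ c ∈ gens, ∀ d ∈ gens, Commute c d := by
    rintro _ ⟨u, hu, rfl⟩ _ ⟨v, hv, rfl⟩
    have h1 := hdich (u⁻¹ * v) (Q.mul_mem (Q.inv_mem hu) hv)
    have h2 : u * (t * ((u⁻¹ * v) * t * (u⁻¹ * v)⁻¹)) * u⁻¹ =
        u * (((u⁻¹ * v) * t * (u⁻¹ * v)⁻¹) * t) * u⁻¹ := by rw [h1.eq]
    show (u * t * u⁻¹) * (v * t * v⁻¹) = (v * t * v⁻¹) * (u * t * u⁻¹)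
    calc (u * t * u⁻¹) * (v * t * v⁻¹) = u * (t * ((u⁻¹ * v) * t * (u⁻¹ * v)⁻¹)) * u⁻¹ := by group
      _ = u * (((u⁻¹ * v) * t * (u⁻¹ * v)⁻¹) * t) * u⁻¹ := h2
      _ = (v * t * v⁻¹) * (u * t * u⁻¹) := by group
  let A : Subgroup (Perm α) := Subgroup.closure gens
  have hAcomm : ∀ c ∈ A, ∀ d ∈ A, Commute c d := by
    intro c hc d hd
    have h1 : A ≤ Subgroup.centralizer gens := by
      refine (Subgroup.closure_le _).2 ?_
      intro g hg
      rw [SetLike.mem_coe, Subgroup.mem_centralizer_iff]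
      intro h hh
      exact hgens h hh g hg
    have h2 : gens ⊆ Subgroup.centralizer (A : Set (Perm α)) := by
      intro g hg
      rw [SetLike.mem_coe, Subgroup.mem_centralizer_iff]
      intro h hh
      have := Subgroup.mem_centralizer_iff.1 (h1 hh) g hg
      exact this.symm
    have h3 : A ≤ Subgroup.centralizer (A : Set (Perm α)) := (Subgroup.closure_le _).2 h2
    exact (Subgroup.mem_centralizer_iff.1 (h3 hd) c hc)
  have hApow : ∀ c ∈ A, c ^ 3 = 1 := by
    intro c hc
    induction hc using Subgroup.closure_induction with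
    | mem c hc =>
      obtain ⟨u, -, rfl⟩ := hc
      rw [conj_pow]
      have : t ^ 3 = 1 := by
        rw [← ht.orderOf, pow_orderOf_eq_one]
      rw [this]
      group
    | one => simp
    | mul c d hc hd h1 h2 =>
      rw [(hAcomm c hc d hd).mul_pow, h1, h2, one_mul]
    | inv c _ h1 =>
      rw [inv_pow, h1, inv_one]
  have hAp : IsPGroup 3 A := by
    intro c
    refine ⟨1, ?_⟩
    apply Subtype.ext
    simpa using hApow c c.2
  have hAN : Q ≤ Subgroup.normalizer (A : Set (Perm α)) := by
    intro g hg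
    apply Cfsg.Agent.Lib.PGroups.mem_normalizer_of_conj_le'
    intro w hw
    induction hw using Subgroup.closure_induction with
    | mem c hc =>
      obtain ⟨u, hu, rfl⟩ := hc
      apply Subgroup.subset_closure
      exact ⟨g * u, Q.mul_mem hg hu, by group⟩
    | one => simp [A.one_mem]
    | mul c d _ _ h1 h2 =>
      have : g * (c * d) * g⁻¹ = (g * c * g⁻¹) * (g * d * g⁻¹) := by group
      rw [this]
      exact A.mul_mem h1 h2
    | inv c _ h1 =>
      have : g * c⁻¹ * g⁻¹ = (g * c * g⁻¹)⁻¹ := by group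
      rw [this]
      exact A.inv_mem h1
  have hsup := hQp.to_sup_of_normal_right' hAp hAN
  have h1 := P.is_maximal' hsup le_sup_left
  have htA : t ∈ A := Subgroup.subset_closure ⟨1, Q.one_mem, by simp⟩
  have htQ : t ∈ Q := by
    have : t ∈ Q ⊔ A := (le_sup_right : A ≤ Q ⊔ A) htA
    rwa [h1] at this
  exact ⟨t, htQ, ht, by rw [hta]; exact hxa⟩

/-- A Sylow 3-subgroup moves all but at most two points, each by one of its 3-cycles. -/
theorem card_not_Mv_le (H : Subgroup (Perm α)) (P : Sylow 3 (Perm α)) (hPH : (P : Subgroup (Perm α)) ≤ H) :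
    Nat.card {x // ¬ Mv H x} ≤ 2 := by
  refine le_trans ?_ (fix_le_two P)
  apply Nat.card_mono (Set.toFinite _)
  intro x hx g hg
  by_contra hne
  obtain ⟨t, ht, ht3, hta⟩ := exists_tc hg hne
  exact hx ⟨t, ⟨hPH ht, ht3⟩, hta⟩

end Syl3

end Cfsg.Agent.Lib.LocalEven2.AltLift
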