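import Cfsg.Agent.Lib.LocalEven2.AltLift

/-!
Permutation groups with quasisimple `F*` containing the products of pairs of transpositions
from a fixed family of disjoint transpositions: they contain a 3-cycle.
-/

set_option autoImplicit false

namespace Cfsg.Agent.Lib.LocalEven2.AltLift

open Equiv Equiv.Perm Cfsg
open scoped commutatorElement Pointwise
open Cfsg.Agent.Lib.Components

section Pairs

variable {α : Type*} [Fintype α] [DecidableEq α]

theorem comm_swap {a b c d : α} (h1 : a ≠ c) (h2 : a ≠ d) (h3 : b ≠ c) (h4 : b ≠ d) :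
    Commute (swap a b) (swap c d) := by
  have hd : Disjoint (swap a b) (swap c d) := by
    intro x
    by_cases hx : x = a
    · right
      rw [hx]
      exact swap_apply_of_ne_of_ne h1 h2
    by_cases hy : x = b
    · right
      rw [hy]
      exact swap_apply_of_ne_of_ne h3 h4
    · left
      exact swap_apply_of_ne_of_ne hx hy
  exact hd.commute

/-- Double transpositions with prescribed support. -/
def IsDT (t : Perm α) (a b c d : α) : Prop :=
  a ≠ b ∧ a ≠ c ∧ a ≠ d ∧ b ≠ c ∧ b ≠ d ∧ c ≠ d ∧ t = swap a b * swap c d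

/-- Double transpositions of `H`. -/
def Th2 (H : Subgroup (Perm α)) : Set (Perm α) := {t | t ∈ H ∧ ∃ a b c d, IsDT t a b c d}

theorem IsDT.moved {t : Perm α} {a b c d : α} (h : IsDT t a b c d) (x : α) :
    t x ≠ x ↔ x = a ∨ x = b ∨ x = c ∨ x = d := by
  obtain ⟨h1, h2, h3, h4, h5, h6, rfl⟩ := h
  constructor
  · intro hx
    by_contra hc
    push_neg at hc
    apply hx
    rw [Perm.mul_apply, swap_apply_of_ne_of_ne hc.2.2.1 hc.2.2.2, swap_apply_of_ne_of_ne hc.1 hc.2.1]
  · rintro (rfl | rfl | rfl | rfl)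
    · rw [Perm.mul_apply, swap_apply_of_ne_of_ne h2 h3, swap_apply_left]
      exact h1.symm
    · rw [Perm.mul_apply, swap_apply_of_ne_of_ne h4 h5, swap_apply_right]
      exact h1
    · rw [Perm.mul_apply, swap_apply_left, swap_apply_of_ne_of_ne h3.symm h5.symm]
      exact h6.symm
    · rw [Perm.mul_apply, swap_apply_right, swap_apply_of_ne_of_ne h2.symm h4.symm]
      exact h6

theorem IsDT.support {t : Perm α} {a b c d : α} (h : IsDT t a b c d) :
    t.support = {a, b, c, d} := by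
  ext x
  rw [Equiv.Perm.mem_support, h.moved]
  simp

theorem IsDT.card_support {t : Perm α} {a b c d : α} (h : IsDT t a b c d) :
    t.support.card = 4 := by
  obtain ⟨h1, h2, h3, h4, h5, h6, -⟩ := id h
  rw [h.support]
  rw [Finset.card_insert_of_notMem, Finset.card_insert_of_notMem, Finset.card_insert_of_notMem,
    Finset.card_singleton]
  · simpa using h6
  · simp [h4, h5]
  · simp [h1, h2, h3]

theorem IsDT.conj {t : Perm α} {a b c d : α} (h : IsDT t a b c d) (g : Perm α) :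
    IsDT (g * t * g⁻¹) (g a) (g b) (g c) (g d) := by
  obtain ⟨h1, h2, h3, h4, h5, h6, rfl⟩ := h
  refine ⟨g.injective.ne h1, g.injective.ne h2, g.injective.ne h3, g.injective.ne h4,
    g.injective.ne h5, g.injective.ne h6, ?_⟩
  have e1 : g * swap a b * g⁻¹ = swap (g a) (g b) := by rw [mul_swap_eq_swap_mul]; group
  have e2 : g * swap c d * g⁻¹ = swap (g c) (g d) := by rw [mul_swap_eq_swap_mul]; group
  rw [← e1, ← e2]
  group

theorem IsDT.normal {t : Perm α} {a b c d x : α} (h : IsDT t a b c d) (hx : t x ≠ x) :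
    ∃ b' c' d', IsDT t x b' c' d' := by
  obtain ⟨h1, h2, h3, h4, h5, h6, h7⟩ := id h
  rcases h.moved x |>.1 hx with rfl | rfl | rfl | rfl
  · exact ⟨_, _, _, h⟩
  · exact ⟨a, c, d, h1.symm, h4, h5, h2, h3, h6, by rw [h7, swap_comm]⟩
  · refine ⟨d, a, b, h6, h2.symm, h4.symm, h3.symm, h5.symm, h1, ?_⟩
    rw [h7]
    exact (comm_swap h2 h3 h4 h5).eq
  · refine ⟨c, a, b, h6.symm, h3.symm, h5.symm, h2.symm, h4.symm, h1, ?_⟩
    rw [h7, swap_comm x c]
    exact (comm_swap h2 h3 h4 h5).eq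

theorem swap_sq (a b : α) : swap a b * swap a b = 1 := swap_mul_self a b

/-- The square of the product is a 3-cycle when the supports meet in one point. -/
theorem sq_three {a b c d w u v : α} (h1 : a ≠ b) (h2 : a ≠ c) (h3 : a ≠ d) (h4 : b ≠ c) (h5 : b ≠ d)
    (h6 : c ≠ d) (hw1 : a ≠ w) (hw2 : b ≠ w) (hw3 : c ≠ w) (hw4 : d ≠ w)
    (hu1 : a ≠ u) (hu2 : b ≠ u) (hu3 : c ≠ u) (hu4 : d ≠ u) (hu5 : w ≠ u)
    (hv1 : a ≠ v) (hv2 : b ≠ v) (hv3 : c ≠ v) (hv4 : d ≠ v) (hv5 : w ≠ v) (huv : u ≠ v) :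
    (((swap a b * swap c d) * (swap a w * swap u v)) ^ 2).IsThreeCycle := by
  have hAB : Commute (swap a b) (swap c d) := comm_swap h2 h3 h4 h5
  have hCB : Commute (swap a w) (swap c d) := comm_swap h2 h3 hw3.symm hw4.symm
  have hAD : Commute (swap a b) (swap u v) := comm_swap hu1 hv1 hu2 hv2
  have hCD : Commute (swap a w) (swap u v) := comm_swap hu1 hv1 hu5 hv5
  have hBD : Commute (swap c d) (swap u v) := comm_swap hu3 hv3 hu4 hv4
  set A := swap a b
  set B := swap c d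
  set C := swap a w
  set D := swap u v
  have e1 : (A * B) * (C * D) = (A * C) * (B * D) := by
    calc (A * B) * (C * D) = A * (B * C) * D := by group
      _ = A * (C * B) * D := by rw [hCB.eq]
      _ = (A * C) * (B * D) := by group
  have hXY : Commute (A * C) (B * D) :=
    (hAB.mul_right hAD).mul_left (hCB.mul_right hCD)
  rw [e1, hXY.mul_pow, hBD.mul_pow]
  have hB2 : B ^ 2 = 1 := by rw [pow_two]; exact swap_mul_self c d
  have hD2 : D ^ 2 = 1 := by rw [pow_two]; exact swap_mul_self u v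
  rw [hB2, hD2, one_mul, mul_one, pow_two]
  exact (isThreeCycle_swap_mul_swap_same h1 hw1 hw2).isThreeCycle_sq

/-- The data given by a fixed-point-rich involution `ζ`. -/
structure PairData (H : Subgroup (Perm α)) (ζ : Perm α) : Prop where
  inv : ∀ x, ζ (ζ x) = x
  fix : (Finset.univ.filter (fun x => ζ x = x)).card ≤ 1
  mem : ∀ x y, ζ x ≠ x → ζ y ≠ y → y ≠ x → y ≠ ζ x → swap x (ζ x) * swap y (ζ y) ∈ H
  big : 8 ≤ Fintype.card α

/-- Moved points of `ζ`. -/
def Om (ζ : Perm α) : Finset α := Finset.univ.filter (fun x => ζ x ≠ x)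

theorem mem_Om {ζ : Perm α} {x : α} : x ∈ Om ζ ↔ ζ x ≠ x := by simp [Om]

theorem even_card {ζ : Perm α} (hinv : ∀ x, ζ (ζ x) = x) (T : Finset α)
    (hT : ∀ w ∈ T, ζ w ∈ T ∧ ζ w ≠ w) : Even T.card := by
  have h : ∑ _x ∈ T, (1 : ZMod 2) = 0 :=
    Finset.sum_involution (fun a _ => ζ a) (fun _ _ => by decide) (fun a ha _ => (hT a ha).2)
      (fun a ha => (hT a ha).1) (fun a _ => hinv a)
  rw [Finset.sum_const, nsmul_eq_mul, mul_one] at h
  exact (ZMod.natCast_eq_zero_iff_even).1 h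

variable {H : Subgroup (Perm α)} {ζ : Perm α}

theorem PairData.Om_ge (hd : PairData H ζ) : 8 ≤ (Om ζ).card := by
  have h1 : (Om ζ).card + (Finset.univ.filter (fun x => ζ x = x)).card = Fintype.card α := by
    rw [Om, add_comm, Finset.card_filter_add_card_filter_not (s := Finset.univ)]
    rfl
  have h2 := hd.fix
  have h3 := hd.big
  have h4 : Even (Om ζ).card := even_card hd.inv _ (fun w hw => by
    have hw' := mem_Om.1 hw
    refine ⟨mem_Om.2 ?_, hw'⟩
    rw [hd.inv]
    exact hw'.symm)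
  obtain ⟨k, hk⟩ := h4
  omega

theorem PairData.moved_zeta (hd : PairData H ζ) {x : α} (hx : ζ x ≠ x) : ζ (ζ x) ≠ ζ x := by
  rw [hd.inv]
  exact hx.symm

theorem PairData.dt (hd : PairData H ζ) {x y : α} (hx : ζ x ≠ x) (hy : ζ y ≠ y) (hyx : y ≠ x) (hyz : y ≠ ζ x) :
    swap x (ζ x) * swap y (ζ y) ∈ Th2 H := by
  refine ⟨hd.mem x y hx hy hyx hyz, x, ζ x, y, ζ y, hx.symm, hyx.symm, ?_, hyz.symm, ?_, hy.symm, rfl⟩
  · intro h
    apply hyz
    rw [← hd.inv y, ← h]
  · intro h
    exact hyx (ζ.injective h.symm)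

theorem PairData.dt' (hd : PairData H ζ) {x y : α} (hx : ζ x ≠ x) (hy : ζ y ≠ y) (hyx : y ≠ x) (hyz : y ≠ ζ x) :
    IsDT (swap x (ζ x) * swap y (ζ y)) x (ζ x) y (ζ y) := by
  refine ⟨hx.symm, hyx.symm, ?_, hyz.symm, ?_, hy.symm, rfl⟩
  · intro h
    apply hyz
    rw [← hd.inv y, ← h]
  · intro h
    exact hyx (ζ.injective h.symm)

/-- A point of `Om` outside a short list. -/
theorem PairData.exists_other (hd : PairData H ζ) (L : Finset α) (hL : L.card < 8) :
    ∃ w, ζ w ≠ w ∧ w ∉ L := by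
  obtain ⟨w, hw, hw2⟩ := Finset.exists_mem_notMem_of_card_lt_card (lt_of_lt_of_le hL hd.Om_ge)
  exact ⟨w, mem_Om.1 hw, hw2⟩

section no3

variable (hd : PairData H ζ) (no3 : ∀ t ∈ H, ¬ t.IsThreeCycle)

include hd no3

theorem split_step {t : Perm α} (ht : t ∈ Th2 H) {x : α} (hx : x ∈ t.support) (hzx : ζ x ∉ t.support) :
    ∀ y, ζ y ≠ y → y ≠ x → y ≠ ζ x → y ∈ t.support ∨ ζ y ∈ t.support := by
  intro y hy hyx hyz
  by_contra hc
  push_neg at hc
  obtain ⟨h₁, h₂⟩ := hc
  obtain ⟨ht1, a, b, c, d, hdt⟩ := ht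
  have hxm := Equiv.Perm.mem_support.1 hx
  obtain ⟨b', c', d', hdt'⟩ := hdt.normal hxm
  have hs := hdt'.support
  rw [hs] at hx hzx h₁ h₂
  simp only [Finset.mem_insert, Finset.mem_singleton, not_or] at hzx h₁ h₂
  have hzxx : x ≠ ζ x := by
    intro h
    apply hzx.1
    exact h.symm
  obtain ⟨e1, e2, e3, e4, e5, e6, e7⟩ := hdt'
  have h3 := sq_three (a := x) (b := b') (c := c') (d := d') (w := ζ x) (u := y) (v := ζ y)
    e1 e2 e3 e4 e5 e6 hzxx (Ne.symm hzx.2.1) (Ne.symm hzx.2.2.1) (Ne.symm hzx.2.2.2)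
    hyx.symm (Ne.symm h₁.2.1) (Ne.symm h₁.2.2.1) (Ne.symm h₁.2.2.2) hyz.symm
    (Ne.symm h₂.1) (Ne.symm h₂.2.1) (Ne.symm h₂.2.2.1) (Ne.symm h₂.2.2.2)
    (fun h => hyx (ζ.injective h.symm)) hy.symm
  refine no3 _ ?_ h3
  rw [← e7]
  exact H.pow_mem (H.mul_mem ht1 (hd.mem x y (fun h => hzxx h.symm) hy hyx hyz)) 2

theorem split_card {t : Perm α} (ht : t ∈ Th2 H) {x : α} (hx : x ∈ t.support) (hzx : ζ x ∉ t.support) :
    (Om ζ).card = 8 ∧ (∀ w ∈ t.support, ζ w ∉ t.support) ∧ (∀ y, ζ y ≠ y → y ∈ t.support ∨ ζ y ∈ t.support) := by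
  obtain ⟨ht1, a, b, c, d, hdt⟩ := id ht
  have hc4 := hdt.card_support
  have hall : ∀ y, ζ y ≠ y → y ∈ t.support ∨ ζ y ∈ t.support := by
    intro y hy
    by_cases h1 : y = x
    · left; rw [h1]; exact hx
    by_cases h2 : y = ζ x
    · right; rw [h2, hd.inv]; exact hx
    exact split_step hd no3 ht hx hzx y hy h1 h2
  set Z := t.support ∪ t.support.image ζ with hZ
  have hsub : Om ζ ⊆ Z := by
    intro y hy
    rcases hall y (mem_Om.1 hy) with h | h
    · exact Finset.mem_union_left _ h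
    · refine Finset.mem_union_right _ (Finset.mem_image.2 ⟨ζ y, h, hd.inv y⟩)
  have himg : (t.support.image ζ).card = 4 := by
    rw [Finset.card_image_of_injective _ ζ.injective, hc4]
  have h1 := Finset.card_le_card hsub
  have h2 := hd.Om_ge
  have h3 := Finset.card_union_add_card_inter t.support (t.support.image ζ)
  rw [hc4, himg, ← hZ] at h3
  have h4 : (t.support ∩ t.support.image ζ).card = 0 := by omega
  have h5 : Z.card ≤ 8 := by omega
  refine ⟨by omega, ?_, hall⟩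
  intro w hw hzw
  have : w ∈ t.support ∩ t.support.image ζ :=
    Finset.mem_inter.2 ⟨hw, Finset.mem_image.2 ⟨ζ w, hzw, hd.inv w⟩⟩
  rw [Finset.card_eq_zero] at h4
  rw [h4] at this
  simp at this

theorem unsplit_sub {t : Perm α} (ht : t ∈ Th2 H) (hs : ∀ w ∈ t.support, ζ w ∈ t.support) :
    ∀ w ∈ t.support, ζ w ≠ w := by
  obtain ⟨ht1, a, b, c, d, hdt⟩ := id ht
  have hc4 := hdt.card_support
  intro w hw hfix
  set T := t.support.filter (fun w => ζ w ≠ w) with hT
  have h1 : Even T.card := even_card hd.inv T (fun u hu => by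
    have hu' := Finset.mem_filter.1 hu
    refine ⟨Finset.mem_filter.2 ⟨hs u hu'.1, ?_⟩, hu'.2⟩
    rw [hd.inv]
    exact hu'.2.symm)
  have h2 : T.card + (t.support.filter (fun w => ζ w = w)).card = 4 := by
    rw [← hc4, hT, add_comm]
    have := Finset.card_filter_add_card_filter_not (s := t.support) (fun w => ζ w = w)
    exact this
  have h3 : (t.support.filter (fun w => ζ w = w)).card ≤ 1 := by
    refine le_trans (Finset.card_le_card ?_) hd.fix
    intro u hu
    exact Finset.mem_filter.2 ⟨Finset.mem_univ _, (Finset.mem_filter.1 hu).2⟩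
  have h4 : 0 < (t.support.filter (fun w => ζ w = w)).card :=
    Finset.card_pos.2 ⟨w, Finset.mem_filter.2 ⟨hw, hfix⟩⟩
  obtain ⟨k, hk⟩ := h1
  omega

/-- Every double transposition of `H` lives on the moved points of `ζ`. -/
theorem th2_sub {t : Perm α} (ht : t ∈ Th2 H) : ∀ w ∈ t.support, ζ w ≠ w := by
  by_cases hs : ∀ w ∈ t.support, ζ w ∈ t.support
  · exact unsplit_sub hd no3 ht hs
  · push_neg at hs
    obtain ⟨x, hx, hzx⟩ := hs
    obtain ⟨-, h2, -⟩ := split_card hd no3 ht hx hzx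
    intro w hw hfix
    have := h2 w hw
    rw [hfix] at this
    exact this hw

theorem om_pres {h : Perm α} (hh : h ∈ H) {y : α} (hy : ζ y ≠ y) : ζ (h y) ≠ h y := by
  obtain ⟨w, hw, hw2⟩ := hd.exists_other {y, ζ y} (lt_of_le_of_lt (Finset.card_le_two) (by norm_num))
  simp only [Finset.mem_insert, Finset.mem_singleton, not_or] at hw2
  have h1 := hd.dt' hy hw hw2.1 hw2.2
  have h2 := hd.dt hy hw hw2.1 hw2.2
  have h3 : h * (swap y (ζ y) * swap w (ζ w)) * h⁻¹ ∈ Th2 H :=
    ⟨H.mul_mem (H.mul_mem hh h2.1) (H.inv_mem hh), _, _, _, _, h1.conj h⟩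
  have h4 := h1.conj h
  refine th2_sub hd no3 h3 (h y) ?_
  rw [Equiv.Perm.mem_support, h4.moved]
  exact Or.inl rfl

theorem om_pres' {h : Perm α} (hh : h ∈ H) {y : α} (hy : ζ y = y) : ζ (h y) = h y := by
  by_contra hne
  have h1 := om_pres hd no3 (H.inv_mem hh) hne
  have h2 : h⁻¹ (h y) = y := by simp
  rw [h2] at h1
  exact h1 hy

theorem zeta_comm_A (hA : ∀ t ∈ Th2 H, ∀ w ∈ t.support, ζ w ∈ t.support) {h : Perm α} (hh : h ∈ H) (x : α) :
    h (ζ x) = ζ (h x) := by
  by_cases hx : ζ x = x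
  · rw [hx, om_pres' hd no3 hh hx]
  obtain ⟨w, hw, hw2⟩ := hd.exists_other {x, ζ x} (lt_of_le_of_lt (Finset.card_le_two) (by norm_num))
  simp only [Finset.mem_insert, Finset.mem_singleton, not_or] at hw2
  obtain ⟨w', hw', hw3⟩ := hd.exists_other {x, ζ x, w, ζ w}
    (lt_of_le_of_lt (Finset.card_le_four) (by norm_num))
  simp only [Finset.mem_insert, Finset.mem_singleton, not_or] at hw3
  have key : ∀ v, ζ v ≠ v → v ≠ x → v ≠ ζ x → ζ (h x) = h (ζ x) ∨ ζ (h x) = h v ∨ ζ (h x) = h (ζ v) := by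
    intro v hv h1 h2
    have h3 := hd.dt' hx hv h1 h2
    have h4 := hd.dt hx hv h1 h2
    have h5 : h * (swap x (ζ x) * swap v (ζ v)) * h⁻¹ ∈ Th2 H :=
      ⟨H.mul_mem (H.mul_mem hh h4.1) (H.inv_mem hh), _, _, _, _, h3.conj h⟩
    have h6 := h3.conj h
    have h7 := hA _ h5 (h x) (by rw [Equiv.Perm.mem_support, h6.moved]; exact Or.inl rfl)
    rw [Equiv.Perm.mem_support, h6.moved] at h7
    rcases h7 with h7 | h7 | h7 | h7
    · exact absurd h7 (om_pres hd no3 hh hx)
    · exact Or.inl h7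
    · exact Or.inr (Or.inl h7)
    · exact Or.inr (Or.inr h7)
  have k1 := key w hw hw2.1 hw2.2
  have k2 := key w' hw' hw3.1 hw3.2.1
  have hinj := h.injective
  rcases k1 with k1 | k1 | k1
  · exact k1.symm
  · rcases k2 with k2 | k2 | k2
    · exact k2.symm
    · exact absurd (hinj (k1.symm.trans k2)).symm hw3.2.2.1
    · exfalso
      have h8 := hinj (k1.symm.trans k2)
      apply hw3.2.2.2
      rw [h8, hd.inv]
  · rcases k2 with k2 | k2 | k2
    · exact k2.symm
    · exact absurd (hinj (k1.symm.trans k2)).symm hw3.2.2.2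
    · exfalso
      have h8 := ζ.injective (hinj (k1.symm.trans k2))
      exact hw3.2.2.1 h8.symm

end no3

section K

variable (hF : IsQuasisimple (generalizedFittingSubgroup ↥H))

include hF in
/-- A perfect group commuting with an element of small support fixes it pointwise. -/
theorem fix_of_comm (e : Perm α)
    (hcm : ∀ k : ↥(generalizedFittingSubgroup ↥H), ((k : ↥H) : Perm α) * e = e * ((k : ↥H) : Perm α))
    (hc : e.support.card ≤ 4) (k : ↥(generalizedFittingSubgroup ↥H)) {x : α} (hx : e x ≠ x) :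
    ((k : ↥H) : Perm α) x = x := by
  classical
  let f : ↥(generalizedFittingSubgroup ↥H) →* Perm α := H.subtype.comp (generalizedFittingSubgroup ↥H).subtype
  refine act_trivial hF f (fun y => e y ≠ y) ?_ ?_ k x hx
  · intro k y
    have h1 : e (f k y) = f k (e y) := by
      have := congrArg (fun g : Perm α => g y) (hcm k)
      exact this.symm
    show e (f k y) ≠ f k y ↔ e y ≠ y
    rw [h1]
    exact not_congr ((f k).injective.eq_iff)
  · rw [Nat.card_eq_fintype_card, Fintype.card_subtype]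
    have : (Finset.univ.filter (fun y => e y ≠ y)) = e.support := by
      ext y
      simp
    rw [this]
    exact hc

include hF in
theorem K_trivial (hd : PairData H ζ)
    (h : ∀ (k : ↥(generalizedFittingSubgroup ↥H)) (x : α), ζ x ≠ x → ((k : ↥H) : Perm α) x = x) : False := by
  have hall : ∀ k : ↥(generalizedFittingSubgroup ↥H), k = 1 := by
    intro k
    apply Subtype.ext
    apply Subtype.ext
    ext x
    by_contra hne
    have hne' : ((k : ↥H) : Perm α) x ≠ x := hne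
    have h1 : ζ x = x := by
      by_contra hx
      exact hne' (h k x hx)
    have h2 : ζ (((k : ↥H) : Perm α) x) = ((k : ↥H) : Perm α) x := by
      by_contra hx
      have := h k _ hx
      exact hne' (((k : ↥H) : Perm α).injective this)
    have h3 := Finset.card_le_one.1 hd.fix x (by simp [h1]) (((k : ↥H) : Perm α) x) (by simp [h2])
    exact hne' h3.symm
  haveI := qs_nontrivial hF
  obtain ⟨u, v, huv⟩ := exists_pair_ne ↥(generalizedFittingSubgroup ↥H)
  exact huv ((hall u).trans (hall v).symm)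

include hF in
/-- A normal abelian subgroup of `H` commutes with `F*(H)` when it is quasisimple. -/
theorem comm_of_abelian (W : Subgroup (Perm α)) (hWH : W ≤ H) (hWn : ∀ h ∈ H, ∀ w ∈ W, h * w * h⁻¹ ∈ W)
    (hWc : ∀ a ∈ W, ∀ b ∈ W, a * b = b * a) {e : Perm α} (he : e ∈ W)
    (k : ↥(generalizedFittingSubgroup ↥H)) : ((k : ↥H) : Perm α) * e = e * ((k : ↥H) : Perm α) := by
  have hKc : IsComponent (generalizedFittingSubgroup ↥H) := ⟨(gfit_normal (G := ↥H)).isSubnormal, hF⟩
  have hN : (W.subgroupOf H).Normal := by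
    refine ⟨fun n hn g => ?_⟩
    rw [Subgroup.mem_subgroupOf] at hn ⊢
    exact hWn _ g.2 _ hn
  rcases component_le_or_commute hKc hN.isSubnormal with hle | hcomm
  · exfalso
    apply qs_not_commutative hF
    refine ⟨⟨fun a b => ?_⟩⟩
    apply Subtype.ext
    apply Subtype.ext
    exact hWc _ (Subgroup.mem_subgroupOf.1 (hle a.2)) _ (Subgroup.mem_subgroupOf.1 (hle b.2))
  · have h1 : generalizedFittingSubgroup ↥H ≤ Subgroup.centralizer ((W.subgroupOf H : Subgroup ↥H) : Set ↥H) :=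
      Subgroup.commutator_eq_bot_iff_le_centralizer.1 hcomm
    have h2 : (⟨e, hWH he⟩ : ↥H) ∈ W.subgroupOf H := Subgroup.mem_subgroupOf.2 he
    have h3 := Subgroup.mem_centralizer_iff.1 (h1 k.2) _ h2
    exact (congrArg Subtype.val h3).symm

end K

/-- The pair-preserving subgroup of `H`. -/
def W0 (H : Subgroup (Perm α)) (ζ : Perm α) (hinv : ∀ x, ζ (ζ x) = x) : Subgroup (Perm α) where
  carrier := {g | g ∈ H ∧ ∀ x, g x = x ∨ g x = ζ x}
  one_mem' := ⟨H.one_mem, fun x => Or.inl rfl⟩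
  mul_mem' := by
    rintro a b ⟨ha, ha'⟩ ⟨hb, hb'⟩
    refine ⟨H.mul_mem ha hb, fun x => ?_⟩
    rw [Perm.mul_apply]
    rcases hb' x with h | h <;> rw [h]
    · exact ha' x
    · rcases ha' (ζ x) with h2 | h2
      · right; exact h2
      · left; rw [h2, hinv]
  inv_mem' := by
    rintro a ⟨ha, ha'⟩
    refine ⟨H.inv_mem ha, fun x => ?_⟩
    rcases ha' (a⁻¹ x) with h | h
    · left
      have h2 : a (a⁻¹ x) = x := by simp
      rw [h] at h2
      exact h2
    · right
      have h2 : a (a⁻¹ x) = x := by simp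
      rw [h] at h2
      calc a⁻¹ x = ζ (ζ (a⁻¹ x)) := (hinv _).symm
        _ = ζ x := by rw [h2]

theorem case_A (hF : IsQuasisimple (generalizedFittingSubgroup ↥H)) (hd : PairData H ζ)
    (no3 : ∀ t ∈ H, ¬ t.IsThreeCycle) (hA : ∀ t ∈ Th2 H, ∀ w ∈ t.support, ζ w ∈ t.support) : False := by
  have hcomm := fun {h : Perm α} (hh : h ∈ H) (x : α) => zeta_comm_A hd no3 hA hh x
  have hWn : ∀ h ∈ H, ∀ w ∈ W0 H ζ hd.inv, h * w * h⁻¹ ∈ W0 H ζ hd.inv := by
    rintro h hh w ⟨hw, hw'⟩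
    refine ⟨H.mul_mem (H.mul_mem hh hw) (H.inv_mem hh), fun x => ?_⟩
    have e1 : (h * w * h⁻¹) x = h (w (h⁻¹ x)) := rfl
    rw [e1]
    rcases hw' (h⁻¹ x) with h1 | h1 <;> rw [h1]
    · left; simp
    · right
      rw [hcomm hh]
      simp
  have hWc : ∀ a ∈ W0 H ζ hd.inv, ∀ b ∈ W0 H ζ hd.inv, a * b = b * a := by
    rintro a ⟨ha, ha'⟩ b ⟨hb, hb'⟩
    ext x
    rw [Perm.mul_apply, Perm.mul_apply]
    rcases ha' x with h1 | h1 <;> rcases hb' x with h2 | h2
    · rw [h1, h2, h1]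
    · rw [h1, h2, hcomm ha, h1]
    · rw [h1, h2, hcomm hb, h2, h1]
    · rw [h1, h2, hcomm ha, hcomm hb, h1, h2]
  apply K_trivial hF hd
  intro k x hx
  obtain ⟨w, hw, hw2⟩ := hd.exists_other {x, ζ x} (lt_of_le_of_lt (Finset.card_le_two) (by norm_num))
  simp only [Finset.mem_insert, Finset.mem_singleton, not_or] at hw2
  have h1 := hd.dt' hx hw hw2.1 hw2.2
  have h2 := hd.dt hx hw hw2.1 hw2.2
  have he : swap x (ζ x) * swap w (ζ w) ∈ W0 H ζ hd.inv := by
    refine ⟨h2.1, fun z => ?_⟩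
    by_cases h3 : z = x
    · right
      rw [h3]
      have := h1
      obtain ⟨e1, e2, e3, e4, e5, e6, -⟩ := this
      rw [Perm.mul_apply, swap_apply_of_ne_of_ne e2 e3, swap_apply_left]
    by_cases h4 : z = ζ x
    · right
      rw [h4, hd.inv]
      obtain ⟨e1, e2, e3, e4, e5, e6, -⟩ := h1
      rw [Perm.mul_apply, swap_apply_of_ne_of_ne e4 e5, swap_apply_right]
    by_cases h5 : z = w
    · right
      rw [h5, Perm.mul_apply, swap_apply_left]
      obtain ⟨e1, e2, e3, e4, e5, e6, -⟩ := h1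
      rw [swap_apply_of_ne_of_ne e3.symm e5.symm]
    by_cases h6 : z = ζ w
    · right
      rw [h6, hd.inv, Perm.mul_apply, swap_apply_right]
      obtain ⟨e1, e2, e3, e4, e5, e6, -⟩ := h1
      rw [swap_apply_of_ne_of_ne e2.symm e4.symm]
    · left
      rw [Perm.mul_apply, swap_apply_of_ne_of_ne h5 h6, swap_apply_of_ne_of_ne h3 h4]
  refine fix_of_comm hF _ (fun k => comm_of_abelian hF (W0 H ζ hd.inv) (fun _ h => h.1) hWn hWc he k)
    (by rw [h1.card_support]) k (x := x) ?_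
  rw [h1.moved]
  exact Or.inl rfl

/-- A product of four disjoint transpositions. -/
theorem prod4 {ζ : Perm α} {a b c d : α} (hinv : ∀ x, ζ (ζ x) = x)
    (hall : ∀ y, ζ y ≠ y → y = a ∨ y = ζ a ∨ y = b ∨ y = ζ b ∨ y = c ∨ y = ζ c ∨ y = d ∨ y = ζ d)
    (hab : a ≠ b) (hac : a ≠ c) (had : a ≠ d) (haA : a ≠ ζ a) (haB : a ≠ ζ b)
    (haC : a ≠ ζ c) (haD : a ≠ ζ d) (hbc : b ≠ c) (hbd : b ≠ d) (hbA : b ≠ ζ a)
    (hbB : b ≠ ζ b) (hbC : b ≠ ζ c) (hbD : b ≠ ζ d) (hcd : c ≠ d) (hcA : c ≠ ζ a)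
    (hcB : c ≠ ζ b) (hcC : c ≠ ζ c) (hcD : c ≠ ζ d) (hdA : d ≠ ζ a) (hdB : d ≠ ζ b)
    (hdC : d ≠ ζ c) (hdD : d ≠ ζ d) (hAB : ζ a ≠ ζ b) (hAC : ζ a ≠ ζ c) (hAD : ζ a ≠ ζ d)
    (hBC : ζ b ≠ ζ c) (hBD : ζ b ≠ ζ d) (hCD : ζ c ≠ ζ d) :
    ζ = (swap a (ζ a) * swap b (ζ b)) * (swap c (ζ c) * swap d (ζ d)) := by
  have hba := Ne.symm hab
  have hca := Ne.symm hac
  have hda := Ne.symm had
  have hAa := Ne.symm haA
  have hBa := Ne.symm haB
  have hCa := Ne.symm haC
  have hDa := Ne.symm haD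
  have hcb := Ne.symm hbc
  have hdb := Ne.symm hbd
  have hAb := Ne.symm hbA
  have hBb := Ne.symm hbB
  have hCb := Ne.symm hbC
  have hDb := Ne.symm hbD
  have hdc := Ne.symm hcd
  have hAc := Ne.symm hcA
  have hBc := Ne.symm hcB
  have hCc := Ne.symm hcC
  have hDc := Ne.symm hcD
  have hAd := Ne.symm hdA
  have hBd := Ne.symm hdB
  have hCd := Ne.symm hdC
  have hDd := Ne.symm hdD
  have hBA := Ne.symm hAB
  have hCA := Ne.symm hAC
  have hDA := Ne.symm hAD
  have hCB := Ne.symm hBC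
  have hDB := Ne.symm hBD
  have hDC := Ne.symm hCD
  ext x
  simp only [Perm.mul_apply]
  have key : ζ x = x ∨ (x = a ∨ x = ζ a ∨ x = b ∨ x = ζ b ∨ x = c ∨ x = ζ c ∨ x = d ∨ x = ζ d) := by
    by_cases h : ζ x = x
    · exact Or.inl h
    · exact Or.inr (hall x h)
  clear hall
  rcases key with h | h
  · by_cases xa : x = a
    · rw [xa]; simp [swap_apply_def, *]
    by_cases xA : x = ζ a
    · rw [xA]; simp [swap_apply_def, *]
    by_cases xb : x = b
    · rw [xb]; simp [swap_apply_def, *]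
    by_cases xB : x = ζ b
    · rw [xB]; simp [swap_apply_def, *]
    by_cases xc : x = c
    · rw [xc]; simp [swap_apply_def, *]
    by_cases xC : x = ζ c
    · rw [xC]; simp [swap_apply_def, *]
    by_cases xd : x = d
    · rw [xd]; simp [swap_apply_def, *]
    by_cases xD : x = ζ d
    · rw [xD]; simp [swap_apply_def, *]
    simp [swap_apply_def, *]
  · rcases h with h | h | h | h | h | h | h | h <;> rw [h] <;> simp [swap_apply_def, *]

/-- `ζ` lies in `H` in the transversal case. -/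
theorem zeta_mem {t₀ : Perm α} {a b c d : α} (hd : PairData H ζ) (hdt : IsDT t₀ a b c d)
    (htr : ∀ w ∈ t₀.support, ζ w ∉ t₀.support) (hall : ∀ y, ζ y ≠ y → y ∈ t₀.support ∨ ζ y ∈ t₀.support) :
    ζ ∈ H := by
  have hsupp := hdt.support
  obtain ⟨n1, n2, n3, n4, n5, n6, -⟩ := id hdt
  have ha : a ∈ t₀.support := by rw [hsupp]; simp
  have hb : b ∈ t₀.support := by rw [hsupp]; simp
  have hc : c ∈ t₀.support := by rw [hsupp]; simp
  have hd' : d ∈ t₀.support := by rw [hsupp]; simp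
  have hza := htr a ha
  have hzb := htr b hb
  have hzc := htr c hc
  have hzd := htr d hd'
  rw [hsupp] at hza hzb hzc hzd
  simp only [Finset.mem_insert, Finset.mem_singleton, not_or] at hza hzb hzc hzd
  obtain ⟨q1, q2, q3, q4⟩ := hza
  obtain ⟨q5, q6, q7, q8⟩ := hzb
  obtain ⟨q9, q10, q11, q12⟩ := hzc
  obtain ⟨q13, q14, q15, q16⟩ := hzd
  have r1 : ζ a ≠ ζ b := ζ.injective.ne n1
  have r2 : ζ a ≠ ζ c := ζ.injective.ne n2
  have r3 : ζ a ≠ ζ d := ζ.injective.ne n3
  have r4 : ζ b ≠ ζ c := ζ.injective.ne n4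
  have r5 : ζ b ≠ ζ d := ζ.injective.ne n5
  have r6 : ζ c ≠ ζ d := ζ.injective.ne n6
  have m1 := hd.mem a b q1 q6 n1.symm (Ne.symm q2)
  have m2 := hd.mem c d q11 q16 n6.symm (Ne.symm q12)
  have heq : ζ = (swap a (ζ a) * swap b (ζ b)) * (swap c (ζ c) * swap d (ζ d)) := by
    refine prod4 hd.inv ?_ n1 n2 n3 (Ne.symm q1) (Ne.symm q5) (Ne.symm q9) (Ne.symm q13) n4 n5
      (Ne.symm q2) (Ne.symm q6) (Ne.symm q10) (Ne.symm q14) n6 (Ne.symm q3) (Ne.symm q7) (Ne.symm q11)
      (Ne.symm q15) (Ne.symm q4) (Ne.symm q8) (Ne.symm q12) (Ne.symm q16) r1 r2 r3 r4 r5 r6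
    intro y hy
    rcases hall y hy with h | h
    · rw [hsupp] at h
      simp only [Finset.mem_insert, Finset.mem_singleton] at h
      rcases h with h | h | h | h <;> simp [h]
    · rw [hsupp] at h
      simp only [Finset.mem_insert, Finset.mem_singleton] at h
      have h2 : y = ζ (ζ y) := (hd.inv y).symm
      rcases h with h | h | h | h <;> rw [h] at h2 <;> simp [h2]
  rw [heq]
  exact H.mul_mem m1 m2

theorem case_B (hF : IsQuasisimple (generalizedFittingSubgroup ↥H)) (hd : PairData H ζ)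
    (no3 : ∀ t ∈ H, ¬ t.IsThreeCycle) {t₀ : Perm α} (ht₀ : t₀ ∈ Th2 H) {x₀ : α} (hx₀ : x₀ ∈ t₀.support)
    (hzx₀ : ζ x₀ ∉ t₀.support) : False := by
  classical
  obtain ⟨hOm8, htr, hall⟩ := split_card hd no3 ht₀ hx₀ hzx₀
  obtain ⟨ht1, a, b, c, d, hdt⟩ := id ht₀
  have hζH := zeta_mem hd hdt htr hall
  have hP₀ : ∀ t ∈ Th2 H, (∀ x, ζ x ≠ x → (ζ x ∈ t.support ↔ x ∈ t.support)) ∨
      (∀ x, ζ x ≠ x → (ζ x ∈ t.support ↔ x ∉ t.support)) := by
    intro t ht
    by_cases hs : ∀ w ∈ t.support, ζ w ∈ t.support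
    · left
      intro x _
      refine ⟨fun h => ?_, hs x⟩
      have := hs _ h
      rwa [hd.inv] at this
    · push_neg at hs
      obtain ⟨y, hy, hzy⟩ := hs
      obtain ⟨-, h2, h3⟩ := split_card hd no3 ht hy hzy
      right
      intro x hx
      refine ⟨fun h => ?_, fun h => ?_⟩
      · have := h2 _ h
        rwa [hd.inv] at this
      · rcases h3 x hx with h4 | h4
        · exact absurd h4 h
        · exact h4
  have hPc : ∀ h ∈ H, ∀ t ∈ Th2 H, (∀ x, ζ x ≠ x → ((h * ζ * h⁻¹) x ∈ t.support ↔ x ∈ t.support)) ∨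
      (∀ x, ζ x ≠ x → ((h * ζ * h⁻¹) x ∈ t.support ↔ x ∉ t.support)) := by
    intro h hh t ht
    obtain ⟨ht1', a', b', c', d', hdt'⟩ := ht
    have ht' : h⁻¹ * t * h⁻¹⁻¹ ∈ Th2 H :=
      ⟨H.mul_mem (H.mul_mem (H.inv_mem hh) ht1') (H.inv_mem (H.inv_mem hh)), _, _, _, _, hdt'.conj h⁻¹⟩
    have hmem : ∀ y, y ∈ (h⁻¹ * t * h⁻¹⁻¹).support ↔ h y ∈ t.support := by
      intro y
      rw [Equiv.Perm.mem_support, Equiv.Perm.mem_support]
      simp only [inv_inv, Perm.mul_apply]
      constructor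
      · intro h1 h2
        apply h1
        rw [h2]
        simp
      · intro h1 h2
        apply h1
        have := congrArg h h2
        simpa using this
    have e1 : ∀ x, h (h⁻¹ x) = x := fun x => by simp
    rcases hP₀ _ ht' with h1 | h1
    · left
      intro x hx
      have h2 := h1 (h⁻¹ x) (om_pres hd no3 (H.inv_mem hh) hx)
      rw [hmem, hmem, e1] at h2
      exact h2
    · right
      intro x hx
      have h2 := h1 (h⁻¹ x) (om_pres hd no3 (H.inv_mem hh) hx)
      rw [hmem, hmem, e1] at h2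
      exact h2
  have hsep : ∀ u v, ζ u ≠ u → ζ v ≠ v → u ≠ v → ∃ t ∈ Th2 H, ¬ (u ∈ t.support ↔ v ∈ t.support) := by
    intro u v hu hv huv
    by_cases h1 : v = ζ u
    · refine ⟨t₀, ht₀, ?_⟩
      rw [h1]
      intro h2
      rcases hall u hu with h3 | h3
      · exact htr u h3 (h2.1 h3)
      · have := htr _ h3
        rw [hd.inv] at this
        exact this (h2.2 h3)
    · obtain ⟨w, hw, hw2⟩ := hd.exists_other {u, ζ u, v, ζ v}
        (lt_of_le_of_lt (Finset.card_le_four) (by norm_num))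
      simp only [Finset.mem_insert, Finset.mem_singleton, not_or] at hw2
      have h2 := hd.dt' hu hw hw2.1 hw2.2.1
      refine ⟨_, hd.dt hu hw hw2.1 hw2.2.1, ?_⟩
      rw [Equiv.Perm.mem_support, Equiv.Perm.mem_support, h2.moved, h2.moved]
      intro h3
      have h4 := h3.1 (Or.inl rfl)
      rcases h4 with h4 | h4 | h4 | h4
      · exact huv h4.symm
      · exact h1 h4
      · exact hw2.2.2.1 h4.symm
      · apply hw2.2.2.2
        rw [h4, hd.inv]
  have hcj : ∀ h ∈ H, ∀ x, ζ x ≠ x → ζ ((h * ζ * h⁻¹) x) ≠ (h * ζ * h⁻¹) x := by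
    intro h hh x hx
    exact om_pres hd no3 (H.mul_mem (H.mul_mem hh hζH) (H.inv_mem hh)) hx
  have hcj' : ∀ h ∈ H, ∀ x, ζ x = x → (h * ζ * h⁻¹) x = x := by
    intro h hh x hx
    have h1 := om_pres' hd no3 (H.inv_mem hh) hx
    show h (ζ (h⁻¹ x)) = x
    rw [h1]
    simp
  have hcomm : ∀ h₁ ∈ H, ∀ h₂ ∈ H, Commute (h₁ * ζ * h₁⁻¹) (h₂ * ζ * h₂⁻¹) := by
    intro h₁ hh₁ h₂ hh₂
    show (h₁ * ζ * h₁⁻¹) * (h₂ * ζ * h₂⁻¹) = (h₂ * ζ * h₂⁻¹) * (h₁ * ζ * h₁⁻¹)
    ext x
    show (h₁ * ζ * h₁⁻¹) ((h₂ * ζ * h₂⁻¹) x) = (h₂ * ζ * h₂⁻¹) ((h₁ * ζ * h₁⁻¹) x)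
    by_cases hx : ζ x = x
    · rw [hcj' h₁ hh₁ x hx, hcj' h₂ hh₂ x hx, hcj' h₁ hh₁ x hx]
    · by_contra hne
      have h1 := hcj h₂ hh₂ x hx
      have h2 := hcj h₁ hh₁ x hx
      obtain ⟨t, ht, hsp⟩ := hsep _ _ (hcj h₁ hh₁ _ h1) (hcj h₂ hh₂ _ h2) hne
      apply hsp
      rcases hPc h₁ hh₁ t ht with p1 | p1 <;> rcases hPc h₂ hh₂ t ht with p2 | p2
      · have a1 := p1 _ h1
        have a2 := p2 _ hx
        have a3 := p2 _ h2
        have a4 := p1 _ hx
        tauto
      · have a1 := p1 _ h1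
        have a2 := p2 _ hx
        have a3 := p2 _ h2
        have a4 := p1 _ hx
        tauto
      · have a1 := p1 _ h1
        have a2 := p2 _ hx
        have a3 := p2 _ h2
        have a4 := p1 _ hx
        tauto
      · have a1 := p1 _ h1
        have a2 := p2 _ hx
        have a3 := p2 _ h2
        have a4 := p1 _ hx
        tauto
  -- the abelian normal subgroup generated by the conjugates of `ζ`
  let gens : Set (Perm α) := {g | ∃ h ∈ H, g = h * ζ * h⁻¹}
  let W : Subgroup (Perm α) := Subgroup.closure gens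
  have hgens : ∀ g ∈ gens, ∀ g' ∈ gens, Commute g g' := by
    rintro _ ⟨h₁, hh₁, rfl⟩ _ ⟨h₂, hh₂, rfl⟩
    exact hcomm h₁ hh₁ h₂ hh₂
  have hWc : ∀ u ∈ W, ∀ v ∈ W, u * v = v * u := by
    intro u hu v hv
    have h1 : W ≤ Subgroup.centralizer gens := by
      refine (Subgroup.closure_le _).2 ?_
      intro g hg
      rw [SetLike.mem_coe, Subgroup.mem_centralizer_iff]
      intro g' hg'
      exact hgens g' hg' g hg
    have h2 : gens ⊆ Subgroup.centralizer (W : Set (Perm α)) := by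
      intro g hg
      rw [SetLike.mem_coe, Subgroup.mem_centralizer_iff]
      intro g' hg'
      have := Subgroup.mem_centralizer_iff.1 (h1 hg') g hg
      exact this.symm
    have h3 : W ≤ Subgroup.centralizer (W : Set (Perm α)) := (Subgroup.closure_le _).2 h2
    exact Subgroup.mem_centralizer_iff.1 (h3 hv) u hu
  have hWH : W ≤ H := by
    refine (Subgroup.closure_le _).2 ?_
    rintro _ ⟨h, hh, rfl⟩
    exact H.mul_mem (H.mul_mem hh hζH) (H.inv_mem hh)
  have hWn : ∀ h ∈ H, ∀ w ∈ W, h * w * h⁻¹ ∈ W := by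
    intro h hh w hw
    induction hw using Subgroup.closure_induction with
    | mem g hg =>
      obtain ⟨k, hk, rfl⟩ := hg
      apply Subgroup.subset_closure
      exact ⟨h * k, H.mul_mem hh hk, by group⟩
    | one => simp [W.one_mem]
    | mul u v _ _ h1 h2 =>
      have : h * (u * v) * h⁻¹ = (h * u * h⁻¹) * (h * v * h⁻¹) := by group
      rw [this]
      exact W.mul_mem h1 h2
    | inv u _ h1 =>
      have : h * u⁻¹ * h⁻¹ = (h * u * h⁻¹)⁻¹ := by group
      rw [this]
      exact W.inv_mem h1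
  have hζW : ζ ∈ W := Subgroup.subset_closure ⟨1, H.one_mem, by simp⟩
  have hK : ∀ k : ↥(generalizedFittingSubgroup ↥H), ((k : ↥H) : Perm α) * ζ = ζ * ((k : ↥H) : Perm α) :=
    fun k => comm_of_abelian hF W hWH hWn hWc hζW k
  let f : ↥(generalizedFittingSubgroup ↥H) →* Perm α :=
    H.subtype.comp (generalizedFittingSubgroup ↥H).subtype
  have hfz : ∀ k y, f k (ζ y) = ζ (f k y) := by
    intro k y
    exact congrArg (fun g : Perm α => g y) (hK k)
  have hfO : ∀ k y, ζ y ≠ y → ζ (f k y) ≠ f k y := fun k y hy =>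
    om_pres hd no3 (show f k ∈ H from (k : ↥H).2) hy
  let F : ↥(generalizedFittingSubgroup ↥H) →* Perm (Finset α) :=
    { toFun := fun k => (f k).finsetCongr
      map_one' := by
        ext A x
        simp only [map_one, Equiv.finsetCongr_apply, Finset.mem_map_equiv]
        exact Iff.rfl
      map_mul' := by
        intro u v
        ext A x
        simp only [map_mul, Equiv.finsetCongr_apply, Finset.mem_map_equiv, Perm.mul_apply]
        exact Iff.rfl }
  have hFm : ∀ k A, F k A = A.map (f k).toEmbedding := by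
    intro k A
    exact Equiv.finsetCongr_apply _ _
  have hFa : ∀ k y, F k {y, ζ y} = {f k y, ζ (f k y)} := by
    intro k y
    rw [hFm, Finset.map_insert, Finset.map_singleton]
    simp [hfz]
  -- the four pairs
  have hsupp := hdt.support
  let P4 : Finset (Finset α) := {{a, ζ a}, {b, ζ b}, {c, ζ c}, {d, ζ d}}
  have hP4 : ∀ y, ζ y ≠ y → ({y, ζ y} : Finset α) ∈ P4 := by
    intro y hy
    rcases hall y hy with h | h
    · rw [hsupp] at h
      simp only [Finset.mem_insert, Finset.mem_singleton] at h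
      rcases h with h | h | h | h <;> rw [h] <;> simp [P4]
    · rw [hsupp] at h
      simp only [Finset.mem_insert, Finset.mem_singleton] at h
      have h2 : ({y, ζ y} : Finset α) = {ζ y, ζ (ζ y)} := by
        rw [hd.inv, Finset.pair_comm]
      rw [h2]
      rcases h with h | h | h | h <;> rw [h] <;> simp [P4]
  have hP4' : ∀ A ∈ P4, ∃ y, ζ y ≠ y ∧ A = {y, ζ y} := by
    obtain ⟨n1, n2, n3, n4, n5, n6, -⟩ := id hdt
    have ha : a ∈ t₀.support := by rw [hsupp]; simp
    have hb : b ∈ t₀.support := by rw [hsupp]; simp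
    have hc : c ∈ t₀.support := by rw [hsupp]; simp
    have hd' : d ∈ t₀.support := by rw [hsupp]; simp
    have hne : ∀ w ∈ t₀.support, ζ w ≠ w := fun w hw e => htr w hw (by rw [e]; exact hw)
    intro A hA
    simp only [P4, Finset.mem_insert, Finset.mem_singleton] at hA
    rcases hA with h | h | h | h
    · exact ⟨a, hne a ha, h⟩
    · exact ⟨b, hne b hb, h⟩
    · exact ⟨c, hne c hc, h⟩
    · exact ⟨d, hne d hd', h⟩
  have hFP : ∀ k, ∀ A ∈ P4, F k A ∈ P4 := by
    intro k A hA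
    obtain ⟨y, hy, rfl⟩ := hP4' A hA
    rw [hFa]
    exact hP4 _ (hfO k y hy)
  have hinv : ∀ k A, (F k A ∈ P4 ↔ A ∈ P4) := by
    intro k A
    refine ⟨fun h => ?_, hFP k A⟩
    have h1 := hFP k⁻¹ _ h
    have h2 : F k⁻¹ (F k A) = A := by
      rw [← Perm.mul_apply, ← map_mul]
      simp
    rwa [h2] at h1
  have hcP : Nat.card (Subtype (fun A => A ∈ P4)) ≤ 4 := by
    rw [Nat.card_eq_fintype_card]
    rw [Fintype.card_subtype]
    have : (Finset.univ.filter (fun A => A ∈ P4)) = P4 := by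
      ext A
      simp
    rw [this]
    exact Finset.card_le_four
  have hFix : ∀ k y, ζ y ≠ y → F k {y, ζ y} = {y, ζ y} := fun k y hy =>
    act_trivial hF F (fun A => A ∈ P4) hinv hcP k _ (hP4 y hy)
  apply K_trivial hF hd
  intro k y hy
  have hpair : ∀ (k : ↥(generalizedFittingSubgroup ↥H)) z,
      (f k z ∈ ({y, ζ y} : Finset α) ↔ z ∈ ({y, ζ y} : Finset α)) := by
    intro k z
    have h1 := hFix k y hy
    rw [hFm] at h1
    conv_lhs => rw [← h1]
    rw [Finset.mem_map]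
    constructor
    · rintro ⟨w, hw, hwz⟩
      have := (f k).injective hwz
      rw [← this]
      exact hw
    · intro h
      exact ⟨z, h, rfl⟩
  refine act_trivial hF f (fun z => z ∈ ({y, ζ y} : Finset α)) hpair ?_ k y (by simp)
  rw [Nat.card_eq_fintype_card, Fintype.card_subtype]
  have : (Finset.univ.filter (fun z => z ∈ ({y, ζ y} : Finset α))) = {y, ζ y} := by
    ext z
    simp
  rw [this]
  exact le_trans Finset.card_le_two (by norm_num)

/-- The key fact: `H` contains a 3-cycle. -/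
theorem exists_three_cycle (hF : IsQuasisimple (generalizedFittingSubgroup ↥H)) (hd : PairData H ζ) :
    ∃ t ∈ H, t.IsThreeCycle := by
  by_contra hcon
  push_neg at hcon
  by_cases hA : ∀ t ∈ Th2 H, ∀ w ∈ t.support, ζ w ∈ t.support
  · exact case_A hF hd hcon hA
  · push_neg at hA
    obtain ⟨t, ht, x, hx, hzx⟩ := hA
    exact case_B hF hd hcon ht hx hzx

/-- The main theorem on pair data. -/
theorem main_pairs (hF : IsQuasisimple (generalizedFittingSubgroup ↥H)) (hd : PairData H ζ) :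
    Nat.card {x // ¬ Mv H x} ≤ 3 ∧
    Nonempty (↥(generalizedFittingSubgroup ↥H) ≃* alternatingGroup (Fin (Nat.card {x // Mv H x}))) := by
  classical
  obtain ⟨t, ht, ht3⟩ := exists_three_cycle hF hd
  obtain ⟨h1, h2⟩ := main_alt' H hF (s := t) ⟨ht, ht3⟩
  refine ⟨?_, h2⟩
  -- pairs are inside or outside
  have hpair : ∀ x, ζ x ≠ x → Mv H x → Mv H (ζ x) := by
    rintro x hx ⟨s, hs, hsx⟩
    obtain ⟨w, hw, hw2⟩ := hd.exists_other {x, ζ x} (lt_of_le_of_lt (Finset.card_le_two) (by norm_num))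
    simp only [Finset.mem_insert, Finset.mem_singleton, not_or] at hw2
    have h3 := hd.dt' hx hw hw2.1 hw2.2
    have h4 := hd.dt hx hw hw2.1 hw2.2
    set e := swap x (ζ x) * swap w (ζ w) with he
    have h5 : e x = ζ x := by
      obtain ⟨e1, e2, e3, e4, e5, e6, -⟩ := h3
      rw [he, Perm.mul_apply, swap_apply_of_ne_of_ne e2 e3, swap_apply_left]
    refine ⟨e * s * e⁻¹, conj_mem_Th h4.1 hs, ?_⟩
    rw [← h5]
    simpa using hsx
  have hout : ∀ x y, ζ x ≠ x → ζ y ≠ y → ¬ Mv H x → ¬ Mv H y → y = x ∨ y = ζ x := by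
    intro x y hx hy hmx hmy
    by_contra hcon
    push_neg at hcon
    have hmzx : ¬ Mv H (ζ x) := fun h => hmx (by
      have := hpair _ (hd.moved_zeta hx) h
      rwa [hd.inv] at this)
    have hmzy : ¬ Mv H (ζ y) := fun h => hmy (by
      have := hpair _ (hd.moved_zeta hy) h
      rwa [hd.inv] at this)
    have h3 := hd.dt' hx hy hcon.1 hcon.2
    have h4 := hd.dt hx hy hcon.1 hcon.2
    set e := swap x (ζ x) * swap y (ζ y) with he
    have hcent : (⟨e, h4.1⟩ : ↥H) ∈ Subgroup.centralizer ((generalizedFittingSubgroup ↥H : Subgroup ↥H) : Set ↥H) := by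
      rw [Subgroup.mem_centralizer_iff]
      intro k hk
      have hk2 : (k : Perm α) ∈ altS (Mv H) := Subgroup.mem_subgroupOf.1 (by rw [h1]; exact hk)
      have hd2 : Disjoint (k : Perm α) e := by
        intro z
        by_cases hz : Mv H z
        · right
          by_contra hne
          have := (h3.moved z).1 hne
          rcases this with rfl | rfl | rfl | rfl
          · exact hmx hz
          · exact hmzx hz
          · exact hmy hz
          · exact hmzy hz
        · left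
          by_contra hne
          exact hz ((mem_altS.1 hk2).2 z hne)
      exact Subtype.ext hd2.commute.eq
    have h5 := centralizer_gfit_le hcent
    rw [← h1] at h5
    have h6 : e ∈ altS (Mv H) := Subgroup.mem_subgroupOf.1 h5
    have h7 := (mem_altS.1 h6).2 x (by rw [h3.moved]; exact Or.inl rfl)
    exact hmx h7
  -- counting
  by_cases hex : ∃ x, ζ x ≠ x ∧ ¬ Mv H x
  · obtain ⟨x, hx, hmx⟩ := hex
    have hsub : (Finset.univ.filter (fun y => ¬ Mv H y)) ⊆
        ({x, ζ x} : Finset α) ∪ Finset.univ.filter (fun y => ζ y = y) := by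
      intro y hy
      have hy' := (Finset.mem_filter.1 hy).2
      by_cases hzy : ζ y = y
      · exact Finset.mem_union_right _ (Finset.mem_filter.2 ⟨Finset.mem_univ _, hzy⟩)
      · rcases hout x y hx hzy hmx hy' with h | h <;> simp [h]
    rw [Nat.card_eq_fintype_card, Fintype.card_subtype]
    calc _ ≤ _ := Finset.card_le_card hsub
      _ ≤ ({x, ζ x} : Finset α).card + (Finset.univ.filter (fun y => ζ y = y)).card := Finset.card_union_le _ _
      _ ≤ 2 + 1 := add_le_add Finset.card_le_two hd.fix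
  · push_neg at hex
    rw [Nat.card_eq_fintype_card, Fintype.card_subtype]
    have hsub : (Finset.univ.filter (fun y => ¬ Mv H y)) ⊆ Finset.univ.filter (fun y => ζ y = y) := by
      intro y hy
      have hy' := (Finset.mem_filter.1 hy).2
      refine Finset.mem_filter.2 ⟨Finset.mem_univ _, ?_⟩
      by_contra hne
      exact hy' (hex y hne)
    have := Finset.card_le_card hsub
    have h3 := hd.fix
    omega

end Pairs

section Syl2

variable {α : Type*} [Fintype α] [DecidableEq α]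

/-- A conjugation-commuting element of order `p` lies in the Sylow subgroup. -/
theorem mem_sylow_of_comm {G : Type*} [Group G] [Finite G] {p : ℕ} [hp : Fact p.Prime] (P : Sylow p G) {t : G}
    (ht : t ^ p = 1) (hc : ∀ u ∈ (P : Subgroup G), Commute t (u * t * u⁻¹)) : t ∈ (P : Subgroup G) := by
  set Q := (P : Subgroup G) with hQ
  have hQp : IsPGroup p Q := P.isPGroup'
  let gens : Set G := {c | ∃ u ∈ Q, c = u * t * u⁻¹}
  have hgens : ∀ c ∈ gens, ∀ d ∈ gens, Commute c d := by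
    rintro _ ⟨u, hu, rfl⟩ _ ⟨v, hv, rfl⟩
    have h1 := hc (u⁻¹ * v) (Q.mul_mem (Q.inv_mem hu) hv)
    have h2 : u * (t * ((u⁻¹ * v) * t * (u⁻¹ * v)⁻¹)) * u⁻¹ =
        u * (((u⁻¹ * v) * t * (u⁻¹ * v)⁻¹) * t) * u⁻¹ := by rw [h1.eq]
    show (u * t * u⁻¹) * (v * t * v⁻¹) = (v * t * v⁻¹) * (u * t * u⁻¹)
    calc (u * t * u⁻¹) * (v * t * v⁻¹) = u * (t * ((u⁻¹ * v) * t * (u⁻¹ * v)⁻¹)) * u⁻¹ := by group
      _ = u * (((u⁻¹ * v) * t * (u⁻¹ * v)⁻¹) * t) * u⁻¹ := h2
      _ = (v * t * v⁻¹) * (u * t * u⁻¹) := by group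
  let A : Subgroup G := Subgroup.closure gens
  have hAcomm : ∀ c ∈ A, ∀ d ∈ A, Commute c d := by
    intro c hc d hd
    have h1 : A ≤ Subgroup.centralizer gens := by
      refine (Subgroup.closure_le _).2 ?_
      intro g hg
      rw [SetLike.mem_coe, Subgroup.mem_centralizer_iff]
      intro h hh
      exact hgens h hh g hg
    have h2 : gens ⊆ Subgroup.centralizer (A : Set G) := by
      intro g hg
      rw [SetLike.mem_coe, Subgroup.mem_centralizer_iff]
      intro h hh
      have := Subgroup.mem_centralizer_iff.1 (h1 hh) g hg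
      exact this.symm
    have h3 : A ≤ Subgroup.centralizer (A : Set G) := (Subgroup.closure_le _).2 h2
    exact (Subgroup.mem_centralizer_iff.1 (h3 hd) c hc)
  have hApow : ∀ c ∈ A, c ^ p = 1 := by
    intro c hc
    induction hc using Subgroup.closure_induction with
    | mem c hc =>
      obtain ⟨u, -, rfl⟩ := hc
      rw [conj_pow, ht]
      group
    | one => simp
    | mul c d hc hd h1 h2 =>
      rw [(hAcomm c hc d hd).mul_pow, h1, h2, one_mul]
    | inv c _ h1 =>
      rw [inv_pow, h1, inv_one]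
  have hAp : IsPGroup p A := by
    intro c
    refine ⟨1, ?_⟩
    apply Subtype.ext
    simpa using hApow c c.2
  have hAN : Q ≤ Subgroup.normalizer (A : Set G) := by
    intro g hg
    apply Cfsg.Agent.Lib.PGroups.mem_normalizer_of_conj_le'
    intro w hw
    induction hw using Subgroup.closure_induction with
    | mem c hc =>
      obtain ⟨u, hu, rfl⟩ := hc
      apply Subgroup.subset_closure
      exact ⟨g * u, Q.mul_mem hg hu, by group⟩
    | one => simp [A.one_mem]
    | mul c d _ _ h1 h2 =>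
      have : g * (c * d) * g⁻¹ = (g * c * g⁻¹) * (g * d * g⁻¹) := by group
      rw [this]
      exact A.mul_mem h1 h2
    | inv c _ h1 =>
      have : g * c⁻¹ * g⁻¹ = (g * c * g⁻¹)⁻¹ := by group
      rw [this]
      exact A.inv_mem h1
  have hsup := hQp.to_sup_of_normal_right' hAp hAN
  have h1 := P.is_maximal' hsup le_sup_left
  have htA : t ∈ A := Subgroup.subset_closure ⟨1, Q.one_mem, by simp⟩
  have : t ∈ Q ⊔ A := (le_sup_right : A ≤ Q ⊔ A) htA
  rwa [h1] at this

theorem fix_le_one (P : Sylow 2 (Perm α)) {a b : α} (ha : ∀ g ∈ (P : Subgroup (Perm α)), g a = a)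
    (hb : ∀ g ∈ (P : Subgroup (Perm α)), g b = b) : a = b := by
  by_contra hab
  haveI : Fact (Nat.Prime 2) := ⟨Nat.prime_two⟩
  have h1 : swap a b ∈ (P : Subgroup (Perm α)) := by
    apply mem_sylow_of_comm P
    · rw [pow_two]
      exact swap_mul_self a b
    · intro u hu
      have : u * swap a b * u⁻¹ = swap a b := by
        rw [mul_swap_eq_swap_mul, ha u hu, hb u hu]
        simp
      rw [this]
      exact Commute.refl _
  have h2 := ha _ h1
  rw [swap_apply_left] at h2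
  exact hab h2.symm

theorem exists_swap {P : Sylow 2 (Perm α)} {a : α} {g₀ : Perm α} (hg₀ : g₀ ∈ (P : Subgroup (Perm α)))
    (hm : g₀ a ≠ a) : ∃ b, b ≠ a ∧ swap a b ∈ (P : Subgroup (Perm α)) := by
  classical
  haveI : Fact (Nat.Prime 2) := ⟨Nat.prime_two⟩
  set Q := (P : Subgroup (Perm α)) with hQ
  have hQp : IsPGroup 2 Q := P.isPGroup'
  let S : Subgroup (Perm α) := Q ⊓ MulAction.stabilizer (Perm α) a
  have hSmem : ∀ g, g ∈ S ↔ g ∈ Q ∧ g a = a := by
    intro g
    rw [Subgroup.mem_inf, MulAction.mem_stabilizer_iff]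
    rfl
  have hSlt : S < Q := by
    refine lt_of_le_of_ne inf_le_left ?_
    intro h
    have : g₀ ∈ S := by rw [h]; exact hg₀
    exact hm ((hSmem _).1 this).2
  obtain ⟨y, hy, hyS⟩ := SetLike.exists_of_lt (Cfsg.Agent.Lib.LocalEven2.lt_inf_normalizer_of_lt hQp hSlt)
  obtain ⟨hyQ, hyN⟩ := hy
  have hex : ∃ j : ℕ, y ^ (2 ^ j) ∈ S := by
    obtain ⟨k, hk⟩ := hQp ⟨y, hyQ⟩
    refine ⟨k, ?_⟩
    have : y ^ 2 ^ k = 1 := congrArg Subtype.val hk
    rw [this]
    exact S.one_mem
  have hj0 : Nat.find hex ≠ 0 := by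
    intro h0
    have := Nat.find_spec hex
    rw [h0] at this
    simp only [pow_zero, pow_one] at this
    exact hyS this
  set j := Nat.find hex with hj
  obtain ⟨i, hi⟩ := Nat.exists_eq_succ_of_ne_zero hj0
  have hxS : y ^ (2 ^ i) ∉ S := Nat.find_min hex (by omega)
  have hx2 : (y ^ (2 ^ i)) ^ 2 ∈ S := by
    have := Nat.find_spec hex
    rw [← hj, hi, Nat.succ_eq_add_one, pow_succ, pow_mul] at this
    exact this
  set x := y ^ (2 ^ i) with hx
  have hxQ : x ∈ Q := Q.pow_mem hyQ _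
  have hxN : x ∈ Subgroup.normalizer (S : Set (Perm α)) := Subgroup.pow_mem _ hyN _
  have hxa : x a ≠ a := fun e => hxS ((hSmem x).2 ⟨hxQ, e⟩)
  have hxxa : x (x a) = a := by
    have := ((hSmem _).1 hx2).2
    rwa [pow_two, Perm.mul_apply] at this
  have hxinv : x⁻¹ a = x a := by
    rw [Perm.inv_eq_iff_eq, hxxa]
  refine ⟨x a, hxa, ?_⟩
  apply mem_sylow_of_comm P
  · rw [pow_two]
    exact swap_mul_self a (x a)
  intro u hu
  have h0 : ∀ s ∈ S, s (x a) = x a := by
    intro s hs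
    have h1 := (Subgroup.mem_normalizer_iff.1 (Subgroup.inv_mem _ hxN) s).1 hs
    have h2 := ((hSmem _).1 h1).2
    simp only [Perm.mul_apply, inv_inv] at h2
    have h3 := congrArg x h2
    simpa using h3
  -- four cases
  have h1 : ∀ v ∈ Q, v a = a → v (x a) = x a := fun v hv hva => h0 v ((hSmem v).2 ⟨hv, hva⟩)
  have h2 : ∀ v ∈ Q, v a = x a → v (x a) = a := by
    intro v hv hva
    have h3 : x⁻¹ * v ∈ S := by
      rw [hSmem]
      refine ⟨Q.mul_mem (Q.inv_mem hxQ) hv, ?_⟩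
      rw [Perm.mul_apply, hva]
      simp
    have h4 := h0 _ h3
    rw [Perm.mul_apply, Perm.inv_eq_iff_eq] at h4
    rw [h4, hxxa]
  have huQx : u * x ∈ Q := Q.mul_mem hu hxQ
  have e1 : (u * x) a = u (x a) := rfl
  have e2 : (u * x) (x a) = u a := by
    rw [Perm.mul_apply, hxxa]
  have hconj : u * swap a (x a) * u⁻¹ = swap (u a) (u (x a)) := by
    rw [mul_swap_eq_swap_mul]
    group
  rw [hconj]
  by_cases c1 : u a = a
  · rw [c1, h1 u hu c1]
    exact Commute.refl _
  by_cases c2 : u a = x a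
  · rw [c2, h2 u hu c2, swap_comm]
    exact Commute.refl _
  by_cases c3 : u (x a) = a
  · exfalso
    have h3 := h1 (u * x) huQx (by rw [e1, c3])
    rw [e2] at h3
    exact c2 h3
  by_cases c4 : u (x a) = x a
  · exfalso
    have h3 := h2 (u * x) huQx (by rw [e1, c4])
    rw [e2] at h3
    exact c1 h3
  · exact comm_swap (Ne.symm c1) (Ne.symm c3) (Ne.symm c2) (Ne.symm c4)

theorem partner_unique {P : Sylow 2 (Perm α)} {a b c : α} (hab : b ≠ a) (hac : c ≠ a)
    (h1 : swap a b ∈ (P : Subgroup (Perm α))) (h2 : swap a c ∈ (P : Subgroup (Perm α))) : b = c := by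
  by_contra hbc
  haveI : Fact (Nat.Prime 2) := ⟨Nat.prime_two⟩
  have h3 := isThreeCycle_swap_mul_swap_same hab.symm hac.symm hbc
  have h4 : swap a b * swap a c ∈ (P : Subgroup (Perm α)) := Subgroup.mul_mem _ h1 h2
  have h5 : IsPGroup 2 (Subgroup.zpowers (swap a b * swap a c)) :=
    P.isPGroup'.to_le (Subgroup.zpowers_le.2 h4)
  obtain ⟨k, hk⟩ := Cfsg.Agent.Lib.PGroups.isPGroup_zpowers_iff.1 h5
  rw [h3.orderOf] at hk
  have h6 : 3 ∣ 2 ^ k := by rw [← hk]
  have := Nat.Prime.dvd_of_dvd_pow Nat.prime_three h6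
  omega

/-- The pair data from a Sylow 2-subgroup of the alternating group. -/
theorem exists_pairData (hn : 8 ≤ Fintype.card α) (H : Subgroup (Perm α)) (P₀ : Sylow 2 ↥(alternatingGroup α))
    (hP₀ : (P₀ : Subgroup ↥(alternatingGroup α)).map (alternatingGroup α).subtype ≤ H) :
    ∃ ζ : Perm α, PairData H ζ := by
  classical
  haveI : Fact (Nat.Prime 2) := ⟨Nat.prime_two⟩
  set P₁ := (P₀ : Subgroup ↥(alternatingGroup α)).map (alternatingGroup α).subtype with hP₁
  have hP₁p : IsPGroup 2 P₁ := P₀.isPGroup'.map _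
  obtain ⟨P, hP⟩ := hP₁p.exists_le_sylow
  have hP₂ : ∀ e ∈ (P : Subgroup (Perm α)), sign e = 1 → e ∈ H := by
    intro e he hs
    have halt : e ∈ alternatingGroup α := hs
    let R : Subgroup ↥(alternatingGroup α) := (P : Subgroup (Perm α)).comap (alternatingGroup α).subtype
    have hR : IsPGroup 2 R := by
      intro w
      obtain ⟨k, hk⟩ := P.isPGroup' ⟨((w : ↥(alternatingGroup α)) : Perm α), w.2⟩
      refine ⟨k, ?_⟩
      apply Subtype.ext
      apply Subtype.ext
      have := congrArg Subtype.val hk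
      simpa using this
    have hle : (P₀ : Subgroup ↥(alternatingGroup α)) ≤ R := by
      intro w hw
      exact hP ⟨w, hw, rfl⟩
    have h1 := P₀.is_maximal' hR hle
    have h2 : (⟨e, halt⟩ : ↥(alternatingGroup α)) ∈ R := he
    rw [h1] at h2
    exact hP₀ ⟨_, h2, rfl⟩
  have hpart : ∀ x, ∃ b, (b = x ∧ ∀ g ∈ (P : Subgroup (Perm α)), g x = x) ∨
      (b ≠ x ∧ swap x b ∈ (P : Subgroup (Perm α))) := by
    intro x
    by_cases hx : ∀ g ∈ (P : Subgroup (Perm α)), g x = x
    · exact ⟨x, Or.inl ⟨rfl, hx⟩⟩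
    · push_neg at hx
      obtain ⟨g, hg, hgx⟩ := hx
      obtain ⟨b, hb, hs⟩ := exists_swap hg hgx
      exact ⟨b, Or.inr ⟨hb, hs⟩⟩
  choose ζ₀ hζ₀ using hpart
  have hinv : Function.Involutive ζ₀ := by
    intro x
    rcases hζ₀ x with ⟨h1, -⟩ | ⟨h1, h2⟩
    · rw [h1, h1]
    · rcases hζ₀ (ζ₀ x) with ⟨-, h3⟩ | ⟨h3, h4⟩
      · exfalso
        have := h3 _ h2
        rw [swap_apply_right] at this
        exact h1 this.symm
      · have h5 : swap (ζ₀ x) x ∈ (P : Subgroup (Perm α)) := by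
          rw [swap_comm]; exact h2
        exact partner_unique h3 h1.symm h4 h5
  refine ⟨Function.Involutive.toPerm ζ₀ hinv, ?_⟩
  have hz : ∀ x, Function.Involutive.toPerm ζ₀ hinv x = ζ₀ x := fun x => rfl
  refine ⟨hinv, ?_, ?_, hn⟩
  · rw [Finset.card_le_one]
    intro u hu v hv
    simp only [Finset.mem_filter, Finset.mem_univ, true_and, hz] at hu hv
    rcases hζ₀ u with ⟨-, h1⟩ | ⟨h1, -⟩
    · rcases hζ₀ v with ⟨-, h2⟩ | ⟨h2, -⟩
      · exact fix_le_one P h1 h2
      · exact absurd hv h2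
    · exact absurd hu h1
  · intro x y hx hy _ _
    simp only [hz] at hx hy ⊢
    rcases hζ₀ x with ⟨h1, -⟩ | ⟨h1, h2⟩
    · exact absurd h1 hx
    rcases hζ₀ y with ⟨h3, -⟩ | ⟨h3, h4⟩
    · exact absurd h3 hy
    apply hP₂ _ (Subgroup.mul_mem _ h2 h4)
    rw [map_mul, sign_swap h1.symm, sign_swap h3.symm]
    decide

end Syl2

end Cfsg.Agent.Lib.LocalEven2.AltLift
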