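import Mathlib
import Cfsg.Agent.Lib.LocalEven2.S50a

/-!
# Irreducibility of the natural modules: `F²` for the derived group of `SL₂(F)`, the even-weight
module for the alternating group of odd degree
-/

set_option autoImplicit false
set_option linter.unusedSectionVars false
set_option linter.unusedVariables false

namespace Cfsg.Agent.Lib.LocalEven2.BB

open Matrix
open Cfsg.Agent.Lib.LocalEven2.S50 (SL2 uu vv dd uu_coe vv_coe dd_coe sl_ext)
open scoped commutatorElement

section SL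

variable {F : Type*} [Field F]

theorem mv2 (a b c d : F) (v : Fin 2 → F) :
    (!![a, b; c, d] : Matrix (Fin 2) (Fin 2) F).mulVec v = ![a * v 0 + b * v 1, c * v 0 + d * v 1] := by
  ext i
  fin_cases i <;> simp [Matrix.mulVec, dotProduct, Fin.sum_univ_two]

theorem uu_inv (a : F) : (uu a)⁻¹ = uu (-a) := by
  apply sl_ext
  simp [Matrix.SpecialLinearGroup.coe_inv, Matrix.adjugate_fin_two]

theorem vv_inv (a : F) : (vv a)⁻¹ = vv (-a) := by
  apply sl_ext
  simp [Matrix.SpecialLinearGroup.coe_inv, Matrix.adjugate_fin_two]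

theorem dd_inv (c : F) (hc : c ≠ 0) : (dd c hc)⁻¹ = dd c⁻¹ (inv_ne_zero hc) := by
  apply sl_ext
  simp [Matrix.SpecialLinearGroup.coe_inv, Matrix.adjugate_fin_two]

/-- The commutator `[u(1), v(1)]`. -/
theorem cc_coe : ((⁅uu (1 : F), vv (1 : F)⁆ : SL2 F) : Matrix (Fin 2) (Fin 2) F) = !![3, -1; 1, 0] := by
  rw [commutatorElement_def, uu_inv, vv_inv]
  simp only [Matrix.SpecialLinearGroup.coe_mul, uu_coe, vv_coe, Matrix.mul_fin_two]
  ext i j
  fin_cases i <;> fin_cases j <;> simp <;> ring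

theorem uu_mem_of (t : F) (ht : t ≠ 0) (ht2 : t ^ 2 ≠ 1) (b : F) : uu b ∈ commutator (SL2 F) := by
  have hd : t ^ 2 - 1 ≠ 0 := sub_ne_zero.2 ht2
  have h : ⁅dd t ht, uu (b / (t ^ 2 - 1))⁆ = uu b := by
    rw [commutatorElement_def, dd_inv, uu_inv]
    apply sl_ext
    simp only [Matrix.SpecialLinearGroup.coe_mul, uu_coe, dd_coe, Matrix.mul_fin_two]
    ext i j
    fin_cases i <;> fin_cases j <;> simp <;> field_simp <;> ring
  rw [← h]
  exact Subgroup.commutator_mem_commutator trivial trivial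

theorem vv_mem_of (t : F) (ht : t ≠ 0) (ht2 : t ^ 2 ≠ 1) (b : F) : vv b ∈ commutator (SL2 F) := by
  have hd : t ^ 2 - 1 ≠ 0 := sub_ne_zero.2 ht2
  have h : ⁅dd t⁻¹ (inv_ne_zero ht), vv (b / (t ^ 2 - 1))⁆ = vv b := by
    rw [commutatorElement_def, dd_inv, vv_inv]
    apply sl_ext
    simp only [Matrix.SpecialLinearGroup.coe_mul, vv_coe, dd_coe, Matrix.mul_fin_two]
    ext i j
    fin_cases i <;> fin_cases j <;> simp <;> field_simp <;> ring
  rw [← h]
  exact Subgroup.commutator_mem_commutator trivial trivial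

/-- The vector ext on `Fin 2`. -/
theorem vec_eta (v : Fin 2 → F) : v = ![v 0, v 1] := by
  ext i; fin_cases i <;> rfl

/-- Large fields. -/
theorem irr_large (t : F) (ht : t ≠ 0) (ht2 : t ^ 2 ≠ 1) (S : AddSubgroup (Fin 2 → F))
    (hS : ∃ v ∈ S, v ≠ 0)
    (hinv : ∀ g ∈ commutator (SL2 F), ∀ v ∈ S, ((g : SL2 F) : Matrix (Fin 2) (Fin 2) F).mulVec v ∈ S) (w : Fin 2 → F) :
    w ∈ S := by
  have hu : ∀ a : F, ∀ v ∈ S, ![a * v 1, 0] ∈ S := by
    intro a v hv
    have h1 := hinv _ (uu_mem_of t ht ht2 a) v hv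
    rw [uu_coe, mv2] at h1
    have h2 := S.sub_mem h1 hv
    convert h2 using 1
    ext i; fin_cases i <;> simp [Pi.sub_apply]
  have hv' : ∀ a : F, ∀ v ∈ S, ![0, a * v 0] ∈ S := by
    intro a v hv
    have h1 := hinv _ (vv_mem_of t ht ht2 a) v hv
    rw [vv_coe, mv2] at h1
    have h2 := S.sub_mem h1 hv
    convert h2 using 1
    ext i; fin_cases i <;> simp [Pi.sub_apply]
  have key : ∀ v ∈ S, v 1 ≠ 0 → w ∈ S := by
    intro v hv hv1
    have h1 : ![1, (0:F)] ∈ S := by
      have := hu (v 1)⁻¹ v hv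
      rwa [inv_mul_cancel₀ hv1] at this
    have h2 : ∀ c : F, ![c, (0:F)] ∈ S := by
      intro c
      have := hu (c * (v 1)⁻¹) v hv
      rwa [mul_assoc, inv_mul_cancel₀ hv1, mul_one] at this
    have h3 : ∀ d : F, ![(0:F), d] ∈ S := by
      intro d
      have := hv' d _ h1
      simpa using this
    have : w = ![w 0, 0] + ![0, w 1] := by
      ext i; fin_cases i <;> simp
    rw [this]
    exact S.add_mem (h2 _) (h3 _)
  obtain ⟨v, hv, hne⟩ := hS
  by_cases hv1 : v 1 = 0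
  · have hv0 : v 0 ≠ 0 := by
      intro h0
      apply hne
      ext i; fin_cases i
      · exact h0
      · exact hv1
    have h3 := hv' (v 0)⁻¹ v hv
    rw [inv_mul_cancel₀ hv0] at h3
    exact key _ h3 (by simp)
  · exact key v hv hv1

variable [Fintype F]

/-- Existence of `t` for fields with at least four elements. -/
theorem exists_t (h : 4 ≤ Fintype.card F) : ∃ t : F, t ≠ 0 ∧ t ^ 2 ≠ 1 := by
  classical
  by_contra hc
  push_neg at hc
  have h1 : (Finset.univ : Finset F) ⊆ {0, 1, -1} := by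
    intro x _
    by_cases hx : x = 0
    · simp [hx]
    · have := hc x hx
      have h2 : x * x = 1 := by rw [← pow_two]; exact this
      rcases mul_self_eq_one_iff.1 h2 with h3 | h3 <;> simp [h3]
  have h2 := Finset.card_le_card h1
  have h3 : ({0, 1, -1} : Finset F).card ≤ 3 := Finset.card_le_three
  rw [Finset.card_univ] at h2
  omega

/-- Elements of a prime field are natural numbers. -/
theorem exists_nat_of_prime (h : (Fintype.card F).Prime) (a : F) : ∃ k : ℕ, a = (k : F) := by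
  classical
  haveI : Fact (Fintype.card F).Prime := ⟨h⟩
  let φ : ZMod (Fintype.card F) ≃+* F := ZMod.ringEquivOfPrime F h rfl
  refine ⟨(φ.symm a).val, ?_⟩
  have h1 : ((φ.symm a).val : ZMod (Fintype.card F)) = φ.symm a := ZMod.natCast_zmod_val _
  have h2 : φ (((φ.symm a).val : ZMod (Fintype.card F))) = a := by rw [h1]; simp
  rw [map_natCast] at h2
  exact h2.symm

theorem disc_ne (h : Fintype.card F = 2 ∨ Fintype.card F = 3) (x y : F) (hxy : ¬ (x = 0 ∧ y = 0)) :
    x ^ 2 - 3 * x * y + y ^ 2 ≠ 0 := by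
  classical
  intro h0
  apply hxy
  rcases h with h | h
  · let φ : ZMod 2 ≃+* F := ZMod.ringEquivOfPrime F Nat.prime_two h
    have key : ∀ a b : ZMod 2, a ^ 2 - 3 * a * b + b ^ 2 = 0 → a = 0 ∧ b = 0 := by decide
    have h1 : φ ((φ.symm x) ^ 2 - 3 * (φ.symm x) * (φ.symm y) + (φ.symm y) ^ 2) = 0 := by
      simp only [map_add, map_sub, map_mul, map_pow, RingEquiv.apply_symm_apply, map_ofNat]
      exact h0
    have h2 := key _ _ ((map_eq_zero_iff φ φ.injective).1 h1)
    exact ⟨by simpa using h2.1, by simpa using h2.2⟩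
  · let φ : ZMod 3 ≃+* F := ZMod.ringEquivOfPrime F Nat.prime_three h
    have key : ∀ a b : ZMod 3, a ^ 2 - 3 * a * b + b ^ 2 = 0 → a = 0 ∧ b = 0 := by decide
    have h1 : φ ((φ.symm x) ^ 2 - 3 * (φ.symm x) * (φ.symm y) + (φ.symm y) ^ 2) = 0 := by
      simp only [map_add, map_sub, map_mul, map_pow, RingEquiv.apply_symm_apply, map_ofNat]
      exact h0
    have h2 := key _ _ ((map_eq_zero_iff φ φ.injective).1 h1)
    exact ⟨by simpa using h2.1, by simpa using h2.2⟩

/-- Small fields. -/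
theorem irr_small (h : Fintype.card F = 2 ∨ Fintype.card F = 3) (S : AddSubgroup (Fin 2 → F))
    (hS : ∃ v ∈ S, v ≠ 0)
    (hinv : ∀ g ∈ commutator (SL2 F), ∀ v ∈ S, ((g : SL2 F) : Matrix (Fin 2) (Fin 2) F).mulVec v ∈ S) (w : Fin 2 → F) :
    w ∈ S := by
  have hpr : (Fintype.card F).Prime := by
    rcases h with h | h <;> rw [h]
    · exact Nat.prime_two
    · exact Nat.prime_three
  obtain ⟨v, hv, hne⟩ := hS
  have hxy : ¬ (v 0 = 0 ∧ v 1 = 0) := by
    rintro ⟨h0, h1⟩
    apply hne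
    ext i; fin_cases i
    · exact h0
    · exact h1
  have hD := disc_ne h (v 0) (v 1) hxy
  have hc : ⁅uu (1 : F), vv (1 : F)⁆ ∈ commutator (SL2 F) := Subgroup.commutator_mem_commutator trivial trivial
  have hv2 := hinv _ hc v hv
  rw [cc_coe, mv2] at hv2
  set D := v 0 ^ 2 - 3 * v 0 * v 1 + v 1 ^ 2 with hDdef
  obtain ⟨k, hk⟩ := exists_nat_of_prime hpr ((w 0 * v 0 - w 1 * (3 * v 0 - v 1)) / D)
  obtain ⟨l, hl⟩ := exists_nat_of_prime hpr ((w 1 * v 0 - w 0 * v 1) / D)
  have e0 : w 0 = ((w 0 * v 0 - w 1 * (3 * v 0 - v 1)) / D) * v 0 +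
      ((w 1 * v 0 - w 0 * v 1) / D) * (3 * v 0 + -1 * v 1) := by
    field_simp
    rw [hDdef]; ring
  have e1 : w 1 = ((w 0 * v 0 - w 1 * (3 * v 0 - v 1)) / D) * v 1 +
      ((w 1 * v 0 - w 0 * v 1) / D) * (1 * v 0 + 0 * v 1) := by
    field_simp
    rw [hDdef]; ring
  have h1 := S.nsmul_mem hv k
  have h2 := S.nsmul_mem hv2 l
  have h3 := S.add_mem h1 h2
  convert h3 using 1
  ext i
  fin_cases i
  · show w 0 = k • v 0 + l • (3 * v 0 + -1 * v 1)
    rw [nsmul_eq_mul, nsmul_eq_mul, ← hk, ← hl]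
    exact e0
  · show w 1 = k • v 1 + l • (1 * v 0 + 0 * v 1)
    rw [nsmul_eq_mul, nsmul_eq_mul, ← hk, ← hl]
    exact e1

/-- **Irreducibility** of the natural module for the derived group of `SL₂(F)`. -/
theorem sl2_irr (S : AddSubgroup (Fin 2 → F)) (hS : ∃ v ∈ S, v ≠ 0)
    (hinv : ∀ g ∈ commutator (SL2 F), ∀ v ∈ S, ((g : SL2 F) : Matrix (Fin 2) (Fin 2) F).mulVec v ∈ S) (w : Fin 2 → F) :
    w ∈ S := by
  by_cases h4 : 4 ≤ Fintype.card F
  · obtain ⟨t, ht, ht2⟩ := exists_t h4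
    exact irr_large t ht ht2 S hS hinv w
  · have h1 : 1 < Fintype.card F := Fintype.one_lt_card
    have : Fintype.card F = 2 ∨ Fintype.card F = 3 := by omega
    exact irr_small this S hS hinv w

end SL

section Alt

variable {n : ℕ}

/-- The vector `e_a + e_b`. -/
def pv (a b : Fin n) : Fin n → ZMod 2 := Pi.single a 1 + Pi.single b 1

theorem pv_apply (a b x : Fin n) : pv a b x = (if x = a then 1 else 0) + (if x = b then 1 else 0) := by
  simp [pv, Pi.single_apply]

theorem zmod2_cases (a : ZMod 2) : a = 0 ∨ a = 1 := by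
  revert a; decide

theorem even_sum (a : ZMod 2) : a + a = 0 := by
  revert a; decide

/-- A weight-two vector in an invariant subgroup. -/
theorem exists_pv (hn : Odd n) (S : AddSubgroup (Fin n → ZMod 2)) {v : Fin n → ZMod 2} (hv : v ∈ S) (hne : v ≠ 0)
    (hsum : ∑ i, v i = 0)
    (hinv : ∀ σ ∈ alternatingGroup (Fin n), ∀ v, ∑ i, v i = 0 → v ∈ S → (fun i => v (σ⁻¹ i)) ∈ S) :
    ∃ j k : Fin n, j ≠ k ∧ pv j k ∈ S := by
  classical
  obtain ⟨i, hi⟩ : ∃ i, v i = 1 := by
    by_contra hc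
    push_neg at hc
    apply hne
    ext x
    exact (zmod2_cases _).resolve_right (hc x)
  obtain ⟨k, hk, hki⟩ : ∃ k, v k = 1 ∧ k ≠ i := by
    by_contra hc
    push_neg at hc
    have h1 : ∑ x, v x = v i := by
      apply Finset.sum_eq_single_of_mem i (Finset.mem_univ _)
      intro x _ hx
      exact (zmod2_cases _).resolve_right (fun h => hx (hc x h))
    rw [h1, hi] at hsum
    exact one_ne_zero hsum
  obtain ⟨j, hj⟩ : ∃ j, v j = 0 := by
    by_contra hc
    push_neg at hc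
    have h1 : ∀ x, v x = 1 := fun x => (zmod2_cases _).resolve_left (hc x)
    have h2 : ∑ x, v x = (n : ZMod 2) := by
      simp [h1]
    rw [h2] at hsum
    obtain ⟨m, rfl⟩ := hn
    have h3 : ((2 * m + 1 : ℕ) : ZMod 2) = 1 := by
      push_cast
      have : (2 : ZMod 2) = 0 := by decide
      rw [this]; simp
    rw [h3] at hsum
    exact one_ne_zero hsum
  have hji : j ≠ i := by rintro rfl; rw [hi] at hj; exact one_ne_zero hj
  have hjk : j ≠ k := by rintro rfl; rw [hk] at hj; exact one_ne_zero hj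
  set σ : Equiv.Perm (Fin n) := Equiv.swap i j * Equiv.swap j k with hσ
  have hσm : σ ∈ alternatingGroup (Fin n) := by
    rw [Equiv.Perm.mem_alternatingGroup, hσ, Equiv.Perm.sign_mul, Equiv.Perm.sign_swap hji.symm,
      Equiv.Perm.sign_swap hjk]
    simp
  have h1 := hinv σ hσm v hsum hv
  refine ⟨j, k, hjk, ?_⟩
  have h2 := S.add_mem hv h1
  convert h2 using 1
  ext x
  have hinvσ : σ⁻¹ = Equiv.swap j k * Equiv.swap i j := by
    rw [hσ, _root_.mul_inv_rev, Equiv.swap_inv, Equiv.swap_inv]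
  simp only [Pi.add_apply, pv_apply, hinvσ, Equiv.Perm.coe_mul, Function.comp_apply]
  have h11 : (1 : ZMod 2) + 1 = 0 := by decide
  by_cases hxi : x = i
  · rw [hxi, if_neg hji.symm, if_neg hki.symm, Equiv.swap_apply_left, Equiv.swap_apply_left, hi, hk, h11]
    simp
  by_cases hxj : x = j
  · rw [hxj, if_pos rfl, if_neg hjk, Equiv.swap_apply_right,
      Equiv.swap_apply_of_ne_of_ne hji.symm hki.symm, hj, hi]
    simp
  by_cases hxk : x = k
  · rw [hxk, if_neg hjk.symm, if_pos rfl, Equiv.swap_apply_of_ne_of_ne hki hjk.symm,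
      Equiv.swap_apply_right, hk, hj]
    simp
  rw [if_neg hxj, if_neg hxk, Equiv.swap_apply_of_ne_of_ne hxi hxj, Equiv.swap_apply_of_ne_of_ne hxj hxk]
  simp [even_sum]

/-- Permutations with prescribed values on two points, even. -/
theorem exists_even_pair {j k a b : Fin n} (hjk : j ≠ k) (hab : a ≠ b) :
    ∃ τ ∈ alternatingGroup (Fin n), (τ j = a ∧ τ k = b) ∨ (τ j = b ∧ τ k = a) := by
  classical
  set τ₁ : Equiv.Perm (Fin n) := Equiv.swap j a with hτ₁
  set c := τ₁ k with hc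
  have hac : a ≠ c := by
    intro h
    have : τ₁ j = τ₁ k := by rw [hτ₁, Equiv.swap_apply_left, ← hτ₁]; exact h
    exact hjk (τ₁.injective this)
  set τ₀ : Equiv.Perm (Fin n) := Equiv.swap c b * τ₁ with hτ₀
  have h1 : τ₀ j = a := by
    rw [hτ₀, Equiv.Perm.coe_mul, Function.comp_apply, hτ₁, Equiv.swap_apply_left]
    exact Equiv.swap_apply_of_ne_of_ne hac hab
  have h2 : τ₀ k = b := by
    rw [hτ₀, Equiv.Perm.coe_mul, Function.comp_apply, ← hc, Equiv.swap_apply_left]
  by_cases hs : Equiv.Perm.sign τ₀ = 1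
  · exact ⟨τ₀, Equiv.Perm.mem_alternatingGroup.2 hs, Or.inl ⟨h1, h2⟩⟩
  · refine ⟨τ₀ * Equiv.swap j k, ?_, Or.inr ?_⟩
    · rw [Equiv.Perm.mem_alternatingGroup, Equiv.Perm.sign_mul, Equiv.Perm.sign_swap hjk]
      rcases Int.units_eq_one_or (Equiv.Perm.sign τ₀) with h | h
      · exact absurd h hs
      · rw [h]; decide
    · simp [h1, h2]

theorem pv_comp (τ : Equiv.Perm (Fin n)) (j k : Fin n) :
    (fun i => pv j k (τ⁻¹ i)) = pv (τ j) (τ k) := by
  classical
  ext x
  simp only [pv_apply]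
  have h1 : (τ⁻¹ x = j) ↔ x = τ j := by
    rw [Equiv.Perm.inv_eq_iff_eq]
  have h2 : (τ⁻¹ x = k) ↔ x = τ k := by
    rw [Equiv.Perm.inv_eq_iff_eq]
  simp only [h1, h2]

theorem pv_comm (a b : Fin n) : pv a b = pv b a := by
  simp [pv, add_comm]

theorem pv_sum (a b : Fin n) : ∑ i, pv a b i = 0 := by
  classical
  simp only [pv, Pi.add_apply, Finset.sum_add_distrib, Finset.sum_pi_single', Finset.mem_univ, if_true]
  decide

/-- **Irreducibility** of the even-weight module for the alternating group of odd degree. -/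
theorem alt_irr (hn : Odd n) (S : AddSubgroup (Fin n → ZMod 2)) {v₀ : Fin n → ZMod 2} (hv₀ : v₀ ∈ S) (hne : v₀ ≠ 0)
    (hsum : ∑ i, v₀ i = 0)
    (hinv : ∀ σ ∈ alternatingGroup (Fin n), ∀ v, ∑ i, v i = 0 → v ∈ S → (fun i => v (σ⁻¹ i)) ∈ S)
    (w : Fin n → ZMod 2) (hw : ∑ i, w i = 0) : w ∈ S := by
  classical
  obtain ⟨j, k, hjk, hp⟩ := exists_pv hn S hv₀ hne hsum hinv
  have hall : ∀ a b : Fin n, pv a b ∈ S := by
    intro a b
    by_cases hab : a = b
    · have : pv a b = 0 := by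
        subst hab
        ext x
        simp only [pv_apply, Pi.zero_apply]
        exact even_sum _
      rw [this]; exact S.zero_mem
    · obtain ⟨τ, hτ, h⟩ := exists_even_pair hjk hab
      have h1 := hinv τ hτ _ (pv_sum j k) hp
      rw [pv_comp] at h1
      rcases h with ⟨h2, h3⟩ | ⟨h2, h3⟩
      · rwa [h2, h3] at h1
      · rw [h2, h3] at h1
        rwa [pv_comm]
  obtain ⟨m, rfl⟩ := hn
  have : w = ∑ i, (w i) • pv i (0 : Fin (2 * m + 1)) := by
    ext x
    simp only [Finset.sum_apply, Pi.smul_apply, smul_eq_mul, pv_apply, mul_add, Finset.sum_add_distrib]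
    have h1 : ∑ i, w i * (if x = i then (1 : ZMod 2) else 0) = w x := by
      simp [Finset.sum_ite_eq]
    have h2 : ∑ i, w i * (if x = 0 then (1 : ZMod 2) else 0) = 0 := by
      rw [← Finset.sum_mul, hw, zero_mul]
    rw [h1, h2, add_zero]
  rw [this]
  apply AddSubgroup.sum_mem
  intro i _
  rcases zmod2_cases (w i) with h | h
  · rw [h, zero_smul]; exact S.zero_mem
  · rw [h, one_smul]; exact hall _ _

end Alt

end Cfsg.Agent.Lib.LocalEven2.BB
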