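import Cfsg.Agent.Lib.LocalEven2.JC
import Cfsg.Agent.Lib.LocalEven2.Sylow

/-!
# Order-three transvection-like automorphisms of elementary abelian 2-groups lying in a 3-group commute
-/

set_option autoImplicit false
set_option linter.unusedSectionVars false
set_option linter.unusedVariables false

namespace Cfsg.Agent.Lib.LocalEven2.TR

open Subgroup

variable {V : Type*} [Group V]

theorem comm_of_two (hV : ∀ v : V, v * v = 1) (a b : V) : a * b = b * a := by
  have h1 : a * b * (a * b) = 1 := hV _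
  have h2 : a⁻¹ = a := inv_eq_of_mul_eq_one_left (hV a)
  have h3 : b⁻¹ = b := inv_eq_of_mul_eq_one_left (hV b)
  calc a * b = (a * b)⁻¹ := (inv_eq_of_mul_eq_one_left h1).symm
    _ = b⁻¹ * a⁻¹ := by group
    _ = b * a := by rw [h2, h3]

/-- Order-three "transvections". -/
structure Tr (t : MulAut V) (W : Subgroup V) : Prop where
  t3 : t ^ 3 = 1
  card : Nat.card W = 4
  comm : ∀ v, t v * v ∈ W
  fpf : ∀ w ∈ W, t w = w → w = 1

section

variable (hV : ∀ v : V, v * v = 1) {t u v : MulAut V} {W W₁ W₂ : Subgroup V}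
include hV

theorem Tr.stable (h : Tr t W) {w : V} (hw : w ∈ W) : t w ∈ W := by
  have h1 := W.mul_mem (h.comm w) hw
  rwa [mul_assoc, hV, mul_one] at h1

theorem t3_apply (h : Tr t W) (y : V) : t (t (t y)) = y := by
  have := congrArg (fun s : MulAut V => s y) h.t3
  simpa [pow_succ, MulAut.mul_apply] using this

theorem Tr.conj (h : Tr t W) (s : MulAut V) : Tr (s * t * s⁻¹) (W.map s.toMonoidHom) := by
  refine ⟨?_, ?_, ?_, ?_⟩
  · rw [conj_pow, h.t3]; simp
  · rw [Subgroup.card_map_of_injective s.injective, h.card]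
  · intro y
    refine ⟨t (s⁻¹ y) * s⁻¹ y, h.comm _, ?_⟩
    simp [MulAut.mul_apply]
  · rintro _ ⟨w, hw, rfl⟩ he
    have h1 : s (t w) = s w := by
      have : (s * t * s⁻¹) (s w) = s (t w) := by simp [MulAut.mul_apply]
      rw [← this]; exact he
    have h2 := h.fpf w hw (s.injective h1)
    simp [h2]

theorem Tr.surj [Finite V] (h : Tr t W) {w : V} (hw : w ∈ W) : ∃ y ∈ W, t y * y = w := by
  haveI : Std.Commutative (α := V) (· * ·) := ⟨comm_of_two hV⟩
  have hinj : Function.Injective (fun y : W => (⟨t y * y, h.comm y⟩ : W)) := by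
    intro a b hab
    have h1 : t a * a = t b * b := congrArg Subtype.val hab
    have h2 : t ((a : V) * b) = a * b := by
      rw [map_mul]
      calc t a * t b = (t a * a) * a * t b := by rw [mul_assoc (t a) (a : V) (a : V), hV, mul_one]
        _ = t b * b * a * t b := by rw [h1]
        _ = (t b * t b) * (a * b) := by ac_rfl
        _ = a * b := by rw [hV, one_mul]
    have h3 := h.fpf _ (W.mul_mem a.2 b.2) h2
    apply Subtype.ext
    exact mul_right_cancel (h3.trans (hV b).symm)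
  obtain ⟨y, hy⟩ := (Finite.injective_iff_surjective.1 hinj) ⟨w, hw⟩
  exact ⟨y, y.2, congrArg Subtype.val hy⟩

theorem Tr.stable_of_comm [Finite V] (h : Tr t W) (hc : Commute t u) {w : V} (hw : w ∈ W) : u w ∈ W := by
  obtain ⟨y, hy, rfl⟩ := h.surj hV hw
  have : u (t y) = t (u y) := by
    have := congrArg (fun s : MulAut V => s y) hc.eq
    exact this.symm
  rw [map_mul, this]
  exact h.comm _

theorem exists_ne_one (hc : Nat.card W = 4) [Finite V] : ∃ w ∈ W, w ≠ 1 := by
  by_contra hn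
  push_neg at hn
  have : W = ⊥ := (Subgroup.eq_bot_iff_forall _).2 hn
  rw [this] at hc
  simp at hc

theorem Tr.ne (h : Tr t W) {w : V} (hw : w ∈ W) (h1 : w ≠ 1) : t w ≠ w := fun he => h1 (h.fpf w hw he)

/-- Two commuting transvections: equal centres or independent. -/
theorem eq_or_inf_of_comm [Finite V] (hu : Tr u W₁) (hv : Tr v W₂) (hc : Commute u v) :
    W₁ = W₂ ∨ W₁ ⊓ W₂ = ⊥ := by
  by_cases hb : W₁ ⊓ W₂ = ⊥
  · exact Or.inr hb
  left
  obtain ⟨⟨d, hd⟩, hd1⟩ := (Subgroup.ne_bot_iff_exists_ne_one.1 hb)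
  have hd1' : d ≠ 1 := fun h => hd1 (Subtype.ext h)
  have h1 : u d ∈ W₁ := hu.stable hV hd.1
  have h2 : u d ∈ W₂ := hv.stable_of_comm hV hc.symm hd.2
  have h3 : u d ≠ 1 := fun h => hd1' (by simpa using h)
  have h4 : ∀ w ∈ W₁, w ∈ W₂ := by
    intro w hw
    rcases Cfsg.Agent.Lib.LocalEven2.JC.four_cases hu.card (fun w _ => hV w) hd.1 h1 hd1' h3
      (hu.ne hV hd.1 hd1').symm w hw with h | h | h | h
    · rw [h]; exact W₂.one_mem
    · rw [h]; exact hd.2
    · rw [h]; exact h2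
    · rw [h]; exact W₂.mul_mem hd.2 h2
  exact Subgroup.eq_of_le_of_card_ge h4 (by rw [hu.card, hv.card])

theorem cent_of_inf [Finite V] (hu : Tr u W₁) (hv : Tr v W₂) (hc : Commute u v) (hb : W₁ ⊓ W₂ = ⊥)
    {w : V} (hw : w ∈ W₁) : v w = w := by
  have h1 : v w * w ∈ W₁ ⊓ W₂ :=
    ⟨W₁.mul_mem (hu.stable_of_comm hV hc hw) hw, hv.comm w⟩
  rw [hb, Subgroup.mem_bot] at h1
  exact mul_right_cancel (h1.trans (hV w).symm)

/-- `t² = t⁻¹`, on elements. -/
theorem t_inv (h : Tr t W) (y : V) : t⁻¹ y = t (t y) := by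
  have h3 := t3_apply hV h (t⁻¹ y)
  rw [MulAut.apply_inv_self] at h3
  exact h3.symm

/-- On the centre, `1 + t + t² = 0`. -/
theorem sum_zero (h : Tr t W) {w : V} (hw : w ∈ W) : w * t w * t (t w) = 1 := by
  haveI : Std.Commutative (α := V) (· * ·) := ⟨comm_of_two hV⟩
  apply h.fpf _ (W.mul_mem (W.mul_mem hw (h.stable hV hw)) (h.stable hV (h.stable hV hw)))
  rw [map_mul, map_mul, t3_apply hV h]
  ac_rfl

theorem sum_zero' (h : Tr t W) {w : V} (hw : w ∈ W) : t (t w) = w * t w := by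
  have h1 := sum_zero hV h hw
  calc t (t w) = (w * t w) * (w * t w * t (t w)) := by
        rw [← mul_assoc, hV (w * t w), one_mul]
    _ = w * t w := by rw [h1, mul_one]

/-- The projection onto the centre. -/
def prj (t : MulAut V) (y : V) : V := t y * t (t y)

theorem prj_mem (h : Tr t W) (y : V) : prj t y ∈ W := by
  have h1 := h.comm (t y)
  rwa [comm_of_two hV] at h1

theorem prj_mul (t : MulAut V) (a b : V) : prj t (a * b) = prj t a * prj t b := by
  haveI : Std.Commutative (α := V) (· * ·) := ⟨comm_of_two hV⟩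
  simp only [prj, map_mul]
  ac_rfl

theorem prj_of_mem (h : Tr t W) {w : V} (hw : w ∈ W) : prj t w = w := by
  have h1 := sum_zero' hV h hw
  show t w * t (t w) = w
  rw [h1, comm_of_two hV w, ← mul_assoc, hV, one_mul]

theorem prj_of_fixed {y : V} (hy : t y = y) : prj t y = 1 := by
  show t y * t (t y) = 1
  rw [hy, hy, hV]

theorem prj_conj (s t : MulAut V) (y : V) : prj (s * t * s⁻¹) y = s (prj t (s⁻¹ y)) := by
  simp [prj, MulAut.mul_apply]

theorem Tr.inv (h : Tr t W) : Tr t⁻¹ W := by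
  refine ⟨?_, h.card, ?_, ?_⟩
  · rw [inv_pow, h.t3, inv_one]
  · intro y
    rw [t_inv hV h]
    have h1 := W.mul_mem (h.comm (t y)) (h.comm y)
    have e : t (t y) * t y * (t y * y) = t (t y) * y := by
      rw [mul_assoc, ← mul_assoc (t y) (t y) y, hV, one_mul]
    rwa [e] at h1
  · intro w hw he
    apply h.fpf w hw
    calc t w = t (t⁻¹ w) := by rw [he]
      _ = w := by simp

theorem prj_inv (h : Tr t W) (y : V) : prj t⁻¹ y = prj t y := by
  have e1 : t⁻¹ y = t (t y) := t_inv hV h y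
  have e2 : t⁻¹ (t (t y)) = t y := by simp
  show t⁻¹ y * t⁻¹ (t⁻¹ y) = t y * t (t y)
  rw [e1, e2, comm_of_two hV]

/-- A transvection with the same action as `u` at one nontrivial point of the common centre equals `u`,
when their quotient has odd order. -/
theorem eq_of_apply_eq [Finite V] (hu : Tr u W) (hv : Tr v W) {w : V} (hw : w ∈ W) (hw1 : w ≠ 1)
    (he : v w = u w) (hodd : ∃ k, (u⁻¹ * v) ^ k = 1 ∧ Odd k) : v = u := by
  set s := u⁻¹ * v with hs
  have h1 : s w = w := by simp [hs, MulAut.mul_apply, he]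
  have h2 : s (u w) = u w := by
    have e1 : v (u w) = w * u w := by
      rw [← he, sum_zero' hV hv hw]
    have e2 : w * u w = u (u w) := (sum_zero' hV hu hw).symm
    simp only [hs, MulAut.mul_apply]
    rw [e1, e2]
    simp
  have huw : u w ∈ W := hu.stable hV hw
  have huw1 : u w ≠ 1 := fun h => hw1 (by simpa using h)
  have hne : w ≠ u w := (hu.ne hV hw hw1).symm
  have h3 : ∀ z ∈ W, s z = z := by
    intro z hz
    rcases Cfsg.Agent.Lib.LocalEven2.JC.four_cases hu.card (fun w _ => hV w) hw huw hw1 huw1 hne z hz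
      with h | h | h | h
    · rw [h, map_one]
    · rw [h, h1]
    · rw [h, h2]
    · rw [h, map_mul, h1, h2]
  have h4 : ∀ y, s y * y ∈ W := by
    intro y
    have h5 := W.mul_mem ((hu.inv hV).comm (v y)) (hv.comm y)
    have e : u⁻¹ (v y) * v y * (v y * y) = u⁻¹ (v y) * y := by
      rw [mul_assoc, ← mul_assoc (v y) (v y) y, hV, one_mul]
    rw [e] at h5
    exact h5
  have h5 : s * s = 1 := by
    ext y
    show s (s y) = y
    have e : s y = (s y * y) * y := by rw [mul_assoc, hV, mul_one]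
    have e2 : s (s y) = (s y * y) * s y := by
      conv_lhs => rw [e, map_mul, h3 _ (h4 y)]
    rw [e2, comm_of_two hV (s y) y, mul_assoc, hV, mul_one]
  obtain ⟨k, hk, hodd⟩ := hodd
  have h6 : s = 1 := by
    obtain ⟨r, rfl⟩ := hodd
    have h7 : s ^ (2 * r) = 1 := by rw [pow_mul, pow_two, h5, one_pow]
    rw [pow_succ, h7, one_mul] at hk
    exact hk
  have h7 : u * s = v := by simp [hs]
  rw [← h7, h6, mul_one]

/-- Same centre, odd quotient: equal or inverse. -/
theorem same_center [Finite V] (hu : Tr u W) (hv : Tr v W)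
    (hodd1 : ∃ k, (u⁻¹ * v) ^ k = 1 ∧ Odd k) (hodd2 : ∃ k, (u⁻¹⁻¹ * v) ^ k = 1 ∧ Odd k) :
    v = u ∨ v = u⁻¹ := by
  obtain ⟨w, hw, hw1⟩ := exists_ne_one hV hu.card
  have h1 : v w ∈ W := hv.stable hV hw
  have h2 : v w ≠ 1 := fun h => hw1 (by simpa using h)
  have huw : u w ∈ W := hu.stable hV hw
  have huw1 : u w ≠ 1 := fun h => hw1 (by simpa using h)
  rcases Cfsg.Agent.Lib.LocalEven2.JC.four_cases hu.card (fun w _ => hV w) hw huw hw1 huw1
    (hu.ne hV hw hw1).symm _ h1 with h | h | h | h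
  · exact absurd h h2
  · exact absurd h (hv.ne hV hw hw1)
  · exact Or.inl (eq_of_apply_eq hV hu hv hw hw1 h hodd1)
  · right
    have e : u⁻¹ w = w * u w := by rw [t_inv hV hu, sum_zero' hV hu hw]
    exact eq_of_apply_eq hV (hu.inv hV) hv hw hw1 (by rw [h, e]) hodd2

/-- Commutation inside a `3`-group. -/
theorem commute_of_pgroup [Finite V] : ∀ (n : ℕ) (Y : Subgroup (MulAut V)), Nat.card Y = n →
    IsPGroup 3 Y → ∀ u ∈ Y, ∀ v ∈ Y, ∀ W₁ W₂ : Subgroup V, Tr u W₁ → Tr v W₂ → Commute u v := by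
  haveI : Finite (MulAut V) := Finite.of_injective (fun f : MulAut V => (f : V → V)) DFunLike.coe_injective
  intro n
  induction n using Nat.strong_induction_on with
  | _ n ih =>
  intro Y hn hY u hu v hv W₁ W₂ htu htv
  have oddOf : ∀ s ∈ Y, ∃ k, s ^ k = 1 ∧ Odd k := by
    intro s hs
    obtain ⟨k, hk⟩ := hY ⟨s, hs⟩
    refine ⟨3 ^ k, ?_, Odd.pow (by decide)⟩
    simpa using congrArg Subtype.val hk
  by_cases hc : Y ≤ Subgroup.zpowers u
  · obtain ⟨k, rfl⟩ := Subgroup.mem_zpowers_iff.1 (hc hv)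
    exact (Commute.refl u).zpow_right k
  have hlt : Subgroup.zpowers u < Y :=
    lt_of_le_of_ne (by rwa [Subgroup.zpowers_le]) (fun h => hc (by rw [h]))
  obtain ⟨M, hM, hMmax⟩ := (Set.toFinite {M : Subgroup (MulAut V) | Subgroup.zpowers u ≤ M ∧ M < Y}).exists_maximal
    ⟨Subgroup.zpowers u, le_rfl, hlt⟩
  have huM : u ∈ M := hM.1 (Subgroup.mem_zpowers u)
  have hMY : M ≤ Y := hM.2.le
  have hcardM : Nat.card M < n := by
    rw [← hn]; exact Set.ncard_lt_ncard (show (M : Set (MulAut V)) ⊂ Y from hM.2) (Set.toFinite _)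
  have hYM : IsPGroup 3 M := hY.to_le hMY
  have IH : ∀ a ∈ M, ∀ b ∈ M, ∀ X₁ X₂ : Subgroup V, Tr a X₁ → Tr b X₂ → Commute a b :=
    fun a ha b hb X₁ X₂ h1 h2 => ih _ hcardM M rfl hYM a ha b hb X₁ X₂ h1 h2
  by_cases hvM : v ∈ M
  · exact IH u huM v hvM W₁ W₂ htu htv
  have hnorm : Y ≤ normalizer (M : Set (MulAut V)) := by
    have h1 := Cfsg.Agent.Lib.LocalEven2.lt_inf_normalizer_of_lt hY hM.2
    by_contra hne
    have h2 : Y ⊓ normalizer (M : Set (MulAut V)) < Y := lt_of_le_of_ne inf_le_left (fun h => hne (inf_eq_left.1 h))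
    have := hMmax (y := Y ⊓ normalizer (M : Set (MulAut V))) ⟨hM.1.trans h1.le, h2⟩ h1.le
    exact absurd (lt_of_lt_of_le h1 this) (lt_irrefl _)
  have hconj : ∀ a ∈ M, v * a * v⁻¹ ∈ M := fun a ha => (mem_normalizer_iff.1 (hnorm hv) a).1 ha
  set u₁ := v * u * v⁻¹ with hu₁
  set u₂ := v * u₁ * v⁻¹ with hu₂
  set X₀ := W₁ with hX₀
  set X₁ := X₀.map v.toMonoidHom with hX₁
  set X₂ := X₁.map v.toMonoidHom with hX₂
  have hm1 : u₁ ∈ M := hconj u huM
  have hm2 : u₂ ∈ M := hconj u₁ hm1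
  have t1 : Tr u₁ X₁ := htu.conj hV v
  have t2 : Tr u₂ X₂ := t1.conj hV v
  have c01 : Commute u u₁ := IH _ huM _ hm1 _ _ htu t1
  have c02 : Commute u u₂ := IH _ huM _ hm2 _ _ htu t2
  have c12 : Commute u₁ u₂ := IH _ hm1 _ hm2 _ _ t1 t2
  have hv3 : ∀ y, v (v (v y)) = y := t3_apply hV htv
  rcases eq_or_inf_of_comm hV htu t1 c01 with he | hb
  · -- same centre
    have t1' : Tr u₁ X₀ := by rw [he]; exact t1
    have hs : u₁ = u ∨ u₁ = u⁻¹ :=
      same_center hV htu t1' (oddOf _ (Y.mul_mem (Y.inv_mem hu) (hMY hm1)))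
        (oddOf _ (Y.mul_mem (Y.inv_mem (Y.inv_mem hu)) (hMY hm1)))
    have hv3' : v ^ 3 = 1 := htv.t3
    rcases hs with h | h
    · have : v * u = u * v := by
        have h2 : v * u * v⁻¹ = u := h
        exact (eq_mul_inv_iff_mul_eq.1 h2.symm).symm ▸ rfl
      exact this.symm
    · have h2 : v * v * u * v⁻¹ * v⁻¹ = u := by
        have h3 : v * u * v⁻¹ = u⁻¹ := h
        calc v * v * u * v⁻¹ * v⁻¹ = v * (v * u * v⁻¹) * v⁻¹ := by group
          _ = v * u⁻¹ * v⁻¹ := by rw [h3]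
          _ = (v * u * v⁻¹)⁻¹ := by group
          _ = u := by rw [h3, inv_inv]
      have h3 : Commute (v * v) u := by
        show v * v * u = u * (v * v)
        calc v * v * u = (v * v * u * v⁻¹ * v⁻¹) * (v * v) := by group
          _ = u * (v * v) := by rw [h2]
      have h4 : v = v * v * (v * v) := by
        calc v = v ^ 3 * v := by rw [hv3', one_mul]
          _ = v * v * (v * v) := by simp only [pow_succ, pow_zero, one_mul, mul_assoc]
      rw [h4]
      exact (h3.mul_left h3).symm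
  · exfalso
    have hb12 : X₁ ⊓ X₂ = ⊥ := by
      rw [Subgroup.eq_bot_iff_forall]
      rintro w ⟨⟨a, ha, rfl⟩, ⟨b, hb', hab⟩⟩
      have e : b = a := v.injective hab
      subst e
      have : b ∈ X₀ ⊓ X₁ := ⟨ha, hb'⟩
      rw [hb, Subgroup.mem_bot] at this
      simp [this]
    have hb02 : X₀ ⊓ X₂ = ⊥ := by
      rw [Subgroup.eq_bot_iff_forall]
      rintro w ⟨hw0, ⟨b, ⟨c, hc', rfl⟩, rfl⟩⟩
      have h1 : v (v (v c)) = c := hv3 c
      have : v (v (v c)) ∈ X₀ ⊓ X₁ := by
        refine ⟨by rw [h1]; exact hc', ⟨_, hw0, rfl⟩⟩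
      rw [hb, Subgroup.mem_bot] at this
      simpa using this
    have indep : ∀ a₀ ∈ X₀, ∀ a₁ ∈ X₁, ∀ a₂ ∈ X₂, a₀ * a₁ * a₂ = 1 → a₂ = 1 := by
      intro a₀ h0 a₁ h1 a₂ h2 he
      have f0 : u₂ a₀ = a₀ := cent_of_inf hV htu t2 c02 hb02 h0
      have f1 : u₂ a₁ = a₁ := cent_of_inf hV t1 t2 c12 hb12 h1
      have h3 : a₀ * a₁ * u₂ a₂ = 1 := by
        have := congrArg u₂ he
        rwa [map_mul, map_mul, f0, f1, map_one] at this
      have h4 : u₂ a₂ = a₂ := mul_left_cancel (h3.trans he.symm)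
      exact t2.fpf a₂ h2 h4
    obtain ⟨w, hw, hw1⟩ := exists_ne_one hV htu.card
    -- the map `X₀ → W₂`
    have hinj : Function.Injective (fun y : X₀ => (⟨v y * y, htv.comm y⟩ : W₂)) := by
      intro a b hab
      have h1 : v a * a = v b * b := congrArg Subtype.val hab
      have h2 : v ((a : V) * b) = a * b := by
        haveI : Std.Commutative (α := V) (· * ·) := ⟨comm_of_two hV⟩
        rw [map_mul]
        calc v a * v b = (v a * a) * a * v b := by rw [mul_assoc (v a) (a : V) (a : V), hV, mul_one]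
          _ = v b * b * a * v b := by rw [h1]
          _ = (v b * v b) * (a * b) := by ac_rfl
          _ = a * b := by rw [hV, one_mul]
      have h3 : (a : V) * b ∈ X₀ ⊓ X₁ := ⟨X₀.mul_mem a.2 b.2, ⟨_, X₀.mul_mem a.2 b.2, h2⟩⟩
      rw [hb, Subgroup.mem_bot] at h3
      apply Subtype.ext
      exact mul_right_cancel (h3.trans (hV b).symm)
    have hbij := hinj.bijective_of_nat_card_le (by rw [htu.card, htv.card])
    have hp : v (v w * w) * (v w * w) ∈ W₂ := htv.comm _
    have hpp : v (v w * w) ∈ W₂ := htv.stable hV (htv.comm w)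
    obtain ⟨⟨w', hw'⟩, hw'e⟩ := hbij.2 ⟨v (v w * w), hpp⟩
    have hw'e' : v w' * w' = v (v w * w) := congrArg Subtype.val hw'e
    have m1 : v w' * v w ∈ X₁ := X₁.mul_mem ⟨_, hw', rfl⟩ ⟨_, hw, rfl⟩
    have m2 : v (v w) ∈ X₂ := ⟨_, ⟨_, hw, rfl⟩, rfl⟩
    have key : w' * (v w' * v w) * v (v w) = 1 := by
      haveI : Std.Commutative (α := V) (· * ·) := ⟨comm_of_two hV⟩
      have h1 : v (v w * w) = v (v w) * v w := map_mul _ _ _
      rw [h1] at hw'e'
      calc w' * (v w' * v w) * v (v w) = (v w' * w') * (v (v w) * v w) := by ac_rfl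
        _ = (v (v w) * v w) * (v (v w) * v w) := by rw [hw'e']
        _ = 1 := hV _
    have := indep _ hw' _ m1 _ m2 key
    exact hw1 (by simpa using this)

end

end Cfsg.Agent.Lib.LocalEven2.TR
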