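import Cfsg.Agent.Lib.LocalEven2.BB5
import Cfsg.Agent.Lib.Components.Basic

/-!
# Counting the conjugates of a transvection centre under a maximal elementary abelian subgroup
-/

set_option autoImplicit false
set_option linter.unusedSectionVars false
set_option linter.unusedVariables false

namespace Cfsg.Agent.Lib.LocalEven2.TR

open Subgroup

section family

variable {V : Type*} [Group V] [Finite V] (hV : ∀ v : V, v * v = 1)
include hV

theorem family_fix {s : Finset (Subgroup V)} {f : Subgroup V → MulAut V} {B : Subgroup V}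
    (hs : ∀ C ∈ s, Tr (f C) C) (hB : Tr (f B) B) (hc : ∀ C ∈ s, Commute (f C) (f B)) (hn : B ∉ s)
    {y : V} (hy : y ∈ s.sup id) : f B y = y := by
  have h1 : s.sup id ≤ ((f B).toMonoidHom).eqLocus (MonoidHom.id V) := by
    apply Finset.sup_le
    intro C hC w hw
    have hne : C ≠ B := fun h => hn (h ▸ hC)
    rcases eq_or_inf_of_comm hV (hs C hC) hB (hc C hC) with h | h
    · exact absurd h hne
    · exact cent_of_inf hV (hs C hC) hB (hc C hC) h hw
  exact h1 hy

theorem family_main (f : Subgroup V → MulAut V) (s : Finset (Subgroup V))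
    (hs : ∀ C ∈ s, Tr (f C) C) (hc : ∀ C ∈ s, ∀ D ∈ s, Commute (f C) (f D)) :
    4 ^ s.card ≤ Nat.card (s.sup id : Subgroup V) ∧
      ∀ v ∈ s.sup id, (∀ C ∈ s, prj (f C) v = 1) → v = 1 := by
  classical
  induction s using Finset.induction_on with
  | empty =>
    refine ⟨by simp, ?_⟩
    intro v hv _
    simpa using hv
  | insert B s hn ih =>
    have hs' : ∀ C ∈ s, Tr (f C) C := fun C hC => hs C (Finset.mem_insert_of_mem hC)
    have hc' : ∀ C ∈ s, ∀ D ∈ s, Commute (f C) (f D) := fun C hC D hD =>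
      hc C (Finset.mem_insert_of_mem hC) D (Finset.mem_insert_of_mem hD)
    obtain ⟨ih1, ih2⟩ := ih hs' hc'
    have hB : Tr (f B) B := hs B (Finset.mem_insert_self _ _)
    have hcB : ∀ C ∈ s, Commute (f C) (f B) := fun C hC =>
      hc C (Finset.mem_insert_of_mem hC) B (Finset.mem_insert_self _ _)
    have hfix : ∀ y ∈ s.sup id, f B y = y := fun y hy => family_fix hV hs' hB hcB hn hy
    have hsup : (insert B s).sup id = B ⊔ s.sup id := by simp
    rw [hsup, Finset.card_insert_of_notMem hn]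
    constructor
    · have hbot : B ⊓ s.sup id = ⊥ := by
        rw [Subgroup.eq_bot_iff_forall]
        rintro c ⟨hc1, hc2⟩
        rw [← prj_of_mem hV hB hc1]
        exact prj_of_fixed hV (hfix c hc2)
      have h1 := Cfsg.Agent.Lib.LocalEven2.card_mul_card_le B (s.sup id)
      rw [hbot, Subgroup.card_bot, mul_one, hB.card] at h1
      rw [pow_succ]
      omega
    · intro v hv hp
      obtain ⟨b, hb, y, hy, rfl⟩ := Cfsg.Agent.Lib.Components.exists_mul_of_mem_sup_of_commutes
        (fun a _ b _ => comm_of_two hV a b) hv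
      have h1 := hp B (Finset.mem_insert_self _ _)
      rw [prj_mul hV, prj_of_mem hV hB hb, prj_of_fixed hV (hfix y hy), mul_one] at h1
      subst h1
      rw [one_mul] at hp ⊢
      exact ih2 y hy (fun C hC => hp C (Finset.mem_insert_of_mem hC))

end family

theorem four_pow_le {m : ℕ} (h : 4 ^ m ≤ 4 * m) : m ≤ 1 := by
  by_contra hn
  obtain ⟨k, rfl⟩ : ∃ k, m = k + 2 := ⟨m - 2, by omega⟩
  have : ∀ k : ℕ, 4 * (k + 2) < 4 ^ (k + 2) := by
    intro k
    induction k with
    | zero => norm_num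
    | succ k ih =>
      have e : 4 ^ (k + 1 + 2) = 4 * 4 ^ (k + 2) := by ring
      omega
  have := this k
  omega

variable {G : Type*} [Group G] [Finite G]

/-- The counting theorem. -/
theorem count (V₀ A : Subgroup G) (φ : ↥A →* MulAut ↥V₀)
    (hφ : ∀ (a : A) (v : V₀), ((φ a v : V₀) : G) = a * v * (a : G)⁻¹)
    (hVV : ∀ v : V₀, v * v = 1) (hAb : ∀ a b : A, (a : G) * b = b * a) (hA2 : ∀ a ∈ A, a * a = 1)
    (t : MulAut V₀) (W : Subgroup V₀) (ht : Tr t W)
    (Y : Subgroup (MulAut V₀)) (hY : IsPGroup 3 Y) (hYm : ∀ a : A, φ a * t * (φ a)⁻¹ ∈ Y)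
    (hmax : ∀ D : Subgroup G, D ≤ A ⊔ V₀ → (∀ d ∈ D, d * d = 1) → Nat.card D ≤ Nat.card A) :
    ∀ a : A, W.map (φ a).toMonoidHom = W := by
  classical
  haveI : Fintype A := Fintype.ofFinite _
  set Wa : A → Subgroup V₀ := fun a => W.map (φ a).toMonoidHom with hWa
  set fa : A → MulAut V₀ := fun a => φ a * t * (φ a)⁻¹ with hfa
  have hT : ∀ a, Tr (fa a) (Wa a) := fun a => ht.conj hVV (φ a)
  have hcomm : ∀ a b, Commute (fa a) (fa b) := fun a b =>
    commute_of_pgroup hVV _ Y rfl hY _ (hYm a) _ (hYm b) _ _ (hT a) (hT b)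
  have hW1 : Wa 1 = W := by
    simp only [hWa, map_one]
    ext w
    simp
  have hf1 : fa 1 = t := by simp [hfa]
  have htY : t ∈ Y := by
    have := hYm 1
    simpa using this
  have oddOf : ∀ s ∈ Y, ∃ k, s ^ k = 1 ∧ Odd k := by
    intro s hs
    obtain ⟨k, hk⟩ := hY ⟨s, hs⟩
    refine ⟨3 ^ k, ?_, Odd.pow (by decide)⟩
    simpa using congrArg Subtype.val hk
  set 𝒪 : Finset (Subgroup V₀) := (Finset.univ : Finset A).image Wa with h𝒪
  have hO : ∀ B ∈ 𝒪, ∃ a, Wa a = B := fun B hB => by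
    obtain ⟨a, _, h⟩ := Finset.mem_image.1 hB
    exact ⟨a, h⟩
  set f : Subgroup V₀ → MulAut V₀ := fun B => if h : ∃ a, Wa a = B then fa h.choose else 1 with hf
  have hf' : ∀ B ∈ 𝒪, ∃ a, Wa a = B ∧ f B = fa a := by
    intro B hB
    have h := hO B hB
    refine ⟨h.choose, h.choose_spec, ?_⟩
    simp only [hf, dif_pos h]
  have hfam := family_main hVV f 𝒪
    (by
      intro C hC
      obtain ⟨a, rfl, h⟩ := hf' C hC
      rw [h]; exact hT a)
    (by
      intro C hC D hD
      obtain ⟨a, rfl, h⟩ := hf' C hC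
      obtain ⟨b, rfl, h'⟩ := hf' D hD
      rw [h, h']; exact hcomm a b)
  obtain ⟨hf1', hf2'⟩ := hfam
  have hWmul : ∀ a b, Wa (a * b) = (Wa b).map (φ a).toMonoidHom := by
    intro a b
    ext w
    simp only [hWa, Subgroup.mem_map, map_mul]
    constructor
    · rintro ⟨z, hz, rfl⟩
      exact ⟨φ b z, ⟨z, hz, rfl⟩, rfl⟩
    · rintro ⟨_, ⟨z, hz, rfl⟩, rfl⟩
      exact ⟨z, hz, rfl⟩
  -- the two subgroups of `A`
  let A₁ : Subgroup A :=
    { carrier := {a | Wa a = W}
      one_mem' := hW1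
      mul_mem' := by
        intro a b ha hb
        show Wa (a * b) = W
        have ha' : Wa a = W := ha
        have hb' : Wa b = W := hb
        rw [hWmul, hb']
        exact ha'
      inv_mem' := by
        intro a ha
        show Wa a⁻¹ = W
        have ha' : Wa a = W := ha
        have h1 := hWmul a⁻¹ a
        rw [inv_mul_cancel, hW1, ha'] at h1
        exact h1.symm }
  have hA₁ : ∀ a, a ∈ A₁ ↔ Wa a = W := fun a => Iff.rfl
  let A₀ : Subgroup A :=
    { carrier := {a | ∀ w ∈ W, φ a w = w}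
      one_mem' := by
        intro w _
        simp
      mul_mem' := by
        intro a b ha hb w hw
        rw [map_mul, MulAut.mul_apply, hb w hw, ha w hw]
      inv_mem' := by
        intro a ha w hw
        have h1 := ha w hw
        rw [map_inv]
        nth_rewrite 1 [← h1]; simp }
  have hA₀ : ∀ a, a ∈ A₀ ↔ ∀ w ∈ W, φ a w = w := fun a => Iff.rfl
  have hA₀₁ : A₀ ≤ A₁ := by
    intro a ha
    rw [hA₁]
    ext w
    simp only [hWa, Subgroup.mem_map]
    constructor
    · rintro ⟨z, hz, rfl⟩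
      have : φ a z = z := ha z hz
      show φ a z ∈ W
      rwa [this]
    · intro hw
      exact ⟨w, hw, ha w hw⟩
  -- the size of the orbit
  have horb : Nat.card A ≤ Nat.card A₁ * 𝒪.card := by
    rw [Nat.card_eq_fintype_card, ← Finset.card_univ]
    apply Finset.card_le_mul_card_image
    intro B hB
    obtain ⟨a₀, rfl⟩ := hO B hB
    have hcard : Nat.card A₁ = (Finset.univ.filter (fun x => x ∈ A₁)).card := by
      rw [Nat.card_eq_fintype_card]
      exact Fintype.card_subtype _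
    rw [hcard]
    apply Finset.card_le_card_of_injOn (fun x => a₀⁻¹ * x)
    · intro x hx
      have hx' : Wa x = Wa a₀ := (Finset.mem_filter.1 hx).2
      refine Finset.mem_coe.2 (Finset.mem_filter.2 ⟨Finset.mem_univ _, ?_⟩)
      show Wa (a₀⁻¹ * x) = W
      rw [hWmul, hx', ← hWmul, inv_mul_cancel, hW1]
    · intro x _ y _ h
      exact mul_left_cancel h
  -- fixing
  have hfixA : ∀ (b : A) (c : V₀), (c : G) ∈ A → φ b c = c := by
    intro b c hc
    apply Subtype.ext
    rw [hφ]
    have := hAb b ⟨c, hc⟩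
    simp only at this
    rw [this]
    group
  have hO1 : ∀ a, Wa a ∈ 𝒪 := fun a => Finset.mem_image_of_mem _ (Finset.mem_univ a)
  set V₁ : Subgroup V₀ := 𝒪.sup id with hV₁
  have hprj0 : ∀ c : V₀, c ∈ V₁ → (c : G) ∈ A → prj t c = 1 → c = 1 := by
    intro c hc hcA hp
    apply hf2' c hc
    intro C hC
    obtain ⟨a, rfl, h⟩ := hf' C hC
    rw [h]
    show prj (φ a * t * (φ a)⁻¹) c = 1
    rw [prj_conj hVV]
    have : (φ a)⁻¹ c = c := by
      rw [← map_inv]; exact hfixA _ c hcA
    rw [this, hp, map_one]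
  have hprjfix : ∀ c : V₀, (c : G) ∈ A → ∀ a ∈ A₁, φ a (prj t c) = prj t c := by
    intro c hcA a ha
    have h1 : Tr (fa a) W := by
      have := hT a
      rwa [(hA₁ a).1 ha] at this
    have hs := same_center hVV ht h1 (oddOf _ (Y.mul_mem (Y.inv_mem htY) (hYm a)))
      (oddOf _ (Y.mul_mem (Y.inv_mem (Y.inv_mem htY)) (hYm a)))
    have h2 : prj (fa a) c = prj t c := by
      rcases hs with h | h
      · rw [h]
      · rw [h, prj_inv hVV ht]
    have h3 : prj (fa a) c = φ a (prj t c) := by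
      show prj (φ a * t * (φ a)⁻¹) c = _
      rw [prj_conj hVV]
      have : (φ a)⁻¹ c = c := by
        rw [← map_inv]; exact hfixA _ c hcA
      rw [this]
    rw [← h3, h2]
  -- the subgroups of `G`
  set V₁G : Subgroup G := V₁.map V₀.subtype with hV₁G
  set A₀G : Subgroup G := A₀.map A.subtype with hA₀G
  have hV₁G_le : V₁G ≤ V₀ := Subgroup.map_subtype_le _
  have hA₀G_le : A₀G ≤ A := Subgroup.map_subtype_le _
  have hcV₁ : Nat.card V₁G = Nat.card V₁ := Subgroup.card_map_of_injective V₀.subtype_injective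
  have hcA₀ : Nat.card A₀G = Nat.card A₀ := Subgroup.card_map_of_injective A.subtype_injective
  have hcentr : ∀ a ∈ A₀, ∀ v ∈ V₁, φ a v = v := by
    intro a ha v hv
    have h1 : V₁ ≤ ((φ a).toMonoidHom).eqLocus (MonoidHom.id V₀) := by
      apply Finset.sup_le
      intro C hC w hw
      obtain ⟨b, rfl⟩ := hO C hC
      obtain ⟨z, hz, rfl⟩ := hw
      show φ a (φ b z) = φ b z
      have e : φ a (φ b z) = φ b (φ a z) := by
        have : a * b = b * a := Subtype.ext (hAb a b)
        have h2 := congrArg (fun c : A => φ c z) this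
        simpa [map_mul, MulAut.mul_apply] using h2
      rw [e, ha z hz]
    exact h1 hv
  have hD : Nat.card A₀ * Nat.card V₁ ≤ Nat.card A * Nat.card (A₀G ⊓ V₁G : Subgroup G) := by
    rw [← hcA₀, ← hcV₁]
    refine (Cfsg.Agent.Lib.LocalEven2.card_mul_card_le A₀G V₁G).trans
      (Nat.mul_le_mul_right _ (hmax _ (sup_le_sup hA₀G_le hV₁G_le) ?_))
    have hcommG : ∀ a ∈ A₀G, ∀ b ∈ V₁G, a * b = b * a := by
      rintro _ ⟨a, ha, rfl⟩ _ ⟨v, hv, rfl⟩
      have h1 := congrArg (Subtype.val) (hcentr a ha v hv)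
      rw [hφ] at h1
      show (a : G) * v = v * a
      exact (mul_inv_eq_iff_eq_mul.1 h1)
    intro d hd
    obtain ⟨a, ha, b, hb, rfl⟩ := Cfsg.Agent.Lib.Components.exists_mul_of_mem_sup_of_commutes hcommG hd
    have h2 : a * a = 1 := hA2 a (hA₀G_le ha)
    have h3 : b * b = 1 := congrArg Subtype.val (hVV ⟨b, hV₁G_le hb⟩)
    calc a * b * (a * b) = a * (b * a) * b := by group
      _ = a * (a * b) * b := by rw [hcommG a ha b hb]
      _ = (a * a) * (b * b) := by group
      _ = 1 := by rw [h2, h3, one_mul]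
  -- the projection is injective on the intersection
  set N : Subgroup G := A₀G ⊓ V₁G with hN
  have hNA : ∀ n ∈ N, (n : G) ∈ A := fun n hn => hA₀G_le hn.1
  have hNV : ∀ n ∈ N, (n : G) ∈ V₀ := fun n hn => hV₁G_le hn.2
  have hNV₁ : ∀ n (hn : n ∈ N), (⟨n, hNV n hn⟩ : V₀) ∈ V₁ := by
    intro n hn
    obtain ⟨v, hv, rfl⟩ := hn.2
    exact hv
  have hNbound : ∀ P : Subgroup V₀, (∀ n (hn : n ∈ N), prj t ⟨n, hNV n hn⟩ ∈ P) → Nat.card N ≤ Nat.card P := by
    intro P hP
    apply Nat.card_le_card_of_injective (fun n : N => (⟨prj t ⟨n, hNV n n.2⟩, hP n n.2⟩ : P))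
    rintro ⟨n, hn⟩ ⟨n', hn'⟩ he
    have h1 : prj t ⟨n, hNV n hn⟩ = prj t ⟨n', hNV n' hn'⟩ := congrArg Subtype.val he
    have h2 : prj t ((⟨n, hNV n hn⟩ : V₀) * ⟨n', hNV n' hn'⟩) = 1 := by
      rw [prj_mul hVV, h1, hVV]
    have h3 := hprj0 _ (V₁.mul_mem (hNV₁ n hn) (hNV₁ n' hn')) (A.mul_mem (hNA n hn) (hNA n' hn')) h2
    have h4 : (⟨n, hNV n hn⟩ : V₀) = ⟨n', hNV n' hn'⟩ := by
      calc (⟨n, hNV n hn⟩ : V₀) = (⟨n, hNV n hn⟩ : V₀) * ⟨n', hNV n' hn'⟩ * ⟨n', hNV n' hn'⟩ := by
            rw [mul_assoc, hVV, mul_one]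
        _ = ⟨n', hNV n' hn'⟩ := by rw [h3, one_mul]
    exact Subtype.ext (show n = n' from congrArg (fun z : V₀ => (z : G)) h4)
  have hNpoint : ∀ n (hn : n ∈ N), ∀ a ∈ A₁, φ a (prj t ⟨n, hNV n hn⟩) = prj t ⟨n, hNV n hn⟩ :=
    fun n hn a ha => hprjfix _ (hNA n hn) a ha
  have hNmem : ∀ n (hn : n ∈ N), prj t ⟨n, hNV n hn⟩ ∈ W := fun n hn => prj_mem hVV ht _
  -- the bound
  have hmain : Nat.card A₁ * Nat.card N ≤ 4 * Nat.card A₀ := by
    by_cases hcase : ∀ a ∈ A₁, ∀ w ∈ W, φ a w = w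
    · have h1 : A₁ ≤ A₀ := fun a ha => hcase a ha
      have h2 : Nat.card A₁ ≤ Nat.card A₀ := Subgroup.card_le_of_le h1
      have h3 : Nat.card N ≤ 4 := by
        rw [← ht.card]; exact hNbound W hNmem
      calc Nat.card A₁ * Nat.card N ≤ Nat.card A₀ * 4 := Nat.mul_le_mul h2 h3
        _ = 4 * Nat.card A₀ := by ring
    · push_neg at hcase
      obtain ⟨a₁, ha₁, w₁, hw₁, hne⟩ := hcase
      set w₀ : V₀ := w₁ * φ a₁ w₁ with hw₀
      have hstab : ∀ a ∈ A₁, ∀ w ∈ W, φ a w ∈ W := by
        intro a ha w hw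
        have : φ a w ∈ Wa a := ⟨w, hw, rfl⟩
        rwa [(hA₁ a).1 ha] at this
      have ha₁2 : ∀ y, φ a₁ (φ a₁ y) = y := by
        intro y
        have h1 : a₁ * a₁ = 1 := Subtype.ext (hA2 _ a₁.2)
        have h2 := congrArg (fun c : A => φ c y) h1
        simpa [map_mul, MulAut.mul_apply] using h2
      have hw₀W : w₀ ∈ W := W.mul_mem hw₁ (hstab a₁ ha₁ w₁ hw₁)
      have hw₀1 : w₀ ≠ 1 := by
        intro h
        apply hne
        calc φ a₁ w₁ = w₁ * (w₁ * φ a₁ w₁) := by rw [← mul_assoc, hVV, one_mul]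
          _ = w₁ := by rw [← hw₀, h, mul_one]
      have hw₁1 : w₁ ≠ 1 := by
        rintro rfl
        simp at hne
      have hfix₀ : φ a₁ w₀ = w₀ := by
        rw [hw₀, map_mul, ha₁2, comm_of_two hVV]
      have hw₀₁ : w₀ ≠ w₁ := by
        intro h
        rw [h] at hfix₀
        exact hne hfix₀
      have hcases := Cfsg.Agent.Lib.LocalEven2.JC.four_cases ht.card (fun w _ => hVV w) hw₀W hw₁ hw₀1 hw₁1 hw₀₁
      have hmove : φ a₁ w₁ = w₀ * w₁ := by
        rw [hw₀, comm_of_two hVV w₁, mul_assoc, hVV, mul_one]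
      -- every element of `A₁` fixes `w₀`
      have hA₁w₀ : ∀ a ∈ A₁, φ a w₀ = w₀ := by
        intro a ha
        have hz : φ a w₁ ∈ W := hstab a ha w₁ hw₁
        have hcm : φ a (φ a₁ w₁) = φ a₁ (φ a w₁) := by
          have : a * a₁ = a₁ * a := Subtype.ext (hAb a a₁)
          have h2 := congrArg (fun c : A => φ c w₁) this
          simpa [map_mul, MulAut.mul_apply] using h2
        have hne1 : φ a w₀ ≠ 1 := fun h => hw₀1 (by simpa using h)
        have e0 : φ a w₀ = φ a w₁ * φ a₁ (φ a w₁) := by rw [hw₀, map_mul, hcm]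
        rcases hcases _ hz with h | h | h | h
        · rw [h] at e0
          rw [e0] at hne1
          simp at hne1
        · rw [e0, h, hfix₀, hVV] at hne1
          exact absurd rfl hne1
        · rw [e0, h]
        · rw [e0, h, map_mul, hfix₀, hmove, ← mul_assoc w₀ w₀, hVV, one_mul, mul_assoc, hVV, mul_one]
      have hA₁w₁ : ∀ a ∈ A₁, a ∉ A₀ → φ a w₁ = w₀ * w₁ := by
        intro a ha hna
        have hz : φ a w₁ ∈ W := hstab a ha w₁ hw₁
        have hne1 : φ a w₁ ≠ 1 := fun h => hw₁1 (by simpa using h)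
        rcases hcases _ hz with h | h | h | h
        · exact absurd h hne1
        · exfalso
          have : φ a w₀ = φ a w₁ := by rw [hA₁w₀ a ha, h]
          exact hw₀₁ (((φ a).injective this))
        · exfalso
          apply hna
          intro w hw
          rcases hcases w hw with h' | h' | h' | h'
          · rw [h', map_one]
          · rw [h', hA₁w₀ a ha]
          · rw [h', h]
          · rw [h', map_mul, hA₁w₀ a ha, h]
        · exact h
      have h2 : Nat.card A₁ ≤ 2 * Nat.card A₀ := by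
        have h3 : Nat.card (A₁ : Subgroup A) ≤ 2 * Nat.card (A₀ : Subgroup A) := by
          apply Cfsg.Agent.Lib.LocalEven2.JC.card_le_two_mul_of_mul_mem hA₀₁
          intro a ha b hb hna hnb w hw
          have e1 := hA₁w₁ a ha hna
          have e2 := hA₁w₁ b hb hnb
          have ew₀ := hA₁w₀ a ha
          rw [map_mul, MulAut.mul_apply]
          rcases hcases w hw with h' | h' | h' | h'
          · rw [h', map_one, map_one]
          · rw [h', hA₁w₀ b hb, ew₀]
          · rw [h', e2, map_mul, ew₀, e1, ← mul_assoc, hVV, one_mul]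
          · rw [h', map_mul, hA₁w₀ b hb, map_mul, ew₀, e2, map_mul, ew₀, e1, ← mul_assoc w₀ w₀, hVV, one_mul]
        exact h3
      have h3 : Nat.card N ≤ 2 := by
        have hP : Nat.card (Subgroup.zpowers w₀) = 2 := by
          rw [Nat.card_zpowers]
          exact orderOf_eq_prime (by rw [pow_two, hVV]) hw₀1
        rw [← hP]
        apply hNbound
        intro n hn
        have h4 := hNpoint n hn a₁ ha₁
        have h5 := hNmem n hn
        rcases hcases _ h5 with h | h | h | h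
        · rw [h]; exact Subgroup.one_mem _
        · rw [h]; exact Subgroup.mem_zpowers _
        · exfalso
          rw [h] at h4
          exact hne h4
        · exfalso
          rw [h, map_mul, hfix₀, hmove] at h4
          have : w₀ * (w₀ * w₁) = w₀ * w₁ := h4
          rw [← mul_assoc, hVV, one_mul] at this
          have h7 : w₀ = 1 := by
            have h8 : w₁ = w₀ * w₁ := this
            exact (mul_eq_right.1 h8.symm)
          exact hw₀1 h7
      calc Nat.card A₁ * Nat.card N ≤ (2 * Nat.card A₀) * 2 := Nat.mul_le_mul h2 h3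
        _ = 4 * Nat.card A₀ := by ring
  -- arithmetic
  have hA₀pos : 0 < Nat.card A₀ := Nat.card_pos
  have hm : 𝒪.card ≤ 1 := by
    apply four_pow_le
    have h1 : Nat.card A₀ * 4 ^ 𝒪.card ≤ Nat.card A₀ * (4 * 𝒪.card) := by
      calc Nat.card A₀ * 4 ^ 𝒪.card ≤ Nat.card A₀ * Nat.card V₁ := Nat.mul_le_mul_left _ hf1'
        _ ≤ Nat.card A * Nat.card N := hD
        _ ≤ (Nat.card A₁ * 𝒪.card) * Nat.card N := Nat.mul_le_mul_right _ horb
        _ = 𝒪.card * (Nat.card A₁ * Nat.card N) := by ring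
        _ ≤ 𝒪.card * (4 * Nat.card A₀) := Nat.mul_le_mul_left _ hmain
        _ = Nat.card A₀ * (4 * 𝒪.card) := by ring
    exact Nat.le_of_mul_le_mul_left h1 hA₀pos
  intro a
  have := Finset.card_le_one.1 hm _ (hO1 a) _ (hO1 1)
  rw [hW1] at this
  exact this

end Cfsg.Agent.Lib.LocalEven2.TR
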