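import Cfsg.Agent.Lib.LocalEven2.BB6
import Cfsg.Agent.Lib.LocalEven2.JC5
import Cfsg.Agent.Lib.Basic.Core
import Cfsg.Agent.Lib.LocalEven.PClosed

/-!
# Subnormal `J`-components: the action on `Ω₁Z(O₂(⟨K, J⟩))`
-/

set_option autoImplicit false
set_option linter.unusedSectionVars false
set_option linter.unusedVariables false

namespace Cfsg.Agent.Lib.LocalEven2.TR

open Subgroup Cfsg
open scoped commutatorElement
open Cfsg.Agent.Lib.LocalEven2.JC

section generic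

variable {X : Type*} [Group X]

theorem subnormal_map {Z : Type*} [Group Z] (f : X →* Z) (hf : Function.Surjective f) {H : Subgroup X}
    (hH : H.IsSubnormal) : (H.map f).IsSubnormal := by
  induction hH with
  | top =>
    rw [Subgroup.map_top_of_surjective f hf]
    exact IsSubnormal.top
  | step H K h_le hSubn hN ih =>
    refine IsSubnormal.step _ (K.map f) (Subgroup.map_mono h_le) ih ?_
    rw [Subgroup.normal_subgroupOf_iff (Subgroup.map_mono h_le)]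
    rintro _ _ ⟨h, hh, rfl⟩ ⟨k, hk, rfl⟩
    refine ⟨k * h * k⁻¹, ?_, by simp⟩
    exact (Subgroup.normal_subgroupOf_iff h_le).1 hN h k hh hk

variable [Finite X]

theorem subnormal_odd_mem {p : ℕ} [Fact p.Prime] {P : Subgroup X} (hP : P.Normal) (hPp : IsPGroup p P)
    {K H : Subgroup X} (hH : H.IsSubnormal) (hKH : K ≤ H) {z : X} (hz : z ∈ K ⊔ P)
    (hc : (orderOf z).Coprime p) : z ∈ H := by
  induction hH with
  | top => exact mem_top z
  | step H K₂ h_le hSubn hN ih =>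
    have hzK₂ := ih (hKH.trans h_le)
    have hz' : z ∈ ((K ⊔ P : Subgroup X) : Set X) := hz
    rw [Subgroup.mul_normal] at hz'
    obtain ⟨k, hk, q, hq, rfl⟩ := Set.mem_mul.1 hz'
    have hqK : q ∈ K₂ := by
      have h1 : k⁻¹ * (k * q) ∈ K₂ := K₂.mul_mem (K₂.inv_mem (h_le (hKH hk))) hzK₂
      simpa using h1
    have hYM : P ⊓ K₂ ≤ normalizer (H : Set X) := by
      intro y hy
      apply Cfsg.Agent.Lib.Coprime.mem_normalizer_of_conj_le
      intro u hu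
      exact (Subgroup.normal_subgroupOf_iff h_le).1 hN u y hu hy.2
    exact Cfsg.Agent.Lib.LocalEven.coprime_mem_of_mem_sup hYM (hPp.to_le inf_le_left)
      (Subgroup.mul_mem_sup (hKH hk) ⟨hq, hqK⟩) hc

/-- Elements of order prime to `p` of a subnormal subgroup stay there under a normal `p`-subgroup. -/
theorem subnormal_conj_mem {p : ℕ} [Fact p.Prime] {P : Subgroup X} (hP : P.Normal) (hPp : IsPGroup p P)
    {K : Subgroup X} (hK : K.IsSubnormal) {k r : X} (hk : k ∈ K) (hr : r ∈ P)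
    (hc : (orderOf k).Coprime p) : r * k * r⁻¹ ∈ K := by
  apply subnormal_odd_mem hP hPp hK le_rfl
  · have e : r * k * r⁻¹ = k * (k⁻¹ * r * k * r⁻¹) := by group
    rw [e]
    refine Subgroup.mul_mem_sup hk ?_
    have h1 : k⁻¹ * r * k ∈ P := by
      have := hP.conj_mem r hr k⁻¹
      simpa using this
    exact P.mul_mem h1 (P.inv_mem hr)
  · have : orderOf (r * k * r⁻¹) = orderOf k := Cfsg.Agent.Lib.LocalEven.orderOf_conj_eq _ _
    rwa [this]

/-- A subnormal `q`-group modulo a normal subgroup lies in a normal subgroup, a `q`-group modulo it. -/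
theorem exists_normal_three {q : ℕ} [Fact q.Prime] {R K : Subgroup X} (hR : R.Normal) (hK : K.IsSubnormal)
    (hq : ∀ k ∈ K, ∃ n : ℕ, k ^ (q ^ n) ∈ R) :
    ∃ Y : Subgroup X, Y.Normal ∧ K ≤ Y ∧ ∀ y ∈ Y, ∃ n : ℕ, y ^ (q ^ n) ∈ R := by
  let mk : X →* X ⧸ R := QuotientGroup.mk' R
  have hsurj : Function.Surjective mk := QuotientGroup.mk'_surjective R
  have h1 : (K.map mk).IsSubnormal := subnormal_map mk hsurj hK
  have h2 : IsPGroup q (K.map mk) := by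
    rintro ⟨_, k, hk, rfl⟩
    obtain ⟨n, hn⟩ := hq k hk
    refine ⟨n, Subtype.ext ?_⟩
    show mk k ^ q ^ n = 1
    rw [← map_pow]
    exact (QuotientGroup.eq_one_iff _).2 hn
  have h3 : K.map mk ≤ pCore q (X ⧸ R) := Cfsg.Agent.Lib.Components.subnormal_le_pCore h1 h2
  refine ⟨(pCore q (X ⧸ R)).comap mk, inferInstance, Subgroup.map_le_iff_le_comap.1 h3, ?_⟩
  intro y hy
  obtain ⟨n, hn⟩ := Cfsg.Agent.Lib.Basic.pCore_isPGroup q (G := X ⧸ R) ⟨mk y, hy⟩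
  refine ⟨n, ?_⟩
  have h4 : mk y ^ q ^ n = 1 := congrArg Subtype.val hn
  rw [← map_pow] at h4
  exact (QuotientGroup.eq_one_iff _).1 h4

end generic

variable {G : Type*} [Group G] [Finite G]

/-- Facts about `O₂(⟨K,J⟩)` for `K` subnormal in `⟨K,J⟩`. -/
theorem core_facts {J₁ J K : Subgroup G} (D : Data J₁ K) (hsn : (K.subgroupOf (K ⊔ J)).IsSubnormal) :
    pCoreOf 2 K ≤ pCoreOf 2 (K ⊔ J) ∧ pCoreOf 2 (K ⊔ J) ≤ normalizer (K : Set G) ∧
      (∀ r ∈ pCoreOf 2 (K ⊔ J), ∀ k ∈ K, r * k * r⁻¹ * k⁻¹ ∈ pCoreOf 2 K) ∧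
      ∃ Y : Subgroup ↥(K ⊔ J), Y.Normal ∧ K.subgroupOf (K ⊔ J) ≤ Y ∧
        ∀ y ∈ Y, ∃ n : ℕ, ((y : G)) ^ (3 ^ n) ∈ pCoreOf 2 (K ⊔ J) := by
  have hKle : K ≤ K ⊔ J := le_sup_left
  set H := K ⊔ J with hH
  set R := pCoreOf 2 H with hR
  have hRle : R ≤ H := Cfsg.Agent.Lib.LocalEven.pCoreOf_le H
  have hRn : H ≤ normalizer (R : Set G) := Cfsg.Agent.Lib.LocalEven.le_normalizer_pCoreOf H
  have hQK : pCoreOf 2 K ≤ K := Data.O_le
  have hQ2 : IsPGroup 2 (pCoreOf 2 K) := Data.O_p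
  -- (a)
  have ha : pCoreOf 2 K ≤ R := by
    have h1 : ((pCoreOf 2 K).subgroupOf H).IsSubnormal := by
      refine IsSubnormal.step _ (K.subgroupOf H) (Subgroup.subgroupOf_mono H hQK) hsn ?_
      rw [Subgroup.normal_subgroupOf_iff (Subgroup.subgroupOf_mono H hQK)]
      intro h k hh hk
      have h2 := (Subgroup.mem_normalizer_iff.1 (Cfsg.Agent.Lib.LocalEven.le_normalizer_pCoreOf (p := 2) K hk) h).1 hh
      exact h2
    have h2 : IsPGroup 2 ((pCoreOf 2 K).subgroupOf H) :=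
      IsPGroup.of_injective hQ2 (subgroupOfEquivOfLe (hQK.trans hKle)).toMonoidHom (subgroupOfEquivOfLe (hQK.trans hKle)).injective
    have h3 := Cfsg.Agent.Lib.Components.subnormal_le_pCore h1 h2
    intro q hq
    exact ⟨⟨q, hKle (hQK hq)⟩, h3 hq, rfl⟩
  have hb : R ≤ normalizer (K : Set G) := by
    rintro _ ⟨r, hr, rfl⟩
    have hodd : ∀ g ∈ K, Odd (orderOf g) → (r : G) * g * (r : G)⁻¹ ∈ K := by
      intro g hg ho
      have h1 := subnormal_conj_mem (inferInstance : (pCore 2 ↥H).Normal)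
        (Cfsg.Agent.Lib.Basic.pCore_isPGroup 2) hsn (k := ⟨g, hKle hg⟩) (r := r) hg hr
        (by
          rw [Subgroup.orderOf_mk]
          exact Nat.coprime_two_right.2 ho)
      exact h1
    have h2 : closure {g : G | g ∈ K ∧ Odd (orderOf g)} ≤ K.comap (MulAut.conj (r : G)).toMonoidHom :=
      (closure_le _).2 fun g hg => hodd g hg.1 hg.2
    rw [D.hgen] at h2
    apply Cfsg.Agent.Lib.Coprime.mem_normalizer_of_conj_le
    intro k hk
    exact h2 hk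
  have hc : ∀ r ∈ R, ∀ k ∈ K, r * k * r⁻¹ * k⁻¹ ∈ pCoreOf 2 K := by
    intro r hr k hk
    have h1 : R ⊓ K ≤ pCoreOf 2 K := by
      apply Cfsg.Agent.Lib.LocalEven.le_pCoreOf inf_le_right
      · intro k₁ hk₁
        apply Cfsg.Agent.Lib.Coprime.mem_normalizer_of_conj_le
        intro u hu
        exact ⟨(Subgroup.mem_normalizer_iff.1 (hRn (hKle hk₁)) u).1 hu.1,
          K.mul_mem (K.mul_mem hk₁ hu.2) (K.inv_mem hk₁)⟩
      · exact (Cfsg.Agent.Lib.LocalEven.pCoreOf_isPGroup H).to_le inf_le_left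
    apply h1
    constructor
    · have h2 : k * r⁻¹ * k⁻¹ ∈ R := (Subgroup.mem_normalizer_iff.1 (hRn (hKle hk)) _).1 (R.inv_mem hr)
      have e : r * k * r⁻¹ * k⁻¹ = r * (k * r⁻¹ * k⁻¹) := by group
      rw [e]
      exact R.mul_mem hr h2
    · have h2 : r * k * r⁻¹ ∈ K := (Subgroup.mem_normalizer_iff.1 (hb hr) k).1 hk
      exact K.mul_mem h2 (K.inv_mem hk)
  refine ⟨ha, hb, hc, ?_⟩
  have hmemR : ∀ z : ↥H, (z : G) ∈ R → z ∈ pCore 2 ↥H := by
    rintro z ⟨y, hy, he⟩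
    have : y = z := Subtype.ext he
    rwa [← this]
  haveI hOn : ((pCoreOf 2 K).subgroupOf K).Normal :=
    (Subgroup.normal_subgroupOf_iff_le_normalizer hQK).2 (Cfsg.Agent.Lib.LocalEven.le_normalizer_pCoreOf K)
  obtain ⟨Y, hYn, hKY, hY3⟩ := exists_normal_three (q := 3) (inferInstance : (pCore 2 ↥H).Normal) hsn (by
    intro k hk
    refine ⟨1, hmemR _ ?_⟩
    have h1 : (⟨(k : G), hk⟩ : K) ^ 3 ∈ (pCoreOf 2 K).subgroupOf K := by
      have := Subgroup.pow_index_mem ((pCoreOf 2 K).subgroupOf K) (⟨(k : G), hk⟩ : K)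
      have e : ((pCoreOf 2 K).subgroupOf K).index = 3 := D.hidx
      rwa [e] at this
    have h2 : (k : G) ^ 3 ∈ pCoreOf 2 K := h1
    have h3 : ((k ^ (3 ^ 1) : ↥H) : G) = (k : G) ^ 3 := by simp
    rw [h3]
    exact ha h2)
  refine ⟨Y, hYn, hKY, ?_⟩
  intro y hy
  obtain ⟨n, hn⟩ := hY3 y hy
  exact ⟨n, ⟨_, hn, by simp⟩⟩

theorem W_le_center {J₁ K R : Subgroup G} (D : Data J₁ K) (hR2 : IsPGroup 2 R) (ha : pCoreOf 2 K ≤ R)
    (hb : R ≤ normalizer (K : Set G)) (hc : ∀ r ∈ R, ∀ k ∈ K, r * k * r⁻¹ * k⁻¹ ∈ pCoreOf 2 K) :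
    wOf K ≤ omegaCenterOf R := by
  obtain ⟨x, hx⟩ := D.exists_x
  have hRW : R ≤ normalizer ((wOf K : Subgroup G) : Set G) := hb.trans Data.W_norm
  obtain ⟨w₀, hw₀, hw₀1, hfix⟩ := exists_fixed_W hR2 hRW (by rw [D.hW4]; norm_num)
  have hxW : x * w₀ * x⁻¹ ∈ wOf K := (Subgroup.mem_normalizer_iff.1 (Data.W_norm (le_normalizer hx.mem)) w₀).1 hw₀
  have hw₁1 : x * w₀ * x⁻¹ ≠ 1 := fun h => hw₀1 (by simpa using h)
  have hne : w₀ ≠ x * w₀ * x⁻¹ := fun h => hw₀1 (D.fpf hx hw₀ h.symm)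
  have hfix1 : ∀ r ∈ R, r * (x * w₀ * x⁻¹) * r⁻¹ = x * w₀ * x⁻¹ := by
    intro r hr
    have hq := hc r hr x hx.mem
    set q := r * x * r⁻¹ * x⁻¹ with hq'
    have h1 : r * x * r⁻¹ = q * x := by rw [hq']; group
    have h2 := hfix r hr
    have h3 : q * (x * w₀ * x⁻¹) = (x * w₀ * x⁻¹) * q := Data.O_cent_W hq hxW
    calc r * (x * w₀ * x⁻¹) * r⁻¹ = (r * x * r⁻¹) * (r * w₀ * r⁻¹) * (r * x * r⁻¹)⁻¹ := by group
      _ = (q * x) * w₀ * (q * x)⁻¹ := by rw [h1, h2]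
      _ = q * (x * w₀ * x⁻¹) * q⁻¹ := by group
      _ = x * w₀ * x⁻¹ := by rw [h3]; group
  intro w hw
  refine mem_omegaCenterOf.2 ⟨ha (Data.W_le_O hw), ?_, D.hW2 w hw⟩
  rw [Subgroup.mem_centralizer_iff]
  intro r hr
  have hfw : r * w * r⁻¹ = w := by
    rcases four_cases D.hW4 D.hW2 hw₀ hxW hw₀1 hw₁1 hne w hw with h | h | h | h
    · rw [h]; group
    · rw [h]; exact hfix r hr
    · rw [h]; exact hfix1 r hr
    · rw [h]
      have e : ∀ a b : G, r * (a * b) * r⁻¹ = (r * a * r⁻¹) * (r * b * r⁻¹) := by intro a b; group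
      rw [e, hfix r hr, hfix1 r hr]
  exact mul_inv_eq_iff_eq_mul.1 hfw

end Cfsg.Agent.Lib.LocalEven2.TR
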