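import Cfsg.Agent.Lib.LocalEven2.BB7

/-!
# Subnormal `J`-components: maximal elementary abelian subgroups normalize `W_K`
-/

set_option autoImplicit false
set_option linter.unusedSectionVars false
set_option linter.unusedVariables false

namespace Cfsg.Agent.Lib.LocalEven2.TR

open Subgroup Cfsg
open scoped commutatorElement
open Cfsg.Agent.Lib.LocalEven2.JC
open Cfsg.Agent.Lib.LocalEven (cj)
open Cfsg.Agent.Lib.OddLocal (MaxEA isElementaryAbelian_map le_thompsonSubgroupOf)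

variable {G : Type*} [Group G] [Finite G]

theorem normalizes_W {T L K J₁ A : Subgroup G} (D : Data J₁ K)
    (hsn : (K.subgroupOf (K ⊔ thompsonSubgroupOf 2 T)).IsSubnormal) (hTL : IsSylowTwoIn T L) (hKL : K ≤ L)
    (hA : A ∈ MaxEA 2 T) : A ≤ normalizer ((wOf K : Subgroup G) : Set G) := by
  set J := thompsonSubgroupOf 2 T with hJdef
  set H := K ⊔ J with hH
  set R := pCoreOf 2 H with hRdef
  set V₀ := omegaCenterOf R with hV₀
  obtain ⟨ha, hb, hc, Y, hYn, hKY, hY3⟩ := core_facts D hsn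
  have hR2 : IsPGroup 2 R := Cfsg.Agent.Lib.LocalEven.pCoreOf_isPGroup H
  have hRle : R ≤ H := Cfsg.Agent.Lib.LocalEven.pCoreOf_le H
  have hRn : H ≤ normalizer (R : Set G) := Cfsg.Agent.Lib.LocalEven.le_normalizer_pCoreOf H
  have hHN : H ≤ normalizer (V₀ : Set G) := le_normalizer_omegaCenterOf hRn
  have hWV : wOf K ≤ V₀ := W_le_center D hR2 ha hb hc
  obtain ⟨x, hx⟩ := D.exists_x
  have hxH : x ∈ H := le_sup_left (a := K) hx.mem
  have hV2 : ∀ v : V₀, v * v = 1 := fun v => Subtype.ext (mem_omegaCenterOf.1 v.2).2.2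
  let θ : ↥H →* MulAut ↥V₀ := V₀.normalizerMonoidHom.comp (Subgroup.inclusion hHN)
  have hθ : ∀ (h : ↥H) (v : V₀), ((θ h v : V₀) : G) = h * v * (h : G)⁻¹ := fun h v => rfl
  have hAH : A ≤ H := by
    refine le_trans ?_ le_sup_right
    exact le_thompsonSubgroupOf hA
  let x' : ↥H := ⟨x, hxH⟩
  set t : MulAut V₀ := θ x' with ht
  have htv : ∀ v : V₀, ((t v : V₀) : G) = x * v * x⁻¹ := fun v => rfl
  have ht3 : t ^ 3 = 1 := by
    rw [ht, ← map_pow]
    have : x' ^ 3 = 1 := Subtype.ext hx.pow3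
    rw [this, map_one]
  have hWcomm : ∀ a b : V₀, a * b = b * a := comm_of_two hV2
  let W' : Subgroup V₀ := (wOf K).subgroupOf V₀
  have hTr : Tr t W' := by
    refine ⟨ht3, ?_, ?_, ?_⟩
    · rw [← D.hW4]
      exact Nat.card_congr (subgroupOfEquivOfLe hWV).toEquiv
    · intro v
      haveI : Std.Commutative (α := V₀) (· * ·) := ⟨hWcomm⟩
      set c : V₀ := t v * v with hc'
      have hcQ : (c : G) ∈ pCoreOf 2 K := by
        have h1 := hc _ (omegaCenterOf_le R v.2) x hx.mem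
        have e : (c : G) = ((v : G) * x * (v : G)⁻¹ * x⁻¹)⁻¹ := by
          have h2 : (v : G)⁻¹ = v := inv_eq_of_mul_eq_one_left (congrArg Subtype.val (hV2 v))
          show x * (v : G) * x⁻¹ * v = _
          calc x * (v : G) * x⁻¹ * v = x * (v : G) * x⁻¹ * (v : G)⁻¹ := by rw [h2]
            _ = _ := by group
        rw [e]
        exact Subgroup.inv_mem _ h1
      have hcY : (c : G) ∈ omegaCenterOf (pCoreOf 2 K) := by
        refine mem_omegaCenterOf.2 ⟨hcQ, ?_, congrArg Subtype.val (hV2 c)⟩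
        rw [Subgroup.mem_centralizer_iff]
        intro q hq
        exact Subgroup.mem_centralizer_iff.1 (mem_omegaCenterOf.1 c.2).2.1 q (ha hq)
      have hyY : ((t c : V₀) : G) ∈ omegaCenterOf (pCoreOf 2 K) :=
        (Subgroup.mem_normalizer_iff.1 (Data.Y_norm (le_normalizer hx.mem)) _).1 hcY
      have h3v : t (t (t v)) = v := by
        have := congrArg (fun s : MulAut V₀ => s v) ht3
        simpa [pow_succ, MulAut.mul_apply] using this
      have hkey : t c * t (t c) = c := by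
        have e1 : t c = t (t v) * t v := by rw [hc', map_mul]
        have e2 : t (t c) = v * t (t v) := by rw [e1, map_mul, h3v]
        rw [e2, e1, hc']
        have : t (t v) * t v * (v * t (t v)) = (t (t v) * t (t v)) * (t v * v) := by ac_rfl
        rw [this, hV2, one_mul]
      have hcomm : ⁅((t c : V₀) : G), x⁆ = (c : G) := by
        rw [commutatorElement_def]
        have h5 : ((t c : V₀) : G)⁻¹ = ((t c : V₀) : G) :=
          inv_eq_of_mul_eq_one_left (congrArg Subtype.val (hV2 _))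
        have h6 : ((t c : V₀) : G) * x * ((t c : V₀) : G)⁻¹ * x⁻¹ = ((t c : V₀) : G) * ((t (t c) : V₀) : G) := by
          rw [h5, htv (t c)]
          group
        rw [h6]
        exact congrArg Subtype.val hkey
      have : (c : G) ∈ wOf K := by
        rw [← hcomm]
        exact Subgroup.commutator_mem_commutator hyY hx.mem
      exact this
    · intro w hw he
      have h1 : x * (w : G) * x⁻¹ = w := congrArg Subtype.val he
      exact Subtype.ext (D.fpf hx hw h1)
  -- the action of `A`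
  let φ : ↥A →* MulAut ↥V₀ := θ.comp (Subgroup.inclusion hAH)
  have hφ : ∀ (a : A) (v : V₀), ((φ a v : V₀) : G) = a * v * (a : G)⁻¹ := fun a v => rfl
  have hAEA := hA.2.1
  have hAb : ∀ a b : A, (a : G) * b = b * a := fun a b => by
    have := hAEA.1.is_comm.comm a b
    exact congrArg Subtype.val this
  have hA2 : ∀ a ∈ A, a * a = 1 := fun a ha => by
    have := hAEA.2 a ha
    rwa [pow_two] at this
  have hx'Y : x' ∈ Y := hKY hx.mem
  have hYm : ∀ a : A, φ a * t * (φ a)⁻¹ ∈ Y.map θ := by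
    intro a
    refine ⟨Subgroup.inclusion hAH a * x' * (Subgroup.inclusion hAH a)⁻¹,
      hYn.conj_mem x' hx'Y _, ?_⟩
    simp [φ, t]
  have hYp : IsPGroup 3 (Y.map θ) := by
    rintro ⟨_, y, hy, rfl⟩
    obtain ⟨n, hn⟩ := hY3 y hy
    refine ⟨n, Subtype.ext ?_⟩
    show θ y ^ 3 ^ n = 1
    rw [← map_pow]
    ext v
    show ((y ^ 3 ^ n : ↥H) : G) * v * ((y ^ 3 ^ n : ↥H) : G)⁻¹ = v
    have e : ((y ^ 3 ^ n : ↥H) : G) = (y : G) ^ 3 ^ n := by simp
    rw [e]
    have h1 := Subgroup.mem_centralizer_iff.1 (mem_omegaCenterOf.1 v.2).2.1 _ hn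
    rw [h1]
    group
  have hJT : J ≤ T := thompson_le T
  have hTL' : T ≤ L := hTL.1
  have hHL : H ≤ L := sup_le hKL (hJT.trans hTL')
  have hmax : ∀ D' : Subgroup G, D' ≤ A ⊔ V₀ → (∀ d ∈ D', d * d = 1) → Nat.card D' ≤ Nat.card A := by
    intro D' hD' hd
    have hD'L : D' ≤ L := hD'.trans (sup_le (hA.1.trans hTL') ((omegaCenterOf_le R).trans (hRle.trans hHL)))
    have hD'2 : IsPGroup 2 D' := fun d => ⟨1, Subtype.ext (by simpa [pow_two] using hd d d.2)⟩
    have hD'c : ∀ a ∈ D', ∀ b ∈ D', a * b = b * a := by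
      intro a ha b hb
      have h1 := hd _ (D'.mul_mem ha hb)
      have h2 : a⁻¹ = a := inv_eq_of_mul_eq_one_left (hd a ha)
      have h3 : b⁻¹ = b := inv_eq_of_mul_eq_one_left (hd b hb)
      calc a * b = (a * b)⁻¹ := (inv_eq_of_mul_eq_one_left h1).symm
        _ = b⁻¹ * a⁻¹ := by group
        _ = b * a := by rw [h2, h3]
    have hD'EA : IsElementaryAbelian 2 D' := by
      refine ⟨⟨⟨fun a b => Subtype.ext (hD'c a a.2 b b.2)⟩⟩, fun a ha => by rw [pow_two]; exact hd a ha⟩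
    obtain ⟨S, hS, hD'S⟩ := Data.exists_sylowIn hD'L hD'2
    obtain ⟨l, hl, hlS⟩ := exists_conj_of_sylowIn hS hTL
    have h1 : cj l D' ≤ T := by
      rw [hlS]
      exact Cfsg.Agent.Lib.LocalEven.cj_mono hD'S
    have h2 := hA.2.2 _ h1 (isElementaryAbelian_map _ hD'EA)
    have h3 : Nat.card (cj l D') = Nat.card D' := Cfsg.Agent.Lib.LocalEven.card_cj _ _
    rwa [h3] at h2
  have hmain := count V₀ A φ hφ hV2 hAb hA2 t W' hTr (Y.map θ) hYp hYm hmax
  intro a ha
  apply Cfsg.Agent.Lib.Coprime.mem_normalizer_of_conj_le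
  intro w hw
  have h1 : (⟨w, hWV hw⟩ : V₀) ∈ W' := hw
  have h2 : φ ⟨a, ha⟩ ⟨w, hWV hw⟩ ∈ W'.map (φ ⟨a, ha⟩).toMonoidHom := ⟨_, h1, rfl⟩
  rw [hmain] at h2
  exact h2

end Cfsg.Agent.Lib.LocalEven2.TR
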