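import Mathlib

/-!
# The linear algebra behind fixed minimal centrally large subgroups

`U` is a finite abelian `p`-group with a symmetric biadditive form `ψ`.  The space `U × U`
carries the alternating form `ψ x y' - ψ y x'`, an operator `b(x, x') = (x', θ x + (1 - θ) x')`
fixing the diagonal, and a `p`-group `G` acting diagonally, normalised by `b`.
We produce a `G`-invariant isotropic subgroup of order `|U|` meeting its `b`-image nontrivially.
-/

set_option autoImplicit false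
set_option linter.unusedSectionVars false

namespace Cfsg.Agent.Lib.LocalEven2.CL2

universe u v w

/-- Data of the linear lemma. -/
structure LLData (U : Type u) (D : Type v) (G : Type w) [AddCommGroup U] [AddCommGroup D] [Group G] where
  ψ : U →+ U →+ D
  symm : ∀ x y, ψ x y = ψ y x
  θ : AddMonoid.End U
  θ_adj : ∀ x y, ψ (θ x) y = ψ x (θ y)
  ρ : G →* AddMonoid.End U
  ρ' : G →* AddMonoid.End U
  compat : ∀ g x y x' y', ψ x y = ψ x' y' → ψ (ρ g x) (ρ' g y) = ψ (ρ g x') (ρ' g y')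
  conj : ∀ g, ∃ h, ρ' h = ρ g ∧ ρ' g * θ = θ * ρ h ∧ ρ' g * (1 - θ) = (1 - θ) * ρ' h

variable {U : Type u} {D : Type v} {G : Type w} [AddCommGroup U] [AddCommGroup D] [Group G]

namespace LLData

/-- The conclusion of the linear lemma. -/
def Good (d : LLData U D G) (X : AddSubgroup (U × U)) : Prop :=
  (∀ v ∈ X, ∀ w ∈ X, d.ψ v.1 w.2 = d.ψ w.1 v.2) ∧ Nat.card X = Nat.card U ∧
  (∀ g, ∀ v ∈ X, (d.ρ g v.1, d.ρ' g v.2) ∈ X) ∧
  ∃ v ∈ X, v ≠ 0 ∧ (v.2, d.θ v.1 + (1 - d.θ) v.2) ∈ X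

/-- Self-adjoint operators fixed by the group. -/
def Fx (d : LLData U D G) (α : AddMonoid.End U) : Prop :=
  (∀ x y, d.ψ (α x) y = d.ψ x (α y)) ∧ ∀ g, d.ρ' g * α = α * d.ρ g

variable (d : LLData U D G)

theorem Fx.zero : d.Fx 0 := by
  refine ⟨fun x y => ?_, fun g => by simp⟩
  simp

variable {d}

theorem Fx.add {α γ : AddMonoid.End U} (h1 : d.Fx α) (h2 : d.Fx γ) : d.Fx (α + γ) := by
  refine ⟨fun x y => ?_, fun g => ?_⟩
  · show d.ψ (α x + γ x) y = d.ψ x (α y + γ y)
    rw [map_add, map_add, AddMonoidHom.add_apply, h1.1, h2.1]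
  · rw [mul_add, add_mul, h1.2, h2.2]

theorem Fx.neg {α : AddMonoid.End U} (h1 : d.Fx α) : d.Fx (-α) := by
  refine ⟨fun x y => ?_, fun g => ?_⟩
  · show d.ψ (-(α x)) y = d.ψ x (-(α y))
    rw [map_neg, map_neg, AddMonoidHom.neg_apply, h1.1]
  · rw [mul_neg, neg_mul, h1.2]

theorem Fx.sub {α γ : AddMonoid.End U} (h1 : d.Fx α) (h2 : d.Fx γ) : d.Fx (α - γ) := by
  rw [sub_eq_add_neg]
  exact h1.add h2.neg

theorem Fx.nsmul {α : AddMonoid.End U} (h1 : d.Fx α) (n : ℕ) : d.Fx (n • α) := by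
  induction n with
  | zero => simpa using Fx.zero d
  | succ n ih =>
    rw [succ_nsmul]
    exact ih.add h1

/-- The first isomorphism theorem for an endomorphism. -/
theorem card_ker_mul_card_range [Finite U] (α : AddMonoid.End U) :
    Nat.card (AddMonoidHom.ker α) * Nat.card (AddMonoidHom.range α) = Nat.card U := by
  have h := AddSubgroup.card_mul_index (AddMonoidHom.ker α)
  have h2 : (AddMonoidHom.ker α).index = Nat.card (AddMonoidHom.range α) := AddSubgroup.index_ker α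
  rwa [h2] at h

/-- The product construction. -/
theorem good_prod [Finite U] {α : AddMonoid.End U} (h : d.Fx α) {x : U} (hx : x ≠ 0) (hx0 : α x = 0)
    (hxr : x ∈ AddMonoidHom.range α) (hθ : d.θ x ∈ AddMonoidHom.range α) :
    ∃ X, d.Good X := by
  set W : AddSubgroup U := AddMonoidHom.ker α with hW
  set I : AddSubgroup U := AddMonoidHom.range α with hI
  refine ⟨W.prod I, ?_, ?_, ?_, (x, 0), ?_, ?_, ?_⟩
  · rintro ⟨v1, v2⟩ hv ⟨w1, w2⟩ hw
    obtain ⟨hv1, ⟨z, rfl⟩⟩ := AddSubgroup.mem_prod.1 hv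
    obtain ⟨hw1, ⟨z', rfl⟩⟩ := AddSubgroup.mem_prod.1 hw
    have hv0 : α v1 = 0 := hv1
    have hw0 : α w1 = 0 := hw1
    show d.ψ v1 (α z') = d.ψ w1 (α z)
    rw [← h.1, ← h.1, hv0, hw0]
    simp
  · rw [Nat.card_congr (AddSubgroup.prodEquiv W I).toEquiv, Nat.card_prod]
    exact card_ker_mul_card_range α
  · rintro g ⟨v1, v2⟩ hv
    obtain ⟨hv1, ⟨z, rfl⟩⟩ := AddSubgroup.mem_prod.1 hv
    have hv0 : α v1 = 0 := hv1
    refine AddSubgroup.mem_prod.2 ⟨?_, d.ρ g z, ?_⟩
    · show α (d.ρ g v1) = 0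
      have : (d.ρ' g * α) v1 = (α * d.ρ g) v1 := by rw [h.2]
      have h2 : d.ρ' g (α v1) = α (d.ρ g v1) := this
      rw [← h2, hv0, map_zero]
    · have : (d.ρ' g * α) z = (α * d.ρ g) z := by rw [h.2]
      exact this.symm
  · exact AddSubgroup.mem_prod.2 ⟨hx0, zero_mem _⟩
  · intro h0
    exact hx (congrArg Prod.fst h0)
  · refine AddSubgroup.mem_prod.2 ⟨zero_mem _, ?_⟩
    show d.θ x + (1 - d.θ) 0 ∈ I
    rw [map_zero, add_zero]
    exact hθ

/-- The graph construction. -/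
theorem good_graph [Finite U] [Nontrivial U] {α : AddMonoid.End U} (h : d.Fx α)
    (heq : ∀ x, α (α x) = d.θ x + (1 - d.θ) (α x)) :
    ∃ X, d.Good X := by
  set X : AddSubgroup (U × U) := AddMonoidHom.range ((AddMonoidHom.id U).prod α) with hX
  have hmem : ∀ x, (x, α x) ∈ X := fun x => ⟨x, rfl⟩
  refine ⟨X, ?_, ?_, ?_, ?_⟩
  · rintro _ ⟨a, rfl⟩ _ ⟨c, rfl⟩
    show d.ψ a (α c) = d.ψ c (α a)
    rw [← h.1, d.symm]
  · have hinj : Function.Injective ((AddMonoidHom.id U).prod α) := fun a c hac => congrArg Prod.fst hac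
    have := AddSubgroup.index_ker ((AddMonoidHom.id U).prod α)
    have hker : AddMonoidHom.ker ((AddMonoidHom.id U).prod α) = ⊥ := (AddMonoidHom.ker_eq_bot_iff _).2 hinj
    rw [hker, AddSubgroup.index_bot] at this
    exact this.symm
  · rintro g _ ⟨a, rfl⟩
    have : (d.ρ' g * α) a = (α * d.ρ g) a := by rw [h.2]
    have h2 : d.ρ' g (α a) = α (d.ρ g a) := this
    show (d.ρ g a, d.ρ' g (α a)) ∈ X
    rw [h2]
    exact hmem _
  · obtain ⟨x, hx⟩ := exists_ne (0 : U)
    refine ⟨(x, α x), hmem x, fun h0 => hx (congrArg Prod.fst h0), ?_⟩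
    show (α x, d.θ x + (1 - d.θ) (α x)) ∈ X
    rw [← heq]
    exact hmem _

end LLData

/-- `p`-groups of additive type have order divisible by `p` when nontrivial. -/
theorem prime_dvd_card_of_nontrivial {p : ℕ} [Fact p.Prime] {A : Type*} [AddCommGroup A] [Finite A]
    (hA : ∀ a : A, ∃ k, p ^ k • a = 0) [Nontrivial A] : p ∣ Nat.card A := by
  have hP : IsPGroup p (Multiplicative A) := by
    intro g
    obtain ⟨k, hk⟩ := hA (Multiplicative.toAdd g)
    exact ⟨k, by
      show Multiplicative.ofAdd (p ^ k • Multiplicative.toAdd g) = 1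
      rw [hk]; rfl⟩
  obtain ⟨n, hn⟩ := IsPGroup.iff_card.1 hP
  have hne : n ≠ 0 := by
    rintro rfl
    rw [pow_zero] at hn
    have : Nat.card A = 1 := hn
    have h1 := Finite.one_lt_card (α := A)
    omega
  have : Nat.card A = p ^ n := hn
  rw [this]
  exact dvd_pow_self p hne

/-- A permutation-type fixed point. -/
theorem exists_fixed_of_pow {p n : ℕ} [Fact p.Prime] [Finite U] (hU : ∀ u : U, ∃ k, p ^ k • u = 0)
    (l : AddMonoid.End U) (hl : l ^ p ^ n = 1) (I : AddSubgroup U) (hI : I ≠ ⊥)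
    (hlI : ∀ x ∈ I, l x ∈ I) : ∃ x ∈ I, x ≠ 0 ∧ l x = x := by
  classical
  haveI : Fintype I := Fintype.ofFinite _
  haveI : Nontrivial I := by
    obtain ⟨x, hx0⟩ := (AddSubgroup.ne_bot_iff_exists_ne_zero.1 hI)
    exact ⟨⟨x, 0, hx0⟩⟩
  set f : Function.End I := fun x => ⟨l x.1, hlI x.1 x.2⟩ with hf
  have hfk : ∀ (k : ℕ) (x : I), ((f ^ k) x).1 = (l ^ k) x.1 := by
    intro k
    induction k with
    | zero => intro x; rfl
    | succ k ih =>
      intro x
      rw [pow_succ', pow_succ']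
      show l (((f ^ k) x).1) = _
      rw [ih]
      rfl
  have hf1 : f ^ p ^ n = 1 := by
    funext x
    apply Subtype.ext
    rw [hfk, hl]
    rfl
  have hmod := Equiv.Perm.card_fixedPoints_modEq (α := I) (f := f) (p := p) (n := n) hf1
  have hA : ∀ a : I, ∃ k, p ^ k • a = 0 := by
    intro a
    obtain ⟨k, hk⟩ := hU a.1
    exact ⟨k, Subtype.ext hk⟩
  have hdvd : p ∣ Nat.card I := prime_dvd_card_of_nontrivial hA
  rw [Nat.card_eq_fintype_card] at hdvd
  have hd2 : p ∣ Fintype.card (Function.fixedPoints f) := by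
    have := (Nat.modEq_zero_iff_dvd.1 (hmod.symm.trans (Nat.modEq_zero_iff_dvd.2 hdvd)))
    exact this
  have h0fix : (0 : I) ∈ Function.fixedPoints f := by
    show f 0 = 0
    apply Subtype.ext
    show l 0 = 0
    exact map_zero l
  haveI : Nonempty (Function.fixedPoints f) := ⟨⟨0, h0fix⟩⟩
  have hpos : 0 < Fintype.card (Function.fixedPoints f) := Fintype.card_pos
  have hp2 : 1 < Fintype.card (Function.fixedPoints f) :=
    lt_of_lt_of_le (Fact.out : p.Prime).one_lt (Nat.le_of_dvd hpos hd2)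
  obtain ⟨a, b, hab⟩ := Fintype.exists_pair_of_one_lt_card hp2
  by_cases ha0 : a.1 = 0
  · refine ⟨b.1.1, b.1.2, ?_, congrArg Subtype.val b.2⟩
    intro hb0
    apply hab
    apply Subtype.ext
    rw [ha0]
    exact (Subtype.ext hb0).symm
  · refine ⟨a.1.1, a.1.2, fun h0 => ha0 (Subtype.ext h0), congrArg Subtype.val a.2⟩

/-- Every element of a finite monoid has an idempotent positive power. -/
theorem exists_idem_pow {M : Type*} [Monoid M] [Finite M] (a : M) : ∃ n : ℕ, 1 ≤ n ∧ a ^ (n + n) = a ^ n := by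
  obtain ⟨i, j, hij, he⟩ := Finite.exists_ne_map_eq_of_infinite (fun k : ℕ => a ^ k)
  wlog hlt : i < j generalizing i j
  · exact this j i hij.symm he.symm (lt_of_le_of_ne (not_lt.1 hlt) hij.symm)
  set e := j - i with hee
  have he1 : 1 ≤ e := by omega
  have hj : j = i + e := by omega
  have hstep : ∀ m, i ≤ m → a ^ (m + e) = a ^ m := by
    intro m hm
    obtain ⟨c, rfl⟩ := Nat.exists_eq_add_of_le hm
    have h1 : a ^ (i + e) = a ^ i := by rw [← hj]; exact he.symm
    calc a ^ (i + c + e) = a ^ (i + e) * a ^ c := by rw [← pow_add]; congr 1; omega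
      _ = a ^ i * a ^ c := by rw [h1]
      _ = a ^ (i + c) := by rw [pow_add]
  have hk : ∀ k m, i ≤ m → a ^ (m + k * e) = a ^ m := by
    intro k
    induction k with
    | zero => intro m _; simp
    | succ k ih =>
      intro m hm
      have : m + (k + 1) * e = (m + k * e) + e := by ring
      rw [this, hstep _ (by omega), ih m hm]
  refine ⟨(i + 1) * e, Nat.mul_pos (by omega) he1, ?_⟩
  exact hk (i + 1) _ (by nlinarith)

end Cfsg.Agent.Lib.LocalEven2.CL2
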