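import Cfsg.Agent.Lib.LocalEven2.CL2a

/-!
# The linear lemma: the odd case
-/

set_option autoImplicit false
set_option linter.unusedSectionVars false

namespace Cfsg.Agent.Lib.LocalEven2.CL2

universe u v w

variable {U : Type u} {D : Type v} {G : Type w} [AddCommGroup U] [AddCommGroup D] [Group G]

namespace LLData

variable {d : LLData U D G}

theorem exists_good_odd {p n : ℕ} [Fact p.Prime] (hp2 : p ≠ 2) [Finite U] [Nontrivial U]
    (hU : ∀ u : U, ∃ k, p ^ k • u = 0) (hord : (-d.θ) ^ p ^ n = 1) : ∃ X, d.Good X := by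
  have hpp : p.Prime := Fact.out
  have hodd : Odd p := hpp.odd_of_ne_two hp2
  -- halving
  have hPg : IsPGroup p (Multiplicative U) := by
    intro g
    obtain ⟨k, hk⟩ := hU (Multiplicative.toAdd g)
    exact ⟨k, by
      show Multiplicative.ofAdd (p ^ k • Multiplicative.toAdd g) = 1
      rw [hk]; rfl⟩
  obtain ⟨N, hN⟩ := IsPGroup.iff_card.1 hPg
  have hN' : Nat.card U = p ^ N := hN
  have hcodd : Odd (Nat.card U) := by rw [hN']; exact hodd.pow
  obtain ⟨c0, hc0⟩ := hcodd
  set c : ℕ := c0 + 1 with hc
  have hcU : ∀ u : U, (2 * c) • u = u := by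
    intro u
    have h1 : 2 * c = Nat.card U + 1 := by omega
    rw [h1, add_smul, card_nsmul_eq_zero', zero_add, one_smul]
  have hc2 : ∀ u : U, c • (2 • u) = u := by
    intro u
    rw [smul_smul, mul_comm]
    exact hcU u
  have h2c : ∀ u : U, 2 • (c • u) = u := by
    intro u
    rw [smul_smul]
    exact hcU u
  have h2inj : ∀ u : U, 2 • u = 0 → u = 0 := by
    intro u hu
    have := hc2 u
    rw [hu, smul_zero] at this
    exact this.symm
  set θ := d.θ with hθ
  -- `β = 1 - θ` is bijective
  set β : AddMonoid.End U := 1 - θ with hβ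
  have hβa : ∀ x, β x = x - θ x := fun x => rfl
  have hqodd : Odd (p ^ n) := hodd.pow
  have hθq : θ ^ p ^ n = -1 := by
    have h1 : (-θ) ^ p ^ n = -(θ ^ p ^ n) := hqodd.neg_pow θ
    rw [h1] at hord
    rw [← hord, neg_neg]
  have hβinj : Function.Injective β := by
    rw [injective_iff_map_eq_zero]
    intro x hx
    have hθx : θ x = x := by
      have : x - θ x = 0 := hx
      exact (sub_eq_zero.1 this).symm
    have hpw : ∀ k : ℕ, (θ ^ k) x = x := by
      intro k
      induction k with
      | zero => rfl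
      | succ k ih =>
        rw [pow_succ]
        show (θ ^ k) (θ x) = x
        rw [hθx, ih]
    have h1 := hpw (p ^ n)
    rw [hθq] at h1
    have h2 : -x = x := h1
    apply h2inj
    rw [two_smul]
    nth_rewrite 1 [← h2]
    exact neg_add_cancel x
  have hβbij : Function.Bijective β := ⟨hβinj, Finite.injective_iff_surjective.1 hβinj⟩
  let eβ : U ≃+ U := AddEquiv.ofBijective (β : U →+ U) hβbij
  let inv : AddMonoid.End U := (eβ.symm : U →+ U)
  have hβinv : β * inv = 1 := by
    ext x
    exact eβ.apply_symm_apply x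
  have hinvβ : inv * β = 1 := by
    ext x
    exact eβ.symm_apply_apply x
  have hθβ : θ * β = β * θ := by
    rw [hβ]; noncomm_ring
  have hθinv : θ * inv = inv * θ := by
    calc θ * inv = (inv * β) * (θ * inv) := by rw [hinvβ, one_mul]
      _ = inv * (β * θ) * inv := by noncomm_ring
      _ = inv * (θ * β) * inv := by rw [hθβ]
      _ = inv * θ * (β * inv) := by noncomm_ring
      _ = inv * θ := by rw [hβinv, mul_one]
  -- the adjointness facts
  have hβadj : ∀ x y, d.ψ (β x) y = d.ψ x (β y) := by
    intro x y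
    show d.ψ (x - θ x) y = d.ψ x (y - θ y)
    rw [map_sub, map_sub, AddMonoidHom.sub_apply, d.θ_adj]
  have hinvadj : ∀ x y, d.ψ (inv x) y = d.ψ x (inv y) := by
    intro x y
    have h1 : y = β (inv y) := by
      have : (β * inv) y = y := by rw [hβinv]; rfl
      exact this.symm
    have h2 : x = β (inv x) := by
      have : (β * inv) x = x := by rw [hβinv]; rfl
      exact this.symm
    calc d.ψ (inv x) y = d.ψ (inv x) (β (inv y)) := by rw [← h1]
      _ = d.ψ (β (inv x)) (inv y) := (hβadj _ _).symm
      _ = d.ψ x (inv y) := by rw [← h2]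
  have hR1 : ∀ g, d.ρ' g * β = β * d.ρ g := by
    intro g
    obtain ⟨h, h1, _, h3⟩ := d.conj g
    rw [hβ, h3, h1]
  have hFβ : d.Fx β := ⟨hβadj, hR1⟩
  have hFγ : d.Fx (θ * inv) := by
    refine ⟨fun x y => ?_, fun g => ?_⟩
    · show d.ψ (θ (inv x)) y = d.ψ x (θ (inv y))
      have h5 : θ (inv y) = inv (θ y) := by
        have : (θ * inv) y = (inv * θ) y := by rw [hθinv]
        exact this
      rw [d.θ_adj, hinvadj, h5]
    · obtain ⟨h, h1, h2, _⟩ := d.conj g
      have h4 : d.ρ g * β = β * d.ρ h := by rw [← h1]; exact hR1 h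
      calc d.ρ' g * (θ * inv) = (d.ρ' g * θ) * inv := by noncomm_ring
        _ = θ * d.ρ h * inv := by rw [h2]
        _ = θ * (inv * β) * d.ρ h * inv := by rw [hinvβ, mul_one]
        _ = θ * inv * (β * d.ρ h) * inv := by noncomm_ring
        _ = θ * inv * (d.ρ g * β) * inv := by rw [h4]
        _ = θ * inv * d.ρ g * (β * inv) := by noncomm_ring
        _ = θ * inv * d.ρ g := by rw [hβinv, mul_one]
  set w : AddMonoid.End U := (1 + θ) * (1 + θ) with hw
  have hFα : d.Fx (β + 4 • (θ * inv)) := hFβ.add (hFγ.nsmul 4)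
  have hαw : β + 4 • (θ * inv) = w * inv := by
    have h1 : β = β * β * inv := by rw [mul_assoc, hβinv, mul_one]
    have h2 : β * β + 4 • θ = w := by
      rw [hβ, hw]; noncomm_ring
    calc β + 4 • (θ * inv) = β * β * inv + 4 • (θ * inv) := by rw [← h1]
      _ = (β * β + 4 • θ) * inv := by rw [add_mul, smul_mul_assoc]
      _ = w * inv := by rw [h2]
  rw [hαw] at hFα
  by_cases hw0 : w = 0
  · -- the graph of `β / 2`
    have hFc : d.Fx (c • β) := hFβ.nsmul c
    refine good_graph hFc ?_
    intro x
    have hw1 : β (β x) = -(4 • θ x) := by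
      have h2 : β * β + 4 • θ = w := by
        rw [hβ, hw]; noncomm_ring
      rw [hw0] at h2
      have h3 : (β * β + 4 • θ) x = 0 := by rw [h2]; rfl
      have h4 : β (β x) + 4 • θ x = 0 := h3
      exact eq_neg_of_add_eq_zero_left h4
    show c • β (c • β x) = θ x + β (c • β x)
    rw [map_nsmul, hw1]
    have h4 : ∀ u : U, (c * c * 4) • u = u := by
      intro u
      have : c * c * 4 = (2 * c) * (2 * c) := by ring
      rw [this, mul_smul, hcU, hcU]
    have h5 : ∀ u : U, (c * 4) • u = 2 • u := by
      intro u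
      have : c * 4 = 2 * (2 * c) := by ring
      rw [this, mul_smul, hcU]
    have hL : c • c • (-((4 : ℕ) • θ x)) = -(θ x) := by
      rw [smul_neg, smul_neg, ← mul_smul, ← mul_smul, h4]
    have hR : c • (-((4 : ℕ) • θ x)) = -((2 : ℕ) • θ x) := by
      rw [smul_neg, ← mul_smul, h5]
    rw [hL, hR, two_smul]
    abel
  · -- the product of the kernel and the image
    have hαne : w * inv ≠ 0 := by
      intro h0
      apply hw0
      calc w = w * (inv * β) := by rw [hinvβ, mul_one]
        _ = (w * inv) * β := by noncomm_ring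
        _ = 0 := by rw [h0, zero_mul]
    set α := w * inv with hα
    have hIne : AddMonoidHom.range α ≠ ⊥ := by
      intro h0
      apply hαne
      ext x
      have : α x ∈ AddMonoidHom.range α := ⟨x, rfl⟩
      rw [h0] at this
      exact this
    have hθw : θ * w = w * θ := by rw [hw]; noncomm_ring
    have hθα : θ * α = α * θ := by
      calc θ * α = (θ * w) * inv := by rw [hα]; noncomm_ring
        _ = w * (θ * inv) := by rw [hθw]; noncomm_ring
        _ = w * (inv * θ) := by rw [hθinv]
        _ = α * θ := by rw [hα]; noncomm_ring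
    have hmap : ∀ x ∈ AddMonoidHom.range α, (-θ) x ∈ AddMonoidHom.range α := by
      rintro _ ⟨z, rfl⟩
      refine ⟨-(θ z), ?_⟩
      show α (-(θ z)) = -(θ (α z))
      rw [map_neg]
      have : (θ * α) z = (α * θ) z := by rw [hθα]
      have h2 : θ (α z) = α (θ z) := this
      rw [h2]
    obtain ⟨x, hxI, hx0, hfx⟩ := exists_fixed_of_pow hU (-θ) hord (AddMonoidHom.range α) hIne hmap
    have hθx : θ x = -x := by
      have : -(θ x) = x := hfx
      exact neg_eq_iff_eq_neg.1 this
    have hwx : w x = 0 := by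
      show (1 + θ) ((1 + θ) x) = 0
      have : (1 + θ) x = 0 := by
        show x + θ x = 0
        rw [hθx, add_neg_cancel]
      rw [this, map_zero]
    have hαinv : inv * w = w * inv := by
      have h1 : inv * (1 + θ) = (1 + θ) * inv := by
        rw [mul_add, add_mul, mul_one, one_mul, hθinv]
      rw [hw]
      calc inv * ((1 + θ) * (1 + θ)) = (inv * (1 + θ)) * (1 + θ) := by rw [mul_assoc]
        _ = ((1 + θ) * inv) * (1 + θ) := by rw [h1]
        _ = (1 + θ) * (inv * (1 + θ)) := by rw [mul_assoc]
        _ = (1 + θ) * ((1 + θ) * inv) := by rw [h1]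
        _ = _ := by rw [mul_assoc]
    have hαx : α x = 0 := by
      have : (inv * w) x = 0 := by
        show inv (w x) = 0
        rw [hwx, map_zero]
      rw [hαinv] at this
      exact this
    refine good_prod hFα hx0 hαx hxI ?_
    rw [hθx]
    exact neg_mem hxI

end LLData

end Cfsg.Agent.Lib.LocalEven2.CL2
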