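import Cfsg.Agent.Lib.LocalEven2.CL2a

/-!
# The linear lemma: the case `p = 2`
-/

set_option autoImplicit false
set_option linter.unusedSectionVars false

namespace Cfsg.Agent.Lib.LocalEven2.CL2

universe u v w

variable {U : Type u} {D : Type v} {G : Type w} [AddCommGroup U] [AddCommGroup D] [Group G]

namespace LLData

variable {d : LLData U D G}

theorem pow_adj {α : AddMonoid.End U} (h : ∀ x y, d.ψ (α x) y = d.ψ x (α y)) (n : ℕ) (x y : U) :
    d.ψ ((α ^ n) x) y = d.ψ x ((α ^ n) y) := by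
  induction n generalizing x y with
  | zero => rfl
  | succ n ih =>
    rw [pow_succ]
    show d.ψ ((α ^ n) (α x)) y = d.ψ x ((α ^ n) (α y))
    have hc : α ((α ^ n) y) = (α ^ n) (α y) := by
      have : (α * α ^ n) y = (α ^ n * α) y := by rw [← pow_succ, ← pow_succ']
      exact this
    rw [ih, h, hc]

theorem pow_range_mem {α : AddMonoid.End U} (k : ℕ) {x : U} (hx : x ∈ AddMonoidHom.range α) :
    (α ^ k) x ∈ AddMonoidHom.range α := by
  obtain ⟨z, rfl⟩ := hx
  refine ⟨(α ^ k) z, ?_⟩
  have : (α * α ^ k) z = (α ^ k * α) z := by rw [← pow_succ, ← pow_succ']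
  exact this

theorem exists_good_two [Finite G] (hG : IsPGroup 2 G) [Finite U] [Nontrivial U]
    (hU : ∀ u : U, ∃ k, 2 ^ k • u = 0) (hθ : d.θ = 1) : ∃ X, d.Good X := by
  classical
  haveI : Finite (AddMonoid.End U) :=
    Finite.of_injective (fun f : AddMonoid.End U => (f : U → U)) DFunLike.coe_injective
  have hswap : ∀ g, ∃ h, d.ρ' h = d.ρ g ∧ d.ρ' g = d.ρ h := by
    intro g
    obtain ⟨h, h1, h2, _⟩ := d.conj g
    refine ⟨h, h1, ?_⟩
    rw [hθ, mul_one, one_mul] at h2
    exact h2
  have hFx' : ∀ {α : AddMonoid.End U}, d.Fx α → ∀ g, d.ρ g * α = α * d.ρ' g := by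
    intro α h g
    obtain ⟨k, h1, h2⟩ := hswap g
    rw [← h1, h2]
    exact h.2 k
  have hθa : ∀ x, d.θ x = x := fun x => by rw [hθ]; rfl
  by_cases H : ∃ α, d.Fx α ∧ ∃ x, x ≠ 0 ∧ α x = 0 ∧ x ∈ AddMonoidHom.range α
  · obtain ⟨α, hα, x, hx, hx0, hxr⟩ := H
    exact good_prod hα hx hx0 hxr (by rw [hθa]; exact hxr)
  push Not at H
  have hdesc : ∀ {α : AddMonoid.End U}, d.Fx α → ∀ (k : ℕ) (x : U), x ∈ AddMonoidHom.range α →
      (α ^ k) x = 0 → x = 0 := by
    intro α hα k
    induction k with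
    | zero => intro x _ h0; exact h0
    | succ k ih =>
      intro x hx h0
      apply ih x hx
      by_contra hy
      have h1 : α ((α ^ k) x) = 0 := by
        rw [pow_succ'] at h0
        exact h0
      exact H α hα _ hy h1 (pow_range_mem k hx)
  have hoddF : ∀ {α : AddMonoid.End U}, d.Fx α → ∀ t : ℕ, Odd t → d.Fx (α ^ t) := by
    intro α hα t ht
    obtain ⟨j, rfl⟩ := ht
    refine ⟨pow_adj hα.1 _, fun g => ?_⟩
    have hb : ∀ j : ℕ, d.ρ' g * α ^ (2 * j + 1) = α ^ (2 * j + 1) * d.ρ g ∧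
        d.ρ g * α ^ (2 * j + 1) = α ^ (2 * j + 1) * d.ρ' g := by
      intro j
      induction j with
      | zero => simpa using ⟨hα.2 g, hFx' hα g⟩
      | succ j ih =>
        have e : α ^ (2 * (j + 1) + 1) = α ^ (2 * j + 1) * α * α := by
          rw [mul_assoc, ← pow_two, ← pow_add]
          congr 1
        rw [e]
        constructor
        · calc d.ρ' g * (α ^ (2 * j + 1) * α * α) = (d.ρ' g * α ^ (2 * j + 1)) * α * α := by noncomm_ring
            _ = α ^ (2 * j + 1) * (d.ρ g * α) * α := by rw [ih.1]; noncomm_ring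
            _ = α ^ (2 * j + 1) * α * (d.ρ' g * α) := by rw [hFx' hα g]; noncomm_ring
            _ = α ^ (2 * j + 1) * α * α * d.ρ g := by rw [hα.2 g]; noncomm_ring
        · calc d.ρ g * (α ^ (2 * j + 1) * α * α) = (d.ρ g * α ^ (2 * j + 1)) * α * α := by noncomm_ring
            _ = α ^ (2 * j + 1) * (d.ρ' g * α) * α := by rw [ih.2]; noncomm_ring
            _ = α ^ (2 * j + 1) * α * (d.ρ g * α) := by rw [hα.2 g]; noncomm_ring
            _ = α ^ (2 * j + 1) * α * α * d.ρ' g := by rw [hFx' hα g]; noncomm_ring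
    exact (hb j).1
  -- choose `α` of maximal rank
  obtain ⟨α, hα, hmax⟩ := Set.exists_max_image {α | d.Fx α}
    (fun α : AddMonoid.End U => Nat.card (AddMonoidHom.range α)) (Set.toFinite _) ⟨0, Fx.zero d⟩
  obtain ⟨n, hn1, hn⟩ := exists_idem_pow α
  have hα' : d.Fx α := hα
  obtain ⟨k, hk⟩ : ∃ k, n + n = k + 1 := ⟨n + n - 1, by omega⟩
  set e : AddMonoid.End U := α ^ (n + n) with he
  have he2 : e * e = e := by
    have h1 : e = α ^ n := hn
    calc e * e = α ^ n * α ^ n := by rw [h1]
      _ = e := by rw [← pow_add]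
  have he_s : e = α ^ (k + 1) := by rw [he, hk]
  have hea : ∀ x ∈ AddMonoidHom.range α, e x = x := by
    intro x hx
    have hw : e x - x ∈ AddMonoidHom.range α := by
      refine sub_mem ?_ hx
      rw [he_s, pow_succ']
      exact ⟨_, rfl⟩
    have h0 : (α ^ (k + 1)) (e x - x) = 0 := by
      rw [← he_s, map_sub]
      have : (e * e) x = e x := by rw [he2]
      have h2 : e (e x) = e x := this
      rw [h2, sub_self]
    exact sub_eq_zero.1 (hdesc hα' _ _ hw h0)
  have hec : ∀ x, e x = 0 → α x = 0 := by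
    intro x h0
    apply hdesc hα' k _ ⟨x, rfl⟩
    rw [he_s, pow_succ] at h0
    exact h0
  have hα2 : ∀ g, d.ρ g * (α * α) = (α * α) * d.ρ g := by
    intro g
    calc d.ρ g * (α * α) = (d.ρ g * α) * α := by noncomm_ring
      _ = α * (d.ρ' g * α) := by rw [hFx' hα' g]; noncomm_ring
      _ = (α * α) * d.ρ g := by rw [hα'.2 g]; noncomm_ring
  have hα2' : ∀ g, d.ρ' g * (α * α) = (α * α) * d.ρ' g := by
    intro g
    calc d.ρ' g * (α * α) = (d.ρ' g * α) * α := by noncomm_ring
      _ = α * (d.ρ g * α) := by rw [hα'.2 g]; noncomm_ring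
      _ = (α * α) * d.ρ' g := by rw [hFx' hα' g]; noncomm_ring
  have he_e : e = (α * α) ^ n := by
    rw [he, ← two_mul, pow_mul, pow_two]
  have heρ : ∀ g, d.ρ g * e = e * d.ρ g := by
    intro g
    rw [he_e]
    exact ((show Commute (d.ρ g) (α * α) from hα2 g).pow_right n).eq
  have heρ' : ∀ g, d.ρ' g * e = e * d.ρ' g := by
    intro g
    rw [he_e]
    exact ((show Commute (d.ρ' g) (α * α) from hα2' g).pow_right n).eq
  by_cases he1 : e = 1
  · -- `α` is invertible; extract an involution.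
    have hne : n + n ≠ 0 := by omega
    obtain ⟨s, m, hm, hsm⟩ := Nat.exists_eq_two_pow_mul_odd hne
    have hs : s ≠ 0 := by
      rintro rfl
      obtain ⟨j, rfl⟩ := hm
      omega
    have hFβ : d.Fx (α ^ m) := hoddF hα' m hm
    set β := α ^ m with hβ
    have hβq : β ^ 2 ^ s = 1 := by
      rw [hβ, ← pow_mul, mul_comm, ← hsm]
      exact he1
    have hpos : 1 ≤ 2 ^ s := Nat.one_le_two_pow
    obtain ⟨r, hr⟩ : ∃ r, 2 ^ s = r + 1 := ⟨2 ^ s - 1, by omega⟩
    have hrodd : Odd r := by
      have h2 : Even (2 ^ s) := (Nat.even_pow.2 ⟨even_two, hs⟩)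
      rw [hr] at h2
      by_contra hcon
      have h3 : Even r := Nat.not_odd_iff_even.1 hcon
      exact (Nat.not_even_iff_odd.2 (Even.add_one h3)) h2
    have hFβ' : d.Fx (β ^ r) := by
      rw [hβ, ← pow_mul]
      exact hoddF hα' _ (hm.mul hrodd)
    have hββ' : β * β ^ r = 1 := by
      rw [← pow_succ', ← hr, hβq]
    by_cases hγ : β - β ^ r = 0
    · have hbb : β = β ^ r := sub_eq_zero.1 hγ
      have hβ2 : β * β = 1 := by
        nth_rewrite 2 [hbb]
        exact hββ'
      refine good_graph hFβ ?_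
      intro x
      have h1 : (β * β) x = x := by rw [hβ2]; rfl
      have h2 : β (β x) = x := h1
      rw [h2, hθa]
      rw [hθ, sub_self]
      simp
    · exfalso
      have hFγ : d.Fx (β - β ^ r) := hFβ.sub hFβ'
      have hIne : AddMonoidHom.range (β - β ^ r) ≠ ⊥ := by
        intro h0
        apply hγ
        ext x
        have : (β - β ^ r) x ∈ AddMonoidHom.range (β - β ^ r) := ⟨x, rfl⟩
        rw [h0] at this
        exact this
      have hcomm : β * (β - β ^ r) = (β - β ^ r) * β := by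
        rw [mul_sub, sub_mul, ← pow_succ', ← pow_succ]
      have hmap : ∀ x ∈ AddMonoidHom.range (β - β ^ r), β x ∈ AddMonoidHom.range (β - β ^ r) := by
        rintro _ ⟨z, rfl⟩
        refine ⟨β z, ?_⟩
        have : (β * (β - β ^ r)) z = ((β - β ^ r) * β) z := by rw [hcomm]
        exact this.symm
      obtain ⟨x, hxI, hx0, hfx⟩ := exists_fixed_of_pow (p := 2) hU β hβq _ hIne hmap
      have hpw : ∀ j : ℕ, (β ^ j) x = x := by
        intro j
        induction j with
        | zero => rfl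
        | succ j ih =>
          rw [pow_succ]
          show (β ^ j) (β x) = x
          rw [hfx, ih]
      have hγx : (β - β ^ r) x = 0 := by
        show β x - (β ^ r) x = 0
        rw [hfx, hpw, sub_self]
      exact H _ hFγ x hx0 hγx hxI
  · -- the rank can be enlarged
    exfalso
    let T : AddSubgroup (AddMonoid.End U) :=
      { carrier := {γ | (∀ x y, d.ψ (γ x) y = d.ψ x (γ y)) ∧ γ * e = 0 ∧ e * γ = 0}
        zero_mem' := by
          refine ⟨fun x y => ?_, zero_mul _, mul_zero _⟩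
          simp
        add_mem' := by
          rintro a c ⟨h1, h2, h3⟩ ⟨h4, h5, h6⟩
          refine ⟨fun x y => ?_, by rw [add_mul, h2, h5, add_zero], by rw [mul_add, h3, h6, add_zero]⟩
          show d.ψ (a x + c x) y = d.ψ x (a y + c y)
          rw [map_add, map_add, AddMonoidHom.add_apply, h1, h4]
        neg_mem' := by
          rintro a ⟨h1, h2, h3⟩
          refine ⟨fun x y => ?_, by rw [neg_mul, h2, neg_zero], by rw [mul_neg, h3, neg_zero]⟩
          show d.ψ (-(a x)) y = d.ψ x (-(a y))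
          rw [map_neg, map_neg, AddMonoidHom.neg_apply, h1] }
    have hTmem : ∀ (g : G) (γ : AddMonoid.End U), γ ∈ T → d.ρ' g * γ * d.ρ g⁻¹ ∈ T := by
      rintro g γ ⟨h1, h2, h3⟩
      have hρρ : ∀ x, d.ρ g (d.ρ g⁻¹ x) = x := by
        intro x
        have : (d.ρ g * d.ρ g⁻¹) x = x := by rw [← map_mul, mul_inv_cancel, map_one]; rfl
        exact this
      refine ⟨fun x y => ?_, ?_, ?_⟩
      · show d.ψ (d.ρ' g (γ (d.ρ g⁻¹ x))) y = d.ψ x (d.ρ' g (γ (d.ρ g⁻¹ y)))
        set a := d.ρ g⁻¹ x with ha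
        set c := d.ρ g⁻¹ y with hc
        have hx : x = d.ρ g a := (hρρ x).symm
        have hy : y = d.ρ g c := (hρρ y).symm
        rw [d.symm, hx, hy]
        apply d.compat
        rw [d.symm, h1]
      · calc d.ρ' g * γ * d.ρ g⁻¹ * e = d.ρ' g * γ * (d.ρ g⁻¹ * e) := by noncomm_ring
          _ = d.ρ' g * (γ * e) * d.ρ g⁻¹ := by rw [heρ]; noncomm_ring
          _ = 0 := by rw [h2]; simp
      · calc e * (d.ρ' g * γ * d.ρ g⁻¹) = (e * d.ρ' g) * γ * d.ρ g⁻¹ := by noncomm_ring
          _ = d.ρ' g * (e * γ) * d.ρ g⁻¹ := by rw [← heρ']; noncomm_ring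
          _ = 0 := by rw [h3]; simp
    letI act : MulAction G T :=
      { smul := fun g γ => ⟨d.ρ' g * γ.1 * d.ρ g⁻¹, hTmem g γ.1 γ.2⟩
        one_smul := by
          intro γ
          apply Subtype.ext
          show d.ρ' 1 * γ.1 * d.ρ 1⁻¹ = γ.1
          simp
        mul_smul := by
          intro a c γ
          apply Subtype.ext
          show d.ρ' (a * c) * γ.1 * d.ρ (a * c)⁻¹ = d.ρ' a * (d.ρ' c * γ.1 * d.ρ c⁻¹) * d.ρ a⁻¹
          rw [map_mul, mul_inv_rev, map_mul]
          noncomm_ring }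
    have hsmul : ∀ (g : G) (γ : T), (g • γ).1 = d.ρ' g * γ.1 * d.ρ g⁻¹ := fun _ _ => rfl
    have h1e : (1 - e) ∈ T := by
      refine ⟨fun x y => ?_, ?_, ?_⟩
      · show d.ψ (x - e x) y = d.ψ x (y - e y)
        rw [map_sub, map_sub, AddMonoidHom.sub_apply, he, pow_adj hα'.1]
      · rw [sub_mul, he2, one_mul, sub_self]
      · rw [mul_sub, he2, mul_one, sub_self]
    have hPg : IsPGroup 2 (Multiplicative U) := by
      intro g
      obtain ⟨k, hk⟩ := hU (Multiplicative.toAdd g)
      exact ⟨k, by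
        show Multiplicative.ofAdd (2 ^ k • Multiplicative.toAdd g) = 1
        rw [hk]; rfl⟩
    obtain ⟨N, hN⟩ := IsPGroup.iff_card.1 hPg
    have hN' : Nat.card U = 2 ^ N := hN
    have hTA : ∀ a : T, ∃ k, 2 ^ k • a = 0 := by
      intro a
      refine ⟨N, Subtype.ext ?_⟩
      ext x
      show (2 ^ N) • (a.1 x) = 0
      rw [← hN']
      exact card_nsmul_eq_zero'
    haveI : Nontrivial T := by
      refine ⟨⟨⟨1 - e, h1e⟩, 0, fun h0 => he1 ?_⟩⟩
      have : (1 : AddMonoid.End U) - e = 0 := congrArg Subtype.val h0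
      exact (sub_eq_zero.1 this).symm
    have hdvd : 2 ∣ Nat.card T := prime_dvd_card_of_nontrivial hTA
    have hmod := hG.card_modEq_card_fixedPoints T
    have hd2 : 2 ∣ Nat.card (MulAction.fixedPoints G T) :=
      Nat.modEq_zero_iff_dvd.1 (hmod.symm.trans (Nat.modEq_zero_iff_dvd.2 hdvd))
    have h0fix : (0 : T) ∈ MulAction.fixedPoints G T := by
      intro g
      apply Subtype.ext
      rw [hsmul]
      show d.ρ' g * 0 * d.ρ g⁻¹ = 0
      simp
    haveI : Nonempty (MulAction.fixedPoints G T) := ⟨⟨0, h0fix⟩⟩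
    have hpos : 0 < Nat.card (MulAction.fixedPoints G T) := Nat.card_pos
    have hp2 : 1 < Nat.card (MulAction.fixedPoints G T) := by
      have := Nat.le_of_dvd hpos hd2
      omega
    haveI : Nontrivial (MulAction.fixedPoints G T) := Finite.one_lt_card_iff_nontrivial.1 hp2
    obtain ⟨a, ha0⟩ : ∃ a : MulAction.fixedPoints G T, a.1 ≠ 0 := by
      obtain ⟨a, c, hac⟩ := exists_pair_ne (MulAction.fixedPoints G T)
      by_cases h : a.1 = 0
      · refine ⟨c, fun h' => hac (Subtype.ext (by rw [h, h']))⟩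
      · exact ⟨a, h⟩
    set α' : AddMonoid.End U := a.1.1 with hα'def
    have hα'ne : α' ≠ 0 := fun h0 => ha0 (Subtype.ext h0)
    obtain ⟨hT1, hT2, hT3⟩ : α' ∈ T := a.1.2
    have hFα' : d.Fx α' := by
      refine ⟨hT1, fun g => ?_⟩
      have h1 : (g • a.1).1 = a.1.1 := congrArg Subtype.val (a.2 g)
      rw [hsmul] at h1
      calc d.ρ' g * α' = d.ρ' g * α' * (d.ρ g⁻¹ * d.ρ g) := by
            rw [← map_mul, inv_mul_cancel, map_one, mul_one]
        _ = (d.ρ' g * α' * d.ρ g⁻¹) * d.ρ g := by noncomm_ring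
        _ = α' * d.ρ g := by rw [h1]
    have hF2 : d.Fx (α + α') := hα'.add hFα'
    have hm := hmax (α + α') hF2
    have hα'e : ∀ x, α' (e x) = 0 := by
      intro x
      have : (α' * e) x = 0 := by rw [hT2]; rfl
      exact this
    have heα' : ∀ x, e (α' x) = 0 := by
      intro x
      have : (e * α') x = 0 := by rw [hT3]; rfl
      exact this
    have hle : AddMonoidHom.range α ≤ AddMonoidHom.range (α + α') := by
      intro x hx
      have hxe := hea x hx
      set x' := (α ^ k) x with hx'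
      have hx'r : x' ∈ AddMonoidHom.range α := pow_range_mem k hx
      have h1 : α x' = x := by
        have : (α * α ^ k) x = x := by
          rw [← pow_succ', ← he_s]
          exact hxe
        exact this
      have h2 : α' x' = 0 := by
        rw [← hea x' hx'r]
        exact hα'e x'
      refine ⟨x', ?_⟩
      show α x' + α' x' = x
      rw [h1, h2, add_zero]
    have heq := AddSubgroup.eq_of_le_of_card_ge hle hm
    apply hα'ne
    ext y
    set w := y - e y with hw
    have hew : e w = 0 := by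
      rw [hw, map_sub]
      have : (e * e) y = e y := by rw [he2]
      have h2 : e (e y) = e y := this
      rw [h2, sub_self]
    have h1 : α w = 0 := hec w hew
    have h2 : α' w = α' y := by
      rw [hw, map_sub, hα'e, sub_zero]
    have h3 : α' y ∈ AddMonoidHom.range (α + α') := by
      refine ⟨w, ?_⟩
      show α w + α' w = α' y
      rw [h1, h2, zero_add]
    rw [← heq] at h3
    have h4 := hea _ h3
    rw [heα'] at h4
    exact h4.symm

end LLData

end Cfsg.Agent.Lib.LocalEven2.CL2
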