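import Cfsg.Agent.Lib.LocalEven2.CL2b
import Cfsg.Agent.Lib.LocalEven2.CL2c

/-!
# From the linear lemma to a class two group
-/

set_option autoImplicit false
set_option linter.unusedSectionVars false

namespace Cfsg.Agent.Lib.LocalEven2.CL2

universe u v w

theorem exists_good {U : Type u} {D : Type v} {G : Type w} [AddCommGroup U] [AddCommGroup D] [Group G]
    {d : LLData U D G} {p n : ℕ} [Fact p.Prime] [Finite G] (hG : IsPGroup p G) [Finite U] [Nontrivial U]
    (hU : ∀ u : U, ∃ k, p ^ k • u = 0) (hord : (-d.θ) ^ p ^ n = 1) (h2 : p = 2 → d.θ = 1) :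
    ∃ X, d.Good X := by
  by_cases hp : p = 2
  · subst hp
    exact LLData.exists_good_two hG hU (h2 rfl)
  · exact LLData.exists_good_odd hp hU hord

/-- Lifting along a surjective additive function. -/
theorem lift_add {E : Type*} [Mul E] {U A : Type*} [AddCommGroup U] [AddCommGroup A]
    (f : E → U) (hf : ∀ y y', f (y * y') = f y + f y') (hs : Function.Surjective f)
    (h : E → A) (hadd : ∀ y y', h (y * y') = h y + h y')
    (hker : ∀ y y', f y = f y' → h y = h y') :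
    ∃ φ : U →+ A, ∀ y, φ (f y) = h y := by
  refine ⟨AddMonoidHom.mk' (fun u => h (Function.surjInv hs u)) ?_, ?_⟩
  · intro a c
    have h1 : f (Function.surjInv hs (a + c)) = f (Function.surjInv hs a * Function.surjInv hs c) := by
      rw [hf, Function.surjInv_eq hs, Function.surjInv_eq hs, Function.surjInv_eq hs]
    rw [hker _ _ h1, hadd]
  · intro y
    exact hker _ _ (Function.surjInv_eq hs (f y))

section Class2

variable {E : Type*} [Group E]

theorem comm_mem_inf {L L₁ : Subgroup E} [L.Normal] [L₁.Normal] {l m : E} (hl : l ∈ L) (hm : m ∈ L₁) :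
    l * m * l⁻¹ * m⁻¹ ∈ L ⊓ L₁ := by
  refine Subgroup.mem_inf.2 ⟨?_, ?_⟩
  · have : l * m * l⁻¹ * m⁻¹ = l * (m * l⁻¹ * m⁻¹) := by group
    rw [this]
    exact L.mul_mem hl (Subgroup.Normal.conj_mem ‹_› _ (L.inv_mem hl) m)
  · exact L₁.mul_mem (Subgroup.Normal.conj_mem ‹_› _ hm l) (L₁.inv_mem hm)

theorem exists_mul_of_sup_top {L L₁ : Subgroup E} [L₁.Normal] (hsup : L ⊔ L₁ = ⊤) (y : E) :
    ∃ l ∈ L, ∃ m ∈ L₁, y = l * m := by
  have h1 : y ∈ (L ⊔ L₁ : Subgroup E) := by rw [hsup]; trivial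
  rw [← SetLike.mem_coe, Subgroup.mul_normal] at h1
  obtain ⟨l, hl, m, hm, rfl⟩ := Set.mem_mul.1 h1
  exact ⟨l, hl, m, hm, rfl⟩

theorem inf_le_center' {L L₁ : Subgroup E} [L₁.Normal] (hab : IsMulCommutative L) (hab₁ : IsMulCommutative L₁)
    (hsup : L ⊔ L₁ = ⊤) : L ⊓ L₁ ≤ Subgroup.center E := by
  intro z hz
  obtain ⟨hz1, hz2⟩ := Subgroup.mem_inf.1 hz
  rw [Subgroup.mem_center_iff]
  intro y
  obtain ⟨l, hl, m, hm, rfl⟩ := exists_mul_of_sup_top hsup y
  have h1 : l * z = z * l := congrArg Subtype.val (hab.is_comm.comm (⟨l, hl⟩ : L) ⟨z, hz1⟩)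
  have h2 : m * z = z * m := congrArg Subtype.val (hab₁.is_comm.comm (⟨m, hm⟩ : L₁) ⟨z, hz2⟩)
  calc l * m * z = l * (m * z) := by group
    _ = z * (l * m) := by rw [h2, ← mul_assoc, h1, mul_assoc]

theorem comm_mem_inf_all {L L₁ : Subgroup E} [L.Normal] [L₁.Normal] (hab : IsMulCommutative L)
    (hab₁ : IsMulCommutative L₁) (hsup : L ⊔ L₁ = ⊤) (y y' : E) :
    y * y' * y⁻¹ * y'⁻¹ ∈ L ⊓ L₁ := by
  have hc := inf_le_center' hab hab₁ hsup
  obtain ⟨l, hl, m, hm, rfl⟩ := exists_mul_of_sup_top hsup y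
  obtain ⟨l', hl', m', hm', rfl⟩ := exists_mul_of_sup_top hsup y'
  have h1D := comm_mem_inf hl' hm
  have h2D := comm_mem_inf hl hm'
  have h1 := hc h1D
  have h2 := hc h2D
  have hll : l * l' = l' * l := congrArg Subtype.val (hab.is_comm.comm (⟨l, hl⟩ : L) ⟨l', hl'⟩)
  have hmm : m * m' = m' * m := congrArg Subtype.val (hab₁.is_comm.comm (⟨m, hm⟩ : L₁) ⟨m', hm'⟩)
  set c1 := l' * m * l'⁻¹ * m⁻¹ with hc1
  set c2 := l * m' * l⁻¹ * m'⁻¹ with hc2
  have hc1' := Subgroup.mem_center_iff.1 h1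
  have hc2' := Subgroup.mem_center_iff.1 h2
  have hm1 : l' * m = c1 * (m * l') := by rw [hc1]; group
  have hm2 : l * m' = c2 * (m' * l) := by rw [hc2]; group
  have key : (l * m) * (l' * m') * (l * m)⁻¹ * (l' * m')⁻¹ = c2 * c1⁻¹ := by
    have h3 : (l * m) * (l' * m') = c1⁻¹ * (l * l' * m * m') := by
      have : m * l' = c1⁻¹ * (l' * m) := by rw [hm1]; group
      calc (l * m) * (l' * m') = l * (m * l') * m' := by group
        _ = l * (c1⁻¹ * (l' * m)) * m' := by rw [this]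
        _ = (l * c1⁻¹) * (l' * m) * m' := by group
        _ = (c1⁻¹ * l) * (l' * m) * m' := by
            rw [show l * c1⁻¹ = c1⁻¹ * l from (Subgroup.mem_center_iff.1 (Subgroup.inv_mem _ h1) l)]
        _ = _ := by group
    have h4 : (l' * m') * (l * m) = c2⁻¹ * (l' * l * m' * m) := by
      have : m' * l = c2⁻¹ * (l * m') := by rw [hm2]; group
      calc (l' * m') * (l * m) = l' * (m' * l) * m := by group
        _ = l' * (c2⁻¹ * (l * m')) * m := by rw [this]
        _ = (l' * c2⁻¹) * (l * m') * m := by group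
        _ = (c2⁻¹ * l') * (l * m') * m := by
            rw [show l' * c2⁻¹ = c2⁻¹ * l' from (Subgroup.mem_center_iff.1 (Subgroup.inv_mem _ h2) l')]
        _ = _ := by group
    have h5 : (l * m) * (l' * m') * (l * m)⁻¹ * (l' * m')⁻¹ =
        ((l * m) * (l' * m')) * ((l' * m') * (l * m))⁻¹ := by group
    rw [h5, h3, h4]
    have h6 : l * l' * m * m' = l' * l * m' * m := by
      calc l * l' * m * m' = (l * l') * (m * m') := by group
        _ = (l' * l) * (m' * m) := by rw [hll, hmm]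
        _ = _ := by group
    rw [h6]
    set w := l' * l * m' * m
    have h7 : c1⁻¹ * w * (c2⁻¹ * w)⁻¹ = c1⁻¹ * (w * w⁻¹) * c2 := by
            calc c1⁻¹ * w * (c2⁻¹ * w)⁻¹ = c1⁻¹ * (w * (w⁻¹ * c2)) := by group
        _ = _ := by group
    rw [h7, mul_inv_cancel, mul_one]
    exact (Subgroup.mem_center_iff.1 (Subgroup.inv_mem _ h1) c2).symm
  rw [key]
  exact Subgroup.mul_mem _ h2D (Subgroup.inv_mem _ h1D)

theorem comm_mem_center {L L₁ : Subgroup E} [L.Normal] [L₁.Normal] (hab : IsMulCommutative L)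
    (hab₁ : IsMulCommutative L₁) (hsup : L ⊔ L₁ = ⊤) (y y' : E) :
    y * y' * y⁻¹ * y'⁻¹ ∈ Subgroup.center E :=
  inf_le_center' hab hab₁ hsup (comm_mem_inf_all hab hab₁ hsup y y')

end Class2

end Cfsg.Agent.Lib.LocalEven2.CL2
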