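import Cfsg.Agent.Lib.LocalEven2.CL2d

/-!
# The class two group lemma
-/

set_option autoImplicit false
set_option linter.unusedSectionVars false

namespace Cfsg.Agent.Lib.LocalEven2.CL2

universe u v w

/-- Counting preimages under a surjective additive map. -/
theorem card_preimage {E : Type*} [Group E] [Finite E] {V : Type*} [AddCommGroup V]
    (Ψ : E → V) (hΨ : ∀ y y', Ψ (y * y') = Ψ y + Ψ y') (hs : Function.Surjective Ψ)
    (Y : AddSubgroup V) (K D : Subgroup E) (hK : ∀ y, y ∈ K ↔ Ψ y ∈ Y) (hD : ∀ y, y ∈ D ↔ Ψ y = 0) :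
    Nat.card K = Nat.card D * Nat.card Y := by
  haveI : Finite V := Finite.of_surjective Ψ hs
  have h1 : Ψ 1 = 0 := by
    have := hΨ 1 1
    rw [mul_one] at this
    simpa using this
  let m : E →* Multiplicative V := MonoidHom.mk' (fun y => Multiplicative.ofAdd (Ψ y)) (fun a c => by
    show Multiplicative.ofAdd (Ψ (a * c)) = _
    rw [hΨ]; rfl)
  have hm : Function.Surjective m := fun x => by
    obtain ⟨y, hy⟩ := hs (Multiplicative.toAdd x)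
    exact ⟨y, by
      show Multiplicative.ofAdd (Ψ y) = x
      rw [hy]; rfl⟩
  have hKc : K = (AddSubgroup.toSubgroup Y).comap m := by
    ext y
    rw [hK]
    rfl
  have hDc : D = m.ker := by
    ext y
    rw [hD, MonoidHom.mem_ker]
    rfl
  have hidx : K.index = (AddSubgroup.toSubgroup Y).index := by
    rw [hKc]
    exact Subgroup.index_comap_of_surjective _ hm
  have h2 := Subgroup.card_mul_index K
  have h3 := Subgroup.card_mul_index (AddSubgroup.toSubgroup Y)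
  have h4 := Subgroup.card_mul_index D
  rw [hDc, Subgroup.index_ker, MonoidHom.range_eq_top.2 hm, Nat.card_congr Subgroup.topEquiv.toEquiv,
    ← h3, ← hDc] at h4
  have hcY : Nat.card (AddSubgroup.toSubgroup Y) = Nat.card Y :=
    Nat.card_congr (Equiv.subtypeEquiv Multiplicative.toAdd (fun _ => Iff.rfl))
  have hpos : 0 < (AddSubgroup.toSubgroup Y).index := by
    apply Nat.pos_of_ne_zero
    intro h0
    rw [h0, mul_zero] at h3
    exact Nat.card_pos.ne h3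
  rw [← hcY]
  apply Nat.eq_of_mul_eq_mul_right hpos
  rw [← hidx, h2, ← h4, mul_assoc, hidx]
  
theorem class2_core {E : Type*} [Group E] [Finite E] {p n : ℕ} [Fact p.Prime] (hE : IsPGroup p E)
    {L L₁ T : Subgroup E} [L.Normal] [L₁.Normal]
    (hLab : IsMulCommutative L) (hL₁ab : IsMulCommutative L₁) (hTab : IsMulCommutative T)
    (hsup : L ⊔ L₁ = ⊤) (hDT : L ⊓ L₁ ≤ T) (hTL : T ⊔ L = ⊤) (hTL₁ : T ⊔ L₁ = ⊤)
    (b : MulAut E) (hbn : b ^ p ^ n = 1)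
    (hbL : ∀ y, b y ∈ L₁ ↔ y ∈ L)
    (hbT : ∀ t ∈ T, b t * t⁻¹ ∈ L ⊓ L₁)
    {G : Type*} [Group G] [Finite G] (hG : IsPGroup p G) (r : G →* MulAut E)
    (hrL : ∀ g, ∀ y ∈ L, r g y ∈ L) (hrL₁ : ∀ g, ∀ y ∈ L₁, r g y ∈ L₁)
    (hrb : ∀ g, ∃ h, ∀ y, r g (b y) = b (r h y))
    (hp2 : p = 2 → ∀ y ∈ L₁, b y ∈ L)
    (hne : L ≠ L₁)
    {U : Type*} [AddCommGroup U] (a₀ : E → U) (ha₀ : ∀ y y', a₀ (y * y') = a₀ y + a₀ y')
    (hs : Function.Surjective a₀) (hker : ∀ y, a₀ y = 0 ↔ y ∈ L₁) :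
    ∃ L₅ : Subgroup E, L ⊓ L₁ ≤ L₅ ∧ IsMulCommutative L₅ ∧ Nat.card L₅ = Nat.card L ∧
      (∀ g, ∀ y ∈ L₅, r g y ∈ L₅) ∧ ∃ y ∈ L₅, y ∉ L ⊓ L₁ ∧ b y ∈ L₅ := by
  classical
  haveI : Finite U := Finite.of_surjective a₀ hs
  -- basic facts on `a₀`
  have ha1 : a₀ 1 = 0 := (hker 1).2 (one_mem _)
  have hainv : ∀ y, a₀ y⁻¹ = -a₀ y := by
    intro y
    have h := ha₀ y y⁻¹
    rw [mul_inv_cancel, ha1] at h
    exact eq_neg_of_add_eq_zero_right h.symm
  have hapow : ∀ (k : ℕ) (y : E), a₀ (y ^ k) = k • a₀ y := by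
    intro k y
    induction k with
    | zero => simp [ha1]
    | succ k ih => rw [pow_succ, ha₀, ih, succ_nsmul]
  have ha_eq : ∀ y y', a₀ y = a₀ y' → y * y'⁻¹ ∈ L₁ := by
    intro y y' h
    rw [← hker, ha₀, hainv, h, add_neg_cancel]
  have ha_eq' : ∀ y y', y * y'⁻¹ ∈ L₁ → a₀ y = a₀ y' := by
    intro y y' h
    have h1 := (hker _).2 h
    rw [ha₀, hainv] at h1
    exact eq_of_add_neg_eq_zero h1
  -- the second coordinate
  set a₁ : E → U := fun y => a₀ (b y) with ha₁def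
  have ha₁ : ∀ y y', a₁ (y * y') = a₁ y + a₁ y' := by
    intro y y'
    show a₀ (b (y * y')) = a₀ (b y) + a₀ (b y')
    rw [map_mul, ha₀]
  have ha₁1 : a₁ 1 = 0 := by
    show a₀ (b 1) = 0
    rw [map_one, ha1]
  have ha₁inv : ∀ y, a₁ y⁻¹ = -a₁ y := by
    intro y
    show a₀ (b y⁻¹) = -a₀ (b y)
    rw [map_inv, hainv]
  have hker₁ : ∀ y, a₁ y = 0 ↔ y ∈ L := by
    intro y
    show a₀ (b y) = 0 ↔ _
    rw [hker, hbL]
  have ha₁_eq : ∀ y y', a₁ y = a₁ y' → y * y'⁻¹ ∈ L := by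
    intro y y' h
    rw [← hker₁, ha₁, ha₁inv, h, add_neg_cancel]
  have ha₁_eq' : ∀ y y', y * y'⁻¹ ∈ L → a₁ y = a₁ y' := by
    intro y y' h
    have h1 := (hker₁ _).2 h
    rw [ha₁, ha₁inv] at h1
    exact eq_of_add_neg_eq_zero h1
  have hT01 : ∀ t ∈ T, a₁ t = a₀ t := by
    intro t ht
    apply ha_eq'
    exact (Subgroup.mem_inf.1 (hbT t ht)).2
  have hTs : ∀ v, ∃ t ∈ T, a₀ t = v := by
    intro v
    obtain ⟨z, rfl⟩ := hs v
    obtain ⟨t, ht, m, hm, rfl⟩ := exists_mul_of_sup_top hTL₁ z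
    exact ⟨t, ht, by rw [ha₀, (hker m).2 hm, add_zero]⟩
  have hLs : ∀ v, ∃ l ∈ L, a₀ l = v := by
    intro v
    obtain ⟨z, rfl⟩ := hs v
    obtain ⟨l, hl, m, hm, rfl⟩ := exists_mul_of_sup_top hsup z
    exact ⟨l, hl, by rw [ha₀, (hker m).2 hm, add_zero]⟩
  have hΨs : ∀ u v, ∃ y, a₀ y = u ∧ a₁ y = v := by
    intro u v
    obtain ⟨t, ht, rfl⟩ := hTs v
    obtain ⟨l, hl, hlu⟩ := hLs (u - a₀ t)
    refine ⟨l * t, ?_, ?_⟩
    · rw [ha₀, hlu, sub_add_cancel]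
    · rw [ha₁, (hker₁ l).2 hl, zero_add, hT01 t ht]
  have ha₁s : Function.Surjective a₁ := fun v => by
    obtain ⟨y, -, hy⟩ := hΨs 0 v
    exact ⟨y, hy⟩
  have hL₁s : ∀ v, ∃ m ∈ L₁, a₁ m = v := by
    intro v
    obtain ⟨z, rfl⟩ := ha₁s v
    obtain ⟨l, hl, m, hm, rfl⟩ := exists_mul_of_sup_top hsup z
    exact ⟨m, hm, by rw [ha₁, (hker₁ l).2 hl, zero_add]⟩
  -- commutators
  have hcen := comm_mem_center hLab hL₁ab hsup
  letI instC : CommGroup (Subgroup.center E) :=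
    { (inferInstance : Group (Subgroup.center E)) with
      mul_comm := fun a c => Subtype.ext (Subgroup.mem_center_iff.1 c.2 a.1) }
  let cz : E → E → Additive (Subgroup.center E) := fun y y' => Additive.ofMul ⟨y * y' * y⁻¹ * y'⁻¹, hcen y y'⟩
  have hcomm_c : ∀ y y' g, g * (y * y' * y⁻¹ * y'⁻¹) = (y * y' * y⁻¹ * y'⁻¹) * g :=
    fun y y' g => Subgroup.mem_center_iff.1 (hcen y y') g
  have cz_left : ∀ y₁ y₂ y', cz (y₁ * y₂) y' = cz y₁ y' + cz y₂ y' := by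
    intro y₁ y₂ y'
    show Additive.ofMul _ = Additive.ofMul (_ * _)
    congr 1
    apply Subtype.ext
    show y₁ * y₂ * y' * (y₁ * y₂)⁻¹ * y'⁻¹ = (y₁ * y' * y₁⁻¹ * y'⁻¹) * (y₂ * y' * y₂⁻¹ * y'⁻¹)
    have hcc := hcomm_c y₁ y' (y₂ * y' * y₂⁻¹ * y'⁻¹)
    have h1 := hcomm_c y₂ y' y₁
    set c₂ := y₂ * y' * y₂⁻¹ * y'⁻¹ with hc₂
    have h2 : y₂ * y' * y₂⁻¹ = c₂ * y' := by rw [hc₂]; group
    calc y₁ * y₂ * y' * (y₁ * y₂)⁻¹ * y'⁻¹ = y₁ * (y₂ * y' * y₂⁻¹) * y₁⁻¹ * y'⁻¹ := by group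
      _ = (y₁ * c₂) * y' * y₁⁻¹ * y'⁻¹ := by rw [h2]; group
      _ = (c₂ * y₁) * y' * y₁⁻¹ * y'⁻¹ := by rw [h1]
      _ = c₂ * (y₁ * y' * y₁⁻¹ * y'⁻¹) := by group
      _ = _ := hcc
  have cz_anti : ∀ y y', cz y y' = -cz y' y := by
    intro y y'
    show Additive.ofMul _ = Additive.ofMul (_)⁻¹
    congr 1
    apply Subtype.ext
    show y * y' * y⁻¹ * y'⁻¹ = (y' * y * y'⁻¹ * y⁻¹)⁻¹
    group
  have cz_right : ∀ y y₁ y₂, cz y (y₁ * y₂) = cz y y₁ + cz y y₂ := by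
    intro y y₁ y₂
    rw [cz_anti, cz_left, neg_add, ← cz_anti, ← cz_anti]
  have cz_zero : ∀ y y', cz y y' = 0 ↔ y * y' = y' * y := by
    intro y y'
    constructor
    · intro h
      have h1 : y * y' * y⁻¹ * y'⁻¹ = 1 := congrArg Subtype.val (Additive.ofMul.injective h)
      calc y * y' = (y * y' * y⁻¹ * y'⁻¹) * (y' * y) := by group
        _ = y' * y := by rw [h1, one_mul]
    · intro h
      apply Additive.toMul.injective
      apply Subtype.ext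
      show y * y' * y⁻¹ * y'⁻¹ = 1
      rw [h]
      group
  have cz_central : ∀ z y, z ∈ L ⊓ L₁ → cz z y = 0 := by
    intro z y hz
    exact (cz_zero z y).2 (Subgroup.mem_center_iff.1 (inf_le_center' hLab hL₁ab hsup hz) y).symm
  -- the form on `U × U`
  let Ψ : E → U × U := fun y => (a₀ y, a₁ y)
  have hΨadd : ∀ y y', Ψ (y * y') = Ψ y + Ψ y' := by
    intro y y'
    show (a₀ (y * y'), a₁ (y * y')) = (a₀ y + a₀ y', a₁ y + a₁ y')
    rw [ha₀, ha₁]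
  have hΨsurj : Function.Surjective Ψ := by
    rintro ⟨u, v⟩
    obtain ⟨y, h1, h2⟩ := hΨs u v
    exact ⟨y, Prod.ext h1 h2⟩
  have hΨker : ∀ y y', Ψ y = Ψ y' → y * y'⁻¹ ∈ L ⊓ L₁ := by
    intro y y' h
    exact Subgroup.mem_inf.2 ⟨ha₁_eq _ _ (congrArg Prod.snd h), ha_eq _ _ (congrArg Prod.fst h)⟩
  have hcz_fact : ∀ y y' w, Ψ y = Ψ y' → cz y w = cz y' w := by
    intro y y' w h
    have h1 : y = (y * y'⁻¹) * y' := by group
    rw [h1, cz_left, cz_central _ _ (hΨker y y' h), zero_add]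
  have hφ : ∀ y, ∃ φ : U × U →+ Additive (Subgroup.center E), ∀ y', φ (Ψ y') = cz y y' := by
    intro y
    apply lift_add Ψ hΨadd hΨsurj (fun y' => cz y y') (cz_right y)
    intro y₁ y₂ h
    show cz y y₁ = cz y y₂
    rw [cz_anti, cz_anti y y₂, hcz_fact _ _ _ h]
  choose φ hφ using hφ
  obtain ⟨ω, hω⟩ : ∃ ω : U × U →+ (U × U →+ Additive (Subgroup.center E)), ∀ y, ω (Ψ y) = φ y := by
    apply lift_add Ψ hΨadd hΨsurj φ
    · intro y y'
      apply AddMonoidHom.ext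
      intro x
      obtain ⟨z, rfl⟩ := hΨsurj x
      show φ (y * y') (Ψ z) = φ y (Ψ z) + φ y' (Ψ z)
      rw [hφ, hφ, hφ, cz_left]
    · intro y y' h
      apply AddMonoidHom.ext
      intro x
      obtain ⟨z, rfl⟩ := hΨsurj x
      rw [hφ, hφ, hcz_fact _ _ _ h]
  have hω' : ∀ y y', ω (Ψ y) (Ψ y') = cz y y' := by
    intro y y'
    rw [hω, hφ]
  let ψ : U →+ U →+ Additive (Subgroup.center E) := AddMonoidHom.mk' (fun u => (ω (u, 0)).comp (AddMonoidHom.inr U U)) (by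
    intro u u'
    apply AddMonoidHom.ext
    intro v
    show ω (u + u', 0) (0, v) = ω (u, 0) (0, v) + ω (u', 0) (0, v)
    have : ((u + u', 0) : U × U) = (u, 0) + (u', 0) := by simp
    rw [this, map_add]
    rfl)
  have hψ : ∀ u v, ψ u v = ω (u, 0) (0, v) := fun _ _ => rfl
  have F0 : ∀ l ∈ L, ∀ m ∈ L₁, ψ (a₀ l) (a₁ m) = cz l m := by
    intro l hl m hm
    rw [hψ, ← hω']
    have h1 : Ψ l = (a₀ l, 0) := Prod.ext rfl ((hker₁ l).2 hl)
    have h2 : Ψ m = (0, a₁ m) := Prod.ext ((hker m).2 hm) rfl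
    rw [h1, h2]
  have F : ∀ y y', cz y y' = ψ (a₀ y) (a₁ y') - ψ (a₀ y') (a₁ y) := by
    intro y y'
    obtain ⟨l, hl, m, hm, rfl⟩ := exists_mul_of_sup_top hsup y
    obtain ⟨l', hl', m', hm', rfl⟩ := exists_mul_of_sup_top hsup y'
    have e1 : a₀ (l * m) = a₀ l := by rw [ha₀, (hker m).2 hm, add_zero]
    have e2 : a₀ (l' * m') = a₀ l' := by rw [ha₀, (hker m').2 hm', add_zero]
    have e3 : a₁ (l * m) = a₁ m := by rw [ha₁, (hker₁ l).2 hl, zero_add]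
    have e4 : a₁ (l' * m') = a₁ m' := by rw [ha₁, (hker₁ l').2 hl', zero_add]
    rw [e1, e2, e3, e4, F0 l hl m' hm', F0 l' hl' m hm, cz_left, cz_right, cz_right]
    have z1 : cz l l' = 0 := (cz_zero _ _).2 (congrArg Subtype.val (hLab.is_comm.comm (⟨l, hl⟩ : L) ⟨l', hl'⟩))
    have z2 : cz m m' = 0 := (cz_zero _ _).2 (congrArg Subtype.val (hL₁ab.is_comm.comm (⟨m, hm⟩ : L₁) ⟨m', hm'⟩))
    rw [z1, z2, cz_anti m l']
    abel
  -- `θ`
  let δ : E → U := fun y => a₀ y - a₁ y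
  have hδadd : ∀ y y', δ (y * y') = δ y + δ y' := by
    intro y y'
    show a₀ (y * y') - a₁ (y * y') = a₀ y - a₁ y + (a₀ y' - a₁ y')
    rw [ha₀, ha₁]
    abel
  have hδs : Function.Surjective δ := fun w => by
    obtain ⟨y, h1, h2⟩ := hΨs w 0
    exact ⟨y, by show a₀ y - a₁ y = w; rw [h1, h2, sub_zero]⟩
  have hmemT : ∀ z, δ z = 0 → z ∈ T := by
    intro z hz
    obtain ⟨t, ht, l, hl, rfl⟩ := exists_mul_of_sup_top hTL z
    have h1 : δ t = 0 := by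
      show a₀ t - a₁ t = 0
      rw [hT01 t ht, sub_self]
    have h2 : δ l = a₀ l := by
      show a₀ l - a₁ l = a₀ l
      rw [(hker₁ l).2 hl, sub_zero]
    rw [hδadd, h1, zero_add, h2] at hz
    exact T.mul_mem ht (hDT (Subgroup.mem_inf.2 ⟨hl, (hker l).1 hz⟩))
  obtain ⟨θ', hθ'⟩ : ∃ θ' : U →+ U, ∀ y, θ' (δ y) = a₁ (b y) - a₁ y := by
    apply lift_add δ hδadd hδs (fun y => a₁ (b y) - a₁ y)
    · intro y y'
      show a₁ (b (y * y')) - a₁ (y * y') = a₁ (b y) - a₁ y + (a₁ (b y') - a₁ y')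
      rw [map_mul, ha₁, ha₁]
      abel
    · intro y y' h
      have hz : δ (y * y'⁻¹) = 0 := by
        have h3 : δ y'⁻¹ = -δ y' := by
          show a₀ y'⁻¹ - a₁ y'⁻¹ = -(a₀ y' - a₁ y')
          rw [hainv, ha₁inv]
          abel
        rw [hδadd, h3, h, add_neg_cancel]
      have ht := hmemT _ hz
      have h4 := (Subgroup.mem_inf.1 (hbT _ ht)).1
      have h5 := (hker₁ _).2 h4
      rw [ha₁, ha₁inv, map_mul, ha₁, map_inv, ha₁inv, ha₁, ha₁inv] at h5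
      show a₁ (b y) - a₁ y = a₁ (b y') - a₁ y'
      have h6 : a₁ (b y) + -a₁ (b y') + -(a₁ y + -a₁ y') = 0 := h5
      rw [neg_add, neg_neg] at h6
      have h7 : a₁ (b y) - a₁ y - (a₁ (b y') - a₁ y') = 0 := by
        rw [← h6]; abel
      exact sub_eq_zero.1 h7
  let θ : AddMonoid.End U := θ'
  have hb1 : ∀ y, a₁ (b y) = θ (a₀ y) + (1 - θ) (a₁ y) := by
    intro y
    have h1 := hθ' y
    have h2 : θ' (a₀ y - a₁ y) = a₁ (b y) - a₁ y := h1
    rw [map_sub] at h2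
    have h3 : (1 - θ) (a₁ y) = a₁ y - θ' (a₁ y) := rfl
    show a₁ (b y) = θ' (a₀ y) + (1 - θ) (a₁ y)
    rw [h3]
    have h4 : a₁ (b y) = (θ' (a₀ y) - θ' (a₁ y)) + a₁ y := by rw [h2]; abel
    rw [h4]
    abel
  -- the group action
  have hρ : ∀ g, ∃ f : U →+ U, ∀ y, f (a₀ y) = a₀ (r g y) := by
    intro g
    apply lift_add a₀ ha₀ hs (fun y => a₀ (r g y))
    · intro y y'
      show a₀ (r g (y * y')) = _
      rw [map_mul, ha₀]
    · intro y y' h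
      apply ha_eq'
      have := hrL₁ g _ (ha_eq _ _ h)
      rwa [map_mul, map_inv] at this
  choose ρf hρf using hρ
  have hρ' : ∀ g, ∃ f : U →+ U, ∀ y, f (a₁ y) = a₁ (r g y) := by
    intro g
    apply lift_add a₁ ha₁ ha₁s (fun y => a₁ (r g y))
    · intro y y'
      show a₁ (r g (y * y')) = _
      rw [map_mul, ha₁]
    · intro y y' h
      apply ha₁_eq'
      have := hrL g _ (ha₁_eq _ _ h)
      rwa [map_mul, map_inv] at this
  choose ρf' hρf' using hρ'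
  let ρ : G →* AddMonoid.End U :=
    { toFun := ρf
      map_one' := by
        apply AddMonoidHom.ext
        intro u
        obtain ⟨y, rfl⟩ := hs u
        rw [hρf, map_one]
        rfl
      map_mul' := by
        intro g g'
        apply AddMonoidHom.ext
        intro u
        obtain ⟨y, rfl⟩ := hs u
        show ρf (g * g') (a₀ y) = ρf g (ρf g' (a₀ y))
        rw [hρf, hρf, hρf, map_mul]
        rfl }
  let ρ' : G →* AddMonoid.End U :=
    { toFun := ρf'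
      map_one' := by
        apply AddMonoidHom.ext
        intro u
        obtain ⟨y, rfl⟩ := ha₁s u
        rw [hρf', map_one]
        rfl
      map_mul' := by
        intro g g'
        apply AddMonoidHom.ext
        intro u
        obtain ⟨y, rfl⟩ := ha₁s u
        show ρf' (g * g') (a₁ y) = ρf' g (ρf' g' (a₁ y))
        rw [hρf', hρf', hρf', map_mul]
        rfl }
  have hρa : ∀ g y, ρ g (a₀ y) = a₀ (r g y) := hρf
  have hρa' : ∀ g y, ρ' g (a₁ y) = a₁ (r g y) := hρf'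
  -- symmetry
  have hsymm : ∀ x y, ψ x y = ψ y x := by
    intro x y
    obtain ⟨t₁, ht₁, rfl⟩ := hTs x
    obtain ⟨t₂, ht₂, rfl⟩ := hTs y
    have h1 : cz t₁ t₂ = 0 := (cz_zero _ _).2 (congrArg Subtype.val (hTab.is_comm.comm (⟨t₁, ht₁⟩ : T) ⟨t₂, ht₂⟩))
    rw [F, hT01 t₂ ht₂, hT01 t₁ ht₁] at h1
    exact sub_eq_zero.1 h1
  have hθadj : ∀ x y, ψ (θ x) y = ψ x (θ y) := by
    intro x y
    obtain ⟨m₁, hm₁, rfl⟩ := hL₁s x
    obtain ⟨m₂, hm₂, rfl⟩ := hL₁s y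
    have h1 : cz (b m₁) (b m₂) = 0 := by
      apply (cz_zero _ _).2
      rw [← map_mul, ← map_mul]
      exact congrArg b (congrArg Subtype.val (hL₁ab.is_comm.comm (⟨m₁, hm₁⟩ : L₁) ⟨m₂, hm₂⟩))
    rw [F] at h1
    have e : ∀ m ∈ L₁, a₁ (b m) = a₁ m - θ (a₁ m) := by
      intro m hm
      rw [hb1, (hker m).2 hm, map_zero, zero_add]
      rfl
    have e0 : ∀ m, a₀ (b m) = a₁ m := fun _ => rfl
    rw [e m₂ hm₂, e m₁ hm₁, e0, e0, map_sub, map_sub] at h1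
    have h2 : ψ (a₁ m₁) (a₁ m₂) = ψ (a₁ m₂) (a₁ m₁) := hsymm _ _
    rw [hsymm (θ (a₁ m₁)) (a₁ m₂)]
    have h3 : ψ (a₁ m₁) (a₁ m₂) - ψ (a₁ m₁) (θ (a₁ m₂)) - (ψ (a₁ m₂) (a₁ m₁) - ψ (a₁ m₂) (θ (a₁ m₁))) = 0 := h1
    rw [h2] at h3
    have h4 : ψ (a₁ m₂) (θ (a₁ m₁)) - ψ (a₁ m₁) (θ (a₁ m₂)) = 0 := by
      rw [← h3]; abel
    exact sub_eq_zero.1 h4
  have hcompat : ∀ g x y x' y', ψ x y = ψ x' y' → ψ (ρ g x) (ρ' g y) = ψ (ρ g x') (ρ' g y') := by
    intro g x y x' y' h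
    obtain ⟨l, hl, rfl⟩ := hLs x
    obtain ⟨l', hl', rfl⟩ := hLs x'
    obtain ⟨m, hm, rfl⟩ := hL₁s y
    obtain ⟨m', hm', rfl⟩ := hL₁s y'
    rw [hρa, hρa, hρa', hρa', F0 _ (hrL g l hl) _ (hrL₁ g m hm), F0 _ (hrL g l' hl') _ (hrL₁ g m' hm')]
    rw [F0 l hl m hm, F0 l' hl' m' hm'] at h
    have h1 : l * m * l⁻¹ * m⁻¹ = l' * m' * l'⁻¹ * m'⁻¹ :=
      congrArg Subtype.val (Additive.ofMul.injective h)
    apply Additive.toMul.injective
    apply Subtype.ext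
    show r g l * r g m * (r g l)⁻¹ * (r g m)⁻¹ = r g l' * r g m' * (r g l')⁻¹ * (r g m')⁻¹
    have h2 := congrArg (r g) h1
    simpa only [map_mul, map_inv] using h2
  have hconj : ∀ g, ∃ h, ρ' h = ρ g ∧ ρ' g * θ = θ * ρ h ∧ ρ' g * (1 - θ) = (1 - θ) * ρ' h := by
    intro g
    obtain ⟨h, hh⟩ := hrb g
    have hi : ρ' h = ρ g := by
      apply AddMonoidHom.ext
      intro u
      obtain ⟨y, rfl⟩ := ha₁s u
      calc ρ' h (a₁ y) = a₁ (r h y) := hρa' h y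
        _ = a₀ (b (r h y)) := rfl
        _ = a₀ (r g (b y)) := by rw [hh]
        _ = ρ g (a₀ (b y)) := (hρa g (b y)).symm
    have hE' : ∀ y, ρ' g (θ (a₀ y) + (1 - θ) (a₁ y)) = θ (ρ h (a₀ y)) + (1 - θ) (ρ' h (a₁ y)) := by
      intro y
      rw [← hb1, hρa', hρa, hρa', hh, hb1]
    refine ⟨h, hi, ?_, ?_⟩
    · apply AddMonoidHom.ext
      intro u
      obtain ⟨y, h1, h2⟩ := hΨs u 0
      have := hE' y
      rw [h1, h2] at this
      have e1 : (1 - θ) (0 : U) = 0 := map_zero _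
      have e2 : ρ' h (0 : U) = 0 := map_zero _
      rw [e2, e1, add_zero, add_zero] at this
      exact this
    · apply AddMonoidHom.ext
      intro v
      obtain ⟨y, h1, h2⟩ := hΨs 0 v
      have := hE' y
      rw [h1, h2] at this
      have e3 : θ (0 : U) = 0 := map_zero _
      have e4 : ρ h (0 : U) = 0 := map_zero _
      rw [e4, e3, zero_add, zero_add] at this
      exact this
  let d : LLData U (Additive (Subgroup.center E)) G :=
    { ψ := ψ, symm := hsymm, θ := θ, θ_adj := hθadj, ρ := ρ, ρ' := ρ', compat := hcompat, conj := hconj }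
  -- order of `-θ`
  have hδb : ∀ y, δ (b y) = (-θ) (δ y) := by
    intro y
    show a₀ (b y) - a₁ (b y) = -θ (a₀ y - a₁ y)
    rw [hb1, map_sub]
    show a₁ y - (θ (a₀ y) + (a₁ y - θ (a₁ y))) = _
    abel
  have hpowδ : ∀ (k : ℕ) (y : E), ((-θ) ^ k) (δ y) = δ ((b ^ k) y) := by
    intro k y
    induction k with
    | zero => rfl
    | succ k ih =>
      rw [pow_succ', pow_succ']
      show (-θ) (((-θ) ^ k) (δ y)) = δ (b ((b ^ k) y))
      rw [ih, hδb]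
  have hord : (-d.θ) ^ p ^ n = 1 := by
    apply AddMonoidHom.ext
    intro u
    obtain ⟨y, rfl⟩ := hδs u
    show ((-θ) ^ p ^ n) (δ y) = δ y
    rw [hpowδ, hbn]
    rfl
  have h2θ : p = 2 → d.θ = 1 := by
    intro hp
    apply AddMonoidHom.ext
    intro v
    obtain ⟨m, hm, rfl⟩ := hL₁s v
    have h1 := hb1 m
    rw [(hker₁ _).2 (hp2 hp m hm), (hker m).2 hm, map_zero, zero_add] at h1
    have h3 : a₁ m - θ (a₁ m) = 0 := h1.symm
    exact (sub_eq_zero.1 h3).symm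
  have hU : ∀ u : U, ∃ k, p ^ k • u = 0 := by
    intro u
    obtain ⟨y, rfl⟩ := hs u
    obtain ⟨k, hk⟩ := hE y
    refine ⟨k, ?_⟩
    rw [← hapow, hk, ha1]
  haveI : Nontrivial U := by
    by_contra hcon
    rw [not_nontrivial_iff_subsingleton] at hcon
    apply hne
    have h1 : L = ⊤ := by
      ext y
      simp only [Subgroup.mem_top, iff_true]
      exact (hker₁ y).1 (Subsingleton.elim _ _)
    have h2 : L₁ = ⊤ := by
      ext y
      simp only [Subgroup.mem_top, iff_true]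
      exact (hker y).1 (Subsingleton.elim _ _)
    rw [h1, h2]
  obtain ⟨X, hiso, hcard, hinv, v, hvX, hv0, hbv⟩ := exists_good (d := d) hG hU hord h2θ
  let L₅ : Subgroup E :=
    { carrier := {y | Ψ y ∈ X}
      one_mem' := by
        show Ψ 1 ∈ X
        have : Ψ 1 = 0 := Prod.ext ha1 ha₁1
        rw [this]
        exact zero_mem _
      mul_mem' := by
        intro a c ha hc
        show Ψ (a * c) ∈ X
        rw [hΨadd]
        exact add_mem ha hc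
      inv_mem' := by
        intro a ha
        show Ψ a⁻¹ ∈ X
        have : Ψ a⁻¹ = -Ψ a := Prod.ext (hainv a) (ha₁inv a)
        rw [this]
        exact neg_mem ha }
  have hL₅ : ∀ y, y ∈ L₅ ↔ Ψ y ∈ X := fun _ => Iff.rfl
  have hDmem : ∀ y, y ∈ L ⊓ L₁ ↔ Ψ y = 0 := by
    intro y
    constructor
    · intro h
      obtain ⟨h1, h2⟩ := Subgroup.mem_inf.1 h
      exact Prod.ext ((hker y).2 h2) ((hker₁ y).2 h1)
    · intro h
      exact Subgroup.mem_inf.2 ⟨(hker₁ y).1 (congrArg Prod.snd h), (hker y).1 (congrArg Prod.fst h)⟩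
  refine ⟨L₅, ?_, ?_, ?_, ?_, ?_⟩
  · intro y hy
    rw [hL₅, (hDmem y).1 hy]
    exact zero_mem _
  · refine ⟨⟨fun a c => Subtype.ext ?_⟩⟩
    have h1 := hiso _ a.2 _ c.2
    have h2 : ψ (a₀ a.1) (a₁ c.1) = ψ (a₀ c.1) (a₁ a.1) := h1
    exact (cz_zero _ _).1 (by rw [F, h2, sub_self])
  · have c1 := card_preimage Ψ hΨadd hΨsurj X L₅ (L ⊓ L₁) hL₅ hDmem
    have c2 := card_preimage Ψ hΨadd hΨsurj ((⊤ : AddSubgroup U).prod ⊥) L (L ⊓ L₁) (by
      intro y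
      constructor
      · intro h
        exact AddSubgroup.mem_prod.2 ⟨trivial, (hker₁ y).2 h⟩
      · intro h
        exact (hker₁ y).1 (AddSubgroup.mem_prod.1 h).2) hDmem
    have c3 : Nat.card ((⊤ : AddSubgroup U).prod (⊥ : AddSubgroup U)) = Nat.card U := by
      rw [Nat.card_congr (AddSubgroup.prodEquiv _ _).toEquiv, Nat.card_prod,
        Nat.card_congr AddSubgroup.topEquiv.toEquiv]
      simp
    rw [c1, c2, c3, hcard]
  · intro g y hy
    rw [hL₅] at hy ⊢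
    have := hinv g _ hy
    have e : Ψ (r g y) = (d.ρ g (Ψ y).1, d.ρ' g (Ψ y).2) :=
      Prod.ext (hρa g y).symm (hρa' g y).symm
    rw [e]
    exact this
  · obtain ⟨y, hy⟩ := hΨsurj v
    refine ⟨y, ?_, ?_, ?_⟩
    · rw [hL₅, hy]
      exact hvX
    · intro h
      exact hv0 (by rw [← hy]; exact (hDmem y).1 h)
    · rw [hL₅]
      have e : Ψ (b y) = (v.2, d.θ v.1 + (1 - d.θ) v.2) := by
        apply Prod.ext
        · show a₀ (b y) = v.2
          rw [← hy]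
        · show a₁ (b y) = _
          rw [hb1, ← hy]
      rw [e]
      exact hbv

/-- The class two lemma in its final form. -/
theorem class2_main {E : Type*} [Group E] [Finite E] {p n : ℕ} [Fact p.Prime] (hE : IsPGroup p E)
    {L L₁ T : Subgroup E} [L.Normal] [L₁.Normal]
    (hLab : IsMulCommutative L) (hL₁ab : IsMulCommutative L₁) (hTab : IsMulCommutative T)
    (hsup : L ⊔ L₁ = ⊤) (hDT : L ⊓ L₁ ≤ T) (hTL : T ⊔ L = ⊤) (hTL₁ : T ⊔ L₁ = ⊤)
    (b : MulAut E) (hbn : b ^ p ^ n = 1)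
    (hbL : ∀ y, b y ∈ L₁ ↔ y ∈ L)
    (hbT : ∀ t ∈ T, b t * t⁻¹ ∈ L ⊓ L₁)
    {G : Type*} [Group G] [Finite G] (hG : IsPGroup p G) (r : G →* MulAut E)
    (hrL : ∀ g, ∀ y ∈ L, r g y ∈ L) (hrL₁ : ∀ g, ∀ y ∈ L₁, r g y ∈ L₁)
    (hrb : ∀ g, ∃ h, ∀ y, r g (b y) = b (r h y))
    (hp2 : p = 2 → ∀ y ∈ L₁, b y ∈ L)
    (hne : L ≠ L₁) :
    ∃ L₅ : Subgroup E, L ⊓ L₁ ≤ L₅ ∧ IsMulCommutative L₅ ∧ Nat.card L₅ = Nat.card L ∧
      (∀ g, ∀ y ∈ L₅, r g y ∈ L₅) ∧ ∃ y ∈ L₅, y ∉ L ⊓ L₁ ∧ b y ∈ L₅ := by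
  have hcomm : ∀ a c : E ⧸ L₁, a * c = c * a := by
    rintro ⟨a⟩ ⟨c⟩
    apply QuotientGroup.eq.2
    have h1 := comm_mem_inf_all hLab hL₁ab hsup c⁻¹ a⁻¹
    have h2 : (a * c)⁻¹ * (c * a) = c⁻¹ * a⁻¹ * (c⁻¹)⁻¹ * (a⁻¹)⁻¹ := by group
    rw [h2]
    exact (Subgroup.mem_inf.1 h1).2
  letI inst : CommGroup (E ⧸ L₁) := { (inferInstance : Group (E ⧸ L₁)) with mul_comm := hcomm }
  exact class2_core hE hLab hL₁ab hTab hsup hDT hTL hTL₁ b hbn hbL hbT hG r hrL hrL₁ hrb hp2 hne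
    (U := Additive (E ⧸ L₁)) (fun y => Additive.ofMul (y : E ⧸ L₁)) (fun _ _ => rfl)
    (fun u => by
      obtain ⟨y, hy⟩ := QuotientGroup.mk_surjective (Additive.toMul u)
      exact ⟨y, by
        show Additive.ofMul (y : E ⧸ L₁) = u
        rw [hy]; rfl⟩)
    (fun y => by
      constructor
      · intro h
        exact (QuotientGroup.eq_one_iff y).1 (Additive.ofMul.injective h)
      · intro h
        exact congrArg Additive.ofMul ((QuotientGroup.eq_one_iff y).2 h))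

end Cfsg.Agent.Lib.LocalEven2.CL2
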