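import Cfsg.Agent.Lib.LocalEven2.CL2e
import Cfsg.Agent.Lib.LocalEven2.CDAbelian

/-!
# Moving a minimal centrally large subgroup towards a fixed one
-/

set_option autoImplicit false
set_option linter.unusedSectionVars false

namespace Cfsg.Agent.Lib.LocalEven2.CL2

open Cfsg Cfsg.Agent.Lib.LocalEven2

variable {P : Type*} [Group P]

/-- Conjugation as an automorphism of a subgroup. -/
def conjAut (E : Subgroup P) (g : P) (h₁ : ∀ y ∈ E, g * y * g⁻¹ ∈ E) (h₂ : ∀ y ∈ E, g⁻¹ * y * g ∈ E) :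
    MulAut E where
  toFun y := ⟨g * y * g⁻¹, h₁ y y.2⟩
  invFun y := ⟨g⁻¹ * y * g, h₂ y y.2⟩
  left_inv y := Subtype.ext (by show g⁻¹ * (g * y * g⁻¹) * g = y; group)
  right_inv y := Subtype.ext (by show g * (g⁻¹ * y * g) * g⁻¹ = y; group)
  map_mul' a c := Subtype.ext (by show g * (a * c) * g⁻¹ = (g * a * g⁻¹) * (g * c * g⁻¹); group)

theorem coe_conjAut (E : Subgroup P) (g : P) (h₁ : ∀ y ∈ E, g * y * g⁻¹ ∈ E)
    (h₂ : ∀ y ∈ E, g⁻¹ * y * g ∈ E) (y : E) : ((conjAut E g h₁ h₂ y : E) : P) = g * y * g⁻¹ := rfl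

theorem minimal_of_card [Finite P] {Q R : Subgroup P} (hQ : IsMinimalCentrallyLarge Q)
    (hR : IsCentrallyLarge R) (hc : Nat.card R = Nat.card Q) : IsMinimalCentrallyLarge R := by
  refine ⟨hR, fun R' hle hR' => ?_⟩
  obtain ⟨R₀, h₀, hle₀⟩ := IsMinimalCentrallyLarge.exists_le hR'
  have h1 := (minimal_cl_cards h₀ hQ).1
  have hE : R₀ = R := Subgroup.eq_of_le_of_card_ge (hle₀.trans hle) (by rw [h1, hc])
  exact le_antisymm hle (by rw [← hE]; exact hle₀)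

theorem isCL_conj [Finite P] {Q : Subgroup P} (hQ : IsCentrallyLarge Q) (b : P) :
    IsCentrallyLarge (Q.map (MulAut.conj b).toMonoidHom) := by
  apply isCentrallyLarge_of_large_of_le (isCentralizerLarge_conj (isCentralizerLarge_of_cl hQ) b)
  rw [centralizer_conj_map']
  exact Subgroup.map_mono (centralizer_le_of_cl hQ)

theorem isMin_conj [Finite P] {Q : Subgroup P} (hQ : IsMinimalCentrallyLarge Q) (b : P) :
    IsMinimalCentrallyLarge (Q.map (MulAut.conj b).toMonoidHom) :=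
  minimal_of_card hQ (isCL_conj hQ.1 b) (Cfsg.Agent.Lib.Coprime.card_conj_map Q b)

theorem sup_subgroupOf_top {X Y E : Subgroup P} (hX : X ≤ E) (hY : Y ≤ E) (h : X ⊔ Y = E) :
    X.subgroupOf E ⊔ Y.subgroupOf E = ⊤ := by
  apply Subgroup.map_injective E.subtype_injective
  rw [Subgroup.map_sup, Subgroup.map_subgroupOf_eq_of_le hX, Subgroup.map_subgroupOf_eq_of_le hY, h,
    ← MonoidHom.range_eq_map, Subgroup.range_subtype]

theorem exists_mul_of_mem_sup_normal {E : Type*} [Group E] {B D : Subgroup E} [D.Normal] {t : E}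
    (ht : t ∈ B ⊔ D) : ∃ a ∈ B, ∃ d ∈ D, t = a * d := by
  rw [← SetLike.mem_coe, Subgroup.mul_normal] at ht
  obtain ⟨a, ha, d, hd, rfl⟩ := Set.mem_mul.1 ht
  exact ⟨a, ha, d, hd, rfl⟩

theorem conj_mem_centralizer {X : Subgroup P} {c y : P} (hc : ∀ q ∈ X, c⁻¹ * q * c ∈ X)
    (hy : y ∈ Subgroup.centralizer (X : Set P)) : c * y * c⁻¹ ∈ Subgroup.centralizer (X : Set P) := by
  rw [Subgroup.mem_centralizer_iff] at hy ⊢
  intro q hq
  have h1 := hy _ (hc q hq)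
  calc q * (c * y * c⁻¹) = c * ((c⁻¹ * q * c) * y) * c⁻¹ := by group
    _ = c * (y * (c⁻¹ * q * c)) * c⁻¹ := by rw [h1]
    _ = _ := by group

/-- The main step: a minimal centrally large subgroup moved by `b` can be replaced by another one,
moved less. -/
theorem step_increase [Finite P] {p : ℕ} [Fact p.Prime] (hP : IsPGroup p P) {Q C A : Subgroup P}
    (hQ : IsMinimalCentrallyLarge Q) (hQC : Q ≤ C) (hCN : C ≤ Subgroup.normalizer (Q : Set P))
    {b : P} (hb₁ : ∀ c ∈ C, b * c * b⁻¹ ∈ C) (hb₂ : ∀ c ∈ C, b⁻¹ * c * b ∈ C) (hbp : b ^ p ∈ C)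
    (hAab : IsMulCommutative A) (hbA : ∀ a ∈ A, b * a = a * b)
    (hA : ∀ x ∈ Subgroup.centralizer (Q : Set P), ∃ l ∈ Subgroup.centralizer (Q : Set P), ∃ a ∈ A,
      b * x * b⁻¹ = l * a)
    (hne : Q.map (MulAut.conj b).toMonoidHom ≠ Q) :
    ∃ Q' : Subgroup P, IsMinimalCentrallyLarge Q' ∧ Q' ≤ C ∧ C ≤ Subgroup.normalizer (Q' : Set P) ∧
      Nat.card (Q ⊓ Q.map (MulAut.conj b).toMonoidHom : Subgroup P) <
        Nat.card (Q' ⊓ Q'.map (MulAut.conj b).toMonoidHom : Subgroup P) := by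
  classical
  have hmc := Cfsg.Agent.Lib.Coprime.mem_conj_map (G := P)
  set Q₁ : Subgroup P := Q.map (MulAut.conj b).toMonoidHom with hQ₁def
  have hQ₁ : IsMinimalCentrallyLarge Q₁ := isMin_conj hQ b
  set L : Subgroup P := Subgroup.centralizer (Q : Set P) with hL
  set L₁ : Subgroup P := Subgroup.centralizer (Q₁ : Set P) with hL₁
  have hL₁m : L₁ = L.map (MulAut.conj b).toMonoidHom := centralizer_conj_map' Q b
  have hQl := isCentralizerLarge_of_cl hQ.1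
  have hQ₁l := isCentralizerLarge_of_cl hQ₁.1
  have hLQ : L ≤ Q := centralizer_le_of_cl hQ.1
  have hL₁Q₁ : L₁ ≤ Q₁ := centralizer_le_of_cl hQ₁.1
  have hCC : Subgroup.centralizer (L : Set P) = Q := (large_centralizer hQl).2.symm
  have hCC₁ : Subgroup.centralizer (L₁ : Set P) = Q₁ := (large_centralizer hQ₁l).2.symm
  have hLl : IsCentralizerLarge L := (large_centralizer hQl).1
  have hbc : ∀ x, b * (b⁻¹ * x * b) * b⁻¹ = x := fun x => by group
  have hcb : ∀ x, b⁻¹ * (b * x * b⁻¹) * b = x := fun x => by group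
  have hQ₁C : Q₁ ≤ C := by
    intro y hy
    have h1 := hb₁ _ (hQC ((hmc Q b y).1 hy))
    rwa [hbc] at h1
  -- conjugation by `C`
  have hcq : ∀ c ∈ C, ∀ y ∈ Q, c * y * c⁻¹ ∈ Q := fun c hc y hy =>
    (Subgroup.mem_normalizer_iff.1 (hCN hc) y).1 hy
  have hcq' : ∀ c ∈ C, ∀ y ∈ Q, c⁻¹ * y * c ∈ Q := fun c hc y hy => by
    have := hcq c⁻¹ (C.inv_mem hc) y hy
    rwa [inv_inv] at this
  have hcq₁ : ∀ c ∈ C, ∀ y ∈ Q₁, c * y * c⁻¹ ∈ Q₁ := by
    intro c hc y hy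
    rw [hQ₁def, hmc] at hy ⊢
    have h1 := hcq _ (hb₂ c hc) _ hy
    have e : b⁻¹ * (c * y * c⁻¹) * b = (b⁻¹ * c * b) * (b⁻¹ * y * b) * (b⁻¹ * c * b)⁻¹ := by group
    rw [e]
    exact h1
  have hcq₁' : ∀ c ∈ C, ∀ y ∈ Q₁, c⁻¹ * y * c ∈ Q₁ := fun c hc y hy => by
    have := hcq₁ c⁻¹ (C.inv_mem hc) y hy
    rwa [inv_inv] at this
  have hcL : ∀ c ∈ C, ∀ y ∈ L, c * y * c⁻¹ ∈ L := fun c hc y hy =>
    conj_mem_centralizer (hcq' c hc) hy
  have hcL₁ : ∀ c ∈ C, ∀ y ∈ L₁, c * y * c⁻¹ ∈ L₁ := fun c hc y hy =>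
    conj_mem_centralizer (hcq₁' c hc) hy
  -- `E`, `I`
  set E : Subgroup P := L ⊔ L₁ with hE
  set I : Subgroup P := Q ⊓ Q₁ with hI
  have hLD := largeData hQl hQ₁l
  have hCI : Subgroup.centralizer (I : Set P) = E := hLD.centralizer_inf
  have hCE : Subgroup.centralizer (E : Set P) = I := by
    rw [hE, centralizer_sup', hCC, hCC₁]
  have hJ : I ⊔ L = Q := minimal_cl_join hQ hQ₁.1
  have hJ₁ : I ⊔ L₁ = Q₁ := by
    have := minimal_cl_join hQ₁ hQ.1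
    rwa [inf_comm] at this
  have hLE : L ≤ E := le_sup_left
  have hL₁E : L₁ ≤ E := le_sup_right
  have hIQ : I ≤ Q := inf_le_left
  have hIQ₁ : I ≤ Q₁ := inf_le_right
  have hEI : E ⊓ I ≤ L ⊓ L₁ := by
    intro x hx
    obtain ⟨hx1, hx2⟩ := Subgroup.mem_inf.1 hx
    have hx1' : x ∈ Subgroup.centralizer (I : Set P) := by rw [hCI]; exact hx1
    have hx2' : x ∈ Subgroup.centralizer (E : Set P) := by rw [hCE]; exact hx2
    refine Subgroup.mem_inf.2 ⟨?_, ?_⟩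
    · show x ∈ Subgroup.centralizer (Q : Set P)
      rw [← hJ, centralizer_sup']
      exact Subgroup.mem_inf.2 ⟨hx1', Subgroup.centralizer_le (SetLike.coe_subset_coe.2 hLE) hx2'⟩
    · show x ∈ Subgroup.centralizer (Q₁ : Set P)
      rw [← hJ₁, centralizer_sup']
      exact Subgroup.mem_inf.2 ⟨hx1', Subgroup.centralizer_le (SetLike.coe_subset_coe.2 hL₁E) hx2'⟩
  have hDI : L ⊓ L₁ ≤ I := le_inf (inf_le_left.trans hLQ) (inf_le_right.trans hL₁Q₁)
  have hDE : L ⊓ L₁ ≤ E := inf_le_left.trans hLE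
  have hEC : E ≤ C := sup_le (hLQ.trans hQC) (hL₁Q₁.trans hQ₁C)
  -- abelian
  have hLab : ∀ a ∈ L, ∀ c ∈ L, a * c = c * a := fun a ha c hc =>
    (Subgroup.mem_centralizer_iff.1 hc a (hLQ ha))
  have hL₁ab : ∀ a ∈ L₁, ∀ c ∈ L₁, a * c = c * a := fun a ha c hc =>
    (Subgroup.mem_centralizer_iff.1 hc a (hL₁Q₁ ha))
  -- normality in `E`
  have hnL : E ≤ Subgroup.normalizer (L : Set P) := by
    apply sup_le Subgroup.le_normalizer
    intro m hm
    exact Cfsg.Agent.Lib.Coprime.mem_normalizer_of_conj_le L m (hcL m (hQ₁C (hL₁Q₁ hm)))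
  have hnL₁ : E ≤ Subgroup.normalizer (L₁ : Set P) := by
    apply sup_le _ Subgroup.le_normalizer
    intro m hm
    exact Cfsg.Agent.Lib.Coprime.mem_normalizer_of_conj_le L₁ m (hcL₁ m (hQC (hLQ hm)))
  set L' : Subgroup E := L.subgroupOf E with hL'
  set L₁' : Subgroup E := L₁.subgroupOf E with hL₁'
  haveI hN : L'.Normal := (Subgroup.normal_subgroupOf_iff_le_normalizer hLE).2 hnL
  haveI hN₁ : L₁'.Normal := (Subgroup.normal_subgroupOf_iff_le_normalizer hL₁E).2 hnL₁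
  have hmL' : ∀ y : E, y ∈ L' ↔ (y : P) ∈ L := fun y => Subgroup.mem_subgroupOf
  have hmL₁' : ∀ y : E, y ∈ L₁' ↔ (y : P) ∈ L₁ := fun y => Subgroup.mem_subgroupOf
  have hL'ab : IsMulCommutative L' := ⟨⟨fun a c => Subtype.ext (Subtype.ext
    (hLab _ ((hmL' _).1 a.2) _ ((hmL' _).1 c.2)))⟩⟩
  have hL₁'ab : IsMulCommutative L₁' := ⟨⟨fun a c => Subtype.ext (Subtype.ext
    (hL₁ab _ ((hmL₁' _).1 a.2) _ ((hmL₁' _).1 c.2)))⟩⟩
  have hsup' : L' ⊔ L₁' = ⊤ := sup_subgroupOf_top hLE hL₁E rfl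
  -- decomposition via `A`
  have hmL₁ : ∀ y, y ∈ L₁ ↔ b⁻¹ * y * b ∈ L := by
    intro y
    rw [hL₁m, hmc]
  have hLB : ∀ y : E, ∃ l ∈ L, ∃ a ∈ A, a ∈ E ∧ (y : P) = l * a := by
    intro y
    obtain ⟨l, hl, m, hm, hy⟩ := exists_mul_of_sup_top hsup' y
    have hm' := (hmL₁' m).1 hm
    obtain ⟨l₂, hl₂, a, ha, he⟩ := hA _ ((hmL₁ _).1 hm')
    rw [hbc] at he
    have hl' := (hmL' l).1 hl
    have haE : a ∈ E := by
      have : a = l₂⁻¹ * (m : P) := by rw [he]; group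
      rw [this]
      exact E.mul_mem (E.inv_mem (hLE hl₂)) m.2
    refine ⟨l * l₂, L.mul_mem hl' hl₂, a, ha, haE, ?_⟩
    have := congrArg Subtype.val hy
    rw [this]
    show (l : P) * (m : P) = _
    rw [he]
    group
  have hbE₁ : ∀ y ∈ E, b * y * b⁻¹ ∈ E := by
    intro y hy
    obtain ⟨l, hl, a, ha, haE, he⟩ := hLB ⟨y, hy⟩
    have he' : y = l * a := he
    have hba : b * a * b⁻¹ = a := by rw [hbA a ha]; group
    have : b * y * b⁻¹ = (b * l * b⁻¹) * (b * a * b⁻¹) := by rw [he']; group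
    rw [this, hba]
    refine E.mul_mem (hL₁E ?_) haE
    rw [hmL₁, hcb]
    exact hl
  have hbE : b ∈ Subgroup.normalizer (E : Set P) :=
    Cfsg.Agent.Lib.Coprime.mem_normalizer_of_conj_le E b hbE₁
  have hbE₂ : ∀ y ∈ E, b⁻¹ * y * b ∈ E := by
    intro y hy
    have := (Subgroup.mem_normalizer_iff.1 (Subgroup.inv_mem _ hbE) y).1 hy
    rwa [inv_inv] at this
  let bh : MulAut E := conjAut E b hbE₁ hbE₂
  have hbh : ∀ y : E, ((bh y : E) : P) = b * y * b⁻¹ := fun _ => rfl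
  -- the centre of `E`
  have hDcen : ∀ z : E, z ∈ Subgroup.center E ↔ z ∈ L' ⊓ L₁' := by
    intro z
    constructor
    · intro hz
      have h1 : (z : P) ∈ Subgroup.centralizer (E : Set P) := by
        rw [Subgroup.mem_centralizer_iff]
        intro g hg
        exact congrArg Subtype.val (Subgroup.mem_center_iff.1 hz ⟨g, hg⟩)
      rw [hCE] at h1
      have h2 := hEI (Subgroup.mem_inf.2 ⟨z.2, h1⟩)
      obtain ⟨h3, h4⟩ := Subgroup.mem_inf.1 h2
      exact Subgroup.mem_inf.2 ⟨(hmL' z).2 h3, (hmL₁' z).2 h4⟩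
    · intro hz
      exact inf_le_center' hL'ab hL₁'ab hsup' hz
  have hbhcen : ∀ z : E, bh z ∈ Subgroup.center E ↔ z ∈ Subgroup.center E := by
    intro z
    constructor
    · intro h
      rw [Subgroup.mem_center_iff] at h ⊢
      intro g
      have h1 := h (bh g)
      rw [← map_mul, ← map_mul] at h1
      exact bh.injective h1
    · intro h
      rw [Subgroup.mem_center_iff] at h ⊢
      intro g
      obtain ⟨g', rfl⟩ := bh.surjective g
      rw [← map_mul, ← map_mul, h g']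
  have hbhD : ∀ z : E, bh z ∈ L' ⊓ L₁' ↔ z ∈ L' ⊓ L₁' := by
    intro z
    rw [← hDcen, ← hDcen, hbhcen]
  -- the subgroup `T`
  set B' : Subgroup E := A.subgroupOf E with hB'
  set D' : Subgroup E := L' ⊓ L₁' with hD'
  have hcenD : ∀ z ∈ D', ∀ g : E, g * z = z * g := fun z hz g =>
    Subgroup.mem_center_iff.1 ((hDcen z).2 hz) g
  set T' : Subgroup E := B' ⊔ D' with hT'
  have hB'm : ∀ y : E, y ∈ B' ↔ (y : P) ∈ A := fun y => Subgroup.mem_subgroupOf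
  have hTab : IsMulCommutative T' := by
    refine ⟨⟨fun s t => Subtype.ext ?_⟩⟩
    obtain ⟨a, ha, d, hd, hs⟩ := exists_mul_of_mem_sup_normal s.2
    obtain ⟨a', ha', d', hd', ht⟩ := exists_mul_of_mem_sup_normal t.2
    show (s : E) * (t : E) = (t : E) * (s : E)
    rw [hs, ht]
    have hc0 : (a : P) * a' = a' * a := congrArg Subtype.val
      (hAab.is_comm.comm (⟨a, (hB'm a).1 ha⟩ : A) ⟨a', (hB'm a').1 ha'⟩)
    have hc : a * a' = a' * a := Subtype.ext hc0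
    calc a * d * (a' * d') = a * (d * a') * d' := by group
      _ = a * (a' * d) * d' := by rw [← hcenD d hd a']
      _ = (a * a') * d * d' := by group
      _ = (a' * a) * d * d' := by rw [hc]
      _ = a' * (a * d) * d' := by group
      _ = a' * (a * d * d') := by group
      _ = a' * (d' * (a * d)) := by rw [mul_assoc a, ← hcenD d' hd' (a * d)]; group
      _ = _ := by group
  have hDT : D' ≤ T' := le_sup_right
  have hTL : T' ⊔ L' = ⊤ := by
    rw [eq_top_iff]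
    intro y _
    obtain ⟨l, hl, a, ha, haE, he⟩ := hLB y
    have e : y = (⟨l, hLE hl⟩ : E) * (⟨a, haE⟩ : E) := Subtype.ext he
    rw [e]
    exact Subgroup.mul_mem _ (Subgroup.mem_sup_right ((hmL' _).2 hl))
      (Subgroup.mem_sup_left (Subgroup.mem_sup_left ((hB'm _).2 ha)))
  have hbha : ∀ y : E, (y : P) ∈ A → bh y = y := by
    intro y hy
    apply Subtype.ext
    show b * (y : P) * b⁻¹ = y
    rw [hbA _ hy]
    group
  have hbL : ∀ y : E, bh y ∈ L₁' ↔ y ∈ L' := by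
    intro y
    rw [hmL₁', hmL', hmL₁, hbh, hcb]
  have hTL₁ : T' ⊔ L₁' = ⊤ := by
    rw [eq_top_iff]
    intro y _
    obtain ⟨y₀, rfl⟩ := bh.surjective y
    obtain ⟨l, hl, a, ha, haE, he⟩ := hLB y₀
    have e : y₀ = (⟨l, hLE hl⟩ : E) * (⟨a, haE⟩ : E) := Subtype.ext he
    rw [e, map_mul]
    refine Subgroup.mul_mem _ (Subgroup.mem_sup_right ((hbL _).2 ((hmL' _).2 hl))) ?_
    rw [hbha _ ha]
    exact Subgroup.mem_sup_left (Subgroup.mem_sup_left ((hB'm _).2 ha))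
  obtain ⟨n, hn⟩ := hP b
  have hbhk : ∀ (k : ℕ) (y : E), (((bh ^ k) y : E) : P) = b ^ k * y * (b ^ k)⁻¹ := by
    intro k y
    induction k with
    | zero => simp
    | succ k ih =>
      rw [pow_succ', pow_succ']
      show b * (((bh ^ k) y : E) : P) * b⁻¹ = _
      rw [ih]
      group
  have hbn : bh ^ p ^ n = 1 := by
    apply MulEquiv.ext
    intro y
    apply Subtype.ext
    rw [hbhk, hn]
    simp
  have hbT : ∀ t ∈ T', bh t * t⁻¹ ∈ L' ⊓ L₁' := by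
    intro t ht
    obtain ⟨a, ha, d, hd, rfl⟩ := exists_mul_of_mem_sup_normal ht
    rw [map_mul, hbha a ((hB'm a).1 ha)]
    have hz : bh d * d⁻¹ ∈ D' := D'.mul_mem ((hbhD d).2 hd) (D'.inv_mem hd)
    have e : a * bh d * (a * d)⁻¹ = a * (bh d * d⁻¹) * a⁻¹ := by group
    rw [e, hcenD _ hz a]
    have e2 : (bh d * d⁻¹) * a * a⁻¹ = bh d * d⁻¹ := by group
    rw [e2]
    exact hz
  -- the action of `C`
  have hcEl : ∀ c ∈ C, E ≤ E.comap (MulAut.conj c).toMonoidHom := fun c hc =>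
    sup_le (fun y hy => hLE (hcL c hc y hy)) (fun y hy => hL₁E (hcL₁ c hc y hy))
  have hcE : ∀ c ∈ C, ∀ y ∈ E, c * y * c⁻¹ ∈ E := fun c hc y hy => hcEl c hc hy
  have hcE' : ∀ c ∈ C, ∀ y ∈ E, c⁻¹ * y * c ∈ E := fun c hc y hy => by
    have := hcE c⁻¹ (C.inv_mem hc) y hy
    rwa [inv_inv] at this
  let r : C →* MulAut E := MonoidHom.mk' (fun c => conjAut E c.1 (hcE c.1 c.2) (hcE' c.1 c.2)) (by
    intro c c'
    apply MulEquiv.ext
    intro y
    apply Subtype.ext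
    show ((c : P) * c') * y * ((c : P) * c')⁻¹ = (c : P) * ((c' : P) * y * (c' : P)⁻¹) * (c : P)⁻¹
    group)
  have hr : ∀ (c : C) (y : E), ((r c y : E) : P) = (c : P) * y * (c : P)⁻¹ := fun _ _ => rfl
  have hrL : ∀ g, ∀ y ∈ L', r g y ∈ L' := fun g y hy =>
    (hmL' _).2 (hcL g g.2 y ((hmL' _).1 hy))
  have hrL₁ : ∀ g, ∀ y ∈ L₁', r g y ∈ L₁' := fun g y hy =>
    (hmL₁' _).2 (hcL₁ g g.2 y ((hmL₁' _).1 hy))
  have hrb : ∀ g, ∃ h, ∀ y, r g (bh y) = bh (r h y) := by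
    intro g
    refine ⟨⟨b⁻¹ * g * b, hb₂ g g.2⟩, fun y => Subtype.ext ?_⟩
    show (g : P) * (b * y * b⁻¹) * (g : P)⁻¹ = b * ((b⁻¹ * g * b) * y * (b⁻¹ * g * b)⁻¹) * b⁻¹
    group
  have hp2 : p = 2 → ∀ y ∈ L₁', bh y ∈ L' := by
    intro hp y hy
    rw [hp] at hbp
    apply (hmL' _).2
    rw [hbh]
    have hx := (hmL₁ _).1 ((hmL₁' _).1 hy)
    have h1 := hcL _ hbp _ hx
    have e : b ^ 2 * (b⁻¹ * (y : P) * b) * (b ^ 2)⁻¹ = b * y * b⁻¹ := by
      rw [pow_two]; group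
    rwa [e] at h1
  have hne' : L' ≠ L₁' := by
    intro h
    have h1 : L = L₁ := by
      rw [← Subgroup.map_subgroupOf_eq_of_le hLE, ← Subgroup.map_subgroupOf_eq_of_le hL₁E]
      exact congrArg _ h
    apply hne
    show Q₁ = Q
    rw [← hCC, ← hCC₁, h1]
  obtain ⟨L₅', hD5, hab5, hcard5, hinv5, y, hy5, hyD, hby5⟩ :=
    class2_main (hP.to_subgroup E) hL'ab hL₁'ab hTab hsup' hDT hTL hTL₁ bh hbn hbL hbT
      (hP.to_subgroup C) r hrL hrL₁ hrb hp2 hne'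
  -- back in `P`
  set L₅ : Subgroup P := L₅'.map E.subtype with hL₅
  have hL₅sub : ∀ z : E, z ∈ L₅' → (z : P) ∈ L₅ := fun z hz => ⟨z, hz, rfl⟩
  have hL₅E : L₅ ≤ E := by
    rintro _ ⟨z, _, rfl⟩
    exact z.2
  have hL₅ab : ∀ x ∈ L₅, ∀ w ∈ L₅, x * w = w * x := by
    rintro _ ⟨z, hz, rfl⟩ _ ⟨z', hz', rfl⟩
    exact congrArg Subtype.val (congrArg Subtype.val (hab5.is_comm.comm (⟨z, hz⟩ : L₅') ⟨z', hz'⟩))
  have hcardL₅ : Nat.card L₅ = Nat.card L := by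
    rw [hL₅, Subgroup.card_subtype, hcard5]
    exact Nat.card_congr (Subgroup.subgroupOfEquivOfLe hLE).toEquiv
  have hDL₅ : L ⊓ L₁ ≤ L₅ := by
    intro x hx
    obtain ⟨h1, h2⟩ := Subgroup.mem_inf.1 hx
    exact hL₅sub ⟨x, hDE hx⟩ (hD5 (Subgroup.mem_inf.2 ⟨(hmL' _).2 h1, (hmL₁' _).2 h2⟩))
  have hIL₅ : I ⊓ L₅ = L ⊓ L₁ := by
    apply le_antisymm _ (le_inf hDI hDL₅)
    intro x hx
    obtain ⟨h1, h2⟩ := Subgroup.mem_inf.1 hx
    exact hEI (Subgroup.mem_inf.2 ⟨hL₅E h2, h1⟩)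
  have hIL : I ⊓ L = L ⊓ L₁ := by
    apply le_antisymm _ (le_inf hDI inf_le_left)
    intro x hx
    obtain ⟨h1, h2⟩ := Subgroup.mem_inf.1 hx
    exact hEI (Subgroup.mem_inf.2 ⟨hLE h2, h1⟩)
  set Q₅ : Subgroup P := I ⊔ L₅ with hQ₅
  have hL₅Z : L₅ ≤ Subgroup.centralizer (Q₅ : Set P) := by
    rw [hQ₅, centralizer_sup', hCI]
    refine le_inf hL₅E ?_
    intro x hx
    rw [Subgroup.mem_centralizer_iff]
    intro w hw
    exact hL₅ab w hw x hx
  have hc1 := card_mul_card_le I L₅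
  rw [hIL₅, hcardL₅] at hc1
  have hc2 := (largeData hLD.inf_large hLl).card_eq
  rw [hJ, hIL] at hc2
  have hDpos : 0 < Nat.card (L ⊓ L₁ : Subgroup P) := Nat.card_pos
  have hQle : Nat.card Q ≤ Nat.card Q₅ := by
    apply Nat.le_of_mul_le_mul_right _ hDpos
    rw [← hc2]
    exact hc1
  have hFQ := isCentrallyLarge_iff.1 hQ.1
  have hFQv : cdF Q = Nat.card Q * Nat.card L := by
    unfold cdF
    rw [inf_eq_right.2 hLQ]
  have hFQ₅ : Nat.card Q₅ * Nat.card L ≤ cdF Q₅ := by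
    unfold cdF
    apply Nat.mul_le_mul_left
    rw [← hcardL₅]
    exact Subgroup.card_le_of_le (le_inf le_sup_right hL₅Z)
  have hLpos : 0 < Nat.card L := Nat.card_pos
  have hQ₅le : Nat.card Q₅ ≤ Nat.card Q := by
    apply Nat.le_of_mul_le_mul_right _ hLpos
    rw [← hFQv]
    exact hFQ₅.trans (hFQ Q₅)
  have hQ₅c : Nat.card Q₅ = Nat.card Q := le_antisymm hQ₅le hQle
  have hQ₅CL : IsCentrallyLarge Q₅ := by
    apply isCentrallyLarge_iff.2
    intro X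
    refine (hFQ X).trans ?_
    rw [hFQv, ← hQ₅c]
    exact hFQ₅
  have hQ₅min : IsMinimalCentrallyLarge Q₅ := minimal_of_card hQ hQ₅CL hQ₅c
  refine ⟨Q₅, hQ₅min, sup_le (hIQ.trans hQC) (hL₅E.trans hEC), ?_, ?_⟩
  · intro c hc
    apply Cfsg.Agent.Lib.Coprime.mem_normalizer_of_conj_le
    have hle : Q₅ ≤ Q₅.comap (MulAut.conj c).toMonoidHom := by
      apply sup_le
      · intro x hx
        exact Subgroup.mem_sup_left (Subgroup.mem_inf.2 ⟨hcq c hc x (hIQ hx), hcq₁ c hc x (hIQ₁ hx)⟩)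
      · rintro _ ⟨z, hz, rfl⟩
        exact Subgroup.mem_sup_right (hL₅sub _ (hinv5 ⟨c, hc⟩ z hz))
    exact fun x hx => hle hx
  · have hIb : ∀ x ∈ I, b⁻¹ * x * b ∈ I := by
      intro x hx
      rw [← hCE, Subgroup.mem_centralizer_iff]
      intro g hg
      have h1 : x ∈ Subgroup.centralizer (E : Set P) := by rw [hCE]; exact hx
      have h2 := Subgroup.mem_centralizer_iff.1 h1 _ (hbE₁ g hg)
      calc g * (b⁻¹ * x * b) = b⁻¹ * ((b * g * b⁻¹) * x) * b := by group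
        _ = b⁻¹ * (x * (b * g * b⁻¹)) * b := by rw [h2]
        _ = _ := by group
    have hle : I ≤ Q₅ ⊓ Q₅.map (MulAut.conj b).toMonoidHom := by
      refine le_inf le_sup_left ?_
      intro x hx
      rw [hmc]
      exact Subgroup.mem_sup_left (hIb x hx)
    set z : P := ((bh y : E) : P) with hz
    have hzQ : z ∈ Q₅ := Subgroup.mem_sup_right (hL₅sub _ hby5)
    have hzQb : z ∈ Q₅.map (MulAut.conj b).toMonoidHom := by
      rw [hmc, hz, hbh, hcb]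
      exact Subgroup.mem_sup_right (hL₅sub _ hy5)
    have hzI : z ∉ I := by
      intro h
      have h1 := hEI (Subgroup.mem_inf.2 ⟨(bh y).2, h⟩)
      obtain ⟨h2, h3⟩ := Subgroup.mem_inf.1 h1
      exact hyD ((hbhD y).1 (Subgroup.mem_inf.2 ⟨(hmL' _).2 h2, (hmL₁' _).2 h3⟩))
    by_contra hcon
    have heq := Subgroup.eq_of_le_of_card_ge hle (not_lt.1 hcon)
    apply hzI
    rw [heq]
    exact Subgroup.mem_inf.2 ⟨hzQ, hzQb⟩

end Cfsg.Agent.Lib.LocalEven2.CL2
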