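import Cfsg.Agent.Lib.LocalEven2.CL2f

/-!
# A minimal centrally large subgroup normalized by `J(P)` and `P_MCL`
-/

set_option autoImplicit false
set_option linter.unusedSectionVars false

namespace Cfsg.Agent.Lib.LocalEven2.CL2

open Cfsg Cfsg.Agent.Lib.LocalEven2

variable {P : Type*} [Group P]

/-- The hypothesis on `b` used in the step. -/
def HB (b : P) : Prop :=
  ∃ A : Subgroup P, IsMulCommutative A ∧ (∀ a ∈ A, b * a = a * b) ∧
    ∀ Q' : Subgroup P, IsMinimalCentrallyLarge Q' → ∀ x ∈ Subgroup.centralizer (Q' : Set P),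
      ∃ l ∈ Subgroup.centralizer (Q' : Set P), ∃ a ∈ A, b * x * b⁻¹ = l * a

theorem hb_of_maxAbelian [Finite P] {A : Subgroup P} (hA : A ∈ maxAbelianSubgroups P) {b : P} (hb : b ∈ A) :
    HB b := by
  have hAab := hA.1
  have hcA : ∀ a ∈ A, ∀ c ∈ A, a * c = c * a := fun a ha c hc =>
    congrArg Subtype.val (hAab.is_comm.comm (⟨a, ha⟩ : A) ⟨c, hc⟩)
  refine ⟨A, hAab, fun a ha => hcA b hb a ha, fun Q' hQ' x hx => ?_⟩
  have hD := clAbelianData hQ'.1 hA
  have hxQ : x ∈ Q' := centralizer_le_of_cl hQ'.1 hx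
  set z := b * x * b⁻¹ with hz
  have hzm : z ∈ Q' ⊔ A :=
    Subgroup.mul_mem _ (Subgroup.mul_mem _ (Subgroup.mem_sup_right hb) (Subgroup.mem_sup_left hxQ))
      (Subgroup.inv_mem _ (Subgroup.mem_sup_right hb))
  obtain ⟨q, hq, a, ha, hza⟩ := exists_mul_of_card_eq hD.card_eq hzm
  have hqc : q ∈ Subgroup.centralizer ((Q' ⊓ A : Subgroup P) : Set P) := by
    rw [Subgroup.mem_centralizer_iff]
    intro w hw
    obtain ⟨hw1, hw2⟩ := Subgroup.mem_inf.1 hw
    have h1 : w * x = x * w := Subgroup.mem_centralizer_iff.1 hx w hw1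
    have h2 : w * b = b * w := hcA w hw2 b hb
    have h3 : w * a = a * w := hcA w hw2 a ha
    have h4 : w * z = z * w := by
      rw [hz]
      calc w * (b * x * b⁻¹) = (w * b) * x * b⁻¹ := by group
        _ = b * (w * x) * b⁻¹ := by rw [h2]; group
        _ = b * x * (w * b⁻¹) := by rw [h1]; group
        _ = b * x * (b⁻¹ * w) := by
            congr 1
            calc w * b⁻¹ = b⁻¹ * (b * w) * b⁻¹ := by group
              _ = b⁻¹ * (w * b) * b⁻¹ := by rw [h2]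
              _ = _ := by group
        _ = _ := by group
    have hq' : q = z * a⁻¹ := by rw [hza]; group
    rw [hq']
    calc w * (z * a⁻¹) = (w * z) * a⁻¹ := by group
      _ = z * (w * a⁻¹) := by rw [h4]; group
      _ = z * (a⁻¹ * w) := by
          congr 1
          calc w * a⁻¹ = a⁻¹ * (a * w) * a⁻¹ := by group
            _ = a⁻¹ * (w * a) * a⁻¹ := by rw [h3]
            _ = _ := by group
      _ = _ := by group
  have hqm := hD.centralizer_le (Subgroup.mem_inf.2 ⟨hq, hqc⟩)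
  have hcomm : ∀ u ∈ Q' ⊓ Subgroup.centralizer (Q' : Set P), ∀ v ∈ Q' ⊓ A, u * v = v * u := by
    intro u hu v hv
    exact (Subgroup.mem_centralizer_iff.1 (Subgroup.mem_inf.1 hu).2 v (Subgroup.mem_inf.1 hv).1).symm
  obtain ⟨l, hl, i, hi, hqe⟩ := Cfsg.Agent.Lib.Components.exists_mul_of_mem_sup_of_commutes hcomm hqm
  refine ⟨l, (Subgroup.mem_inf.1 hl).2, i * a, A.mul_mem (Subgroup.mem_inf.1 hi).2 ha, ?_⟩
  rw [hza, hqe, mul_assoc]

theorem hb_of_minCL [Finite P] {R : Subgroup P} (hR : IsMinimalCentrallyLarge R) {b : P} (hb : b ∈ R) :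
    HB b := by
  have hRl := isCentralizerLarge_of_cl hR.1
  have hCR : Subgroup.centralizer (R : Set P) ≤ R := centralizer_le_of_cl hR.1
  refine ⟨Subgroup.centralizer (R : Set P), ⟨⟨fun a c => Subtype.ext ?_⟩⟩, fun a ha => ?_, fun Q' hQ' x hx => ?_⟩
  · exact Subgroup.mem_centralizer_iff.1 c.2 a.1 (hCR a.2)
  · exact Subgroup.mem_centralizer_iff.1 ha b hb
  · have hj := minimal_cl_join hR hQ'.1
    have hcomm : ∀ u ∈ R ⊓ Q', ∀ v ∈ Subgroup.centralizer (R : Set P), u * v = v * u := by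
      intro u hu v hv
      exact Subgroup.mem_centralizer_iff.1 hv u (Subgroup.mem_inf.1 hu).1
    have hbm : b ∈ (R ⊓ Q') ⊔ Subgroup.centralizer (R : Set P) := by rw [hj]; exact hb
    obtain ⟨c, hc, z, hz, hbe⟩ := Cfsg.Agent.Lib.Components.exists_mul_of_mem_sup_of_commutes hcomm hbm
    have hcz : c * z = z * c := hcomm c hc z hz
    have hcx : c * x = x * c := Subgroup.mem_centralizer_iff.1 hx c (Subgroup.mem_inf.1 hc).2
    have e : b * x * b⁻¹ = z * x * z⁻¹ := by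
      have h1 : b = z * c := by rw [hbe, hcz]
      rw [h1]
      calc z * c * x * (z * c)⁻¹ = z * (c * x) * c⁻¹ * z⁻¹ := by group
        _ = z * (x * c) * c⁻¹ * z⁻¹ := by rw [hcx]
        _ = _ := by group
    have hQl := isCentralizerLarge_of_cl hQ'.1
    have hD := largeData (large_centralizer hQl).1 (large_centralizer hRl).1
    have hwm : z * x * z⁻¹ ∈ Subgroup.centralizer (Q' : Set P) ⊔ Subgroup.centralizer (R : Set P) :=
      Subgroup.mul_mem _ (Subgroup.mul_mem _ (Subgroup.mem_sup_right hz) (Subgroup.mem_sup_left hx))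
        (Subgroup.inv_mem _ (Subgroup.mem_sup_right hz))
    obtain ⟨l, hl, a, ha, hle⟩ := exists_mul_of_card_eq hD.card_eq hwm
    exact ⟨l, hl, a, ha, by rw [e, hle]⟩

/-- A fixed point for one more element. -/
theorem step_fixed [Finite P] {p : ℕ} [Fact p.Prime] (hP : IsPGroup p P) {Q C : Subgroup P}
    (hQ : IsMinimalCentrallyLarge Q) (hQC : Q ≤ C) (hCN : C ≤ Subgroup.normalizer (Q : Set P))
    {b : P} (hb₁ : ∀ c ∈ C, b * c * b⁻¹ ∈ C) (hb₂ : ∀ c ∈ C, b⁻¹ * c * b ∈ C) (hbp : b ^ p ∈ C)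
    (hb : HB b) :
    ∃ Q' : Subgroup P, IsMinimalCentrallyLarge Q' ∧ Q' ≤ C ∧ C ≤ Subgroup.normalizer (Q' : Set P) ∧
      b ∈ Subgroup.normalizer (Q' : Set P) := by
  obtain ⟨A, hAab, hbA, hA⟩ := hb
  set F : Set (Subgroup P) := {Q' | IsMinimalCentrallyLarge Q' ∧ Q' ≤ C ∧ C ≤ Subgroup.normalizer (Q' : Set P)} with hF
  obtain ⟨Q', hQ', hmax⟩ := Set.exists_max_image F
    (fun Q' => Nat.card (Q' ⊓ Q'.map (MulAut.conj b).toMonoidHom : Subgroup P)) (Set.toFinite _)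
    ⟨Q, hQ, hQC, hCN⟩
  refine ⟨Q', hQ'.1, hQ'.2.1, hQ'.2.2, ?_⟩
  by_contra hcon
  have hne : Q'.map (MulAut.conj b).toMonoidHom ≠ Q' := by
    intro h
    apply hcon
    rw [← Cfsg.Agent.Lib.Coprime.conj_map_eq_iff_mem_normalizer]
    exact h
  obtain ⟨Q'', h1, h2, h3, h4⟩ := step_increase hP hQ'.1 hQ'.2.1 hQ'.2.2 hb₁ hb₂ hbp hAab hbA (hA Q' hQ'.1) hne
  exact absurd (hmax Q'' ⟨h1, h2, h3⟩) (not_le.2 h4)

/-- Growth of normalizers in a `p`-group. -/
theorem exists_normalizing {p : ℕ} [Finite P] (hP : IsPGroup p P) [Fact p.Prime] {X W : Subgroup P}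
    (hXW : X ≤ W) (hne : X ≠ W) : ∃ y ∈ W, y ∉ X ∧ y ∈ Subgroup.normalizer (X : Set P) := by
  haveI : Group.IsNilpotent W := (hP.to_subgroup W).isNilpotent
  have hlt : X.subgroupOf W < ⊤ := by
    apply lt_top_iff_ne_top.2
    intro h
    apply hne
    apply le_antisymm hXW
    intro y hy
    have : (⟨y, hy⟩ : W) ∈ X.subgroupOf W := by rw [h]; trivial
    exact this
  have hc := Group.normalizerCondition_of_isNilpotent (G := W) _ hlt
  obtain ⟨y, hy, hy'⟩ := SetLike.exists_of_lt hc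
  refine ⟨y, y.2, fun h => hy' h, ?_⟩
  rw [Subgroup.mem_normalizer_iff]
  intro u
  constructor
  · intro hu
    have hu' : u ∈ W := hXW hu
    have := (Subgroup.mem_normalizer_iff.1 hy ⟨u, hu'⟩).1 hu
    exact this
  · intro hu
    have hyu : (y : P)⁻¹ * ((y : P) * u * (y : P)⁻¹) * y = u := by group
    have hW : (y : P) * u * (y : P)⁻¹ ∈ W := hXW hu
    by_cases hu' : u ∈ W
    · exact (Subgroup.mem_normalizer_iff.1 hy ⟨u, hu'⟩).2 hu
    · exfalso
      apply hu'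
      rw [← hyu]
      exact W.mul_mem (W.mul_mem (W.inv_mem y.2) hW) y.2

/-- Extending a good subgroup by a subgroup `B` consisting of good elements. -/
theorem chain [Finite P] {p : ℕ} [Fact p.Prime] (hP : IsPGroup p P) {C₀ B : Subgroup P}
    (hB : ∀ b ∈ B, HB b) (hprod : ∀ x ∈ C₀ ⊔ B, ∃ c ∈ C₀, ∃ b ∈ B, x = c * b)
    (h₀ : ∃ Q : Subgroup P, IsMinimalCentrallyLarge Q ∧ Q ≤ C₀ ∧ C₀ ≤ Subgroup.normalizer (Q : Set P)) :
    ∃ Q : Subgroup P, IsMinimalCentrallyLarge Q ∧ Q ≤ C₀ ⊔ B ∧ C₀ ⊔ B ≤ Subgroup.normalizer (Q : Set P) := by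
  set W := C₀ ⊔ B with hW
  set S : Set (Subgroup P) := {X | C₀ ≤ X ∧ X ≤ W ∧ ∃ Q : Subgroup P, IsMinimalCentrallyLarge Q ∧ Q ≤ X ∧
    X ≤ Subgroup.normalizer (Q : Set P)} with hS
  obtain ⟨Q₀, h1, h2, h3⟩ := h₀
  obtain ⟨X, hX, hmax⟩ := (Set.toFinite S).exists_maximal ⟨C₀, le_rfl, le_sup_left, Q₀, h1, h2, h3⟩
  obtain ⟨hX0, hXW, Q, hQ, hQX, hXN⟩ := hX
  by_cases hXe : X = W
  · exact ⟨Q, hQ, hXe ▸ hQX, hXe ▸ hXN⟩
  exfalso
  obtain ⟨y, hyW, hyX, hyN⟩ := exists_normalizing hP hXW hXe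
  obtain ⟨c, hc, b', hb', hye⟩ := hprod y hyW
  have hb'e : b' = c⁻¹ * y := by rw [hye]; group
  have hcN : c ∈ Subgroup.normalizer (X : Set P) := Subgroup.le_normalizer (hX0 hc)
  have hb'N : b' ∈ Subgroup.normalizer (X : Set P) := by
    rw [hb'e]
    exact Subgroup.mul_mem _ (Subgroup.inv_mem _ hcN) hyN
  have hb'X : b' ∉ X := by
    intro h
    apply hyX
    rw [hye]
    exact X.mul_mem (hX0 hc) h
  -- pass to a power
  obtain ⟨n, hn⟩ := hP b'
  have hex : ∃ n : ℕ, b' ^ p ^ n ∈ X := ⟨n, by rw [hn]; exact X.one_mem⟩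
  classical
  have hspec := Nat.find_spec hex
  have hne0 : Nat.find hex ≠ 0 := by
    intro h0
    rw [h0, pow_zero, pow_one] at hspec
    exact hb'X hspec
  obtain ⟨k, hk⟩ := Nat.exists_eq_succ_of_ne_zero hne0
  have hkn : b' ^ p ^ k ∉ X := Nat.find_min hex (by omega)
  set b := b' ^ p ^ k with hb
  have hbB : b ∈ B := B.pow_mem hb' _
  have hbN : b ∈ Subgroup.normalizer (X : Set P) := Subgroup.pow_mem _ hb'N _
  have hbp : b ^ p ∈ X := by
    rw [hk] at hspec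
    have e : b ^ p = b' ^ p ^ (k + 1) := by rw [hb, ← pow_mul, pow_succ]
    rw [e]
    exact hspec
  have hb₁ : ∀ x ∈ X, b * x * b⁻¹ ∈ X := fun x hx => (Subgroup.mem_normalizer_iff.1 hbN x).1 hx
  have hb₂ : ∀ x ∈ X, b⁻¹ * x * b ∈ X := fun x hx => by
    have := (Subgroup.mem_normalizer_iff.1 (Subgroup.inv_mem _ hbN) x).1 hx
    rwa [inv_inv] at this
  obtain ⟨Q', hQ'1, hQ'2, hQ'3, hQ'4⟩ := step_fixed hP hQ hQX hXN hb₁ hb₂ hbp (hB b hbB)
  have hX' : X ⊔ Subgroup.zpowers b ∈ S := by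
    refine ⟨hX0.trans le_sup_left, sup_le hXW ?_, Q', hQ'1, hQ'2.trans le_sup_left, sup_le hQ'3 ?_⟩
    · rw [Subgroup.zpowers_le]
      exact Subgroup.mem_sup_right hbB
    · rw [Subgroup.zpowers_le]
      exact hQ'4
  have hle := hmax hX' le_sup_left
  exact hkn (hle (Subgroup.mem_sup_right (Subgroup.mem_zpowers b)))

/-- Part two of the statement. -/
theorem exists_min_cl_normalized [Finite P] {p : ℕ} [Fact p.Prime] (hP : IsPGroup p P) :
    ∃ Q : Subgroup P, IsMinimalCentrallyLarge Q ∧ thompsonSubgroupA P ≤ Subgroup.normalizer (Q : Set P) ∧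
      minimalCentrallyLargeJoin P ≤ Subgroup.normalizer (Q : Set P) := by
  obtain ⟨Q₀, hQ₀⟩ := exists_isMinimalCentrallyLarge (G := P)
  set S : Set (Subgroup P) := {C | IsCentrallyLarge C ∧ ∃ Q : Subgroup P, IsMinimalCentrallyLarge Q ∧ Q ≤ C ∧
    C ≤ Subgroup.normalizer (Q : Set P)} with hS
  obtain ⟨C, hC, hmax⟩ := (Set.toFinite S).exists_maximal
    ⟨Q₀, hQ₀.1, Q₀, hQ₀, le_rfl, Subgroup.le_normalizer⟩
  obtain ⟨hCL, Q, hQ, hQC, hCN⟩ := hC
  have hCl := isCentralizerLarge_of_cl hCL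
  have h1 : ∀ A ∈ maxAbelianSubgroups P, A ≤ C := by
    intro A hA
    have hD := clAbelianData hCL hA
    obtain ⟨Q', h2, h3, h4⟩ := chain hP (C₀ := C) (B := A) (fun b hb => hb_of_maxAbelian hA hb)
      (fun x hx => exists_mul_of_card_eq hD.card_eq hx) ⟨Q, hQ, hQC, hCN⟩
    have hle := hmax (show C ⊔ A ∈ S from ⟨hD.cl, Q', h2, h3, h4⟩) le_sup_left
    exact le_sup_right.trans hle
  have h2 : ∀ R : Subgroup P, IsMinimalCentrallyLarge R → R ≤ C := by
    intro R hR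
    have hD := largeData hCl (isCentralizerLarge_of_cl hR.1)
    obtain ⟨Q', h2, h3, h4⟩ := chain hP (C₀ := C) (B := R) (fun b hb => hb_of_minCL hR hb)
      (fun x hx => exists_mul_of_card_eq hD.card_eq hx) ⟨Q, hQ, hQC, hCN⟩
    have hle := hmax (show C ⊔ R ∈ S from ⟨cl_sup hCL hR.1, Q', h2, h3, h4⟩) le_sup_left
    exact le_sup_right.trans hle
  exact ⟨Q, hQ, (sSup_le h1).trans hCN, (sSup_le fun R hR => h2 R hR).trans hCN⟩

end Cfsg.Agent.Lib.LocalEven2.CL2
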