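import Cfsg.Agent.Lib.LocalEven2.IsoG
import Cfsg.Agent.Lib.LocalEven2.Sidki

/-!
# The isolated `p`-minimal subgroup: the component case.
-/

set_option autoImplicit false

namespace Cfsg.Agent.Lib.LocalEven2

open Subgroup Cfsg Cfsg.Agent.Lib.Basic Cfsg.Agent.Lib.Coprime Cfsg.Agent.Lib.Components Cfsg.Agent.Lib.LocalEven2.Sidki
open scoped commutatorElement

variable {X : Type*} [Group X] [Finite X]

/-- The components not centralized by `R`. -/
def compsR (R : Subgroup X) : Set (Subgroup X) := {C | IsComponent C ∧ ⁅C, R⁆ ≠ ⊥}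

/-- The join of a set of components is subnormal. -/
theorem sSup_comp_subnormal {Δ : Set (Subgroup X)} (hΔ : ∀ C ∈ Δ, IsComponent C) :
    (sSup Δ : Subgroup X).IsSubnormal := by
  have hle : sSup Δ ≤ layer X := sSup_le fun C hC => component_le_layer (hΔ C hC)
  haveI hL : (layer X).Normal := layer_normal
  refine IsSubnormal.step _ (layer X) hle hL.isSubnormal ?_
  rw [normal_subgroupOf_iff_le_normalizer hle]
  refine layer_le fun C hC => ?_
  by_cases hCΔ : C ∈ Δ
  · exact (le_sSup hCΔ).trans le_normalizer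
  · have h1 : C ≤ centralizer ((sSup Δ : Subgroup X) : Set X) := by
      rw [le_centralizer_iff]
      refine sSup_le fun C' hC' => ?_
      intro x hx
      rw [mem_centralizer_iff]
      intro y hy
      exact (component_pair_comm hC (hΔ C' hC') (by rintro rfl; exact hCΔ hC') y hy x hx)
    exact h1.trans (centralizer_le_normalizer _)

namespace IsoData

variable {p : ℕ} [hp : Fact p.Prime] {St R K : Subgroup X} (h : IsoData p St R K)

omit [Finite X] in
theorem _root_.Cfsg.Agent.Lib.LocalEven2.cjc_commutator_of_normalizer {R : Subgroup X} {x : X}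
    (hx : x ∈ normalizer (R : Set X)) (C : Subgroup X) : ⁅cjc x C, R⁆ = cjc x ⁅C, R⁆ := by
  have h1 : cjc x R = R := by
    ext y
    rw [mem_cjc]
    have := mem_normalizer_iff.mp hx (x⁻¹ * y * x)
    constructor
    · intro hy
      have h2 := this.mp hy
      have e : x * (x⁻¹ * y * x) * x⁻¹ = y := by group
      rwa [e] at h2
    · intro hy
      apply this.mpr
      have e : x * (x⁻¹ * y * x) * x⁻¹ = y := by group
      rwa [e]
  unfold cjc at h1 ⊢
  rw [map_commutator, h1]

omit [Finite X] in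
theorem _root_.Cfsg.Agent.Lib.LocalEven2.cjc_eq_bot_iff {x : X} {C : Subgroup X} : cjc x C = ⊥ ↔ C = ⊥ :=
  Subgroup.map_eq_bot_iff_of_injective C (MulEquiv.injective (MulAut.conj x))

theorem _root_.Cfsg.Agent.Lib.LocalEven2.cjc_mem_compsR {R : Subgroup X} {x : X}
    (hx : x ∈ normalizer (R : Set X)) {C : Subgroup X} (hC : C ∈ compsR R) : cjc x C ∈ compsR R := by
  refine ⟨component_conj hC.1 x, ?_⟩
  rw [cjc_commutator_of_normalizer hx, Ne, cjc_eq_bot_iff]
  exact hC.2

theorem fitting_le_A (hO : pCore p X = ⊥) : fittingSubgroup X ≤ pPrimeCore p X :=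
  Basic.le_pPrimeCore fitting_normal' (fitting_coprime hO)

include h

theorem not_central (hO : pCore p X = ⊥) (hnA : ¬ K ≤ pPrimeCore p X) (hK : K ≤ layer X)
    (hKc : K ≤ centralizer (layer X : Set X)) : False := by
  apply hnA
  refine le_trans ?_ (fitting_le_A hO)
  intro k hk
  apply center_layer_le_fitting
  refine ⟨⟨k, hK hk⟩, ?_, rfl⟩
  rw [SetLike.mem_coe, mem_center_iff]
  rintro ⟨e, he⟩
  apply Subtype.ext
  exact mem_centralizer_iff.mp (hKc hk) e he

theorem A_le_C (hnA : ¬ K ≤ pPrimeCore p X) : pPrimeCore p X ≤ centralizer (R : Set X) := by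
  haveI : (pPrimeCore p X).Normal := pPrimeCore_normal p X
  rcases h.l2 (B := pPrimeCore p X) (by rw [normalizer_eq_top_iff.mpr inferInstance]; exact le_top)
    (pPrimeCore_coprime p) with h1 | h1
  · exact absurd h1 hnA
  · exact h1

theorem exists_comp (hO : pCore p X = ⊥) (hnA : ¬ K ≤ pPrimeCore p X) : (compsR R).Nonempty := by
  by_contra hne
  rw [Set.not_nonempty_iff_eq_empty] at hne
  have h1 : layer X ≤ centralizer (R : Set X) := by
    refine layer_le fun C hC => ?_
    rw [← commutator_eq_bot_iff_le_centralizer]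
    by_contra hC2
    have : C ∈ compsR R := ⟨hC, hC2⟩
    rw [hne] at this
    exact this
  have h2 : generalizedFittingSubgroup X ≤ centralizer (R : Set X) :=
    sup_le h1 ((fitting_le_A hO).trans (h.A_le_C hnA))
  have h3 : R ≤ centralizer (generalizedFittingSubgroup X : Set X) := by
    rw [le_centralizer_iff]; exact h2
  have h4 : R ≤ generalizedFittingSubgroup X := h3.trans centralizer_gfit_le
  have hRsub : R.IsSubnormal := by
    refine IsSubnormal.step _ _ h4 (gfit_normal (G := X)).isSubnormal ?_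
    rw [normal_subgroupOf_iff_le_normalizer h4]
    exact h2.trans (centralizer_le_normalizer _)
  have h5 : R = ⊥ := le_bot_iff.mp (hO ▸ subnormal_le_pCore hRsub h.hR)
  apply h.hnc
  rw [h5]
  intro x _
  rw [mem_centralizer_iff]
  intro y hy
  have : y = 1 := by simpa using hy
  simp [this]

/-- `K` lies in the join of an `St`-orbit on components in `compsR R`. -/
theorem le_orbit (hO : pCore p X = ⊥) {C₁ : Subgroup X} (hC₁ : C₁ ∈ compsR R) :
    K ≤ sSup {C | ∃ s ∈ St, C = cjc s C₁} := by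
  set O : Set (Subgroup X) := {C | ∃ s ∈ St, C = cjc s C₁} with hOdef
  have hOc : ∀ C ∈ O, IsComponent C := by
    rintro _ ⟨s, -, rfl⟩
    exact component_conj hC₁.1 s
  have hStN : St ≤ normalizer ((sSup O : Subgroup X) : Set X) := by
    apply sSup_invariant
    rintro v hv _ ⟨s, hs, rfl⟩
    exact ⟨v * s, St.mul_mem hv hs, (cjc_mul v s C₁).symm⟩
  have hC₁O : C₁ ∈ O := ⟨1, St.one_mem, (cjc_one C₁).symm⟩
  rcases h.hstar (sSup O ⊔ St) le_sup_right with h1 | h1
  · exfalso
    have hAN : sSup O ≤ normalizer (R : Set X) := le_sup_left.trans h1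
    have hsub := sSup_comp_subnormal hOc
    have hDsub : (sSup O ⊓ R).IsSubnormal := by
      refine IsSubnormal.step _ (sSup O) inf_le_left hsub ?_
      rw [normal_subgroupOf_iff_le_normalizer inf_le_left]
      intro x hx
      apply mem_normalizer_of_conj_le
      intro y hy
      obtain ⟨hy1, hy2⟩ := mem_inf.mp hy
      exact mem_inf.mpr ⟨mul_mem (mul_mem hx hy1) (inv_mem hx), (mem_normalizer_iff.mp (hAN hx) y).mp hy2⟩
    have hD : sSup O ⊓ R = ⊥ :=
      le_bot_iff.mp (hO ▸ subnormal_le_pCore hDsub (h.hR.to_le inf_le_right))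
    apply hC₁.2
    rw [eq_bot_iff, Subgroup.commutator_le]
    intro x hx r hr
    have hxA : x ∈ sSup O := (le_sSup hC₁O) hx
    have h2 : ⁅x, r⁆ ∈ sSup O ⊓ R := by
      refine mem_inf.mpr ⟨?_, ?_⟩
      · rw [commutatorElement_def, show x * r * x⁻¹ * r⁻¹ = x * (r * x⁻¹ * r⁻¹) by group]
        exact mul_mem hxA ((mem_normalizer_iff.mp (hStN (h.hRSt hr)) _).mp (inv_mem hxA))
      · rw [commutatorElement_def]
        exact mul_mem ((mem_normalizer_iff.mp (hAN hxA) r).mp hr) (inv_mem hr)
    rwa [hD] at h2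
  · exact h.le_of_le_sup hStN h1

/-- Single orbit. -/
theorem orbit_unique (hO : pCore p X = ⊥) (hnA : ¬ K ≤ pPrimeCore p X) {C₁ C₂ : Subgroup X}
    (hC₁ : C₁ ∈ compsR R) (hC₂ : C₂ ∈ compsR R) : ∃ s ∈ St, C₂ = cjc s C₁ := by
  by_contra hno
  push Not at hno
  set O₁ : Set (Subgroup X) := {C | ∃ s ∈ St, C = cjc s C₁} with hO₁
  set O₂ : Set (Subgroup X) := {C | ∃ s ∈ St, C = cjc s C₂} with hO₂
  have hK₁ := h.le_orbit hO hC₁
  have hK₂ := h.le_orbit hO hC₂
  have hO₁c : ∀ C ∈ O₁, IsComponent C := by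
    rintro _ ⟨s, -, rfl⟩
    exact component_conj hC₁.1 s
  have hO₂c : ∀ C ∈ O₂, IsComponent C := by
    rintro _ ⟨s, -, rfl⟩
    exact component_conj hC₂.1 s
  have hdisj : ∀ C, C ∈ O₁ → C ∈ O₂ → False := by
    rintro C ⟨s, hs, rfl⟩ ⟨s', hs', e⟩
    apply hno (s'⁻¹ * s) (St.mul_mem (St.inv_mem hs') hs)
    rw [cjc_mul, e, ← cjc_mul, inv_mul_cancel, cjc_one]
  have hKL : K ≤ layer X := hK₁.trans (sSup_le fun C hC => component_le_layer (hO₁c C hC))
  refine h.not_central hO hnA hKL ?_
  rw [le_centralizer_iff]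
  refine layer_le fun C hC => ?_
  intro c hc
  rw [mem_centralizer_iff]
  intro k hk
  by_cases h1 : C ∈ O₁
  · have h2 : C ∉ O₂ := fun h2 => hdisj C h1 h2
    refine sSup_commute (S := O₂) (S' := {C}) ?_ k (hK₂ hk) c (le_sSup (Set.mem_singleton C) hc)
    rintro C' hC' _ rfl a ha b hb
    exact component_pair_comm (hO₂c C' hC') hC (by rintro rfl; exact h2 hC') a ha b hb
  · refine sSup_commute (S := O₁) (S' := {C}) ?_ k (hK₁ hk) c (le_sSup (Set.mem_singleton C) hc)
    rintro C' hC' _ rfl a ha b hb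
    exact component_pair_comm (hO₁c C' hC') hC (by rintro rfl; exact h1 hC') a ha b hb

/-- `K` lies in the join of `compsR R`. -/
theorem le_sSup_compsR (hO : pCore p X = ⊥) (hnA : ¬ K ≤ pPrimeCore p X) : K ≤ sSup (compsR R) := by
  obtain ⟨C₁, hC₁⟩ := h.exists_comp hO hnA
  refine (h.le_orbit hO hC₁).trans (sSup_le ?_)
  rintro _ ⟨s, hs, rfl⟩
  exact le_sSup (cjc_mem_compsR (h.hStR hs) hC₁)

/-- The elements preserving `compsR R`. -/
theorem cjc_mem_compsR_all (hO : pCore p X = ⊥) (hnA : ¬ K ≤ pPrimeCore p X)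
    (hgen : normalizer (R : Set X) ⊔ K = ⊤) (x : X) {C : Subgroup X} (hC : C ∈ compsR R) :
    cjc x C ∈ compsR R := by
  have hKL : K ≤ layer X := (h.le_sSup_compsR hO hnA).trans (sSup_le fun C hC => component_le_layer hC.1)
  let M : Subgroup X :=
    { carrier := {x | ∀ C, C ∈ compsR R ↔ cjc x C ∈ compsR R}
      mul_mem' := by
        intro a b ha hb C
        rw [cjc_mul]
        exact (hb C).trans (ha _)
      one_mem' := by
        intro C
        rw [cjc_one]
      inv_mem' := by
        intro a ha C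
        have h1 := ha (cjc a⁻¹ C)
        rw [← cjc_mul, mul_inv_cancel, cjc_one] at h1
        exact h1.symm }
  have hN : normalizer (R : Set X) ≤ M := by
    intro y hy C
    constructor
    · exact cjc_mem_compsR hy
    · intro h1
      have h2 := cjc_mem_compsR (inv_mem hy) h1
      rwa [← cjc_mul, inv_mul_cancel, cjc_one] at h2
  have hK : K ≤ M := by
    intro k hk C
    by_cases hCc : IsComponent C
    · have h1 : k ∈ normalizer (C : Set X) :=
        layer_le_normalizer_of_subnormal hCc.1 (hKL hk)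
      have h2 : cjc k C = C := by
        ext y
        rw [mem_cjc]
        have h3 := mem_normalizer_iff.mp h1 (k⁻¹ * y * k)
        have e : k * (k⁻¹ * y * k) * k⁻¹ = y := by group
        rw [e] at h3
        exact h3
      rw [h2]
    · constructor
      · intro h1
        exact absurd h1.1 hCc
      · intro h1
        exfalso
        apply hCc
        have h2 := component_conj h1.1 k⁻¹
        have h3 : (cjc k C).map (MulAut.conj k⁻¹).toMonoidHom = cjc k⁻¹ (cjc k C) := rfl
        rwa [h3, ← cjc_mul, inv_mul_cancel, cjc_one] at h2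
  have hM : M = ⊤ := by
    rw [eq_top_iff, ← hgen]
    exact sup_le hN hK
  have hx : x ∈ M := by rw [hM]; trivial
  exact (hx C).mp hC

/-- The join of `compsR R` is normal. -/
theorem sSup_compsR_normal (hO : pCore p X = ⊥) (hnA : ¬ K ≤ pPrimeCore p X)
    (hgen : normalizer (R : Set X) ⊔ K = ⊤) : (sSup (compsR R)).Normal := by
  rw [← normalizer_eq_top_iff, eq_top_iff]
  apply sSup_invariant
  intro v _ C hC
  exact h.cjc_mem_compsR_all hO hnA hgen v hC

/-- A normal subgroup containing `K` and contained in the join of `compsR R` equals the join. -/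
theorem eq_sSup_compsR (hO : pCore p X = ⊥) (hnA : ¬ K ≤ pPrimeCore p X)
    (hgen : normalizer (R : Set X) ⊔ K = ⊤) {N : Subgroup X} (hN : N.Normal) (hKN : K ≤ N)
    (hNA : N ≤ sSup (compsR R)) : N = sSup (compsR R) := by
  apply le_antisymm hNA
  refine sSup_le fun C hC => ?_
  rcases component_le_or_commute hC.1 hN.isSubnormal with h1 | h1
  · exact h1
  · exfalso
    have hNL : N ≤ layer X := hNA.trans (sSup_le fun C hC => component_le_layer hC.1)
    refine h.not_central hO hnA (hKN.trans hNL) ?_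
    refine le_trans hKN ?_
    rw [le_centralizer_iff]
    refine layer_le fun D hD => ?_
    intro d hd
    rw [mem_centralizer_iff]
    intro n hn
    by_cases hDc : D ∈ compsR R
    · -- `D` is a conjugate of `C`
      obtain ⟨s, -, rfl⟩ := h.orbit_unique hO hnA hC hDc
      have h2 := mem_cjc.mp hd
      rw [commutator_eq_bot_iff_le_centralizer] at h1
      have h3 := mem_centralizer_iff.mp (h1 h2) (s⁻¹ * n * s) (by
        have := hN.conj_mem n hn s⁻¹
        simpa using this)
      have h4 : s * ((s⁻¹ * n * s) * (s⁻¹ * d * s)) * s⁻¹ = s * ((s⁻¹ * d * s) * (s⁻¹ * n * s)) * s⁻¹ := by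
        rw [h3]
      have e1 : s * ((s⁻¹ * n * s) * (s⁻¹ * d * s)) * s⁻¹ = n * d := by group
      have e2 : s * ((s⁻¹ * d * s) * (s⁻¹ * n * s)) * s⁻¹ = d * n := by group
      rwa [e1, e2] at h4
    · refine sSup_commute (S := compsR R) (S' := {D}) ?_ n (hNA hn) d (le_sSup (Set.mem_singleton D) hd)
      rintro C' hC' _ rfl a ha b hb
      exact component_pair_comm hC'.1 hD (by rintro rfl; exact hDc hC') a ha b hb

/-- A component contained in the join lies in `compsR R`. -/
theorem mem_compsR_of_le {C : Subgroup X} (hC : IsComponent C) (hle : C ≤ sSup (compsR R)) :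
    C ∈ compsR R := by
  by_contra hno
  have h1 : ⁅C, C⁆ = ⊥ := by
    rw [eq_bot_iff, Subgroup.commutator_le]
    intro a ha b hb
    have h2 := sSup_commute (S := {C}) (S' := compsR R) (by
      rintro _ rfl C' hC' a ha b hb
      exact component_pair_comm hC hC'.1 (by rintro rfl; exact hno hC') a ha b hb)
      a (le_sSup (Set.mem_singleton C) ha) b (hle hb)
    rw [mem_bot, commutatorElement_eq_one_iff_mul_comm]
    exact h2
  rw [qs_self hC.2] at h1
  exact qs_ne_bot hC.2 h1


end IsoData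

namespace IsoP

open Cfsg.Agent.Lib.LocalEven

variable {G : Type*} [Group G] [Finite G] {p : ℕ} [hp : Fact p.Prime] {S : Sylow p G} {P L : Subgroup G}
  (h : IsoP S P L)

include h

variable [hQ : (pCore p G).Normal]

theorem hgenX : normalizer ((((pCore p ↥L).map L.subtype).map (QuotientGroup.mk' (pCore p G)) : Subgroup _) : Set (G ⧸ pCore p G)) ⊔
    ((pResidual p ↥P).map P.subtype).map (QuotientGroup.mk' (pCore p G)) = ⊤ := by
  set π := QuotientGroup.mk' (pCore p G) with hπ
  have hπs : Function.Surjective π := QuotientGroup.mk'_surjective _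
  set R := (pCore p ↥L).map L.subtype with hR
  set K := (pResidual p ↥P).map P.subtype with hK
  set T := normalizer ((R.map π : Subgroup _) : Set (G ⧸ pCore p G)) ⊔ K.map π with hT
  have h1 : T.comap π = ⊤ := by
    rw [eq_top_iff, ← h.sup_eq_top]
    apply sup_le
    · rw [← map_le_iff_le_comap]
      exact (map_le_normalizer_map π h.L_le_nR).trans le_sup_left
    · rw [← map_le_iff_le_comap]
      nth_rewrite 1 [← h.K_sup_S]
      rw [Subgroup.map_sup]
      apply sup_le le_sup_right
      exact (map_le_normalizer_map π (h.S_le_L.trans h.L_le_nR)).trans le_sup_left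
  rw [eq_top_iff]
  intro x _
  obtain ⟨g, rfl⟩ := hπs x
  have : g ∈ T.comap π := by rw [h1]; trivial
  exact this

/-- The right alternative of S3044. -/
theorem right_alt {Y : Subgroup G} [hYn : Y.Normal] [hpn : (pCore p ↥Y).Normal]
    (hY : Y = normalClosure (((pResidual p ↥P).map P.subtype : Subgroup G) : Set G))
    (hnA : ¬ ((pResidual p ↥P).map P.subtype).map (QuotientGroup.mk' (pCore p G)) ≤ pPrimeCore p (G ⧸ pCore p G)) :
    p ∣ Nat.card (↥Y ⧸ pCore p ↥Y) ∧ layer (↥Y ⧸ pCore p ↥Y) = ⊤ ∧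
      ∀ K₁ K₂ : Subgroup (↥Y ⧸ pCore p ↥Y), IsComponent K₁ → IsComponent K₂ →
        ∃ s ∈ (S : Subgroup G), ((K₂.comap (QuotientGroup.mk' (pCore p ↥Y))).map Y.subtype) =
          (((K₁.comap (QuotientGroup.mk' (pCore p ↥Y))).map Y.subtype)).map (MulAut.conj s).toMonoidHom := by
  classical
  have hd := h.isoData
  have hO := pCore_quot_eq_bot (p := p) (G := G)
  have hgen := h.hgenX
  set π := QuotientGroup.mk' (pCore p G) with hπ
  have hπs : Function.Surjective π := QuotientGroup.mk'_surjective _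
  set R := (pCore p ↥L).map L.subtype with hR
  set K := (pResidual p ↥P).map P.subtype with hK
  have hKY : K ≤ Y := by rw [hY]; exact subset_normalClosure
  set A₀ : Subgroup (G ⧸ pCore p G) := sSup (compsR (R.map π)) with hA₀
  haveI hA₀n : A₀.Normal := hd.sSup_compsR_normal hO hnA hgen
  have hKA₀ : K.map π ≤ A₀ := hd.le_sSup_compsR hO hnA
  have hYA₀ : Y.map π ≤ A₀ := by
    rw [map_le_iff_le_comap, hY]
    haveI : (A₀.comap π).Normal := inferInstance
    exact normalClosure_le_normal (map_le_iff_le_comap.mp hKA₀)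
  have hYeq : Y.map π = A₀ :=
    hd.eq_sSup_compsR hO hnA hgen (hYn.map _ hπs) (map_mono hKY) hYA₀
  let θ : ↥Y →* G ⧸ pCore p G := π.comp Y.subtype
  let φ : ↥Y →* ↥A₀ := θ.codRestrict A₀ (fun y => hYA₀ (mem_map_of_mem _ y.2))
  have hφs : Function.Surjective φ := by
    rintro ⟨a, ha⟩
    rw [← hYeq] at ha
    obtain ⟨y, hy, rfl⟩ := ha
    exact ⟨⟨y, hy⟩, rfl⟩
  have hφk : φ.ker = pCore p ↥Y := by
    have h1 : φ.ker = θ.ker := MonoidHom.ker_codRestrict _ _ _
    rw [h1]
    exact ker_theta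
  let e : (↥Y ⧸ pCore p ↥Y) ≃* ↥A₀ :=
    (QuotientGroup.quotientMulEquivOfEq hφk.symm).trans (QuotientGroup.quotientKerEquivOfSurjective φ hφs)
  have he : ∀ y : ↥Y, ((e (y : ↥Y ⧸ pCore p ↥Y) : ↥A₀) : G ⧸ pCore p G) = π y := fun y => rfl
  refine ⟨?_, ?_, ?_⟩
  · by_contra hnd
    apply hnA
    refine hKA₀.trans ?_
    have hc : (Nat.card A₀).Coprime p := by
      rw [← Nat.card_congr e.toEquiv, Nat.coprime_comm, Nat.Prime.coprime_iff_not_dvd hp.out]
      exact hnd
    exact Basic.le_pPrimeCore hA₀n hc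
  · have hLA : layer ↥A₀ = ⊤ := by
      rw [eq_top_iff]
      rintro ⟨a, ha⟩ -
      have h1 : A₀ ≤ (layer ↥A₀).map A₀.subtype := by
        refine sSup_le fun C hC => ?_
        intro c hc
        have hCA : C ≤ A₀ := le_sSup hC
        have h2 := component_le_layer (component_subgroupOf hC.1 hCA)
        exact ⟨⟨c, hCA hc⟩, h2 (mem_subgroupOf.mpr hc), rfl⟩
      obtain ⟨b, hb, e'⟩ := h1 ha
      have : b = ⟨a, ha⟩ := Subtype.ext e'
      rwa [← this]
    rw [eq_top_iff]
    intro x _
    have h1 : e x ∈ (layer (↥Y ⧸ pCore p ↥Y)).map e.toMonoidHom := by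
      rw [map_layer_equiv e, hLA]; trivial
    obtain ⟨y, hy, e'⟩ := h1
    have : y = x := e.injective e'
    rwa [← this]
  · intro K₁ K₂ hK₁ hK₂
    have hcomp : ∀ K' : Subgroup (↥Y ⧸ pCore p ↥Y), IsComponent K' →
        ((K'.map e.toMonoidHom).map A₀.subtype) ∈ compsR (R.map π) := by
      intro K' hK'
      refine hd.mem_compsR_of_le ?_ (map_subtype_le _)
      exact component_map_of_subnormal hA₀n.isSubnormal (comp_map_equiv e hK')
    obtain ⟨st, hst, hcj⟩ := hd.orbit_unique hO hnA (hcomp K₁ hK₁) (hcomp K₂ hK₂)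
    obtain ⟨s, hs, rfl⟩ := hst
    refine ⟨s, hs, ?_⟩
    have hW : ∀ (K' : Subgroup (↥Y ⧸ pCore p ↥Y)) (x : G),
        x ∈ (K'.comap (QuotientGroup.mk' (pCore p ↥Y))).map Y.subtype ↔
          x ∈ Y ∧ π x ∈ (K'.map e.toMonoidHom).map A₀.subtype := by
      intro K' x
      constructor
      · rintro ⟨y, hy, rfl⟩
        refine ⟨y.2, ⟨e (y : ↥Y ⧸ pCore p ↥Y), ⟨_, hy, rfl⟩, he y⟩⟩
      · rintro ⟨hx, _, ⟨k, hk, rfl⟩, e2⟩
        refine ⟨⟨x, hx⟩, ?_, rfl⟩
        have h1 : e (((⟨x, hx⟩ : ↥Y)) : ↥Y ⧸ pCore p ↥Y) = e k := by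
          apply Subtype.ext
          rw [he]
          exact e2.symm
        have h2 := e.injective h1
        show (((⟨x, hx⟩ : ↥Y)) : ↥Y ⧸ pCore p ↥Y) ∈ K'
        rw [h2]
        exact hk
    ext x
    have hcjc : ∀ Z : Subgroup G, x ∈ Z.map (MulAut.conj s).toMonoidHom ↔ s⁻¹ * x * s ∈ Z :=
      fun Z => mem_cjc
    rw [hcjc, hW, hW, hcj, mem_cjc]
    have h1 : x ∈ Y ↔ s⁻¹ * x * s ∈ Y := by
      constructor
      · intro hx
        simpa using hYn.conj_mem x hx s⁻¹
      · intro hx
        have := hYn.conj_mem _ hx s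
        have e3 : s * (s⁻¹ * x * s) * s⁻¹ = x := by group
        rwa [e3] at this
    have h2 : π (s⁻¹ * x * s) = (π s)⁻¹ * π x * π s := by simp
    rw [h2, h1]

end IsoP

end Cfsg.Agent.Lib.LocalEven2
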