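import Cfsg.Agent.Lib.LocalEven2.IsoT
import Cfsg.Agent.Lib.LocalEven.PMinimal
import Cfsg.Agent.Lib.LocalEven.PClosed
import Cfsg.Agent.Lib.LocalEven.PReduced
import Cfsg.Agent.Lib.LocalEven.GFit

/-!
# The isolated `p`-minimal subgroup: the `G`-level setup.
-/

set_option autoImplicit false

namespace Cfsg.Agent.Lib.LocalEven2

open Subgroup Cfsg Cfsg.Agent.Lib.Basic Cfsg.Agent.Lib.Coprime Cfsg.Agent.Lib.LocalEven
open scoped commutatorElement

variable {G : Type*} [Group G] [Finite G] {p : ℕ} [hp : Fact p.Prime]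

/-- A normal `p`-subgroup of `P` lies in `O_p(P)`. -/
theorem le_map_pCore_of_normalizes {W P : Subgroup G} (hWP : W ≤ P) (hW : IsPGroup p W)
    (hn : P ≤ normalizer (W : Set G)) : W ≤ (pCore p ↥P).map P.subtype := by
  have hN : (W.subgroupOf P).Normal := (normal_subgroupOf_iff_le_normalizer hWP).mpr hn
  have hp' : IsPGroup p (W.subgroupOf P) := hW.comap_of_injective _ P.subtype_injective
  have h1 : W.subgroupOf P ≤ pCore p ↥P := le_pCore hN hp'
  intro w hw
  exact ⟨⟨w, hWP hw⟩, h1 (mem_subgroupOf.mpr hw), rfl⟩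

/-- A normal subgroup of `↥L`, seen in the ambient group, is normalized by `L`. -/
theorem le_normalizer_map_of_normal {L : Subgroup G} (N : Subgroup ↥L) [hN : N.Normal] :
    L ≤ normalizer ((N.map L.subtype : Subgroup G) : Set G) := by
  intro l hl
  apply mem_normalizer_of_conj_le
  rintro _ ⟨n, hn, rfl⟩
  exact ⟨⟨l, hl⟩ * n * (⟨l, hl⟩ : ↥L)⁻¹, hN.conj_mem _ hn _, rfl⟩

/-- Frattini argument over `mcB`. -/
theorem le_normalizer_sup_mcB (S : Sylow p G) (H : Subgroup G) (hSH : (S : Subgroup G) ≤ H) :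
    H ≤ normalizer ((S : Subgroup G) : Set G) ⊔ mcB (p := p) (S : Subgroup G) H := by
  obtain ⟨S', hS'⟩ := exists_sylow_of_sylow_le S hSH
  have h1 := (main_S2790 S').2
  have h2 := mcB_main S _ H hSH rfl
  intro h hh
  obtain ⟨x, hx, y, hy, e⟩ := h1 ⟨h, hh⟩
  have hxe : h = (x : G) * (y : G) := congrArg Subtype.val e
  have hxH : (x : G) ∈ pElementClosure p H := by
    have h3 : pElementClosure p (⊤ : Subgroup ↥H) ≤ (pElementClosure p H).comap H.subtype := by
      delta pElementClosure
      rw [closure_le]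
      rintro g ⟨-, k, hk⟩
      refine subset_closure ⟨g.2, k, ?_⟩
      show orderOf (g : G) = _
      rw [Subgroup.orderOf_coe, hk]
    exact h3 hx
  have hyN : (y : G) ∈ normalizer ((S : Subgroup G) : Set G) := by
    apply mem_normalizer_of_conj_le
    rw [← hS']
    rintro _ ⟨s, hs, rfl⟩
    exact ⟨y * s * y⁻¹, (mem_normalizer_iff.mp hy s).mp hs, rfl⟩
  rw [hxe]
  exact mul_mem (mem_sup_right (h2 hxH)) (mem_sup_left hyN)

/-- The image of a normalizing subgroup normalizes the image. -/
theorem map_le_normalizer_map {Q : Type*} [Group Q] [Finite Q] (f : G →* Q)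
    {A B : Subgroup G} (hAB : A ≤ normalizer (B : Set G)) :
    A.map f ≤ normalizer ((B.map f : Subgroup Q) : Set Q) := by
  rintro _ ⟨a, ha, rfl⟩
  apply mem_normalizer_of_conj_le
  rintro _ ⟨b, hb, rfl⟩
  exact ⟨a * b * a⁻¹, (mem_normalizer_iff.mp (hAB ha) b).mp hb, by simp⟩

/-- The hypotheses of the theorem on isolated `p`-minimal subgroups. -/
structure IsoP (S : Sylow p G) (P L : Subgroup G) : Prop where
  hSP : (S : Subgroup G) ≤ P
  hPmin : IsPMinimal p ↥P
  hL : L = normalizer ((S : Subgroup G) : Set G) ⊔ ⨆ P' : {P' : Subgroup G // (S : Subgroup G) ≤ P' ∧ IsPMinimal p ↥P' ∧ P' ≠ P}, (P' : Subgroup G)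
  hiso : ¬ (pCore p ↥L).map L.subtype ≤ (pCore p ↥P).map P.subtype

namespace IsoP

variable {S : Sylow p G} {P L : Subgroup G} (h : IsoP S P L)

include h

theorem normalizer_le : normalizer ((S : Subgroup G) : Set G) ≤ L := by
  rw [h.hL]; exact le_sup_left

theorem S_le_L : (S : Subgroup G) ≤ L := le_normalizer.trans h.normalizer_le

theorem P'_le {P' : Subgroup G} (h1 : (S : Subgroup G) ≤ P') (h2 : IsPMinimal p ↥P') (h3 : P' ≠ P) : P' ≤ L := by
  rw [h.hL]
  exact le_sup_of_le_right (le_iSup (f := fun P' : {P' : Subgroup G // (S : Subgroup G) ≤ P' ∧ IsPMinimal p ↥P' ∧ P' ≠ P} => (P' : Subgroup G)) ⟨P', h1, h2, h3⟩)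

theorem R_le_S : (pCore p ↥L).map L.subtype ≤ (S : Subgroup G) := by
  obtain ⟨S', hS'⟩ := exists_sylow_of_sylow_le S h.S_le_L
  rw [← hS']
  exact map_mono (pCore_le_sylow S')

theorem R_isP : IsPGroup p ↥((pCore p ↥L).map L.subtype) := (pCore_isPGroup p).map _

theorem L_le_nR : L ≤ normalizer (((pCore p ↥L).map L.subtype : Subgroup G) : Set G) := by
  haveI := pCore_normal p ↥L
  exact le_normalizer_map_of_normal _

/-- An overgroup of `S` not containing `P` lies in `L`. -/
theorem le_L_of_not_le {H : Subgroup G} (hSH : (S : Subgroup G) ≤ H) (hPH : ¬ P ≤ H) : H ≤ L := by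
  refine (le_normalizer_sup_mcB S H hSH).trans (sup_le h.normalizer_le ?_)
  apply sup_le h.S_le_L
  apply iSup_le
  rintro ⟨P', h1, h2, h3⟩
  refine h.P'_le h1 h3 ?_
  rintro rfl
  exact hPH h2

theorem star (H : Subgroup G) (hSH : (S : Subgroup G) ≤ H) :
    H ≤ normalizer (((pCore p ↥L).map L.subtype : Subgroup G) : Set G) ∨ P ≤ H := by
  by_cases hPH : P ≤ H
  · exact Or.inr hPH
  · exact Or.inl ((h.le_L_of_not_le hSH hPH).trans h.L_le_nR)

theorem sup_eq_top : L ⊔ P = ⊤ := by
  rw [eq_top_iff]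
  refine (le_normalizer_sup_mcB S ⊤ le_top).trans (sup_le (h.normalizer_le.trans le_sup_left) ?_)
  apply sup_le (h.S_le_L.trans le_sup_left)
  apply iSup_le
  rintro ⟨P', h1, h2, h3⟩
  by_cases hPP : P' = P
  · subst hPP
    exact le_sup_right
  · exact (h.P'_le h1 h3 hPP).trans le_sup_left

theorem not_P_le_nR : ¬ P ≤ normalizer (((pCore p ↥L).map L.subtype : Subgroup G) : Set G) := by
  intro hPn
  exact h.hiso (le_map_pCore_of_normalizes (h.R_le_S.trans h.hSP) h.R_isP hPn)

omit h in
theorem K_le_P : (pResidual p ↥P).map P.subtype ≤ P := map_subtype_le _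

omit h in
theorem P_le_nK : P ≤ normalizer (((pResidual p ↥P).map P.subtype : Subgroup G) : Set G) := by
  haveI : (pResidual p ↥P).Characteristic := pResidual_characteristic p
  exact le_normalizer_map_of_normal _

theorem K_sup_S : (pResidual p ↥P).map P.subtype ⊔ (S : Subgroup G) = P := by
  obtain ⟨S', hS'⟩ := exists_sylow_of_sylow_le S h.hSP
  have h1 := congrArg (Subgroup.map P.subtype) (pResidual_sup_sylow S')
  rw [Subgroup.map_sup, hS', ← MonoidHom.range_eq_map, range_subtype] at h1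
  exact h1

variable [hQ : (pCore p G).Normal]

/-- The transfer to `G / O_p(G)`. -/
theorem isoData : IsoData p ((S : Subgroup G).map (QuotientGroup.mk' (pCore p G)))
    (((pCore p ↥L).map L.subtype).map (QuotientGroup.mk' (pCore p G)))
    (((pResidual p ↥P).map P.subtype).map (QuotientGroup.mk' (pCore p G))) := by
  set π := QuotientGroup.mk' (pCore p G) with hπ
  have hπs : Function.Surjective π := QuotientGroup.mk'_surjective _
  set R := (pCore p ↥L).map L.subtype with hR
  set K := (pResidual p ↥P).map P.subtype with hK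
  have hSnR : (S : Subgroup G) ≤ normalizer (R : Set G) := h.S_le_L.trans h.L_le_nR
  have hSnK : (S : Subgroup G) ≤ normalizer (K : Set G) := h.hSP.trans P_le_nK
  have hmemπ : ∀ {x : G}, π x = 1 ↔ x ∈ pCore p G := by
    intro x
    rw [hπ, QuotientGroup.mk'_apply, QuotientGroup.eq_one_iff]
  have hQS : pCore p G ≤ (S : Subgroup G) := pCore_le_sylow S
  refine ⟨S.isPGroup'.map _, map_mono h.R_le_S, map_le_normalizer_map π hSnR, map_le_normalizer_map π hSnK, ?_, ?_, ?_⟩
  · -- star
    intro Ht hSH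
    set H := Ht.comap π with hH
    have hSH' : (S : Subgroup G) ≤ H := map_le_iff_le_comap.mp hSH
    rcases h.star H hSH' with h1 | h1
    · left
      have h2 := map_le_normalizer_map π h1
      rwa [hH, map_comap_eq_self_of_surjective hπs] at h2
    · right
      exact map_le_iff_le_comap.mpr (K_le_P.trans h1)
  · -- generation
    have h1 : K ≤ (closure {x | x ∈ K.map π ∧ (orderOf x).Coprime p}).comap π := by
      rw [hK, map_le_iff_le_comap]
      delta pResidual
      rw [closure_le]
      intro g hg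
      have hg' : (orderOf g).Coprime p := hg
      refine subset_closure ⟨mem_map_of_mem _ (mem_map_of_mem _ (subset_closure hg)), ?_⟩
      refine Nat.Coprime.coprime_dvd_left ?_ hg'
      have h3 : orderOf (π (g : G)) ∣ orderOf (g : G) := orderOf_map_dvd π _
      rwa [Subgroup.orderOf_coe] at h3
    exact map_le_iff_le_comap.mpr h1
  · -- non-centralizing
    intro hc
    let W : Subgroup G := (R.map π).comap π
    have hWS : W ≤ (S : Subgroup G) := by
      intro w hw
      obtain ⟨r, hr, e⟩ := hw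
      have h1 : r⁻¹ * w ∈ pCore p G := by
        rw [← hmemπ, map_mul, map_inv, ← e]
        exact inv_mul_cancel _
      have h2 : w = r * (r⁻¹ * w) := by group
      rw [h2]
      exact mul_mem (h.R_le_S hr) (hQS h1)
    have hWp : IsPGroup p W := S.isPGroup'.to_le hWS
    have hRW : R ≤ W := map_le_iff_le_comap.mp le_rfl
    have hPnW : P ≤ normalizer (W : Set G) := by
      rw [← h.K_sup_S]
      apply sup_le
      · intro k hk
        apply mem_normalizer_of_conj_le
        intro w hw
        show π (k * w * k⁻¹) ∈ R.map π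
        have h1 : π k ∈ K.map π := mem_map_of_mem _ hk
        have h2 := mem_centralizer_iff.mp (hc h1) (π w) hw
        rw [map_mul, map_mul, map_inv, ← h2, mul_inv_cancel_right]
        exact hw
      · intro s hs
        apply mem_normalizer_of_conj_le
        intro w hw
        show π (s * w * s⁻¹) ∈ R.map π
        have h1 : π s ∈ (S : Subgroup G).map π := mem_map_of_mem _ hs
        have h2 := map_le_normalizer_map π hSnR h1
        rw [map_mul, map_mul, map_inv]
        exact (mem_normalizer_iff.mp h2 _).mp hw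
    exact h.hiso (hRW.trans (le_map_pCore_of_normalizes (hWS.trans h.hSP) hWp hPnW))


/-- `G2`: if `N(R̃)` normalizes `K̃`, then `K` is normal in `G`. -/
theorem K_normal (hN : normalizer ((((pCore p ↥L).map L.subtype).map (QuotientGroup.mk' (pCore p G)) : Subgroup _) : Set (G ⧸ pCore p G)) ≤
      normalizer ((((pResidual p ↥P).map P.subtype).map (QuotientGroup.mk' (pCore p G)) : Subgroup _) : Set (G ⧸ pCore p G))) :
    ((pResidual p ↥P).map P.subtype).Normal := by
  set π := QuotientGroup.mk' (pCore p G) with hπ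
  set R := (pCore p ↥L).map L.subtype with hR
  set K := (pResidual p ↥P).map P.subtype with hK
  have hmemπ : ∀ {x : G}, π x = 1 ↔ x ∈ pCore p G := by
    intro x
    rw [hπ, QuotientGroup.mk'_apply, QuotientGroup.eq_one_iff]
  have hQS : pCore p G ≤ (S : Subgroup G) := pCore_le_sylow S
  have htop : (normalizer ((K.map π : Subgroup _) : Set (G ⧸ pCore p G))).comap π = ⊤ := by
    rw [eq_top_iff, ← h.sup_eq_top]
    apply sup_le
    · rw [← map_le_iff_le_comap]
      exact (map_le_normalizer_map π h.L_le_nR).trans hN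
    · rw [← map_le_iff_le_comap]
      exact map_le_normalizer_map π P_le_nK
  have hconj : ∀ g : G, K ≤ K.comap (MulAut.conj g).toMonoidHom := by
    intro g
    rw [hK, map_le_iff_le_comap]
    delta pResidual
    rw [closure_le]
    intro x hx
    have hx' : (orderOf x).Coprime p := hx
    show g * (x : G) * g⁻¹ ∈ K
    have hc : (orderOf (g * (x : G) * g⁻¹)).Coprime p := by
      have h1 : g * (x : G) * g⁻¹ = (MulAut.conj g) (x : G) := rfl
      rw [h1, MulEquiv.orderOf_eq, Subgroup.orderOf_coe]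
      exact hx'
    have hxK : (x : G) ∈ K := mem_map_of_mem _ (subset_closure hx)
    have h2 : π g ∈ normalizer ((K.map π : Subgroup _) : Set (G ⧸ pCore p G)) := by
      have : g ∈ (normalizer ((K.map π : Subgroup _) : Set (G ⧸ pCore p G))).comap π := by
        rw [htop]; trivial
      exact this
    have h3 : π (g * (x : G) * g⁻¹) ∈ K.map π := by
      rw [map_mul, map_mul, map_inv]
      exact (mem_normalizer_iff.mp h2 _).mp (mem_map_of_mem _ hxK)
    obtain ⟨k, hk, e⟩ := h3
    have h4 : k⁻¹ * (g * (x : G) * g⁻¹) ∈ pCore p G := by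
      rw [← hmemπ, map_mul, map_inv, ← e]
      exact inv_mul_cancel _
    have h5 : g * (x : G) * g⁻¹ ∈ K ⊔ pCore p G := by
      have : g * (x : G) * g⁻¹ = k * (k⁻¹ * (g * (x : G) * g⁻¹)) := by group
      rw [this]
      exact mul_mem_sup hk h4
    exact mem_of_coprime_of_mem_sup (hQS.trans (h.hSP.trans P_le_nK)) (pCore_isPGroup p) h5 hc
  constructor
  intro n hn g
  exact hconj g hn

end IsoP

theorem pCore_quot_eq_bot [hQ : (pCore p G).Normal] : pCore p (G ⧸ pCore p G) = ⊥ := by
  rw [pCore_quotient _ (pCore_isPGroup p)]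
  exact QuotientGroup.map_mk'_self _

/-- The Fitting subgroup is a `p'`-group if `O_p = 1`. -/
theorem fitting_normal' {X : Type*} [Group X] [Finite X] : (fittingSubgroup X).Normal :=
  Cfsg.Agent.Lib.Components.fitting_normal

theorem fitting_coprime {X : Type*} [Group X] [Finite X] (hO : pCore p X = ⊥) :
    (Nat.card (fittingSubgroup X)).Coprime p := by
  rw [Nat.coprime_comm, Nat.Prime.coprime_iff_not_dvd hp.out]
  intro hd
  obtain ⟨x, hx⟩ := exists_prime_orderOf_dvd_card' p hd
  obtain ⟨P⟩ : Nonempty (Sylow p ↥(fittingSubgroup X)) := inferInstance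
  have hz : IsPGroup p (zpowers x) := by
    rw [IsPGroup.iff_card, Nat.card_zpowers, hx]
    exact ⟨1, (pow_one p).symm⟩
  obtain ⟨Q, hQ⟩ := hz.exists_le_sylow
  have h1 := sylow_map_le_pCore_of_nilpotent (N := fittingSubgroup X) fitting_normal' fittingSubgroup_isNilpotent p Q
  rw [hO] at h1
  have h2 : ((x : X)) ∈ ((Q : Subgroup _).map (fittingSubgroup X).subtype : Subgroup X) :=
    mem_map_of_mem _ (hQ (mem_zpowers x))
  have h3 := h1 h2
  rw [mem_bot] at h3
  have h4 : x = 1 := Subtype.ext h3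
  rw [h4, orderOf_one] at hx
  exact hp.out.one_lt.ne hx

/-- The kernel of `Y → G / O_p(G)`. -/
theorem ker_theta {Y : Subgroup G} [hY : Y.Normal] [hQ : (pCore p G).Normal] :
    ((QuotientGroup.mk' (pCore p G)).comp Y.subtype).ker = pCore p ↥Y := by
  have hmem : ∀ y : ↥Y, y ∈ ((QuotientGroup.mk' (pCore p G)).comp Y.subtype).ker ↔ (y : G) ∈ pCore p G := by
    intro y
    rw [MonoidHom.mem_ker, MonoidHom.comp_apply, QuotientGroup.mk'_apply, QuotientGroup.eq_one_iff]
    rfl
  apply le_antisymm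
  · refine le_pCore (MonoidHom.normal_ker _) ?_
    have h1 : IsPGroup p ((pCore p G).subgroupOf Y) :=
      (pCore_isPGroup p).comap_of_injective _ Y.subtype_injective
    refine h1.to_le ?_
    intro y hy
    exact mem_subgroupOf.mpr ((hmem y).mp hy)
  · intro y hy
    rw [hmem]
    exact map_pCore_le_pCore Y (mem_map_of_mem _ hy)

/-- Nilpotency class at most two from the commutator identity. -/
theorem nilpotencyClass_le_two {H : Type*} [Group H] [Group.IsNilpotent H]
    (hc : ∀ a b c : H, ⁅⁅a, b⁆, c⁆ = 1) : Group.nilpotencyClass H ≤ 2 := by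
  rw [← _root_.lowerCentralSeries_eq_bot_iff_nilpotencyClass_le]
  show ⁅⁅(⊤ : Subgroup H), ⊤⁆, ⊤⁆ = ⊥
  have h1 : ⁅(⊤ : Subgroup H), ⊤⁆ ≤ center H := by
    rw [Subgroup.commutator_le]
    intro a _ b _
    rw [mem_center_iff]
    intro g
    have h2 := hc a b g
    rw [commutatorElement_eq_one_iff_commute] at h2
    exact h2.symm.eq
  rw [eq_bot_iff, Subgroup.commutator_le]
  intro x hx g _
  have h2 := h1 hx
  rw [mem_center_iff] at h2
  rw [mem_bot, commutatorElement_eq_one_iff_mul_comm]
  exact (h2 g).symm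

/-- The second half of S3045. -/
theorem quotient_props {Y : Subgroup G} [hY : Y.Normal] [hQ : (pCore p G).Normal] {t : ℕ}
    [hpn : (pCore p ↥Y).Normal]
    (hKt : IsPGroup t (Y.map (QuotientGroup.mk' (pCore p G))))
    (hcl : ⁅⁅Y.map (QuotientGroup.mk' (pCore p G)), Y.map (QuotientGroup.mk' (pCore p G))⁆,
      Y.map (QuotientGroup.mk' (pCore p G))⁆ = ⊥) (ht : t.Prime) :
    IsPGroup t (↥Y ⧸ pCore p ↥Y) ∧
      ∃ _ : Group.IsNilpotent (↥Y ⧸ pCore p ↥Y), Group.nilpotencyClass (↥Y ⧸ pCore p ↥Y) ≤ 2 := by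
  set π := QuotientGroup.mk' (pCore p G) with hπ
  have hmem : ∀ y : ↥Y, π (y : G) = 1 → (QuotientGroup.mk y : ↥Y ⧸ pCore p ↥Y) = 1 := by
    intro y hy
    rw [QuotientGroup.eq_one_iff, ← ker_theta (p := p) (Y := Y)]
    exact hy
  have hP : IsPGroup t (↥Y ⧸ pCore p ↥Y) := by
    intro q
    obtain ⟨y, rfl⟩ := QuotientGroup.mk_surjective q
    obtain ⟨n, hn⟩ := hKt ⟨π y, mem_map_of_mem _ y.2⟩
    refine ⟨n, ?_⟩
    rw [← QuotientGroup.mk_pow]
    apply hmem
    have := congrArg Subtype.val hn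
    simpa using this
  haveI : Fact t.Prime := ⟨ht⟩
  haveI hnil : Group.IsNilpotent (↥Y ⧸ pCore p ↥Y) := hP.isNilpotent
  refine ⟨hP, hnil, nilpotencyClass_le_two ?_⟩
  intro a b c
  obtain ⟨x, rfl⟩ := QuotientGroup.mk_surjective a
  obtain ⟨y, rfl⟩ := QuotientGroup.mk_surjective b
  obtain ⟨z, rfl⟩ := QuotientGroup.mk_surjective c
  have h1 : (QuotientGroup.mk ⁅⁅x, y⁆, z⁆ : ↥Y ⧸ pCore p ↥Y) = 1 := by
    apply hmem
    have h2 : ⁅⁅π x, π y⁆, π z⁆ ∈ ⁅⁅Y.map π, Y.map π⁆, Y.map π⁆ :=
      commutator_mem_commutator (commutator_mem_commutator (mem_map_of_mem _ x.2) (mem_map_of_mem _ y.2))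
        (mem_map_of_mem _ z.2)
    rw [hcl, mem_bot] at h2
    rw [← h2]
    simp [commutatorElement_def]
  exact h1

end Cfsg.Agent.Lib.LocalEven2
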