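import Cfsg.Agent.Lib.LocalEven2.JC9
import Cfsg.Agent.Lib.PGroups.AltGen2

/-!
# The maximal straddling 2-subgroups
-/

set_option autoImplicit false
set_option linter.unusedSectionVars false
set_option linter.unusedVariables false

namespace Cfsg.Agent.Lib.LocalEven2.JC

open Subgroup Cfsg Cfsg.Agent.Lib.PLocal
open Cfsg.Agent.Lib.OddLocal (MaxEA thompsonSubgroupOf_eq le_thompsonSubgroupOf MaxEA_nonempty isElementaryAbelian_map
  isElementaryAbelian_subgroupOf)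
open Cfsg.Agent.Lib.LocalEven (cj cj_inv_cj cj_cj_inv le_cj_iff cj_mono isPGroup_cj cj_eq_of_mem_normalizer)
open scoped commutatorElement

variable {G : Type*} [Group G] [Finite G]

theorem maxOrder_eq {T A : Subgroup G} (hA : A ∈ MaxEA 2 T) : maxElemAbelianOrder T = Nat.card A := by
  unfold maxElemAbelianOrder
  have e : Nat.card (A.subgroupOf T) = Nat.card A := Nat.card_congr (subgroupOfEquivOfLe hA.1).toEquiv
  have himg : (fun B : Subgroup ↥T => Nat.card ↥B) '' maxElementaryAbelianSubgroups 2 ↥T = {Nat.card A} := by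
    ext n
    constructor
    · rintro ⟨B, hB, rfl⟩
      have h1 : (B.map T.subtype) ≤ T := map_subtype_le _
      have h2 := hA.2.2 _ h1 (isElementaryAbelian_map _ hB.1)
      rw [Subgroup.card_map_of_injective T.subtype_injective] at h2
      have h3 := hB.2 (A.subgroupOf T) (isElementaryAbelian_subgroupOf T hA.2.1)
      rw [e] at h3
      exact le_antisymm h2 h3
    · rintro rfl
      refine ⟨A.subgroupOf T, ⟨isElementaryAbelian_subgroupOf T hA.2.1, fun B hB => ?_⟩, e⟩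
      rw [e]
      have h1 : (B.map T.subtype) ≤ T := map_subtype_le _
      have h2 := hA.2.2 _ h1 (isElementaryAbelian_map _ hB)
      rwa [Subgroup.card_map_of_injective T.subtype_injective] at h2
  rw [himg, csSup_singleton]

theorem two_dvd_of_ne_bot {T : Subgroup G} (hT : IsPGroup 2 T) (hT1 : T ≠ ⊥) : 2 ∣ Nat.card T := by
  obtain ⟨n, hn⟩ := IsPGroup.iff_card.1 hT
  rw [hn]
  rcases n with _ | n
  · exfalso
    rw [pow_zero] at hn
    exact hT1 (Subgroup.eq_bot_of_card_eq T hn)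
  · rw [pow_succ]
    exact dvd_mul_left _ _

theorem J_ne_bot {T : Subgroup G} (hT : IsPGroup 2 T) (hT1 : T ≠ ⊥) : thompsonSubgroupOf 2 T ≠ ⊥ := by
  intro hJ
  obtain ⟨A, hA⟩ := MaxEA_nonempty 2 T
  have hA1 : A = ⊥ := le_bot_iff.1 (hJ ▸ le_thompsonSubgroupOf hA)
  haveI : Fact (Nat.Prime 2) := ⟨Nat.prime_two⟩
  obtain ⟨z, hz⟩ := exists_prime_orderOf_dvd_card' (G := ↥T) 2 (two_dvd_of_ne_bot hT hT1)
  have hz2 : (z : G) ^ 2 = 1 := by
    have := pow_orderOf_eq_one z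
    rw [hz] at this
    exact congrArg Subtype.val this
  have hB : IsElementaryAbelian 2 (zpowers (z : G)) := by
    rw [isEA_iff]
    constructor
    · rintro a ⟨i, rfl⟩ b ⟨j, rfl⟩
      exact (Commute.refl (z : G)).zpow_zpow i j |>.eq
    · rintro a ⟨i, rfl⟩
      show ((z : G) ^ i) ^ 2 = 1
      rw [← zpow_natCast, ← zpow_mul, mul_comm, zpow_mul]
      have : (z : G) ^ ((2 : ℕ) : ℤ) = 1 := by rw [zpow_natCast]; exact hz2
      rw [this, one_zpow]
  have h1 := hA.2.2 _ ((zpowers_le).2 z.2) hB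
  rw [hA1, Subgroup.card_bot, Nat.card_zpowers] at h1
  have h2 : orderOf (z : G) = 2 := by
    rw [Subgroup.orderOf_coe]
    exact hz
  omega

section straddle

variable {M T D : Subgroup G}

theorem straddle_J (hT : T ∈ maxStraddlingTwoSubgroups M) (hD : D ∈ straddlingTwoSubgroups M)
    (hJD : thompsonSubgroupOf 2 T ≤ D) :
    thompsonSubgroupOf 2 D = thompsonSubgroupOf 2 T ∧ maxElemAbelianOrder D = maxElemAbelianOrder T := by
  obtain ⟨A, hA⟩ := MaxEA_nonempty 2 T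
  obtain ⟨B, hB⟩ := MaxEA_nonempty 2 D
  obtain ⟨h1, h2⟩ := hT.2 D hD
  have hAe := maxOrder_eq hA
  have hBe := maxOrder_eq hB
  have hAD : A ≤ D := (le_thompsonSubgroupOf hA).trans hJD
  have h3 : Nat.card A ≤ Nat.card B := hB.2.2 A hAD hA.2.1
  have heq : maxElemAbelianOrder D = maxElemAbelianOrder T := by
    apply le_antisymm h1
    rw [hAe, hBe]
    exact h3
  refine ⟨?_, heq⟩
  have h4 := (h2 heq).1
  have hle : thompsonSubgroupOf 2 T ≤ thompsonSubgroupOf 2 D := by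
    rw [thompsonSubgroupOf_eq 2 T]
    refine sSup_le fun A' hA' => le_thompsonSubgroupOf ?_
    refine ⟨(le_thompsonSubgroupOf hA').trans hJD, hA'.2.1, fun C hC hCE => ?_⟩
    have e1 : Nat.card A' = Nat.card A := by
      rw [← maxOrder_eq hA', hAe]
    rw [e1]
    have h5 := hB.2.2 C hC hCE
    have h6 : Nat.card B ≤ Nat.card A := by
      rw [← hBe, ← hAe, heq]
    exact h5.trans h6
  exact (Subgroup.eq_of_le_of_card_ge hle h4).symm

theorem straddle_eq (hT : T ∈ maxStraddlingTwoSubgroups M) (hD : D ∈ straddlingTwoSubgroups M) (hTD : T ≤ D) : D = T := by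
  have hJD : thompsonSubgroupOf 2 T ≤ D := (thompson_le T).trans hTD
  obtain ⟨h1, h2⟩ := straddle_J hT hD hJD
  obtain ⟨_, h3⟩ := hT.2 D hD
  have h4 := (h3 h2).2 (by rw [h1])
  exact (Subgroup.eq_of_le_of_card_ge hTD h4).symm

theorem isSylowTwoIn_of_le_index {S M : Subgroup G} (hS : S ≤ M) (hp : IsPGroup 2 S) (hi : Odd S.index) :
    IsSylowTwoIn S M := by
  refine ⟨hS, hp, ?_⟩
  have h1 := Subgroup.relIndex_mul_index hS
  rw [← h1] at hi
  exact (Nat.odd_mul.1 hi).1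

theorem normalizer_J_le (S : Sylow 2 G) {M : Subgroup G}
    (hMJ : normalizer (thompsonSubgroupOf 2 (S : Subgroup G) : Set G) ≤ M) (hT : T ∈ maxStraddlingTwoSubgroups M) :
    normalizer (thompsonSubgroupOf 2 T : Set G) ≤ M := by
  by_contra hn
  obtain ⟨⟨hTp, hT1, hTM, -⟩, -⟩ := id hT
  set J := thompsonSubgroupOf 2 T with hJ
  set N := normalizer (J : Set G) with hN
  have hN2 : IsTwoLocal N := ⟨J, hTp.to_le (thompson_le T), J_ne_bot hTp hT1, rfl⟩
  have hTN : T ≤ N := le_normalizer.trans (Cfsg.Agent.Lib.PLocal.normalizer_le_normalizer_thompsonOf (p := 2) T)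
  -- `T` is a Sylow subgroup of `N ⊓ M`
  obtain ⟨T₁, hT₁, hTT₁⟩ := Data.exists_sylowIn (le_inf hTN hTM : T ≤ N ⊓ M) hTp
  have hT₁s : T₁ ∈ straddlingTwoSubgroups M := by
    refine ⟨hT₁.2.1, ?_, hT₁.1.trans inf_le_right, N, hN2, hT₁.1.trans inf_le_left, hn⟩
    intro he
    rw [he, le_bot_iff] at hTT₁
    exact hT1 hTT₁
  have hT₁e := straddle_eq hT hT₁s hTT₁
  subst hT₁e
  -- `T` is a Sylow subgroup of `M`
  obtain ⟨T₂, hT₂, hTT₂⟩ := Data.exists_sylowIn hTM hTp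
  have hT₂e : T₂ = T₁ := by
    by_contra hne
    have hlt : T₁ < T₂ := lt_of_le_of_ne hTT₂ (Ne.symm hne)
    obtain ⟨u, hu, hu2, hu3⟩ := Cfsg.Agent.Lib.PGroups.exists_mem_normalizer_of_lt hT₂.2.1 hlt
    have hun : u ∈ normalizer (T₁ : Set G) := Cfsg.Agent.Lib.Coprime.mem_normalizer_of_conj_le _ _ hu3
    have hu4 : u ∈ N := Cfsg.Agent.Lib.PLocal.normalizer_le_normalizer_thompsonOf (p := 2) T₁ hun
    have hle : T₁ ⊔ zpowers u ≤ T₂ := sup_le hTT₂ ((zpowers_le).2 hu)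
    have h5 := sylow_max hT₁ (sup_le hT₁.1 ((zpowers_le).2 ⟨hu4, hT₂.1 hu⟩)) (hT₂.2.1.to_le hle) le_sup_left
    apply hu2
    rw [← h5]
    exact Subgroup.mem_sup_right (Subgroup.mem_zpowers u)
  subst hT₂e
  -- Conjugate to `S`
  have hSN : (S : Subgroup G) ≤ M :=
    (le_normalizer.trans (Cfsg.Agent.Lib.PLocal.normalizer_le_normalizer_thompsonOf (p := 2) _)).trans hMJ
  have hS : IsSylowTwoIn (S : Subgroup G) M := by
    apply isSylowTwoIn_of_le_index hSN S.isPGroup'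
    have := S.not_dvd_index
    exact Nat.not_even_iff_odd.1 fun h2 => this h2.two_dvd
  obtain ⟨m, hm, he⟩ := exists_conj_of_sylowIn hS hT₂
  apply hn
  intro g hg
  have hJe : J = cj m (thompsonSubgroupOf 2 (S : Subgroup G)) := by
    rw [hJ, he, thompson_cj]
  have h1 : m⁻¹ * g * m ∈ normalizer (thompsonSubgroupOf 2 (S : Subgroup G) : Set G) := by
    apply Cfsg.Agent.Lib.Coprime.mem_normalizer_of_conj_le
    intro y hy
    have h2 : m * y * m⁻¹ ∈ J := by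
      rw [hJe]
      exact ⟨y, hy, rfl⟩
    have h3 := (Subgroup.mem_normalizer_iff.1 hg _).1 h2
    rw [hJe] at h3
    obtain ⟨z, hz, hze⟩ := h3
    have h4 : m⁻¹ * g * m * y * (m⁻¹ * g * m)⁻¹ = z := by
      have hze' : m * z * m⁻¹ = g * (m * y * m⁻¹) * g⁻¹ := hze
      calc m⁻¹ * g * m * y * (m⁻¹ * g * m)⁻¹ = m⁻¹ * (g * (m * y * m⁻¹) * g⁻¹) * m := by group
        _ = m⁻¹ * (m * z * m⁻¹) * m := by rw [hze']
        _ = z := by group
    rw [h4]
    exact hz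
  have h2 := hMJ h1
  have e : g = m * (m⁻¹ * g * m) * m⁻¹ := by group
  rw [e]
  exact M.mul_mem (M.mul_mem hm h2) (M.inv_mem hm)

/-- The centralizer condition. -/
theorem cent_core_le (hL : IsCharacteristicTwoType G) {L : Subgroup G} (hL2 : IsTwoLocal L) :
    centralizer ((pCoreOf 2 L : Subgroup G) : Set G) ≤ pCoreOf 2 L := by
  obtain ⟨W, hWp, hW1, rfl⟩ := hL2
  set N := normalizer (W : Set G) with hNdef
  have hch := hL.2 W hWp hW1
  have hWQ : W ≤ pCoreOf 2 N := by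
    intro w hw
    have hWN : W ≤ N := le_normalizer
    exact ⟨⟨w, hWN hw⟩, Cfsg.Agent.Lib.LocalEven2.mem_pCore_subgroup hWN le_rfl hWp hw, rfl⟩
  intro c hc
  have hcW : c ∈ centralizer (W : Set G) := Subgroup.centralizer_le hWQ hc
  have hcN : c ∈ N := by
    apply Cfsg.Agent.Lib.Coprime.mem_normalizer_of_conj_le
    intro w hw
    have := Subgroup.mem_centralizer_iff.1 hcW w hw
    rw [← this, mul_inv_cancel_right]
    exact hw
  have h1 : (⟨c, hcN⟩ : ↥N) ∈ centralizer (pCore 2 ↥N : Set ↥N) := by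
    refine Subgroup.mem_centralizer_iff.2 fun u hu => ?_
    apply Subtype.ext
    exact Subgroup.mem_centralizer_iff.1 hc u ⟨u, hu, rfl⟩
  exact ⟨_, hch h1, rfl⟩

/-- The first three conclusions. -/
theorem main_straddle (hL : IsCharacteristicTwoType G) (S : Sylow 2 G) {M : Subgroup G}
    (hMJ : normalizer (thompsonSubgroupOf 2 (S : Subgroup G) : Set G) ≤ M) (hT : T ∈ maxStraddlingTwoSubgroups M)
    {L : Subgroup G} (hL2 : IsTwoLocal L) (hLM : ¬ L ≤ M) {T₀ : Subgroup G} (hT₀ : IsSylowTwoIn T₀ L)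
    (hJT₀ : thompsonSubgroupOf 2 T ≤ T₀) :
    thompsonSubgroupOf 2 T = thompsonSubgroupOf 2 T₀ ∧ T₀ ∈ straddlingTwoSubgroups M ∧ L ∈ jOvergroups T₀ := by
  obtain ⟨⟨hTp, hT1, hTM, -⟩, -⟩ := id hT
  have hNM := normalizer_J_le S hMJ hT
  set J := thompsonSubgroupOf 2 T with hJ
  have hJ1 : J ≠ ⊥ := J_ne_bot hTp hT1
  set D := T₀ ⊓ normalizer (J : Set G) with hD
  have hJD : J ≤ D := le_inf hJT₀ le_normalizer
  have hDs : D ∈ straddlingTwoSubgroups M := by
    refine ⟨hT₀.2.1.to_le inf_le_left, ?_, inf_le_right.trans hNM, L, hL2, inf_le_left.trans hT₀.1, hLM⟩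
    intro he
    rw [he, le_bot_iff] at hJD
    exact hJ1 hJD
  have hJJD := (straddle_J hT hDs hJD).1
  have hDe : D = T₀ := by
    by_contra hne
    have hlt : D < T₀ := lt_of_le_of_ne inf_le_left hne
    obtain ⟨u, hu, hu2, hu3⟩ := Cfsg.Agent.Lib.PGroups.exists_mem_normalizer_of_lt hT₀.2.1 hlt
    have hun : u ∈ normalizer (D : Set G) := Cfsg.Agent.Lib.Coprime.mem_normalizer_of_conj_le _ _ hu3
    have hu4 := Cfsg.Agent.Lib.PLocal.normalizer_le_normalizer_thompsonOf (p := 2) D hun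
    rw [hJJD] at hu4
    exact hu2 ⟨hu, hu4⟩
  have hT₀M : T₀ ≤ M := by
    rw [← hDe]
    exact inf_le_right.trans hNM
  have hJJ₀ : J = thompsonSubgroupOf 2 T₀ := by
    rw [← hDe, hJJD]
  have hT₀s : T₀ ∈ straddlingTwoSubgroups M := by
    rw [← hDe]
    refine ⟨hDs.1, hDs.2.1, hDs.2.2.1, L, hL2, inf_le_left.trans hT₀.1, hLM⟩
  refine ⟨hJJ₀, hT₀s, hT₀, ?_, cent_core_le hL hL2⟩
  rw [← hJJ₀]
  intro hle
  apply hLM
  have hQT := Q_le_T hT₀
  have h1 : thompsonSubgroupOf 2 (pCoreOf 2 L) = thompsonSubgroupOf 2 T₀ :=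
    Cfsg.Agent.Lib.PLocal.thompsonOf_eq_of_le (by rw [← hJJ₀]; exact hle) hQT
  have h2 : L ≤ normalizer (J : Set G) := by
    have h3 := (Cfsg.Agent.Lib.LocalEven.le_normalizer_pCoreOf (p := 2) L).trans
      (Cfsg.Agent.Lib.PLocal.normalizer_le_normalizer_thompsonOf (p := 2) (pCoreOf 2 L))
    rwa [h1, ← hJJ₀] at h3
  exact h2.trans hNM

/-- The overgroup conditions. -/
theorem LS_of_two_local (hL : IsCharacteristicTwoType G) (hN : ∀ N : Subgroup G, IsTwoLocal N → Group.IsSolvable ↥N)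
    (hZ : ∀ S : Sylow 2 G, centralizer (omegaCenterOf (S : Subgroup G) : Set G) ≤ normalizer ((S : Subgroup G) : Set G))
    {L : Subgroup G} (hL2 : IsTwoLocal L) : LS L := by
  refine ⟨hL, hN, hZ, cent_core_le hL hL2, ?_⟩
  obtain ⟨W, hWp, hW1, -⟩ := hL2
  intro he
  apply hW1
  rw [eq_bot_iff, ← he]
  exact le_top

/-- An element of `A` acting as a transvection and not in a given proper subgroup. -/
theorem exists_trv_A {L T A : Subgroup G} (hLS : LS L) (hT : IsSylowTwoIn T L) (hA : A ∈ MaxEA 2 T) {D₀ : Subgroup _}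
    (hlt : D₀ < (A.subgroupOf L).map (phi ↥L)) :
    ∃ a ∈ A, ∃ haL : a ∈ L, Trv 2 (VX ↥L) (HX ↥L) (phi ↥L ⟨a, haL⟩) ∧ phi ↥L ⟨a, haL⟩ ∉ D₀ := by
  have hAmax := subgroupOf_mem_maxEA hT hA
  have S := setupX hLS.hsol hLS.hcX
  have hbo : IsBestOffenderOn 2 (VX ↥L) ((A.subgroupOf L).map (phi ↥L)) := bo_map (omegaSylow_isEA hLS.hcX) hAmax
  have hle : (A.subgroupOf L).map (phi ↥L) ≤ HX ↥L := Subgroup.map_mono (le_thompson hAmax)
  obtain ⟨B, hBA, hB, hc, hBT⟩ := S.exists_min_not_le _ _ _ rfl hle hbo hlt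
  obtain ⟨c, rfl, hcT⟩ := S.trv_of_card (hBA.trans hle) hB hc
  have hcA : c ∈ (A.subgroupOf L).map (phi ↥L) := hBA (Subgroup.mem_zpowers c)
  obtain ⟨a', ha', rfl⟩ := hcA
  refine ⟨a', ha', a'.2, hcT, ?_⟩
  intro hmem
  apply hBT
  rw [zpowers_le]
  exact hmem

theorem exists_trv {L T : Subgroup G} (hLS : LS L) (hT : IsSylowTwoIn T L)
    (hJ : ¬ thompsonSubgroupOf 2 T ≤ pCoreOf 2 L) :
    ∃ A ∈ MaxEA 2 T, ∃ a ∈ A, ∃ haL : a ∈ L, Trv 2 (VX ↥L) (HX ↥L) (phi ↥L ⟨a, haL⟩) := by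
  have hJC : ¬ thompsonSubgroupOf 2 T ≤ CCL L := fun hle =>
    hJ fun j hj => hLS.T_inf_C_le_Q hT ⟨thompson_le T hj, hle hj⟩
  obtain ⟨A, hA, hAC⟩ : ∃ A ∈ MaxEA 2 T, ¬ A ≤ CCL L := by
    by_contra hcon
    push Not at hcon
    apply hJC
    rw [thompsonSubgroupOf_eq]
    exact sSup_le hcon
  have hlt : ⊥ < (A.subgroupOf L).map (phi ↥L) := by
    rw [bot_lt_iff_ne_bot]
    intro he
    apply hAC
    intro a ha
    have haL : a ∈ L := hT.1 (hA.1 ha)
    have h1 : phi ↥L ⟨a, haL⟩ ∈ (A.subgroupOf L).map (phi ↥L) := ⟨⟨a, haL⟩, ha, rfl⟩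
    rw [he, Subgroup.mem_bot] at h1
    exact ker_mem' h1
  obtain ⟨a, ha, haL, hc, -⟩ := exists_trv_A hLS hT hA hlt
  exact ⟨A, hA, a, ha, haL, hc⟩

end straddle

end Cfsg.Agent.Lib.LocalEven2.JC
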