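import Cfsg.Agent.Lib.LocalEven2.JC10

/-!
# An overgroup is generated by its `J(T)`-components and the normalizer of `J(T)`
-/

set_option autoImplicit false
set_option linter.unusedSectionVars false
set_option linter.unusedVariables false

namespace Cfsg.Agent.Lib.LocalEven2.JC

open Subgroup Cfsg Cfsg.Agent.Lib.PLocal
open Cfsg.Agent.Lib.OddLocal (MaxEA thompsonSubgroupOf_eq le_thompsonSubgroupOf MaxEA_nonempty isElementaryAbelian_map
  isElementaryAbelian_subgroupOf)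
open Cfsg.Agent.Lib.LocalEven (cj cj_mul cj_inv_cj cj_cj_inv le_cj_iff cj_mono isPGroup_cj cj_eq_of_mem_normalizer)
open scoped commutatorElement

variable {G : Type*} [Group G] [Finite G]

theorem odd_sup_top {Γ : Type*} [Group Γ] [Finite Γ] {S : Subgroup Γ} (hS : Odd S.index) :
    S ⊔ closure {g : Γ | Odd (orderOf g)} = ⊤ := by
  set N := closure {g : Γ | Odd (orderOf g)} with hN
  have hNn : N.Normal := by
    refine ⟨fun n hn g => ?_⟩
    have hle : N ≤ N.comap (MulAut.conj g).toMonoidHom := by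
      rw [hN, closure_le]
      intro y hy
      show g * y * g⁻¹ ∈ Subgroup.closure _
      apply Subgroup.subset_closure
      show Odd (orderOf (g * y * g⁻¹))
      have e : orderOf (g * y * g⁻¹) = orderOf y := by
        rw [← MulAut.conj_apply]
        exact MulEquiv.orderOf_eq _ _
      rw [e]
      exact hy
    exact hle hn
  set U := S ⊔ N with hU
  have hNU : N ≤ U := le_sup_right
  have hp : IsPGroup 2 (Γ ⧸ N) := by
    intro q
    induction q using QuotientGroup.induction_on with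
    | H g =>
      obtain ⟨k, m, hm, hk⟩ := Nat.exists_eq_pow_mul_and_not_dvd (orderOf_pos g).ne' 2 (by norm_num)
      refine ⟨k, ?_⟩
      have h1 : (g ^ 2 ^ k) ^ m = 1 := by rw [← pow_mul, ← hk, pow_orderOf_eq_one]
      have h2 : Odd (orderOf (g ^ 2 ^ k)) := (Nat.odd_iff.2 (by omega)).of_dvd_nat (orderOf_dvd_of_pow_eq_one h1)
      have h3 : g ^ 2 ^ k ∈ N := Subgroup.subset_closure h2
      rw [← QuotientGroup.mk_pow]
      exact (QuotientGroup.eq_one_iff _).2 h3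
  have h1 : (U.map (QuotientGroup.mk' N)).index = U.index :=
    Subgroup.index_map_eq _ (QuotientGroup.mk'_surjective N) (by rw [QuotientGroup.ker_mk']; exact hNU)
  obtain ⟨n, hn⟩ := IsPGroup.iff_card.1 hp
  have h2 : U.index ∣ 2 ^ n := by
    rw [← h1, ← hn]
    exact Subgroup.index_dvd_card _
  have h3 : U.index ∣ S.index := Subgroup.index_dvd_of_le le_sup_left
  have h4 : Odd U.index := hS.of_dvd_nat h3
  obtain ⟨m, _, hm⟩ := (Nat.dvd_prime_pow Nat.prime_two).1 h2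
  rw [← Subgroup.index_eq_one]
  rcases m with _ | m
  · simpa using hm
  · exfalso
    rw [hm, pow_succ] at h4
    exact (Nat.not_even_iff_odd.2 h4) (even_two.mul_left _)

section offender

variable {Γ : Type*} [Group Γ] [Finite Γ] {V H : Subgroup Γ}

/-- The square of an element lies in every `H`-invariant subgroup containing the factors. -/
theorem sq_mem (hgen : H ≤ closure {c : Γ | Trv 2 V H c}) (S : OffSetup 2 V H) {P : Subgroup Γ}
    (hPn : H ≤ normalizer (P : Set Γ)) (hE : ∀ c, Trv 2 V H c → ⁅coreOf 2 H, zpowers c⁆ ≤ P) {y : Γ} (hy : y ∈ H) :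
    y * y ∈ P := by
  let D : Subgroup Γ :=
    { carrier := {h | h ∈ H ∧ h * h ∈ P ∧ ∀ g ∈ H, h * g * h⁻¹ * g⁻¹ ∈ P}
      one_mem' := ⟨H.one_mem, by simp [P.one_mem], fun g _ => by simp [P.one_mem]⟩
      mul_mem' := by
        rintro h₁ h₂ ⟨a1, a2, a3⟩ ⟨b1, b2, b3⟩
        refine ⟨H.mul_mem a1 b1, ?_, fun g hg => ?_⟩
        · have e : h₁ * h₂ * (h₁ * h₂) = (h₁ * (h₂ * h₁ * h₂⁻¹ * h₁⁻¹) * h₁⁻¹) * (h₁ * h₁) * (h₂ * h₂) := by group
          rw [e]
          exact P.mul_mem (P.mul_mem ((Subgroup.mem_normalizer_iff.1 (hPn a1) _).1 (b3 h₁ a1)) a2) b2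
        · have e : h₁ * h₂ * g * (h₁ * h₂)⁻¹ * g⁻¹ = (h₁ * (h₂ * g * h₂⁻¹ * g⁻¹) * h₁⁻¹) * (h₁ * g * h₁⁻¹ * g⁻¹) := by
            group
          rw [e]
          exact P.mul_mem ((Subgroup.mem_normalizer_iff.1 (hPn a1) _).1 (b3 g hg)) (a3 g hg)
      inv_mem' := by
        rintro h ⟨a1, a2, a3⟩
        refine ⟨H.inv_mem a1, ?_, fun g hg => ?_⟩
        · have e : h⁻¹ * h⁻¹ = (h * h)⁻¹ := by group
          rw [e]
          exact P.inv_mem a2
        · have hg' : h⁻¹ * g * h⁻¹⁻¹ ∈ H := H.mul_mem (H.mul_mem (H.inv_mem a1) hg) (H.inv_mem (H.inv_mem a1))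
          have h1 := a3 _ hg'
          have e : h⁻¹ * g * h⁻¹⁻¹ * g⁻¹ = (h * (h⁻¹ * g * h⁻¹⁻¹) * h⁻¹ * (h⁻¹ * g * h⁻¹⁻¹)⁻¹)⁻¹ := by group
          rw [e]
          exact P.inv_mem h1 }
  have hHD : H ≤ D := by
    refine hgen.trans ((closure_le _).2 ?_)
    intro c hc
    have hc2 : c * c = 1 := by
      have := hc.pow
      rwa [pow_two] at this
    refine ⟨hc.mem, by rw [hc2]; exact P.one_mem, fun g hg => ?_⟩
    set E' := ⁅coreOf 2 H, zpowers c⁆ with hE'
    have hcE' : c ∉ E' := not_mem_fac' S hc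
    have hgc : g * c * g⁻¹ ∉ E' := by
      intro h
      apply hcE'
      have h2 := fac'_normal hgen S hc (H.inv_mem hg) h
      have e : g⁻¹ * (g * c * g⁻¹) * g⁻¹⁻¹ = c := by group
      rwa [e] at h2
    have hcE : c ∈ facOf 2 H c := fac_mem S hc
    have hgcE := fac_normal hgen S hc hg hcE
    have hm := mul_mem_of_card_le_two (fac'_le S hc) (by rw [fac_card S hc, fac'_card S hc])
      hcE hgcE hcE' hgc
    have e : c * g * c⁻¹ * g⁻¹ = c * (g * c * g⁻¹) := by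
      have hci : c⁻¹ = c := inv_eq_of_mul_eq_one_left hc2
      rw [hci]; group
    rw [e]
    exact hE c hc hm
  exact (hHD hy).2.1

theorem mem_of_odd_of_sq {y : Γ} {P : Subgroup Γ} (h : y * y ∈ P) (ho : Odd (orderOf y)) : y ∈ P := by
  obtain ⟨k, hk⟩ := ho
  have h1 : y = (y * y) ^ (k + 1) := by
    rw [← pow_two, ← pow_mul]
    have : 2 * (k + 1) = orderOf y + 1 := by omega
    rw [this, pow_succ, pow_orderOf_eq_one, one_mul]
  rw [h1]
  exact P.pow_mem h _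

/-- The subgroup generated by all factors. -/
def facAll (V H : Subgroup Γ) : Subgroup Γ := closure {e | ∃ c, Trv 2 V H c ∧ e ∈ ⁅coreOf 2 H, zpowers c⁆}

theorem facAll_norm (hgen : H ≤ closure {c : Γ | Trv 2 V H c}) (S : OffSetup 2 V H) :
    H ≤ normalizer ((facAll V H : Subgroup Γ) : Set Γ) := by
  intro h hh
  have hle : facAll V H ≤ (facAll V H).comap (MulAut.conj h).toMonoidHom := by
    rw [facAll, closure_le]
    rintro e ⟨c, hc, he⟩
    show h * e * h⁻¹ ∈ facAll V H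
    apply Subgroup.subset_closure
    exact ⟨c, hc, fac'_normal hgen S hc hh he⟩
  apply Cfsg.Agent.Lib.Coprime.mem_normalizer_of_conj_le
  intro u hu
  exact hle hu

theorem le_facAll {c : Γ} (hc : Trv 2 V H c) : ⁅coreOf 2 H, zpowers c⁆ ≤ facAll V H := fun e he =>
  Subgroup.subset_closure ⟨c, hc, he⟩

theorem mem_facAll_of_odd (hgen : H ≤ closure {c : Γ | Trv 2 V H c}) (S : OffSetup 2 V H) {y : Γ} (hy : y ∈ H)
    (ho : Odd (orderOf y)) : y ∈ facAll V H :=
  mem_of_odd_of_sq (sq_mem hgen S (facAll_norm hgen S) (fun _ hc => le_facAll hc) hy) ho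

end offender

section main

variable {L T : Subgroup G}

/-- The Frattini argument. -/
theorem frat (hT : IsSylowTwoIn T L) (l : ↥L) : ∃ c ∈ thompsonSubgroup 2 ↥L, ∃ n : ↥L,
    (n : G) ∈ normalizer (thompsonSubgroupOf 2 T : Set G) ∧ l = c * n := by
  haveI : (thompsonSubgroup 2 ↥L).Normal := thompson_normal
  obtain ⟨c, hc, n, hn, e⟩ := exists_mul_normalizer_sylow_inf (sylOf hT) (thompsonSubgroup 2 ↥L) l
  refine ⟨c, hc, n, ?_, e⟩
  set C := thompsonSubgroup 2 ↥L with hC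
  set T₃ := (((sylOf hT : Sylow 2 ↥L) : Subgroup ↥L) ⊓ C).map L.subtype with hT₃
  have hT₃T : T₃ ≤ T := by
    rintro _ ⟨y, hy, rfl⟩
    exact hy.1
  have hJT₃ : thompsonSubgroupOf 2 T ≤ T₃ := by
    intro j hj
    obtain ⟨v, hv, hve⟩ := thompson_le_JL hT hj
    refine ⟨v, ⟨?_, hv⟩, hve⟩
    show (v : G) ∈ T
    have : (v : G) = j := hve
    rw [this]
    exact thompson_le T hj
  have hth : thompsonSubgroupOf 2 T₃ = thompsonSubgroupOf 2 T :=
    Cfsg.Agent.Lib.PLocal.thompsonOf_eq_of_le hJT₃ hT₃T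
  have hn2 : (n : G) ∈ normalizer (T₃ : Set G) := by
    apply Cfsg.Agent.Lib.Coprime.mem_normalizer_of_conj_le
    rintro _ ⟨y, hy, rfl⟩
    exact ⟨n * y * n⁻¹, (Subgroup.mem_normalizer_iff.1 hn y).1 hy, rfl⟩
  have h3 := Cfsg.Agent.Lib.PLocal.normalizer_le_normalizer_thompsonOf (p := 2) T₃ hn2
  rwa [hth] at h3

/-- Members of `MaxEA` of `L` are conjugate under `J(L)` to members of `MaxEA` of `T`. -/
theorem conj_maxEA (hT : IsSylowTwoIn T L) {A' : Subgroup ↥L} (hA' : A' ∈ maxElementaryAbelianSubgroups 2 ↥L) :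
    ∃ c ∈ thompsonSubgroup 2 ↥L, ∃ B ∈ MaxEA 2 T, A'.map L.subtype = cj (c : G) B := by
  set A'' := A'.map L.subtype with hA''
  have hA''L : A'' ≤ L := map_subtype_le _
  have hA''p : IsPGroup 2 A'' := (isPGroup_of_isEA hA'.1).map _
  have hA''E : IsElementaryAbelian 2 A'' := isElementaryAbelian_map _ hA'.1
  have hcardA : Nat.card A'' = Nat.card A' := Subgroup.card_map_of_injective L.subtype_injective
  obtain ⟨P, hP, hAP⟩ := Data.exists_sylowIn hA''L hA''p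
  obtain ⟨l, hl, he⟩ := exists_conj_of_sylowIn hT hP
  obtain ⟨c, hc, n, hn, e⟩ := frat hT ⟨l, hl⟩
  have hle : (l : G) = (c : G) * (n : G) := congrArg Subtype.val e
  set B₀ := cj l⁻¹ A'' with hB₀
  have hB₀T : B₀ ≤ T := by
    rw [he] at hAP
    exact le_cj_iff.1 hAP
  have hcardB₀ : Nat.card B₀ = Nat.card A'' := Subgroup.card_map_of_injective (MulAut.conj l⁻¹).injective
  have hB₀E : IsElementaryAbelian 2 B₀ := isElementaryAbelian_map _ hA''E
  have hB₀m : B₀ ∈ MaxEA 2 T := by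
    refine ⟨hB₀T, hB₀E, fun D hD hDE => ?_⟩
    have h1 := hA'.2 (D.subgroupOf L) (isElementaryAbelian_subgroupOf L hDE)
    have e1 : Nat.card (D.subgroupOf L) = Nat.card D :=
      Nat.card_congr (subgroupOfEquivOfLe (hD.trans hT.1)).toEquiv
    rw [e1] at h1
    rw [hcardB₀, hcardA]
    exact h1
  set B := cj (n : G) B₀ with hB
  have hBJ : B ≤ thompsonSubgroupOf 2 T := by
    have h1 := cj_mono (g := (n : G)) (le_thompsonSubgroupOf hB₀m)
    rwa [cj_eq_of_mem_normalizer hn] at h1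
  have hBm : B ∈ MaxEA 2 T := by
    refine ⟨hBJ.trans (thompson_le T), isElementaryAbelian_map _ hB₀E, fun D hD hDE => ?_⟩
    have e1 : Nat.card B = Nat.card B₀ := Subgroup.card_map_of_injective (MulAut.conj (n : G)).injective
    rw [e1]
    exact hB₀m.2.2 D hD hDE
  refine ⟨c, hc, B, hBm, ?_⟩
  rw [hB, ← cj_mul, ← hle, hB₀, cj_cj_inv]

/-- Every factor comes from a transvection in `φ(A)`, `A ∈ MaxEA(T)`. -/
theorem exists_T_offender (hLS : LS L) (hT : IsSylowTwoIn T L) {c} (hc : Trv 2 (VX ↥L) (HX ↥L) c) :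
    ∃ A ∈ MaxEA 2 T, ∃ a ∈ A, ∃ haL : a ∈ L, Trv 2 (VX ↥L) (HX ↥L) (phi ↥L ⟨a, haL⟩) ∧
      ⁅coreOf 2 (HX ↥L), zpowers (phi ↥L ⟨a, haL⟩)⁆ = ⁅coreOf 2 (HX ↥L), zpowers c⁆ := by
  classical
  have S := setupX hLS.hsol hLS.hcX
  have hgen := genX hLS.hsol hLS.hcX
  have hcard := fac'_card S hc
  obtain ⟨y, hy, hy1⟩ : ∃ y ∈ ⁅coreOf 2 (HX ↥L), zpowers c⁆, y ≠ 1 := by
    rcases Subgroup.bot_or_exists_ne_one ⁅coreOf 2 (HX ↥L), zpowers c⁆ with he | he
    · rw [he, Subgroup.card_bot] at hcard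
      omega
    · exact he
  have hinv := fac_inv S hc hy hy1
  have hy3 : y ^ 3 = 1 := by
    have h1 := pow_card_eq_one' (x := (⟨y, hy⟩ : ↥(⁅coreOf 2 (HX ↥L), zpowers c⁆)))
    rw [hcard] at h1
    exact congrArg Subtype.val h1
  have hz := Cfsg.Agent.Lib.PLocal.eq_zpowers_of_card hcard hy hy1
  by_cases hall : ∀ B ∈ MaxEA 2 T, (B.subgroupOf L).map (phi ↥L) ≤ centralizer ({y} : Set _)
  · exfalso
    have hJX : thompsonSubgroup 2 ↥L ≤ (centralizer ({y} : Set _)).comap (phi ↥L) := by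
      refine sSup_le fun A' hA' a' ha' => ?_
      obtain ⟨c₀, hc₀, B, hB, he⟩ := conj_maxEA hT hA'
      have h1 : (a' : G) ∈ cj (c₀ : G) B := by
        rw [← he]
        exact ⟨a', ha', rfl⟩
      obtain ⟨b, hb, hbe⟩ := h1
      have hbe' : (c₀ : G) * b * (c₀ : G)⁻¹ = a' := hbe
      have hbL : b ∈ L := hT.1 (hB.1 hb)
      have hb2 : phi ↥L ⟨b, hbL⟩ ∈ centralizer ({y} : Set _) := hall B hB ⟨⟨b, hbL⟩, hb, rfl⟩
      have he2 : a' = c₀ * ⟨b, hbL⟩ * c₀⁻¹ := Subtype.ext hbe'.symm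
      show phi ↥L a' ∈ centralizer ({y} : Set _)
      rw [he2, map_mul, map_mul, map_inv]
      have hφc₀ : phi ↥L c₀ ∈ HX ↥L := ⟨c₀, hc₀, rfl⟩
      -- `y` conjugated
      set f := phi ↥L c₀ with hf
      have hy' : f⁻¹ * y * f⁻¹⁻¹ ∈ zpowers y := by
        rw [← hz]
        exact fac'_normal hgen S hc (Subgroup.inv_mem _ hφc₀) hy
      have hcm : Commute y (phi ↥L ⟨b, hbL⟩) := mem_c1.1 hb2
      have hcm2 : Commute (f⁻¹ * y * f⁻¹⁻¹) (phi ↥L ⟨b, hbL⟩) := by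
        obtain ⟨n, hn⟩ := Subgroup.mem_zpowers_iff.1 hy'
        rw [← hn]
        exact hcm.zpow_left n
      rw [mem_c1]
      have h5 := hcm2.eq
      calc y * (f * phi ↥L ⟨b, hbL⟩ * f⁻¹) = f * ((f⁻¹ * y * f⁻¹⁻¹) * phi ↥L ⟨b, hbL⟩) * f⁻¹ := by group
        _ = f * (phi ↥L ⟨b, hbL⟩ * (f⁻¹ * y * f⁻¹⁻¹)) * f⁻¹ := by rw [h5]
        _ = f * phi ↥L ⟨b, hbL⟩ * f⁻¹ * y := by group
    obtain ⟨g, hg, hge⟩ := hc.mem
    have h1 : c * y = y * c := by
      have := Subgroup.mem_centralizer_iff.1 (hJX hg) y rfl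
      rw [hge] at this
      exact this.symm
    have h2 : y = y⁻¹ := by
      rw [← hinv, h1]
      group
    have h3 : y * y = 1 := by
      calc y * y = y * y⁻¹ := by rw [← h2]
        _ = 1 := mul_inv_cancel _
    have h4 : y = 1 := by
      have := hy3
      rw [pow_succ, pow_two, h3, one_mul] at this
      exact this
    exact hy1 h4
  · push Not at hall
    obtain ⟨B, hB, hBn⟩ := hall
    have hlt : (B.subgroupOf L).map (phi ↥L) ⊓ centralizer ({y} : Set _) < (B.subgroupOf L).map (phi ↥L) :=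
      lt_of_le_of_ne inf_le_left fun he => hBn (inf_eq_left.1 he)
    obtain ⟨a, ha, haL, hc₁, hnot⟩ := exists_trv_A hLS hT hB hlt
    refine ⟨B, hB, a, ha, haL, hc₁, ?_⟩
    have hc₁C : phi ↥L ⟨a, haL⟩ ∉ centralizer ({y} : Set _) := fun hh => hnot ⟨⟨⟨a, haL⟩, ha, rfl⟩, hh⟩
    have hP := S.pack_of_trv hc
    have hP₁ := S.pack_of_trv hc₁
    rcases hP.eq_or_comm S hP₁ with he | ⟨_, _, _, hcm⟩
    · have hyE : y ∈ facOf 2 (HX ↥L) c := fac'_le S hc hy
      have hyE₁ : y ∈ facOf 2 (HX ↥L) (phi ↥L ⟨a, haL⟩) := by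
        have : facOf 2 (HX ↥L) c = facOf 2 (HX ↥L) (phi ↥L ⟨a, haL⟩) := he
        rwa [← this]
      have h2 := mem_fac'_of_pow3 S hc₁ hyE₁ hy3
      rw [hz]
      exact Cfsg.Agent.Lib.PLocal.eq_zpowers_of_card (fac'_card S hc₁) h2 hy1
    · exfalso
      apply hc₁C
      have hyE : y ∈ facOf 2 (HX ↥L) c := fac'_le S hc hy
      have hm : ⁅y, phi ↥L ⟨a, haL⟩⁆ ∈ ⁅facOf 2 (HX ↥L) c, facOf 2 (HX ↥L) (phi ↥L ⟨a, haL⟩)⁆ :=
        Subgroup.commutator_mem_commutator hyE (fac_mem S hc₁)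
      have hcm' : ⁅facOf 2 (HX ↥L) c, facOf 2 (HX ↥L) (phi ↥L ⟨a, haL⟩)⁆ = ⊥ := hcm
      rw [hcm', Subgroup.mem_bot, commutatorElement_eq_one_iff_mul_comm] at hm
      exact mem_c1.2 hm

/-- **If all the `J(T)`-components of `L` lie in `M` and `M` contains `N_G(J(T))`, then `L ≤ M`.** -/
theorem le_of_comps (hLS : LS L) (hT : IsSylowTwoIn T L) {M : Subgroup G}
    (hNM : normalizer (thompsonSubgroupOf 2 T : Set G) ≤ M) (hTM : T ≤ M)
    (hcomps : ∀ K, IsJComponent T K → K ≤ L → K ≤ M) : L ≤ M := by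
  classical
  have S := setupX hLS.hsol hLS.hcX
  have hgen := genX hLS.hsol hLS.hcX
  set Φ : Subgroup (Hol (omegaSylow 2 ↥L)) := (M.subgroupOf L).map (phi ↥L) with hΦ
  have hCM : CCL L ≤ M :=
    (hLS.CCL_le_norm hT).trans ((Cfsg.Agent.Lib.PLocal.normalizer_le_normalizer_thompsonOf (p := 2) T).trans hNM)
  -- factors lie in the image of `M`
  have hfac : facAll (VX ↥L) (HX ↥L) ≤ Φ := by
    rw [facAll, closure_le]
    rintro e ⟨c, hc, he⟩
    obtain ⟨A, hA, a, ha, haL, hc₁, heq⟩ := exists_T_offender hLS hT hc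
    obtain ⟨K, hK, hKL, x, hx, hxE, hxne⟩ := exists_comp hLS hT hA ha haL hc₁
    have hxM : (x : G) ∈ M := hcomps K hK hKL hx.mem
    rw [← heq] at he
    rw [Cfsg.Agent.Lib.PLocal.eq_zpowers_of_card (fac'_card S hc₁) hxE hxne] at he
    obtain ⟨n, rfl⟩ := Subgroup.mem_zpowers_iff.1 he
    have hxΦ : phi ↥L x ∈ Φ := ⟨x, hxM, rfl⟩
    exact Φ.zpow_mem hxΦ n
  -- odd elements of `J(L)` lie in `M`
  have hodd : ∀ y ∈ thompsonSubgroup 2 ↥L, Odd (orderOf y) → (y : G) ∈ M := by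
    intro y hy ho
    have hφ : phi ↥L y ∈ HX ↥L := ⟨y, hy, rfl⟩
    have hoφ : Odd (orderOf (phi ↥L y)) := ho.of_dvd_nat (orderOf_map_dvd _ _)
    have h1 := hfac (mem_facAll_of_odd hgen S hφ hoφ)
    obtain ⟨m, hm, hme⟩ := h1
    have h2 : phi ↥L (m⁻¹ * y) = 1 := by
      rw [map_mul, map_inv, hme, inv_mul_cancel]
    have h3 := hCM (ker_mem' h2)
    have e : (y : G) = (m : G) * ((m⁻¹ * y : ↥L) : G) := by
      simp
    rw [e]
    exact M.mul_mem hm h3
  -- `J(L) ≤ M`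
  have hJX : ∀ c ∈ thompsonSubgroup 2 ↥L, (c : G) ∈ M := by
    set C := thompsonSubgroup 2 ↥L with hC
    haveI : C.Normal := thompson_normal
    have hTn : ((sylOf hT : Sylow 2 ↥L) : Subgroup ↥L) ≤ normalizer (C : Set ↥L) := by
      rw [Subgroup.normalizer_eq_top_iff.mpr inferInstance]
      exact le_top
    obtain ⟨Q, hQ⟩ := Cfsg.Agent.Lib.LocalEven.exists_sylow_inf_of_normalizes (sylOf hT) hTn
    have hidx : Odd (Q : Subgroup ↥C).index := by
      have := Q.not_dvd_index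
      exact Nat.not_even_iff_odd.1 fun h2 => this h2.two_dvd
    have h1 := odd_sup_top hidx
    have hle : (Q : Subgroup ↥C) ⊔ closure {g : ↥C | Odd (orderOf g)} ≤ (M.subgroupOf L).subgroupOf C := by
      refine sup_le ?_ ?_
      · intro q hq
        rw [hQ] at hq
        have h2 : ((q : ↥L) : G) ∈ T := hq.1
        exact hTM h2
      · rw [closure_le]
        intro g hg
        refine hodd g g.2 ?_
        have h2 : Odd (orderOf g) := hg
        rwa [Subgroup.orderOf_coe] at *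
    rw [h1] at hle
    intro c hc
    exact hle (Subgroup.mem_top (⟨c, hc⟩ : ↥C))
  intro l hl
  obtain ⟨c, hc, n, hn, e⟩ := frat hT ⟨l, hl⟩
  have e' : l = (c : G) * (n : G) := congrArg Subtype.val e
  rw [e']
  exact M.mul_mem (hJX c hc) (hNM hn)

end main

end Cfsg.Agent.Lib.LocalEven2.JC
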