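import Cfsg.Agent.Lib.LocalEven2.JC11

/-!
# Uniqueness of the maximal 2-local overgroup of `K J(T)`
-/

set_option autoImplicit false
set_option linter.unusedSectionVars false
set_option linter.unusedVariables false

namespace Cfsg.Agent.Lib.LocalEven2.JC

open Subgroup Cfsg Cfsg.Agent.Lib.PLocal
open Cfsg.Agent.Lib.OddLocal (MaxEA thompsonSubgroupOf_eq le_thompsonSubgroupOf MaxEA_nonempty isElementaryAbelian_map
  isElementaryAbelian_subgroupOf)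
open Cfsg.Agent.Lib.LocalEven (cj cj_mul cj_inv_cj cj_cj_inv le_cj_iff cj_mono isPGroup_cj cj_eq_of_mem_normalizer)
open scoped commutatorElement

variable {G : Type*} [Group G] [Finite G]

section main

variable {L T : Subgroup G}

/-- **Every overgroup is generated by its components and the normalizer of `J(T)`**. -/
theorem le_of_comps' (hLS : LS L) (hT : IsSylowTwoIn T L) {M : Subgroup G}
    (hNM : normalizer (thompsonSubgroupOf 2 T : Set G) ⊓ L ≤ M)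
    (hcomps : ∀ K, IsJComponent T K → K ≤ L → K ≤ M) : L ≤ M := by
  classical
  have S := setupX hLS.hsol hLS.hcX
  have hgen := genX hLS.hsol hLS.hcX
  set Φ : Subgroup (Hol (omegaSylow 2 ↥L)) := (M.subgroupOf L).map (phi ↥L) with hΦ
  have hCM : CCL L ≤ M := by
    refine le_trans (le_inf ?_ (CCL_le L)) hNM
    exact (hLS.CCL_le_norm hT).trans (Cfsg.Agent.Lib.PLocal.normalizer_le_normalizer_thompsonOf (p := 2) T)
  have hTM : T ≤ M := by
    refine le_trans (le_inf ?_ hT.1) hNM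
    exact le_normalizer.trans (Cfsg.Agent.Lib.PLocal.normalizer_le_normalizer_thompsonOf (p := 2) T)
  -- factors lie in the image of `M`
  have hfac : facAll (VX ↥L) (HX ↥L) ≤ Φ := by
    rw [facAll, closure_le]
    rintro e ⟨c, hc, he⟩
    obtain ⟨A, hA, a, ha, haL, hc₁, heq⟩ := exists_T_offender hLS hT hc
    obtain ⟨K, hK, hKL, x, hx, hxE, hxne⟩ := exists_comp hLS hT hA ha haL hc₁
    have hxM : (x : G) ∈ M := hcomps K hK hKL hx.mem
    rw [← heq] at he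
    rw [Cfsg.Agent.Lib.PLocal.eq_zpowers_of_card (fac'_card S hc₁) hxE hxne] at he
    obtain ⟨n, rfl⟩ := Subgroup.mem_zpowers_iff.1 he
    have hxΦ : phi ↥L x ∈ Φ := ⟨x, hxM, rfl⟩
    exact Φ.zpow_mem hxΦ n
  -- odd elements of `J(L)` lie in `M`
  have hodd : ∀ y ∈ thompsonSubgroup 2 ↥L, Odd (orderOf y) → (y : G) ∈ M := by
    intro y hy ho
    have hφ : phi ↥L y ∈ HX ↥L := ⟨y, hy, rfl⟩
    have hoφ : Odd (orderOf (phi ↥L y)) := ho.of_dvd_nat (orderOf_map_dvd _ _)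
    have h1 := hfac (mem_facAll_of_odd hgen S hφ hoφ)
    obtain ⟨m, hm, hme⟩ := h1
    have h2 : phi ↥L (m⁻¹ * y) = 1 := by
      rw [map_mul, map_inv, hme, inv_mul_cancel]
    have h3 := hCM (ker_mem' h2)
    have e : (y : G) = (m : G) * ((m⁻¹ * y : ↥L) : G) := by
      simp
    rw [e]
    exact M.mul_mem hm h3
  -- `J(L) ≤ M`
  have hJX : ∀ c ∈ thompsonSubgroup 2 ↥L, (c : G) ∈ M := by
    set C := thompsonSubgroup 2 ↥L with hC
    haveI : C.Normal := thompson_normal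
    have hTn : ((sylOf hT : Sylow 2 ↥L) : Subgroup ↥L) ≤ normalizer (C : Set ↥L) := by
      rw [Subgroup.normalizer_eq_top_iff.mpr inferInstance]
      exact le_top
    obtain ⟨Q, hQ⟩ := Cfsg.Agent.Lib.LocalEven.exists_sylow_inf_of_normalizes (sylOf hT) hTn
    have hidx : Odd (Q : Subgroup ↥C).index := by
      have := Q.not_dvd_index
      exact Nat.not_even_iff_odd.1 fun h2 => this h2.two_dvd
    have h1 := odd_sup_top hidx
    have hle : (Q : Subgroup ↥C) ⊔ closure {g : ↥C | Odd (orderOf g)} ≤ (M.subgroupOf L).subgroupOf C := by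
      refine sup_le ?_ ?_
      · intro q hq
        rw [hQ] at hq
        have h2 : ((q : ↥L) : G) ∈ T := hq.1
        exact hTM h2
      · rw [closure_le]
        intro g hg
        refine hodd g g.2 ?_
        have h2 : Odd (orderOf g) := hg
        rwa [Subgroup.orderOf_coe] at *
    rw [h1] at hle
    intro c hc
    exact hle (Subgroup.mem_top (⟨c, hc⟩ : ↥C))
  intro l hl
  obtain ⟨c, hc, n, hn, e⟩ := frat hT ⟨l, hl⟩
  have e' : l = (c : G) * (n : G) := congrArg Subtype.val e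
  rw [e']
  exact M.mul_mem (hJX c hc) (hNM ⟨hn, n.2⟩)

end main

namespace Data

/-- An involution of `K` lies in `O₂(K)`. -/
theorem mem_O_of_sq {J K : Subgroup G} (D : Data J K) {u : G} (hu : u ∈ K) (h2 : u * u = 1) : u ∈ pCoreOf 2 K := by
  have hn : ((pCoreOf 2 K).subgroupOf K).Normal :=
    (Subgroup.normal_subgroupOf_iff_le_normalizer Data.O_le).2 (Cfsg.Agent.Lib.LocalEven.le_normalizer_pCoreOf K)
  have h3 := Subgroup.pow_index_mem ((pCoreOf 2 K).subgroupOf K) (⟨u, hu⟩ : ↥K)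
  have hi : ((pCoreOf 2 K).subgroupOf K).index = 3 := D.hidx
  rw [hi] at h3
  have h4 : (u ^ 3 : G) ∈ pCoreOf 2 K := h3
  have e : u ^ 3 = u := by
    rw [pow_succ, pow_two, h2, one_mul]
  rwa [e] at h4

end Data

namespace CompIn

variable {L T K T₁ K₁ : Subgroup G}

/-- The commutator of `x` with an element of `V` lies in `W`. -/
theorem comm_mem_W (h : CompIn L T K) {x : G} (hx : Data.IsX K x) {v : ↥L} (hv : v ∈ omegaSylow 2 ↥L) :
    x * (v : G) * x⁻¹ * (v : G)⁻¹ ∈ wOf K := by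
  have hLS := h.hLS
  set xx : ↥L := ⟨x, h.hKL hx.mem⟩ with hxx
  have hconj : ∀ y : ↥L, y ∈ omegaSylow 2 ↥L → xx * y * xx⁻¹ ∈ omegaSylow 2 ↥L := fun y hy =>
    (omegaSylow_normal_inst).conj_mem _ hy xx
  set w : ↥L := xx * v * xx⁻¹ with hw
  set w2 : ↥L := xx * w * xx⁻¹ with hw2
  have hwV : w ∈ omegaSylow 2 ↥L := hconj v hv
  have hw2V : w2 ∈ omegaSylow 2 ↥L := hconj w hwV
  have hx3 : xx * xx * xx = 1 := by
    apply Subtype.ext
    show x * x * x = 1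
    rw [← hx.pow3, pow_succ, pow_two]
  have hxw2 : xx * w2 * xx⁻¹ = v := by
    have h1 : xx * w2 * xx⁻¹ = (xx * xx * xx) * v * (xx * xx * xx)⁻¹ := by
      rw [hw2, hw]; group
    rw [h1, hx3]; group
  obtain ⟨-, hq1, hv2⟩ := V_facts hLS hv
  obtain ⟨-, hq2, hw22⟩ := V_facts hLS hwV
  obtain ⟨-, hq3, hw222⟩ := V_facts hLS hw2V
  have hvi : (v : G)⁻¹ = v := inv_eq_of_mul_eq_one_left hv2
  have hwi : (w : G)⁻¹ = w := inv_eq_of_mul_eq_one_left hw22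
  have hc1 : (w : G) * w2 = w2 * w := V_comm hLS hwV hw2V
  have huV : w * v ∈ omegaSylow 2 ↥L := Subgroup.mul_mem _ hwV hv
  set D := h.D
  -- the element `u = [x, v]`
  set u : G := (w : G) * v with hu
  have e0 : x * (v : G) * x⁻¹ * (v : G)⁻¹ = u := by
    rw [hvi]
    rfl
  rw [e0]
  have hu2 : u * u = 1 := by
    obtain ⟨-, -, h3⟩ := V_facts hLS huV
    exact h3
  have huK : u ∈ K := by
    have e : u = x * ((v : G) * x⁻¹ * (v : G)⁻¹) := by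
      rw [hu, hvi]
      show x * (v : G) * x⁻¹ * (v : G) = _
      group
    rw [e]
    have hvQ : (v : G) ∈ normalizer (K : Set G) := h.Q_norm (V_facts hLS hv).1
    have h1 : (v : G) * x⁻¹ * (v : G)⁻¹ ∈ K := (Subgroup.mem_normalizer_iff.1 hvQ _).1 (K.inv_mem hx.mem)
    exact K.mul_mem hx.mem h1
  have huO : u ∈ pCoreOf 2 K := D.mem_O_of_sq huK hu2
  have hcent : ∀ {y : ↥L}, y ∈ omegaSylow 2 ↥L → (y : G) ∈ pCoreOf 2 K → (y : G) * y = 1 →
      (y : G) ∈ omegaCenterOf (pCoreOf 2 K) := by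
    intro y hy hyO hy2
    refine mem_omegaCenterOf.2 ⟨hyO, Subgroup.mem_centralizer_iff.2 fun o ho => ?_, hy2⟩
    exact (V_facts hLS hy).2.1 o (h.O_le_Q ho)
  have huY : u ∈ omegaCenterOf (pCoreOf 2 K) := hcent huV huO hu2
  have hYn := (Subgroup.mem_normalizer_iff.1 (Data.Y_norm (K := K) (le_normalizer hx.mem)))
  set u' : G := (w2 : G) * w with hu'
  have hu'e : u' = x * u * x⁻¹ := by
    rw [hu', hu]
    have e1 : (w2 : G) = x * (w : G) * x⁻¹ := rfl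
    have e2 : (w : G) = x * (v : G) * x⁻¹ := rfl
    rw [e1]
    calc x * (w : G) * x⁻¹ * (w : G) = x * (w : G) * x⁻¹ * (x * (v : G) * x⁻¹) := by rw [← e2]
      _ = _ := by group
  have hu'Y : u' ∈ omegaCenterOf (pCoreOf 2 K) := by
    rw [hu'e]
    exact (hYn u).1 huY
  have hm : ⁅u', x⁆ ∈ wOf K := Subgroup.commutator_mem_commutator hu'Y hx.mem
  have he : ⁅u', x⁆ = u := by
    rw [commutatorElement_def]
    have h1 : x * u' * x⁻¹ = (v : G) * w2 := by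
      rw [hu']
      have e1 : x * (w2 : G) * x⁻¹ = v := congrArg Subtype.val hxw2
      have e2 : x * (w : G) * x⁻¹ = w2 := rfl
      calc x * ((w2 : G) * w) * x⁻¹ = (x * (w2 : G) * x⁻¹) * (x * (w : G) * x⁻¹) := by group
        _ = _ := by rw [e1, e2]
    have h2 : u' * x * u'⁻¹ * x⁻¹ = u' * (x * u' * x⁻¹)⁻¹ := by group
    rw [h2, h1, hu', hu, mul_inv_rev, hvi]
    calc (w2 : G) * w * ((w2 : G)⁻¹ * v) = (w : G) * w2 * ((w2 : G)⁻¹ * v) := by rw [hc1]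
      _ = (w : G) * v := by group
  rwa [he] at hm

/-- `W ≤ V`. -/
theorem W_le_V (h : CompIn L T K) : ∀ u (hu : u ∈ wOf K), (⟨u, W_le h.hKL hu⟩ : ↥L) ∈ omegaSylow 2 ↥L := by
  obtain ⟨x, hx⟩ := h.D.exists_x
  obtain ⟨a, haJ, haL, hcT, hinv, hQa, hxne⟩ := h.exists_offender hx
  set xx : ↥L := ⟨x, h.hKL hx.mem⟩ with hxx
  have hnot : xx ∉ centralizer ((omegaSylow 2 ↥L : Subgroup ↥L) : Set ↥L) := by
    intro hc
    apply hxne
    have : xx ∈ (phi ↥L).ker := by rw [ker_phi]; exact hc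
    exact this
  rw [Subgroup.mem_centralizer_iff] at hnot
  push Not at hnot
  obtain ⟨v, hv, hvx⟩ := hnot
  have hz := h.comm_mem_W hx hv
  have hz1 : x * (v : G) * x⁻¹ * (v : G)⁻¹ ≠ 1 := by
    intro he
    apply hvx
    apply Subtype.ext
    show (v : G) * x = x * v
    have h2 : x * (v : G) * x⁻¹ = v := mul_inv_eq_one.1 he
    calc (v : G) * x = (x * (v : G) * x⁻¹) * x := by rw [h2]
      _ = x * v := by group
  have hzV : (⟨_, W_le h.hKL hz⟩ : ↥L) ∈ omegaSylow 2 ↥L := by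
    have hw : xx * v * xx⁻¹ ∈ omegaSylow 2 ↥L := (omegaSylow_normal_inst).conj_mem _ hv xx
    exact Subgroup.mul_mem _ hw (Subgroup.inv_mem _ hv)
  exact h.W_in_V hz hz1 hzV

/-- The images of two components commute. -/
theorem phi_comm (h : CompIn L T K) (h₁ : CompIn L T₁ K₁) {x x₁ : G} (hx : Data.IsX K x) (hx₁ : Data.IsX K₁ x₁) :
    phi ↥L ⟨x, h.hKL hx.mem⟩ * phi ↥L ⟨x₁, h₁.hKL hx₁.mem⟩ = phi ↥L ⟨x₁, h₁.hKL hx₁.mem⟩ * phi ↥L ⟨x, h.hKL hx.mem⟩ := by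
  classical
  obtain ⟨a, haJ, haL, hcT, hinv, hQa, hxne⟩ := h.exists_offender hx
  obtain ⟨a₁, ha₁J, ha₁L, hc₁T, hinv₁, hQa₁, hxne₁⟩ := h₁.exists_offender hx₁
  have S := setupX h.hLS.hsol h.hLS.hcX
  have hgen := genX h.hLS.hsol h.hLS.hcX
  set xx : ↥L := ⟨x, h.hKL hx.mem⟩ with hxx
  set xx₁ : ↥L := ⟨x₁, h₁.hKL hx₁.mem⟩ with hxx₁
  set aa : ↥L := ⟨a, haL⟩ with haa
  set aa₁ : ↥L := ⟨a₁, ha₁L⟩ with haa₁
  have hxx3 : xx ^ 3 = 1 := Subtype.ext hx.pow3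
  have hxx₁3 : xx₁ ^ 3 = 1 := Subtype.ext hx₁.pow3
  have hy3 : (phi ↥L xx) ^ 3 = 1 := by rw [← map_pow, hxx3, map_one]
  have hy₁3 : (phi ↥L xx₁) ^ 3 = 1 := by rw [← map_pow, hxx₁3, map_one]
  have hxH : phi ↥L xx ∈ HX ↥L := ⟨xx, K_sub_JL h.hT h.D h.hKL hx.mem, rfl⟩
  have hxH₁ : phi ↥L xx₁ ∈ HX ↥L := ⟨xx₁, K_sub_JL h₁.hT h₁.D h₁.hKL hx₁.mem, rfl⟩
  have hE' := mem_fac_of_inv hgen S hcT hxH hy3 hinv
  have hE₁' := mem_fac_of_inv hgen S hc₁T hxH₁ hy₁3 hinv₁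
  have hE := fac'_le S hcT hE'
  have hE₁ := fac'_le S hc₁T hE₁'
  have hP := S.pack_of_trv hcT
  have hP₁ := S.pack_of_trv hc₁T
  rcases hP.eq_or_comm S hP₁ with he | ⟨_, _, _, hcm⟩
  · have hE₁2 : phi ↥L xx₁ ∈ facOf 2 (HX ↥L) (phi ↥L aa) := by
      have : facOf 2 (HX ↥L) (phi ↥L aa) = facOf 2 (HX ↥L) (phi ↥L aa₁) := he
      rw [this]
      exact hE₁
    have hE₁3 := mem_fac'_of_pow3 S hcT hE₁2 hy₁3
    have hz3 := Cfsg.Agent.Lib.PLocal.eq_zpowers_of_card (fac'_card S hcT) hE' hxne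
    rw [hz3] at hE₁3
    obtain ⟨m, hm⟩ := Subgroup.mem_zpowers_iff.1 hE₁3
    rw [← hm]
    exact ((Commute.refl (phi ↥L xx)).zpow_right m).eq
  · have hm : ⁅phi ↥L xx, phi ↥L xx₁⁆ ∈ ⁅facOf 2 (HX ↥L) (phi ↥L aa), facOf 2 (HX ↥L) (phi ↥L aa₁)⁆ :=
      Subgroup.commutator_mem_commutator hE hE₁
    have hcm' : ⁅facOf 2 (HX ↥L) (phi ↥L aa), facOf 2 (HX ↥L) (phi ↥L aa₁)⁆ = ⊥ := hcm
    rw [hcm', Subgroup.mem_bot, commutatorElement_eq_one_iff_mul_comm] at hm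
    exact hm

/-- **Two components in `L` normalize each other's four-groups.** -/
theorem norm_W (h : CompIn L T K) (h₁ : CompIn L T₁ K₁) : K ≤ normalizer (wOf K₁ : Set G) := by
  obtain ⟨x, hx⟩ := h.D.exists_x
  obtain ⟨x₁, hx₁⟩ := h₁.D.exists_x
  have hLS := h.hLS
  have hV₁ := h₁.W_le_V
  refine hx.K_le ?_ ?_
  · apply Cfsg.Agent.Lib.Coprime.mem_normalizer_of_conj_le
    intro w hw
    obtain ⟨v, hv, hve⟩ := h₁.D.exists_comm_eq hx₁ hw
    set xx : ↥L := ⟨x, h.hKL hx.mem⟩ with hxx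
    set xx₁ : ↥L := ⟨x₁, h₁.hKL hx₁.mem⟩ with hxx₁
    set vv : ↥L := ⟨v, W_le h₁.hKL hv⟩ with hvv
    have hvV : vv ∈ omegaSylow 2 ↥L := hV₁ v hv
    set v' : ↥L := xx * vv * xx⁻¹ with hv'
    have hv'V : v' ∈ omegaSylow 2 ↥L := (omegaSylow_normal_inst).conj_mem _ hvV xx
    have hm := h₁.comm_mem_W hx₁ hv'V
    have hc : phi ↥L (xx * xx₁ * xx⁻¹ * xx₁⁻¹) = 1 := by
      have hcomm : phi ↥L xx * phi ↥L xx₁ = phi ↥L xx₁ * phi ↥L xx := h.phi_comm h₁ hx hx₁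
      simp only [map_mul, map_inv]
      rw [hcomm]
      group
    have hcC : xx * xx₁ * xx⁻¹ * xx₁⁻¹ ∈ centralizer ((omegaSylow 2 ↥L : Subgroup ↥L) : Set ↥L) := by
      rw [← ker_phi]
      exact hc
    set c : ↥L := xx * xx₁ * xx⁻¹ * xx₁⁻¹ with hcd
    have hv2V : xx₁ * v' * xx₁⁻¹ ∈ omegaSylow 2 ↥L := (omegaSylow_normal_inst).conj_mem _ hv'V xx₁
    have hc2 : (xx₁ * v' * xx₁⁻¹) * c = c * (xx₁ * v' * xx₁⁻¹) := Subgroup.mem_centralizer_iff.1 hcC _ hv2V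
    have hkey : (xx * xx₁ * xx⁻¹) * v' * (xx * xx₁ * xx⁻¹)⁻¹ = xx₁ * v' * xx₁⁻¹ := by
      have e1 : xx * xx₁ * xx⁻¹ = c * xx₁ := by rw [hcd]; group
      rw [e1]
      calc c * xx₁ * v' * (c * xx₁)⁻¹ = c * (xx₁ * v' * xx₁⁻¹) * c⁻¹ := by group
        _ = (xx₁ * v' * xx₁⁻¹) * c * c⁻¹ := by rw [hc2]
        _ = _ := by group
    have e : x * w * x⁻¹ = x₁ * (v' : G) * x₁⁻¹ * (v' : G)⁻¹ := by
      have h3 : ((xx * xx₁ * xx⁻¹) * v' * (xx * xx₁ * xx⁻¹)⁻¹ : ↥L) = xx₁ * v' * xx₁⁻¹ := hkey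
      have h4 : (x * x₁ * x⁻¹) * (v' : G) * (x * x₁ * x⁻¹)⁻¹ = x₁ * (v' : G) * x₁⁻¹ := congrArg Subtype.val h3
      rw [← h4, ← hve]
      have e5 : (v' : G) = x * v * x⁻¹ := rfl
      rw [e5]
      group
    rw [e]
    exact hm
  · intro o ho
    apply Cfsg.Agent.Lib.Coprime.mem_normalizer_of_conj_le
    intro w hw
    have h1 := (V_facts hLS (hV₁ w hw)).2.1 o (h.O_le_Q ho)
    have h2 : o * w = w * o := h1
    rw [h2]
    group
    exact hw

end CompIn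

/-! ### The main argument -/

section uniq

variable {M T : Subgroup G}

/-- The product of the four-groups of the `J(T)`-components inside `L`. -/
def WW (T L : Subgroup G) : Subgroup G := sSup (wOf '' {K | IsJComponent T K ∧ K ≤ L})

theorem wOf_le_WW {T L K : Subgroup G} (hK : IsJComponent T K) (hKL : K ≤ L) : wOf K ≤ WW T L :=
  le_sSup ⟨K, ⟨hK, hKL⟩, rfl⟩

theorem mem_normalizer_WW {T L : Subgroup G} {g : G}
    (hg : ∀ K, IsJComponent T K → K ≤ L → ∀ w ∈ wOf K, g * w * g⁻¹ ∈ WW T L) :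
    g ∈ normalizer ((WW T L : Subgroup G) : Set G) := by
  have hle : WW T L ≤ (WW T L).comap (MulAut.conj g).toMonoidHom := by
    refine sSup_le ?_
    rintro _ ⟨K, ⟨hK, hKL⟩, rfl⟩ w hw
    exact hg K hK hKL w hw
  apply Cfsg.Agent.Lib.Coprime.mem_normalizer_of_conj_le
  intro u hu
  exact hle hu

theorem exists_maxTwoLocal {N : Subgroup G} (hN : IsTwoLocal N) : ∃ L, IsMaximalTwoLocal L ∧ N ≤ L := by
  obtain ⟨L, hNL, hmax⟩ := (Set.toFinite {L : Subgroup G | IsTwoLocal L}).exists_le_maximal (a := N) hN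
  refine ⟨L, ⟨hmax.1, fun N' hN' hle => ?_⟩, hNL⟩
  exact le_antisymm (hmax.2 hN' hle) hle

/-- The setting for a maximal 2-local subgroup containing `J(T)` and not inside `M`. -/
structure MaxIn (M T L T₀ : Subgroup G) : Prop where
  hLS : LS L
  hmax : IsMaximalTwoLocal L
  hT₀ : IsSylowTwoIn T₀ L
  hT₀1 : T₀ ≠ ⊥
  hJ : thompsonSubgroupOf 2 T = thompsonSubgroupOf 2 T₀

theorem exists_maxIn (hL : IsCharacteristicTwoType G) (hN : ∀ N : Subgroup G, IsTwoLocal N → Group.IsSolvable ↥N)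
    (hZ : ∀ S : Sylow 2 G, centralizer (omegaCenterOf (S : Subgroup G) : Set G) ≤ normalizer ((S : Subgroup G) : Set G))
    (S : Sylow 2 G) (hMJ : normalizer (thompsonSubgroupOf 2 (S : Subgroup G) : Set G) ≤ M)
    (hT : T ∈ maxStraddlingTwoSubgroups M) {L : Subgroup G} (hmax : IsMaximalTwoLocal L)
    (hJL : thompsonSubgroupOf 2 T ≤ L) (hLM : ¬ L ≤ M) : ∃ T₀, MaxIn M T L T₀ ∧ T₀ ∈ straddlingTwoSubgroups M := by
  obtain ⟨⟨hTp, hT1, hTM, -⟩, -⟩ := id hT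
  obtain ⟨T₀, hT₀, hJT₀⟩ := Data.exists_sylowIn hJL (hTp.to_le (thompson_le T))
  obtain ⟨h1, h2, h3⟩ := main_straddle hL S hMJ hT hmax.1 hLM hT₀ hJT₀
  exact ⟨T₀, ⟨LS_of_two_local hL hN hZ hmax.1, hmax, hT₀, h2.2.1, h1⟩, h2⟩

namespace MaxIn

variable {L T₀ : Subgroup G} (h : MaxIn M T L T₀)
include h

theorem compIn {K : Subgroup G} (hK : IsJComponent T K) (hKL : K ≤ L) : CompIn L T₀ K :=
  ⟨h.hLS, h.hT₀, h.hT₀1, isJComponent_congr h.hJ hK, hKL⟩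

theorem WW_le : WW T L ≤ pCoreOf 2 L := by
  refine sSup_le ?_
  rintro _ ⟨K, ⟨hK, hKL⟩, rfl⟩ w hw
  exact (V_facts h.hLS ((h.compIn hK hKL).W_le_V w hw)).1

theorem WW_ne {K : Subgroup G} (hK : IsJComponent T K) (hKL : K ≤ L) : WW T L ≠ ⊥ := by
  intro he
  have h1 := wOf_le_WW hK hKL
  rw [he, le_bot_iff] at h1
  have h2 := (h.compIn hK hKL).D.hW4
  rw [h1, Subgroup.card_bot] at h2
  omega

/-- `L` is the normalizer of `Ŵ`. -/
theorem eq_normalizer {K : Subgroup G} (hK : IsJComponent T K) (hKL : K ≤ L) :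
    L = normalizer ((WW T L : Subgroup G) : Set G) := by
  set N := normalizer ((WW T L : Subgroup G) : Set G) with hNd
  have hN2 : IsTwoLocal N :=
    ⟨WW T L, (Cfsg.Agent.Lib.LocalEven.pCoreOf_isPGroup L).to_le h.WW_le, h.WW_ne hK hKL, rfl⟩
  have hLN : L ≤ N := by
    refine le_of_comps' h.hLS h.hT₀ ?_ ?_
    · rintro n ⟨hn, hnL⟩
      apply mem_normalizer_WW
      intro K₁ hK₁ hK₁L w hw
      have hcj : IsJComponent T (cj n K₁) := by
        have h1 := jc_cj n (isJComponent_congr h.hJ hK₁)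
        have e : thompsonSubgroupOf 2 (cj n T₀) = thompsonSubgroupOf 2 T₀ := by
          rw [thompson_cj, cj_eq_of_mem_normalizer hn]
        exact isJComponent_congr (e.trans h.hJ.symm) h1
      have hcjL : cj n K₁ ≤ L := by
        have := cj_mono (g := n) hK₁L
        rwa [cj_eq_of_mem_normalizer (le_normalizer hnL)] at this
      refine wOf_le_WW hcj hcjL ?_
      rw [wOf_cj]
      exact ⟨w, hw, rfl⟩
    · intro K₁ hK₁ hK₁L
      have hT₁ : IsJComponent T₀ K₁ := hK₁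
      have hK₁' : IsJComponent T K₁ := isJComponent_congr h.hJ.symm hK₁
      intro k hk
      apply mem_normalizer_WW
      intro K₂ hK₂ hK₂L w hw
      have h1 := (h.compIn hK₁' hK₁L).norm_W (h.compIn hK₂ hK₂L) hk
      exact wOf_le_WW hK₂ hK₂L ((Subgroup.mem_normalizer_iff.1 h1 w).1 hw)
  exact (h.hmax.2 N hN2 hLN).symm

end MaxIn

/-- **Uniqueness.** -/
theorem uniq_of_norm {L₁ L₂ T₁ T₂ K : Subgroup G} (h₁ : MaxIn M T L₁ T₁) (h₂ : MaxIn M T L₂ T₂)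
    (hK : IsJComponent T K) (hKL₁ : K ≤ L₁) (hN : normalizer (wOf K : Set G) ≤ L₂) : L₁ = L₂ := by
  have hWK : K ≤ normalizer (wOf K : Set G) := le_normalizer.trans Data.W_norm
  have hKL₂ : K ≤ L₂ := hWK.trans hN
  have h12 : ∀ K₁, IsJComponent T K₁ → K₁ ≤ L₁ → K₁ ≤ L₂ := fun K₁ hK₁ hK₁L =>
    ((h₁.compIn hK₁ hK₁L).norm_W (h₁.compIn hK hKL₁)).trans hN
  have h21 : ∀ K₁, IsJComponent T K₁ → K₁ ≤ L₂ → K₁ ≤ L₁ := by
    intro K₁ hK₁ hK₁L k hk
    rw [h₁.eq_normalizer hK hKL₁]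
    apply mem_normalizer_WW
    intro K₂ hK₂ hK₂L w hw
    have h1 := (h₂.compIn hK₁ hK₁L).norm_W (h₂.compIn hK₂ (h12 K₂ hK₂ hK₂L)) hk
    exact wOf_le_WW hK₂ hK₂L ((Subgroup.mem_normalizer_iff.1 h1 w).1 hw)
  have hWW : WW T L₁ = WW T L₂ := by
    unfold WW
    congr 2
    ext K₁
    constructor
    · rintro ⟨h3, h4⟩
      exact ⟨h3, h12 K₁ h3 h4⟩
    · rintro ⟨h3, h4⟩
      exact ⟨h3, h21 K₁ h3 h4⟩
  rw [h₁.eq_normalizer hK hKL₁, h₂.eq_normalizer hK hKL₂, hWW]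

/-- **Uniqueness of the maximal 2-local overgroup of `K J(T)`.** -/
theorem main_unique (hL : IsCharacteristicTwoType G) (hN : ∀ N : Subgroup G, IsTwoLocal N → Group.IsSolvable ↥N)
    (hZ : ∀ S : Sylow 2 G, centralizer (omegaCenterOf (S : Subgroup G) : Set G) ≤ normalizer ((S : Subgroup G) : Set G))
    (S : Sylow 2 G) (hMJ : normalizer (thompsonSubgroupOf 2 (S : Subgroup G) : Set G) ≤ M)
    (hT : T ∈ maxStraddlingTwoSubgroups M) {K : Subgroup G} (hK : IsJComponent T K) (hKM : ¬ K ≤ M)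
    {L₁ L₂ : Subgroup G} (hL₁ : IsMaximalTwoLocal L₁) (hL₂ : IsMaximalTwoLocal L₂)
    (h₁ : K ⊔ thompsonSubgroupOf 2 T ≤ L₁) (h₂ : K ⊔ thompsonSubgroupOf 2 T ≤ L₂) : L₁ = L₂ := by
  obtain ⟨⟨hTp, hT1, hTM, -⟩, -⟩ := id hT
  have D := Data.of hTp hK
  have hWp : IsPGroup 2 (wOf K) := (Data.O_p (K := K)).to_le Data.W_le_O
  have hW1 : wOf K ≠ ⊥ := by
    intro he
    have h4 := D.hW4
    rw [he, Subgroup.card_bot] at h4
    omega
  obtain ⟨L₃, hL₃, hNL₃⟩ := exists_maxTwoLocal (N := normalizer (wOf K : Set G)) ⟨_, hWp, hW1, rfl⟩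
  have hJN : thompsonSubgroupOf 2 T ≤ normalizer (wOf K : Set G) := D.J_norm.trans Data.W_norm
  have hKN : K ≤ normalizer (wOf K : Set G) := le_normalizer.trans Data.W_norm
  have aux : ∀ {L : Subgroup G}, IsMaximalTwoLocal L → K ⊔ thompsonSubgroupOf 2 T ≤ L → L = L₃ := by
    intro L hLm hLK
    have hKL : K ≤ L := le_sup_left.trans hLK
    have hJL : thompsonSubgroupOf 2 T ≤ L := le_sup_right.trans hLK
    obtain ⟨T₄, hT₄, -⟩ := exists_maxIn hL hN hZ S hMJ hT hLm hJL fun hle => hKM (hKL.trans hle)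
    obtain ⟨T₃, hT₃, -⟩ := exists_maxIn hL hN hZ S hMJ hT hL₃ (hJN.trans hNL₃)
      fun hle => hKM ((hKN.trans hNL₃).trans hle)
    exact uniq_of_norm hT₄ hT₃ hK hKL hNL₃
  rw [aux hL₁ h₁, aux hL₂ h₂]

end uniq

end Cfsg.Agent.Lib.LocalEven2.JC
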