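import Cfsg.Agent.Lib.LocalEven2.JC12

/-!
# `T`-normal `J(T)`-components and pairs of them
-/

set_option autoImplicit false
set_option linter.unusedSectionVars false
set_option linter.unusedVariables false

namespace Cfsg.Agent.Lib.LocalEven2.JC

open Subgroup Cfsg Cfsg.Agent.Lib.PLocal
open Cfsg.Agent.Lib.OddLocal (MaxEA thompsonSubgroupOf_eq le_thompsonSubgroupOf MaxEA_nonempty isElementaryAbelian_map
  isElementaryAbelian_subgroupOf)
open Cfsg.Agent.Lib.LocalEven (cj cj_mul cj_inv_cj cj_cj_inv le_cj_iff cj_mono isPGroup_cj cj_eq_of_mem_normalizer)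
open scoped commutatorElement

variable {G : Type*} [Group G] [Finite G]

/-- A component inside `L`, normalized by the whole of `T`. -/
structure TN (L T K : Subgroup G) : Prop where
  h : CompIn L T K
  hN : T ≤ normalizer (K : Set G)

/-- The `T`-fixed involution of `W_K`. -/
structure IsFix (T K : Subgroup G) (w : G) : Prop where
  mem : w ∈ wOf K
  ne : w ≠ 1
  fix : ∀ t ∈ T, t * w * t⁻¹ = w

/-- `C_T(W_K)`. -/
def QQ (T K : Subgroup G) : Subgroup G := T ⊓ centralizer (wOf K : Set G)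

theorem mem_QQ {T K : Subgroup G} {q : G} : q ∈ QQ T K ↔ q ∈ T ∧ q ∈ centralizer (wOf K : Set G) := Iff.rfl

theorem conj_inv_eq_of_conj_eq {g w : G} (h : g * w * g⁻¹ = w) : g⁻¹ * w * g = w := by
  calc g⁻¹ * w * g = g⁻¹ * (g * w * g⁻¹) * g := by rw [h]
    _ = w := by group

theorem comm_of_conj_eq {g w : G} (h : g * w * g⁻¹ = w) : g * w = w * g := by
  calc g * w = (g * w * g⁻¹) * g := by group
    _ = w * g := by rw [h]

theorem conj_eq_of_comm {g w : G} (h : g * w = w * g) : g * w * g⁻¹ = w := by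
  rw [h]; group

theorem mem_cent_iff {X : Subgroup G} {t : G} : t ∈ centralizer (X : Set G) ↔ ∀ u ∈ X, t * u * t⁻¹ = u := by
  rw [Subgroup.mem_centralizer_iff]
  constructor
  · intro h u hu
    exact conj_eq_of_comm (h u hu).symm
  · intro h u hu
    exact (comm_of_conj_eq (h u hu)).symm

namespace TN

variable {L T K : Subgroup G} (c : TN L T K)
include c

theorem D : Data (thompsonSubgroupOf 2 T) K := c.h.D

theorem T_norm_W : T ≤ normalizer (wOf K : Set G) := c.hN.trans Data.W_norm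

theorem T_norm_O : T ≤ normalizer ((pCoreOf 2 K : Subgroup G) : Set G) := c.hN.trans Data.O_norm

theorem O_le_T : pCoreOf 2 K ≤ T := c.h.O_le_Q.trans (Q_le_T c.h.hT)

theorem W_le_T : wOf K ≤ T := Data.W_le_O.trans c.O_le_T

theorem sq {u : G} (hu : u ∈ wOf K) : u * u = 1 := c.D.hW2 u hu

theorem exists_fix : ∃ w, IsFix T K w := by
  obtain ⟨w, h1, h2, h3⟩ := exists_fixed_W c.h.hT.2.1 c.T_norm_W (by rw [c.D.hW4]; norm_num)
  exact ⟨w, h1, h2, h3⟩

theorem fix_mem {w : G} (hw : IsFix T K w) : w ∈ Data.W0 (thompsonSubgroupOf 2 T) K :=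
  c.D.mem_W0 hw.mem fun j hj => hw.fix j (thompson_le T hj)

theorem fix_unique {w w' : G} (hw : IsFix T K w) (hw' : IsFix T K w') : w = w' :=
  c.D.W0_cases (c.fix_mem hw) (c.fix_mem hw') hw.ne hw'.ne

theorem conj_W {t u : G} (ht : t ∈ T) (hu : u ∈ wOf K) : t * u * t⁻¹ ∈ wOf K :=
  (Subgroup.mem_normalizer_iff.1 (c.T_norm_W ht) u).1 hu

/-- The commutator with an element of `T` lies in `⟨w⟩`. -/
theorem comm_T_W {w : G} (hw : IsFix T K w) {t u : G} (ht : t ∈ T) (hu : u ∈ wOf K) :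
    t * u * t⁻¹ * u⁻¹ = 1 ∨ t * u * t⁻¹ * u⁻¹ = w := by
  by_cases hu1 : u = 1
  · subst hu1; left; group
  by_cases huw : u = w
  · subst huw; left; rw [hw.fix t ht]; group
  have hv := c.conj_W ht hu
  rcases four_cases c.D.hW4 c.D.hW2 hw.mem hu hw.ne hu1 (Ne.symm huw) _ hv with h | h | h | h
  · exfalso
    apply hu1
    have : u = t⁻¹ * (t * u * t⁻¹) * t := by group
    rw [this, h]; group
  · exfalso
    apply huw
    have e1 : u = t⁻¹ * (t * u * t⁻¹) * t := by group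
    rw [e1, h]
    exact conj_inv_eq_of_conj_eq (hw.fix t ht)
  · left; rw [h]; group
  · right; rw [h]; group

/-- An element of `T` fixing a non-central element centralizes `W`. -/
theorem mem_cent_of_fix' {w : G} (hw : IsFix T K w) {t u : G} (hu : u ∈ wOf K) (hu1 : u ≠ 1)
    (huw : u ≠ w) (ht : t ∈ T) (hf : t * u * t⁻¹ = u) : t ∈ centralizer (wOf K : Set G) := by
  rw [mem_cent_iff]
  intro v hv
  rcases four_cases c.D.hW4 c.D.hW2 hw.mem hu hw.ne hu1 (Ne.symm huw) v hv with h | h | h | h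
  · subst h; group
  · rw [h]; exact hw.fix t ht
  · rw [h]; exact hf
  · rw [h]
    calc t * (w * u) * t⁻¹ = (t * w * t⁻¹) * (t * u * t⁻¹) := by group
      _ = w * u := by rw [hw.fix t ht, hf]

/-- An element of `T` not centralizing `W` moves each non-central element. -/
theorem moved {w : G} (hw : IsFix T K w) {t u : G} (ht : t ∈ T) (hnot : t ∉ centralizer (wOf K : Set G))
    (hu : u ∈ wOf K) (hu1 : u ≠ 1) (huw : u ≠ w) : t * u * t⁻¹ * u⁻¹ = w := by
  rcases c.comm_T_W hw ht hu with h | h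
  · exact absurd (c.mem_cent_of_fix' hw hu hu1 huw ht (mul_inv_eq_one.1 h)) hnot
  · exact h

theorem exists_other {w : G} (hw : IsFix T K w) : ∃ u ∈ wOf K, u ≠ 1 ∧ u ≠ w := by
  obtain ⟨u, hu, hu0⟩ := c.D.exists_not_W0
  refine ⟨u, hu, ?_, ?_⟩
  · rintro rfl
    exact hu0 (Subgroup.one_mem _)
  · rintro rfl
    exact hu0 (c.fix_mem hw)

/-- Index at most two of `C_T(W)` in `T`. -/
theorem two {t₁ t₂ : G} (h₁ : t₁ ∈ T) (h₂ : t₂ ∈ T) (hn₁ : t₁ ∉ centralizer (wOf K : Set G))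
    (hn₂ : t₂ ∉ centralizer (wOf K : Set G)) : t₁ * t₂ ∈ centralizer (wOf K : Set G) := by
  obtain ⟨w, hw⟩ := c.exists_fix
  obtain ⟨u, hu, hu1, huw⟩ := c.exists_other hw
  have e1 := c.moved hw h₁ hn₁ hu hu1 huw
  have e2 := c.moved hw h₂ hn₂ hu hu1 huw
  have e3 : t₂ * u * t₂⁻¹ = w * u := by rw [← e2]; group
  have e4 : t₁ * u * t₁⁻¹ = w * u := by rw [← e1]; group
  have hcomm : u * w = w * u := Data.W_comm hu hw.mem
  have hs := c.sq hw.mem
  apply c.mem_cent_of_fix' hw hu hu1 huw (T.mul_mem h₁ h₂)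
  calc t₁ * t₂ * u * (t₁ * t₂)⁻¹ = t₁ * (t₂ * u * t₂⁻¹) * t₁⁻¹ := by group
    _ = (t₁ * w * t₁⁻¹) * (t₁ * u * t₁⁻¹) := by rw [e3]; group
    _ = w * (w * u) := by rw [hw.fix t₁ h₁, e4]
    _ = (w * w) * u := by group
    _ = u := by rw [hs, one_mul]

/-- Squares of elements of `T` lie in `C_T(W)`. -/
theorem sq_mem {t : G} (ht : t ∈ T) : t * t ∈ centralizer (wOf K : Set G) := by
  by_cases h : t ∈ centralizer (wOf K : Set G)
  · exact Subgroup.mul_mem _ h h
  · exact c.two ht ht h h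

theorem W_le_Q : wOf K ≤ QQ T K := fun _ hu =>
  ⟨c.W_le_T hu, Subgroup.mem_centralizer_iff.2 fun v hv => (Data.W_comm hv hu)⟩

theorem O_le_Q : pCoreOf 2 K ≤ QQ T K := fun _ ho => ⟨c.O_le_T ho, Data.O_le_cent ho⟩

theorem O2L_le_Q : pCoreOf 2 L ≤ QQ T K := by
  intro q hq
  refine ⟨Q_le_T c.h.hT hq, Subgroup.mem_centralizer_iff.2 fun v hv => ?_⟩
  exact ((V_facts c.h.hLS (c.h.W_le_V v hv)).2.1 q hq).symm

theorem T_norm_Q : T ≤ normalizer ((QQ T K : Subgroup G) : Set G) := by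
  intro t ht
  apply Cfsg.Agent.Lib.Coprime.mem_normalizer_of_conj_le
  intro q hq
  exact ⟨T.mul_mem (T.mul_mem ht hq.1) (T.inv_mem ht), Data.conj_mem_centralizer (c.T_norm_W ht) hq.2⟩

/-- An element of `K` centralizing `W` lies in `O₂(K)`. -/
theorem mem_O_of_cent {u : G} (hu : u ∈ K) (huc : u ∈ centralizer (wOf K : Set G)) : u ∈ pCoreOf 2 K := by
  obtain ⟨x, hx⟩ := c.D.exists_x
  have hxc := c.D.x_not_cent hx
  rcases hx.tri u hu with h | h | h
  · exact h
  · exfalso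
    apply hxc
    have h1 := Subgroup.mul_mem _ (Data.O_le_cent h) (Subgroup.inv_mem _ huc)
    simpa using h1
  · exfalso
    apply hxc
    have h1 := Subgroup.mul_mem _ (Data.O_le_cent h) (Subgroup.inv_mem _ huc)
    have h2 : x⁻¹ ∈ centralizer (wOf K : Set G) := by simpa using h1
    simpa using Subgroup.inv_mem _ h2

theorem K_norm_Q : K ≤ normalizer ((QQ T K : Subgroup G) : Set G) := by
  intro k hk
  apply Cfsg.Agent.Lib.Coprime.mem_normalizer_of_conj_le
  intro q hq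
  have hq' : k * q * k⁻¹ ∈ centralizer (wOf K : Set G) :=
    Data.conj_mem_centralizer (Data.W_norm (le_normalizer hk)) hq.2
  have h1 : q * k⁻¹ * q⁻¹ ∈ K := (Subgroup.mem_normalizer_iff.1 (c.hN hq.1) _).1 (K.inv_mem hk)
  have hu : k * (q * k⁻¹ * q⁻¹) ∈ K := K.mul_mem hk h1
  have huc : k * (q * k⁻¹ * q⁻¹) ∈ centralizer (wOf K : Set G) := by
    have e : k * (q * k⁻¹ * q⁻¹) = (k * q * k⁻¹) * q⁻¹ := by group
    rw [e]
    exact Subgroup.mul_mem _ hq' (Subgroup.inv_mem _ hq.2)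
  have h2 := c.O_le_Q (c.mem_O_of_cent hu huc)
  have e : k * q * k⁻¹ = (k * (q * k⁻¹ * q⁻¹)) * q := by group
  rw [e]
  exact Subgroup.mul_mem _ h2 hq

theorem KT_norm_Q : K ⊔ T ≤ normalizer ((QQ T K : Subgroup G) : Set G) := sup_le c.K_norm_Q c.T_norm_Q

theorem Q_ne_bot : QQ T K ≠ ⊥ := by
  intro he
  have h1 := c.W_le_Q
  rw [he, le_bot_iff] at h1
  have h2 := c.D.hW4
  rw [h1, Subgroup.card_bot] at h2
  omega

theorem Q_p : IsPGroup 2 (QQ T K) := c.h.hT.2.1.to_le inf_le_left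

theorem W_p : IsPGroup 2 (wOf K) := c.h.hT.2.1.to_le c.W_le_T

theorem W_ne : wOf K ≠ ⊥ := by
  intro he
  have h2 := c.D.hW4
  rw [he, Subgroup.card_bot] at h2
  omega

/-- `J` is not inside `C(W)`. -/
theorem exists_J_not : ∃ j ∈ thompsonSubgroupOf 2 T, j ∉ centralizer (wOf K : Set G) := by
  by_contra hcon
  push Not at hcon
  apply c.D.J_not_le_CW
  exact fun j hj => ⟨Subgroup.mem_sup_right hj, hcon j hj⟩

/-- Action of `T` on `x` modulo `O₂(K)`. -/
theorem t_cases {x t : G} (hx : Data.IsX K x) (ht : t ∈ T) :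
    (t ∈ centralizer (wOf K : Set G) → x⁻¹ * (t * x * t⁻¹) ∈ pCoreOf 2 K) ∧
      (t ∉ centralizer (wOf K : Set G) → x * (t * x * t⁻¹) ∈ pCoreOf 2 K) := by
  obtain ⟨w, hw⟩ := c.exists_fix
  have hD := c.D
  have hxW : ∀ u ∈ wOf K, x * u * x⁻¹ ∈ wOf K := fun u hu =>
    (Subgroup.mem_normalizer_iff.1 (Data.W_norm (le_normalizer hx.mem)) u).1 hu
  have hxW' : ∀ u ∈ wOf K, x⁻¹ * u * x ∈ wOf K := fun u hu => by
    have := (Subgroup.mem_normalizer_iff.1 (Data.W_norm (le_normalizer (K.inv_mem hx.mem))) u).1 hu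
    simpa using this
  have hxi := hx.x_inv
  set w' := x * w * x⁻¹ with hw'
  set w'' := x⁻¹ * w * x with hw''
  have hw'W := hxW w hw.mem
  have hw''W := hxW' w hw.mem
  have hne1 : w' ≠ w := fun he => hw.ne (hD.fpf hx hw.mem he)
  have hne2 : w'' ≠ w := by
    intro he
    apply hw.ne
    apply hD.fpf hx hw.mem
    have e1 : x * w'' * x⁻¹ = w := by rw [hw'']; group
    rw [he] at e1
    exact e1
  have hne3 : w' ≠ w'' := by
    intro he
    apply hw.ne
    have e1 : x * w' * x⁻¹ = w'' := by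
      rw [hw', hw'']
      have : x * (x * w * x⁻¹) * x⁻¹ = (x * x) * w * (x * x)⁻¹ := by group
      rw [this, ← hxi]
      group
    rw [he] at e1
    have e2 : w'' = 1 := hD.fpf hx hw''W e1
    have e3 : x * w'' * x⁻¹ = w := by rw [hw'']; group
    rw [e2] at e3
    rw [← e3]
    group
  have hne4 : w' ≠ 1 := by
    intro he
    apply hw.ne
    have e : x⁻¹ * w' * x = w := by rw [hw']; group
    rw [he] at e
    rw [← e]; group
  have hne5 : w'' ≠ 1 := by
    intro he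
    apply hw.ne
    have e : x * w'' * x⁻¹ = w := by rw [hw'']; group
    rw [he] at e
    rw [← e]; group
  have hprod : w'' = w * w' := by
    rcases four_cases hD.hW4 hD.hW2 hw.mem hw'W hw.ne hne4 (Ne.symm hne1) w'' hw''W with h | h | h | h
    · exact absurd h hne5
    · exact absurd h hne2
    · exact absurd h.symm hne3
    · exact h
  have hy : t * x * t⁻¹ ∈ K := (Subgroup.mem_normalizer_iff.1 (c.hN ht) x).1 hx.mem
  have hyw : (t * x * t⁻¹) * w * (t * x * t⁻¹)⁻¹ = t * w' * t⁻¹ := by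
    have e : t⁻¹ * w * t = w := conj_inv_eq_of_conj_eq (hw.fix t ht)
    calc (t * x * t⁻¹) * w * (t * x * t⁻¹)⁻¹ = t * (x * (t⁻¹ * w * t) * x⁻¹) * t⁻¹ := by group
      _ = t * w' * t⁻¹ := by rw [e]
  have hnotO : t * x * t⁻¹ ∉ pCoreOf 2 K := by
    intro hm
    apply hx.notMem
    have h1 := (Subgroup.mem_normalizer_iff.1 (c.T_norm_O ht) x).2 hm
    exact h1
  -- conjugation of `w` by an element of the form `x⁻¹ o`
  have hform1 : x * (t * x * t⁻¹) ∈ pCoreOf 2 K → (t * x * t⁻¹) * w * (t * x * t⁻¹)⁻¹ = w'' := by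
    intro ho
    set o := x * (t * x * t⁻¹) with hod
    have e : t * x * t⁻¹ = x⁻¹ * o := by rw [hod]; group
    rw [e]
    have h2 : o * w * o⁻¹ = w := conj_eq_of_comm (Data.O_cent_W ho hw.mem)
    calc x⁻¹ * o * w * (x⁻¹ * o)⁻¹ = x⁻¹ * (o * w * o⁻¹) * x := by group
      _ = w'' := by rw [h2]
  have hform2 : x⁻¹ * (t * x * t⁻¹) ∈ pCoreOf 2 K → (t * x * t⁻¹) * w * (t * x * t⁻¹)⁻¹ = w' := by
    intro ho
    set o := x⁻¹ * (t * x * t⁻¹) with hod
    have e : t * x * t⁻¹ = x * o := by rw [hod]; group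
    rw [e]
    have h2 : o * w * o⁻¹ = w := conj_eq_of_comm (Data.O_cent_W ho hw.mem)
    calc x * o * w * (x * o)⁻¹ = x * (o * w * o⁻¹) * x⁻¹ := by group
      _ = w' := by rw [h2]
  constructor
  · intro htc
    have e1 : t * w' * t⁻¹ = w' := (mem_cent_iff.1 htc) w' hw'W
    rcases hx.tri _ hy with h | h | h
    · exact absurd h hnotO
    · exfalso
      have h1 := hform1 h
      rw [hyw, e1] at h1
      exact hne3 h1
    · exact h
  · intro htc
    rcases hx.tri _ hy with h | h | h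
    · exact absurd h hnotO
    · exact h
    · exfalso
      have h1 := hform2 h
      rw [hyw] at h1
      exact htc (c.mem_cent_of_fix' hw hw'W hne4 hne1 ht h1)

/-- Elements of `C_T(W)` act trivially on `K/O₂(K)`. -/
theorem conj_x_of_cent {x t : G} (hx : Data.IsX K x) (ht : t ∈ T) (htc : t ∈ centralizer (wOf K : Set G)) :
    ∃ o ∈ pCoreOf 2 K, t * x * t⁻¹ = x * o :=
  ⟨_, (c.t_cases hx ht).1 htc, by group⟩

/-- Elements outside `C_T(W)` invert `K/O₂(K)`. -/
theorem conj_x_of_not {x t : G} (hx : Data.IsX K x) (ht : t ∈ T) (htc : t ∉ centralizer (wOf K : Set G)) :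
    ∃ o ∈ pCoreOf 2 K, t * x * t⁻¹ = x⁻¹ * o :=
  ⟨_, (c.t_cases hx ht).2 htc, by group⟩

end TN

end Cfsg.Agent.Lib.LocalEven2.JC
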