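import Cfsg.Agent.Lib.LocalEven2.JC13

/-!
# A counting lemma against elementary abelian subgroups of largest order
-/

set_option autoImplicit false
set_option linter.unusedSectionVars false
set_option linter.unusedVariables false

namespace Cfsg.Agent.Lib.LocalEven2.JC

open Subgroup Cfsg Cfsg.Agent.Lib.PLocal
open Cfsg.Agent.Lib.OddLocal (MaxEA thompsonSubgroupOf_eq le_thompsonSubgroupOf MaxEA_nonempty isElementaryAbelian_map
  isElementaryAbelian_subgroupOf)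
open Cfsg.Agent.Lib.LocalEven (cj cj_mul cj_inv_cj cj_cj_inv le_cj_iff cj_mono isPGroup_cj cj_eq_of_mem_normalizer)
open scoped commutatorElement

variable {G : Type*} [Group G] [Finite G]

theorem split_eq {Y₁ Y₂ : Subgroup G} (hinf : Y₁ ⊓ Y₂ = ⊥) {p r p' r' : G} (hp : p ∈ Y₁) (hr : r ∈ Y₁)
    (hp' : p' ∈ Y₂) (hr' : r' ∈ Y₂) (h : p * p' = r * r') : p = r ∧ p' = r' := by
  have h1 : r⁻¹ * p = r' * p'⁻¹ := by
    have : p = r * r' * p'⁻¹ := by rw [← h]; group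
    rw [this]; group
  have h2 : r⁻¹ * p ∈ Y₁ ⊓ Y₂ :=
    ⟨Y₁.mul_mem (Y₁.inv_mem hr) hp, by rw [h1]; exact Y₂.mul_mem hr' (Y₂.inv_mem hp')⟩
  rw [hinf, Subgroup.mem_bot] at h2
  have h3 : p = r := by
    have := mul_left_cancel (a := r⁻¹) (b := p) (c := r) (by rw [h2]; group)
    exact this
  subst h3
  refine ⟨rfl, mul_left_cancel h⟩

theorem count_lemma {A Y₁ Y₂ A₂ : Subgroup G} {a y₁ : G}
    (hY₁4 : Nat.card Y₁ = 4) (hY₂4 : Nat.card Y₂ = 4)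
    (hY₁ : IsElementaryAbelian 2 Y₁) (hY₂ : IsElementaryAbelian 2 Y₂)
    (hcomm : ∀ p ∈ Y₁, ∀ p' ∈ Y₂, p * p' = p' * p)
    (hinf : Y₁ ⊓ Y₂ = ⊥)
    (hA : IsElementaryAbelian 2 A) (ha : a ∈ A)
    (h12 : ∀ p ∈ Y₁, a * p * a⁻¹ ∈ Y₂) (h21 : ∀ p ∈ Y₂, a * p * a⁻¹ ∈ Y₁)
    (hA₂ : A₂ ≤ A) (hidx : ∀ u ∈ A, ∀ v ∈ A, u ∉ A₂ → v ∉ A₂ → u * v ∈ A₂)
    (hy₁ : y₁ ∈ Y₁) (hy₁1 : y₁ ≠ 1)
    (hact : ∀ q ∈ A₂, ∀ p ∈ Y₁, q * p * q⁻¹ * p⁻¹ = 1 ∨ q * p * q⁻¹ * p⁻¹ = y₁) :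
    ∃ B : Subgroup G, IsElementaryAbelian 2 B ∧ B ≤ A ⊔ (Y₁ ⊔ Y₂) ∧ 2 * Nat.card A ≤ Nat.card B := by
  classical
  obtain ⟨hAc, hA2⟩ := isEA_iff.1 hA
  have hsq : ∀ {X : Subgroup G}, IsElementaryAbelian 2 X → ∀ u ∈ X, u * u = 1 := by
    intro X hX u hu
    rw [← pow_two]
    exact (isEA_iff.1 hX).2 u hu
  have haa := hsq hA a ha
  have hai : a⁻¹ = a := inv_eq_of_mul_eq_one_left haa
  have hY₁2 := hsq hY₁
  have hY₂2 := hsq hY₂
  set F : Subgroup G := Y₁ ⊔ Y₂ with hF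
  have hFe : IsElementaryAbelian 2 F := isEA_sup hY₁ hY₂ hcomm
  have hN : Y₂ ≤ normalizer (Y₁ : Set G) := by
    intro p' hp'
    apply Cfsg.Agent.Lib.Coprime.mem_normalizer_of_conj_le
    intro p hp
    have : p' * p * p'⁻¹ = p := conj_eq_of_comm (hcomm p hp p' hp').symm
    rw [this]
    exact hp
  set A₁ : Subgroup G := A₂ ⊓ centralizer (Y₁ : Set G) with hA₁
  have hA₁A : A₁ ≤ A := inf_le_left.trans hA₂
  -- `A₁` centralizes `Y₂`
  have hcent₂ : ∀ q ∈ A₁, ∀ p' ∈ Y₂, q * p' = p' * q := by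
    intro q hq p' hp'
    have h1 := h21 p' hp'
    have h2 : q * (a * p' * a⁻¹) * q⁻¹ = a * p' * a⁻¹ := (mem_cent_iff.1 hq.2) _ h1
    have hqa : q * a = a * q := hAc q (hA₁A hq) a ha
    have hqa' : a⁻¹ * q = q * a⁻¹ := by rw [hai]; exact hqa.symm
    have hcq : Commute q a := hqa
    have hq1 : q * a⁻¹ = a⁻¹ * q := hcq.inv_right.eq
    have hq2 : a * q⁻¹ = q⁻¹ * a := hcq.symm.inv_right.eq
    have h3 : q * p' * q⁻¹ = p' := by
      calc q * p' * q⁻¹ = (q * a⁻¹) * (a * p' * a⁻¹) * (a * q⁻¹) := by group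
        _ = (a⁻¹ * q) * (a * p' * a⁻¹) * (q⁻¹ * a) := by rw [hq1, hq2]
        _ = a⁻¹ * (q * (a * p' * a⁻¹) * q⁻¹) * a := by group
        _ = a⁻¹ * (a * p' * a⁻¹) * a := by rw [h2]
        _ = p' := by group
    exact comm_of_conj_eq h3
  have hcentF : ∀ q ∈ A₁, ∀ f ∈ F, q * f = f * q := by
    intro q hq f hf
    have hle : F ≤ centralizer ({q} : Set G) := by
      refine sup_le (fun p hp => mem_c1.2 ?_) (fun p hp => mem_c1.2 (hcent₂ q hq p hp))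
      exact (Subgroup.mem_centralizer_iff.1 hq.2 p hp).symm
    exact mem_c1.1 (hle hf)
  refine ⟨A₁ ⊔ F, isEA_sup (isEA_mono hA₁A hA) hFe hcentF, sup_le_sup_right hA₁A _, ?_⟩
  -- counting
  have hFcard : 16 ≤ Nat.card F := by
    have h1 := Cfsg.Agent.Lib.LocalEven2.card_mul_card_le Y₁ Y₂
    rw [hinf, Subgroup.card_bot, hY₁4, hY₂4] at h1
    simpa using h1
  have hcount := Cfsg.Agent.Lib.LocalEven2.card_mul_card_le A₁ F
  have hA2card : Nat.card A ≤ 2 * Nat.card A₂ := card_le_two_mul_of_mul_mem hA₂ hidx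
  -- the shape of elements of `A₁ ⊓ F`
  have hshape : ∀ e ∈ A₁ ⊓ F, ∃ p ∈ Y₁, e = p * (a * p * a⁻¹) := by
    rintro e ⟨he1, he2⟩
    obtain ⟨p₁, hp₁, p₂, hp₂, rfl⟩ := Cfsg.Agent.Lib.OddLocal.mem_sup_of_le_normalizer hN he2
    refine ⟨p₁, hp₁, ?_⟩
    have hc := hAc _ (hA₁A he1) a ha
    have e1 : a * (p₁ * p₂) * a⁻¹ = p₁ * p₂ := conj_eq_of_comm hc.symm
    have e2 : (a * p₂ * a⁻¹) * (a * p₁ * a⁻¹) = p₁ * p₂ := by
      have e3 : (a * p₂ * a⁻¹) * (a * p₁ * a⁻¹) = a * (p₂ * p₁) * a⁻¹ := by group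
      rw [e3, ← hcomm p₁ hp₁ p₂ hp₂, e1]
    have := split_eq hinf (h21 p₂ hp₂) hp₁ (h12 p₁ hp₁) hp₂ e2
    rw [← this.2]
  by_cases hq : A₂ ≤ centralizer (Y₁ : Set G)
  · -- no action
    have hA₁e : A₁ = A₂ := inf_eq_left.2 hq
    have hsub : ((A₁ ⊓ F : Subgroup G) : Set G) ⊆ (fun p => p * (a * p * a⁻¹)) '' (Y₁ : Set G) := by
      intro e he
      obtain ⟨p, hp, rfl⟩ := hshape e he
      exact ⟨p, hp, rfl⟩
    have hle : Nat.card (A₁ ⊓ F : Subgroup G) ≤ 4 := by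
      have h1 := Set.ncard_le_ncard hsub (Set.toFinite _)
      have h2 := Set.ncard_image_le (f := fun p => p * (a * p * a⁻¹)) (Set.toFinite (Y₁ : Set G))
      have e2 : (Y₁ : Set G).ncard = 4 := hY₁4
      show ((A₁ ⊓ F : Subgroup G) : Set G).ncard ≤ 4
      omega
    have h1 : Nat.card A₁ * 16 ≤ Nat.card (A₁ ⊔ F : Subgroup G) * 4 :=
      (Nat.mul_le_mul_left _ hFcard).trans (hcount.trans (Nat.mul_le_mul_left _ hle))
    rw [hA₁e] at h1 ⊢
    omega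
  · -- a nontrivial action
    obtain ⟨q, hqA, hqn⟩ := Set.not_subset.1 hq
    have hfix : ∀ u ∈ A₂, u * y₁ * u⁻¹ = y₁ := by
      intro u hu
      rcases hact u hu y₁ hy₁ with h | h
      · exact mul_inv_eq_one.1 h
      · exfalso
        apply hy₁1
        have e1 : u * y₁ * u⁻¹ = y₁ * y₁ := mul_inv_eq_iff_eq_mul.1 h
        rw [hY₁2 y₁ hy₁] at e1
        have e2 : y₁ = u⁻¹ * (u * y₁ * u⁻¹) * u := by group
        rw [e2, e1]; group
    obtain ⟨p₀, hp₀, hp₀m⟩ : ∃ p₀ ∈ Y₁, q * p₀ * q⁻¹ ≠ p₀ := by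
      by_contra hcon
      push Not at hcon
      exact hqn (mem_cent_iff.2 hcon)
    have hp₀1 : p₀ ≠ 1 := by
      rintro rfl
      apply hp₀m
      group
    have hp₀y : y₁ ≠ p₀ := by
      rintro rfl
      exact hp₀m (hfix q hqA)
    have hcases := four_cases hY₁4 hY₁2 hy₁ hp₀ hy₁1 hp₀1 hp₀y
    have hcent_of : ∀ u ∈ A₂, u * p₀ * u⁻¹ = p₀ → u ∈ centralizer (Y₁ : Set G) := by
      intro u hu hf
      rw [mem_cent_iff]
      intro v hv
      rcases hcases v hv with h | h | h | h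
      · subst h; group
      · rw [h]; exact hfix u hu
      · rw [h]; exact hf
      · rw [h]
        calc u * (y₁ * p₀) * u⁻¹ = (u * y₁ * u⁻¹) * (u * p₀ * u⁻¹) := by group
          _ = y₁ * p₀ := by rw [hfix u hu, hf]
    have hmove : ∀ u ∈ A₂, u ∉ centralizer (Y₁ : Set G) → u * p₀ * u⁻¹ = y₁ * p₀ := by
      intro u hu hn
      rcases hact u hu p₀ hp₀ with h | h
      · exact absurd (hcent_of u hu (mul_inv_eq_one.1 h)) hn
      · exact mul_inv_eq_iff_eq_mul.1 h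
    have hA₁card : Nat.card A₂ ≤ 2 * Nat.card A₁ := by
      refine card_le_two_mul_of_mul_mem inf_le_left ?_
      intro u hu v hv hun hvn
      have hun' : u ∉ centralizer (Y₁ : Set G) := fun h => hun ⟨hu, h⟩
      have hvn' : v ∉ centralizer (Y₁ : Set G) := fun h => hvn ⟨hv, h⟩
      refine ⟨A₂.mul_mem hu hv, hcent_of _ (A₂.mul_mem hu hv) ?_⟩
      have e1 := hmove u hu hun'
      have e2 := hmove v hv hvn'
      calc u * v * p₀ * (u * v)⁻¹ = u * (v * p₀ * v⁻¹) * u⁻¹ := by group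
        _ = (u * y₁ * u⁻¹) * (u * p₀ * u⁻¹) := by rw [e2]; group
        _ = y₁ * (y₁ * p₀) := by rw [hfix u hu, e1]
        _ = (y₁ * y₁) * p₀ := by group
        _ = p₀ := by rw [hY₁2 y₁ hy₁, one_mul]
    have hsub : ((A₁ ⊓ F : Subgroup G) : Set G) ⊆ {1, y₁ * (a * y₁ * a⁻¹)} := by
      rintro e ⟨he1, he2⟩
      obtain ⟨p, hp, rfl⟩ := hshape e ⟨he1, he2⟩
      have hc := hAc _ (hA₁A he1) q (hA₂ hqA)
      have hqa : q * a = a * q := hAc q (hA₂ hqA) a ha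
      have hcq : Commute q a := hqa
      have e1 : q * (p * (a * p * a⁻¹)) * q⁻¹ = p * (a * p * a⁻¹) := conj_eq_of_comm hc.symm
      have hqp : q * p * q⁻¹ ∈ Y₁ := by
        rcases hact q hqA p hp with h | h
        · rw [mul_inv_eq_one.1 h]; exact hp
        · rw [mul_inv_eq_iff_eq_mul.1 h]; exact Y₁.mul_mem hy₁ hp
      have e2 : q * (a * p * a⁻¹) * q⁻¹ = a * (q * p * q⁻¹) * a⁻¹ := by
        calc q * (a * p * a⁻¹) * q⁻¹ = (q * a) * p * (q * a)⁻¹ := by group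
          _ = (a * q) * p * (a * q)⁻¹ := by rw [hqa]
          _ = _ := by group
      have e3 : (q * p * q⁻¹) * (a * (q * p * q⁻¹) * a⁻¹) = p * (a * p * a⁻¹) := by
        rw [← e2, ← e1]; group
      have e4 := (split_eq hinf hqp hp (h12 _ hqp) (h12 p hp) e3).1
      rcases hcases p hp with h | h | h | h
      · subst h
        left
        group
      · right
        rw [h]
        exact Set.mem_singleton _
      · exfalso
        rw [h] at e4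
        exact hp₀m e4
      · exfalso
        apply hp₀m
        rw [h] at e4
        have e5 : q * (y₁ * p₀) * q⁻¹ = (q * y₁ * q⁻¹) * (q * p₀ * q⁻¹) := by group
        rw [e5, hfix q hqA] at e4
        exact mul_left_cancel e4
    have hle : Nat.card (A₁ ⊓ F : Subgroup G) ≤ 2 := by
      have h1 := Set.ncard_le_ncard hsub (Set.toFinite _)
      have h2 : ({1, y₁ * (a * y₁ * a⁻¹)} : Set G).ncard ≤ 2 := Set.ncard_insert_le _ _ |>.trans (by simp)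
      show ((A₁ ⊓ F : Subgroup G) : Set G).ncard ≤ 2
      omega
    have h1 : Nat.card A₁ * 16 ≤ Nat.card (A₁ ⊔ F : Subgroup G) * 2 :=
      (Nat.mul_le_mul_left _ hFcard).trans (hcount.trans (Nat.mul_le_mul_left _ hle))
    omega

end Cfsg.Agent.Lib.LocalEven2.JC
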