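import Cfsg.Agent.Lib.LocalEven2.JC14

/-!
# Pairs of `T`-normal components with unique overgroups
-/

set_option autoImplicit false
set_option linter.unusedSectionVars false
set_option linter.unusedVariables false

namespace Cfsg.Agent.Lib.LocalEven2.JC

open Subgroup Cfsg Cfsg.Agent.Lib.PLocal
open Cfsg.Agent.Lib.OddLocal (MaxEA thompsonSubgroupOf_eq le_thompsonSubgroupOf MaxEA_nonempty isElementaryAbelian_map
  isElementaryAbelian_subgroupOf)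
open Cfsg.Agent.Lib.LocalEven (cj cj_mul cj_inv_cj cj_cj_inv le_cj_iff cj_mono isPGroup_cj cj_eq_of_mem_normalizer mem_cj
  conj_mem_cj card_cj)
open scoped commutatorElement

variable {G : Type*} [Group G] [Finite G]

/-- `L` is the unique maximal 2-local overgroup of `K J`. -/
structure Uq (J K L : Subgroup G) : Prop where
  m : IsMaximalTwoLocal L
  le : K ⊔ J ≤ L
  u : ∀ L', IsMaximalTwoLocal L' → K ⊔ J ≤ L' → L' = L

namespace Uq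

variable {J K L K₁ L₁ : Subgroup G}

theorem norm_le (h : Uq J K L) {R : Subgroup G} (hR : IsPGroup 2 R) (hR1 : R ≠ ⊥)
    (hK : K ≤ normalizer (R : Set G)) (hJ : J ≤ normalizer (R : Set G)) : normalizer (R : Set G) ≤ L := by
  obtain ⟨L₃, hL₃, hle⟩ := exists_maxTwoLocal (N := normalizer (R : Set G)) ⟨R, hR, hR1, rfl⟩
  have := h.u L₃ hL₃ (sup_le (hK.trans hle) (hJ.trans hle))
  rwa [this] at hle

theorem eq_of_common (h : Uq J K L) (h₁ : Uq J K₁ L₁) {R : Subgroup G} (hR : IsPGroup 2 R) (hR1 : R ≠ ⊥)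
    (hK : K ≤ normalizer (R : Set G)) (hK₁ : K₁ ≤ normalizer (R : Set G)) (hJ : J ≤ normalizer (R : Set G)) : L = L₁ := by
  obtain ⟨L₃, hL₃, hle⟩ := exists_maxTwoLocal (N := normalizer (R : Set G)) ⟨R, hR, hR1, rfl⟩
  have e1 := h.u L₃ hL₃ (sup_le (hK.trans hle) (hJ.trans hle))
  have e2 := h₁.u L₃ hL₃ (sup_le (hK₁.trans hle) (hJ.trans hle))
  rw [← e1, ← e2]

end Uq

/-- A pair of `T`-normal components with different overgroups. -/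
structure Config (T K₁ K₂ L₁ L₂ : Subgroup G) : Prop where
  c₁ : TN L₁ T K₁
  c₂ : TN L₂ T K₂
  u₁ : Uq (thompsonSubgroupOf 2 T) K₁ L₁
  u₂ : Uq (thompsonSubgroupOf 2 T) K₂ L₂
  n₁ : ¬ K₂ ≤ L₁
  n₂ : ¬ K₁ ≤ L₂

/-- The commutator dichotomy for two four-groups acting on each other. -/
theorem crit {L₁ L₂ T K₁ K₂ : Subgroup G} (c₁ : TN L₁ T K₁) (c₂ : TN L₂ T K₂) {w₁ w₂ : G}
    (hw₁ : IsFix T K₁ w₁) (hw₂ : IsFix T K₂ w₂) {g : G} (hV : cj g (wOf K₂) ≤ T) (hU : cj g⁻¹ (wOf K₁) ≤ T) :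
    (∀ a ∈ wOf K₁, ∀ b ∈ wOf K₂, a * (g * b * g⁻¹) = (g * b * g⁻¹) * a) ∨ w₁ = g * w₂ * g⁻¹ := by
  by_cases hall : ∀ a ∈ wOf K₁, ∀ b ∈ wOf K₂, a * (g * b * g⁻¹) = (g * b * g⁻¹) * a
  · exact Or.inl hall
  right
  push Not at hall
  obtain ⟨a, ha, b, hb, hne⟩ := hall
  set p := g * b * g⁻¹ with hp
  have hpT : p ∈ T := hV (conj_mem_cj hb)
  have haT : g⁻¹ * a * g ∈ T := by
    have := hU (conj_mem_cj (g := g⁻¹) ha)
    simpa using this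
  have h1 : p * a * p⁻¹ * a⁻¹ = w₁ := by
    rcases c₁.comm_T_W hw₁ hpT ha with h | h
    · exfalso
      apply hne
      have := mul_inv_eq_one.1 h
      exact (comm_of_conj_eq this).symm
    · exact h
  have h2 : (g⁻¹ * a * g) * b * (g⁻¹ * a * g)⁻¹ * b⁻¹ = w₂ := by
    rcases c₂.comm_T_W hw₂ haT hb with h | h
    · exfalso
      apply hne
      have h3 := mul_inv_eq_one.1 h
      have h4 := comm_of_conj_eq h3
      calc a * p = g * ((g⁻¹ * a * g) * b) * g⁻¹ := by rw [hp]; group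
        _ = g * (b * (g⁻¹ * a * g)) * g⁻¹ := by rw [h4]
        _ = p * a := by rw [hp]; group
    · exact h
  have h3 : g * w₂ * g⁻¹ = a * p * a⁻¹ * p⁻¹ := by
    rw [← h2, hp]; group
  have hw₁2 := c₁.sq hw₁.mem
  have hw₁i : w₁⁻¹ = w₁ := inv_eq_of_mul_eq_one_left hw₁2
  rw [h3, ← hw₁i, ← h1]
  group

namespace Config

variable {T K₁ K₂ L₁ L₂ : Subgroup G}

theorem symm (h : Config T K₁ K₂ L₁ L₂) : Config T K₂ K₁ L₂ L₁ :=
  ⟨h.c₂, h.c₁, h.u₂, h.u₁, h.n₂, h.n₁⟩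

variable (h : Config T K₁ K₂ L₁ L₂)
include h

theorem no_normal {R : Subgroup G} (hR : IsPGroup 2 R) (hR1 : R ≠ ⊥) (hK₁ : K₁ ≤ normalizer (R : Set G))
    (hK₂ : K₂ ≤ normalizer (R : Set G)) (hJ : thompsonSubgroupOf 2 T ≤ normalizer (R : Set G)) : False :=
  h.n₁ (hK₂.trans (h.u₁.norm_le hR hR1 hK₁ hJ))

/-- `C_T(W₁)` is not inside `C_T(W₂)`. -/
theorem Q_not_le : ∃ q ∈ QQ T K₁, q ∉ centralizer (wOf K₂ : Set G) := by
  by_contra hcon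
  push Not at hcon
  have hle : QQ T K₁ ≤ QQ T K₂ := fun q hq => ⟨hq.1, hcon q hq⟩
  obtain ⟨j, hj, hjn⟩ := h.c₂.exists_J_not
  have hjT : j ∈ T := thompson_le T hj
  have hj1 : j ∉ centralizer (wOf K₁ : Set G) := fun hj2 => hjn (hcon j ⟨hjT, hj2⟩)
  have hle2 : QQ T K₂ ≤ QQ T K₁ := by
    intro q hq
    refine ⟨hq.1, ?_⟩
    by_contra hq1
    have h2 := h.c₁.two hq.1 hjT hq1 hj1
    have h3 := hcon (q * j) ⟨T.mul_mem hq.1 hjT, h2⟩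
    apply hjn
    have h4 := Subgroup.mul_mem _ (Subgroup.inv_mem _ hq.2) h3
    simpa using h4
  have he : QQ T K₁ = QQ T K₂ := le_antisymm hle hle2
  refine h.no_normal (R := QQ T K₁) h.c₁.Q_p h.c₁.Q_ne_bot h.c₁.K_norm_Q ?_ ?_
  · rw [he]; exact h.c₂.K_norm_Q
  · exact (thompson_le T).trans h.c₁.T_norm_Q

/-- **Claim A**: when the four-groups commute, `K₁` fixes the `T`-fixed involution of `W₂`. -/
theorem harm (hcomm : ∀ a ∈ wOf K₁, ∀ b ∈ wOf K₂, a * b = b * a) {x w₂ : G} (hx : Data.IsX K₁ x)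
    (hw₂ : IsFix T K₂ w₂) : x * w₂ * x⁻¹ = w₂ := by
  classical
  by_contra hne
  have c₁ := h.c₁
  have c₂ := h.c₂
  have hxi := hx.x_inv
  have hx3 := hx.pow3
  have hxxx : x * x * x = 1 := by rw [← hx3, pow_succ, pow_two]
  -- the subgroup `W₂` inside `C_T(W₁)`
  have hW₂Q : wOf K₂ ≤ QQ T K₁ := fun b hb =>
    ⟨c₂.W_le_T hb, Subgroup.mem_centralizer_iff.2 fun a ha => hcomm a ha b hb⟩
  have hKQ : ∀ {g q : G}, g ∈ K₁ → q ∈ QQ T K₁ → g * q * g⁻¹ ∈ QQ T K₁ := fun hg hq =>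
    (Subgroup.mem_normalizer_iff.1 (c₁.K_norm_Q hg) _).1 hq
  have hxm : x ∈ K₁ := hx.mem
  have hxim : x⁻¹ ∈ K₁ := K₁.inv_mem hx.mem
  have hYQ : ∀ {g b : G}, g ∈ K₁ → b ∈ wOf K₂ → g * b * g⁻¹ ∈ QQ T K₁ := fun hg hb => hKQ hg (hW₂Q hb)
  have hV : cj x (wOf K₂) ≤ T := by
    rintro _ ⟨b, hb, rfl⟩
    exact (hYQ hxm hb).1
  have hU : cj x⁻¹ (wOf K₂) ≤ T := by
    rintro _ ⟨b, hb, rfl⟩
    exact (hYQ hxim hb).1
  have hcY : ∀ a ∈ wOf K₂, ∀ b ∈ wOf K₂, a * (x * b * x⁻¹) = (x * b * x⁻¹) * a := by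
    rcases crit c₂ c₂ hw₂ hw₂ hV hU with h1 | h1
    · exact h1
    · exact absurd h1.symm hne
  set Y₁ := cj x (wOf K₂) with hY₁d
  set Y₂ := cj x⁻¹ (wOf K₂) with hY₂d
  set y₁ := x * w₂ * x⁻¹ with hy₁d
  have hconj2 : ∀ b : G, x * (x * b * x⁻¹) * x⁻¹ = x⁻¹ * b * x := by
    intro b
    have e : x * (x * b * x⁻¹) * x⁻¹ = (x * x) * b * (x * x)⁻¹ := by group
    rw [e, ← hxi]
    group
  -- `Y₁` and `Y₂` commute
  have hc12 : ∀ p ∈ Y₁, ∀ p' ∈ Y₂, p * p' = p' * p := by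
    rintro _ ⟨b, hb, rfl⟩ _ ⟨b', hb', rfl⟩
    have h1 := hcY b hb b' hb'
    show (x * b * x⁻¹) * (x⁻¹ * b' * x⁻¹⁻¹) = (x⁻¹ * b' * x⁻¹⁻¹) * (x * b * x⁻¹)
    have e1 : x⁻¹ * b' * x⁻¹⁻¹ = x * (x * b' * x⁻¹) * x⁻¹ := by rw [hconj2]; group
    rw [e1]
    calc (x * b * x⁻¹) * (x * (x * b' * x⁻¹) * x⁻¹) = x * (b * (x * b' * x⁻¹)) * x⁻¹ := by group
      _ = x * ((x * b' * x⁻¹) * b) * x⁻¹ := by rw [h1]
      _ = _ := by group
  -- `T`-action on `Y₁`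
  have hactY : ∀ q ∈ QQ T K₁, ∀ p ∈ Y₁, q * p * q⁻¹ * p⁻¹ = 1 ∨ q * p * q⁻¹ * p⁻¹ = y₁ := by
    rintro q hq _ ⟨b, hb, rfl⟩
    have hq' : x⁻¹ * q * x ∈ QQ T K₁ := by
      have := hKQ hxim hq
      simpa using this
    show q * (x * b * x⁻¹) * q⁻¹ * (x * b * x⁻¹)⁻¹ = 1 ∨ q * (x * b * x⁻¹) * q⁻¹ * (x * b * x⁻¹)⁻¹ = y₁
    have e : q * (x * b * x⁻¹) * q⁻¹ * (x * b * x⁻¹)⁻¹ =
        x * ((x⁻¹ * q * x) * b * (x⁻¹ * q * x)⁻¹ * b⁻¹) * x⁻¹ := by group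
    rw [e]
    rcases c₂.comm_T_W hw₂ hq'.1 hb with h1 | h1
    · left
      rw [h1]; group
    · right
      rw [h1]
  have hw₂1 := hw₂.ne
  have hy₁1 : y₁ ≠ 1 := by
    intro he
    apply hw₂1
    have e : x⁻¹ * y₁ * x = w₂ := by rw [hy₁d]; group
    rw [he] at e
    rw [← e]; group
  -- `Y₀ ∩ Y₁ = 1`
  have hinf01 : ∀ e ∈ wOf K₂, e ∈ Y₁ → e = 1 := by
    intro e he0 he1
    by_contra he
    have hfix : ∀ q ∈ QQ T K₁, q * e * q⁻¹ = e := by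
      intro q hq
      rcases c₂.comm_T_W hw₂ hq.1 he0 with h1 | h1
      · exact mul_inv_eq_one.1 h1
      · rcases hactY q hq e he1 with h2 | h2
        · exact mul_inv_eq_one.1 h2
        · exact absurd (h2.symm.trans h1) hne
    obtain ⟨q, hq, hqn⟩ := h.Q_not_le
    have he2 : e = w₂ := by
      by_contra he3
      exact hqn (c₂.mem_cent_of_fix' hw₂ he0 he he3 hq.1 (hfix q hq))
    obtain ⟨b, hb, rfl⟩ := he1
    have hb1 : b ≠ 1 := by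
      rintro rfl
      apply he
      show x * 1 * x⁻¹ = 1
      group
    have hfix' : ∀ q ∈ QQ T K₁, q * b * q⁻¹ = b := by
      intro q hq
      have h1 := hfix _ (hKQ hxm hq)
      have h2 : (x * q * x⁻¹) * (MulAut.conj x).toMonoidHom b * (x * q * x⁻¹)⁻¹ = x * (q * b * q⁻¹) * x⁻¹ := by
        show (x * q * x⁻¹) * (x * b * x⁻¹) * (x * q * x⁻¹)⁻¹ = _
        group
      rw [h2] at h1
      have h3 : (MulAut.conj x).toMonoidHom b = x * b * x⁻¹ := rfl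
      rw [h3] at h1
      have h4 := mul_left_cancel (mul_right_cancel h1)
      exact h4
    have hb2 : b = w₂ := by
      by_contra hb3
      exact hqn (c₂.mem_cent_of_fix' hw₂ hb hb1 hb3 hq.1 (hfix' q hq))
    apply hne
    rw [← he2]
    rw [hb2]
    rfl
  have hinf : Y₁ ⊓ Y₂ = ⊥ := by
    rw [eq_bot_iff]
    rintro e ⟨he1, he2⟩
    rw [Subgroup.mem_bot]
    -- conjugate by `x⁻¹`
    obtain ⟨b, hb, rfl⟩ := he1
    obtain ⟨b', hb', he⟩ := he2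
    have e1 : x * b * x⁻¹ = x⁻¹ * b' * x := by
      have h3 : (MulAut.conj x⁻¹).toMonoidHom b' = x⁻¹ * b' * x := by
        show x⁻¹ * b' * x⁻¹⁻¹ = _
        group
      rw [← h3, he]
      rfl
    have e2 : b = x * b' * x⁻¹ := by
      have h3 : x⁻¹ * (x * b * x⁻¹) * x = x⁻¹ * (x⁻¹ * b' * x) * x := by rw [e1]
      have h4 : x⁻¹ * (x * b * x⁻¹) * x = b := by group
      rw [h4] at h3
      rw [h3]
      have h5 : x * b' * x⁻¹ = (x⁻¹ * x⁻¹) * b' * (x⁻¹ * x⁻¹)⁻¹ := by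
        have h6 : x⁻¹ * x⁻¹ = x := by
          rw [hxi]
          calc x * x * (x * x) = (x * x * x) * x := by group
            _ = x := by rw [hxxx, one_mul]
        rw [h6]
      rw [h5]
      simp only [mul_inv_rev, inv_inv, mul_assoc]
    have hb1 : b = 1 := hinf01 b hb (by rw [e2]; exact conj_mem_cj hb')
    show (MulAut.conj x).toMonoidHom b = 1
    rw [hb1, map_one]
  have hEA₂ : IsElementaryAbelian 2 (wOf K₂) := c₂.D.isEA_W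
  have hEA₁ : IsElementaryAbelian 2 Y₁ := isEA_map _ hEA₂
  have hEA₂' : IsElementaryAbelian 2 Y₂ := isEA_map _ hEA₂
  have hc4 : Nat.card Y₁ = 4 := by rw [hY₁d, card_cj]; exact c₂.D.hW4
  have hc4' : Nat.card Y₂ = 4 := by rw [hY₂d, card_cj]; exact c₂.D.hW4
  -- the element `a`
  obtain ⟨A, hA, a, ha, han⟩ : ∃ A ∈ MaxEA 2 T, ∃ a ∈ A, a ∉ centralizer (wOf K₁ : Set G) := by
    by_contra hcon
    push Not at hcon
    obtain ⟨j, hj, hjn⟩ := c₁.exists_J_not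
    apply hjn
    have h1 : thompsonSubgroupOf 2 T ≤ centralizer (wOf K₁ : Set G) := by
      rw [thompsonSubgroupOf_eq]
      exact sSup_le fun A hA a ha => hcon A hA a ha
    exact h1 hj
  have haT : a ∈ T := hA.1 ha
  obtain ⟨o, ho, hoe⟩ := c₁.conj_x_of_not hx haT han
  have hoT : o ∈ T := c₁.O_le_T ho
  have h12 : ∀ p ∈ Y₁, a * p * a⁻¹ ∈ Y₂ := by
    rintro _ ⟨b, hb, rfl⟩
    have hb' : o * (a * b * a⁻¹) * o⁻¹ ∈ wOf K₂ := c₂.conj_W hoT (c₂.conj_W haT hb)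
    have e : a * (x * b * x⁻¹) * a⁻¹ = x⁻¹ * (o * (a * b * a⁻¹) * o⁻¹) * x⁻¹⁻¹ := by
      calc a * (x * b * x⁻¹) * a⁻¹ = (a * x * a⁻¹) * (a * b * a⁻¹) * (a * x * a⁻¹)⁻¹ := by group
        _ = _ := by rw [hoe]; group
    show a * (x * b * x⁻¹) * a⁻¹ ∈ Y₂
    rw [e]
    exact conj_mem_cj hb'
  have h21 : ∀ p ∈ Y₂, a * p * a⁻¹ ∈ Y₁ := by
    rintro _ ⟨b, hb, rfl⟩
    have ho' : x⁻¹ * o⁻¹ * x ∈ pCoreOf 2 K₁ := by
      have := (Subgroup.mem_normalizer_iff.1 (Data.O_norm (le_normalizer hxim)) o⁻¹).1 (Subgroup.inv_mem _ ho)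
      simpa using this
    have hb' : (x⁻¹ * o⁻¹ * x) * (a * b * a⁻¹) * (x⁻¹ * o⁻¹ * x)⁻¹ ∈ wOf K₂ :=
      c₂.conj_W (c₁.O_le_T ho') (c₂.conj_W haT hb)
    have e : a * (x⁻¹ * b * x⁻¹⁻¹) * a⁻¹ = x * ((x⁻¹ * o⁻¹ * x) * (a * b * a⁻¹) * (x⁻¹ * o⁻¹ * x)⁻¹) * x⁻¹ := by
      calc a * (x⁻¹ * b * x⁻¹⁻¹) * a⁻¹ = (a * x * a⁻¹)⁻¹ * (a * b * a⁻¹) * (a * x * a⁻¹) := by group
        _ = _ := by rw [hoe]; group
    show a * (x⁻¹ * b * x⁻¹⁻¹) * a⁻¹ ∈ Y₁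
    rw [e]
    exact conj_mem_cj hb'
  obtain ⟨B, hBe, hBle, hBc⟩ := count_lemma (A := A) (Y₁ := Y₁) (Y₂ := Y₂) (A₂ := A ⊓ centralizer (wOf K₁ : Set G))
    (a := a) (y₁ := y₁) hc4 hc4' hEA₁ hEA₂' hc12 hinf hA.2.1 ha h12 h21 inf_le_left
    (by
      intro u hu v hv hun hvn
      refine ⟨A.mul_mem hu hv, c₁.two (hA.1 hu) (hA.1 hv) (fun h2 => hun ⟨hu, h2⟩) (fun h2 => hvn ⟨hv, h2⟩)⟩)
    (conj_mem_cj hw₂.mem) hy₁1
    (fun q hq p hp => hactY q ⟨hA.1 hq.1, hq.2⟩ p hp)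
  have hBT : B ≤ T := hBle.trans (sup_le hA.1 (sup_le hV hU))
  have h1 := hA.2.2 B hBT hBe
  have h2 : 0 < Nat.card A := Nat.card_pos
  omega

end Config

end Cfsg.Agent.Lib.LocalEven2.JC
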