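import Cfsg.Agent.Lib.LocalEven2.JC15

/-!
# Commuting four-groups: the non-commuting lines
-/

set_option autoImplicit false
set_option linter.unusedSectionVars false
set_option linter.unusedVariables false

namespace Cfsg.Agent.Lib.LocalEven2.JC

open Subgroup Cfsg Cfsg.Agent.Lib.PLocal
open Cfsg.Agent.Lib.OddLocal (MaxEA thompsonSubgroupOf_eq le_thompsonSubgroupOf MaxEA_nonempty isElementaryAbelian_map
  isElementaryAbelian_subgroupOf)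
open Cfsg.Agent.Lib.LocalEven (cj cj_mul cj_inv_cj cj_cj_inv le_cj_iff cj_mono isPGroup_cj cj_eq_of_mem_normalizer mem_cj
  conj_mem_cj card_cj)
open scoped commutatorElement

variable {G : Type*} [Group G] [Finite G]

theorem comm_of_inv_mul {a b c : G} (h : a * b * a⁻¹ * b⁻¹ = c) : a * b = c * b * a := by
  rw [← h]; group

theorem four_pow {v w c e : G} (hv : v * v = 1) (hw : w * w = 1)
    (h1 : (w * v * w⁻¹) * v * (w * v * w⁻¹)⁻¹ * v⁻¹ = c) (h2 : (v * w * v⁻¹) * w * (v * w * v⁻¹)⁻¹ * w⁻¹ = e) :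
    v * c = e * v := by
  have hvi : v⁻¹ = v := inv_eq_of_mul_eq_one_left hv
  have hwi : w⁻¹ = w := inv_eq_of_mul_eq_one_left hw
  rw [← h1, ← h2]
  simp only [mul_inv_rev, inv_inv, hvi, hwi, mul_assoc]

namespace Config

variable {T K₁ K₂ L₁ L₂ : Subgroup G} (h : Config T K₁ K₂ L₁ L₂)
include h

theorem symm_comm (hcomm : ∀ a ∈ wOf K₁, ∀ b ∈ wOf K₂, a * b = b * a) :
    ∀ a ∈ wOf K₂, ∀ b ∈ wOf K₁, a * b = b * a := fun a ha b hb => (hcomm b hb a ha).symm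

theorem harm_cent (hcomm : ∀ a ∈ wOf K₁, ∀ b ∈ wOf K₂, a * b = b * a) {w₂ : G} (hw₂ : IsFix T K₂ w₂) :
    K₁ ≤ centralizer ({w₂} : Set G) := by
  obtain ⟨x, hx⟩ := h.c₁.D.exists_x
  refine hx.K_le (mem_c1.2 (comm_of_conj_eq (h.harm hcomm hx hw₂)).symm) ?_
  intro o ho
  exact mem_c1.2 (comm_of_conj_eq (hw₂.fix o (h.c₁.O_le_T ho))).symm

theorem Y_mem (hcomm : ∀ a ∈ wOf K₁, ∀ b ∈ wOf K₂, a * b = b * a) {g b : G} (hg : g ∈ K₁) (hb : b ∈ wOf K₂) :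
    g * b * g⁻¹ ∈ QQ T K₁ :=
  (Subgroup.mem_normalizer_iff.1 (h.c₁.K_norm_Q hg) _).1
    ⟨h.c₂.W_le_T hb, Subgroup.mem_centralizer_iff.2 fun a ha => hcomm a ha b hb⟩

/-- The lines `W₂` and `x W₂ x⁻¹` do not commute: the commutator is `w₂`. -/
theorem nc_of (hcomm : ∀ a ∈ wOf K₁, ∀ b ∈ wOf K₂, a * b = b * a) {x c : G} (hx : Data.IsX K₁ x)
    (hc : IsFix T K₂ c) (hY : ∃ a ∈ wOf K₂, ∃ b ∈ wOf K₂, a * (x * b * x⁻¹) ≠ (x * b * x⁻¹) * a)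
    {a b : G} (ha : a ∈ wOf K₂) (ha1 : a ≠ 1) (hac : a ≠ c) (hb : b ∈ wOf K₂) (hb1 : b ≠ 1) (hbc : b ≠ c) :
    (x * b * x⁻¹) * a * (x * b * x⁻¹)⁻¹ * a⁻¹ = c := by
  obtain ⟨a₀, ha₀, b₀, hb₀, hne⟩ := hY
  have c₂ := h.c₂
  have hfx := h.harm hcomm hx hc
  have hD := c₂.D
  have hcc : ∀ s ∈ T, s * c = c * s := fun s hs => comm_of_conj_eq (hc.fix s hs)
  have hT : ∀ {u : G}, u ∈ wOf K₂ → x * u * x⁻¹ ∈ T := fun hu => (h.Y_mem hcomm hx.mem hu).1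
  have hcT : c ∈ T := c₂.W_le_T hc.mem
  have hcs : c * c = 1 := c₂.sq hc.mem
  rcases c₂.comm_T_W hc (hT hb) ha with h1 | h1
  · exfalso
    apply hne
    have h2 : (x * b * x⁻¹) * a = a * (x * b * x⁻¹) := comm_of_conj_eq (mul_inv_eq_one.1 h1)
    have h3 : ∀ y ∈ wOf K₂, y = 1 ∨ y = c ∨ y = b ∨ y = c * b :=
      four_cases hD.hW4 hD.hW2 hc.mem hb hc.ne hb1 (Ne.symm hbc)
    have h4 : ∀ y ∈ wOf K₂, y = 1 ∨ y = c ∨ y = a ∨ y = c * a :=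
      four_cases hD.hW4 hD.hW2 hc.mem ha hc.ne ha1 (Ne.symm hac)
    have hxc : x * c * x⁻¹ = c := hfx
    have h5 : ∀ y ∈ wOf K₂, x * y * x⁻¹ = 1 ∨ x * y * x⁻¹ = c ∨ x * y * x⁻¹ = x * b * x⁻¹ ∨
        x * y * x⁻¹ = c * (x * b * x⁻¹) := by
      intro y hy
      rcases h3 y hy with e | e | e | e
      · left; rw [e]; group
      · right; left; rw [e]; exact hxc
      · right; right; left; rw [e]
      · right; right; right; rw [e]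
        calc x * (c * b) * x⁻¹ = (x * c * x⁻¹) * (x * b * x⁻¹) := by group
          _ = _ := by rw [hxc]
    have hca : c * a = a * c := Data.W_comm hc.mem ha
    -- an element of `W₂` commutes with `x b x⁻¹`
    have h6 : ∀ y ∈ wOf K₂, y * (x * b * x⁻¹) = (x * b * x⁻¹) * y := by
      intro y hy
      rcases h4 y hy with e | e | e | e
      · rw [e]; group
      · rw [e]; exact (hcc _ (hT hb)).symm
      · rw [e]; exact h2.symm
      · rw [e]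
        have h7 := hcc _ (hT hb)
        calc c * a * (x * b * x⁻¹) = c * (a * (x * b * x⁻¹)) := by group
          _ = c * ((x * b * x⁻¹) * a) := by rw [h2]
          _ = (c * (x * b * x⁻¹)) * a := by group
          _ = ((x * b * x⁻¹) * c) * a := by rw [h7]
          _ = _ := by group
    rcases h5 b₀ hb₀ with e | e | e | e
    · rw [e]; group
    · rw [e]; exact hcc _ (c₂.W_le_T ha₀)
    · rw [e]; exact h6 a₀ ha₀
    · rw [e]
      have h7 := hcc _ (c₂.W_le_T ha₀)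
      have h8 := h6 a₀ ha₀
      calc a₀ * (c * (x * b * x⁻¹)) = (a₀ * c) * (x * b * x⁻¹) := by group
        _ = (c * a₀) * (x * b * x⁻¹) := by rw [h7]
        _ = c * (a₀ * (x * b * x⁻¹)) := by group
        _ = c * ((x * b * x⁻¹) * a₀) := by rw [h8]
        _ = _ := by group
  · exact h1

end Config

/-- Conjugation by `x` with `x³ = 1`. -/
theorem conj_sq_eq {x : G} (h3 : x * x * x = 1) (b : G) : x * (x * b * x⁻¹) * x⁻¹ = x⁻¹ * b * x := by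
  have hi : x⁻¹ = x * x := by
    have : x * x * x = 1 := h3
    exact (eq_inv_of_mul_eq_one_left this).symm
  have e : x * (x * b * x⁻¹) * x⁻¹ = (x * x) * b * (x * x)⁻¹ := by group
  rw [e, ← hi, inv_inv]

namespace Config

variable {T K₁ K₂ L₁ L₂ : Subgroup G} (h : Config T K₁ K₂ L₁ L₂)
include h

theorem xxx {x : G} (hx : Data.IsX K₁ x) : x * x * x = 1 := by rw [← hx.pow3, pow_succ, pow_two]

/-- Variant for the line `x⁻¹ W₂ x` against `W₂`. -/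
theorem nc3 (hcomm : ∀ a ∈ wOf K₁, ∀ b ∈ wOf K₂, a * b = b * a) {x c : G} (hx : Data.IsX K₁ x)
    (hc : IsFix T K₂ c) (hY : ∃ a ∈ wOf K₂, ∃ b ∈ wOf K₂, a * (x * b * x⁻¹) ≠ (x * b * x⁻¹) * a)
    {a b : G} (ha : a ∈ wOf K₂) (ha1 : a ≠ 1) (hac : a ≠ c) (hb : b ∈ wOf K₂) (hb1 : b ≠ 1) (hbc : b ≠ c) :
    (x⁻¹ * b * x) * a * (x⁻¹ * b * x)⁻¹ * a⁻¹ = c := by
  have h1 := h.nc_of hcomm hx hc hY hb hb1 hbc ha ha1 hac
  have hfx : x⁻¹ * c * x = c := conj_inv_eq_of_conj_eq (h.harm hcomm hx hc)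
  have hci : c⁻¹ = c := inv_eq_of_mul_eq_one_left (h.c₂.sq hc.mem)
  have h2 : a * (x⁻¹ * b * x) * a⁻¹ * (x⁻¹ * b * x)⁻¹ = c := by
    rw [← hfx]
    conv_rhs => rw [← h1]
    group
  calc (x⁻¹ * b * x) * a * (x⁻¹ * b * x)⁻¹ * a⁻¹ = (a * (x⁻¹ * b * x) * a⁻¹ * (x⁻¹ * b * x)⁻¹)⁻¹ := by group
    _ = c := by rw [h2, hci]

/-- Variant for the lines `x⁻¹ W₂ x` and `x W₂ x⁻¹`. -/
theorem nc4 (hcomm : ∀ a ∈ wOf K₁, ∀ b ∈ wOf K₂, a * b = b * a) {x c : G} (hx : Data.IsX K₁ x)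
    (hc : IsFix T K₂ c) (hY : ∃ a ∈ wOf K₂, ∃ b ∈ wOf K₂, a * (x * b * x⁻¹) ≠ (x * b * x⁻¹) * a)
    {a b : G} (ha : a ∈ wOf K₂) (ha1 : a ≠ 1) (hac : a ≠ c) (hb : b ∈ wOf K₂) (hb1 : b ≠ 1) (hbc : b ≠ c) :
    (x⁻¹ * b * x) * (x * a * x⁻¹) * (x⁻¹ * b * x)⁻¹ * (x * a * x⁻¹)⁻¹ = c := by
  have h1 := h.nc_of hcomm hx hc hY ha ha1 hac hb hb1 hbc
  have hfx : x * c * x⁻¹ = c := h.harm hcomm hx hc
  rw [← conj_sq_eq (h.xxx hx) b]
  rw [← hfx]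
  conv_rhs => rw [← h1]
  group

theorem nc2 (hcomm : ∀ a ∈ wOf K₁, ∀ b ∈ wOf K₂, a * b = b * a) {x c : G} (hx : Data.IsX K₁ x)
    (hc : IsFix T K₂ c) (hY : ∃ a ∈ wOf K₂, ∃ b ∈ wOf K₂, a * (x * b * x⁻¹) ≠ (x * b * x⁻¹) * a)
    {b : G} (hb : b ∈ wOf K₂) (hb1 : b ≠ 1) (hbc : b ≠ c) : x * b * x⁻¹ ∉ centralizer (wOf K₂ : Set G) := by
  intro hmem
  obtain ⟨a, ha, ha1, hac⟩ := h.c₂.exists_other hc
  have h1 := h.nc_of hcomm hx hc hY ha ha1 hac hb hb1 hbc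
  rw [(mem_cent_iff.1 hmem) a ha] at h1
  apply hc.ne
  rw [← h1]; group

theorem nc2' (hcomm : ∀ a ∈ wOf K₁, ∀ b ∈ wOf K₂, a * b = b * a) {x c : G} (hx : Data.IsX K₁ x)
    (hc : IsFix T K₂ c) (hY : ∃ a ∈ wOf K₂, ∃ b ∈ wOf K₂, a * (x * b * x⁻¹) ≠ (x * b * x⁻¹) * a)
    {b : G} (hb : b ∈ wOf K₂) (hb1 : b ≠ 1) (hbc : b ≠ c) : x⁻¹ * b * x ∉ centralizer (wOf K₂ : Set G) := by
  intro hmem
  obtain ⟨a, ha, ha1, hac⟩ := h.c₂.exists_other hc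
  have h1 := h.nc3 hcomm hx hc hY ha ha1 hac hb hb1 hbc
  rw [(mem_cent_iff.1 hmem) a ha] at h1
  apply hc.ne
  rw [← h1]; group

/-- Conjugating a line by an element of `T` outside `C_T(W₁)`. -/
theorem flip_line {x t c b : G} (hx : Data.IsX K₁ x) (hc : IsFix T K₂ c) (ht : t ∈ T)
    (hn : t ∉ centralizer (wOf K₁ : Set G)) (hb : b ∈ wOf K₂) (hb1 : b ≠ 1) (hbc : b ≠ c) :
    ∃ u ∈ wOf K₂, u ≠ 1 ∧ u ≠ c ∧ t * (x * b * x⁻¹) * t⁻¹ = x⁻¹ * u * x := by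
  obtain ⟨o, ho, hoe⟩ := h.c₁.conj_x_of_not hx ht hn
  have hoT := h.c₁.O_le_T ho
  refine ⟨o * (t * b * t⁻¹) * o⁻¹, h.c₂.conj_W hoT (h.c₂.conj_W ht hb), ?_, ?_, ?_⟩
  · intro he
    apply hb1
    have e : b = t⁻¹ * (o⁻¹ * (o * (t * b * t⁻¹) * o⁻¹) * o) * t := by group
    rw [e, he]; group
  · intro he
    apply hbc
    have e : b = t⁻¹ * (o⁻¹ * (o * (t * b * t⁻¹) * o⁻¹) * o) * t := by group
    rw [e, he, conj_inv_eq_of_conj_eq (hc.fix o hoT), conj_inv_eq_of_conj_eq (hc.fix t ht)]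
  · calc t * (x * b * x⁻¹) * t⁻¹ = (t * x * t⁻¹) * (t * b * t⁻¹) * (t * x * t⁻¹)⁻¹ := by group
      _ = _ := by rw [hoe]; group

/-- **Both lines non-commuting is impossible.** -/
theorem H1 (hcomm : ∀ a ∈ wOf K₁, ∀ b ∈ wOf K₂, a * b = b * a) {x y e c : G} (hx : Data.IsX K₁ x) (hy : Data.IsX K₂ y)
    (he : IsFix T K₁ e) (hc : IsFix T K₂ c)
    (hY : ∃ a ∈ wOf K₂, ∃ b ∈ wOf K₂, a * (x * b * x⁻¹) ≠ (x * b * x⁻¹) * a)
    (hZ : ∃ a ∈ wOf K₁, ∃ b ∈ wOf K₁, a * (y * b * y⁻¹) ≠ (y * b * y⁻¹) * a) : False := by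
  have hs := h.symm
  have hcomm' := h.symm_comm hcomm
  have c₁ := h.c₁
  have c₂ := h.c₂
  obtain ⟨u₂, hu₂, hu₂1, hu₂c⟩ := c₂.exists_other hc
  obtain ⟨u₁, hu₁, hu₁1, hu₁e⟩ := c₁.exists_other he
  set v := x * u₂ * x⁻¹ with hv
  set w := y * u₁ * y⁻¹ with hw
  have hvQ : v ∈ QQ T K₁ := h.Y_mem hcomm hx.mem hu₂
  have hwQ : w ∈ QQ T K₂ := hs.Y_mem hcomm' hy.mem hu₁
  have hvn : v ∉ centralizer (wOf K₂ : Set G) := h.nc2 hcomm hx hc hY hu₂ hu₂1 hu₂c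
  have hwn : w ∉ centralizer (wOf K₁ : Set G) := hs.nc2 hcomm' hy he hZ hu₁ hu₁1 hu₁e
  obtain ⟨u', hu', hu'1, hu'c, hu'e⟩ := h.flip_line hx hc hwQ.1 hwn hu₂ hu₂1 hu₂c
  obtain ⟨u'', hu'', hu''1, hu''e, hu''eq⟩ := hs.flip_line hy he hvQ.1 hvn hu₁ hu₁1 hu₁e
  have h1 := h.nc4 hcomm hx hc hY hu₂ hu₂1 hu₂c hu' hu'1 hu'c
  have h2 := hs.nc4 hcomm' hy he hZ hu₁ hu₁1 hu₁e hu'' hu''1 hu''e
  rw [← hu'e] at h1
  rw [← hu''eq] at h2
  have hvs : v * v = 1 := by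
    have e1 : v * v = x * (u₂ * u₂) * x⁻¹ := by rw [hv]; group
    rw [e1, c₂.sq hu₂]; group
  have hws : w * w = 1 := by
    have e1 : w * w = y * (u₁ * u₁) * y⁻¹ := by rw [hw]; group
    rw [e1, c₁.sq hu₁]; group
  have hvi : v⁻¹ = v := inv_eq_of_mul_eq_one_left hvs
  have hwi : w⁻¹ = w := inv_eq_of_mul_eq_one_left hws
  rw [← hv] at h1
  rw [← hw] at h2
  have e3 : v * c = e * v := four_pow hvs hws h1 h2
  have e4 : v * e = e * v := comm_of_conj_eq (he.fix v hvQ.1)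
  have hce : c = e := mul_left_cancel (e3.trans e4.symm)
  -- but `x` fixes `c` and moves `e`
  have hfx := h.harm hcomm hx hc
  rw [hce] at hfx
  exact he.ne (c₁.D.fpf hx he.mem hfx)

end Config

theorem f_sq {a v t c : G} (ha : a * a = 1) (hv : v * v = 1) (ht : t * t = 1) (hcs : c * c = 1)
    (hc1 : a * c = c * a) (hc2 : v * c = c * v)
    (R1 : v * a * v⁻¹ * a⁻¹ = c) (R3 : t * a * t⁻¹ * a⁻¹ = c) (R4 : t * v * t⁻¹ * v⁻¹ = c) :
    (a * v * t) * (a * v * t) = c := by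
  have h1 : t * a = c * a * t := comm_of_inv_mul R3
  have h2 : v * a = c * a * v := comm_of_inv_mul R1
  have h3 : t * v = c * v * t := comm_of_inv_mul R4
  calc (a * v * t) * (a * v * t) = a * v * (t * a) * v * t := by group
    _ = a * v * (c * a * t) * v * t := by rw [h1]
    _ = a * (v * c) * a * t * v * t := by group
    _ = a * (c * v) * a * t * v * t := by rw [hc2]
    _ = (a * c) * (v * a) * t * v * t := by group
    _ = (c * a) * (c * a * v) * t * v * t := by rw [hc1, h2]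
    _ = c * (a * c) * a * v * t * v * t := by group
    _ = c * (c * a) * a * v * t * v * t := by rw [hc1]
    _ = (c * c) * (a * a) * v * (t * v) * t := by group
    _ = v * (c * v * t) * t := by rw [hcs, ha, h3]; group
    _ = (v * c) * v * (t * t) := by group
    _ = (c * v) * v := by rw [hc2, ht]; group
    _ = c * (v * v) := by group
    _ = c := by rw [hv]; group

namespace Config

variable {T K₁ K₂ L₁ L₂ : Subgroup G} (h : Config T K₁ K₂ L₁ L₂)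
include h

/-- Action of `C_T(W₁)` on a line. -/
theorem act_line (hcomm : ∀ a ∈ wOf K₁, ∀ b ∈ wOf K₂, a * b = b * a) {g c q b : G} (hg : g ∈ K₁)
    (hc : IsFix T K₂ c) (hq : q ∈ QQ T K₁) (hb : b ∈ wOf K₂) :
    q * (g * b * g⁻¹) * q⁻¹ * (g * b * g⁻¹)⁻¹ = 1 ∨ q * (g * b * g⁻¹) * q⁻¹ * (g * b * g⁻¹)⁻¹ = c := by
  have hq' : g⁻¹ * q * g ∈ QQ T K₁ := by
    have := (Subgroup.mem_normalizer_iff.1 (h.c₁.K_norm_Q (K₁.inv_mem hg)) _).1 hq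
    simpa using this
  have e : q * (g * b * g⁻¹) * q⁻¹ * (g * b * g⁻¹)⁻¹ =
      g * ((g⁻¹ * q * g) * b * (g⁻¹ * q * g)⁻¹ * b⁻¹) * g⁻¹ := by group
  rw [e]
  rcases h.c₂.comm_T_W hc hq'.1 hb with h1 | h1
  · left
    rw [h1]; group
  · right
    rw [h1]
    have h2 := mem_c1.1 (h.harm_cent hcomm hc hg)
    rw [← h2]
    group

/-- **One line commuting, the other not, is impossible.** -/
theorem H2 (hcomm : ∀ a ∈ wOf K₁, ∀ b ∈ wOf K₂, a * b = b * a) {x y e c : G} (hx : Data.IsX K₁ x) (hy : Data.IsX K₂ y)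
    (he : IsFix T K₁ e) (hc : IsFix T K₂ c)
    (hY : ∃ a ∈ wOf K₂, ∃ b ∈ wOf K₂, a * (x * b * x⁻¹) ≠ (x * b * x⁻¹) * a)
    (hZ : ∀ a ∈ wOf K₁, ∀ b ∈ wOf K₁, a * (y * b * y⁻¹) = (y * b * y⁻¹) * a) : False := by
  have hs := h.symm
  have hcomm' := h.symm_comm hcomm
  have c₁ := h.c₁
  have c₂ := h.c₂
  have hfy : y * e * y⁻¹ = e := hs.harm hcomm' hy he
  have hfx : x * c * x⁻¹ = c := h.harm hcomm hx hc
  have hfyi : y⁻¹ * e * y = e := conj_inv_eq_of_conj_eq hfy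
  have hy3 : y * y * y = 1 := hs.xxx hy
  obtain ⟨u₂, hu₂, hu₂1, hu₂c⟩ := c₂.exists_other hc
  obtain ⟨u₁, hu₁, hu₁1, hu₁e⟩ := c₁.exists_other he
  set v := x * u₂ * x⁻¹ with hv
  set w := y * u₁ * y⁻¹ with hw
  have hvQ : v ∈ QQ T K₁ := h.Y_mem hcomm hx.mem hu₂
  have hvn : v ∉ centralizer (wOf K₂ : Set G) := h.nc2 hcomm hx hc hY hu₂ hu₂1 hu₂c
  have hwQ₂ : w ∈ QQ T K₂ := hs.Y_mem hcomm' hy.mem hu₁
  have hwC : w ∈ centralizer (wOf K₁ : Set G) := Subgroup.mem_centralizer_iff.2 fun a ha => hZ a ha u₁ hu₁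
  have hwQ₁ : w ∈ QQ T K₁ := ⟨hwQ₂.1, hwC⟩
  obtain ⟨u', hu', hu'1, hu'e, hu'eq⟩ := hs.flip_line hy he hvQ.1 hvn hu₁ hu₁1 hu₁e
  rw [← hw] at hu'eq
  set w₂ := y⁻¹ * u' * y with hw₂
  have hws : w * w = 1 := by
    have e1 : w * w = y * (u₁ * u₁) * y⁻¹ := by rw [hw]; group
    rw [e1, c₁.sq hu₁]; group
  have hwi : w⁻¹ = w := inv_eq_of_mul_eq_one_left hws
  have hact := h.act_line hcomm hx.mem hc hwQ₁ hu₂
  rw [← hv] at hact
  have ecomm : w * v * w⁻¹ * v⁻¹ = w * w₂ := by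
    rw [← hu'eq]
    have e2 : v * w * v⁻¹ = v * w⁻¹ * v⁻¹ := by rw [hwi]
    rw [e2]
    group
  rw [ecomm] at hact
  have hN₁ : normalizer ((wOf K₁ : Subgroup G) : Set G) ≤ L₁ :=
    h.u₁.norm_le c₁.W_p c₁.W_ne (Subgroup.le_normalizer.trans Data.W_norm) ((thompson_le T).trans c₁.T_norm_W)
  -- the product is not trivial
  have hne : w * w₂ ≠ 1 := by
    intro h1
    have hw₂e : w₂ = w := by
      have := eq_inv_of_mul_eq_one_right h1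
      rw [this, hwi]
    have hu'2 : y⁻¹ * u₁ * y = u' := by
      have e1 : y * w₂ * y⁻¹ = y⁻¹ * u₁ * y := by
        rw [hw₂e, hw]
        exact conj_sq_eq hy3 u₁
      rw [← e1, hw₂]
      group
    apply h.n₁
    refine (hy.K_le ?_ ?_).trans hN₁
    · have hi : y⁻¹ ∈ normalizer ((wOf K₁ : Subgroup G) : Set G) := by
        apply Cfsg.Agent.Lib.Coprime.mem_normalizer_of_conj_le
        intro a ha
        rw [inv_inv]
        rcases four_cases c₁.D.hW4 c₁.D.hW2 he.mem hu₁ he.ne hu₁1 (Ne.symm hu₁e) a ha with e1 | e1 | e1 | e1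
        · rw [e1]
          have : y⁻¹ * 1 * y = 1 := by group
          rw [this]
          exact Subgroup.one_mem _
        · rw [e1, hfyi]; exact he.mem
        · rw [e1, hu'2]; exact hu'
        · rw [e1]
          have e2 : y⁻¹ * (e * u₁) * y = (y⁻¹ * e * y) * (y⁻¹ * u₁ * y) := by group
          rw [e2, hfyi, hu'2]
          exact (wOf K₁).mul_mem he.mem hu'
      have := Subgroup.inv_mem _ hi
      simpa using this
    · exact c₂.O_le_T.trans c₁.T_norm_W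
  have hcw : w * w₂ = c := hact.resolve_left hne
  -- the flip
  have hflip : ∀ q ∈ QQ T K₂, q * w * q⁻¹ = w ↔ q * w₂ * q⁻¹ = w₂ := by
    intro q hq
    have h1 : (q * w * q⁻¹) * (q * w₂ * q⁻¹) = w * w₂ := by
      have e1 : (q * w * q⁻¹) * (q * w₂ * q⁻¹) = q * (w * w₂) * q⁻¹ := by group
      rw [e1, hcw]
      exact hc.fix q hq.1
    constructor
    · intro h2
      rw [h2] at h1
      exact mul_left_cancel h1
    · intro h2
      rw [h2] at h1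
      exact mul_right_cancel h1
  have hKQ₂ : ∀ {g q : G}, g ∈ K₂ → q ∈ QQ T K₂ → g * q * g⁻¹ ∈ QQ T K₂ := fun hg hq =>
    (Subgroup.mem_normalizer_iff.1 (c₂.K_norm_Q hg) _).1 hq
  have hyi : y⁻¹ ∈ K₂ := K₂.inv_mem hy.mem
  have hKQ₂' : ∀ {q : G}, q ∈ QQ T K₂ → y⁻¹ * q * y ∈ QQ T K₂ := fun hq => by
    have := hKQ₂ hyi hq
    simpa using this
  have hP : ∀ q ∈ QQ T K₂, q * w * q⁻¹ = w → y⁻¹ * q * y ∈ centralizer (wOf K₁ : Set G) := by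
    intro q hq hf
    apply c₁.mem_cent_of_fix' he hu₁ hu₁1 hu₁e (hKQ₂' hq).1
    have e1 : y * ((y⁻¹ * q * y) * u₁ * (y⁻¹ * q * y)⁻¹) * y⁻¹ = q * w * q⁻¹ := by rw [hw]; group
    rw [hf, hw] at e1
    exact mul_left_cancel (mul_right_cancel e1)
  have hP' : ∀ q ∈ QQ T K₂, y * q * y⁻¹ ∈ centralizer (wOf K₁ : Set G) → q * w₂ * q⁻¹ = w₂ := by
    intro q hq hm
    have h1 := (mem_cent_iff.1 hm) u' hu'
    calc q * w₂ * q⁻¹ = y⁻¹ * ((y * q * y⁻¹) * u' * (y * q * y⁻¹)⁻¹) * y := by rw [hw₂]; group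
      _ = w₂ := by rw [h1, hw₂]
  -- `D` is `y`-invariant
  have hinv : ∀ d ∈ QQ T K₂, d ∈ centralizer (wOf K₁ : Set G) → y * d * y⁻¹ ∈ centralizer (wOf K₁ : Set G) := by
    intro d hd hdc
    have hq' := hKQ₂' hd
    have h1 : y * (y⁻¹ * d * y) * y⁻¹ ∈ centralizer (wOf K₁ : Set G) := by
      have e1 : y * (y⁻¹ * d * y) * y⁻¹ = d := by group
      rw [e1]; exact hdc
    have h2 := hP' _ hq' h1
    have h3 := (hflip _ hq').2 h2
    have h4 := hP _ hq' h3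
    have e2 : y⁻¹ * (y⁻¹ * d * y) * y = y * d * y⁻¹ := by
      have hi : y⁻¹ = y * y := (eq_inv_of_mul_eq_one_left hy3).symm
      have hi2 : y⁻¹ * y⁻¹ = y := by
        rw [hi]
        calc y * y * (y * y) = (y * y * y) * y := by group
          _ = y := by rw [hy3, one_mul]
      have hi3 : y * y = y⁻¹ := hi.symm
      calc y⁻¹ * (y⁻¹ * d * y) * y = (y⁻¹ * y⁻¹) * d * (y * y) := by group
        _ = y * d * y⁻¹ := by rw [hi2, hi3]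
    rwa [e2] at h4
  -- the element `f`
  set t := x⁻¹ * u₂ * x with ht
  have htQ : t ∈ QQ T K₁ := by
    have := h.Y_mem hcomm (K₁.inv_mem hx.mem) hu₂
    simpa using this
  have htn : t ∉ centralizer (wOf K₂ : Set G) := h.nc2' hcomm hx hc hY hu₂ hu₂1 hu₂c
  have hu₂Q : u₂ ∈ QQ T K₁ := by
    have := h.Y_mem hcomm (K₁.one_mem) hu₂
    simpa using this
  set f := u₂ * v * t with hf
  have hfQ₁ : f ∈ QQ T K₁ := (QQ T K₁).mul_mem ((QQ T K₁).mul_mem hu₂Q hvQ) htQ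
  have hfC₂ : f ∈ centralizer (wOf K₂ : Set G) := by
    have e1 : f = u₂ * (v * t) := by rw [hf]; group
    rw [e1]
    exact Subgroup.mul_mem _ (c₂.W_le_Q hu₂).2 (c₂.two hvQ.1 htQ.1 hvn htn)
  have hfs : f * f = c := by
    have hvs : v * v = 1 := by
      have e1 : v * v = x * (u₂ * u₂) * x⁻¹ := by rw [hv]; group
      rw [e1, c₂.sq hu₂]; group
    have hts : t * t = 1 := by
      have e1 : t * t = x⁻¹ * (u₂ * u₂) * x := by rw [ht]; group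
      rw [e1, c₂.sq hu₂]; group
    exact f_sq (c₂.sq hu₂) hvs hts (c₂.sq hc.mem) (comm_of_conj_eq (hc.fix _ hu₂Q.1)) (comm_of_conj_eq (hc.fix _ hvQ.1))
      (h.nc_of hcomm hx hc hY hu₂ hu₂1 hu₂c hu₂ hu₂1 hu₂c)
      (h.nc3 hcomm hx hc hY hu₂ hu₂1 hu₂c hu₂ hu₂1 hu₂c)
      (h.nc4 hcomm hx hc hY hu₂ hu₂1 hu₂c hu₂ hu₂1 hu₂c)
  have hfQ₂ : f ∈ QQ T K₂ := ⟨hfQ₁.1, hfC₂⟩
  set s := y * f * y⁻¹ with hs'
  have hsQ₁ : s ∈ QQ T K₁ := ⟨(hKQ₂ hy.mem hfQ₂).1, hinv f hfQ₂ hfQ₁.2⟩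
  set c₃ := y * c * y⁻¹ with hc₃
  have hss : s * s = c₃ := by
    have e1 : s * s = y * (f * f) * y⁻¹ := by rw [hs']; group
    rw [e1, hfs]
  have hc₃W : c₃ ∈ wOf K₂ := (Subgroup.mem_normalizer_iff.1 (Data.W_norm (le_normalizer hy.mem)) c).1 hc.mem
  have hc₃1 : c₃ ≠ 1 := by
    intro h1
    apply hc.ne
    have e1 : y⁻¹ * c₃ * y = c := by rw [hc₃]; group
    rw [← e1, h1]; group
  have hc₃c : c₃ ≠ c := fun h1 => hc.ne (c₂.D.fpf hy hc.mem h1)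
  have hs'Q : x * s * x⁻¹ ∈ QQ T K₁ := (Subgroup.mem_normalizer_iff.1 (c₁.K_norm_Q hx.mem) _).1 hsQ₁
  have h1 := c₂.sq_mem hs'Q.1
  have e1 : (x * s * x⁻¹) * (x * s * x⁻¹) = x * c₃ * x⁻¹ := by
    rw [← hss]; group
  rw [e1] at h1
  exact h.nc2 hcomm hx hc hY hc₃W hc₃1 hc₃c h1

end Config

end Cfsg.Agent.Lib.LocalEven2.JC
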