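import Cfsg.Agent.Lib.LocalEven2.JC16

/-!
# Commuting four-groups: the last case
-/

set_option autoImplicit false
set_option linter.unusedSectionVars false
set_option linter.unusedVariables false

namespace Cfsg.Agent.Lib.LocalEven2.JC

open Subgroup Cfsg Cfsg.Agent.Lib.PLocal
open Cfsg.Agent.Lib.OddLocal (MaxEA thompsonSubgroupOf_eq le_thompsonSubgroupOf MaxEA_nonempty isElementaryAbelian_map
  isElementaryAbelian_subgroupOf)
open Cfsg.Agent.Lib.LocalEven (cj cj_mul cj_inv_cj cj_cj_inv le_cj_iff cj_mono isPGroup_cj cj_eq_of_mem_normalizer mem_cj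
  conj_mem_cj card_cj mem_normalizer_of_cj_eq)
open scoped commutatorElement

variable {G : Type*} [Group G] [Finite G]

theorem cent_le_norm_zpowers {y : G} : centralizer ({y} : Set G) ≤ normalizer ((zpowers y : Subgroup G) : Set G) := by
  intro k hk
  apply Cfsg.Agent.Lib.Coprime.mem_normalizer_of_conj_le
  intro u hu
  obtain ⟨n, rfl⟩ := Subgroup.mem_zpowers_iff.1 hu
  have h1 : k * y * k⁻¹ = y := conj_eq_of_comm (mem_c1.1 hk).symm
  rw [← conj_zpow, h1]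
  exact Subgroup.zpow_mem_zpowers y n

theorem isPGroup_zpowers_of_sq {y : G} (h : y * y = 1) : IsPGroup 2 (zpowers y) := by
  intro g
  refine ⟨1, ?_⟩
  apply Subtype.ext
  obtain ⟨n, hn⟩ := Subgroup.mem_zpowers_iff.1 g.2
  have h1 : y ^ 2 = 1 := by rw [pow_two]; exact h
  show (g : G) ^ (2 ^ 1) = 1
  rw [← hn, ← zpow_natCast, ← zpow_mul, mul_comm, zpow_mul]
  have : y ^ (((2 ^ 1 : ℕ) : ℤ)) = 1 := by
    rw [zpow_natCast]; simpa using h1
  rw [this, one_zpow]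

theorem zpowers_ne_bot {y : G} (h : y ≠ 1) : zpowers y ≠ ⊥ := by
  intro he
  exact h (Subgroup.zpowers_eq_bot.1 he)

namespace CompIn

variable {L T K T' K' : Subgroup G}

/-- Another component in `L` centralizes `W_K`. -/
theorem cent_W (h : CompIn L T K) (h' : CompIn L T' K') (hne : K' ≠ K) {k w : G} (hk : k ∈ K') (hw : w ∈ wOf K) :
    k * w * k⁻¹ = w := by
  obtain ⟨x', hx'⟩ := h'.D.exists_x
  have hV := h.W_le_V w hw
  have hle : K' ≤ centralizer ({w} : Set G) := by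
    refine hx'.K_le ?_ ?_
    · apply mem_c1.2
      have hz := h'.comm_mem_W hx' hV
      have hz' : x' * w * x'⁻¹ * w⁻¹ ∈ wOf K' := hz
      have hzW : x' * w * x'⁻¹ * w⁻¹ ∈ wOf K :=
        (wOf K).mul_mem ((Subgroup.mem_normalizer_iff.1 (h'.norm_W h hx'.mem) w).1 hw) ((wOf K).inv_mem hw)
      by_cases h1 : x' * w * x'⁻¹ * w⁻¹ = 1
      · exact (comm_of_conj_eq (mul_inv_eq_one.1 h1)).symm
      · exact absurd (h.eq_of_common h' hzW hz' h1 (h.W_le_V _ hzW)) hne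
    · intro o ho
      apply mem_c1.2
      exact ((V_facts h.hLS hV).2.1 o (h'.O_le_Q ho)).symm
  exact conj_eq_of_comm (mem_c1.1 (hle hk)).symm

end CompIn

theorem IsFix.mem_Z0 {L T K : Subgroup G} {w : G} (hw : IsFix T K w) (c : TN L T K) :
    w ∈ omegaCenterOf (thompsonSubgroupOf 2 T) :=
  mem_omegaCenterOf.2 ⟨c.D.W_le_J hw.mem, Subgroup.mem_centralizer_iff.2 fun j hj =>
    comm_of_conj_eq (hw.fix j (thompson_le T hj)), c.sq hw.mem⟩

/-- Decomposition of an element of `Z₀`. -/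
theorem Data.dec {J K : Subgroup G} (D : Data J K) {a y : G} (ha : a ∈ Data.W0 J K) (ha1 : a ≠ 1)
    (hy : y ∈ omegaCenterOf J) :
    ∃ v ∈ omegaCenterOf J, K ≤ centralizer ({v} : Set G) ∧ (y = v ∨ y = v * a) := by
  obtain ⟨v, w, e, hv, hvc, -, hw⟩ := D.Z0_decomp hy
  have hw' : w ∈ Data.W0 J K := by rw [← D.Z0_inf_W]; exact hw
  refine ⟨v, hv, ?_, ?_⟩
  · intro k hk
    apply mem_c1.2
    exact (Subgroup.mem_centralizer_iff.1 hvc k (Subgroup.mem_sup_left hk)).symm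
  · by_cases hw1 : w = 1
    · left; rw [e, hw1, mul_one]
    · right; rw [e, D.W0_cases hw' ha hw1 ha1]

theorem cj_normalizer (g : G) (R : Subgroup G) :
    cj g (normalizer (R : Set G)) = normalizer ((cj g R : Subgroup G) : Set G) := by
  apply le_antisymm
  · rintro _ ⟨n, hn, rfl⟩
    exact Cfsg.Agent.Lib.LocalEven.conj_mem_normalizer_cj hn g
  · intro n hn
    rw [mem_cj]
    have := Cfsg.Agent.Lib.LocalEven.conj_mem_normalizer_cj hn g⁻¹
    rw [cj_inv_cj] at this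
    simpa using this

theorem twoLocal_cj (g : G) {N : Subgroup G} (h : IsTwoLocal N) : IsTwoLocal (cj g N) := by
  obtain ⟨R, hR, hR1, rfl⟩ := h
  refine ⟨cj g R, isPGroup_cj hR g, ?_, cj_normalizer g R⟩
  intro he
  apply hR1
  have := cj_inv_cj g R
  rw [he] at this
  rw [← this]
  unfold cj
  simp

theorem maxTwoLocal_cj (g : G) {L : Subgroup G} (h : IsMaximalTwoLocal L) : IsMaximalTwoLocal (cj g L) := by
  refine ⟨twoLocal_cj g h.1, fun N hN hle => ?_⟩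
  have h1 : L ≤ cj g⁻¹ N := by
    have := cj_mono (g := g⁻¹) hle
    rwa [cj_inv_cj] at this
  have h2 := h.2 _ (twoLocal_cj g⁻¹ hN) h1
  rw [← h2, cj_cj_inv]

/-- Two components with different overgroups. -/
structure Pair (J K₁ K₂ L₁ L₂ : Subgroup G) : Prop where
  D₁ : Data J K₁
  D₂ : Data J K₂
  u₁ : Uq J K₁ L₁
  u₂ : Uq J K₂ L₂
  ne : L₁ ≠ L₂

namespace Pair

variable {J K₁ K₂ L₁ L₂ : Subgroup G} (P : Pair J K₁ K₂ L₁ L₂)
include P

theorem no_common {y : G} (hy : y ∈ omegaCenterOf J) (hy1 : y ≠ 1) (h₁ : K₁ ≤ centralizer ({y} : Set G))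
    (h₂ : K₂ ≤ centralizer ({y} : Set G)) : False := by
  obtain ⟨-, hyc, hys⟩ := mem_omegaCenterOf.1 hy
  apply P.ne
  refine P.u₁.eq_of_common P.u₂ (isPGroup_zpowers_of_sq hys) (zpowers_ne_bot hy1)
    (h₁.trans cent_le_norm_zpowers) (h₂.trans cent_le_norm_zpowers) ?_
  refine le_trans ?_ cent_le_norm_zpowers
  intro j hj
  apply mem_c1.2
  exact (Subgroup.mem_centralizer_iff.1 hyc j hj).symm

theorem enum {a b : G} (ha : a ∈ Data.W0 J K₁) (ha1 : a ≠ 1) (hb : b ∈ omegaCenterOf J) (hb1 : b ≠ 1)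
    (hbc : K₁ ≤ centralizer ({b} : Set G)) :
    ∀ y ∈ omegaCenterOf J, y = 1 ∨ y = a ∨ y = b ∨ y = a * b := by
  intro y hy
  obtain ⟨v, hv, hvc, hyv⟩ := P.D₁.dec ha ha1 hy
  have haZ : a ∈ omegaCenterOf J := by
    have : a ∈ omegaCenterOf J ⊓ wOf K₁ := by rw [P.D₁.Z0_inf_W]; exact ha
    exact this.1
  obtain ⟨w₀, hw₀, hw₀1, hw₀f⟩ := P.D₂.exists_w0
  have hw₀m : w₀ ∈ Data.W0 J K₂ := P.D₂.mem_W0 hw₀ hw₀f
  have key : v = 1 ∨ v = b := by
    by_contra hcon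
    push Not at hcon
    obtain ⟨hv1, hvb⟩ := hcon
    obtain ⟨v₂, hv₂, hv₂c, hvv⟩ := P.D₂.dec hw₀m hw₀1 hv
    obtain ⟨b₂, hb₂, hb₂c, hbb⟩ := P.D₂.dec hw₀m hw₀1 hb
    rcases hvv with e1 | e1
    · exact P.no_common hv hv1 hvc (e1 ▸ hv₂c)
    rcases hbb with e2 | e2
    · exact P.no_common hb hb1 hbc (e2 ▸ hb₂c)
    have e3 : v * b⁻¹ = v₂ * b₂⁻¹ := by rw [e1, e2]; group
    apply P.no_common (y := v * b⁻¹) ((omegaCenterOf J).mul_mem hv ((omegaCenterOf J).inv_mem hb))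
    · intro he
      exact hvb (mul_inv_eq_one.1 he)
    · intro k hk
      apply mem_c1.2
      have h1 := mem_c1.1 (hvc hk)
      have h2 : Commute k b := (mem_c1.1 (hbc hk)).symm
      have h3 : Commute k v := h1.symm
      exact (h3.mul_right h2.inv_right).symm.eq
    · intro k hk
      apply mem_c1.2
      rw [e3]
      have h1 : Commute k v₂ := (mem_c1.1 (hv₂c hk)).symm
      have h2 : Commute k b₂ := (mem_c1.1 (hb₂c hk)).symm
      exact (h1.mul_right h2.inv_right).symm.eq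
  rcases key with rfl | rfl
  · rcases hyv with e | e
    · left; exact e
    · right; left; rw [e, one_mul]
  · rcases hyv with e | e
    · right; right; left; exact e
    · right; right; right; rw [e]; exact omegaCenterOf_comm hv haZ

end Pair

namespace Config

variable {T K₁ K₂ L₁ L₂ : Subgroup G} (h : Config T K₁ K₂ L₁ L₂)
include h

theorem L_ne : L₁ ≠ L₂ := by
  intro he
  exact h.n₁ (he ▸ h.c₂.h.hKL)

theorem pair : Pair (thompsonSubgroupOf 2 T) K₁ K₂ L₁ L₂ := ⟨h.c₁.D, h.c₂.D, h.u₁, h.u₂, h.L_ne⟩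

theorem norm_le₁ {y : G} (hy : y * y = 1) (hy1 : y ≠ 1) (hK : K₁ ≤ centralizer ({y} : Set G))
    (hJ : thompsonSubgroupOf 2 T ≤ centralizer ({y} : Set G)) : centralizer ({y} : Set G) ≤ L₁ :=
  cent_le_norm_zpowers.trans (h.u₁.norm_le (isPGroup_zpowers_of_sq hy) (zpowers_ne_bot hy1)
    (hK.trans cent_le_norm_zpowers) (hJ.trans cent_le_norm_zpowers))

theorem J_cent {y : G} (hy : ∀ t ∈ T, t * y * t⁻¹ = y) : thompsonSubgroupOf 2 T ≤ centralizer ({y} : Set G) := fun j hj =>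
  mem_c1.2 (comm_of_conj_eq (hy j (thompson_le T hj))).symm

/-- In the harmonic case, each overgroup contains a single component. -/
theorem uniq_comp (hcomm : ∀ a ∈ wOf K₁, ∀ b ∈ wOf K₂, a * b = b * a) {e c : G}
    (he : IsFix T K₁ e) (hc : IsFix T K₂ c) {K' : Subgroup G} (hK' : CompIn L₁ T K') : K' = K₁ := by
  by_contra hne
  have c₁ := h.c₁
  have c₂ := h.c₂
  have hcomm' := h.symm_comm hcomm
  have hK₁c := h.harm_cent hcomm hc
  have hK₂e := h.symm.harm_cent hcomm' he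
  have henum := h.pair.enum (c₁.fix_mem he) he.ne (hc.mem_Z0 c₂) hc.ne hK₁c
  have hK'e : K' ≤ centralizer ({e} : Set G) := fun k hk =>
    mem_c1.2 (comm_of_conj_eq (c₁.h.cent_W hK' hne hk he.mem)).symm
  have hN₂ : centralizer ({e} : Set G) ≤ L₂ :=
    h.symm.norm_le₁ (c₁.sq he.mem) he.ne hK₂e (h.J_cent he.fix)
  have hK'L₂ : K' ≤ L₂ := hK'e.trans hN₂
  have hK'₂ : CompIn L₂ T K' := ⟨c₂.h.hLS, c₂.h.hT, c₂.h.hT1, hK'.hK, hK'L₂⟩
  have hne₂ : K' ≠ K₂ := by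
    rintro rfl
    exact h.n₁ hK'.hKL
  have hK'c : K' ≤ centralizer ({c} : Set G) := fun k hk =>
    mem_c1.2 (comm_of_conj_eq (c₂.h.cent_W hK'₂ hne₂ hk hc.mem)).symm
  obtain ⟨x', hx'⟩ := hK'.D.exists_x
  obtain ⟨w', hw', hw'1, hw'f⟩ := hK'.D.exists_w0
  have hw'Z : w' ∈ omegaCenterOf (thompsonSubgroupOf 2 T) := by
    have h1 : w' ∈ Data.W0 (thompsonSubgroupOf 2 T) K' := hK'.D.mem_W0 hw' hw'f
    have : w' ∈ omegaCenterOf (thompsonSubgroupOf 2 T) ⊓ wOf K' := by rw [hK'.D.Z0_inf_W]; exact h1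
    exact this.1
  have hex : x' * e = e * x' := (mem_c1.1 (hK'e hx'.mem)).symm
  have hxc : x' * c = c * x' := (mem_c1.1 (hK'c hx'.mem)).symm
  apply hw'1
  apply hK'.D.fpf hx' hw'
  rcases henum w' hw'Z with e1 | e1 | e1 | e1
  · rw [e1]; group
  · rw [e1]; exact conj_eq_of_comm hex
  · rw [e1]; exact conj_eq_of_comm hxc
  · rw [e1]
    apply conj_eq_of_comm
    have h1 : Commute x' e := hex
    have h2 : Commute x' c := hxc
    exact (h1.mul_right h2).eq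

end Config

theorem le_of_odd_of_two {N₁ N₀ T : Subgroup G} (hN : N₁ ≤ N₀) (hT : T ≤ N₁) (hodd : Odd (T.relIndex N₀))
    (h2 : ∀ a ∈ N₀, ∀ b ∈ N₀, a ∉ N₁ → b ∉ N₁ → a * b ∈ N₁) : N₀ ≤ N₁ := by
  have hc := card_le_two_mul_of_mul_mem hN h2
  have h3 : T.relIndex N₁ * N₁.relIndex N₀ = T.relIndex N₀ := Subgroup.relIndex_mul_relIndex T N₁ N₀ hT hN
  have h4 : Odd (N₁.relIndex N₀) := by
    rw [← h3] at hodd
    exact (Nat.odd_mul.1 hodd).2
  have e : Nat.card (N₁.subgroupOf N₀) = Nat.card N₁ := Nat.card_congr (subgroupOfEquivOfLe hN).toEquiv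
  have h5 : Nat.card N₁ * N₁.relIndex N₀ = Nat.card N₀ := by
    rw [← e]
    exact Subgroup.card_mul_index _
  have hpos : 0 < Nat.card N₁ := Nat.card_pos
  have h6 : N₁.relIndex N₀ ≤ 2 := by
    by_contra hlt
    push Not at hlt
    have : Nat.card N₁ * 3 ≤ Nat.card N₁ * N₁.relIndex N₀ := Nat.mul_le_mul_left _ hlt
    omega
  have h7 : N₁.relIndex N₀ = 1 := by
    obtain ⟨m, hm⟩ := h4
    omega
  exact Subgroup.relIndex_eq_one.1 h7

theorem jc_of_norm {T K : Subgroup G} (hK : IsJComponent T K) {n : G}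
    (hn : n ∈ normalizer ((thompsonSubgroupOf 2 T : Subgroup G) : Set G)) : IsJComponent T (cj n K) := by
  have h1 := jc_cj n hK
  refine isJComponent_congr ?_ h1
  rw [thompson_cj, cj_eq_of_mem_normalizer hn]

namespace Config

variable {T K₁ K₂ L₁ L₂ : Subgroup G} (h : Config T K₁ K₂ L₁ L₂)
include h

/-- The normalizer of `J` inside `L₂` normalizes `W₁`. -/
theorem N_norm_W (hcomm : ∀ a ∈ wOf K₁, ∀ b ∈ wOf K₂, a * b = b * a) {e c : G}
    (he : IsFix T K₁ e) (hc : IsFix T K₂ c) {n : G}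
    (hn : n ∈ normalizer ((thompsonSubgroupOf 2 T : Subgroup G) : Set G)) (hnL : n ∈ L₂) :
    n ∈ normalizer (K₂ : Set G) ∧ n ∈ normalizer ((wOf K₁ : Subgroup G) : Set G) := by
  have c₁ := h.c₁
  have c₂ := h.c₂
  have hcomm' := h.symm_comm hcomm
  have hs := h.symm
  have hK₁c := h.harm_cent hcomm hc
  have hK₂e := hs.harm_cent hcomm' he
  set J := thompsonSubgroupOf 2 T with hJ
  have henum := h.pair.enum (c₁.fix_mem he) he.ne (hc.mem_Z0 c₂) hc.ne hK₁c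
  obtain ⟨y, hy⟩ := c₂.D.exists_x
  have hcnot : ¬ K₂ ≤ centralizer ({c} : Set G) := fun hle =>
    hc.ne (c₂.D.fpf hy hc.mem (conj_eq_of_comm (mem_c1.1 (hle hy.mem)).symm))
  have heZ := he.mem_Z0 c₁
  have hcZ := hc.mem_Z0 c₂
  set N₀ : Subgroup G := normalizer ((J : Subgroup G) : Set G) ⊓ L₂ with hN₀
  have hNK : ∀ m ∈ N₀, m ∈ normalizer (K₂ : Set G) := by
    intro m hm
    have h1 : CompIn L₂ T (cj m K₂) := by
      refine ⟨c₂.h.hLS, c₂.h.hT, c₂.h.hT1, jc_of_norm c₂.h.hK hm.1, ?_⟩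
      have := cj_mono (g := m) c₂.h.hKL
      rwa [cj_eq_of_mem_normalizer (le_normalizer hm.2)] at this
    exact mem_normalizer_of_cj_eq (hs.uniq_comp hcomm' hc he h1)
  have hfe : ∀ m ∈ N₀, m * e * m⁻¹ = e := by
    intro m hm
    have hu : m * e * m⁻¹ ∈ omegaCenterOf J := omegaCenterOf_conj hm.1 heZ
    have hcent : K₂ ≤ centralizer ({m * e * m⁻¹} : Set G) := by
      intro k hk
      apply mem_c1.2
      have hk' : m⁻¹ * k * m ∈ K₂ := by
        have := (Subgroup.mem_normalizer_iff.1 (Subgroup.inv_mem _ (hNK m hm)) k).1 hk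
        simpa using this
      have h1 : e * (m⁻¹ * k * m) = (m⁻¹ * k * m) * e := mem_c1.1 (hK₂e hk')
      calc m * e * m⁻¹ * k = m * (e * (m⁻¹ * k * m)) * m⁻¹ := by group
        _ = m * ((m⁻¹ * k * m) * e) * m⁻¹ := by rw [h1]
        _ = k * (m * e * m⁻¹) := by group
    rcases henum _ hu with e1 | e1 | e1 | e1
    · exfalso
      apply he.ne
      have e2 : e = m⁻¹ * (m * e * m⁻¹) * m := by group
      rw [e2, e1]; group
    · exact e1
    · rw [e1] at hcent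
      exact absurd hcent hcnot
    · exfalso
      apply hcnot
      rw [e1] at hcent
      intro k hk
      apply mem_c1.2
      have h1 : Commute (e * c) k := mem_c1.1 (hcent hk)
      have h2 : Commute e k := mem_c1.1 (hK₂e hk)
      have e3 : c = e⁻¹ * (e * c) := by group
      rw [e3]
      exact (h2.inv_left.mul_left h1).eq
  -- `c` is fixed
  set N₁ : Subgroup G := N₀ ⊓ centralizer ({c} : Set G) with hN₁
  have hce : e ≠ c := by
    intro he2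
    apply he.ne
    obtain ⟨x, hx⟩ := c₁.D.exists_x
    apply c₁.D.fpf hx he.mem
    rw [he2]
    exact h.harm hcomm hx hc
  have hmove : ∀ m ∈ N₀, m ∉ N₁ → m * c * m⁻¹ = e * c := by
    intro m hm hnm
    have hu : m * c * m⁻¹ ∈ omegaCenterOf J := omegaCenterOf_conj hm.1 hcZ
    rcases henum _ hu with e1 | e1 | e1 | e1
    · exfalso
      apply hc.ne
      have e2 : c = m⁻¹ * (m * c * m⁻¹) * m := by group
      rw [e2, e1]; group
    · exfalso
      apply hce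
      have e2 := hfe m hm
      have e3 : m * c * m⁻¹ = m * e * m⁻¹ := by rw [e1, e2]
      exact (mul_left_cancel (mul_right_cancel e3)).symm
    · exact absurd ⟨hm, mem_c1.2 (comm_of_conj_eq e1).symm⟩ hnm
    · exact e1
  have hle : N₀ ≤ N₁ := by
    refine le_of_odd_of_two (T := T) inf_le_left ?_ ?_ ?_
    · refine le_inf (le_inf ?_ c₂.h.hT.1) ?_
      · exact le_normalizer.trans (Cfsg.Agent.Lib.PLocal.normalizer_le_normalizer_thompsonOf (p := 2) T)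
      · exact fun t ht => mem_c1.2 (comm_of_conj_eq (hc.fix t ht)).symm
    · have hTN : T ≤ N₀ := le_inf (le_normalizer.trans (Cfsg.Agent.Lib.PLocal.normalizer_le_normalizer_thompsonOf (p := 2) T)) c₂.h.hT.1
      have h3 : T.relIndex N₀ * N₀.relIndex L₂ = T.relIndex L₂ :=
        Subgroup.relIndex_mul_relIndex T N₀ L₂ hTN inf_le_right
      have h4 := c₂.h.hT.2.2
      rw [← h3] at h4
      exact (Nat.odd_mul.1 h4).1
    · intro a ha b hb hna hnb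
      refine ⟨N₀.mul_mem ha hb, mem_c1.2 ?_⟩
      have e1 := hmove a ha hna
      have e2 := hmove b hb hnb
      have e3 : (a * b) * c * (a * b)⁻¹ = c := by
        calc (a * b) * c * (a * b)⁻¹ = a * (b * c * b⁻¹) * a⁻¹ := by group
          _ = (a * e * a⁻¹) * (a * c * a⁻¹) := by rw [e2]; group
          _ = e * (e * c) := by rw [hfe a ha, e1]
          _ = (e * e) * c := by group
          _ = c := by rw [c₁.sq he.mem, one_mul]
      exact (comm_of_conj_eq e3).symm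
  refine ⟨hNK n ⟨hn, hnL⟩, ?_⟩
  -- `K₁` is normalized
  have hfc : n * c * n⁻¹ = c := conj_eq_of_comm (mem_c1.1 (hle ⟨hn, hnL⟩).2).symm
  have hK₄ : CompIn L₁ T (cj n K₁) := by
    refine ⟨c₁.h.hLS, c₁.h.hT, c₁.h.hT1, jc_of_norm c₁.h.hK hn, ?_⟩
    have hN := h.norm_le₁ (c₂.sq hc.mem) hc.ne hK₁c (h.J_cent hc.fix)
    refine le_trans ?_ hN
    rintro _ ⟨k, hk, rfl⟩
    apply mem_c1.2
    have h1 : c * k = k * c := mem_c1.1 (hK₁c hk)
    have hfci : n⁻¹ * c * n = c := conj_inv_eq_of_conj_eq hfc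
    show c * (n * k * n⁻¹) = (n * k * n⁻¹) * c
    calc c * (n * k * n⁻¹) = n * ((n⁻¹ * c * n) * k) * n⁻¹ := by group
      _ = n * (c * k) * n⁻¹ := by rw [hfci]
      _ = n * (k * c) * n⁻¹ := by rw [h1]
      _ = n * k * (n⁻¹ * (n * c * n⁻¹) * n) * n⁻¹ := by group
      _ = n * k * (n⁻¹ * c * n) * n⁻¹ := by rw [hfc]
      _ = n * k * c * n⁻¹ := by rw [hfci]
      _ = n * k * (n⁻¹ * n) * c * n⁻¹ := by group
      _ = (n * k * n⁻¹) * (n * c * n⁻¹) := by group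
      _ = _ := by rw [hfc]
  have hK₅ := h.uniq_comp hcomm he hc hK₄
  exact Data.W_norm (mem_normalizer_of_cj_eq hK₅)

/-- The conjugates of `W₁` under `L₂` commute with `W₁`. -/
theorem Zhat (hcomm : ∀ a ∈ wOf K₁, ∀ b ∈ wOf K₂, a * b = b * a) {e c y : G}
    (he : IsFix T K₁ e) (hc : IsFix T K₂ c) (hy : Data.IsX K₂ y)
    (hZ : ∀ a ∈ wOf K₁, ∀ b ∈ wOf K₁, a * (y * b * y⁻¹) = (y * b * y⁻¹) * a) {l a b : G} (hl : l ∈ L₂)
    (ha : a ∈ wOf K₁) (hb : b ∈ wOf K₁) : a * (l * b * l⁻¹) = (l * b * l⁻¹) * a := by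
  have c₁ := h.c₁
  have c₂ := h.c₂
  have hcomm' := h.symm_comm hcomm
  have hs := h.symm
  have hy3 : y * y * y = 1 := hs.xxx hy
  have hyy : y⁻¹ * y⁻¹ = y := by
    have hi : y⁻¹ = y * y := (eq_inv_of_mul_eq_one_left hy3).symm
    rw [hi]
    calc y * y * (y * y) = (y * y * y) * y := by group
      _ = y := by rw [hy3, one_mul]
  set W₁ := wOf K₁ with hW₁
  set Zh : Subgroup G := W₁ ⊔ (cj y W₁ ⊔ cj y⁻¹ W₁) with hZh
  have hEA : IsElementaryAbelian 2 W₁ := c₁.D.isEA_W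
  have hZ' : ∀ a ∈ W₁, ∀ b ∈ W₁, a * (y⁻¹ * b * y) = (y⁻¹ * b * y) * a := by
    intro a ha b hb
    have h1 := hZ b hb a ha
    have e1 : y⁻¹ * (b * (y * a * y⁻¹)) * y = (y⁻¹ * b * y) * a := by group
    have e2 : y⁻¹ * ((y * a * y⁻¹) * b) * y = a * (y⁻¹ * b * y) := by group
    rw [← e2, ← e1, h1]
  have hZE : IsElementaryAbelian 2 Zh := by
    refine isEA_sup hEA (isEA_sup (isEA_map _ hEA) (isEA_map _ hEA) ?_) ?_
    · rintro _ ⟨a, ha, rfl⟩ _ ⟨b, hb, rfl⟩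
      show (y * a * y⁻¹) * (y⁻¹ * b * y⁻¹⁻¹) = (y⁻¹ * b * y⁻¹⁻¹) * (y * a * y⁻¹)
      have h1 := hZ a ha b hb
      have e0 : y⁻¹ * b * y⁻¹⁻¹ = y * (y * b * y⁻¹) * y⁻¹ := by
        rw [conj_sq_eq hy3]; group
      rw [e0]
      calc (y * a * y⁻¹) * (y * (y * b * y⁻¹) * y⁻¹) = y * (a * (y * b * y⁻¹)) * y⁻¹ := by group
        _ = y * ((y * b * y⁻¹) * a) * y⁻¹ := by rw [h1]
        _ = _ := by group
    · intro a ha u hu
      have hle : cj y W₁ ⊔ cj y⁻¹ W₁ ≤ centralizer ({a} : Set G) := by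
        refine sup_le ?_ ?_
        · rintro _ ⟨b, hb, rfl⟩
          exact mem_c1.2 (hZ a ha b hb)
        · rintro _ ⟨b, hb, rfl⟩
          apply mem_c1.2
          show a * (y⁻¹ * b * y⁻¹⁻¹) = (y⁻¹ * b * y⁻¹⁻¹) * a
          rw [inv_inv]
          exact hZ' a ha b hb
      exact mem_c1.1 (hle hu)
  have hW₁Z : W₁ ≤ Zh := le_sup_left
  have hZ₁Z : cj y W₁ ≤ Zh := le_sup_of_le_right le_sup_left
  have hZ₂Z : cj y⁻¹ W₁ ≤ Zh := le_sup_of_le_right le_sup_right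
  have hmem : ∀ k ∈ K₂, ∀ b ∈ W₁, k * b * k⁻¹ ∈ Zh := by
    intro k hk b hb
    rcases hy.tri k hk with h1 | h1 | h1
    · exact hW₁Z (c₁.conj_W (c₂.O_le_T h1) hb)
    · have e1 : k * b * k⁻¹ = y⁻¹ * ((y * k) * b * (y * k)⁻¹) * y⁻¹⁻¹ := by group
      rw [e1]
      exact hZ₂Z (conj_mem_cj (c₁.conj_W (c₂.O_le_T h1) hb))
    · have e1 : k * b * k⁻¹ = y * ((y⁻¹ * k) * b * (y⁻¹ * k)⁻¹) * y⁻¹ := by group
      rw [e1]
      exact hZ₁Z (conj_mem_cj (c₁.conj_W (c₂.O_le_T h1) hb))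
  have hgen : ∀ g, (∀ k ∈ K₂, ∀ b ∈ W₁, g * (k * b * k⁻¹) * g⁻¹ ∈ Zh) →
      g ∈ normalizer ((Zh : Subgroup G) : Set G) := by
    intro g hg
    apply Cfsg.Agent.Lib.Coprime.mem_normalizer_of_conj_le
    intro u hu
    have hle : Zh ≤ Zh.comap (MulAut.conj g).toMonoidHom := by
      refine sup_le ?_ (sup_le ?_ ?_)
      · intro a ha
        have := hg 1 K₂.one_mem a ha
        simpa using this
      · rintro _ ⟨b, hb, rfl⟩
        exact hg y hy.mem b hb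
      · rintro _ ⟨b, hb, rfl⟩
        exact hg y⁻¹ (K₂.inv_mem hy.mem) b hb
    exact hle hu
  have hK₂N : K₂ ≤ normalizer ((Zh : Subgroup G) : Set G) := by
    intro g hg
    apply hgen
    intro k hk b hb
    have e1 : g * (k * b * k⁻¹) * g⁻¹ = (g * k) * b * (g * k)⁻¹ := by group
    rw [e1]
    exact hmem _ (K₂.mul_mem hg hk) b hb
  have hNN : normalizer ((thompsonSubgroupOf 2 T : Subgroup G) : Set G) ⊓ L₂ ≤
      normalizer ((Zh : Subgroup G) : Set G) := by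
    rintro n ⟨hn, hnL⟩
    obtain ⟨hn1, hn2⟩ := h.N_norm_W hcomm he hc hn hnL
    apply hgen
    intro k hk b hb
    have e1 : n * (k * b * k⁻¹) * n⁻¹ = (n * k * n⁻¹) * (n * b * n⁻¹) * (n * k * n⁻¹)⁻¹ := by group
    rw [e1]
    exact hmem _ ((Subgroup.mem_normalizer_iff.1 hn1 k).1 hk) _ ((Subgroup.mem_normalizer_iff.1 hn2 b).1 hb)
  have hLe : L₂ ≤ normalizer ((Zh : Subgroup G) : Set G) := by
    refine le_of_comps' c₂.h.hLS c₂.h.hT hNN ?_
    intro K hK hKL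
    have : K = K₂ := hs.uniq_comp hcomm' hc he ⟨c₂.h.hLS, c₂.h.hT, c₂.h.hT1, hK, hKL⟩
    rw [this]
    exact hK₂N
  exact (isEA_iff.1 hZE).1 a (hW₁Z ha) _ ((Subgroup.mem_normalizer_iff.1 (hLe hl) b).1 (hW₁Z hb))

/-- Case of two equal involutions for different components. -/
theorem crit12 (hcomm : ∀ a ∈ wOf K₁, ∀ b ∈ wOf K₂, a * b = b * a) {e c y : G}
    (he : IsFix T K₁ e) (hc : IsFix T K₂ c) (hy : Data.IsX K₂ y)
    (hZ : ∀ a ∈ wOf K₁, ∀ b ∈ wOf K₁, a * (y * b * y⁻¹) = (y * b * y⁻¹) * a) {g : G} (hg : e = g * c * g⁻¹) {a b : G}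
    (ha : a ∈ wOf K₁) (hb : b ∈ wOf K₂) : a * (g * b * g⁻¹) = (g * b * g⁻¹) * a := by
  have c₁ := h.c₁
  have c₂ := h.c₂
  have hcomm' := h.symm_comm hcomm
  have hs := h.symm
  have hK₁c := h.harm_cent hcomm hc
  have hK₂e := hs.harm_cent hcomm' he
  have hN₁ := h.norm_le₁ (c₂.sq hc.mem) hc.ne hK₁c (h.J_cent hc.fix)
  have hN₂ := hs.norm_le₁ (c₁.sq he.mem) he.ne hK₂e (h.J_cent he.fix)
  have hJN : ∀ {t : G}, t ∈ normalizer (T : Set G) → t ∈ normalizer ((thompsonSubgroupOf 2 T : Subgroup G) : Set G) :=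
    fun ht => Cfsg.Agent.Lib.PLocal.normalizer_le_normalizer_thompsonOf (p := 2) T ht
  have hmax : IsMaximalTwoLocal (cj g L₁) := maxTwoLocal_cj g h.u₁.m
  have hle : K₂ ⊔ thompsonSubgroupOf 2 T ≤ cj g L₁ := by
    intro u hu
    have hu' : u ∈ centralizer ({e} : Set G) := (sup_le hK₂e (h.J_cent he.fix)) hu
    rw [mem_cj]
    apply hN₁
    apply mem_c1.2
    have h1 : e * u = u * e := mem_c1.1 hu'
    rw [hg] at h1
    calc c * (g⁻¹ * u * g) = g⁻¹ * ((g * c * g⁻¹) * u) * g := by group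
      _ = g⁻¹ * (u * (g * c * g⁻¹)) * g := by rw [h1]
      _ = _ := by group
  have hLg : cj g L₁ = L₂ := h.u₂.u _ hmax hle
  have hS' : IsSylowTwoIn (cj g T) L₂ := by
    have := isSylowTwoIn_cj g c₁.h.hT
    rwa [hLg] at this
  obtain ⟨l, hl, hle2⟩ := exists_conj_of_sylowIn c₂.h.hT hS'
  set g' := l⁻¹ * g with hg'
  have hgT : cj g' T = T := by
    rw [hg', cj_mul, hle2, cj_inv_cj]
  have hg'N : g' ∈ normalizer (T : Set G) := mem_normalizer_of_cj_eq hgT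
  have hg'J := hJN hg'N
  have hg'L : cj g' L₁ = L₂ := by
    rw [hg', cj_mul, hLg, cj_eq_of_mem_normalizer (le_normalizer (L₂.inv_mem hl))]
  have h3 : CompIn L₂ T (cj g' K₁) := by
    refine ⟨c₂.h.hLS, c₂.h.hT, c₂.h.hT1, jc_of_norm c₁.h.hK hg'J, ?_⟩
    rw [← hg'L]
    exact cj_mono c₁.h.hKL
  have hK₃ : cj g' K₁ = K₂ := hs.uniq_comp hcomm' hc he h3
  have hW : wOf K₂ = cj g' (wOf K₁) := by rw [← hK₃, wOf_cj]
  have hfix : IsFix T K₂ (g' * e * g'⁻¹) := by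
    refine ⟨?_, ?_, ?_⟩
    · rw [hW]
      exact conj_mem_cj he.mem
    · intro he1
      apply he.ne
      have e1 : e = g'⁻¹ * (g' * e * g'⁻¹) * g' := by group
      rw [e1, he1]; group
    · intro t ht
      have ht' : g'⁻¹ * t * g' ∈ T := by
        have := (Subgroup.mem_normalizer_iff.1 (Subgroup.inv_mem _ hg'N) t).1 ht
        simpa using this
      have h4 := he.fix _ ht'
      calc t * (g' * e * g'⁻¹) * t⁻¹ = g' * ((g'⁻¹ * t * g') * e * (g'⁻¹ * t * g')⁻¹) * g'⁻¹ := by group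
        _ = g' * e * g'⁻¹ := by rw [h4]
  have hec : g' * e * g'⁻¹ = c := c₂.fix_unique hfix hc
  have h4 : CompIn L₁ T (cj g' K₂) := by
    refine ⟨c₁.h.hLS, c₁.h.hT, c₁.h.hT1, jc_of_norm c₂.h.hK hg'J, ?_⟩
    refine le_trans ?_ hN₁
    rintro _ ⟨k, hk, rfl⟩
    apply mem_c1.2
    have h5 : e * k = k * e := mem_c1.1 (hK₂e hk)
    show c * (g' * k * g'⁻¹) = (g' * k * g'⁻¹) * c
    rw [← hec]
    calc (g' * e * g'⁻¹) * (g' * k * g'⁻¹) = g' * (e * k) * g'⁻¹ := by group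
      _ = g' * (k * e) * g'⁻¹ := by rw [h5]
      _ = _ := by group
  have hK₄ : cj g' K₂ = K₁ := h.uniq_comp hcomm he hc h4
  have hW₁ : wOf K₁ = cj g' (wOf K₂) := by rw [← hK₄, wOf_cj]
  have hb' : g' * b * g'⁻¹ ∈ wOf K₁ := by rw [hW₁]; exact conj_mem_cj hb
  have e1 : g * b * g⁻¹ = l * (g' * b * g'⁻¹) * l⁻¹ := by rw [hg']; group
  rw [e1]
  exact h.Zhat hcomm he hc hy hZ hl ha hb'

end Config

/-- Words in a set. -/
inductive Wd (A : Set G) : ℕ → G → Prop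
  | zero : Wd A 0 1
  | succ {n : ℕ} {a g : G} : a ∈ A → Wd A n g → Wd A (n + 1) (a * g)

theorem Wd.snoc {A : Set G} {n : ℕ} {g a : G} (hg : Wd A n g) (ha : a ∈ A) : Wd A (n + 1) (g * a) := by
  induction hg with
  | zero =>
    have : (1 : G) * a = a * 1 := by group
    rw [this]
    exact Wd.succ ha Wd.zero
  | succ hb _ ih =>
    rw [mul_assoc]
    exact Wd.succ hb ih

theorem Wd.inv {A : Set G} (hA : ∀ a ∈ A, a⁻¹ ∈ A) {n : ℕ} {g : G} (hg : Wd A n g) : Wd A n g⁻¹ := by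
  induction hg with
  | zero =>
    rw [inv_one]
    exact Wd.zero
  | succ hb _ ih =>
    rw [mul_inv_rev]
    exact ih.snoc (hA _ hb)

namespace Config

variable {T K₁ K₂ L₁ L₂ : Subgroup G} (h : Config T K₁ K₂ L₁ L₂)
include h

/-- **All lines commuting is impossible.** -/
theorem H3 (hcomm : ∀ a ∈ wOf K₁, ∀ b ∈ wOf K₂, a * b = b * a) {x y e c : G} (hx : Data.IsX K₁ x) (hy : Data.IsX K₂ y)
    (he : IsFix T K₁ e) (hc : IsFix T K₂ c)
    (hY : ∀ a ∈ wOf K₂, ∀ b ∈ wOf K₂, a * (x * b * x⁻¹) = (x * b * x⁻¹) * a)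
    (hZ : ∀ a ∈ wOf K₁, ∀ b ∈ wOf K₁, a * (y * b * y⁻¹) = (y * b * y⁻¹) * a) : False := by
  classical
  have c₁ := h.c₁
  have c₂ := h.c₂
  have hcomm' := h.symm_comm hcomm
  have hs := h.symm
  have hK₁c := h.harm_cent hcomm hc
  have hK₂e := hs.harm_cent hcomm' he
  have hN₁ := h.norm_le₁ (c₂.sq hc.mem) hc.ne hK₁c (h.J_cent hc.fix)
  have hN₂ := hs.norm_le₁ (c₁.sq he.mem) he.ne hK₂e (h.J_cent he.fix)
  set W₁ := wOf K₁ with hW₁
  set W₂ := wOf K₂ with hW₂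
  -- the four dichotomies
  have hC11 : ∀ g, e = g * e * g⁻¹ → ∀ a ∈ W₁, ∀ b ∈ W₁, a * (g * b * g⁻¹) = (g * b * g⁻¹) * a := by
    intro g hg a ha b hb
    have hgL : g ∈ L₂ := hN₂ (mem_c1.2 (comm_of_conj_eq hg.symm).symm)
    exact h.Zhat hcomm he hc hy hZ hgL ha hb
  have hC22 : ∀ g, c = g * c * g⁻¹ → ∀ a ∈ W₂, ∀ b ∈ W₂, a * (g * b * g⁻¹) = (g * b * g⁻¹) * a := by
    intro g hg a ha b hb
    have hgL : g ∈ L₁ := hN₁ (mem_c1.2 (comm_of_conj_eq hg.symm).symm)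
    exact hs.Zhat hcomm' hc he hx hY hgL ha hb
  have hC12 : ∀ g, e = g * c * g⁻¹ → ∀ a ∈ W₁, ∀ b ∈ W₂, a * (g * b * g⁻¹) = (g * b * g⁻¹) * a := by
    intro g hg a ha b hb
    exact h.crit12 hcomm he hc hy hZ hg ha hb
  have hC21 : ∀ g, c = g * e * g⁻¹ → ∀ a ∈ W₂, ∀ b ∈ W₁, a * (g * b * g⁻¹) = (g * b * g⁻¹) * a := by
    intro g hg a ha b hb
    exact hs.crit12 hcomm' hc he hx hY hg ha hb
  -- words
  set A : Set G := {a | a ∈ K₁ ⊔ T ∨ a ∈ K₂ ⊔ T} with hA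
  have hAi : ∀ a ∈ A, a⁻¹ ∈ A := by
    rintro a (ha | ha)
    · exact Or.inl ((K₁ ⊔ T).inv_mem ha)
    · exact Or.inr ((K₂ ⊔ T).inv_mem ha)
  have hAK₁ : K₁ ≤ normalizer ((QQ T K₁ : Subgroup G) : Set G) := c₁.K_norm_Q
  have hR : ∀ n g, Wd A n g → (∀ b ∈ W₁, g * b * g⁻¹ ∈ T) → (∀ b ∈ W₂, g * b * g⁻¹ ∈ T) →
      (∀ b ∈ W₁, g⁻¹ * b * g ∈ T) → (∀ b ∈ W₂, g⁻¹ * b * g ∈ T) →
      (∀ a ∈ W₁, ∀ b ∈ W₁, a * (g * b * g⁻¹) = (g * b * g⁻¹) * a) ∧
      (∀ a ∈ W₁, ∀ b ∈ W₂, a * (g * b * g⁻¹) = (g * b * g⁻¹) * a) ∧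
      (∀ a ∈ W₂, ∀ b ∈ W₁, a * (g * b * g⁻¹) = (g * b * g⁻¹) * a) ∧
      (∀ a ∈ W₂, ∀ b ∈ W₂, a * (g * b * g⁻¹) = (g * b * g⁻¹) * a) := by
    intro n g _ h1 h2 h3 h4
    have hV₁ : cj g W₁ ≤ T := by
      rintro _ ⟨b, hb, rfl⟩
      exact h1 b hb
    have hV₂ : cj g W₂ ≤ T := by
      rintro _ ⟨b, hb, rfl⟩
      exact h2 b hb
    have hU₁ : cj g⁻¹ W₁ ≤ T := by
      rintro _ ⟨b, hb, rfl⟩
      have := h3 b hb
      show g⁻¹ * b * g⁻¹⁻¹ ∈ T
      rwa [inv_inv]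
    have hU₂ : cj g⁻¹ W₂ ≤ T := by
      rintro _ ⟨b, hb, rfl⟩
      have := h4 b hb
      show g⁻¹ * b * g⁻¹⁻¹ ∈ T
      rwa [inv_inv]
    refine ⟨?_, ?_, ?_, ?_⟩
    · rcases crit c₁ c₁ he he hV₁ hU₁ with h5 | h5
      · exact h5
      · exact hC11 g h5
    · rcases crit c₁ c₂ he hc hV₂ hU₁ with h5 | h5
      · exact h5
      · exact hC12 g h5
    · rcases crit c₂ c₁ hc he hV₁ hU₂ with h5 | h5
      · exact h5
      · exact hC21 g h5
    · rcases crit c₂ c₂ hc hc hV₂ hU₂ with h5 | h5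
      · exact h5
      · exact hC22 g h5
  have hP : ∀ n g, Wd A n g → (∀ b ∈ W₁, g * b * g⁻¹ ∈ T) ∧ (∀ b ∈ W₂, g * b * g⁻¹ ∈ T) := by
    intro n
    induction n with
    | zero =>
      intro g hg
      cases hg
      refine ⟨fun b hb => ?_, fun b hb => ?_⟩
      · have e1 : (1 : G) * b * 1⁻¹ = b := by group
        rw [e1]
        exact c₁.W_le_T hb
      · have e1 : (1 : G) * b * 1⁻¹ = b := by group
        rw [e1]
        exact c₂.W_le_T hb
    | succ n ih =>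
      intro g hg
      cases hg with
      | succ ha hg' =>
        rename_i a g'
        obtain ⟨h1, h2⟩ := ih g' hg'
        obtain ⟨h3, h4⟩ := ih g'⁻¹ (hg'.inv hAi)
        simp only [inv_inv] at h3 h4
        obtain ⟨r1, r2, r3, r4⟩ := hR n g' hg' h1 h2 h3 h4
        have hstep₁ : ∀ p, p ∈ T → (∀ d ∈ W₁, d * p = p * d) → a ∈ K₁ ⊔ T → a * p * a⁻¹ ∈ T := by
          intro p hp hpc haS
          have hm : p ∈ QQ T K₁ := ⟨hp, Subgroup.mem_centralizer_iff.2 hpc⟩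
          exact ((Subgroup.mem_normalizer_iff.1 (c₁.KT_norm_Q haS) p).1 hm).1
        have hstep₂ : ∀ p, p ∈ T → (∀ d ∈ W₂, d * p = p * d) → a ∈ K₂ ⊔ T → a * p * a⁻¹ ∈ T := by
          intro p hp hpc haS
          have hm : p ∈ QQ T K₂ := ⟨hp, Subgroup.mem_centralizer_iff.2 hpc⟩
          exact ((Subgroup.mem_normalizer_iff.1 (c₂.KT_norm_Q haS) p).1 hm).1
        have e1 : ∀ b : G, a * g' * b * (a * g')⁻¹ = a * (g' * b * g'⁻¹) * a⁻¹ := fun b => by group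
        refine ⟨fun b hb => ?_, fun b hb => ?_⟩
        · rw [e1]
          rcases ha with ha | ha
          · exact hstep₁ _ (h1 b hb) (fun d hd => r1 d hd b hb) ha
          · exact hstep₂ _ (h1 b hb) (fun d hd => r3 d hd b hb) ha
        · rw [e1]
          rcases ha with ha | ha
          · exact hstep₁ _ (h2 b hb) (fun d hd => r2 d hd b hb) ha
          · exact hstep₂ _ (h2 b hb) (fun d hd => r4 d hd b hb) ha
  -- the subgroup generated by all conjugates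
  set Gen : Set G := {u | ∃ n g b, Wd A n g ∧ (b ∈ W₁ ∨ b ∈ W₂) ∧ u = g * b * g⁻¹} with hGen
  set U : Subgroup G := closure Gen with hU
  have hUT : U ≤ T := by
    rw [hU, closure_le]
    rintro _ ⟨n, g, b, hg, hb | hb, rfl⟩
    · exact (hP n g hg).1 b hb
    · exact (hP n g hg).2 b hb
  have hU1 : U ≠ ⊥ := by
    intro he1
    have h1 : e ∈ U := by
      apply Subgroup.subset_closure
      exact ⟨0, 1, e, Wd.zero, Or.inl he.mem, by group⟩
    rw [he1, Subgroup.mem_bot] at h1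
    exact he.ne h1
  have hAN : ∀ a ∈ A, a ∈ normalizer ((U : Subgroup G) : Set G) := by
    intro a ha
    apply Cfsg.Agent.Lib.Coprime.mem_normalizer_of_conj_le
    intro u hu
    have hle : U ≤ U.comap (MulAut.conj a).toMonoidHom := by
      rw [hU, closure_le]
      rintro _ ⟨n, g, b, hg, hb, rfl⟩
      apply Subgroup.subset_closure
      refine ⟨n + 1, a * g, b, Wd.succ ha hg, hb, ?_⟩
      show a * (g * b * g⁻¹) * a⁻¹ = _
      group
    exact hle hu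
  exact h.no_normal (h.c₁.h.hT.2.1.to_le hUT) hU1
    (fun k hk => hAN k (Or.inl (Subgroup.mem_sup_left hk))) (fun k hk => hAN k (Or.inr (Subgroup.mem_sup_left hk)))
    (fun j hj => hAN j (Or.inl (Subgroup.mem_sup_right (thompson_le T hj))))

/-- **The four-groups do not commute.** -/
theorem not_comm : ¬ ∀ a ∈ wOf K₁, ∀ b ∈ wOf K₂, a * b = b * a := by
  intro hcomm
  obtain ⟨x, hx⟩ := h.c₁.D.exists_x
  obtain ⟨y, hy⟩ := h.c₂.D.exists_x
  obtain ⟨e, he⟩ := h.c₁.exists_fix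
  obtain ⟨c, hc⟩ := h.c₂.exists_fix
  by_cases hY : ∀ a ∈ wOf K₂, ∀ b ∈ wOf K₂, a * (x * b * x⁻¹) = (x * b * x⁻¹) * a
  · by_cases hZ : ∀ a ∈ wOf K₁, ∀ b ∈ wOf K₁, a * (y * b * y⁻¹) = (y * b * y⁻¹) * a
    · exact h.H3 hcomm hx hy he hc hY hZ
    · push Not at hZ
      exact h.symm.H2 (h.symm_comm hcomm) hy hx hc he hZ hY
  · push Not at hY
    by_cases hZ : ∀ a ∈ wOf K₁, ∀ b ∈ wOf K₁, a * (y * b * y⁻¹) = (y * b * y⁻¹) * a
    · exact h.H2 hcomm hx hy he hc hY hZ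
    · push Not at hZ
      exact h.H1 hcomm hx hy he hc hY hZ

end Config

end Cfsg.Agent.Lib.LocalEven2.JC
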