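import Cfsg.Agent.Lib.LocalEven2.JC17

/-!
# The structure forced by non-commuting four-groups
-/

set_option autoImplicit false
set_option linter.unusedSectionVars false
set_option linter.unusedVariables false

namespace Cfsg.Agent.Lib.LocalEven2.JC

open Subgroup Cfsg Cfsg.Agent.Lib.PLocal
open Cfsg.Agent.Lib.OddLocal (MaxEA thompsonSubgroupOf_eq le_thompsonSubgroupOf MaxEA_nonempty isElementaryAbelian_map
  isElementaryAbelian_subgroupOf)
open Cfsg.Agent.Lib.LocalEven (cj cj_mul cj_inv_cj cj_cj_inv le_cj_iff cj_mono isPGroup_cj cj_eq_of_mem_normalizer mem_cj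
  conj_mem_cj card_cj mem_normalizer_of_cj_eq)
open scoped commutatorElement

variable {G : Type*} [Group G] [Finite G]

/-- An abstract computation: `x` lies in a normal subgroup if a 2-element relation holds modulo it. -/
theorem mem_of_relations {B : Type*} [Group B] (E : Subgroup B) [E.Normal] {x u o : B} (hu : u ∈ E)
    (h : u * x * u⁻¹ = x⁻¹ * o) (hx : x ^ 3 = 1) {k : ℕ} (ho : o ^ 2 ^ k = 1) : x ∈ E := by
  set π := QuotientGroup.mk' E with hπ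
  have h1 : π u = 1 := (QuotientGroup.eq_one_iff u).2 hu
  have h2 : π x = (π x)⁻¹ * π o := by
    have := congrArg π h
    simpa [h1] using this
  have h3 : π x * π x = π o := by
    calc π x * π x = π x * ((π x)⁻¹ * π o) := by rw [← h2]
      _ = π o := by group
  have h4 : (π x) ^ 3 = 1 := by rw [← map_pow, hx, map_one]
  have h5 : (π x) ^ (2 ^ (k + 1)) = 1 := by
    have : (π o) ^ 2 ^ k = 1 := by rw [← map_pow, ho, map_one]
    rw [← h3, ← pow_two, ← pow_mul] at this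
    rwa [pow_succ, mul_comm]
  have h6 : orderOf (π x) ∣ 3 := orderOf_dvd_of_pow_eq_one h4
  have h7 : orderOf (π x) ∣ 2 ^ (k + 1) := orderOf_dvd_of_pow_eq_one h5
  have h8 : Nat.Coprime 3 (2 ^ (k + 1)) := Nat.Coprime.pow_right _ (by norm_num)
  have h9 : orderOf (π x) = 1 := Nat.eq_one_of_dvd_coprimes h8 h6 h7
  have h10 : π x = 1 := orderOf_eq_one_iff.1 h9
  exact (QuotientGroup.eq_one_iff x).1 h10

/-- The kernel of the action on a section. -/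
def actKer (Q W : Subgroup G) : Subgroup ↥(normalizer (Q : Set G) ⊓ normalizer (W : Set G)) where
  carrier := {n | ∀ r ∈ Q, (n : G) * r * (n : G)⁻¹ * r⁻¹ ∈ W}
  one_mem' := by
    intro r hr
    have : ((1 : ↥(normalizer (Q : Set G) ⊓ normalizer (W : Set G))) : G) * r *
        ((1 : ↥(normalizer (Q : Set G) ⊓ normalizer (W : Set G))) : G)⁻¹ * r⁻¹ = 1 := by
      simp
    rw [this]
    exact W.one_mem
  mul_mem' := by
    intro a b ha hb r hr
    have h1 := hb r hr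
    have h2 := ha r hr
    have h3 : (a : G) * ((b : G) * r * (b : G)⁻¹ * r⁻¹) * (a : G)⁻¹ ∈ W :=
      (Subgroup.mem_normalizer_iff.1 a.2.2 _).1 h1
    have e : ((a * b : ↥(normalizer (Q : Set G) ⊓ normalizer (W : Set G))) : G) * r *
        ((a * b : ↥(normalizer (Q : Set G) ⊓ normalizer (W : Set G))) : G)⁻¹ * r⁻¹ =
        ((a : G) * ((b : G) * r * (b : G)⁻¹ * r⁻¹) * (a : G)⁻¹) * ((a : G) * r * (a : G)⁻¹ * r⁻¹) := by
      push_cast
      group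
    rw [e]
    exact W.mul_mem h3 h2
  inv_mem' := by
    intro a ha r hr
    have hr' : (a : G)⁻¹ * r * (a : G) ∈ Q := by
      have := (Subgroup.mem_normalizer_iff.1 (Subgroup.inv_mem _ a.2.1) r).1 hr
      simpa using this
    have h1 := ha _ hr'
    have e1 : (a : G) * ((a : G)⁻¹ * r * (a : G)) * (a : G)⁻¹ * ((a : G)⁻¹ * r * (a : G))⁻¹ =
        r * ((a : G)⁻¹ * r * (a : G))⁻¹ := by group
    rw [e1] at h1
    have e2 : (((a⁻¹ : ↥(normalizer (Q : Set G) ⊓ normalizer (W : Set G))) : G)) * r *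
        (((a⁻¹ : ↥(normalizer (Q : Set G) ⊓ normalizer (W : Set G))) : G))⁻¹ * r⁻¹ =
        (r * ((a : G)⁻¹ * r * (a : G))⁻¹)⁻¹ := by
      push_cast
      group
    rw [e2]
    exact W.inv_mem h1

instance actKer_normal (Q W : Subgroup G) : (actKer Q W).Normal := by
  constructor
  intro n hn g r hr
  have hr' : (g : G)⁻¹ * r * (g : G) ∈ Q := by
    have := (Subgroup.mem_normalizer_iff.1 (Subgroup.inv_mem _ g.2.1) r).1 hr
    simpa using this
  have h1 := hn _ hr'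
  have h2 := (Subgroup.mem_normalizer_iff.1 g.2.2 _).1 h1
  have e : ((g * n * g⁻¹ : ↥(normalizer (Q : Set G) ⊓ normalizer (W : Set G))) : G) * r *
      ((g * n * g⁻¹ : ↥(normalizer (Q : Set G) ⊓ normalizer (W : Set G))) : G)⁻¹ * r⁻¹ =
      (g : G) * ((n : G) * ((g : G)⁻¹ * r * (g : G)) * (n : G)⁻¹ * ((g : G)⁻¹ * r * (g : G))⁻¹) * (g : G)⁻¹ := by
    push_cast
    group
  rw [e]
  exact h2

namespace Config

variable {T K₁ K₂ L₁ L₂ : Subgroup G} (h : Config T K₁ K₂ L₁ L₂)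
include h

theorem exists_noncomm : ∃ a ∈ wOf K₁, ∃ b ∈ wOf K₂, a * b ≠ b * a := by
  by_contra hcon
  push Not at hcon
  exact h.not_comm hcon

/-- The two `T`-fixed involutions coincide. -/
theorem fix_eq {e c : G} (he : IsFix T K₁ e) (hc : IsFix T K₂ c) : e = c := by
  have hV : cj 1 (wOf K₂) ≤ T := by
    rintro _ ⟨b, hb, rfl⟩
    have e1 : (MulAut.conj (1 : G)).toMonoidHom b = b := by simp
    rw [e1]
    exact h.c₂.W_le_T hb
  have hU : cj (1 : G)⁻¹ (wOf K₁) ≤ T := by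
    rintro _ ⟨b, hb, rfl⟩
    have e1 : (MulAut.conj (1 : G)⁻¹).toMonoidHom b = b := by simp
    rw [e1]
    exact h.c₁.W_le_T hb
  rcases crit h.c₁ h.c₂ he hc hV hU with h1 | h1
  · exfalso
    apply h.not_comm
    intro a ha b hb
    have := h1 a ha b hb
    simpa using this
  · simpa using h1

/-- An element of `W₂` outside `C(W₁)`. -/
theorem exists_u : ∃ u ∈ wOf K₂, u ∉ centralizer (wOf K₁ : Set G) := by
  obtain ⟨a, ha, b, hb, hne⟩ := h.exists_noncomm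
  refine ⟨b, hb, fun hm => hne ?_⟩
  exact Subgroup.mem_centralizer_iff.1 hm a ha

variable {z : G} (hz₁ : IsFix T K₁ z) (hz₂ : IsFix T K₂ z)
include hz₁ hz₂

/-- `K₁` acts trivially on `C_T(W₁)/W₁`. -/
theorem act_trivial {x r : G} (hx : Data.IsX K₁ x) (hr : r ∈ QQ T K₁) : x * r * x⁻¹ * r⁻¹ ∈ wOf K₁ := by
  have c₁ := h.c₁
  have c₂ := h.c₂
  obtain ⟨u, hu, hun⟩ := h.exists_u
  have huT := c₂.W_le_T hu
  obtain ⟨o, ho, hoe⟩ := c₁.conj_x_of_not hx huT hun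
  have hoT := c₁.O_le_T ho
  set Q := QQ T K₁ with hQ
  set W := wOf K₁ with hW
  have hTN : ∀ {t : G}, t ∈ T → t ∈ normalizer (Q : Set G) ⊓ normalizer (W : Set G) := fun ht =>
    ⟨c₁.T_norm_Q ht, c₁.T_norm_W ht⟩
  set xx : ↥(normalizer (Q : Set G) ⊓ normalizer (W : Set G)) :=
    ⟨x, c₁.K_norm_Q hx.mem, Data.W_norm (le_normalizer hx.mem)⟩ with hxx
  set uu : ↥(normalizer (Q : Set G) ⊓ normalizer (W : Set G)) := ⟨u, hTN huT⟩ with huu
  set oo : ↥(normalizer (Q : Set G) ⊓ normalizer (W : Set G)) := ⟨o, hTN hoT⟩ with hoo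
  have hw : z ∈ W := hz₁.mem
  have huE : uu ∈ actKer Q W := by
    intro r hr
    show u * r * u⁻¹ * r⁻¹ ∈ W
    have h1 : u * r * u⁻¹ * r⁻¹ = (r * u * r⁻¹ * u⁻¹)⁻¹ := by group
    rw [h1]
    rcases c₂.comm_T_W hz₂ hr.1 hu with h2 | h2
    · rw [h2, inv_one]; exact W.one_mem
    · rw [h2]; exact W.inv_mem hw
  obtain ⟨k, hk⟩ := (Data.O_p (K := K₁)) ⟨o, ho⟩
  have hk' : oo ^ 2 ^ k = 1 := by
    apply Subtype.ext
    have := congrArg Subtype.val hk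
    simpa [hoo] using this
  have hrel : uu * xx * uu⁻¹ = xx⁻¹ * oo := by
    apply Subtype.ext
    show u * x * u⁻¹ = x⁻¹ * o
    exact hoe
  have hx3 : xx ^ 3 = 1 := Subtype.ext hx.pow3
  have hxE := mem_of_relations (actKer Q W) huE hrel hx3 hk'
  exact hxE r hr

/-- Splitting of `C_T(W₁)`. -/
theorem decomp {x r : G} (hx : Data.IsX K₁ x) (hr : r ∈ QQ T K₁) :
    ∃ w ∈ wOf K₁, ∃ d ∈ QQ T K₁, r = w * d ∧ x * d * x⁻¹ = d := by
  have c₁ := h.c₁
  obtain ⟨w, hw, hwe⟩ := c₁.D.exists_comm_eq hx (h.act_trivial hz₁ hz₂ hx hr)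
  refine ⟨w, hw, w⁻¹ * r, (QQ T K₁).mul_mem (c₁.W_le_Q ((wOf K₁).inv_mem hw)) hr, by group, ?_⟩
  have e1 : x * r * x⁻¹ = (x * w * x⁻¹ * w⁻¹) * r := by rw [hwe]; group
  calc x * (w⁻¹ * r) * x⁻¹ = (x * w * x⁻¹)⁻¹ * (x * r * x⁻¹) := by group
    _ = (x * w * x⁻¹)⁻¹ * ((x * w * x⁻¹ * w⁻¹) * r) := by rw [e1]
    _ = w⁻¹ * r := by group

/-- `O₂(K₁) = W₁`. -/
theorem O_eq : pCoreOf 2 K₁ = wOf K₁ := by
  have c₁ := h.c₁
  obtain ⟨x, hx⟩ := c₁.D.exists_x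
  refine le_antisymm ?_ Data.W_le_O
  set W := wOf K₁ with hW
  set K₀ : Subgroup G := W ⊔ zpowers x with hK₀
  set C₀ : Subgroup G := pCoreOf 2 K₁ ⊓ centralizer ({x} : Set G) with hC₀
  have hC₀p : IsPGroup 2 C₀ := (Data.O_p (K := K₁)).to_le inf_le_left
  have hC₀N : C₀ ≤ normalizer ((K₀ : Subgroup G) : Set G) := by
    rintro d ⟨hd1, hd2⟩
    apply Cfsg.Agent.Lib.Coprime.mem_normalizer_of_conj_le
    intro u hu
    have hle : K₀ ≤ K₀.comap (MulAut.conj d).toMonoidHom := by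
      refine sup_le ?_ ?_
      · intro w hw
        show d * w * d⁻¹ ∈ K₀
        rw [conj_eq_of_comm (Data.O_cent_W hd1 hw)]
        exact Subgroup.mem_sup_left hw
      · rw [zpowers_le]
        show d * x * d⁻¹ ∈ K₀
        rw [conj_eq_of_comm (mem_c1.1 hd2).symm]
        exact Subgroup.mem_sup_right (Subgroup.mem_zpowers x)
    exact hle hu
  have hdec : ∀ o ∈ pCoreOf 2 K₁, o ∈ K₀ ⊔ C₀ := by
    intro o ho
    obtain ⟨w, hw, d, hd, he, hdx⟩ := h.decomp hz₁ hz₂ hx (c₁.O_le_Q ho)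
    have hdO : d ∈ pCoreOf 2 K₁ := by
      have : d = w⁻¹ * o := by rw [he]; group
      rw [this]
      exact (pCoreOf 2 K₁).mul_mem (Data.W_le_O ((wOf K₁).inv_mem hw)) ho
    rw [he]
    refine Subgroup.mul_mem _ (Subgroup.mem_sup_left (Subgroup.mem_sup_left hw)) (Subgroup.mem_sup_right ⟨hdO, ?_⟩)
    exact mem_c1.2 (comm_of_conj_eq hdx)
  have hxS : ∀ {i : G}, i ∈ zpowers x → i ∈ K₀ ⊔ C₀ := fun hi =>
    Subgroup.mem_sup_left (Subgroup.mem_sup_right hi)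
  have hK : ∀ k ∈ K₁, k ∈ K₀ ⊔ C₀ := by
    intro k hk
    rcases hx.tri k hk with h1 | h1 | h1
    · exact hdec k h1
    · have e : k = x⁻¹ * (x * k) := by group
      rw [e]
      exact Subgroup.mul_mem _ (hxS (Subgroup.inv_mem _ (Subgroup.mem_zpowers x))) (hdec _ h1)
    · have e : k = x * (x⁻¹ * k) := by group
      rw [e]
      exact Subgroup.mul_mem _ (hxS (Subgroup.mem_zpowers x)) (hdec _ h1)
  have hK₁K₀ : K₁ ≤ K₀ := by
    have hg := c₁.D.hgen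
    rw [← hg, closure_le]
    rintro y ⟨hy, hodd⟩
    exact Cfsg.Agent.S2941.mem_of_odd_of_mem_sup hC₀p hC₀N (hK y hy) hodd
  intro o ho
  have hoK₀ := hK₁K₀ (Data.O_le ho)
  have hN : zpowers x ≤ normalizer ((W : Subgroup G) : Set G) := by
    rw [zpowers_le]
    exact Data.W_norm (le_normalizer hx.mem)
  obtain ⟨w, hw, i, hi, rfl⟩ := Cfsg.Agent.Lib.OddLocal.mem_sup_of_le_normalizer hN hoK₀
  have hiO : i ∈ pCoreOf 2 K₁ := by
    have e : i = w⁻¹ * (w * i) := by group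
    rw [e]
    exact (pCoreOf 2 K₁).mul_mem (Data.W_le_O ((wOf K₁).inv_mem hw)) ho
  have hodd : Odd (orderOf i) := by
    have hd : orderOf i ∣ 3 := by
      apply orderOf_dvd_of_pow_eq_one
      obtain ⟨m, rfl⟩ := Subgroup.mem_zpowers_iff.1 hi
      rw [← zpow_natCast, ← zpow_mul, mul_comm, zpow_mul]
      have : x ^ ((3 : ℕ) : ℤ) = 1 := by rw [zpow_natCast]; exact hx.pow3
      rw [this, one_zpow]
    exact Odd.of_dvd_nat (by decide) hd
  have hi1 := Data.eq_one_of_odd (Data.O_p (K := K₁)) hiO hodd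
  rw [hi1, mul_one]
  exact hw

end Config

/-- `C_T(K)`. -/
def CC (T K : Subgroup G) : Subgroup G := T ⊓ centralizer (K : Set G)

theorem CC_conj {L T K : Subgroup G} (c : TN L T K) {t d : G} (ht : t ∈ T) (hd : d ∈ CC T K) : t * d * t⁻¹ ∈ CC T K :=
  ⟨T.mul_mem (T.mul_mem ht hd.1) (T.inv_mem ht), Data.conj_mem_centralizer (c.hN ht) hd.2⟩

theorem CC_fix {K T : Subgroup G} {k d : G} (hk : k ∈ K) (hd : d ∈ CC T K) : k * d * k⁻¹ = d :=
  conj_eq_of_comm (Subgroup.mem_centralizer_iff.1 hd.2 k hk)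

theorem CC_le_Q {L T K : Subgroup G} (c : TN L T K) : CC T K ≤ QQ T K := fun d hd =>
  ⟨hd.1, Subgroup.mem_centralizer_iff.2 fun w hw =>
    (Subgroup.mem_centralizer_iff.1 hd.2 w (Data.O_le (Data.W_le_O hw)))⟩

theorem CC_inf_W {L T K : Subgroup G} (c : TN L T K) {d : G} (hd : d ∈ CC T K) (hw : d ∈ wOf K) : d = 1 := by
  obtain ⟨x, hx⟩ := c.D.exists_x
  exact c.D.fpf hx hw (CC_fix hx.mem hd)

namespace Config

variable {T K₁ K₂ L₁ L₂ : Subgroup G} (h : Config T K₁ K₂ L₁ L₂) {z : G} (hz₁ : IsFix T K₁ z) (hz₂ : IsFix T K₂ z)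
include h hz₁ hz₂

theorem Q_split {r : G} (hr : r ∈ QQ T K₁) : ∃ w ∈ wOf K₁, ∃ d ∈ CC T K₁, r = w * d := by
  have c₁ := h.c₁
  obtain ⟨x, hx⟩ := c₁.D.exists_x
  obtain ⟨w, hw, d, hd, he, hdx⟩ := h.decomp hz₁ hz₂ hx hr
  refine ⟨w, hw, d, ⟨hd.1, ?_⟩, he⟩
  have hO := h.O_eq hz₁ hz₂
  have hle : K₁ ≤ centralizer ({d} : Set G) := by
    refine hx.K_le (mem_c1.2 (comm_of_conj_eq hdx).symm) ?_
    rw [hO]
    intro u hu
    exact mem_c1.2 (Subgroup.mem_centralizer_iff.1 hd.2 u hu).symm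
  exact Subgroup.mem_centralizer_iff.2 fun k hk => (mem_c1.1 (hle hk)).symm

theorem CC_comm_W {d b : G} (hd : d ∈ CC T K₁) (hb : b ∈ wOf K₂) : d * b = b * d := by
  have c₁ := h.c₁
  have c₂ := h.c₂
  rcases c₂.comm_T_W hz₂ hd.1 hb with h1 | h1
  · exact comm_of_conj_eq (mul_inv_eq_one.1 h1)
  · exfalso
    have h2 : z ∈ CC T K₁ := by
      rw [← h1]
      have e : d * b * d⁻¹ * b⁻¹ = d * (b * d⁻¹ * b⁻¹) := by group
      rw [e]
      exact (CC T K₁).mul_mem hd (CC_conj c₁ (c₂.W_le_T hb) ((CC T K₁).inv_mem hd))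
    exact hz₁.ne (CC_inf_W c₁ h2 hz₁.mem)

theorem CC_le_Q₂ {d : G} (hd : d ∈ CC T K₁) : d ∈ QQ T K₂ :=
  ⟨hd.1, Subgroup.mem_centralizer_iff.2 fun b hb => (h.CC_comm_W hz₁ hz₂ hd hb).symm⟩

theorem W_inf {w : G} (hw : w ∈ wOf K₁) (hwc : w ∈ centralizer (wOf K₂ : Set G)) : w = 1 ∨ w = z := by
  by_contra hcon
  push Not at hcon
  obtain ⟨hw1, hwz⟩ := hcon
  apply h.not_comm
  intro a ha b hb
  rcases four_cases h.c₁.D.hW4 h.c₁.D.hW2 hz₁.mem hw hz₁.ne hw1 (Ne.symm hwz) a ha with e | e | e | e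
  · rw [e]; group
  · rw [e]; exact (comm_of_conj_eq (hz₂.fix b (h.c₂.W_le_T hb))).symm
  · rw [e]; exact (Subgroup.mem_centralizer_iff.1 hwc b hb).symm
  · rw [e]
    have h1 : b * z = z * b := comm_of_conj_eq (hz₂.fix b (h.c₂.W_le_T hb))
    have h2 : b * w = w * b := Subgroup.mem_centralizer_iff.1 hwc b hb
    calc z * w * b = z * (w * b) := by group
      _ = z * (b * w) := by rw [h2]
      _ = (z * b) * w := by group
      _ = (b * z) * w := by rw [h1]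
      _ = _ := by group

theorem D_form {d : G} (hd : d ∈ QQ T K₁) (hdc : d ∈ centralizer (wOf K₂ : Set G)) :
    ∃ c ∈ CC T K₁, d = c ∨ d = z * c := by
  obtain ⟨w, hw, c, hc, rfl⟩ := h.Q_split hz₁ hz₂ hd
  refine ⟨c, hc, ?_⟩
  have hcc := (h.CC_le_Q₂ hz₁ hz₂ hc).2
  have hwc : w ∈ centralizer (wOf K₂ : Set G) := by
    have := Subgroup.mul_mem _ hdc (Subgroup.inv_mem _ hcc)
    simpa using this
  rcases h.W_inf hz₁ hz₂ hw hwc with e | e
  · left; rw [e, one_mul]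
  · right; rw [e]

theorem CC_inter {c : G} (hc₁ : c ∈ CC T K₁) (hc₂ : c ∈ CC T K₂) : c = 1 := by
  by_contra hne
  have c₁ := h.c₁
  have c₂ := h.c₂
  have hN : ∀ {K : Subgroup G} {L : Subgroup G}, TN L T K → T ≤ normalizer ((CC T K₁ ⊓ CC T K₂ : Subgroup G) : Set G) := by
    intro K L _ t ht
    apply Cfsg.Agent.Lib.Coprime.mem_normalizer_of_conj_le
    rintro u ⟨hu1, hu2⟩
    exact ⟨CC_conj c₁ ht hu1, CC_conj c₂ ht hu2⟩
  refine h.no_normal (R := CC T K₁ ⊓ CC T K₂) (c₁.h.hT.2.1.to_le (inf_le_left.trans inf_le_left)) ?_ ?_ ?_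
    ((thompson_le T).trans (hN c₁))
  · intro he
    have : c ∈ CC T K₁ ⊓ CC T K₂ := ⟨hc₁, hc₂⟩
    rw [he] at this
    exact hne this
  · intro k hk
    apply Cfsg.Agent.Lib.Coprime.mem_normalizer_of_conj_le
    rintro u ⟨hu1, hu2⟩
    refine ⟨by rw [CC_fix hk hu1]; exact hu1, ?_⟩
    have hkT : k * u * k⁻¹ = u := CC_fix hk hu1
    rw [hkT]
    exact hu2
  · intro k hk
    apply Cfsg.Agent.Lib.Coprime.mem_normalizer_of_conj_le
    rintro u ⟨hu1, hu2⟩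
    have hkT : k * u * k⁻¹ = u := CC_fix hk hu2
    rw [hkT]
    exact ⟨hu1, hu2⟩

/-- Elements of `C_T(K₁)` different from `1` have the shape `z c₂`. -/
theorem CC_shape {c : G} (hc : c ∈ CC T K₁) (hc1 : c ≠ 1) : ∃ c₂ ∈ CC T K₂, c = z * c₂ := by
  have hs := h.symm
  have hQ := h.CC_le_Q₂ hz₁ hz₂ hc
  obtain ⟨c₂, hc₂, he | he⟩ := hs.D_form hz₂ hz₁ hQ (CC_le_Q h.c₁ hc).2
  · exact absurd (h.CC_inter hz₁ hz₂ hc (he ▸ hc₂)) hc1
  · exact ⟨c₂, hc₂, he⟩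

theorem CC_mul {c c' : G} (hc : c ∈ CC T K₁) (hc' : c' ∈ CC T K₁) (hc1 : c ≠ 1) (hc'1 : c' ≠ 1) : c * c' = 1 := by
  obtain ⟨c₂, hc₂, e1⟩ := h.CC_shape hz₁ hz₂ hc hc1
  obtain ⟨c₃, hc₃, e2⟩ := h.CC_shape hz₁ hz₂ hc' hc'1
  have hzc : c₂ * z = z * c₂ := comm_of_conj_eq (hz₂.fix _ hc₂.1)
  have hzz : z * z = 1 := h.c₁.sq hz₁.mem
  have e3 : c * c' = c₂ * c₃ := by
    rw [e1, e2]
    calc z * c₂ * (z * c₃) = z * (c₂ * z) * c₃ := by group
      _ = z * (z * c₂) * c₃ := by rw [hzc]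
      _ = (z * z) * c₂ * c₃ := by group
      _ = c₂ * c₃ := by rw [hzz, one_mul]
  apply h.CC_inter hz₁ hz₂ ((CC T K₁).mul_mem hc hc')
  rw [e3]
  exact (CC T K₂).mul_mem hc₂ hc₃

theorem CC_sq {c : G} (hc : c ∈ CC T K₁) : c * c = 1 := by
  by_cases hc1 : c = 1
  · rw [hc1, one_mul]
  · exact h.CC_mul hz₁ hz₂ hc hc hc1 hc1

theorem CC_unique {c c' : G} (hc : c ∈ CC T K₁) (hc' : c' ∈ CC T K₁) (hc1 : c ≠ 1) (hc'1 : c' ≠ 1) : c = c' := by
  have h1 := h.CC_mul hz₁ hz₂ hc hc' hc1 hc'1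
  have h2 := h.CC_sq hz₁ hz₂ hc'
  calc c = c * (c' * c') := by rw [h2, mul_one]
    _ = (c * c') * c' := by group
    _ = c' := by rw [h1, one_mul]

theorem CC_central {c t : G} (hc : c ∈ CC T K₁) (ht : t ∈ T) : t * c * t⁻¹ = c := by
  by_cases hc1 : c = 1
  · rw [hc1]; group
  · refine h.CC_unique hz₁ hz₂ (CC_conj h.c₁ ht hc) hc ?_ hc1
    intro he
    apply hc1
    have e : c = t⁻¹ * (t * c * t⁻¹) * t := by group
    rw [e, he]; group

/-- `C_T(W₁)` has exponent two. -/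
theorem Q_sq {r : G} (hr : r ∈ QQ T K₁) : r * r = 1 := by
  obtain ⟨w, hw, c, hc, rfl⟩ := h.Q_split hz₁ hz₂ hr
  have hcw : c * w = w * c := (Subgroup.mem_centralizer_iff.1 (CC_le_Q h.c₁ hc).2 w hw).symm
  calc w * c * (w * c) = w * (c * w) * c := by group
    _ = w * (w * c) * c := by rw [hcw]
    _ = (w * w) * (c * c) := by group
    _ = 1 := by rw [h.c₁.sq hw, h.CC_sq hz₁ hz₂ hc, one_mul]

/-- Squares in `T` are in `⟨z⟩`. -/
theorem T_sq {t : G} (ht : t ∈ T) : t * t = 1 ∨ t * t = z := by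
  have c₁ := h.c₁
  have c₂ := h.c₂
  by_cases h1 : t ∈ centralizer (wOf K₁ : Set G)
  · left; exact h.Q_sq hz₁ hz₂ ⟨ht, h1⟩
  by_cases h2 : t ∈ centralizer (wOf K₂ : Set G)
  · left; exact h.symm.Q_sq hz₂ hz₁ ⟨ht, h2⟩
  obtain ⟨d, hd, hdn⟩ := h.symm.exists_u
  have hdT := c₁.W_le_T hd
  have hq : t * d ∈ QQ T K₂ := ⟨T.mul_mem ht hdT, c₂.two ht hdT h2 hdn⟩
  have hqs := h.symm.Q_sq hz₂ hz₁ hq
  have hds := c₁.sq hd
  have hdi : d⁻¹ = d := inv_eq_of_mul_eq_one_left hds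
  have hqi : (t * d)⁻¹ = t * d := inv_eq_of_mul_eq_one_left hqs
  have e : t * t = (t * d) * d * (t * d)⁻¹ * d⁻¹ := by
    rw [hqi, hdi]
    calc t * t = t * (d * d) * t * (d * d) := by rw [hds]; group
      _ = _ := by group
  rw [e]
  exact c₁.comm_T_W hz₁ hq.1 hd

/-- Two non-commuting elements of the four-groups. -/
theorem dd_sq {d d' : G} (hd : d ∈ wOf K₁) (hdn : d ∉ centralizer (wOf K₂ : Set G)) (hd' : d' ∈ wOf K₂)
    (hd'n : d' ∉ centralizer (wOf K₁ : Set G)) : (d * d') * (d * d') = z := by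
  have c₁ := h.c₁
  have c₂ := h.c₂
  have hd1 : d ≠ 1 := by
    rintro rfl
    exact hdn (Subgroup.one_mem _)
  have hdz : d ≠ z := by
    rintro rfl
    exact hdn (Subgroup.mem_centralizer_iff.2 fun b hb => comm_of_conj_eq (hz₂.fix b (c₂.W_le_T hb)))
  have h1 := c₁.moved hz₁ (c₂.W_le_T hd') hd'n hd hd1 hdz
  have hds := c₁.sq hd
  have hds' := c₂.sq hd'
  have hdi : d⁻¹ = d := inv_eq_of_mul_eq_one_left hds
  have hdi' : d'⁻¹ = d' := inv_eq_of_mul_eq_one_left hds'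
  rw [hdi, hdi'] at h1
  have h2 : d * z * d⁻¹ = z := hz₁.fix d (c₁.W_le_T hd)
  rw [hdi] at h2
  have h3 : d * (d' * d * d' * d) * d = z := by rw [h1]; exact h2
  calc (d * d') * (d * d') = (d * d') * (d * d') * (d * d) := by rw [hds, mul_one]
    _ = d * (d' * d * d' * d) * d := by simp only [mul_assoc]
    _ = z := h3

end Config

end Cfsg.Agent.Lib.LocalEven2.JC
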