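import Cfsg.Agent.Lib.LocalEven2.JC18
import Cfsg.Agent.Lib.PGroups.AltGen2

/-!
# Normality of components; pairs from conjugation
-/

set_option autoImplicit false
set_option linter.unusedSectionVars false
set_option linter.unusedVariables false

namespace Cfsg.Agent.Lib.LocalEven2.JC

open Subgroup Cfsg Cfsg.Agent.Lib.PLocal
open Cfsg.Agent.Lib.OddLocal (MaxEA thompsonSubgroupOf_eq le_thompsonSubgroupOf MaxEA_nonempty isElementaryAbelian_map
  isElementaryAbelian_subgroupOf)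
open Cfsg.Agent.Lib.LocalEven (cj cj_mul cj_inv_cj cj_cj_inv le_cj_iff cj_mono isPGroup_cj cj_eq_of_mem_normalizer mem_cj
  conj_mem_cj card_cj mem_normalizer_of_cj_eq)
open scoped commutatorElement

variable {G : Type*} [Group G] [Finite G]

namespace Uq

variable {J K L K₁ L₁ : Subgroup G}

theorem cj_gen (u : Uq J K L) (g : G) : Uq (cj g J) (cj g K) (cj g L) := by
  refine ⟨maxTwoLocal_cj g u.m, sup_le (cj_mono (le_sup_left.trans u.le)) (cj_mono (le_sup_right.trans u.le)), ?_⟩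
  intro L' hL' hle
  have h1 : K ≤ cj g⁻¹ L' := by
    have := cj_mono (g := g⁻¹) (le_sup_left.trans hle)
    rwa [cj_inv_cj] at this
  have h2 : J ≤ cj g⁻¹ L' := by
    have := cj_mono (g := g⁻¹) (le_sup_right.trans hle)
    rwa [cj_inv_cj] at this
  have h3 := u.u _ (maxTwoLocal_cj g⁻¹ hL') (sup_le h1 h2)
  rw [← h3, cj_cj_inv]

theorem cj_of (u : Uq J K L) {g : G} (hg : g ∈ normalizer (J : Set G)) : Uq J (cj g K) (cj g L) := by
  have := u.cj_gen g
  rwa [cj_eq_of_mem_normalizer hg] at this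

theorem eq_of_elem (u : Uq J K L) (u₁ : Uq J K₁ L₁) {y : G} (hy : y ∈ omegaCenterOf J) (hy1 : y ≠ 1)
    (h : K ≤ centralizer ({y} : Set G)) (h₁ : K₁ ≤ centralizer ({y} : Set G)) : L = L₁ := by
  obtain ⟨-, hyc, hys⟩ := mem_omegaCenterOf.1 hy
  refine u.eq_of_common u₁ (isPGroup_zpowers_of_sq hys) (zpowers_ne_bot hy1)
    (h.trans cent_le_norm_zpowers) (h₁.trans cent_le_norm_zpowers) ?_
  refine le_trans ?_ cent_le_norm_zpowers
  intro j hj
  exact mem_c1.2 (Subgroup.mem_centralizer_iff.1 hyc j hj).symm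

end Uq

theorem norm_self {L : Subgroup G} (hLS : LS L) (m : IsMaximalTwoLocal L) {g : G}
    (hg : g ∈ normalizer (L : Set G)) : g ∈ L := by
  have h1 : IsTwoLocal (normalizer ((pCoreOf 2 L : Subgroup G) : Set G)) :=
    ⟨_, Cfsg.Agent.Lib.LocalEven.pCoreOf_isPGroup L, hLS.Q_ne_bot, rfl⟩
  have h2 : L ≤ normalizer ((pCoreOf 2 L : Subgroup G) : Set G) := Cfsg.Agent.Lib.LocalEven.le_normalizer_pCoreOf L
  have h3 := m.2 _ h1 h2
  rw [← h3]
  apply mem_normalizer_of_cj_eq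
  rw [← Cfsg.Agent.Lib.LocalEven.pCoreOf_cj, cj_eq_of_mem_normalizer hg]

theorem Pair.key {J K₁ K₂ L₁ L₂ : Subgroup G} (P : Pair J K₁ K₂ L₁ L₂) {a b v : G} (ha : a ∈ Data.W0 J K₁) (ha1 : a ≠ 1)
    (hb : b ∈ omegaCenterOf J) (hb1 : b ≠ 1) (hbc : K₁ ≤ centralizer ({b} : Set G)) (hv : v ∈ omegaCenterOf J)
    (hvc : K₁ ≤ centralizer ({v} : Set G)) : v = 1 ∨ v = b := by
  obtain ⟨x, hx⟩ := P.D₁.exists_x
  have hnot : ¬ K₁ ≤ centralizer ({a} : Set G) := fun hle =>
    ha1 (P.D₁.fpf hx ha.1 (conj_eq_of_comm (mem_c1.1 (hle hx.mem)).symm))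
  rcases P.enum ha ha1 hb hb1 hbc v hv with e | e | e | e
  · exact Or.inl e
  · subst e
    exact absurd hvc hnot
  · exact Or.inr e
  · exfalso
    apply hnot
    intro k hk
    apply mem_c1.2
    rw [e] at hvc
    have h1 : Commute (a * b) k := mem_c1.1 (hvc hk)
    have h2 : Commute b k := mem_c1.1 (hbc hk)
    have e3 : a = (a * b) * b⁻¹ := by group
    rw [e3]
    exact (h1.mul_left h2.inv_left).eq

/-- A second overgroup obtained by conjugation forces normality of the component. -/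
theorem TN_of_conj {L T K : Subgroup G} (h : CompIn L T K) (u : Uq (thompsonSubgroupOf 2 T) K L) {g : G}
    (hg : g ∈ normalizer ((thompsonSubgroupOf 2 T : Subgroup G) : Set G)) (hgL : g ∉ L) : T ≤ normalizer (K : Set G) := by
  intro s hs
  by_contra hn
  have hJN : T ≤ normalizer ((thompsonSubgroupOf 2 T : Subgroup G) : Set G) :=
    le_normalizer.trans (Cfsg.Agent.Lib.PLocal.normalizer_le_normalizer_thompsonOf (p := 2) T)
  set J := thompsonSubgroupOf 2 T with hJ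
  have hsJ : s ∈ normalizer ((J : Subgroup G) : Set G) := hJN hs
  have hsL : s ∈ L := h.hT.1 hs
  have hLs : cj s L = L := cj_eq_of_mem_normalizer (le_normalizer hsL)
  have hLg : cj g L ≠ L := by
    intro he
    exact hgL (norm_self h.hLS u.m (mem_normalizer_of_cj_eq he))
  set K' := cj s K with hK'
  have hKne : K' ≠ K := fun he => hn (mem_normalizer_of_cj_eq he)
  have h' : CompIn L T K' := by
    refine ⟨h.hLS, h.hT, h.hT1, jc_of_norm h.hK hsJ, ?_⟩
    rw [← hLs]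
    exact cj_mono h.hKL
  have u' : Uq J K' L := by
    have := u.cj_of hsJ
    rwa [hLs] at this
  have D := h.D
  obtain ⟨a, haW, ha1, haf⟩ := D.exists_w0
  have haW0 : a ∈ Data.W0 J K := D.mem_W0 haW haf
  have haZ : a ∈ omegaCenterOf J := by
    have : a ∈ omegaCenterOf J ⊓ wOf K := by rw [D.Z0_inf_W]; exact haW0
    exact this.1
  set b := s * a * s⁻¹ with hb
  have hbZ : b ∈ omegaCenterOf J := omegaCenterOf_conj hsJ haZ
  have hbW : b ∈ wOf K' := by rw [hK', wOf_cj]; exact conj_mem_cj haW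
  have hb1 : b ≠ 1 := by
    intro he
    apply ha1
    have e : s⁻¹ * b * s = a := by rw [hb]; group
    rw [← e, he]; group
  have hab : a ≠ b := by
    intro he
    have hbW' : a ∈ wOf K' := by rw [he]; exact hbW
    exact hKne (h.eq_of_common h' haW hbW' ha1 (h.W_le_V a haW))
  have hK'a : K' ≤ centralizer ({a} : Set G) := fun k hk =>
    mem_c1.2 (comm_of_conj_eq (h.cent_W h' hKne hk haW)).symm
  have hKb : K ≤ centralizer ({b} : Set G) := fun k hk =>
    mem_c1.2 (comm_of_conj_eq (h'.cent_W h hKne.symm hk hbW)).symm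
  -- the conjugates under `g`
  set L₂ := cj g L with hL₂
  have u₂ : Uq J (cj g K) L₂ := u.cj_of hg
  have u₂' : Uq J (cj g K') L₂ := u'.cj_of hg
  have hne : L ≠ L₂ := fun he => hLg he.symm
  have D₂ : Data J (cj g K) := Data.of h.hT.2.1 (jc_of_norm h.hK hg)
  have P : Pair J K (cj g K) L L₂ := ⟨D, D₂, u, u₂, hne⟩
  have henum := P.enum haW0 ha1 hbZ hb1 hKb
  set a₂ := g * a * g⁻¹ with ha₂
  set b₂ := g * b * g⁻¹ with hb₂
  have ha₂Z : a₂ ∈ omegaCenterOf J := omegaCenterOf_conj hg haZ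
  have hb₂Z : b₂ ∈ omegaCenterOf J := omegaCenterOf_conj hg hbZ
  have hcent : ∀ {X : Subgroup G} {y : G}, X ≤ centralizer ({y} : Set G) → cj g X ≤ centralizer ({g * y * g⁻¹} : Set G) := by
    intro X y hX
    rintro _ ⟨k, hk, rfl⟩
    apply mem_c1.2
    have h1 := mem_c1.1 (hX hk)
    show (g * y * g⁻¹) * (g * k * g⁻¹) = (g * k * g⁻¹) * (g * y * g⁻¹)
    calc (g * y * g⁻¹) * (g * k * g⁻¹) = g * (y * k) * g⁻¹ := by group
      _ = g * (k * y) * g⁻¹ := by rw [h1]
      _ = _ := by group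
  have hK₂b : cj g K ≤ centralizer ({b₂} : Set G) := hcent hKb
  have hK₂a : cj g K' ≤ centralizer ({a₂} : Set G) := hcent hK'a
  have ha₂1 : a₂ ≠ 1 := by
    intro he
    apply ha1
    have e : g⁻¹ * a₂ * g = a := by rw [ha₂]; group
    rw [← e, he]; group
  have hb₂1 : b₂ ≠ 1 := by
    intro he
    apply hb1
    have e : g⁻¹ * b₂ * g = b := by rw [hb₂]; group
    rw [← e, he]; group
  have e1 : a₂ = a * b := by
    rcases henum a₂ ha₂Z with e | e | e | e
    · exact absurd e ha₂1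
    · exfalso
      rw [e] at hK₂a
      exact hne (u'.eq_of_elem u₂' haZ ha1 hK'a hK₂a)
    · exfalso
      rw [e] at hK₂a
      exact hne (u.eq_of_elem u₂' hbZ hb1 hKb hK₂a)
    · exact e
  have e2 : b₂ = a * b := by
    rcases henum b₂ hb₂Z with e | e | e | e
    · exact absurd e hb₂1
    · exfalso
      rw [e] at hK₂b
      exact hne (u'.eq_of_elem u₂ haZ ha1 hK'a hK₂b)
    · exfalso
      rw [e] at hK₂b
      exact hne (u.eq_of_elem u₂ hbZ hb1 hKb hK₂b)
    · exact e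
  apply hab
  have e3 : g * a * g⁻¹ = g * b * g⁻¹ := by
    show a₂ = b₂
    rw [e1, e2]
  exact mul_left_cancel (mul_right_cancel e3)

/-- A second overgroup containing `T` forces normality of the component. -/
theorem TN_of_second {L₁ L₂ T K₁ K₂ : Subgroup G} (h₁ : CompIn L₁ T K₁) (h₂ : CompIn L₂ T K₂)
    (u₁ : Uq (thompsonSubgroupOf 2 T) K₁ L₁) (u₂ : Uq (thompsonSubgroupOf 2 T) K₂ L₂) (hne : L₁ ≠ L₂) :
    T ≤ normalizer (K₁ : Set G) := by
  intro s hs
  by_contra hn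
  have hJN : T ≤ normalizer ((thompsonSubgroupOf 2 T : Subgroup G) : Set G) :=
    le_normalizer.trans (Cfsg.Agent.Lib.PLocal.normalizer_le_normalizer_thompsonOf (p := 2) T)
  set J := thompsonSubgroupOf 2 T with hJ
  have hsJ : s ∈ normalizer ((J : Subgroup G) : Set G) := hJN hs
  have hsL : s ∈ L₁ := h₁.hT.1 hs
  have hLs : cj s L₁ = L₁ := cj_eq_of_mem_normalizer (le_normalizer hsL)
  set K' := cj s K₁ with hK'
  have hKne : K' ≠ K₁ := fun he => hn (mem_normalizer_of_cj_eq he)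
  have h' : CompIn L₁ T K' := by
    refine ⟨h₁.hLS, h₁.hT, h₁.hT1, jc_of_norm h₁.hK hsJ, ?_⟩
    rw [← hLs]
    exact cj_mono h₁.hKL
  have u' : Uq J K' L₁ := by
    have := u₁.cj_of hsJ
    rwa [hLs] at this
  have D := h₁.D
  have D₂ := h₂.D
  obtain ⟨a, haW, ha1, haf⟩ := D.exists_w0
  have haW0 : a ∈ Data.W0 J K₁ := D.mem_W0 haW haf
  have haZ : a ∈ omegaCenterOf J := by
    have : a ∈ omegaCenterOf J ⊓ wOf K₁ := by rw [D.Z0_inf_W]; exact haW0
    exact this.1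
  set b := s * a * s⁻¹ with hb
  have hbZ : b ∈ omegaCenterOf J := omegaCenterOf_conj hsJ haZ
  have hbW : b ∈ wOf K' := by rw [hK', wOf_cj]; exact conj_mem_cj haW
  have hb1 : b ≠ 1 := by
    intro he
    apply ha1
    have e : s⁻¹ * b * s = a := by rw [hb]; group
    rw [← e, he]; group
  have hab : a ≠ b := by
    intro he
    have hbW' : a ∈ wOf K' := by rw [he]; exact hbW
    exact hKne (h₁.eq_of_common h' haW hbW' ha1 (h₁.W_le_V a haW))
  have hK'a : K' ≤ centralizer ({a} : Set G) := fun k hk =>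
    mem_c1.2 (comm_of_conj_eq (h₁.cent_W h' hKne hk haW)).symm
  have hKb : K₁ ≤ centralizer ({b} : Set G) := fun k hk =>
    mem_c1.2 (comm_of_conj_eq (h'.cent_W h₁ hKne.symm hk hbW)).symm
  have P : Pair J K₁ K₂ L₁ L₂ := ⟨D, D₂, u₁, u₂, hne⟩
  have henum := P.enum haW0 ha1 hbZ hb1 hKb
  have hna : ¬ K₂ ≤ centralizer ({a} : Set G) := fun hle => hne (u'.eq_of_elem u₂ haZ ha1 hK'a hle)
  have hnb : ¬ K₂ ≤ centralizer ({b} : Set G) := fun hle => hne (u₁.eq_of_elem u₂ hbZ hb1 hKb hle)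
  obtain ⟨w₂, hw₂, hw₂1, hw₂f⟩ := D₂.exists_w0
  have hw₂0 : w₂ ∈ Data.W0 J K₂ := D₂.mem_W0 hw₂ hw₂f
  have hw₂Z : w₂ ∈ omegaCenterOf J := by
    have : w₂ ∈ omegaCenterOf J ⊓ wOf K₂ := by rw [D₂.Z0_inf_W]; exact hw₂0
    exact this.1
  have hw₂s : w₂ * w₂ = 1 := h₂.D.hW2 w₂ hw₂
  obtain ⟨y, hy⟩ := D₂.exists_x
  have hw₂ne : ¬ K₂ ≤ centralizer ({w₂} : Set G) := fun hle =>
    hw₂1 (D₂.fpf hy hw₂ (conj_eq_of_comm (mem_c1.1 (hle hy.mem)).symm))
  have hcases : w₂ = a ∨ w₂ = b := by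
    rcases henum w₂ hw₂Z with e | e | e | e
    · exact absurd e hw₂1
    · exact Or.inl e
    · exact Or.inr e
    · exfalso
      apply hw₂ne
      obtain ⟨v, hvZ, hvc, hv⟩ := D₂.dec hw₂0 hw₂1 haZ
      obtain ⟨v', hvZ', hvc', hv'⟩ := D₂.dec hw₂0 hw₂1 hbZ
      rcases hv with e1 | e1
      · exact absurd (e1 ▸ hvc) hna
      rcases hv' with e2 | e2
      · exact absurd (e2 ▸ hvc') hnb
      rw [e]
      intro k hk
      apply mem_c1.2
      have h5 : a * b = v * v' := by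
        rw [e1, e2]
        have hc1 : w₂ * v' = v' * w₂ := omegaCenterOf_comm hw₂Z hvZ'
        calc v * w₂ * (v' * w₂) = v * (w₂ * v') * w₂ := by group
          _ = v * (v' * w₂) * w₂ := by rw [hc1]
          _ = v * v' * (w₂ * w₂) := by group
          _ = v * v' := by rw [hw₂s, mul_one]
      rw [h5]
      have h1 : Commute v k := mem_c1.1 (hvc hk)
      have h2 : Commute v' k := mem_c1.1 (hvc' hk)
      exact (h1.mul_left h2).eq
  have hs₂ : s ∉ normalizer (K₂ : Set G) := by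
    intro hm
    have h3 : s * w₂ * s⁻¹ ∈ Data.W0 J K₂ := by
      refine D₂.mem_W0 ((Subgroup.mem_normalizer_iff.1 (Data.W_norm hm) w₂).1 hw₂) ?_
      intro j hj
      have hj' : s⁻¹ * j * s ∈ J := by
        have := (Subgroup.mem_normalizer_iff.1 (Subgroup.inv_mem _ hsJ) j).1 hj
        simpa using this
      have h4 := hw₂f _ hj'
      calc j * (s * w₂ * s⁻¹) * j⁻¹ = s * ((s⁻¹ * j * s) * w₂ * (s⁻¹ * j * s)⁻¹) * s⁻¹ := by group
        _ = s * w₂ * s⁻¹ := by rw [h4]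
    have h5 : s * w₂ * s⁻¹ ≠ 1 := by
      intro he
      apply hw₂1
      have e : s⁻¹ * (s * w₂ * s⁻¹) * s = w₂ := by group
      rw [← e, he]; group
    have h6 := D₂.W0_cases h3 hw₂0 h5 hw₂1
    rcases hcases with e | e
    · rw [e] at h6
      exact hab h6.symm
    · rw [e] at h6
      apply hab
      have e1 : s⁻¹ * b * s = a := by rw [hb]; group
      rw [← e1, conj_inv_eq_of_conj_eq h6]
  have hsL₂ : s ∈ L₂ := h₂.hT.1 hs
  have hLs₂ : cj s L₂ = L₂ := cj_eq_of_mem_normalizer (le_normalizer hsL₂)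
  have hK₃ne : cj s K₂ ≠ K₂ := fun he => hs₂ (mem_normalizer_of_cj_eq he)
  have h₃ : CompIn L₂ T (cj s K₂) := by
    refine ⟨h₂.hLS, h₂.hT, h₂.hT1, jc_of_norm h₂.hK hsJ, ?_⟩
    rw [← hLs₂]
    exact cj_mono h₂.hKL
  have u₃ : Uq J (cj s K₂) L₂ := by
    have := u₂.cj_of hsJ
    rwa [hLs₂] at this
  have hK₃ : cj s K₂ ≤ centralizer ({w₂} : Set G) := fun k hk =>
    mem_c1.2 (comm_of_conj_eq (h₂.cent_W h₃ hK₃ne hk hw₂)).symm
  rcases hcases with e | e
  · rw [e] at hK₃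
    exact hne (u'.eq_of_elem u₃ haZ ha1 hK'a hK₃)
  · rw [e] at hK₃
    exact hne (u₁.eq_of_elem u₃ hbZ hb1 hKb hK₃)

/-- Pairs from conjugation by an element of `N_G(T)` outside `L`. -/
theorem config_of_norm {L T K : Subgroup G} (h : CompIn L T K) (u : Uq (thompsonSubgroupOf 2 T) K L) {g : G}
    (hg : g ∈ normalizer (T : Set G)) (hgL : g ∉ L) : Config T K (cj g K) L (cj g L) := by
  have hgJ : g ∈ normalizer ((thompsonSubgroupOf 2 T : Subgroup G) : Set G) :=
    Cfsg.Agent.Lib.PLocal.normalizer_le_normalizer_thompsonOf (p := 2) T hg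
  have hTN := TN_of_conj h u hgJ hgL
  have hLg : cj g L ≠ L := by
    intro he
    exact hgL (norm_self h.hLS u.m (mem_normalizer_of_cj_eq he))
  have u₂ := u.cj_of hgJ
  have hLS₂ : LS (cj g L) := LS_of_two_local h.hLS.hL h.hLS.hN h.hLS.hZ (maxTwoLocal_cj g u.m).1
  have hTg : cj g T = T := cj_eq_of_mem_normalizer hg
  have h₂ : CompIn (cj g L) T (cj g K) := by
    refine ⟨hLS₂, ?_, h.hT1, jc_of_norm h.hK hgJ, cj_mono h.hKL⟩
    have := isSylowTwoIn_cj g h.hT
    rwa [hTg] at this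
  refine ⟨⟨h, hTN⟩, ⟨h₂, ?_⟩, u, u₂, ?_, ?_⟩
  · intro t ht
    have ht' : g⁻¹ * t * g ∈ T := by
      have := (Subgroup.mem_normalizer_iff.1 (Subgroup.inv_mem _ hg) t).1 ht
      simpa using this
    have := Cfsg.Agent.Lib.LocalEven.conj_mem_normalizer_cj (hTN ht') g
    have e : g * (g⁻¹ * t * g) * g⁻¹ = t := by group
    rwa [e] at this
  · intro hle
    exact hLg (u₂.u L u.m (sup_le hle (le_sup_right.trans u.le))).symm
  · intro hle
    exact hLg (u.u _ u₂.m (sup_le hle (le_sup_right.trans u₂.le)))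

end Cfsg.Agent.Lib.LocalEven2.JC
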