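import Cfsg.Agent.Lib.LocalEven2.JC19

/-!
# No proper subgroup of a Sylow subgroup with components
-/

set_option autoImplicit false
set_option linter.unusedSectionVars false
set_option linter.unusedVariables false

namespace Cfsg.Agent.Lib.LocalEven2.JC

open Subgroup Cfsg Cfsg.Agent.Lib.PLocal
open Cfsg.Agent.Lib.OddLocal (MaxEA thompsonSubgroupOf_eq le_thompsonSubgroupOf MaxEA_nonempty isElementaryAbelian_map
  isElementaryAbelian_subgroupOf)
open Cfsg.Agent.Lib.LocalEven (cj cj_mul cj_inv_cj cj_cj_inv le_cj_iff cj_mono isPGroup_cj cj_eq_of_mem_normalizer mem_cj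
  conj_mem_cj card_cj mem_normalizer_of_cj_eq)
open scoped commutatorElement

variable {G : Type*} [Group G] [Finite G]

/-- `⟨Ω₁(Z(S))⟩` of `L` inside `G`. -/
noncomputable def omegaS (L : Subgroup G) : Subgroup G := (omegaSylow 2 ↥L).map L.subtype

theorem omegaS_sq {L : Subgroup G} (hLS : LS L) {v : G} (hv : v ∈ omegaS L) : v * v = 1 := by
  obtain ⟨u, hu, rfl⟩ := hv
  exact (V_facts hLS hu).2.2

theorem omegaS_comm {L : Subgroup G} (hLS : LS L) {u v : G} (hu : u ∈ omegaS L) (hv : v ∈ omegaS L) : u * v = v * u := by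
  obtain ⟨u', hu', rfl⟩ := hu
  obtain ⟨v', hv', rfl⟩ := hv
  exact V_comm hLS hu' hv'

theorem omegaS_le {L : Subgroup G} (hLS : LS L) : omegaS L ≤ pCoreOf 2 L := by
  rintro _ ⟨u, hu, rfl⟩
  exact (V_facts hLS hu).1

theorem omegaS_conj {L : Subgroup G} {l v : G} (hl : l ∈ L) (hv : v ∈ omegaS L) : l * v * l⁻¹ ∈ omegaS L := by
  obtain ⟨u, hu, rfl⟩ := hv
  refine ⟨⟨l, hl⟩ * u * ⟨l, hl⟩⁻¹, (omegaSylow_normal_inst).conj_mem _ hu _, ?_⟩
  simp

theorem W_le_omegaS {L T K : Subgroup G} (h : CompIn L T K) : wOf K ≤ omegaS L := fun w hw =>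
  ⟨⟨w, CompIn.W_le h.hKL hw⟩, h.W_le_V w hw, rfl⟩

theorem mem_omegaS_of_mem {L T K : Subgroup G} (h : CompIn L T K) {w : G} (hw : w ∈ omegaS L) :
    ∃ hwL : w ∈ L, (⟨w, hwL⟩ : ↥L) ∈ omegaSylow 2 ↥L := by
  obtain ⟨u, hu, rfl⟩ := hw
  exact ⟨u.2, hu⟩

/-- **A proper subgroup of a Sylow subgroup of `L₁` cannot carry components with unique overgroups.** -/
theorem no_star {L₁ S₂ K₃ T' K' L' : Subgroup G} (h₃ : CompIn L₁ S₂ K₃) (hT' : T' ≤ S₂) (hne : T' ≠ S₂)
    (hL' : CompIn L' T' K') (u' : Uq (thompsonSubgroupOf 2 T') K' L') : False := by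
  classical
  haveI : Fact (Nat.Prime 2) := ⟨Nat.prime_two⟩
  have hS₂p : IsPGroup 2 S₂ := h₃.hT.2.1
  have hSL : S₂ ≤ L₁ := h₃.hT.1
  have hLS := h₃.hLS
  set V := omegaS L₁ with hV
  have hVs : ∀ v ∈ V, v * v = 1 := fun v hv => omegaS_sq hLS hv
  have hVc : ∀ u ∈ V, ∀ v ∈ V, u * v = v * u := fun u hu v hv => omegaS_comm hLS hu hv
  have hVS : V ≤ S₂ := (omegaS_le hLS).trans (Q_le_T h₃.hT)
  have hVn : ∀ s ∈ S₂, ∀ v ∈ V, s * v * s⁻¹ ∈ V := fun s hs v hv => omegaS_conj (hSL hs) hv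
  have hT'p : IsPGroup 2 T' := hL'.hT.2.1
  have hout : ∀ g ∈ S₂, g ∉ T' → g ∈ normalizer (T' : Set G) → g ∉ L' := by
    intro g hgS hgT hgN hgL
    have hR : T' ⊔ zpowers g ≤ S₂ := sup_le hT' ((zpowers_le).2 hgS)
    have h1 := sylow_max hL'.hT (sup_le hL'.hT.1 ((zpowers_le).2 hgL)) (hS₂p.to_le hR) le_sup_left
    exact hgT (h1 ▸ Subgroup.mem_sup_right (Subgroup.mem_zpowers g))
  have hcfg : ∀ g ∈ S₂, g ∉ T' → g ∈ normalizer (T' : Set G) → Config T' K' (cj g K') L' (cj g L') :=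
    fun g hgS hgT hgN => config_of_norm hL' u' hgN (hout g hgS hgT hgN)
  have hfixes : ∀ {K'' L'' : Subgroup G}, Config T' K' K'' L' L'' → ∃ z, IsFix T' K' z ∧ IsFix T' K'' z := by
    intro K'' L'' C
    obtain ⟨z, hz⟩ := C.c₁.exists_fix
    obtain ⟨z₂, hz₂⟩ := C.c₂.exists_fix
    have := C.fix_eq hz hz₂
    subst this
    exact ⟨z, hz, hz₂⟩
  -- Step 1: `V ≤ T'`
  have hVT : V ≤ T' := by
    by_contra hnot
    have hlt : T' < T' ⊔ V := by
      refine lt_of_le_of_ne le_sup_left fun e => hnot ?_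
      rw [e]
      exact le_sup_right
    have hsup : T' ⊔ V ≤ S₂ := sup_le hT' hVS
    obtain ⟨g, hg, hgn, hgN⟩ := Cfsg.Agent.Lib.PGroups.exists_mem_normalizer_of_lt (hS₂p.to_le hsup) hlt
    have hT'N : T' ≤ normalizer ((V : Subgroup G) : Set G) := by
      intro t ht
      apply Cfsg.Agent.Lib.Coprime.mem_normalizer_of_conj_le
      intro v hv
      exact hVn t (hT' ht) v hv
    rw [sup_comm] at hg
    obtain ⟨v, hv, t₀, ht₀, rfl⟩ := Cfsg.Agent.Lib.OddLocal.mem_sup_of_le_normalizer hT'N hg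
    have hvT : v ∉ T' := fun hm => hgn (T'.mul_mem hm ht₀)
    have hvN : v ∈ normalizer (T' : Set G) := by
      apply Cfsg.Agent.Lib.Coprime.mem_normalizer_of_conj_le
      intro w hw
      have h1 := hgN (t₀⁻¹ * w * t₀) (T'.mul_mem (T'.mul_mem (T'.inv_mem ht₀) hw) ht₀)
      have e : v * t₀ * (t₀⁻¹ * w * t₀) * (v * t₀)⁻¹ = v * w * v⁻¹ := by group
      rwa [e] at h1
    have C := hcfg v (hVS hv) hvT hvN
    obtain ⟨z, hz₁, hz₂⟩ := hfixes C
    obtain ⟨d, hd, hdn⟩ := C.symm.exists_u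
    have hdT := C.c₁.W_le_T hd
    have hd1 : d ≠ 1 := by
      rintro rfl
      exact hdn (Subgroup.one_mem _)
    have hdz : d ≠ z := by
      rintro rfl
      exact hdn (Subgroup.mem_centralizer_iff.2 fun b hb => comm_of_conj_eq (hz₂.fix b (C.c₂.W_le_T hb)))
    set d'' := v * d * v⁻¹ with hd''
    have hd''W : d'' ∈ wOf (cj v K') := by rw [wOf_cj]; exact conj_mem_cj hd
    have hvz : v⁻¹ * z * v = z := by
      have hvz' : IsFix T' (cj v K') (v * z * v⁻¹) := by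
        refine ⟨by rw [wOf_cj]; exact conj_mem_cj hz₁.mem, ?_, ?_⟩
        · intro he
          apply hz₁.ne
          have e : v⁻¹ * (v * z * v⁻¹) * v = z := by group
          rw [← e, he]; group
        · intro t ht
          have ht' : v⁻¹ * t * v ∈ T' := by
            have := (Subgroup.mem_normalizer_iff.1 (Subgroup.inv_mem _ hvN) t).1 ht
            simpa using this
          have h4 := hz₁.fix _ ht'
          calc t * (v * z * v⁻¹) * t⁻¹ = v * ((v⁻¹ * t * v) * z * (v⁻¹ * t * v)⁻¹) * v⁻¹ := by group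
            _ = v * z * v⁻¹ := by rw [h4]
      exact conj_inv_eq_of_conj_eq (C.c₂.fix_unique hvz' hz₂)
    have hd''n : d'' ∉ centralizer (wOf K' : Set G) := by
      intro hm
      rcases C.symm.W_inf hz₂ hz₁ hd''W hm with e | e
      · apply hd1
        have e1 : v⁻¹ * d'' * v = d := by rw [hd'']; group
        rw [← e1, e]; group
      · apply hdz
        have e1 : v⁻¹ * d'' * v = d := by rw [hd'']; group
        rw [← e1, e, hvz]
    have hsq := C.dd_sq hz₁ hz₂ hd hdn hd''W hd''n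
    have hdi : d⁻¹ = d := inv_eq_of_mul_eq_one_left (C.c₁.sq hd)
    have hh : d * d'' ∈ V := by
      have e : d * d'' = (d * v * d⁻¹) * v⁻¹ := by
        have e2 : d * v * d⁻¹ * v⁻¹ = d * (v * d⁻¹ * v⁻¹) := by group
        rw [e2, hdi]
      rw [e]
      exact V.mul_mem (hVn d (hT' hdT) v hv) (V.inv_mem hv)
    rw [hVs _ hh] at hsq
    exact hz₁.ne hsq.symm
  -- Step 2
  obtain ⟨t, htS, htT, htN'⟩ := Cfsg.Agent.Lib.PGroups.exists_mem_normalizer_of_lt hS₂p (lt_of_le_of_ne hT' hne)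
  have htN : t ∈ normalizer (T' : Set G) :=
    Cfsg.Agent.Lib.Coprime.mem_normalizer_of_conj_le _ _ htN'
  have C := hcfg t htS htT htN
  obtain ⟨z, hz₁, hz₂⟩ := hfixes C
  set K'' := cj t K' with hK''
  have hW'' : wOf K'' = cj t (wOf K') := wOf_cj t K'
  obtain ⟨d, hd, hdn⟩ := C.symm.exists_u
  have hdT := C.c₁.W_le_T hd
  have hd1 : d ≠ 1 := by
    rintro rfl
    exact hdn (Subgroup.one_mem _)
  have hdz : d ≠ z := by
    rintro rfl
    exact hdn (Subgroup.mem_centralizer_iff.2 fun b hb => comm_of_conj_eq (hz₂.fix b (C.c₂.W_le_T hb)))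
  have hdi : d⁻¹ = d := inv_eq_of_mul_eq_one_left (C.c₁.sq hd)
  have hdC : d ∈ centralizer (wOf K' : Set G) := (C.c₁.W_le_Q hd).2
  have hV2 : ∀ v ∈ V, v ∈ centralizer (wOf K' : Set G) ∨ v ∈ centralizer (wOf K'' : Set G) := by
    intro v hv
    by_contra hcon
    push Not at hcon
    obtain ⟨hn₁, hn₂⟩ := hcon
    have hvT := hVT hv
    have hq₂ : v * d ∈ centralizer (wOf K'' : Set G) := C.c₂.two hvT hdT hn₂ hdn
    have hq₁ : v * d ∉ centralizer (wOf K' : Set G) := by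
      intro hm
      apply hn₁
      have := Subgroup.mul_mem _ hm (Subgroup.inv_mem _ hdC)
      simpa using this
    have hqT : v * d ∈ T' := T'.mul_mem hvT hdT
    have hqs : (v * d) * (v * d) = 1 := C.symm.Q_sq hz₂ hz₁ ⟨hqT, hq₂⟩
    have hqi : (v * d)⁻¹ = v * d := inv_eq_of_mul_eq_one_left hqs
    have hm := C.c₁.moved hz₁ hqT hq₁ hd hd1 hdz
    rw [hqi, hdi] at hm
    have e : (v * d) * d * (v * d) * d = v * v := by
      have hds := C.c₁.sq hd
      calc (v * d) * d * (v * d) * d = v * (d * d) * v * (d * d) := by group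
        _ = v * v := by rw [hds]; group
    rw [e, hVs v hv] at hm
    exact hz₁.ne hm.symm
  have hV3 : V ≤ centralizer (wOf K' : Set G) ∨ V ≤ centralizer (wOf K'' : Set G) := by
    by_contra hcon
    push Not at hcon
    obtain ⟨h1, h2⟩ := hcon
    obtain ⟨v₁, hv₁, hv₁n⟩ := Set.not_subset.1 h1
    obtain ⟨v₂, hv₂, hv₂n⟩ := Set.not_subset.1 h2
    have h3 := (hV2 v₁ hv₁).resolve_left hv₁n
    have h4 := (hV2 v₂ hv₂).resolve_right hv₂n
    rcases hV2 (v₁ * v₂) (V.mul_mem hv₁ hv₂) with h5 | h5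
    · apply hv₁n
      have := Subgroup.mul_mem _ h5 (Subgroup.inv_mem _ h4)
      simpa using this
    · apply hv₂n
      have := Subgroup.mul_mem _ (Subgroup.inv_mem _ h3) h5
      simpa using this
  have hti : t⁻¹ ∈ S₂ := S₂.inv_mem htS
  have hV4₁ : V ≤ centralizer (wOf K' : Set G) := by
    rcases hV3 with h1 | h1
    · exact h1
    · intro v hv
      refine Subgroup.mem_centralizer_iff.2 fun d₁ hd₁ => ?_
      have h2 := hVn t htS v hv
      have h3 : t * d₁ * t⁻¹ ∈ wOf K'' := by rw [hW'']; exact conj_mem_cj hd₁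
      have h4 := Subgroup.mem_centralizer_iff.1 (h1 h2) _ h3
      have e1 : t * (d₁ * v) * t⁻¹ = (t * d₁ * t⁻¹) * (t * v * t⁻¹) := by group
      have e2 : t * (v * d₁) * t⁻¹ = (t * v * t⁻¹) * (t * d₁ * t⁻¹) := by group
      have h5 : t * (d₁ * v) * t⁻¹ = t * (v * d₁) * t⁻¹ := by rw [e1, e2, h4]
      exact mul_left_cancel (mul_right_cancel h5)
  have hV4₂ : V ≤ centralizer (wOf K'' : Set G) := by
    rcases hV3 with h1 | h1
    · intro v hv
      refine Subgroup.mem_centralizer_iff.2 fun b hb => ?_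
      rw [hW''] at hb
      obtain ⟨d₁, hd₁, rfl⟩ := hb
      show (t * d₁ * t⁻¹) * v = v * (t * d₁ * t⁻¹)
      have h2 := hVn t⁻¹ hti v hv
      have h4 := Subgroup.mem_centralizer_iff.1 (h1 h2) d₁ hd₁
      have e0 : t⁻¹ * v * t⁻¹⁻¹ = t⁻¹ * v * t := by group
      rw [e0] at h4
      calc (t * d₁ * t⁻¹) * v = t * (d₁ * (t⁻¹ * v * t)) * t⁻¹ := by group
        _ = t * ((t⁻¹ * v * t) * d₁) * t⁻¹ := by rw [h4]
        _ = _ := by group
    · exact h1
  have hVQ₁ : ∀ v ∈ V, v ∈ QQ T' K' := fun v hv => ⟨hVT hv, hV4₁ hv⟩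
  -- Step 3
  have hW₃ : wOf K₃ ≤ V := W_le_omegaS h₃
  have hform : ∀ y ∈ V, ∃ c ∈ CC T' K', y = c ∨ y = z * c := fun y hy =>
    C.D_form hz₁ hz₂ (hVQ₁ y hy) (hV4₂ hy)
  have hD₃ := h₃.D
  obtain ⟨y, hyW, hy1, hyz⟩ : ∃ y ∈ wOf K₃, y ≠ 1 ∧ y ≠ z := by
    by_contra hcon
    push Not at hcon
    have hsub : ((wOf K₃ : Subgroup G) : Set G) ⊆ {1, z} := by
      intro y hy
      by_cases hy1 : y = 1
      · exact Or.inl hy1
      · exact Or.inr (hcon y hy hy1)
    have h1 := Set.ncard_le_ncard hsub (Set.toFinite _)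
    have h2 : ({1, z} : Set G).ncard ≤ 2 := Set.ncard_insert_le _ _ |>.trans (by simp)
    have h3 : ((wOf K₃ : Subgroup G) : Set G).ncard = 4 := hD₃.hW4
    omega
  obtain ⟨c₀, hc₀, hc₀e⟩ := hform y (hW₃ hyW)
  have hc₀1 : c₀ ≠ 1 := by
    rintro rfl
    rcases hc₀e with e | e
    · exact hy1 e
    · apply hyz
      rw [e, mul_one]
  have hCu : ∀ c ∈ CC T' K', c = 1 ∨ c = c₀ := by
    intro c hc
    by_cases hc1 : c = 1
    · exact Or.inl hc1
    · exact Or.inr (C.CC_unique hz₁ hz₂ hc hc₀ hc1 hc₀1)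
  have hD : ∀ y ∈ V, y = 1 ∨ y = z ∨ y = c₀ ∨ y = z * c₀ := by
    intro y hy
    obtain ⟨c, hc, he⟩ := hform y hy
    rcases hCu c hc with e1 | e1 <;> rcases he with e2 | e2
    · left; rw [e2, e1]
    · right; left; rw [e2, e1, mul_one]
    · right; right; left; rw [e2, e1]
    · right; right; right; rw [e2, e1]
  have hsubset : ((wOf K₃ : Subgroup G) : Set G) ⊆ {1, z, c₀, z * c₀} := by
    intro y hy
    exact hD y (hW₃ hy)
  have hseq : ((wOf K₃ : Subgroup G) : Set G) = {1, z, c₀, z * c₀} := by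
    apply Set.eq_of_subset_of_ncard_le hsubset _ (Set.toFinite _)
    have h3 : ((wOf K₃ : Subgroup G) : Set G).ncard = 4 := hD₃.hW4
    rw [h3]
    have h4 : ({1, z, c₀, z * c₀} : Set G).ncard ≤ ({z, c₀, z * c₀} : Set G).ncard + 1 := Set.ncard_insert_le _ _
    have h5 : ({z, c₀, z * c₀} : Set G).ncard ≤ ({c₀, z * c₀} : Set G).ncard + 1 := Set.ncard_insert_le _ _
    have h6 : ({c₀, z * c₀} : Set G).ncard ≤ 2 := Set.ncard_insert_le _ _ |>.trans (by simp)
    omega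
  have hzW : z ∈ wOf K₃ := by
    have : z ∈ ((wOf K₃ : Subgroup G) : Set G) := by rw [hseq]; simp
    exact this
  have hcW : c₀ ∈ wOf K₃ := by
    have : c₀ ∈ ((wOf K₃ : Subgroup G) : Set G) := by rw [hseq]; simp
    exact this
  have hVW : V ≤ wOf K₃ := by
    intro y hy
    have : y ∈ ((wOf K₃ : Subgroup G) : Set G) := by
      rw [hseq]
      rcases hD y hy with e | e | e | e <;> simp [e]
    exact this
  -- Step 4
  have hc₀s : c₀ * c₀ = 1 := C.CC_sq hz₁ hz₂ hc₀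
  have hc₀c : ∀ t' ∈ T', t' * c₀ * t'⁻¹ = c₀ := fun t' ht' => C.CC_central hz₁ hz₂ hc₀ ht'
  have hCL : centralizer ({c₀} : Set G) ≤ L' := by
    refine cent_le_norm_zpowers.trans (u'.norm_le (isPGroup_zpowers_of_sq hc₀s) (zpowers_ne_bot hc₀1) ?_ ?_)
    · refine le_trans ?_ cent_le_norm_zpowers
      intro k hk
      exact mem_c1.2 (Subgroup.mem_centralizer_iff.1 hc₀.2 k hk).symm
    · refine le_trans ?_ cent_le_norm_zpowers
      intro j hj
      exact mem_c1.2 (comm_of_conj_eq (hc₀c j (thompson_le T' hj))).symm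
  have hinf : S₂ ⊓ L' = T' :=
    sylow_max hL'.hT inf_le_right (hS₂p.to_le inf_le_left) (le_inf hT' hL'.hT.1)
  have hQ : QQ S₂ K₃ = T' := by
    apply le_antisymm
    · rintro s ⟨hs1, hs2⟩
      rw [← hinf]
      refine ⟨hs1, hCL (mem_c1.2 ?_)⟩
      exact Subgroup.mem_centralizer_iff.1 hs2 c₀ hcW
    · intro t' ht'
      refine ⟨hT' ht', mem_cent_iff.2 ?_⟩
      intro y hy
      rcases hD y (hW₃ hy) with e | e | e | e
      · rw [e]; group
      · rw [e]; exact hz₁.fix t' ht'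
      · rw [e]; exact hc₀c t' ht'
      · rw [e]
        calc t' * (z * c₀) * t'⁻¹ = (t' * z * t'⁻¹) * (t' * c₀ * t'⁻¹) := by group
          _ = z * c₀ := by rw [hz₁.fix t' ht', hc₀c t' ht']
  -- Step 5
  have hTN₃ : TN L₁ S₂ K₃ := by
    refine ⟨h₃, ?_⟩
    intro s hs
    have hsL := hSL hs
    have hsN : s ∈ normalizer ((thompsonSubgroupOf 2 S₂ : Subgroup G) : Set G) :=
      Cfsg.Agent.Lib.PLocal.normalizer_le_normalizer_thompsonOf (p := 2) S₂ (le_normalizer hs)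
    have h' : CompIn L₁ S₂ (cj s K₃) := by
      refine ⟨h₃.hLS, h₃.hT, h₃.hT1, jc_of_norm h₃.hK hsN, ?_⟩
      have := cj_mono (g := s) h₃.hKL
      rwa [cj_eq_of_mem_normalizer (le_normalizer hsL)] at this
    have he : s * z * s⁻¹ ∈ wOf (cj s K₃) := by rw [wOf_cj]; exact conj_mem_cj hzW
    have he1 : s * z * s⁻¹ ≠ 1 := by
      intro he2
      apply hz₁.ne
      have e : s⁻¹ * (s * z * s⁻¹) * s = z := by group
      rw [← e, he2]; group
    have heV : s * z * s⁻¹ ∈ V := W_le_omegaS h' he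
    have heW := hVW heV
    exact mem_normalizer_of_cj_eq (h₃.eq_of_common h' heW he he1 (h₃.W_le_V _ heW))
  -- Step 6
  obtain ⟨x₃, hx₃⟩ := hD₃.exists_x
  have hN₃ : x₃ ∈ normalizer (T' : Set G) := by
    have := hTN₃.K_norm_Q hx₃.mem
    rwa [hQ] at this
  obtain ⟨d', hd', hd'n⟩ := C.exists_u
  have hτ := C.dd_sq hz₁ hz₂ hd hdn hd' hd'n
  have hτT : d * d' ∈ T' := T'.mul_mem hdT (C.c₂.W_le_T hd')
  have hsT : x₃ * (d * d') * x₃⁻¹ ∈ T' := (Subgroup.mem_normalizer_iff.1 hN₃ _).1 hτT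
  have e1 : (x₃ * (d * d') * x₃⁻¹) * (x₃ * (d * d') * x₃⁻¹) = x₃ * z * x₃⁻¹ := by
    rw [← hτ]; group
  rcases C.T_sq hz₁ hz₂ hsT with h1 | h1
  · rw [e1] at h1
    apply hz₁.ne
    have e : x₃⁻¹ * (x₃ * z * x₃⁻¹) * x₃ = z := by group
    rw [← e, h1]; group
  · rw [e1] at h1
    exact hz₁.ne (hD₃.fpf hx₃ hzW h1)

end Cfsg.Agent.Lib.LocalEven2.JC
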