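import Cfsg.Agent.Lib.LocalEven2.JC20
import Cfsg.Agent.Lib.TwoFusion.StrongEmb
import Cfsg.Agent.S2947
import Cfsg.Agent.S2949
import Cfsg.Agent.S2950

/-!
# The second component
-/

set_option autoImplicit false
set_option linter.unusedSectionVars false
set_option linter.unusedVariables false

namespace Cfsg.Agent.Lib.LocalEven2.JC

open Subgroup Cfsg Cfsg.Agent.Lib.PLocal
open Cfsg.Agent.Lib.OddLocal (MaxEA thompsonSubgroupOf_eq le_thompsonSubgroupOf MaxEA_nonempty isElementaryAbelian_map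
  isElementaryAbelian_subgroupOf mem_of_MaxEA)
open Cfsg.Agent.Lib.LocalEven (cj cj_mul cj_inv_cj cj_cj_inv le_cj_iff cj_mono isPGroup_cj cj_eq_of_mem_normalizer mem_cj
  conj_mem_cj card_cj mem_normalizer_of_cj_eq)
open scoped commutatorElement

variable {G : Type*} [Group G] [Finite G]

theorem order_two_of_sq {w : G} (hw : w * w = 1) (hw1 : w ≠ 1) : orderOf w = 2 := by
  apply orderOf_eq_prime
  · rw [pow_two]; exact hw
  · exact hw1

/-- The overgroup of a component is not strongly embedded. -/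
theorem CompIn.not_strong {L T K : Subgroup G} (h : CompIn L T K) : ¬ IsStronglyEmbedded L := by
  intro hE
  have D := h.D
  obtain ⟨g, hg⟩ : ∃ g, g ∉ L := by
    by_contra hall
    push Not at hall
    exact hE.1 (eq_top_iff.2 fun x _ => hall x)
  obtain ⟨w, hw, hw1, -⟩ := D.exists_w0
  have hwL : w ∈ L := CompIn.W_le h.hKL hw
  have hws : w * w = 1 := D.hW2 w hw
  have hwo : orderOf w = 2 := order_two_of_sq hws hw1
  set u := g * w * g⁻¹ with hu
  have huo : orderOf u = 2 := by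
    rw [hu]
    have := orderOf_injective (MulAut.conj g).toMonoidHom (MulAut.conj g).injective w
    simpa [hwo] using this
  have huL : u ∉ L := by
    intro hmem
    apply hg
    refine Cfsg.Agent.Lib.TwoFusion.mem_of_involution hE huo hmem ?_
    have e : g⁻¹ * u * g = w := by rw [hu]; group
    rw [e]; exact hwL
  have hwQ : w ∈ pCoreOf 2 L := omegaS_le h.hLS (W_le_omegaS h hw)
  have hinv : ∀ s ∈ L, s * s = 1 → s ∈ pCoreOf 2 L := by
    intro s hs hss
    by_cases hs1 : s = 1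
    · rw [hs1]; exact one_mem _
    have hso : orderOf s = 2 := order_two_of_sq hss hs1
    obtain ⟨d, hd, -, -, e⟩ := Cfsg.Agent.Lib.TwoFusion.exists_conj_inverted hE huo huL hwo hwL hso hs
    rw [← e]
    exact (Subgroup.mem_normalizer_iff.1 (Cfsg.Agent.Lib.LocalEven.le_normalizer_pCoreOf L hd) w).1 hwQ
  have hJ : thompsonSubgroupOf 2 T ≤ pCoreOf 2 L := by
    rw [thompsonSubgroupOf_eq]
    refine sSup_le fun A hA => ?_
    intro a ha
    refine hinv a (h.hT.1 (hA.1 ha)) ?_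
    have := (isEA_iff.1 hA.2.1).2 a ha
    rwa [pow_two] at this
  apply D.J_not_le_CW
  intro j hj
  refine ⟨Subgroup.mem_sup_right hj, Subgroup.mem_centralizer_iff.2 fun v hv => ?_⟩
  obtain ⟨v', hv', rfl⟩ := W_le_omegaS h hv
  exact ((V_facts h.hLS hv').2.1 j (hJ hj)).symm

/-- Existence of lexicographically maximal straddling subgroups. -/
theorem exists_maxStraddling {M : Subgroup G} (hne : (straddlingTwoSubgroups M).Nonempty) :
    (maxStraddlingTwoSubgroups M).Nonempty := by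
  classical
  set S := straddlingTwoSubgroups M with hS
  have hfin : ∀ X : Set (Subgroup G), X.Finite := fun X => Set.toFinite X
  obtain ⟨T₀, hT₀, h₀⟩ := Set.exists_max_image S (fun T => maxElemAbelianOrder T) (hfin _) hne
  set S₁ := {T | T ∈ S ∧ maxElemAbelianOrder T = maxElemAbelianOrder T₀} with hS₁
  have hne₁ : S₁.Nonempty := ⟨T₀, hT₀, rfl⟩
  obtain ⟨T₁, hT₁, h₁⟩ := Set.exists_max_image S₁ (fun T => Nat.card ↥(thompsonSubgroupOf 2 T)) (hfin _) hne₁
  set S₂ := {T | T ∈ S₁ ∧ Nat.card ↥(thompsonSubgroupOf 2 T) = Nat.card ↥(thompsonSubgroupOf 2 T₁)} with hS₂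
  have hne₂ : S₂.Nonempty := ⟨T₁, hT₁, rfl⟩
  obtain ⟨T₂, hT₂, h₂⟩ := Set.exists_max_image S₂ (fun T => Nat.card ↥T) (hfin _) hne₂
  refine ⟨T₂, hT₂.1.1, fun T hT => ⟨?_, fun ha => ⟨?_, fun hj => ?_⟩⟩⟩
  · rw [hT₂.1.2]; exact h₀ T hT
  · rw [hT₂.2]
    exact h₁ T ⟨hT, ha.trans hT₂.1.2⟩
  · exact h₂ T ⟨⟨hT, ha.trans hT₂.1.2⟩, hj.trans hT₂.2⟩

section main

variable (hL : IsCharacteristicTwoType G) (hN : ∀ N : Subgroup G, IsTwoLocal N → Group.IsSolvable ↥N)
  (hZ : ∀ S : Sylow 2 G, centralizer (omegaCenterOf (S : Subgroup G) : Set G) ≤ normalizer ((S : Subgroup G) : Set G))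
  (hO : pCore 2 G = ⊥)

include hL hN hZ hO

theorem exists_uq (S : Sylow 2 G) (M : Subgroup G) (hM : IsTwoLocal M)
    (hMJ : normalizer (thompsonSubgroupOf 2 (S : Subgroup G) : Set G) ≤ M) {T K : Subgroup G}
    (hT : T ∈ maxStraddlingTwoSubgroups M) (hK : K ∈ jComponentsOutside M T) :
    ∃ L, CompIn L T K ∧ Uq (thompsonSubgroupOf 2 T) K L := by
  obtain ⟨L, hLm, hle, huq, -, hsyl⟩ := Cfsg.Agent.S2950.result hL hN hZ hO S M hM hMJ T hT K hK
  exact ⟨L, ⟨LS_of_two_local hL hN hZ hLm.1, hsyl, hT.1.2.1, hK.1.1, le_sup_left.trans hle⟩, ⟨hLm, hle, huq⟩⟩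

end main

/-- When a second overgroup exists, the involutions of `Z(J)` are central in `T`. -/
theorem Pair.omega_eq {T K₁ K₂ L₁ L₂ : Subgroup G} (c : TN L₁ T K₁)
    (P : Pair (thompsonSubgroupOf 2 T) K₁ K₂ L₁ L₂) :
    omegaCenterOf (thompsonSubgroupOf 2 T) = omegaCenterOf T := by
  set J := thompsonSubgroupOf 2 T with hJ
  obtain ⟨a, haf⟩ := c.exists_fix
  have ha0 := c.fix_mem haf
  have hJN : T ≤ normalizer (J : Set G) :=
    le_normalizer.trans (Cfsg.Agent.Lib.PLocal.normalizer_le_normalizer_thompsonOf (p := 2) T)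
  apply le_antisymm
  · intro y hy
    obtain ⟨hyJ, hyc, hys⟩ := mem_omegaCenterOf.1 hy
    refine mem_omegaCenterOf.2 ⟨thompson_le T hyJ, Subgroup.mem_centralizer_iff.2 fun t ht => ?_, hys⟩
    obtain ⟨v, hv, hvc, he⟩ := P.D₁.dec ha0 haf.ne hy
    have hfv : t * v * t⁻¹ = v := by
      by_cases hv1 : v = 1
      · rw [hv1]; group
      have hv' : t * v * t⁻¹ ∈ omegaCenterOf J := omegaCenterOf_conj (hJN ht) hv
      have hvc' : K₁ ≤ centralizer ({t * v * t⁻¹} : Set G) := by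
        intro k hk
        apply mem_c1.2
        have hk' : t⁻¹ * k * t ∈ K₁ := by
          have := (Subgroup.mem_normalizer_iff.1 ((normalizer (K₁ : Set G)).inv_mem (c.hN ht)) k).1 hk
          simpa using this
        have h1 : Commute v (t⁻¹ * k * t) := mem_c1.1 (hvc hk')
        have h2 := h1.eq
        calc t * v * t⁻¹ * k = t * (v * (t⁻¹ * k * t)) * t⁻¹ := by group
          _ = t * ((t⁻¹ * k * t) * v) * t⁻¹ := by rw [h2]
          _ = k * (t * v * t⁻¹) := by group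
      rcases P.key ha0 haf.ne hv hv1 hvc hv' hvc' with e | e
      · exfalso
        apply hv1
        have : v = t⁻¹ * (t * v * t⁻¹) * t := by group
        rw [this, e]; group
      · exact e
    have hfa : t * a * t⁻¹ = a := haf.fix t ht
    rcases he with e | e
    · rw [e]; exact comm_of_conj_eq hfv
    · rw [e]
      have e2 : t * (v * a) * t⁻¹ = v * a := by
        calc t * (v * a) * t⁻¹ = (t * v * t⁻¹) * (t * a * t⁻¹) := by group
          _ = v * a := by rw [hfv, hfa]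
      exact comm_of_conj_eq e2
  · intro z hz
    obtain ⟨hzT, hzc, hzs⟩ := mem_omegaCenterOf.1 hz
    obtain ⟨A, hA⟩ := MaxEA_nonempty 2 T
    have hzA : z ∈ A := mem_of_MaxEA hA hzT (by rw [pow_two]; exact hzs) (fun b hb =>
      (Subgroup.mem_centralizer_iff.1 hzc b (hA.1 hb)).symm)
    refine mem_omegaCenterOf.2 ⟨le_thompsonSubgroupOf hA hzA, Subgroup.mem_centralizer_iff.2 fun j hj => ?_, hzs⟩
    exact Subgroup.mem_centralizer_iff.1 hzc j (thompson_le T hj)

section main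

variable (hL : IsCharacteristicTwoType G) (hN : ∀ N : Subgroup G, IsTwoLocal N → Group.IsSolvable ↥N)
  (hZ : ∀ S : Sylow 2 G, centralizer (omegaCenterOf (S : Subgroup G) : Set G) ≤ normalizer ((S : Subgroup G) : Set G))
  (hO : pCore 2 G = ⊥)

include hL hN hZ hO

set_option maxHeartbeats 1000000 in
theorem second_comp {T K₁ L₁ : Subgroup G} (h₁ : CompIn L₁ T K₁) (u₁ : Uq (thompsonSubgroupOf 2 T) K₁ L₁) :
    ∃ K₂ L₂, Config T K₁ K₂ L₁ L₂ := by
  classical
  haveI : Fact (Nat.Prime 2) := ⟨Nat.prime_two⟩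
  have hTp : IsPGroup 2 T := h₁.hT.2.1
  obtain ⟨S', hS'⟩ := hTp.exists_le_sylow
  by_cases hne : T = (S' : Subgroup G)
  swap
  · obtain ⟨t, htS, htT, htN⟩ := Cfsg.Agent.Lib.PGroups.exists_mem_normalizer_of_lt S'.isPGroup'
      (lt_of_le_of_ne hS' hne)
    have htN' : t ∈ normalizer (T : Set G) := Cfsg.Agent.Lib.Coprime.mem_normalizer_of_conj_le _ _ htN
    have htL : t ∉ L₁ := by
      intro ht
      have hRp : IsPGroup 2 (T ⊔ zpowers t : Subgroup G) :=
        S'.isPGroup'.to_le (sup_le hS' ((Subgroup.zpowers_le).2 htS))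
      have := sylow_max h₁.hT (sup_le h₁.hT.1 ((Subgroup.zpowers_le).2 ht)) hRp le_sup_left
      apply htT
      rw [← this]
      exact Subgroup.mem_sup_right (Subgroup.mem_zpowers t)
    exact ⟨_, _, config_of_norm h₁ u₁ htN' htL⟩
  by_cases hn : normalizer ((thompsonSubgroupOf 2 T : Subgroup G) : Set G) ≤ L₁
  · -- case (ii)
    have hM₁ : IsTwoLocal L₁ := u₁.m.1
    have hMJ₁ : normalizer (thompsonSubgroupOf 2 (S' : Subgroup G) : Set G) ≤ L₁ := by rw [← hne]; exact hn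
    have hns : straddlingTwoSubgroups L₁ ≠ ∅ := fun he =>
      h₁.not_strong ((Cfsg.Agent.S2947.result hL hN hZ hO S' L₁ hM₁ hMJ₁).2 he)
    obtain ⟨T', hT'⟩ := exists_maxStraddling (Set.nonempty_iff_ne_empty.2 hns)
    obtain ⟨K', hK'⟩ := Cfsg.Agent.S2949.result hL hN hZ hO S' L₁ hM₁ hMJ₁ T' hT'
    obtain ⟨L', hL', u'⟩ := exists_uq hL hN hZ hO S' L₁ hM₁ hMJ₁ hT' hK'
    have hT'L : T' ≤ L₁ := hT'.1.2.2.1
    have hT'p : IsPGroup 2 T' := hT'.1.1
    obtain ⟨S₂, hS₂, hT'S₂⟩ := Data.exists_sylowIn hT'L hT'p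
    obtain ⟨l, hl, hS₂e⟩ := exists_conj_of_sylowIn h₁.hT hS₂
    have hlL : cj l L₁ = L₁ := cj_eq_of_mem_normalizer (le_normalizer hl)
    have hS₂1 : S₂ ≠ ⊥ := by
      intro he
      rw [he, le_bot_iff] at hT'S₂
      exact hT'.1.2.1 hT'S₂
    have h₃ : CompIn L₁ S₂ (cj l K₁) :=
      ⟨h₁.hLS, hS₂, hS₂1, by rw [hS₂e]; exact jc_cj l h₁.hK, by rw [← hlL]; exact cj_mono h₁.hKL⟩
    have heq : T' = S₂ := by
      by_contra hne'
      exact no_star h₃ hT'S₂ hne' hL' u'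
    subst heq
    have hTe : cj l⁻¹ T' = T := by rw [hS₂e, cj_inv_cj]
    have u₂ : Uq (thompsonSubgroupOf 2 T) (cj l⁻¹ K') (cj l⁻¹ L') := by
      have := u'.cj_gen l⁻¹
      rwa [← thompson_cj, hTe] at this
    have h₂ : CompIn (cj l⁻¹ L') T (cj l⁻¹ K') := by
      refine ⟨LS_of_two_local hL hN hZ u₂.m.1, ?_, h₁.hT1, ?_, cj_mono hL'.hKL⟩
      · have := isSylowTwoIn_cj l⁻¹ hL'.hT
        rwa [hTe] at this
      · have := jc_cj l⁻¹ hL'.hK
        rwa [hTe] at this
    have hn₁ : ¬ cj l⁻¹ K' ≤ L₁ := by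
      intro hle
      apply hK'.2.1
      have := cj_mono (g := l) hle
      rwa [cj_cj_inv, hlL] at this
    have hLne : L₁ ≠ cj l⁻¹ L' := fun he => hn₁ (he ▸ h₂.hKL)
    have hn₂ : ¬ K₁ ≤ cj l⁻¹ L' := by
      intro hle
      exact hLne (u₁.u _ u₂.m (sup_le hle (le_sup_right.trans u₂.le))).symm
    exact ⟨_, _, ⟨⟨h₁, TN_of_second h₁ h₂ u₁ u₂ hLne⟩, ⟨h₂, TN_of_second h₂ h₁ u₂ u₁ hLne.symm⟩, u₁, u₂, hn₁, hn₂⟩⟩
  · -- case (i)
    obtain ⟨n, hnJ, hnL⟩ := Set.not_subset.1 hn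
    have c₁ : TN L₁ T K₁ := ⟨h₁, TN_of_conj h₁ u₁ hnJ hnL⟩
    have hLg : L₁ ≠ cj n L₁ := by
      intro he
      exact hnL (norm_self h₁.hLS u₁.m (mem_normalizer_of_cj_eq he.symm))
    have P : Pair (thompsonSubgroupOf 2 T) K₁ (cj n K₁) L₁ (cj n L₁) :=
      ⟨h₁.D, Data.of h₁.hT.2.1 (jc_of_norm h₁.hK hnJ), u₁, u₁.cj_of hnJ, hLg⟩
    have hZ₀ := P.omega_eq c₁
    have hC : centralizer (omegaCenterOf (thompsonSubgroupOf 2 T) : Set G) ≤ normalizer (T : Set G) := by
      rw [hZ₀]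
      have := hZ S'
      rwa [← hne] at this
    have hle : cj n T ≤ normalizer (T : Set G) := by
      refine le_trans ?_ hC
      rintro _ ⟨t, ht, rfl⟩
      refine Subgroup.mem_centralizer_iff.2 fun z hz => ?_
      have hz' : n⁻¹ * z * n ∈ omegaCenterOf (thompsonSubgroupOf 2 T) := by
        have := omegaCenterOf_conj ((normalizer _).inv_mem hnJ) hz
        simpa using this
      rw [hZ₀] at hz'
      have h2 := (mem_omegaCenterOf.1 hz').2.1
      have h3 := Subgroup.mem_centralizer_iff.1 h2 t ht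
      show z * (n * t * n⁻¹) = (n * t * n⁻¹) * z
      calc z * (n * t * n⁻¹) = n * ((n⁻¹ * z * n) * t) * n⁻¹ := by group
        _ = n * (t * (n⁻¹ * z * n)) * n⁻¹ := by rw [← h3]
        _ = _ := by group
    have hRp : IsPGroup 2 (T ⊔ cj n T : Subgroup G) :=
      IsPGroup.to_sup_of_normal_left' hTp (isPGroup_cj hTp n) hle
    have hR : T ⊔ cj n T = T := by
      have h5 : (T ⊔ cj n T : Subgroup G) = (S' : Subgroup G) :=
        S'.is_maximal' hRp (by rw [← hne]; exact le_sup_left)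
      rw [h5]; exact hne.symm
    have hnle : cj n T ≤ T := le_sup_right.trans hR.le
    have hcj : cj n T = T := Subgroup.eq_of_le_of_card_ge hnle (card_cj n T).ge
    have hnT : n ∈ normalizer (T : Set G) := mem_normalizer_of_cj_eq hcj
    exact ⟨_, _, config_of_norm h₁ u₁ hnT hnL⟩

end main

end Cfsg.Agent.Lib.LocalEven2.JC
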