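import Cfsg.Agent.Lib.LocalEven2.JC21

/-!
# The groups `K ⊔ T`
-/

set_option autoImplicit false
set_option linter.unusedSectionVars false
set_option linter.unusedVariables false

namespace Cfsg.Agent.Lib.LocalEven2.JC

open Subgroup Cfsg Cfsg.Agent.Lib.PLocal
open Cfsg.Agent.Lib.OddLocal (MaxEA thompsonSubgroupOf_eq le_thompsonSubgroupOf MaxEA_nonempty isElementaryAbelian_map
  isElementaryAbelian_subgroupOf mem_of_MaxEA)
open Cfsg.Agent.Lib.LocalEven (cj cj_mul cj_inv_cj cj_cj_inv le_cj_iff cj_mono isPGroup_cj cj_eq_of_mem_normalizer mem_cj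
  conj_mem_cj card_cj mem_normalizer_of_cj_eq)
open scoped commutatorElement

variable {G : Type*} [Group G] [Finite G]

theorem relIndex_eq_two {A A₁ : Subgroup G} (h : A₁ ≤ A)
    (hm : ∀ a ∈ A, ∀ b ∈ A, a ∉ A₁ → b ∉ A₁ → a * b ∈ A₁) {t : G} (ht : t ∈ A) (ht1 : t ∉ A₁) :
    A₁.relIndex A = 2 := by
  have h1 := card_le_two_mul_of_mul_mem h hm
  have h2 := Cfsg.Agent.Lib.LocalEven2.card_mul_relIndex_of_le h
  have hpos : 0 < Nat.card A₁ := Nat.card_pos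
  have h3 : A₁.relIndex A ≠ 1 := fun he => ht1 (Subgroup.relIndex_eq_one.1 he ht)
  have h4 : A₁.relIndex A ≠ 0 := Cfsg.Agent.Lib.LocalEven2.relIndex_ne_zero_of_finite' _ _
  have h5 : A₁.relIndex A ≤ 2 := by
    by_contra hc
    push Not at hc
    have : Nat.card A₁ * 3 ≤ Nat.card A₁ * A₁.relIndex A := Nat.mul_le_mul_left _ hc
    nlinarith
  omega

theorem x_sq_inv {x : G} (h3 : x ^ 3 = 1) : x⁻¹ * x⁻¹ = x := by
  have h : x * x * x = 1 := by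
    rw [← h3, pow_succ, pow_two]
  calc x⁻¹ * x⁻¹ = x⁻¹ * x⁻¹ * (x * x * x) := by rw [h, mul_one]
    _ = x := by group

namespace TN

variable {L T K : Subgroup G} (c : TN L T K)
include c

theorem cent_of_comm {x t : G} (hx : Data.IsX K x) (ht : t ∈ T)
    (hc : t * x * t⁻¹ * x⁻¹ ∈ centralizer (wOf K : Set G)) : t ∈ centralizer (wOf K : Set G) := by
  by_contra htc
  obtain ⟨o, ho, e⟩ := c.conj_x_of_not hx ht htc
  have hoc : o ∈ centralizer (wOf K : Set G) := Data.O_le_cent ho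
  have hxN : x ∈ normalizer ((wOf K : Subgroup G) : Set G) := Data.W_norm (le_normalizer hx.mem)
  have h1 : x * (t * x * t⁻¹ * x⁻¹) * x⁻¹ ∈ centralizer (wOf K : Set G) := Data.conj_mem_centralizer hxN hc
  have e2 : x * (t * x * t⁻¹ * x⁻¹) * x⁻¹ = o * x := by
    rw [e]
    calc x * (x⁻¹ * o * x⁻¹) * x⁻¹ = o * (x⁻¹ * x⁻¹) := by group
      _ = o * x := by rw [x_sq_inv hx.pow3]
  rw [e2] at h1
  have hxc : x ∈ centralizer (wOf K : Set G) := by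
    have := (centralizer (wOf K : Set G)).mul_mem ((centralizer (wOf K : Set G)).inv_mem hoc) h1
    simpa using this
  exact c.D.x_not_cent hx hxc

theorem P_le : K ⊔ T ≤ L := sup_le c.h.hKL c.h.hT.1

theorem syl_P : IsSylowTwoIn T (K ⊔ T) := by
  refine ⟨le_sup_right, c.h.hT.2.1, ?_⟩
  have h1 := Subgroup.relIndex_mul_relIndex T (K ⊔ T) L le_sup_right c.P_le
  have h2 := c.h.hT.2.2
  rw [← h1] at h2
  exact (Nat.odd_mul.1 h2).1

theorem core_eq : pCoreOf 2 (K ⊔ T) = QQ T K := by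
  apply le_antisymm
  · intro r hr
    have hrT : r ∈ T := Q_le_T c.syl_P hr
    refine ⟨hrT, ?_⟩
    obtain ⟨x, hx⟩ := c.D.exists_x
    apply c.cent_of_comm hx hrT
    have hxP : x ∈ K ⊔ T := Subgroup.mem_sup_left hx.mem
    have h1 : r * x * r⁻¹ * x⁻¹ ∈ K :=
      K.mul_mem ((Subgroup.mem_normalizer_iff.1 (c.hN hrT) x).1 hx.mem) (K.inv_mem hx.mem)
    have h2 : r * x * r⁻¹ * x⁻¹ ∈ pCoreOf 2 (K ⊔ T) := by
      have := (Subgroup.mem_normalizer_iff.1 (Cfsg.Agent.Lib.LocalEven.le_normalizer_pCoreOf (K ⊔ T) hxP) r⁻¹).1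
        ((pCoreOf 2 (K ⊔ T)).inv_mem hr)
      have e : r * x * r⁻¹ * x⁻¹ = r * (x * r⁻¹ * x⁻¹) := by group
      rw [e]
      exact (pCoreOf 2 (K ⊔ T)).mul_mem hr this
    have hAL : pCoreOf 2 (K ⊔ T) ⊓ K ≤ K := inf_le_right
    have hn : K ≤ normalizer ((pCoreOf 2 (K ⊔ T) ⊓ K : Subgroup G) : Set G) := by
      intro k hk
      apply Cfsg.Agent.Lib.Coprime.mem_normalizer_of_conj_le
      rintro y ⟨hy1, hy2⟩
      refine ⟨?_, K.mul_mem (K.mul_mem hk hy2) (K.inv_mem hk)⟩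
      exact (Subgroup.mem_normalizer_iff.1
        (Cfsg.Agent.Lib.LocalEven.le_normalizer_pCoreOf (K ⊔ T) (Subgroup.mem_sup_left hk)) y).1 hy1
    have hAp : IsPGroup 2 (pCoreOf 2 (K ⊔ T) ⊓ K : Subgroup G) :=
      (Cfsg.Agent.Lib.LocalEven.pCoreOf_isPGroup (K ⊔ T)).to_le inf_le_left
    have h3 : r * x * r⁻¹ * x⁻¹ ∈ pCoreOf 2 K :=
      ⟨⟨_, h1⟩, Cfsg.Agent.Lib.LocalEven2.mem_pCore_subgroup hAL hn hAp ⟨h2, h1⟩, rfl⟩
    exact Data.O_le_cent h3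
  · intro q hq
    have hQP : QQ T K ≤ K ⊔ T := inf_le_left.trans le_sup_right
    exact ⟨⟨q, hQP hq⟩, Cfsg.Agent.Lib.LocalEven2.mem_pCore_subgroup hQP c.KT_norm_Q c.Q_p hq, rfl⟩

theorem cent_Q : centralizer (QQ T K : Set G) ≤ QQ T K := by
  have h1 : centralizer (QQ T K : Set G) ≤ centralizer (pCoreOf 2 L : Set G) :=
    Subgroup.centralizer_le c.O2L_le_Q
  exact h1.trans (c.h.hLS.hc.trans c.O2L_le_Q)

theorem relIndex_Q_T : (QQ T K).relIndex T = 2 := by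
  obtain ⟨j, hj, hjn⟩ := c.exists_J_not
  refine relIndex_eq_two inf_le_left ?_ (thompson_le T hj) (fun hm => hjn hm.2)
  intro a ha b hb hna hnb
  have ha' : a ∉ centralizer (wOf K : Set G) := fun hm => hna ⟨ha, hm⟩
  have hb' : b ∉ centralizer (wOf K : Set G) := fun hm => hnb ⟨hb, hm⟩
  exact ⟨T.mul_mem ha hb, c.two ha hb ha' hb'⟩

theorem relIndex_T_P : T.relIndex (K ⊔ T) = 3 := by
  classical
  obtain ⟨x, hx⟩ := c.D.exists_x
  have hxT : x ∉ T := by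
    intro hm
    have : x = 1 := Data.eq_one_of_odd c.h.hT.2.1 hm (by
      have h3 : orderOf x ∣ 3 := orderOf_dvd_of_pow_eq_one hx.pow3
      have : Odd 3 := by decide
      exact this.of_dvd_nat h3)
    exact hx.notMem (this ▸ Subgroup.one_mem _)
  have h1 : T.relIndex (K ⊔ T) ≠ 1 := fun he =>
    hxT (Subgroup.relIndex_eq_one.1 he (Subgroup.mem_sup_left hx.mem))
  have h2 := c.syl_P.2.2
  have hle : T.relIndex (K ⊔ T) ≤ 3 := by
    show (T.subgroupOf (K ⊔ T)).index ≤ 3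
    rw [Subgroup.index]
    have hxP : x ∈ K ⊔ T := Subgroup.mem_sup_left hx.mem
    let f : Fin 3 → ↥(K ⊔ T) ⧸ T.subgroupOf (K ⊔ T) := fun i =>
      QuotientGroup.mk (![(1 : ↥(K ⊔ T)), ⟨x, hxP⟩, ⟨x⁻¹, (K ⊔ T).inv_mem hxP⟩] i)
    have hf : Function.Surjective f := by
      intro q
      obtain ⟨p, rfl⟩ := QuotientGroup.mk_surjective q
      obtain ⟨k, hk, t, ht, hp⟩ := Cfsg.Agent.Lib.OddLocal.mem_sup_of_le_normalizer c.hN p.2
      have hkT : ∀ y : ↥(K ⊔ T), ∀ o ∈ pCoreOf 2 K, (y : G) * o * t = p → (QuotientGroup.mk p : ↥(K ⊔ T) ⧸ T.subgroupOf (K ⊔ T)) = QuotientGroup.mk y := by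
        intro y o ho he
        refine (QuotientGroup.eq.2 ?_).symm
        rw [Subgroup.mem_subgroupOf]
        have : ((y⁻¹ * p : ↥(K ⊔ T)) : G) = o * t := by
          rw [Subgroup.coe_mul, Subgroup.coe_inv, ← he]; group
        rw [this]
        exact T.mul_mem (c.O_le_T ho) ht
      rcases hx.tri k hk with h | h | h
      · refine ⟨0, (hkT 1 k h ?_).symm⟩
        simpa using hp
      · refine ⟨2, (hkT ⟨x⁻¹, (K ⊔ T).inv_mem hxP⟩ (x * k) h ?_).symm⟩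
        simp only [Subgroup.coe_mk]
        rw [← hp]; group
      · refine ⟨1, (hkT ⟨x, hxP⟩ (x⁻¹ * k) h ?_).symm⟩
        simp only [Subgroup.coe_mk]
        rw [← hp]; group
    have := Nat.card_le_card_of_surjective f hf
    simpa using this
  have h0 : T.relIndex (K ⊔ T) ≠ 2 := by
    intro he
    rw [he] at h2
    exact absurd h2 (by decide)
  have h00 : T.relIndex (K ⊔ T) ≠ 0 := Cfsg.Agent.Lib.LocalEven2.relIndex_ne_zero_of_finite' _ _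
  omega

theorem relIndex_Q_P : (QQ T K).relIndex (K ⊔ T) = 6 := by
  have h := Subgroup.relIndex_mul_relIndex (QQ T K) T (K ⊔ T) inf_le_left le_sup_right
  rw [c.relIndex_Q_T, c.relIndex_T_P] at h
  omega

theorem not_comm_le : ¬ ⁅K ⊔ T, K ⊔ T⁆ ≤ QQ T K := by
  intro hle
  obtain ⟨x, hx⟩ := c.D.exists_x
  obtain ⟨j, hj, hjn⟩ := c.exists_J_not
  have hjT := thompson_le T hj
  apply hjn
  apply c.cent_of_comm hx hjT
  have : ⁅j, x⁆ ∈ ⁅K ⊔ T, K ⊔ T⁆ :=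
    Subgroup.commutator_mem_commutator (Subgroup.mem_sup_right hjT) (Subgroup.mem_sup_left hx.mem)
  exact (hle this).2

theorem fix_omega {a : G} (ha : IsFix T K a) : a ∈ omegaCenterOf T :=
  mem_omegaCenterOf.2 ⟨c.W_le_T ha.mem, mem_cent_iff.2 fun t ht => by
    have h3 := comm_of_conj_eq (ha.fix t ht)
    rw [← h3]; group, c.sq ha.mem⟩

theorem omega_comm : ⁅omegaCenterOf T, K ⊔ T⁆ ≠ ⊥ := by
  intro he
  obtain ⟨a, ha⟩ := c.exists_fix
  obtain ⟨x, hx⟩ := c.D.exists_x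
  have h1 : ⁅a, x⁆ ∈ ⁅omegaCenterOf T, K ⊔ T⁆ :=
    Subgroup.commutator_mem_commutator (c.fix_omega ha) (Subgroup.mem_sup_left hx.mem)
  rw [he, Subgroup.mem_bot] at h1
  have h2 : a * x * a⁻¹ * x⁻¹ = 1 := h1
  have h3 : a * x = x * a := by
    have := mul_inv_eq_one.1 h2
    exact (mul_inv_eq_iff_eq_mul.1 this)
  apply ha.ne
  apply c.D.fpf hx ha.mem
  rw [← h3]; group

theorem P_facts (u : Uq (thompsonSubgroupOf 2 T) K L) :
    centralizer (pCoreOf 2 (K ⊔ T) : Set G) ≤ pCoreOf 2 (K ⊔ T) ∧ IsSylowTwoIn T (K ⊔ T) ∧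
      (pCoreOf 2 (K ⊔ T)).relIndex (K ⊔ T) = 6 ∧ ¬ ⁅K ⊔ T, K ⊔ T⁆ ≤ pCoreOf 2 (K ⊔ T) ∧
      ⁅omegaCenterOf T, K ⊔ T⁆ ≠ ⊥ ∧
      ∃ L₀ : Subgroup G, IsMaximalTwoLocal L₀ ∧ K ⊔ T ≤ L₀ ∧ IsSylowTwoIn T L₀ ∧
        ∀ L' : Subgroup G, IsMaximalTwoLocal L' → K ⊔ T ≤ L' → L' = L₀ := by
  rw [c.core_eq]
  refine ⟨c.cent_Q, c.syl_P, c.relIndex_Q_P, c.not_comm_le, c.omega_comm, L, u.m, c.P_le, c.h.hT, ?_⟩
  intro L' hL' hle
  refine u.u L' hL' (sup_le (le_sup_left.trans hle) ((thompson_le T).trans (le_sup_right.trans hle)))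

end TN

theorem Config.core_bot {T K₁ K₂ L₁ L₂ : Subgroup G} (C : Config T K₁ K₂ L₁ L₂) :
    pCoreOf 2 ((K₁ ⊔ T) ⊔ (K₂ ⊔ T)) = ⊥ := by
  by_contra hne
  have hle := Cfsg.Agent.Lib.LocalEven.le_normalizer_pCoreOf (p := 2) ((K₁ ⊔ T) ⊔ (K₂ ⊔ T))
  refine C.no_normal (Cfsg.Agent.Lib.LocalEven.pCoreOf_isPGroup _) hne ?_ ?_ ?_
  · exact (le_sup_left.trans le_sup_left).trans hle
  · exact (le_sup_left.trans le_sup_right).trans hle
  · exact ((thompson_le T).trans (le_sup_right.trans le_sup_left)).trans hle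

end Cfsg.Agent.Lib.LocalEven2.JC
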