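import Cfsg.Agent.Lib.LocalEven2.JC22

/-!
# The central involutions
-/

set_option autoImplicit false
set_option linter.unusedSectionVars false
set_option linter.unusedVariables false

namespace Cfsg.Agent.Lib.LocalEven2.JC

open Subgroup Cfsg Cfsg.Agent.Lib.PLocal
open Cfsg.Agent.Lib.OddLocal (MaxEA thompsonSubgroupOf_eq le_thompsonSubgroupOf MaxEA_nonempty isElementaryAbelian_map
  isElementaryAbelian_subgroupOf mem_of_MaxEA)
open Cfsg.Agent.Lib.LocalEven (cj cj_mul cj_inv_cj cj_cj_inv le_cj_iff cj_mono isPGroup_cj cj_eq_of_mem_normalizer mem_cj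
  conj_mem_cj card_cj mem_normalizer_of_cj_eq)
open scoped commutatorElement

variable {G : Type*} [Group G] [Finite G]

theorem exists_central_inv {S : Subgroup G} (hS : IsPGroup 2 S) (h1 : S ≠ ⊥) : ∃ z ∈ omegaCenterOf S, z ≠ 1 := by
  classical
  haveI : Fact (Nat.Prime 2) := ⟨Nat.prime_two⟩
  have hd : 2 ∣ Nat.card S := by
    rcases hS.card_eq_or_dvd with h | h
    · exact absurd ((Subgroup.card_eq_one).1 h) h1
    · exact h
  obtain ⟨w₀, hw, hw1, hf⟩ := exists_fixed_W hS le_normalizer hd
  set Z : Subgroup G := S ⊓ centralizer (S : Set G) with hZ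
  have hZp : IsPGroup 2 Z := hS.to_le inf_le_left
  have hw₀Z : w₀ ∈ Z := ⟨hw, mem_cent_iff.2 fun t ht => by
    have h3 := comm_of_conj_eq (hf t ht)
    rw [← h3]; group⟩
  have hZ1 : Z ≠ ⊥ := fun he => hw1 (by rw [he] at hw₀Z; exact Subgroup.mem_bot.1 hw₀Z)
  have hdZ : 2 ∣ Nat.card Z := by
    rcases hZp.card_eq_or_dvd with h | h
    · exact absurd ((Subgroup.card_eq_one).1 h) hZ1
    · exact h
  obtain ⟨y, hy⟩ := exists_prime_orderOf_dvd_card' 2 hdZ
  refine ⟨y, mem_omegaCenterOf.2 ⟨y.2.1, y.2.2, ?_⟩, ?_⟩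
  · have h2 : y ^ 2 = 1 := by rw [← hy]; exact pow_orderOf_eq_one y
    have h3 : (y : G) ^ 2 = 1 := by
      have := congrArg Subtype.val h2
      simpa using this
    rwa [pow_two] at h3
  · intro he
    have : y = 1 := Subtype.ext he
    rw [this, orderOf_one] at hy
    omega

theorem card_two_of {V : Subgroup G} {a : G} (ha : a ∈ V) (ha1 : a ≠ 1) (h : ∀ y ∈ V, y = 1 ∨ y = a) :
    Nat.card V = 2 := by
  have e : (V : Set G) = {1, a} := by
    ext y
    constructor
    · intro hy
      simpa using h y hy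
    · rintro (rfl | rfl)
      · exact V.one_mem
      · exact ha
  have e2 : Nat.card V = Nat.card ↥(V : Set G) := rfl
  rw [e2, e, Nat.card_coe_set_eq, Set.ncard_pair ha1.symm]

theorem card_four_of {V : Subgroup G} {a b : G} (ha : a ∈ V) (hb : b ∈ V) (ha1 : a ≠ 1) (hb1 : b ≠ 1) (hab : a ≠ b)
    (hs : a * a = 1) (h : ∀ y ∈ V, y = 1 ∨ y = a ∨ y = b ∨ y = a * b) : Nat.card V = 4 := by
  have e : (V : Set G) = {1, a, b, a * b} := by
    ext y
    constructor
    · intro hy
      simpa using h y hy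
    · rintro (rfl | rfl | rfl | h')
      · exact V.one_mem
      · exact ha
      · exact hb
      · rw [Set.mem_singleton_iff.1 h']
        exact V.mul_mem ha hb
  have e2 : Nat.card V = Nat.card ↥(V : Set G) := rfl
  have n1 : a * b ≠ 1 := by
    intro he
    apply hab
    have : b = a⁻¹ := (inv_eq_of_mul_eq_one_right he).symm
    rw [this]
    exact (inv_eq_of_mul_eq_one_left hs).symm
  have n2 : a ≠ a * b := by
    intro he
    apply hb1
    have := mul_left_cancel (a := a) (b := 1) (c := b) (by rw [mul_one]; exact he)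
    exact this.symm
  have n3 : b ≠ a * b := by
    intro he
    apply ha1
    have h5 : a * b = 1 * b := by rw [one_mul]; exact he.symm
    exact mul_right_cancel h5
  rw [e2, e, Nat.card_coe_set_eq, Set.ncard_insert_of_notMem, Set.ncard_insert_of_notMem, Set.ncard_pair n3]
  · simp only [Set.mem_insert_iff, Set.mem_singleton_iff]
    rintro (h' | h')
    · exact hab h'
    · exact n2 h'
  · simp only [Set.mem_insert_iff, Set.mem_singleton_iff]
    rintro (h' | h' | h')
    · exact ha1 h'.symm
    · exact hb1 h'.symm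
    · exact n1 h'.symm

theorem cent_le_norm (X : Subgroup G) : centralizer (X : Set G) ≤ normalizer (X : Set G) := by
  intro g hg
  apply Cfsg.Agent.Lib.Coprime.mem_normalizer_of_conj_le
  intro x hx
  rw [(mem_cent_iff.1 hg) x hx]
  exact hx

namespace Config

variable {T K₁ K₂ L₁ L₂ : Subgroup G} (C : Config T K₁ K₂ L₁ L₂)
include C

theorem cent_W_le : centralizer (wOf K₁ : Set G) ≤ L₁ :=
  (cent_le_norm _).trans (C.u₁.norm_le C.c₁.W_p C.c₁.W_ne (le_normalizer.trans Data.W_norm)
    (C.c₁.D.J_norm.trans Data.W_norm))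

theorem omega_le {S : Subgroup G} (hSp : IsPGroup 2 S) (hTS : T ≤ S) : omegaCenterOf S ≤ omegaCenterOf T := by
  intro z hz
  obtain ⟨hzS, hzc, hzs⟩ := mem_omegaCenterOf.1 hz
  have hzW : z ∈ centralizer (wOf K₁ : Set G) := by
    refine Subgroup.mem_centralizer_iff.2 fun w hw => ?_
    exact Subgroup.mem_centralizer_iff.1 hzc w (hTS (C.c₁.W_le_T hw))
  have hzL : z ∈ L₁ := C.cent_W_le hzW
  have hinf : S ⊓ L₁ = T := sylow_max C.c₁.h.hT inf_le_right (hSp.to_le inf_le_left) (le_inf hTS C.c₁.h.hT.1)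
  have hzT : z ∈ T := by
    rw [← hinf]; exact ⟨hzS, hzL⟩
  refine mem_omegaCenterOf.2 ⟨hzT, Subgroup.mem_centralizer_iff.2 fun t ht => ?_, hzs⟩
  exact Subgroup.mem_centralizer_iff.1 hzc t (hTS ht)

set_option maxHeartbeats 1000000 in
theorem Z_alt (S : Sylow 2 G) (hTS : T ≤ (S : Subgroup G)) :
    (omegaCenterOf (S : Subgroup G) = omegaCenterOf (thompsonSubgroupOf 2 T) ∧
        Nat.card ↥(omegaCenterOf (thompsonSubgroupOf 2 T)) = 2) ∨
      (omegaCenterOf (S : Subgroup G) = omegaCenterOf (thompsonSubgroupOf 2 T) ∧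
        Nat.card ↥(omegaCenterOf (thompsonSubgroupOf 2 T)) = 4 ∧ T = (S : Subgroup G)) ∨
      (omegaCenterOf T = omegaCenterOf (thompsonSubgroupOf 2 T) ∧
        Nat.card ↥(omegaCenterOf (thompsonSubgroupOf 2 T)) = 4 ∧
        (L₁ ⊓ centralizer (omegaCenterOf (thompsonSubgroupOf 2 T) : Set G)).relIndex
          (normalizer (omegaCenterOf (thompsonSubgroupOf 2 T) : Set G)) = 2) := by
  classical
  haveI : Fact (Nat.Prime 2) := ⟨Nat.prime_two⟩
  set J := thompsonSubgroupOf 2 T with hJ
  set Z₀ := omegaCenterOf J with hZ₀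
  have P := C.pair
  have hZT : Z₀ = omegaCenterOf T := P.omega_eq C.c₁
  obtain ⟨a, haf⟩ := C.c₁.exists_fix
  have ha0 := C.c₁.fix_mem haf
  have haZ : a ∈ Z₀ := by rw [hZT]; exact C.c₁.fix_omega haf
  have hZle : omegaCenterOf (S : Subgroup G) ≤ Z₀ := by rw [hZT]; exact C.omega_le S.isPGroup' hTS
  have hS1 : (S : Subgroup G) ≠ ⊥ := by
    intro he
    rw [he, le_bot_iff] at hTS
    exact C.c₁.h.hT1 hTS
  obtain ⟨z, hzZ, hz1⟩ := exists_central_inv S.isPGroup' hS1
  have hzZ₀ := hZle hzZ
  have hsq : ∀ y ∈ Z₀, y * y = 1 := fun y hy => (mem_omegaCenterOf.1 hy).2.2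
  obtain ⟨x, hx⟩ := C.c₁.D.exists_x
  by_cases hb : ∃ b ∈ Z₀, b ≠ 1 ∧ K₁ ≤ centralizer ({b} : Set G)
  · obtain ⟨b, hbZ, hb1, hbc⟩ := hb
    have henum := P.enum ha0 haf.ne hbZ hb1 hbc
    have hab : a ≠ b := by
      rintro rfl
      apply haf.ne
      exact C.c₁.D.fpf hx haf.mem (conj_eq_of_comm (mem_c1.1 (hbc hx.mem)).symm)
    have hcard : Nat.card Z₀ = 4 := card_four_of haZ hbZ haf.ne hb1 hab (hsq a haZ) henum
    right
    by_cases hTe : T = (S : Subgroup G)
    · left
      refine ⟨?_, hcard, hTe⟩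
      rw [← hTe]; exact hZT.symm
    · right
      refine ⟨hZT.symm, hcard, ?_⟩
      have hbfix : ∀ t ∈ T, t * b * t⁻¹ = b := by
        intro t ht
        rw [hZT] at hbZ
        exact conj_eq_of_comm (Subgroup.mem_centralizer_iff.1 (mem_omegaCenterOf.1 hbZ).2.1 t ht)
      have hbL : centralizer ({b} : Set G) ≤ L₁ := C.norm_le₁ (hsq b hbZ) hb1 hbc (C.J_cent hbfix)
      have hC : centralizer (Z₀ : Set G) ≤ L₁ := by
        refine le_trans ?_ hbL
        apply Subgroup.centralizer_le
        intro y hy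
        rw [Set.mem_singleton_iff.1 hy]
        exact hbZ
      have hinf : L₁ ⊓ centralizer (Z₀ : Set G) = centralizer (Z₀ : Set G) := inf_eq_right.2 hC
      rw [hinf]
      obtain ⟨t, htS, htT, htN⟩ := Cfsg.Agent.Lib.PGroups.exists_mem_normalizer_of_lt S.isPGroup'
        (lt_of_le_of_ne hTS hTe)
      have htN' : t ∈ normalizer (T : Set G) := Cfsg.Agent.Lib.Coprime.mem_normalizer_of_conj_le _ _ htN
      have htJ : t ∈ normalizer (J : Set G) :=
        Cfsg.Agent.Lib.PLocal.normalizer_le_normalizer_thompsonOf (p := 2) T htN'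
      have htZ₀ : t ∈ normalizer (Z₀ : Set G) :=
        Cfsg.Agent.Lib.Coprime.mem_normalizer_of_conj_le _ _ fun y hy => omegaCenterOf_conj htJ hy
      have htL : t ∉ L₁ := by
        intro ht
        have hRp : IsPGroup 2 (T ⊔ zpowers t : Subgroup G) :=
          S.isPGroup'.to_le (sup_le hTS ((Subgroup.zpowers_le).2 htS))
        have := sylow_max C.c₁.h.hT (sup_le C.c₁.h.hT.1 ((Subgroup.zpowers_le).2 ht)) hRp le_sup_left
        apply htT
        rw [← this]
        exact Subgroup.mem_sup_right (Subgroup.mem_zpowers t)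
      have htb : t * b * t⁻¹ ≠ b := fun he => htL (hbL (mem_c1.2 (comm_of_conj_eq he).symm))
      have hzt : t * z * t⁻¹ = z :=
        conj_eq_of_comm (Subgroup.mem_centralizer_iff.1 (mem_omegaCenterOf.1 hzZ).2.1 t htS)
      have hzb : z ≠ b := by
        rintro rfl
        exact htb hzt
      have hcases := four_cases hcard hsq hzZ₀ hbZ hz1 hb1 hzb
      have hconj : ∀ {g y : G}, g * y * g⁻¹ = 1 → y = 1 := by
        intro g y he
        have : y = g⁻¹ * (g * y * g⁻¹) * g := by group
        rw [this, he]; group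
      have htb' : t * b * t⁻¹ = z * b := by
        rcases hcases _ (omegaCenterOf_conj htJ hbZ) with e | e | e | e
        · exact absurd (hconj e) hb1
        · exfalso
          apply hzb
          have e3 : t * b * t⁻¹ = t * z * t⁻¹ := by rw [e, hzt]
          exact (mul_left_cancel (mul_right_cancel e3)).symm
        · exact absurd e htb
        · exact e
      have key : ∀ n ∈ normalizer (Z₀ : Set G), n * z * n⁻¹ = z := by
        intro n hn
        by_contra hne
        have hex : ∃ g, g * z * g⁻¹ = b := by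
          rcases hcases _ ((Subgroup.mem_normalizer_iff.1 hn z).1 hzZ₀) with e | e | e | e
          · exact absurd (hconj e) hz1
          · exact absurd e hne
          · exact ⟨n, e⟩
          · refine ⟨t⁻¹ * n, ?_⟩
            calc t⁻¹ * n * z * (t⁻¹ * n)⁻¹ = t⁻¹ * (n * z * n⁻¹) * t := by group
              _ = t⁻¹ * (t * b * t⁻¹) * t := by rw [e, htb']
              _ = b := by group
        obtain ⟨g, hg⟩ := hex
        have hle : cj g (S : Subgroup G) ≤ L₁ := by
          refine le_trans ?_ hbL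
          rintro _ ⟨s, hs, rfl⟩
          apply mem_c1.2
          have h1 : s * z = z * s := Subgroup.mem_centralizer_iff.1 (mem_omegaCenterOf.1 hzZ).2.1 s hs
          show b * (g * s * g⁻¹) = (g * s * g⁻¹) * b
          rw [← hg]
          calc g * z * g⁻¹ * (g * s * g⁻¹) = g * (z * s) * g⁻¹ := by group
            _ = g * (s * z) * g⁻¹ := by rw [h1]
            _ = _ := by group
        obtain ⟨S₁, hS₁, hle₁⟩ := Data.exists_sylowIn hle (isPGroup_cj S.isPGroup' g)
        obtain ⟨l, hl, e⟩ := exists_conj_of_sylowIn C.c₁.h.hT hS₁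
        apply hTe
        apply Subgroup.eq_of_le_of_card_ge hTS
        calc Nat.card (S : Subgroup G) = Nat.card (cj g (S : Subgroup G)) := (card_cj g _).symm
          _ ≤ Nat.card S₁ := Nat.card_mono (Set.toFinite _) hle₁
          _ = Nat.card T := by rw [e]; exact card_cj l T
      have hswap : ∀ n ∈ normalizer (Z₀ : Set G), n ∉ centralizer (Z₀ : Set G) → n * b * n⁻¹ = z * b := by
        intro n hn hnc
        have hnz := key n hn
        rcases hcases _ ((Subgroup.mem_normalizer_iff.1 hn b).1 hbZ) with e | e | e | e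
        · exact absurd (hconj e) hb1
        · exfalso
          apply hzb
          have e3 : n * b * n⁻¹ = n * z * n⁻¹ := by rw [e, hnz]
          exact (mul_left_cancel (mul_right_cancel e3)).symm
        · exfalso
          apply hnc
          refine mem_cent_iff.2 fun u hu => ?_
          rcases hcases u hu with e' | e' | e' | e'
          · rw [e']; group
          · rw [e']; exact hnz
          · rw [e']; exact e
          · rw [e']
            calc n * (z * b) * n⁻¹ = (n * z * n⁻¹) * (n * b * n⁻¹) := by group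
              _ = z * b := by rw [hnz, e]
        · exact e
      refine relIndex_eq_two (cent_le_norm _) ?_ htZ₀ ?_
      · intro n₁ hn₁ n₂ hn₂ h₁ h₂
        have e₁ := hswap n₁ hn₁ h₁
        have e₂ := hswap n₂ hn₂ h₂
        have z₁ := key n₁ hn₁
        have z₂ := key n₂ hn₂
        have ez : (n₁ * n₂) * z * (n₁ * n₂)⁻¹ = z := by
          calc (n₁ * n₂) * z * (n₁ * n₂)⁻¹ = n₁ * (n₂ * z * n₂⁻¹) * n₁⁻¹ := by group
            _ = z := by rw [z₂, z₁]
        have eb : (n₁ * n₂) * b * (n₁ * n₂)⁻¹ = b := by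
          calc (n₁ * n₂) * b * (n₁ * n₂)⁻¹ = n₁ * (n₂ * b * n₂⁻¹) * n₁⁻¹ := by group
            _ = (n₁ * z * n₁⁻¹) * (n₁ * b * n₁⁻¹) := by rw [e₂]; group
            _ = z * (z * b) := by rw [z₁, e₁]
            _ = (z * z) * b := by group
            _ = b := by rw [hsq z hzZ₀, one_mul]
        refine mem_cent_iff.2 fun u hu => ?_
        rcases hcases u hu with e' | e' | e' | e'
        · rw [e']; group
        · rw [e']; exact ez
        · rw [e']; exact eb
        · rw [e']
          calc (n₁ * n₂) * (z * b) * (n₁ * n₂)⁻¹ = ((n₁ * n₂) * z * (n₁ * n₂)⁻¹) * ((n₁ * n₂) * b * (n₁ * n₂)⁻¹) := by group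
            _ = z * b := by rw [ez, eb]
      · intro hm
        exact htb ((mem_cent_iff.1 hm) b hbZ)
  · push Not at hb
    left
    have hcases : ∀ y ∈ Z₀, y = 1 ∨ y = a := by
      intro y hy
      obtain ⟨v, hv, hvc, hyv⟩ := P.D₁.dec ha0 haf.ne hy
      have hv1 : v = 1 := by
        by_contra h'
        exact hb v hv h' hvc
      rw [hv1] at hyv
      simpa using hyv
    have hza : z = a := (hcases z hzZ₀).resolve_left hz1
    have hZeq : omegaCenterOf (S : Subgroup G) = Z₀ := by
      apply le_antisymm hZle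
      intro y hy
      rcases hcases y hy with e | e
      · rw [e]; exact Subgroup.one_mem _
      · rw [e, ← hza]; exact hzZ
    exact ⟨hZeq, card_two_of haZ haf.ne hcases⟩

end Config

end Cfsg.Agent.Lib.LocalEven2.JC
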