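import Cfsg.Agent.Lib.LocalEven2.JC23

/-!
# The overgroups: `L = K ⊔ T`
-/

set_option autoImplicit false
set_option linter.unusedSectionVars false
set_option linter.unusedVariables false

namespace Cfsg.Agent.Lib.LocalEven2.JC

open Subgroup Cfsg Cfsg.Agent.Lib.PLocal
open Cfsg.Agent.Lib.OddLocal (MaxEA thompsonSubgroupOf_eq le_thompsonSubgroupOf MaxEA_nonempty isElementaryAbelian_map
  isElementaryAbelian_subgroupOf mem_of_MaxEA)
open Cfsg.Agent.Lib.LocalEven (cj cj_mul cj_inv_cj cj_cj_inv le_cj_iff cj_mono isPGroup_cj cj_eq_of_mem_normalizer mem_cj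
  conj_mem_cj card_cj mem_normalizer_of_cj_eq)
open scoped commutatorElement

variable {G : Type*} [Group G] [Finite G]

theorem fix_of_odd {y r f : G} (h : y * r * y⁻¹ = f * r) (hf : y * f * y⁻¹ = f) (hf2 : f * f = 1)
    (hodd : Odd (orderOf y)) : f = 1 := by
  have hc : Commute y f := comm_of_conj_eq hf
  have hfn : ∀ n : ℕ, y ^ n * f * (y ^ n)⁻¹ = f := fun n => by
    have : Commute (y ^ n) f := hc.pow_left n
    rw [this.eq]; group
  have key : ∀ n : ℕ, y ^ n * r * (y ^ n)⁻¹ = f ^ n * r := by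
    intro n
    induction n with
    | zero => simp
    | succ n ih =>
      calc y ^ (n + 1) * r * (y ^ (n + 1))⁻¹ = y ^ n * (y * r * y⁻¹) * (y ^ n)⁻¹ := by
            rw [pow_succ]; group
        _ = y ^ n * (f * r) * (y ^ n)⁻¹ := by rw [h]
        _ = (y ^ n * f * (y ^ n)⁻¹) * (y ^ n * r * (y ^ n)⁻¹) := by group
        _ = f * (f ^ n * r) := by rw [ih, hfn n]
        _ = f ^ (n + 1) * r := by rw [pow_succ']; group
  obtain ⟨k, hk⟩ := hodd
  have h1 := key (orderOf y)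
  rw [pow_orderOf_eq_one] at h1
  have h2 : f ^ orderOf y = 1 := by
    have : r = f ^ orderOf y * r := by
      simpa using h1
    exact (mul_eq_right.1 this.symm)
  rw [hk, pow_succ, pow_mul, pow_two, hf2, one_pow, one_mul] at h2
  exact h2

theorem isPGroup_of_no_odd {H : Subgroup G} (h : ∀ y ∈ H, Odd (orderOf y) → y = 1) : IsPGroup 2 H := by
  intro g
  obtain ⟨k, m, hm, e⟩ := Nat.exists_eq_two_pow_mul_odd (orderOf_pos g).ne'
  refine ⟨k, ?_⟩
  apply Subtype.ext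
  have hy : ((g ^ 2 ^ k : ↥H) : G) ∈ H := (g ^ 2 ^ k).2
  apply h _ hy
  have h3 : ((g ^ 2 ^ k : ↥H) : G) ^ m = 1 := by
    have h4 : (g ^ 2 ^ k) ^ m = 1 := by
      rw [← pow_mul, ← e, pow_orderOf_eq_one]
    have := congrArg Subtype.val h4
    simpa using this
  exact hm.of_dvd_nat (orderOf_dvd_of_pow_eq_one h3)

namespace Config

variable {T K₁ K₂ L₁ L₂ : Subgroup G} (h : Config T K₁ K₂ L₁ L₂) {z : G} (hz₁ : IsFix T K₁ z) (hz₂ : IsFix T K₂ z)
include h hz₁ hz₂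

theorem uniq_comp' {K' : Subgroup G} (hK' : CompIn L₁ T K') : K' = K₁ := by
  by_contra hne
  have c₁ := h.c₁
  have hin : ∀ w ∈ wOf K₁, w ∈ wOf K' → w = 1 := by
    intro w hw hw'
    obtain ⟨x, hx⟩ := c₁.D.exists_x
    exact c₁.D.fpf hx hw (hK'.cent_W c₁.h (Ne.symm hne) hx.mem hw')
  have hWQ : ∀ w' ∈ wOf K', w' ∈ QQ T K₁ := fun w' hw' =>
    c₁.O2L_le_Q (omegaS_le hK'.hLS (W_le_omegaS hK' hw'))
  obtain ⟨p, hp, hp1, -⟩ := hK'.D.exists_w0
  obtain ⟨x', hx'⟩ := hK'.D.exists_x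
  set q := x' * p * x'⁻¹ with hq
  have hqW : q ∈ wOf K' := (Subgroup.mem_normalizer_iff.1 (Data.W_norm (le_normalizer hx'.mem)) p).1 hp
  have hqp : q ≠ p := fun he => hp1 (hK'.D.fpf hx' hp he)
  have hq1 : q ≠ 1 := by
    intro he
    apply hp1
    have e : p = x'⁻¹ * q * x' := by rw [hq]; group
    rw [e, he]; group
  obtain ⟨wp, hwp, cp, hcp, ep⟩ := h.Q_split hz₁ hz₂ (hWQ p hp)
  obtain ⟨wq, hwq, cq, hcq, eq⟩ := h.Q_split hz₁ hz₂ (hWQ q hqW)
  have hcp1 : cp ≠ 1 := by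
    rintro rfl
    rw [mul_one] at ep
    exact hp1 (hin p (ep ▸ hwp) hp)
  have hcq1 : cq ≠ 1 := by
    rintro rfl
    rw [mul_one] at eq
    exact hq1 (hin q (eq ▸ hwq) hqW)
  have hcc : cp = cq := h.CC_unique hz₁ hz₂ hcp hcq hcp1 hcq1
  subst hcc
  have hcw : cp * wq = wq * cp := (Subgroup.mem_centralizer_iff.1 (CC_le_Q c₁ hcp).2 wq hwq).symm
  have hpq : p * q = wp * wq := by
    rw [ep, eq]
    calc wp * cp * (wq * cp) = wp * (cp * wq) * cp := by group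
      _ = wp * (wq * cp) * cp := by rw [hcw]
      _ = wp * wq * (cp * cp) := by group
      _ = wp * wq := by rw [h.CC_sq hz₁ hz₂ hcp, mul_one]
  have h1 := hin (p * q) (by rw [hpq]; exact (wOf K₁).mul_mem hwp hwq) ((wOf K').mul_mem hp hqW)
  apply hqp
  have hps : p * p = 1 := hK'.D.hW2 p hp
  calc q = (p * p) * q := by rw [hps, one_mul]
    _ = p * (p * q) := by group
    _ = p := by rw [h1, mul_one]

theorem L_norm : L₁ ≤ normalizer (K₁ : Set G) := by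
  refine le_of_comps' h.c₁.h.hLS h.c₁.h.hT ?_ ?_
  · rintro n ⟨hnJ, hnL⟩
    have hLn : cj n L₁ = L₁ := cj_eq_of_mem_normalizer (le_normalizer hnL)
    have h' : CompIn L₁ T (cj n K₁) :=
      ⟨h.c₁.h.hLS, h.c₁.h.hT, h.c₁.h.hT1, jc_of_norm h.c₁.h.hK hnJ, by rw [← hLn]; exact cj_mono h.c₁.h.hKL⟩
    exact mem_normalizer_of_cj_eq (h.uniq_comp' hz₁ hz₂ h')
  · intro K hK hKL
    have := h.uniq_comp' hz₁ hz₂ (K' := K) ⟨h.c₁.h.hLS, h.c₁.h.hT, h.c₁.h.hT1, hK, hKL⟩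
    rw [this]
    exact le_normalizer

theorem odd_cent {y : G} (hy : y ∈ centralizer (wOf K₁ : Set G)) (hodd : Odd (orderOf y)) : y = 1 := by
  have c₁ := h.c₁
  have hyL : y ∈ L₁ := h.cent_W_le hy
  have hyi : y⁻¹ ∈ L₁ := L₁.inv_mem hyL
  have hfixW : ∀ w ∈ wOf K₁, y * w * y⁻¹ = w := fun w hw => (mem_cent_iff.1 hy) w hw
  have hfixW' : ∀ w ∈ wOf K₁, y⁻¹ * w * y = w := fun w hw =>
    conj_inv_eq_of_conj_eq (hfixW w hw)
  have hQn : ∀ r ∈ pCoreOf 2 L₁, y * r * y⁻¹ ∈ pCoreOf 2 L₁ := fun r hr =>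
    (Subgroup.mem_normalizer_iff.1 (Cfsg.Agent.Lib.LocalEven.le_normalizer_pCoreOf L₁ hyL) r).1 hr
  have hyc : y ∈ centralizer (pCoreOf 2 L₁ : Set G) := by
    refine mem_cent_iff.2 fun r hr => ?_
    obtain ⟨w, hw, d, hd, e⟩ := h.Q_split hz₁ hz₂ (c₁.O2L_le_Q hr)
    obtain ⟨w', hw', d', hd', e'⟩ := h.Q_split hz₁ hz₂ (c₁.O2L_le_Q (hQn r hr))
    by_cases hd1 : d = 1
    · rw [e, hd1, mul_one]
      exact hfixW w hw
    have hd'1 : d' ≠ 1 := by
      rintro rfl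
      rw [mul_one] at e'
      apply hd1
      apply CC_inf_W c₁ hd
      have hr' : r = y⁻¹ * (y * r * y⁻¹) * y := by group
      have e2 : r = w' := by rw [hr', e', hfixW' w' hw']
      have e3 : d = w⁻¹ * r := by rw [e]; group
      rw [e3, e2]
      exact (wOf K₁).mul_mem ((wOf K₁).inv_mem hw) hw'
    have hdd : d' = d := h.CC_unique hz₁ hz₂ hd' hd hd'1 hd1
    subst hdd
    set f := w' * w⁻¹ with hf
    have hfW : f ∈ wOf K₁ := (wOf K₁).mul_mem hw' ((wOf K₁).inv_mem hw)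
    have e1 : y * r * y⁻¹ = f * r := by
      rw [e', e, hf]; group
    have hf1 : f = 1 := fix_of_odd e1 (hfixW f hfW) (c₁.sq hfW) hodd
    rw [e1, hf1, one_mul]
  have hyQ := c₁.h.hLS.hc hyc
  exact Data.eq_one_of_odd (Cfsg.Agent.Lib.LocalEven.pCoreOf_isPGroup L₁) hyQ hodd

theorem cent_le_Q : centralizer (wOf K₁ : Set G) ≤ QQ T K₁ := by
  have c₁ := h.c₁
  have hp : IsPGroup 2 (centralizer (wOf K₁ : Set G)) :=
    isPGroup_of_no_odd fun y hy ho => h.odd_cent hz₁ hz₂ hy ho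
  have hn : L₁ ≤ normalizer (centralizer (wOf K₁ : Set G) : Set G) := by
    intro l hl
    apply Cfsg.Agent.Lib.Coprime.mem_normalizer_of_conj_le
    intro y hy
    exact Data.conj_mem_centralizer (Data.W_norm (h.L_norm hz₁ hz₂ hl)) hy
  intro y hy
  have hyL := h.cent_W_le hy
  have : (⟨y, hyL⟩ : ↥L₁) ∈ pCore 2 ↥L₁ :=
    Cfsg.Agent.Lib.LocalEven2.mem_pCore_subgroup h.cent_W_le hn hp hy
  exact c₁.O2L_le_Q ⟨_, this, rfl⟩

theorem L_le : L₁ ≤ K₁ ⊔ T := by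
  have c₁ := h.c₁
  obtain ⟨x, hx⟩ := c₁.D.exists_x
  obtain ⟨p, hp, hp1, hpz⟩ := c₁.exists_other hz₁
  have hLn := h.L_norm hz₁ hz₂
  have hN : ∀ l ∈ L₁, ∀ w ∈ wOf K₁, l * w * l⁻¹ ∈ wOf K₁ := fun l hl w hw =>
    (Subgroup.mem_normalizer_iff.1 (Data.W_norm (hLn hl)) w).1 hw
  have hconj1 : ∀ {g y : G}, g * y * g⁻¹ = 1 → y = 1 := by
    intro g y he
    have : y = g⁻¹ * (g * y * g⁻¹) * g := by group
    rw [this, he]; group
  -- elements fixing `z` and `p`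
  have step3 : ∀ l, l * z * l⁻¹ = z → l * p * l⁻¹ = p → l ∈ T := by
    intro l e1 e2
    have hlc : l ∈ centralizer (wOf K₁ : Set G) := by
      refine mem_cent_iff.2 fun u hu => ?_
      rcases four_cases c₁.D.hW4 c₁.D.hW2 hz₁.mem hp hz₁.ne hp1 (Ne.symm hpz) u hu with e | e | e | e
      · rw [e]; group
      · rw [e]; exact e1
      · rw [e]; exact e2
      · rw [e]
        calc l * (z * p) * l⁻¹ = (l * z * l⁻¹) * (l * p * l⁻¹) := by group
          _ = z * p := by rw [e1, e2]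
    exact (h.cent_le_Q hz₁ hz₂ hlc).1
  -- elements fixing `z`
  have step2 : ∀ l ∈ L₁, l * z * l⁻¹ = z → l ∈ T := by
    intro l hl e1
    obtain ⟨j, hj, hjn⟩ := c₁.exists_J_not
    have hjT := thompson_le T hj
    rcases four_cases c₁.D.hW4 c₁.D.hW2 hz₁.mem hp hz₁.ne hp1 (Ne.symm hpz) _ (hN l hl p hp) with e | e | e | e
    · exact absurd (hconj1 e) hp1
    · exfalso
      apply hpz
      have e3 : l * p * l⁻¹ = l * z * l⁻¹ := by rw [e, e1]
      exact mul_left_cancel (mul_right_cancel e3)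
    · exact step3 l e1 e
    · have hm := c₁.moved hz₁ hjT hjn hp hp1 hpz
      have ej : j * p * j⁻¹ = z * p := by
        have := mul_inv_eq_iff_eq_mul.1 hm
        exact this
      have hjz : j⁻¹ * z * j = z := conj_inv_eq_of_conj_eq (hz₁.fix j hjT)
      have hl' : j⁻¹ * l ∈ T := by
        apply step3
        · calc j⁻¹ * l * z * (j⁻¹ * l)⁻¹ = j⁻¹ * (l * z * l⁻¹) * j := by group
            _ = z := by rw [e1, hjz]
        · calc j⁻¹ * l * p * (j⁻¹ * l)⁻¹ = j⁻¹ * (l * p * l⁻¹) * j := by group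
            _ = j⁻¹ * (j * p * j⁻¹) * j := by rw [e, ej]
            _ = p := by group
      have e4 : l = j * (j⁻¹ * l) := by group
      rw [e4]
      exact T.mul_mem hjT hl'
  intro l hl
  have hxL : x ∈ L₁ := c₁.h.hKL hx.mem
  have hxP : x ∈ K₁ ⊔ T := Subgroup.mem_sup_left hx.mem
  set a := x * z * x⁻¹ with ha
  have haW : a ∈ wOf K₁ := hN x hxL z hz₁.mem
  have ha1 : a ≠ 1 := fun he => hz₁.ne (hconj1 he)
  have hza : z ≠ a := fun he => hz₁.ne (c₁.D.fpf hx hz₁.mem he.symm)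
  set b := x⁻¹ * z * x with hb
  have hbW : b ∈ wOf K₁ := by
    have := hN x⁻¹ (L₁.inv_mem hxL) z hz₁.mem
    simpa using this
  have hb1 : b ≠ 1 := by
    intro he
    apply hz₁.ne
    have e : z = x * b * x⁻¹ := by rw [hb]; group
    rw [e, he]; group
  have hzb : z ≠ b := by
    intro he
    apply hz₁.ne
    apply c₁.D.fpf hx hz₁.mem
    have e : x * z * x⁻¹ = x * b * x⁻¹ := by rw [← he]
    rw [e, hb]; group
  have hab : a ≠ b := by
    intro he
    -- `x²` fixes `z`, hence so does `x`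
    apply hz₁.ne
    apply c₁.D.fpf hx hz₁.mem
    have h3 : x * x * x = 1 := h.xxx hx
    have hxi : x⁻¹ = x * x := hx.x_inv
    have e5 : x * a * x⁻¹ = z := by
      rw [he, hb]; group
    -- `x * a * x⁻¹ = x * x * z * (x * x)⁻¹`
    have e6 : x⁻¹ * z * x = z := by
      have e7 : x * a * x⁻¹ = x⁻¹ * z * x := by
        rw [ha]
        have : x * (x * z * x⁻¹) * x⁻¹ = (x * x) * z * (x * x)⁻¹ := by group
        rw [this, ← hxi]
        group
      rw [← e7]; exact e5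
    have e8 : z = x * (x⁻¹ * z * x) * x⁻¹ := by group
    rw [e6] at e8
    exact e8.symm
  have hbcase : b = z * a := by
    rcases four_cases c₁.D.hW4 c₁.D.hW2 hz₁.mem haW hz₁.ne ha1 hza b hbW with e | e | e | e
    · exact absurd e hb1
    · exact absurd e.symm hzb
    · exact absurd e.symm hab
    · exact e
  rcases four_cases c₁.D.hW4 c₁.D.hW2 hz₁.mem haW hz₁.ne ha1 hza _ (hN l hl z hz₁.mem) with e | e | e | e
  · exact absurd (hconj1 e) hz₁.ne
  · exact Subgroup.mem_sup_right (step2 l hl e)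
  · have hl' : x⁻¹ * l ∈ T := by
      apply step2 _ (L₁.mul_mem (L₁.inv_mem hxL) hl)
      calc x⁻¹ * l * z * (x⁻¹ * l)⁻¹ = x⁻¹ * (l * z * l⁻¹) * x := by group
        _ = x⁻¹ * (x * z * x⁻¹) * x := by rw [e]
        _ = z := by group
    have e4 : l = x * (x⁻¹ * l) := by group
    rw [e4]
    exact (K₁ ⊔ T).mul_mem hxP (Subgroup.mem_sup_right hl')
  · have hl' : x * l ∈ T := by
      apply step2 _ (L₁.mul_mem hxL hl)
      calc x * l * z * (x * l)⁻¹ = x * (l * z * l⁻¹) * x⁻¹ := by group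
        _ = x * (x⁻¹ * z * x) * x⁻¹ := by rw [e, ← hbcase]
        _ = z := by group
    have e4 : l = x⁻¹ * (x * l) := by group
    rw [e4]
    exact (K₁ ⊔ T).mul_mem ((K₁ ⊔ T).inv_mem hxP) (Subgroup.mem_sup_right hl')

theorem L_eq : L₁ = K₁ ⊔ T := le_antisymm (h.L_le hz₁ hz₂) h.c₁.P_le

theorem card_L : Nat.card L₁ = Nat.card (QQ T K₁) * 6 := by
  have e1 := Cfsg.Agent.Lib.LocalEven2.card_mul_relIndex_of_le (H := QQ T K₁) (L := K₁ ⊔ T) (inf_le_left.trans le_sup_right)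
  rw [h.c₁.relIndex_Q_P] at e1
  rw [h.L_eq hz₁ hz₂, e1]

end Config

end Cfsg.Agent.Lib.LocalEven2.JC
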