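import Cfsg.Agent.Lib.LocalEven2.JC24

/-!
# Recognizing the symmetric group of degree four
-/

set_option autoImplicit false
set_option linter.unusedSectionVars false
set_option linter.unusedVariables false

namespace Cfsg.Agent.Lib.LocalEven2.JC

open Subgroup Cfsg

theorem rec_S4 {R : Type*} [Group R] [Finite R] (W : Subgroup R) (hWn : W.Normal) (hcard : Nat.card R = 24)
    (hW : Nat.card W = 4) (hcent : ∀ r : R, (∀ w ∈ W, r * w = w * r) → r ∈ W) (x : R) (hx : x ^ 3 = 1)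
    (hfp : ∀ w ∈ W, x * w * x⁻¹ = w → w = 1) : Nonempty (R ≃* Equiv.Perm (Fin 4)) := by
  classical
  haveI : Fact (Nat.Prime 3) := ⟨Nat.prime_three⟩
  -- a nontrivial element of `W`
  obtain ⟨w₀, hw₀, hw₀1⟩ : ∃ w₀ ∈ W, w₀ ≠ 1 := by
    by_contra hcon
    push Not at hcon
    have : W = ⊥ := (Subgroup.eq_bot_iff_forall W).2 hcon
    rw [this, Subgroup.card_bot] at hW
    omega
  have hx1 : x ≠ 1 := by
    rintro rfl
    apply hw₀1
    apply hfp w₀ hw₀
    group
  have hxp : IsPGroup 3 (zpowers x) := by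
    intro g
    obtain ⟨n, hn⟩ := Subgroup.mem_zpowers_iff.1 g.2
    refine ⟨1, Subtype.ext ?_⟩
    show ((g : R)) ^ 3 ^ 1 = 1
    rw [← hn, pow_one, ← zpow_natCast, ← zpow_mul, mul_comm, zpow_mul]
    simp [hx]
  obtain ⟨P₀, hP₀⟩ := hxp.exists_le_sylow
  have hxP : x ∈ P₀ := hP₀ (Subgroup.mem_zpowers x)
  -- `P₀` meets `W` trivially
  have hdisj : ∀ y, y ∈ P₀ → y ∈ W → y = 1 := by
    intro y h1 h2
    obtain ⟨k, hk⟩ := (IsPGroup.iff_orderOf.1 P₀.isPGroup') ⟨y, h1⟩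
    rw [Subgroup.orderOf_mk] at hk
    have h4 : orderOf y ∣ 4 := by
      have := Subgroup.orderOf_dvd_natCard W h2
      rwa [hW] at this
    rw [hk] at h4
    have h5 : Nat.Coprime (3 ^ k) 4 := Nat.Coprime.pow_left k (by norm_num)
    have h6 : 3 ^ k = 1 := Nat.Coprime.eq_one_of_dvd h5 h4
    rw [← orderOf_eq_one_iff, hk, h6]
  -- the order of `P₀`
  obtain ⟨k, hk⟩ : ∃ n, Nat.card (P₀ : Subgroup R) = 3 ^ n := IsPGroup.iff_card.1 P₀.isPGroup'
  have hdvd : 3 ^ k ∣ 24 := by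
    rw [← hk, ← hcard]
    exact Subgroup.card_subgroup_dvd_card _
  have hk1 : k = 1 := by
    have hk2 : k < 2 := by
      by_contra hh
      push Not at hh
      have h3 : 3 ^ 2 ∣ 3 ^ k := pow_dvd_pow 3 hh
      have h4 : 3 ^ 2 ∣ 24 := h3.trans hdvd
      norm_num at h4
    have hk0 : k ≠ 0 := by
      rintro rfl
      rw [pow_zero] at hk
      have h3 := (Subgroup.card_eq_one).1 hk
      apply hx1
      have h4 : x ∈ (P₀ : Subgroup R) := hxP
      rw [h3] at h4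
      exact Subgroup.mem_bot.1 h4
    omega
  have hcardP : Nat.card (P₀ : Subgroup R) = 3 := by rw [hk, hk1, pow_one]
  have hidx : (P₀ : Subgroup R).index = 8 := by
    have := (P₀ : Subgroup R).card_mul_index
    rw [hcardP, hcard] at this
    omega
  have hn : Nat.card (Sylow 3 R) ∣ 8 := by
    have := P₀.card_dvd_index
    rwa [hidx] at this
  have hm : Nat.card (Sylow 3 R) ≡ 1 [MOD 3] := card_sylow_modEq_one 3 R
  have key : ∀ w ∈ W, w ∈ normalizer ((P₀ : Subgroup R) : Set R) → w = 1 := by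
    intro w hw hwN
    have h1 : w * x * w⁻¹ * x⁻¹ ∈ P₀ :=
      (P₀ : Subgroup R).mul_mem ((Subgroup.mem_normalizer_iff.1 hwN x).1 hxP) ((P₀ : Subgroup R).inv_mem hxP)
    have h2 : w * x * w⁻¹ * x⁻¹ ∈ W := by
      have e : w * x * w⁻¹ * x⁻¹ = w * (x * w⁻¹ * x⁻¹) := by group
      rw [e]
      exact W.mul_mem hw (hWn.conj_mem _ (W.inv_mem hw) x)
    have h3 := hdisj _ h1 h2
    apply hfp w hw
    have h4 : w * x = x * w := by
      have := mul_inv_eq_one.1 h3
      exact mul_inv_eq_iff_eq_mul.1 this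
    rw [← h4]; group
  have hn1 : Nat.card (Sylow 3 R) ≠ 1 := by
    intro he
    haveI : Subsingleton (Sylow 3 R) := (Nat.card_eq_one_iff_unique.1 he).1
    have hnorm : ((P₀ : Subgroup R)).Normal := Sylow.normal_of_subsingleton P₀
    apply hw₀1
    apply key w₀ hw₀
    rw [Subgroup.mem_normalizer_iff]
    intro h
    constructor
    · intro hh
      exact hnorm.conj_mem h hh w₀
    · intro hh
      have h3 := hnorm.conj_mem _ hh w₀⁻¹
      have e : w₀⁻¹ * (w₀ * h * w₀⁻¹) * w₀⁻¹⁻¹ = h := by group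
      rwa [e] at h3
  have hc4 : Nat.card (Sylow 3 R) = 4 := by
    have hle : Nat.card (Sylow 3 R) ≤ 8 := Nat.le_of_dvd (by norm_num) hn
    have hm' : Nat.card (Sylow 3 R) % 3 = 1 := hm
    have aux : ∀ n : ℕ, n ≤ 8 → n ∣ 8 → n % 3 = 1 → n ≠ 1 → n = 4 := by decide
    exact aux _ hle hn hm' hn1
  let φ : R →* Equiv.Perm (Sylow 3 R) := MulAction.toPermHom R (Sylow 3 R)
  have hnorm : ∀ g, φ g = 1 → g ∈ normalizer ((P₀ : Subgroup R) : Set R) := by
    intro g hg
    have h1 : g • P₀ = P₀ := by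
      have := congrArg (fun σ : Equiv.Perm (Sylow 3 R) => σ P₀) hg
      simpa [φ] using this
    exact Sylow.smul_eq_iff_mem_normalizer.1 h1
  have hinj : Function.Injective φ := by
    rw [injective_iff_map_eq_one]
    intro g hg
    have hgW : g ∈ W := by
      apply hcent
      intro w hw
      set d := g * w * g⁻¹ * w⁻¹ with hd
      have hdW : d ∈ W := W.mul_mem (hWn.conj_mem w hw g) (W.inv_mem hw)
      have hdφ : φ d = 1 := by
        rw [hd, map_mul, map_mul, map_mul, hg, map_inv, hg]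
        simp
      have hd1 := key d hdW (hnorm d hdφ)
      have := mul_inv_eq_one.1 hd1
      exact mul_inv_eq_iff_eq_mul.1 this
    exact key g hgW (hnorm g hg)
  let e : Sylow 3 R ≃ Fin 4 := Finite.equivFinOfCardEq hc4
  let ψ : R →* Equiv.Perm (Fin 4) := (e.permCongrHom.toMonoidHom).comp φ
  have hψ : Function.Injective ψ := e.permCongrHom.injective.comp hinj
  have hb : Function.Bijective ψ := hψ.bijective_of_nat_card_le (by
    rw [hcard, Nat.card_eq_fintype_card, Fintype.card_perm, Fintype.card_fin]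
    decide)
  exact ⟨MulEquiv.ofBijective ψ hb⟩

variable {G : Type*} [Group G] [Finite G]

open Cfsg.Agent.Lib.LocalEven (cj cj_mul cj_inv_cj cj_cj_inv le_cj_iff cj_mono isPGroup_cj cj_eq_of_mem_normalizer mem_cj
  conj_mem_cj card_cj mem_normalizer_of_cj_eq)

theorem zpow_cases {u : G} (hu : u * u = 1) (n : ℤ) : u ^ n = 1 ∨ u ^ n = u := by
  have h2 : u ^ (2 : ℤ) = 1 := by rw [zpow_two]; exact hu
  obtain ⟨k, rfl | rfl⟩ := Int.even_or_odd' n
  · left; rw [zpow_mul, h2, one_zpow]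
  · right; rw [zpow_add, zpow_mul, h2, one_zpow, one_mul, zpow_one]

theorem R_cases {K : Subgroup G} {u r : G} (hu : u * u = 1) (huN : u ∈ normalizer (K : Set G))
    (hr : r ∈ K ⊔ zpowers u) : ∃ k ∈ K, r = k ∨ r = k * u := by
  have hN : zpowers u ≤ normalizer (K : Set G) := (Subgroup.zpowers_le).2 huN
  obtain ⟨k, hk, v, hv, e⟩ := Cfsg.Agent.Lib.OddLocal.mem_sup_of_le_normalizer hN hr
  obtain ⟨n, rfl⟩ := Subgroup.mem_zpowers_iff.1 hv
  refine ⟨k, hk, ?_⟩
  rcases zpow_cases hu n with e' | e'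
  · left; rw [← e, e', mul_one]
  · right; rw [← e, e']

theorem sgn_cases (a : Multiplicative (ZMod 2)) : a = 1 ∨ a = Multiplicative.ofAdd 1 := by
  revert a; decide

theorem sgn_sq : (Multiplicative.ofAdd (1 : ZMod 2)) * Multiplicative.ofAdd 1 = 1 := by decide

theorem sgn_ne : (Multiplicative.ofAdd (1 : ZMod 2)) ≠ 1 := by decide

/-- The map from the group of order two. -/
noncomputable def sgnHom {H : Type*} [Group H] (c : H) (hc : c * c = 1) : Multiplicative (ZMod 2) →* H := by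
  classical
  exact
  { toFun := fun e => if e = 1 then 1 else c
    map_one' := by simp
    map_mul' := by
      intro a b
      rcases sgn_cases a with rfl | rfl <;> rcases sgn_cases b with rfl | rfl
      · simp
      · simp
      · simp
      · rw [sgn_sq]
        simp [sgn_ne, hc] }

theorem sgnHom_one {H : Type*} [Group H] (c : H) (hc : c * c = 1) (e : Multiplicative (ZMod 2)) :
    sgnHom c hc e = 1 ∨ (sgnHom c hc e = c ∧ e = Multiplicative.ofAdd 1) := by
  rcases sgn_cases e with rfl | rfl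
  · left; exact map_one _
  · right
    refine ⟨?_, rfl⟩
    simp [sgnHom, sgn_ne]

namespace Config

variable {T K₁ K₂ L₁ L₂ : Subgroup G} (h : Config T K₁ K₂ L₁ L₂) {z : G} (hz₁ : IsFix T K₁ z) (hz₂ : IsFix T K₂ z)
include h hz₁ hz₂

theorem R_cent {u : G} (hu : u ∈ wOf K₂) (hun : u ∉ centralizer (wOf K₁ : Set G)) {r : G}
    (hr : r ∈ K₁ ⊔ zpowers u) (hrc : r ∈ centralizer (wOf K₁ : Set G)) : r ∈ wOf K₁ := by
  have c₁ := h.c₁
  have c₂ := h.c₂
  have huT : u ∈ T := c₂.W_le_T hu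
  have hus : u * u = 1 := c₂.sq hu
  have hO := h.O_eq hz₁ hz₂
  obtain ⟨x, hx⟩ := c₁.D.exists_x
  obtain ⟨k, hk, e | e⟩ := R_cases hus (c₁.hN huT) hr
  · rw [e] at hrc ⊢
    rw [← hO]
    exact c₁.mem_O_of_cent hk hrc
  · exfalso
    -- `k` fixes `z`
    have hkz : k * z * k⁻¹ = z := by
      have h1 : r * z * r⁻¹ = z := (mem_cent_iff.1 hrc) z hz₁.mem
      have h2 : u * z * u⁻¹ = z := hz₁.fix u huT
      rw [e] at h1
      have h3 : k * (u * z * u⁻¹) * k⁻¹ = z := by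
        calc k * (u * z * u⁻¹) * k⁻¹ = k * u * z * (k * u)⁻¹ := by group
          _ = z := h1
      rwa [h2] at h3
    have hoz : ∀ o ∈ pCoreOf 2 K₁, o * z * o⁻¹ = z := fun o ho =>
      (mem_cent_iff.1 (Data.O_le_cent ho)) z hz₁.mem
    have hkO : k ∈ pCoreOf 2 K₁ := by
      rcases hx.tri k hk with h1 | h1 | h1
      · exact h1
      · exfalso
        apply hz₁.ne
        -- `x * k = o`, so `x⁻¹` fixes `z`
        have h2 := hoz _ h1
        have h3 : x * z * x⁻¹ = z := by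
          have : x * k * z * (x * k)⁻¹ = x * (k * z * k⁻¹) * x⁻¹ := by group
          rw [this, hkz] at h2
          exact h2
        exact c₁.D.fpf hx hz₁.mem h3
      · exfalso
        apply hz₁.ne
        have h2 := hoz _ h1
        have h3 : x⁻¹ * z * x = z := by
          have : x⁻¹ * k * z * (x⁻¹ * k)⁻¹ = x⁻¹ * (k * z * k⁻¹) * x := by group
          rw [this, hkz] at h2
          exact h2
        have h4 : x * z * x⁻¹ = z := by
          have e5 : z = x * (x⁻¹ * z * x) * x⁻¹ := by group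
          rw [h3] at e5
          exact e5.symm
        exact c₁.D.fpf hx hz₁.mem h4
    apply hun
    have h5 : k⁻¹ * r = u := by rw [e]; group
    rw [← h5]
    exact (centralizer _).mul_mem ((centralizer _).inv_mem (Data.O_le_cent hkO)) hrc

theorem R_S4 {u : G} (hu : u ∈ wOf K₂) (hun : u ∉ centralizer (wOf K₁ : Set G)) :
    Nonempty (↥(K₁ ⊔ zpowers u) ≃* Equiv.Perm (Fin 4)) ∧ Nat.card ↥(K₁ ⊔ zpowers u) = 24 := by
  have c₁ := h.c₁
  have c₂ := h.c₂
  have huT : u ∈ T := c₂.W_le_T hu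
  have hus : u * u = 1 := c₂.sq hu
  have hO := h.O_eq hz₁ hz₂
  have huN : u ∈ normalizer (K₁ : Set G) := c₁.hN huT
  have hle : K₁ ≤ K₁ ⊔ zpowers u := le_sup_left
  have huR : u ∈ K₁ ⊔ zpowers u := Subgroup.mem_sup_right (Subgroup.mem_zpowers u)
  have huK : u ∉ K₁ := by
    intro hm
    exact hun (Data.O_le_cent (c₁.D.mem_O_of_sq hm hus))
  have hi : K₁.relIndex (K₁ ⊔ zpowers u) = 2 := by
    refine relIndex_eq_two hle ?_ huR huK
    intro a ha b hb hna hnb
    obtain ⟨k₁, hk₁, e₁ | e₁⟩ := R_cases hus huN ha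
    · exact absurd (e₁ ▸ hk₁) hna
    obtain ⟨k₂, hk₂, e₂ | e₂⟩ := R_cases hus huN hb
    · exact absurd (e₂ ▸ hk₂) hnb
    have e : a * b = k₁ * (u * k₂ * u⁻¹) * (u * u) := by
      rw [e₁, e₂]; group
    rw [e, hus, mul_one]
    exact K₁.mul_mem hk₁ ((Subgroup.mem_normalizer_iff.1 huN k₂).1 hk₂)
  have hcK : Nat.card K₁ = 12 := by
    have e1 := Cfsg.Agent.Lib.LocalEven2.card_mul_relIndex_of_le (H := pCoreOf 2 K₁) (L := K₁) Data.O_le
    have e2 : (pCoreOf 2 K₁).relIndex K₁ = 3 := c₁.D.hidx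
    rw [e2, hO, c₁.D.hW4] at e1
    omega
  have hcR : Nat.card ↥(K₁ ⊔ zpowers u) = 24 := by
    have e1 := Cfsg.Agent.Lib.LocalEven2.card_mul_relIndex_of_le hle
    rw [hi, hcK] at e1
    omega
  refine ⟨?_, hcR⟩
  have hWK : wOf K₁ ≤ K₁ := Data.W_le_O.trans Data.O_le
  have hWR : wOf K₁ ≤ K₁ ⊔ zpowers u := hWK.trans hle
  have hRN : K₁ ⊔ zpowers u ≤ normalizer ((wOf K₁ : Subgroup G) : Set G) :=
    sup_le (le_normalizer.trans Data.W_norm) (((Subgroup.zpowers_le).2 huN).trans Data.W_norm)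
  obtain ⟨x, hx⟩ := c₁.D.exists_x
  refine rec_S4 ((wOf K₁).subgroupOf (K₁ ⊔ zpowers u))
    ((Subgroup.normal_subgroupOf_iff_le_normalizer hWR).2 hRN) hcR ?_ ?_
    ⟨x, hle hx.mem⟩ ?_ ?_
  · have := Nat.card_congr (Subgroup.subgroupOfEquivOfLe hWR).toEquiv
    rw [this]
    exact c₁.D.hW4
  · intro r hr
    rw [Subgroup.mem_subgroupOf]
    apply h.R_cent hz₁ hz₂ hu hun r.2
    refine Subgroup.mem_centralizer_iff.2 fun w hw => ?_
    have := hr ⟨w, hWR hw⟩ (by rw [Subgroup.mem_subgroupOf]; exact hw)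
    have e := congrArg Subtype.val this
    exact e.symm
  · apply Subtype.ext
    simpa using hx.pow3
  · intro w hw he
    have hw' : (w : G) ∈ wOf K₁ := hw
    have e := congrArg Subtype.val he
    have e2 : x * (w : G) * x⁻¹ = w := by simpa using e
    have := c₁.D.fpf hx hw' e2
    exact Subtype.ext this

theorem shape_one (hc : ∀ d ∈ CC T K₁, d = 1) : Nonempty (↥L₁ ≃* Equiv.Perm (Fin 4)) := by
  have c₁ := h.c₁
  have c₂ := h.c₂
  obtain ⟨u, hu, hun⟩ := h.exists_u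
  obtain ⟨⟨e⟩, hcR⟩ := h.R_S4 hz₁ hz₂ hu hun
  have hQ : QQ T K₁ = wOf K₁ := by
    apply le_antisymm _ c₁.W_le_Q
    intro r hr
    obtain ⟨w, hw, d, hd, er⟩ := h.Q_split hz₁ hz₂ hr
    rw [er, hc d hd, mul_one]
    exact hw
  have hcL := h.card_L hz₁ hz₂
  rw [hQ, c₁.D.hW4] at hcL
  have hle : K₁ ⊔ zpowers u ≤ L₁ :=
    sup_le c₁.h.hKL ((Subgroup.zpowers_le).2 (c₁.h.hT.1 (c₂.W_le_T hu)))
  have hEq : K₁ ⊔ zpowers u = L₁ := Subgroup.eq_of_le_of_card_ge hle (by rw [hcL, hcR])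
  exact ⟨(MulEquiv.subgroupCongr hEq.symm).trans e⟩

theorem shape_two {c : G} (hc : c ∈ CC T K₁) (hc1 : c ≠ 1) :
    Nonempty (↥L₁ ≃* Equiv.Perm (Fin 4) × Multiplicative (ZMod 2)) := by
  classical
  have c₁ := h.c₁
  have c₂ := h.c₂
  obtain ⟨u, hu, hun⟩ := h.exists_u
  obtain ⟨⟨e⟩, hcR⟩ := h.R_S4 hz₁ hz₂ hu hun
  have hcQ : c ∈ QQ T K₁ := CC_le_Q c₁ hc
  have hcs : c * c = 1 := h.CC_sq hz₁ hz₂ hc
  have hcW : c ∉ wOf K₁ := fun hm => hc1 (CC_inf_W c₁ hc hm)
  have hi : (wOf K₁).relIndex (QQ T K₁) = 2 := by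
    refine relIndex_eq_two c₁.W_le_Q ?_ hcQ hcW
    intro a ha b hb hna hnb
    obtain ⟨wa, hwa, da, hda, ea⟩ := h.Q_split hz₁ hz₂ ha
    obtain ⟨wb, hwb, db, hdb, eb⟩ := h.Q_split hz₁ hz₂ hb
    have hda1 : da ≠ 1 := by
      rintro rfl
      rw [mul_one] at ea
      exact hna (ea ▸ hwa)
    have hdb1 : db ≠ 1 := by
      rintro rfl
      rw [mul_one] at eb
      exact hnb (eb ▸ hwb)
    have e1 := h.CC_unique hz₁ hz₂ hda hc hda1 hc1
    have e2 := h.CC_unique hz₁ hz₂ hdb hc hdb1 hc1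
    rw [e1] at ea
    rw [e2] at eb
    have hcw : c * wb = wb * c := (Subgroup.mem_centralizer_iff.1 hcQ.2 wb hwb).symm
    have e3 : a * b = wa * wb := by
      rw [ea, eb]
      calc wa * c * (wb * c) = wa * (c * wb) * c := by group
        _ = wa * (wb * c) * c := by rw [hcw]
        _ = wa * wb * (c * c) := by group
        _ = wa * wb := by rw [hcs, mul_one]
    rw [e3]
    exact (wOf K₁).mul_mem hwa hwb
  have hcQ8 : Nat.card (QQ T K₁) = 8 := by
    have e1 := Cfsg.Agent.Lib.LocalEven2.card_mul_relIndex_of_le c₁.W_le_Q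
    rw [hi, c₁.D.hW4] at e1
    omega
  have hcL := h.card_L hz₁ hz₂
  rw [hcQ8] at hcL
  have hle : K₁ ⊔ zpowers u ≤ L₁ :=
    sup_le c₁.h.hKL ((Subgroup.zpowers_le).2 (c₁.h.hT.1 (c₂.W_le_T hu)))
  have hcL₁ : c ∈ L₁ := c₁.h.hT.1 hc.1
  have hcentL : ∀ l ∈ L₁, l * c = c * l := by
    intro l hl
    have hLle : L₁ ≤ centralizer ({c} : Set G) := by
      rw [h.L_eq hz₁ hz₂]
      refine sup_le ?_ ?_
      · intro k hk
        exact mem_c1.2 (Subgroup.mem_centralizer_iff.1 hc.2 k hk).symm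
      · intro t ht
        exact mem_c1.2 (comm_of_conj_eq (h.CC_central hz₁ hz₂ hc ht)).symm
    exact (mem_c1.1 (hLle hl)).symm
  let cc : ↥L₁ := ⟨c, hcL₁⟩
  have hccs : cc * cc = 1 := Subtype.ext hcs
  let ι : ↥(K₁ ⊔ zpowers u) →* ↥L₁ := Subgroup.inclusion hle
  let g : Multiplicative (ZMod 2) →* ↥L₁ := sgnHom cc hccs
  have hcomm : ∀ m n, Commute (ι m) (g n) := by
    intro m n
    rcases sgnHom_one cc hccs n with e1 | ⟨e1, -⟩
    · show ι m * g n = g n * ι m
      show ι m * sgnHom cc hccs n = sgnHom cc hccs n * ι m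
      rw [e1]; simp
    · show ι m * sgnHom cc hccs n = sgnHom cc hccs n * ι m
      rw [e1]
      exact Subtype.ext (hcentL _ (ι m).2)
  let f : ↥(K₁ ⊔ zpowers u) × Multiplicative (ZMod 2) →* ↥L₁ := MonoidHom.noncommCoprod ι g hcomm
  have hcR' : c ∉ K₁ ⊔ zpowers u := fun hm => hcW (h.R_cent hz₁ hz₂ hu hun hm hcQ.2)
  have hinj : Function.Injective f := by
    rw [injective_iff_map_eq_one]
    rintro ⟨r, n⟩ hrn
    have e1 : ι r * g n = 1 := hrn
    have e3 : g n = 1 ∨ (g n = cc ∧ n = Multiplicative.ofAdd 1) := sgnHom_one cc hccs n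
    rcases e3 with e3 | ⟨e3, e4⟩
    · rw [e3, mul_one] at e1
      have hr1 : r = 1 := by
        apply Subgroup.inclusion_injective hle
        rw [map_one]
        exact e1
      have hn1 : n = 1 := by
        rcases sgn_cases n with e5 | e5
        · exact e5
        · exfalso
          have : g n = cc := by
            show sgnHom cc hccs n = cc
            rw [e5]
            simp [sgnHom, sgn_ne]
          rw [e3] at this
          exact hc1 (congrArg Subtype.val this).symm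
      rw [hr1, hn1]; rfl
    · exfalso
      rw [e3] at e1
      apply hcR'
      have e5 : ((ι r : ↥L₁) : G) * c = 1 := congrArg Subtype.val e1
      have e6 : ((ι r : ↥L₁) : G) = r := rfl
      rw [e6] at e5
      have e7 : c = (r : G)⁻¹ := (inv_eq_of_mul_eq_one_right e5).symm
      rw [e7]
      exact (K₁ ⊔ zpowers u).inv_mem r.2
  have hcard : Nat.card ↥L₁ ≤ Nat.card (↥(K₁ ⊔ zpowers u) × Multiplicative (ZMod 2)) := by
    rw [Nat.card_prod, hcR, hcL]
    have : Nat.card (Multiplicative (ZMod 2)) = 2 := by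
      rw [Nat.card_congr Multiplicative.toAdd, Nat.card_zmod]
    rw [this]
  have hb : Function.Bijective f := hinj.bijective_of_nat_card_le hcard
  let F := MulEquiv.ofBijective f hb
  exact ⟨F.symm.trans (MulEquiv.prodCongr e (MulEquiv.refl _))⟩

theorem shapes :
    (Nonempty (↥L₁ ≃* Equiv.Perm (Fin 4)) ∧ Nonempty (↥L₂ ≃* Equiv.Perm (Fin 4))) ∨
      (Nonempty (↥L₁ ≃* Equiv.Perm (Fin 4) × Multiplicative (ZMod 2)) ∧
        Nonempty (↥L₂ ≃* Equiv.Perm (Fin 4) × Multiplicative (ZMod 2))) := by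
  by_cases hc : ∀ d ∈ CC T K₁, d = 1
  · left
    refine ⟨h.shape_one hz₁ hz₂ hc, h.symm.shape_one hz₂ hz₁ ?_⟩
    intro d hd
    by_contra hd1
    obtain ⟨c₁, hc₁, e⟩ := h.symm.CC_shape hz₂ hz₁ hd hd1
    rw [hc c₁ hc₁, mul_one] at e
    exact hd1 (CC_inf_W h.c₂ hd (e ▸ hz₂.mem))
  · push Not at hc
    obtain ⟨c, hc, hc1⟩ := hc
    right
    obtain ⟨c₂, hc₂, e⟩ := h.CC_shape hz₁ hz₂ hc hc1
    have hc₂1 : c₂ ≠ 1 := by
      rintro rfl
      rw [mul_one] at e
      exact hc1 (CC_inf_W h.c₁ hc (e ▸ hz₁.mem))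
    exact ⟨h.shape_two hz₁ hz₂ hc hc1, h.symm.shape_two hz₂ hz₁ hc₂ hc₂1⟩

end Config

end Cfsg.Agent.Lib.LocalEven2.JC
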