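import Cfsg.Agent.Lib.LocalEven2.JC5

/-!
# A four-group criterion

An element `x` of order 3 acting fixed-point-freely on an elementary abelian 2-group `W` inside `T`, inverted by
an element `a` of a largest elementary abelian subgroup `A` of `T`: then `W` has order 4.
-/

set_option autoImplicit false
set_option linter.unusedSectionVars false
set_option linter.unusedVariables false

namespace Cfsg.Agent.Lib.LocalEven2.JC

open Subgroup Cfsg Cfsg.Agent.Lib.PLocal
open Cfsg.Agent.Lib.OddLocal (MaxEA thompsonSubgroupOf_eq le_thompsonSubgroupOf MaxEA_nonempty isElementaryAbelian_map)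
open Cfsg.Agent.Lib.LocalEven (cj cj_inv_cj cj_cj_inv le_cj_iff cj_mono isPGroup_cj cj_eq_of_mem_normalizer)
open scoped commutatorElement

variable {G : Type*} [Group G] [Finite G]

theorem mem_c1 {y a : G} : y ∈ centralizer ({a} : Set G) ↔ a * y = y * a := by
  rw [Subgroup.mem_centralizer_iff]
  constructor
  · intro h
    exact h a rfl
  · rintro h _ rfl
    exact h

/-- Fixed points of a 2-group on a coset space. -/
theorem exists_fixed_mod {S W₀ U₀ : Subgroup G} (hS : IsPGroup 2 S) (hW : IsPGroup 2 W₀)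
    (hn : S ≤ normalizer (W₀ : Set G)) (hnU : S ≤ normalizer (U₀ : Set G)) (hU : U₀ ≤ W₀) (hne : ¬ W₀ ≤ U₀) :
    ∃ v ∈ W₀, v ∉ U₀ ∧ ∀ s ∈ S, v⁻¹ * (s * v * s⁻¹) ∈ U₀ := by
  classical
  set U' := U₀.subgroupOf W₀ with hU'
  let σ : S → ↥W₀ → ↥W₀ := fun s v => ⟨(s : G) * v * (s : G)⁻¹, (Subgroup.mem_normalizer_iff.1 (hn s.2) v).1 v.2⟩
  have hσ1 : ∀ v, σ 1 v = v := by
    intro v
    apply Subtype.ext
    show ((1 : S) : G) * v * ((1 : S) : G)⁻¹ = v
    simp
  have hσ2 : ∀ s t v, σ (s * t) v = σ s (σ t v) := by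
    intro s t v
    apply Subtype.ext
    show ((s * t : S) : G) * v * ((s * t : S) : G)⁻¹ = (s : G) * ((t : G) * v * (t : G)⁻¹) * (s : G)⁻¹
    simp only [Subgroup.coe_mul]
    group
  have hσU : ∀ s (a b : ↥W₀), a⁻¹ * b ∈ U' → (σ s a)⁻¹ * σ s b ∈ U' := by
    intro s a b hab
    have h1 : ((a⁻¹ * b : ↥W₀) : G) ∈ U₀ := hab
    have h2 := (Subgroup.mem_normalizer_iff.1 (hnU s.2) _).1 h1
    show (((σ s a)⁻¹ * σ s b : ↥W₀) : G) ∈ U₀
    have e : (((σ s a)⁻¹ * σ s b : ↥W₀) : G) = (s : G) * ((a⁻¹ * b : ↥W₀) : G) * (s : G)⁻¹ := by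
      show ((s : G) * a * (s : G)⁻¹)⁻¹ * ((s : G) * b * (s : G)⁻¹) = _
      simp only [Subgroup.coe_mul, Subgroup.coe_inv]
      group
    rw [e]
    exact h2
  let mapq : S → (↥W₀ ⧸ U') → (↥W₀ ⧸ U') := fun s q =>
    Quotient.map' (σ s) (fun a b hab => by
      rw [QuotientGroup.leftRel_apply] at hab ⊢
      exact hσU s a b hab) q
  letI act : MulAction S (↥W₀ ⧸ U') :=
    { smul := mapq
      one_smul := fun q => by
        induction q using QuotientGroup.induction_on with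
        | H v =>
          show ((σ 1 v : ↥W₀) : ↥W₀ ⧸ U') = _
          rw [hσ1]
      mul_smul := fun s t q => by
        induction q using QuotientGroup.induction_on with
        | H v =>
          show ((σ (s * t) v : ↥W₀) : ↥W₀ ⧸ U') = ((σ s (σ t v) : ↥W₀) : ↥W₀ ⧸ U')
          rw [hσ2] }
  have hfix1 : ((1 : ↥W₀) : ↥W₀ ⧸ U') ∈ MulAction.fixedPoints S (↥W₀ ⧸ U') := by
    intro s
    show ((σ s 1 : ↥W₀) : ↥W₀ ⧸ U') = _
    have : σ s 1 = 1 := by
      apply Subtype.ext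
      show (s : G) * 1 * (s : G)⁻¹ = 1
      simp
    rw [this]
  have hd : 2 ∣ Nat.card (↥W₀ ⧸ U') := by
    have h1 : Nat.card (↥W₀ ⧸ U') = U'.index := rfl
    rw [h1]
    obtain ⟨n, hn'⟩ := IsPGroup.iff_card.1 hW
    have h2 : U'.index ∣ 2 ^ n := by
      rw [← hn']
      exact Subgroup.index_dvd_card _
    obtain ⟨m, _, hm⟩ := (Nat.dvd_prime_pow Nat.prime_two).1 h2
    rcases m with _ | m
    · exfalso
      rw [pow_zero, Subgroup.index_eq_one] at hm
      apply hne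
      intro w hw
      have : (⟨w, hw⟩ : ↥W₀) ∈ U' := by rw [hm]; trivial
      exact this
    · rw [hm, pow_succ]
      exact dvd_mul_left _ _
  obtain ⟨q, hq, hne2⟩ := IsPGroup.exists_fixed_point_of_prime_dvd_card_of_fixed_point (α := ↥W₀ ⧸ U') hS hd hfix1
  induction q using QuotientGroup.induction_on with
  | H v =>
    refine ⟨v, v.2, ?_, ?_⟩
    · intro hv
      apply hne2
      rw [QuotientGroup.eq]
      show (((1 : ↥W₀)⁻¹ * v : ↥W₀) : G) ∈ U₀
      simpa using hv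
    · intro s hs
      have h1 := hq ⟨s, hs⟩
      have h2 : ((σ ⟨s, hs⟩ v : ↥W₀) : ↥W₀ ⧸ U') = (v : ↥W₀ ⧸ U') := h1
      rw [eq_comm, QuotientGroup.eq] at h2
      exact h2

section four

variable {W T A A₀ : Subgroup G} {x a : G}

/-- The data of the four-group criterion. -/
structure Four (W T A A₀ : Subgroup G) (x a : G) : Prop where
  hWE : IsElementaryAbelian 2 W
  hWT : W ≤ T
  hA : A ∈ MaxEA 2 T
  ha : a ∈ A
  hxW : ∀ w ∈ W, x * w * x⁻¹ ∈ W
  hx3 : x ^ 3 = 1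
  fpf : ∀ w ∈ W, x * w * x⁻¹ = w → w = 1
  hax : a * x * a⁻¹ = x⁻¹
  hAW : A ≤ normalizer (W : Set G)
  hA₀ : A₀ ≤ A
  hcard : Nat.card A ≤ 2 * Nat.card A₀
  hcomm : ∀ b ∈ A₀, ∀ w ∈ W, b * (x * w * x⁻¹) * b⁻¹ = x * (b * w * b⁻¹) * x⁻¹
  hsplit : ∀ b ∈ A, b ∈ A₀ ∨ a * b ∈ A₀
  hW1 : W ≠ ⊥

namespace Four

variable (h : Four W T A A₀ x a)
include h

theorem Aab {b c : G} (hb : b ∈ A) (hc : c ∈ A) : b * c = c * b :=
  (Cfsg.Agent.Lib.PLocal.isEA_iff.1 h.hA.2.1).1 b hb c hc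

theorem Wab {b c : G} (hb : b ∈ W) (hc : c ∈ W) : b * c = c * b :=
  (Cfsg.Agent.Lib.PLocal.isEA_iff.1 h.hWE).1 b hb c hc

theorem W2 {b : G} (hb : b ∈ W) : b * b = 1 := by
  have := (Cfsg.Agent.Lib.PLocal.isEA_iff.1 h.hWE).2 b hb
  rwa [pow_two] at this

theorem hWp : IsPGroup 2 W := isPGroup_of_isEA h.hWE

theorem hAp : IsPGroup 2 A := isPGroup_of_isEA h.hA.2.1

theorem x_inv_W {w : G} (hw : w ∈ W) : x⁻¹ * w * x⁻¹⁻¹ ∈ W := by
  have hx2 : x⁻¹ = x * x := by
    apply inv_eq_of_mul_eq_one_left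
    rw [← h.hx3, pow_succ, pow_two]
  rw [inv_inv, hx2]
  have h1 := h.hxW _ (h.hxW w hw)
  have e : x * x * w * (x * x)⁻¹ = x * (x * w * x⁻¹) * x⁻¹ := by group
  have h3 : x = (x * x)⁻¹ := by
    rw [← hx2, inv_inv]
  have e2 : x * x * w * x = x * (x * w * x⁻¹) * x⁻¹ := by
    rw [← e, ← h3]
  rw [e2]
  exact h1

/-- Fixed points of `B`. -/
theorem inv_x {B : Subgroup G} (hB : B ≤ A₀) {u : G} (hu : u ∈ W ⊓ centralizer (B : Set G)) :
    x * u * x⁻¹ ∈ W ⊓ centralizer (B : Set G) := by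
  refine ⟨h.hxW u hu.1, Subgroup.mem_centralizer_iff.2 fun b hb => ?_⟩
  have h1 := h.hcomm b (hB hb) u hu.1
  have h2 : b * u * b⁻¹ = u := by
    rw [Subgroup.mem_centralizer_iff.1 hu.2 b hb]; group
  rw [h2] at h1
  calc b * (x * u * x⁻¹) = (b * (x * u * x⁻¹) * b⁻¹) * b := by group
    _ = x * u * x⁻¹ * b := by rw [h1]

/-- `|C_U(a)|² ≤ |U|`. -/
theorem card_sq {B : Subgroup G} (hB : B ≤ A₀) :
    Nat.card (W ⊓ centralizer (B : Set G) ⊓ centralizer ({a} : Set G) : Subgroup G) ^ 2 ≤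
      Nat.card (W ⊓ centralizer (B : Set G) : Subgroup G) := by
  set U := W ⊓ centralizer (B : Set G) with hU
  set Ua := U ⊓ centralizer ({a} : Set G) with hUa
  set Ux := Ua.map (MulAut.conj x).toMonoidHom with hUx
  have h1 := Cfsg.Agent.Lib.LocalEven2.card_mul_card_le Ua Ux
  have hcx : Nat.card Ux = Nat.card Ua := Subgroup.card_map_of_injective (MulAut.conj x).injective
  have hbot : Ua ⊓ Ux = ⊥ := by
    rw [eq_bot_iff]
    rintro u ⟨hu1, ⟨u', hu', rfl⟩⟩
    have hu'W : u' ∈ W := hu'.1.1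
    have h2 : a * (x * u' * x⁻¹) = (x * u' * x⁻¹) * a := mem_c1.1 hu1.2
    have h3 : a * u' = u' * a := mem_c1.1 hu'.2
    have h4 : a * u' * a⁻¹ = u' := by rw [h3]; group
    have h5 : a * (x * u' * x⁻¹) * a⁻¹ = x⁻¹ * u' * x := by
      calc a * (x * u' * x⁻¹) * a⁻¹ = (a * x * a⁻¹) * (a * u' * a⁻¹) * (a * x * a⁻¹)⁻¹ := by group
        _ = x⁻¹ * u' * x := by rw [h.hax, h4]; group
    have h6 : x * u' * x⁻¹ = x⁻¹ * u' * x := by
      rw [← h5, h2]; group
    have hx2 : x * x * x = 1 := by rw [← h.hx3, pow_succ, pow_two]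
    have hxi : x * x = x⁻¹ := by
      symm
      apply inv_eq_of_mul_eq_one_left
      exact hx2
    have hxii : x⁻¹ * x⁻¹ = x := by
      rw [← hxi]
      calc x * x * (x * x) = (x * x * x) * x := by group
        _ = x := by rw [hx2, one_mul]
    have h7 : x⁻¹ * u' * x = u' := by
      calc x⁻¹ * u' * x = (x * x) * u' * (x⁻¹ * x⁻¹) := by rw [hxi, hxii]
        _ = x * (x * u' * x⁻¹) * x⁻¹ := by group
        _ = x * (x⁻¹ * u' * x) * x⁻¹ := by rw [h6]
        _ = u' := by group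
    have h8 : x * u' * x⁻¹ = u' := h6.trans h7
    have h9 := h.fpf u' hu'W h8
    show x * u' * x⁻¹ ∈ (⊥ : Subgroup G)
    rw [h9]
    simp
  have hle : Ua ⊔ Ux ≤ U := by
    refine sup_le inf_le_left ?_
    rintro _ ⟨u, hu, rfl⟩
    exact h.inv_x hB hu.1
  have h2 := Subgroup.card_le_of_le hle
  rw [hbot, Subgroup.card_bot, mul_one, hcx] at h1
  rw [pow_two]
  exact h1.trans h2

theorem card_B_le {B : Subgroup G} (hB : B ≤ A) :
    Nat.card B * Nat.card (W ⊓ centralizer (B : Set G) : Subgroup G) ≤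
      Nat.card A * Nat.card (W ⊓ centralizer (A : Set G) : Subgroup G) := by
  set U := W ⊓ centralizer (B : Set G) with hU
  have h1 := Cfsg.Agent.Lib.LocalEven2.card_mul_card_le B U
  have hBE : IsElementaryAbelian 2 B := isEA_mono hB h.hA.2.1
  have hUE : IsElementaryAbelian 2 U := isEA_mono inf_le_left h.hWE
  have hc : ∀ b ∈ B, ∀ u ∈ U, b * u = u * b := fun b hb u hu =>
    (Subgroup.mem_centralizer_iff.1 hu.2 b hb)
  have hE := isEA_sup hBE hUE hc
  have hle : B ⊔ U ≤ T := sup_le (hB.trans h.hA.1) (inf_le_left.trans h.hWT)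
  have h2 : Nat.card (B ⊔ U : Subgroup G) ≤ Nat.card A := h.hA.2.2 _ hle hE
  have h3 : B ⊓ U ≤ W ⊓ centralizer (A : Set G) := by
    rintro u ⟨hu1, hu2⟩
    refine ⟨hu2.1, Subgroup.mem_centralizer_iff.2 fun b hb => ?_⟩
    exact h.Aab hb (hB hu1)
  have h4 := Subgroup.card_le_of_le h3
  exact h1.trans (Nat.mul_le_mul h2 h4)

theorem U_a_le : W ⊓ centralizer (A₀ : Set G) ⊓ centralizer ({a} : Set G) ≤ W ⊓ centralizer (A : Set G) := by
  rintro u ⟨⟨hu1, hu2⟩, hu3⟩
  refine ⟨hu1, Subgroup.mem_centralizer_iff.2 fun b hb => ?_⟩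
  have ha : a * u = u * a := mem_c1.1 hu3
  rcases h.hsplit b hb with h0 | h0
  · exact Subgroup.mem_centralizer_iff.1 hu2 b h0
  · have h1 := Subgroup.mem_centralizer_iff.1 hu2 _ h0
    have : a * (b * u) = a * (u * b) := by
      calc a * (b * u) = a * b * u := by group
        _ = u * (a * b) := h1
        _ = (u * a) * b := by group
        _ = (a * u) * b := by rw [ha]
        _ = a * (u * b) := by group
    exact mul_left_cancel this

theorem card_U0_le : Nat.card (W ⊓ centralizer (A : Set G) : Subgroup G) ≤ 2 := by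
  set U₀ := W ⊓ centralizer (A : Set G) with hU₀
  set U := W ⊓ centralizer (A₀ : Set G) with hU
  have h1 : Nat.card A₀ * Nat.card U ≤ Nat.card A * Nat.card U₀ := h.card_B_le h.hA₀
  have h2 := h.card_sq (le_refl A₀)
  have h3 : Nat.card (U ⊓ centralizer ({a} : Set G) : Subgroup G) ≤ Nat.card U₀ :=
    Subgroup.card_le_of_le h.U_a_le
  have h4 : U₀ ≤ U ⊓ centralizer ({a} : Set G) := by
    intro u hu
    refine ⟨⟨hu.1, Subgroup.mem_centralizer_iff.2 fun b hb => Subgroup.mem_centralizer_iff.1 hu.2 b (h.hA₀ hb)⟩, ?_⟩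
    exact mem_c1.2 (Subgroup.mem_centralizer_iff.1 hu.2 a h.ha)
  have h5 := Subgroup.card_le_of_le h4
  have h6 : Nat.card (U ⊓ centralizer ({a} : Set G) : Subgroup G) = Nat.card U₀ := le_antisymm h3 h5
  rw [h6] at h2
  have hpos0 : 0 < Nat.card A₀ := Nat.card_pos
  have hposU : 0 < Nat.card U₀ := Nat.card_pos
  have h7 : Nat.card A₀ * Nat.card U ≤ Nat.card A₀ * (2 * Nat.card U₀) := by
    calc Nat.card A₀ * Nat.card U ≤ Nat.card A * Nat.card U₀ := h1
      _ ≤ (2 * Nat.card A₀) * Nat.card U₀ := Nat.mul_le_mul_right _ h.hcard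
      _ = Nat.card A₀ * (2 * Nat.card U₀) := by ring
  have h8 : Nat.card U ≤ 2 * Nat.card U₀ := Nat.le_of_mul_le_mul_left h7 hpos0
  have h9 : Nat.card U₀ * Nat.card U₀ ≤ 2 * Nat.card U₀ := by
    rw [← pow_two]
    exact h2.trans h8
  exact Nat.le_of_mul_le_mul_right h9 hposU

theorem two_dvd_W : 2 ∣ Nat.card W := by
  obtain ⟨n, hn⟩ := IsPGroup.iff_card.1 h.hWp
  rw [hn]
  rcases n with _ | n
  · exfalso
    rw [pow_zero] at hn
    exact h.hW1 (Subgroup.eq_bot_of_card_eq W hn)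
  · rw [pow_succ]
    exact dvd_mul_left _ _

theorem card_U0 : Nat.card (W ⊓ centralizer (A : Set G) : Subgroup G) = 2 := by
  obtain ⟨w, hw, hw1, hfix⟩ := exists_fixed_W h.hAp h.hAW h.two_dvd_W
  have h1 : w ∈ W ⊓ centralizer (A : Set G) := by
    refine ⟨hw, Subgroup.mem_centralizer_iff.2 fun b hb => ?_⟩
    have := hfix b hb
    calc b * w = (b * w * b⁻¹) * b := by group
      _ = w * b := by rw [this]
  have h2 : Nat.card (W ⊓ centralizer (A : Set G) : Subgroup G) ≠ 1 := by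
    intro hc
    have := Subgroup.eq_bot_of_card_eq _ hc
    rw [this] at h1
    exact hw1 h1
  have h3 := h.card_U0_le
  have h4 : 0 < Nat.card (W ⊓ centralizer (A : Set G) : Subgroup G) := Nat.card_pos
  omega

theorem card_W_le_sq : Nat.card W ≤ Nat.card (W ⊓ centralizer ({a} : Set G) : Subgroup G) ^ 2 := by
  set W₀ := W ⊓ centralizer ({a} : Set G) with hW₀
  have hconj : ∀ w ∈ W, a * w * a⁻¹ ∈ W := fun w hw => (mem_normalizer_iff.1 (h.hAW h.ha) w).1 hw
  have ha2 : a * a = 1 := by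
    have := (isEA_iff.1 h.hA.2.1).2 a h.ha
    rwa [pow_two] at this
  have hai : a⁻¹ = a := inv_eq_of_mul_eq_one_left ha2
  let f : ↥W →* ↥W := MonoidHom.mk' (fun w => ⟨(w : G) * (a * w * a⁻¹), W.mul_mem w.2 (hconj w w.2)⟩) (by
    intro u v
    apply Subtype.ext
    show ((u : G) * v) * (a * ((u : G) * v) * a⁻¹) = ((u : G) * (a * u * a⁻¹)) * ((v : G) * (a * v * a⁻¹))
    have := h.Wab (hconj u u.2) v.2
    calc ((u : G) * v) * (a * ((u : G) * v) * a⁻¹) = u * v * ((a * u * a⁻¹) * (a * v * a⁻¹)) := by group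
      _ = u * (v * (a * u * a⁻¹)) * (a * v * a⁻¹) := by group
      _ = u * ((a * u * a⁻¹) * v) * (a * v * a⁻¹) := by rw [this]
      _ = _ := by group)
  have hf : ∀ w : ↥W, ((f w : ↥W) : G) = (w : G) * (a * w * a⁻¹) := fun _ => rfl
  have h1 : Nat.card f.ker ≤ Nat.card W₀ := by
    have h2 : f.ker.map W.subtype ≤ W₀ := by
      rintro _ ⟨w, hw, rfl⟩
      refine ⟨w.2, mem_c1.2 ?_⟩
      have h3 : ((f w : ↥W) : G) = 1 := by rw [hw]; rfl
      rw [hf] at h3
      have h4 : a * (w : G) * a⁻¹ = w := by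
        have h5 := h.W2 w.2
        have h6 : a * (w : G) * a⁻¹ = (w : G)⁻¹ := eq_inv_of_mul_eq_one_right h3
        rw [h6]
        exact inv_eq_of_mul_eq_one_left h5
      show a * (w : G) = w * a
      calc a * (w : G) = (a * w * a⁻¹) * a := by group
        _ = w * a := by rw [h4]
    have h3 := Subgroup.card_le_of_le h2
    rwa [Subgroup.card_map_of_injective W.subtype_injective] at h3
  have h2 : Nat.card f.range ≤ Nat.card W₀ := by
    have h2 : f.range.map W.subtype ≤ W₀ := by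
      rintro _ ⟨_, ⟨w, rfl⟩, rfl⟩
      refine ⟨(f w).2, mem_c1.2 ?_⟩
      show a * ((f w : ↥W) : G) = ((f w : ↥W) : G) * a
      rw [hf]
      have := h.Wab w.2 (hconj w w.2)
      calc a * ((w : G) * (a * w * a⁻¹)) = (a * w * a⁻¹) * (a * (a * w * a⁻¹) * a⁻¹) * a := by group
        _ = (a * w * a⁻¹) * ((a * a) * w * (a * a)⁻¹) * a := by group
        _ = (a * w * a⁻¹) * w * a := by rw [ha2]; group
        _ = (w : G) * (a * w * a⁻¹) * a := by rw [this]
    have h3 := Subgroup.card_le_of_le h2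
    rwa [Subgroup.card_map_of_injective W.subtype_injective] at h3
  have h3 : Nat.card f.ker * Nat.card f.range = Nat.card W := by
    rw [← Subgroup.index_ker f]
    exact f.ker.card_mul_index
  rw [← h3, pow_two]
  exact Nat.mul_le_mul h1 h2

theorem card_W : Nat.card W = 4 := by
  set W₀ := W ⊓ centralizer ({a} : Set G) with hW₀
  set U₀ := W ⊓ centralizer (A : Set G) with hU₀
  have hU₀2 : Nat.card U₀ = 2 := h.card_U0
  have hle : U₀ ≤ W₀ := fun u hu => ⟨hu.1, mem_c1.2 (Subgroup.mem_centralizer_iff.1 hu.2 a h.ha)⟩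
  by_cases hW : W₀ ≤ U₀
  · have h1 : Nat.card W₀ ≤ 2 := by
      rw [← hU₀2]
      exact Subgroup.card_le_of_le hW
    have h2 : Nat.card W ≤ 4 := by
      calc Nat.card W ≤ Nat.card W₀ ^ 2 := h.card_W_le_sq
        _ ≤ 2 ^ 2 := Nat.pow_le_pow_left h1 2
        _ = 4 := by norm_num
    obtain ⟨n, hn⟩ := IsPGroup.iff_card.1 h.hWp
    have h3 : n ≠ 0 := by
      rintro rfl
      rw [pow_zero] at hn
      exact h.hW1 (Subgroup.eq_bot_of_card_eq W hn)
    have h4 : n ≠ 1 := by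
      rintro rfl
      rw [pow_one] at hn
      obtain ⟨y, hy1, hy2⟩ := (Nat.card_eq_two_iff' (1 : ↥W)).1 hn
      have e : ∀ z : ↥W, z ≠ 1 → z = y := hy2
      have h5 : (⟨x * y * x⁻¹, h.hxW y y.2⟩ : ↥W) = y := by
        apply e
        intro h6
        have h7 : x * (y : G) * x⁻¹ = 1 := congrArg Subtype.val h6
        have h8 : (y : G) = 1 := by
          have : (y : G) = x⁻¹ * (x * y * x⁻¹) * x := by group
          rw [this, h7]; group
        exact hy1 (Subtype.ext h8)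
      have h6 : (y : G) = 1 := h.fpf y y.2 (congrArg Subtype.val h5)
      exact hy1 (Subtype.ext h6)
    have h5 : n ≤ 2 := by
      by_contra hh
      have h6 : 2 ^ 3 ≤ 2 ^ n := Nat.pow_le_pow_right (by norm_num) (by omega)
      rw [← hn] at h6
      omega
    have h6 : n = 2 := by omega
    rw [hn, h6]
    norm_num
  · exfalso
    have hA₀p : IsPGroup 2 A₀ := h.hAp.to_le h.hA₀
    have hW₀p : IsPGroup 2 W₀ := h.hWp.to_le inf_le_left
    have hN1 : A₀ ≤ normalizer (W₀ : Set G) := by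
      intro b hb
      have hbA := h.hA₀ hb
      apply Cfsg.Agent.Lib.Coprime.mem_normalizer_of_conj_le
      rintro u ⟨hu1, hu2⟩
      refine ⟨(mem_normalizer_iff.1 (h.hAW hbA) u).1 hu1, mem_c1.2 ?_⟩
      have h2 : a * u = u * a := mem_c1.1 hu2
      have h3 : a * b = b * a := h.Aab h.ha hbA
      have h4 : a * b⁻¹ = b⁻¹ * a := by
        calc a * b⁻¹ = b⁻¹ * (b * a) * b⁻¹ := by group
          _ = b⁻¹ * (a * b) * b⁻¹ := by rw [h3]
          _ = b⁻¹ * a := by group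
      calc a * (b * u * b⁻¹) = (a * b) * u * b⁻¹ := by group
        _ = b * (a * u) * b⁻¹ := by rw [h3]; group
        _ = b * (u * a) * b⁻¹ := by rw [h2]
        _ = b * u * (a * b⁻¹) := by group
        _ = b * u * (b⁻¹ * a) := by rw [h4]
        _ = b * u * b⁻¹ * a := by group
    have hfix : ∀ b ∈ A, ∀ u ∈ U₀, b * u * b⁻¹ = u := by
      intro b hb u hu
      rw [Subgroup.mem_centralizer_iff.1 hu.2 b hb]; group
    have hN2 : A₀ ≤ normalizer (U₀ : Set G) := by
      intro b hb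
      apply Cfsg.Agent.Lib.Coprime.mem_normalizer_of_conj_le
      intro u hu
      rw [hfix b (h.hA₀ hb) u hu]
      exact hu
    obtain ⟨v, hv, hvU, hvs⟩ := exists_fixed_mod hA₀p hW₀p hN1 hN2 hle hW
    set B := A₀ ⊓ centralizer ({v} : Set G) with hB
    have hBA₀ : B ≤ A₀ := inf_le_left
    have hBA : B ≤ A := hBA₀.trans h.hA₀
    have hd1 : ∀ s ∈ A₀, s ∉ B → v⁻¹ * (s * v * s⁻¹) ∉ (⊥ : Subgroup G) := by
      intro s hs hsB h0
      apply hsB
      refine ⟨hs, mem_c1.2 ?_⟩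
      have h1 : v⁻¹ * (s * v * s⁻¹) = 1 := h0
      have h2 : s * v * s⁻¹ = v := (inv_mul_eq_one.1 h1).symm
      calc v * s = (s * v * s⁻¹) * s := by rw [h2]
        _ = s * v := by group
    have hcB : Nat.card A₀ ≤ 2 * Nat.card B := by
      apply card_le_two_mul_of_mul_mem inf_le_left
      intro s hs t ht hsB htB
      refine ⟨A₀.mul_mem hs ht, mem_c1.2 ?_⟩
      have hcU : Nat.card U₀ ≤ 2 * Nat.card (⊥ : Subgroup G) := by
        rw [hU₀2, Subgroup.card_bot]
      have h1 := mul_mem_of_card_le_two (bot_le : (⊥ : Subgroup G) ≤ U₀) hcU (hvs s hs) (hvs t ht)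
        (hd1 s hs hsB) (hd1 t ht htB)
      have h2 : (v⁻¹ * (s * v * s⁻¹)) * (v⁻¹ * (t * v * t⁻¹)) = 1 := h1
      have hfx := hfix s (h.hA₀ hs) _ (hvs t ht)
      have h3 : (s * t) * v * (s * t)⁻¹ = v := by
        calc (s * t) * v * (s * t)⁻¹ = (s * v * s⁻¹) * (s * (v⁻¹ * (t * v * t⁻¹)) * s⁻¹) := by group
          _ = (s * v * s⁻¹) * (v⁻¹ * (t * v * t⁻¹)) := by rw [hfx]
          _ = v * ((v⁻¹ * (s * v * s⁻¹)) * (v⁻¹ * (t * v * t⁻¹))) := by group
          _ = v := by rw [h2, mul_one]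
      calc v * (s * t) = ((s * t) * v * (s * t)⁻¹) * (s * t) := by rw [h3]
        _ = (s * t) * v := by group
    set U' := W ⊓ centralizer (B : Set G) with hU'
    set Ua := U' ⊓ centralizer ({a} : Set G) with hUa
    have hle2 : U₀ ≤ Ua := by
      intro u hu
      exact ⟨⟨hu.1, Subgroup.mem_centralizer_iff.2 fun b hb => Subgroup.mem_centralizer_iff.1 hu.2 b (hBA hb)⟩,
        mem_c1.2 (Subgroup.mem_centralizer_iff.1 hu.2 a h.ha)⟩
    have hvUa : v ∈ Ua := by
      refine ⟨⟨hv.1, Subgroup.mem_centralizer_iff.2 fun b hb => ?_⟩, hv.2⟩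
      exact (mem_c1.1 hb.2).symm
    have h4 : 4 ≤ Nat.card Ua := by
      obtain ⟨k, hk⟩ := Subgroup.card_dvd_of_le hle2
      rw [hU₀2] at hk
      have hk0 : k ≠ 0 := by
        rintro rfl
        have : 0 < Nat.card Ua := Nat.card_pos
        omega
      have hk1 : k ≠ 1 := by
        rintro rfl
        have : U₀ = Ua := Subgroup.eq_of_le_of_card_ge hle2 (by omega)
        exact hvU (this ▸ hvUa)
      have : 2 ≤ k := by omega
      omega
    have h5 := h.card_sq hBA₀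
    have h6 := h.card_B_le hBA
    rw [hU₀2] at h6
    have hposB : 0 < Nat.card B := Nat.card_pos
    have h7 : Nat.card B * Nat.card U' ≤ Nat.card B * 8 := by
      calc Nat.card B * Nat.card U' ≤ Nat.card A * 2 := h6
        _ ≤ (2 * Nat.card A₀) * 2 := Nat.mul_le_mul_right _ h.hcard
        _ ≤ (2 * (2 * Nat.card B)) * 2 := Nat.mul_le_mul_right _ (Nat.mul_le_mul_left _ hcB)
        _ = Nat.card B * 8 := by ring
    have h8 := Nat.le_of_mul_le_mul_left h7 hposB
    have h9 : 16 ≤ Nat.card Ua ^ 2 := by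
      calc 16 = 4 ^ 2 := by norm_num
        _ ≤ _ := Nat.pow_le_pow_left h4 2
    exact absurd (h9.trans (h5.trans h8)) (by norm_num)

end Four

end four

end Cfsg.Agent.Lib.LocalEven2.JC
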