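import Cfsg.Agent.Lib.LocalEven2.JC6

/-!
# Existence of `J(T)`-components: the group `K`
-/

set_option autoImplicit false
set_option linter.unusedSectionVars false
set_option linter.unusedVariables false

namespace Cfsg.Agent.Lib.LocalEven2.JC

open Subgroup Cfsg Cfsg.Agent.Lib.PLocal
open Cfsg.Agent.Lib.OddLocal (MaxEA thompsonSubgroupOf_eq le_thompsonSubgroupOf MaxEA_nonempty isElementaryAbelian_map)
open Cfsg.Agent.Lib.LocalEven (cj cj_inv_cj cj_cj_inv le_cj_iff cj_mono isPGroup_cj cj_eq_of_mem_normalizer)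
open scoped commutatorElement

variable {G : Type*} [Group G] [Finite G]

theorem zp3 {y z : G} (hy : y ∈ zpowers z) (h3 : z ^ 3 = 1) : y = 1 ∨ y = z ∨ y = z⁻¹ := by
  obtain ⟨n, rfl⟩ := Subgroup.mem_zpowers_iff.1 hy
  have hn3 : n = 3 * (n / 3) + n % 3 := by omega
  have h3' : z ^ (3 : ℤ) = 1 := by
    have : z ^ (3 : ℤ) = z ^ (3 : ℕ) := by norm_cast
    rw [this, h3]
  have hxn : z ^ n = z ^ (n % 3) := by
    conv_lhs => rw [hn3]
    rw [zpow_add, zpow_mul, h3', one_zpow, one_mul]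
  rw [hxn]
  have h0 : 0 ≤ n % 3 := Int.emod_nonneg _ (by norm_num)
  have h3 : n % 3 < 3 := Int.emod_lt_of_pos _ (by norm_num)
  have hcases : n % 3 = 0 ∨ n % 3 = 1 ∨ n % 3 = 2 := by omega
  rcases hcases with e | e | e
  · left; rw [e]; simp
  · right; left; rw [e]; simp
  · right; right; rw [e]
    have e2 : z ^ (2 : ℤ) = z * z := by
      rw [show (2 : ℤ) = ((2 : ℕ) : ℤ) by norm_num, zpow_natCast, pow_two]
    rw [e2]
    symm
    apply inv_eq_of_mul_eq_one_left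
    rw [← ‹z ^ 3 = 1›, pow_succ, pow_two]

theorem relIndex_three {K O : Subgroup G} {x : G} (hOK : O ≤ K) (hn : K ≤ normalizer (O : Set G)) (hx : x ∈ K)
    (hx3 : x ^ 3 = 1) (hxO : x ∉ O) (htri : ∀ k ∈ K, k ∈ O ∨ x * k ∈ O ∨ x⁻¹ * k ∈ O) : O.relIndex K = 3 := by
  set O' := O.subgroupOf K with hO'
  haveI hnn : O'.Normal := (Subgroup.normal_subgroupOf_iff_le_normalizer hOK).2 hn
  let xb : K ⧸ O' := ((⟨x, hx⟩ : K) : K ⧸ O')
  have h1 : xb ^ 3 = 1 := by
    show (((⟨x, hx⟩ : K) : K ⧸ O')) ^ 3 = 1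
    rw [← QuotientGroup.mk_pow]
    have : (⟨x, hx⟩ : K) ^ 3 = 1 := Subtype.ext hx3
    rw [this]
    rfl
  have h2 : xb ≠ 1 := by
    intro he
    rw [QuotientGroup.eq_one_iff] at he
    exact hxO he
  haveI : Fact (Nat.Prime 3) := ⟨Nat.prime_three⟩
  have h3 : orderOf xb = 3 := orderOf_eq_prime h1 h2
  have h4 : ∀ q : K ⧸ O', q ∈ zpowers xb := by
    intro q
    induction q using QuotientGroup.induction_on with
    | H k =>
      rcases htri k k.2 with h | h | h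
      · have : ((k : K) : K ⧸ O') = 1 := (QuotientGroup.eq_one_iff _).2 h
        rw [this]
        exact Subgroup.one_mem _
      · have : ((k : K) : K ⧸ O') = xb⁻¹ := by
          have h5 : (((⟨x, hx⟩ : K) * k : K) : K ⧸ O') = 1 := (QuotientGroup.eq_one_iff _).2 h
          rw [QuotientGroup.mk_mul] at h5
          exact eq_inv_of_mul_eq_one_right h5
        rw [this]
        exact Subgroup.inv_mem _ (Subgroup.mem_zpowers _)
      · have : ((k : K) : K ⧸ O') = xb := by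
          have h5 : (((⟨x, hx⟩ : K)⁻¹ * k : K) : K ⧸ O') = 1 := (QuotientGroup.eq_one_iff _).2 h
          rw [QuotientGroup.mk_mul, QuotientGroup.mk_inv] at h5
          exact (inv_mul_eq_one.1 h5).symm
        rw [this]
        exact Subgroup.mem_zpowers _
  have h5 : orderOf xb = Nat.card (K ⧸ O') := orderOf_eq_card_of_forall_mem_zpowers h4
  show O'.index = 3
  rw [Subgroup.index, ← h5, h3]

theorem le_normalizer_comm {K J : Subgroup G} :
    K ≤ normalizer ((⁅K, J⁆ : Subgroup G) : Set G) := by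
  intro k hk
  have hle : ⁅K, J⁆ ≤ ⁅K, J⁆.comap (MulAut.conj k).toMonoidHom := by
    rw [Subgroup.commutator_le]
    intro k₁ hk₁ j hj
    show k * ⁅k₁, j⁆ * k⁻¹ ∈ ⁅K, J⁆
    have e : k * ⁅k₁, j⁆ * k⁻¹ = ⁅k * k₁, j⁆ * ⁅k, j⁆⁻¹ := by
      simp only [commutatorElement_def]
      group
    rw [e]
    exact Subgroup.mul_mem _ (Subgroup.commutator_mem_commutator (K.mul_mem hk hk₁) hj)
      (Subgroup.inv_mem _ (Subgroup.commutator_mem_commutator hk hj))
  apply Cfsg.Agent.Lib.Coprime.mem_normalizer_of_conj_le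
  intro u hu
  exact hle hu

/-- In the overgroup: a 2-subgroup containing `J(T)` has the same Thompson subgroup. -/
theorem thompson_of_two_sub {L T S : Subgroup G} (hT : IsSylowTwoIn T L) (hS : S ≤ L) (hSp : IsPGroup 2 S)
    (hJS : thompsonSubgroupOf 2 T ≤ S) : thompsonSubgroupOf 2 S = thompsonSubgroupOf 2 T := by
  obtain ⟨T', hSyl, hST'⟩ : ∃ T' : Subgroup G, IsSylowTwoIn T' L ∧ S ≤ T' := by
    have hp' : IsPGroup 2 (S.subgroupOf L) :=
      IsPGroup.of_injective hSp (subgroupOfEquivOfLe hS).toMonoidHom (subgroupOfEquivOfLe hS).injective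
    obtain ⟨P, hP⟩ := hp'.exists_le_sylow
    refine ⟨(P : Subgroup ↥L).map L.subtype, ⟨?_, ?_, ?_⟩, ?_⟩
    · rintro _ ⟨y, _, rfl⟩
      exact y.2
    · exact P.isPGroup'.map _
    · have hidx : Odd ((P : Subgroup ↥L).index) := by
        have h1 := P.not_dvd_index (p := 2)
        exact Nat.odd_iff.2 (by omega)
      rw [Subgroup.relIndex]
      have e : ((P : Subgroup ↥L).map L.subtype).subgroupOf L = P := by
        exact Subgroup.comap_map_eq_self_of_injective L.subtype_injective _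
      rwa [e]
    · intro s hs
      exact ⟨⟨s, hS hs⟩, hP hs, rfl⟩
  obtain ⟨l, hl, rfl⟩ := exists_conj_of_sylowIn hT hSyl
  set J := thompsonSubgroupOf 2 T with hJ
  have hJ' : thompsonSubgroupOf 2 (cj l T) = cj l J := thompson_cj l T
  have hmax : ∀ A ∈ MaxEA 2 T, A ∈ MaxEA 2 (cj l T) := by
    intro A hA
    refine ⟨(le_thompsonSubgroupOf hA).trans (hJS.trans hST'), hA.2.1, fun B hB hBE => ?_⟩
    have h1 : cj l⁻¹ B ≤ T := by
      have := cj_mono (g := l⁻¹) hB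
      rwa [cj_inv_cj] at this
    have h2 := hA.2.2 _ h1 (isElementaryAbelian_map _ hBE)
    have h3 : Nat.card (cj l⁻¹ B) = Nat.card B := Subgroup.card_map_of_injective (MulAut.conj l⁻¹).injective
    rwa [h3] at h2
  have hle : J ≤ thompsonSubgroupOf 2 (cj l T) := by
    rw [hJ, thompsonSubgroupOf_eq]
    exact sSup_le fun A hA => le_thompsonSubgroupOf (hmax A hA)
  have hcard : Nat.card (thompsonSubgroupOf 2 (cj l T)) = Nat.card J := by
    rw [hJ']
    exact Subgroup.card_map_of_injective (MulAut.conj l).injective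
  have heq : J = thompsonSubgroupOf 2 (cj l T) := Subgroup.eq_of_le_of_card_ge hle (le_of_eq hcard)
  rw [heq]
  apply Cfsg.Agent.Lib.PLocal.thompsonOf_eq_of_le _ hST'
  rw [← heq]
  exact hJS

/-- The data for constructing a component. -/
structure Pre (L T A : Subgroup G) (a x : G) : Prop where
  hLS : LS L
  hT : IsSylowTwoIn T L
  hA : A ∈ MaxEA 2 T
  ha : a ∈ A
  hx : x ∈ L
  hx3 : x ^ 3 = 1
  hxC : x ∉ CCL L
  hax : a * x * a⁻¹ = x⁻¹
  hJ : ∀ j ∈ thompsonSubgroupOf 2 T, j * x * j⁻¹ * x⁻¹ ∈ pCoreOf 2 L ∨ j * x * j⁻¹ * x ∈ pCoreOf 2 L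

/-- `⟨x⟩ O₂(L)`. -/
def Kh (L : Subgroup G) (x : G) : Subgroup G := zpowers x ⊔ pCoreOf 2 L

/-- `O²(⟨x⟩ O₂(L))`. -/
def KK (L : Subgroup G) (x : G) : Subgroup G := closure {g : G | g ∈ Kh L x ∧ Odd (orderOf g)}

theorem KK_le (L : Subgroup G) (x : G) : KK L x ≤ Kh L x := by
  rw [KK, closure_le]
  exact fun g hg => hg.1

theorem KK_norm (L : Subgroup G) (x : G) : normalizer ((Kh L x : Subgroup G) : Set G) ≤ normalizer ((KK L x : Subgroup G) : Set G) := by
  intro g hg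
  have hle : KK L x ≤ (KK L x).comap (MulAut.conj g).toMonoidHom := by
    rw [KK, closure_le]
    rintro h ⟨h1, h2⟩
    show g * h * g⁻¹ ∈ KK L x
    apply Subgroup.subset_closure
    refine ⟨(Subgroup.mem_normalizer_iff.1 hg h).1 h1, ?_⟩
    have e : orderOf (g * h * g⁻¹) = orderOf h := by
      rw [← MulAut.conj_apply]
      exact MulEquiv.orderOf_eq _ _
    rwa [e]
  apply Cfsg.Agent.Lib.Coprime.mem_normalizer_of_conj_le
  intro u hu
  exact hle hu

namespace Pre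

variable {L T A : Subgroup G} {a x : G} (h : Pre L T A a x)
include h

omit h in
theorem hQp (L : Subgroup G) : IsPGroup 2 (pCoreOf 2 L) := Cfsg.Agent.Lib.LocalEven.pCoreOf_isPGroup L

omit h in
theorem hQn (L : Subgroup G) : L ≤ normalizer ((pCoreOf 2 L : Subgroup G) : Set G) :=
  Cfsg.Agent.Lib.LocalEven.le_normalizer_pCoreOf L

theorem hxQ : x ∉ pCoreOf 2 L := fun hq => h.hxC (Q_le_CCL L hq)

theorem x_odd : Odd (orderOf x) := Odd.of_dvd_nat (by decide) (orderOf_dvd_of_pow_eq_one h.hx3)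

theorem x1 : x ≠ 1 := by
  intro he
  apply h.hxQ
  rw [he]
  exact Subgroup.one_mem _

theorem Kh_le : Kh L x ≤ L := sup_le ((zpowers_le).2 h.hx) (Cfsg.Agent.Lib.LocalEven.pCoreOf_le L)

theorem Kh_nQ : Kh L x ≤ normalizer ((pCoreOf 2 L : Subgroup G) : Set G) := h.Kh_le.trans (hQn L)

theorem xKh : x ∈ Kh L x := Subgroup.mem_sup_left (Subgroup.mem_zpowers x)

omit h in
theorem QKh : pCoreOf 2 L ≤ Kh L x := le_sup_right

theorem tri_h {k : G} (hk : k ∈ Kh L x) :
    k ∈ pCoreOf 2 L ∨ x * k ∈ pCoreOf 2 L ∨ x⁻¹ * k ∈ pCoreOf 2 L := by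
  have hn : zpowers x ≤ normalizer ((pCoreOf 2 L : Subgroup G) : Set G) := (zpowers_le).2 (hQn L h.hx)
  have hk' : k ∈ ((pCoreOf 2 L ⊔ zpowers x : Subgroup G) : Set G) := by
    rw [sup_comm]
    exact hk
  rw [Subgroup.coe_mul_of_right_le_normalizer_left _ _ hn] at hk'
  obtain ⟨q, hq, z, hz, rfl⟩ := Set.mem_mul.1 hk'
  rcases zp3 hz h.hx3 with e | e | e
  · left
    rw [e, mul_one]
    exact hq
  · right; right
    rw [e]
    have := (Subgroup.mem_normalizer_iff.1 (hQn L (L.inv_mem h.hx)) q).1 hq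
    have e2 : x⁻¹ * (q * x) = x⁻¹ * q * x⁻¹⁻¹ := by group
    rwa [e2]
  · right; left
    rw [e]
    have := (Subgroup.mem_normalizer_iff.1 (hQn L h.hx) q).1 hq
    have e2 : x * (q * x⁻¹) = x * q * x⁻¹ := by group
    rwa [e2]

theorem xK : x ∈ KK L x := Subgroup.subset_closure ⟨h.xKh, h.x_odd⟩

theorem K_nK : Kh L x ≤ normalizer ((KK L x : Subgroup G) : Set G) := le_normalizer.trans (KK_norm L x)

theorem KL : KK L x ≤ L := (KK_le L x).trans h.Kh_le

/-- `J` normalizes `K̂`. -/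
theorem J_nKh : thompsonSubgroupOf 2 T ≤ normalizer ((Kh L x : Subgroup G) : Set G) := by
  intro j hj
  have hjL : j ∈ L := h.hT.1 (thompson_le T hj)
  have hle : Kh L x ≤ (Kh L x).comap (MulAut.conj j).toMonoidHom := by
    refine sup_le ?_ ?_
    · rw [zpowers_le]
      show j * x * j⁻¹ ∈ Kh L x
      rcases h.hJ j hj with h1 | h1
      · have e : j * x * j⁻¹ = (j * x * j⁻¹ * x⁻¹) * x := by group
        rw [e]
        exact Subgroup.mul_mem _ (Subgroup.mem_sup_right h1) h.xKh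
      · have e : j * x * j⁻¹ = (j * x * j⁻¹ * x) * x⁻¹ := by group
        rw [e]
        exact Subgroup.mul_mem _ (Subgroup.mem_sup_right h1) (Subgroup.inv_mem _ h.xKh)
    · intro q hq
      show j * q * j⁻¹ ∈ Kh L x
      exact Subgroup.mem_sup_right ((Subgroup.mem_normalizer_iff.1 (hQn L hjL) q).1 hq)
  apply Cfsg.Agent.Lib.Coprime.mem_normalizer_of_conj_le
  intro u hu
  exact hle hu

theorem J_nK : thompsonSubgroupOf 2 T ≤ normalizer ((KK L x : Subgroup G) : Set G) := h.J_nKh.trans (KK_norm L x)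

/-- `O = K ∩ Q`. -/
theorem Kh_nO : Kh L x ≤ normalizer ((KK L x ⊓ pCoreOf 2 L : Subgroup G) : Set G) := by
  intro g hg
  apply Cfsg.Agent.Lib.Coprime.mem_normalizer_of_conj_le
  rintro u ⟨h1, h2⟩
  exact ⟨(Subgroup.mem_normalizer_iff.1 (h.K_nK hg) u).1 h1, (Subgroup.mem_normalizer_iff.1 (h.Kh_nQ hg) u).1 h2⟩

theorem K_nO : KK L x ≤ normalizer ((KK L x ⊓ pCoreOf 2 L : Subgroup G) : Set G) := (KK_le L x).trans h.Kh_nO

theorem J_nO : thompsonSubgroupOf 2 T ≤ normalizer ((KK L x ⊓ pCoreOf 2 L : Subgroup G) : Set G) := by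
  intro g hg
  have hgL : g ∈ L := h.hT.1 (thompson_le T hg)
  apply Cfsg.Agent.Lib.Coprime.mem_normalizer_of_conj_le
  rintro u ⟨h1, h2⟩
  exact ⟨(Subgroup.mem_normalizer_iff.1 (h.J_nK hg) u).1 h1, (Subgroup.mem_normalizer_iff.1 (hQn L hgL) u).1 h2⟩

theorem tri_K {k : G} (hk : k ∈ KK L x) :
    k ∈ KK L x ⊓ pCoreOf 2 L ∨ x * k ∈ KK L x ⊓ pCoreOf 2 L ∨ x⁻¹ * k ∈ KK L x ⊓ pCoreOf 2 L := by
  rcases h.tri_h (KK_le L x hk) with h1 | h1 | h1
  · exact Or.inl ⟨hk, h1⟩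
  · exact Or.inr (Or.inl ⟨(KK L x).mul_mem h.xK hk, h1⟩)
  · exact Or.inr (Or.inr ⟨(KK L x).mul_mem ((KK L x).inv_mem h.xK) hk, h1⟩)

theorem O_eq : pCoreOf 2 (KK L x) = KK L x ⊓ pCoreOf 2 L := by
  set R := pCoreOf 2 (KK L x) with hR
  have hRp : IsPGroup 2 R := Cfsg.Agent.Lib.LocalEven.pCoreOf_isPGroup _
  have hOp : IsPGroup 2 (KK L x ⊓ pCoreOf 2 L : Subgroup G) := (hQp L).to_le inf_le_right
  have hle : KK L x ⊓ pCoreOf 2 L ≤ R := by
    intro u hu
    exact ⟨⟨u, hu.1⟩, Cfsg.Agent.Lib.LocalEven2.mem_pCore_subgroup inf_le_left h.K_nO hOp hu, rfl⟩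
  have hxR : x ∉ R := fun hx => h.x1 (Data.eq_one_of_odd hRp hx h.x_odd)
  apply le_antisymm _ hle
  intro y hy
  have hyK : y ∈ KK L x := Cfsg.Agent.Lib.LocalEven.pCoreOf_le _ hy
  rcases h.tri_K hyK with h1 | h1 | h1
  · exact h1
  · exfalso
    apply hxR
    have e : x = (x * y) * y⁻¹ := by group
    rw [e]
    exact R.mul_mem (hle h1) (R.inv_mem hy)
  · exfalso
    apply hxR
    have e : x = ((x⁻¹ * y) * y⁻¹)⁻¹ := by group
    rw [e]
    exact R.inv_mem (R.mul_mem (hle h1) (R.inv_mem hy))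

theorem isX : Data.IsX (KK L x) x := by
  refine ⟨h.xK, h.hx3, ?_, ?_⟩
  · rw [h.O_eq]
    exact fun hh => h.hxQ hh.2
  · intro k hk
    rw [h.O_eq]
    exact h.tri_K hk

theorem hidx : (pCoreOf 2 (KK L x)).relIndex (KK L x) = 3 := by
  apply relIndex_three Data.O_le (Cfsg.Agent.Lib.LocalEven.le_normalizer_pCoreOf _) h.xK h.hx3 h.isX.notMem h.isX.tri

theorem hgen : closure {g : G | g ∈ KK L x ∧ Odd (orderOf g)} = KK L x := by
  apply le_antisymm
  · rw [closure_le]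
    exact fun g hg => hg.1
  · rw [KK, closure_le]
    intro g hg
    exact Subgroup.subset_closure ⟨Subgroup.subset_closure hg, hg.2⟩

theorem aJ : a ∈ thompsonSubgroupOf 2 T := le_thompsonSubgroupOf h.hA h.ha

theorem hcomm : ⁅KK L x, thompsonSubgroupOf 2 T⁆ = KK L x := by
  set J := thompsonSubgroupOf 2 T with hJ
  set K := KK L x with hK
  set K₀ := ⁅K, J⁆ with hK₀
  apply le_antisymm
  · rw [Subgroup.commutator_le]
    intro k hk j hj
    rw [commutatorElement_def]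
    have e : k * j * k⁻¹ * j⁻¹ = k * (j * k⁻¹ * j⁻¹) := by group
    rw [e]
    exact K.mul_mem hk ((Subgroup.mem_normalizer_iff.1 (h.J_nK hj) _).1 (K.inv_mem hk))
  · have hxK₀ : x ∈ K₀ := by
      have h1 : ⁅x, a⁆ ∈ K₀ := Subgroup.commutator_mem_commutator h.xK h.aJ
      have e : ⁅x, a⁆ = x * x := by
        rw [commutatorElement_def]
        have h2 : a * x⁻¹ * a⁻¹ = x := by
          have : a * x⁻¹ * a⁻¹ = (a * x * a⁻¹)⁻¹ := by group
          rw [this, h.hax, inv_inv]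
        calc x * a * x⁻¹ * a⁻¹ = x * (a * x⁻¹ * a⁻¹) := by group
          _ = x * x := by rw [h2]
      rw [e] at h1
      have e2 : x = (x * x)⁻¹ := by
        apply eq_inv_of_mul_eq_one_left
        rw [← h.hx3, pow_succ, pow_two, mul_assoc]
      rw [e2]
      exact K₀.inv_mem h1
    have hOp : IsPGroup 2 (K ⊓ pCoreOf 2 L : Subgroup G) := (hQp L).to_le inf_le_right
    have hOn : (K ⊓ pCoreOf 2 L : Subgroup G) ≤ normalizer ((K₀ : Subgroup G) : Set G) :=
      inf_le_left.trans le_normalizer_comm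
    have hsub : ∀ k ∈ K, k ∈ K₀ ⊔ (K ⊓ pCoreOf 2 L) := by
      intro k hk
      rcases h.tri_K hk with h1 | h1 | h1
      · exact Subgroup.mem_sup_right h1
      · have e : k = x⁻¹ * (x * k) := by group
        rw [e]
        exact Subgroup.mul_mem _ (Subgroup.mem_sup_left (K₀.inv_mem hxK₀)) (Subgroup.mem_sup_right h1)
      · have e : k = x * (x⁻¹ * k) := by group
        rw [e]
        exact Subgroup.mul_mem _ (Subgroup.mem_sup_left hxK₀) (Subgroup.mem_sup_right h1)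
    have hcl : closure {g : G | g ∈ K ∧ Odd (orderOf g)} ≤ K₀ := by
      rw [closure_le]
      rintro g ⟨hg, hodd⟩
      exact Cfsg.Agent.S2941.mem_of_odd_of_mem_sup hOp hOn (hsub g hg) hodd
    rwa [h.hgen] at hcl

theorem hth (S : Subgroup G) (hS : IsSylowTwoIn S (KK L x ⊔ thompsonSubgroupOf 2 T))
    (hJS : thompsonSubgroupOf 2 T ≤ S) : thompsonSubgroupOf 2 S = thompsonSubgroupOf 2 T :=
  thompson_of_two_sub h.hT (hS.1.trans (sup_le h.KL ((thompson_le T).trans h.hT.1))) hS.2.1 hJS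

end Pre

end Cfsg.Agent.Lib.LocalEven2.JC
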