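import Cfsg.Agent.Lib.LocalEven2.JC7

/-!
# Existence of `J(T)`-components
-/

set_option autoImplicit false
set_option linter.unusedSectionVars false
set_option linter.unusedVariables false

namespace Cfsg.Agent.Lib.LocalEven2.JC

open Subgroup Cfsg Cfsg.Agent.Lib.PLocal
open Cfsg.Agent.Lib.OddLocal (MaxEA thompsonSubgroupOf_eq le_thompsonSubgroupOf MaxEA_nonempty isElementaryAbelian_map)
open Cfsg.Agent.Lib.LocalEven (cj cj_inv_cj cj_cj_inv le_cj_iff cj_mono isPGroup_cj cj_eq_of_mem_normalizer)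
open scoped commutatorElement

variable {G : Type*} [Group G] [Finite G]

namespace Data

/-- `x` acts fixed-point-freely on `W`. -/
theorem fpf' {K : Subgroup G} {x : G} (hx : IsX K x) {w : G} (hw : w ∈ wOf K) (hf : x * w * x⁻¹ = w) : w = 1 := by
  set Y := omegaCenterOf (pCoreOf 2 K) with hYdef
  have hYc : ∀ a ∈ Y, ∀ b ∈ Y, a * b = b * a := fun a ha b hb => omegaCenterOf_comm ha hb
  have hxY : ∀ y ∈ Y, x * y * x⁻¹ ∈ Y := fun y hy =>
    (Subgroup.mem_normalizer_iff.1 (Y_norm (le_normalizer hx.mem)) y).1 hy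
  have hxk : ∀ y ∈ Y, nm x (y * (x * y * x⁻¹)⁻¹) = 1 := by
    intro y hy
    rw [nm_mul hYc hxY hy (Y.inv_mem (hxY y hy)), nm_inv hYc hxY (hxY y hy), nm_conj hYc hxY hx.pow3 hy,
      mul_inv_cancel]
  have hgen : ∀ w ∈ wOf K, w ∈ Y ∧ nm x w = 1 := by
    intro w hw
    unfold wOf at hw
    rw [Subgroup.commutator_def] at hw
    induction hw using Subgroup.closure_induction with
    | mem g hg =>
      obtain ⟨y, hy, k, hk, rfl⟩ := hg
      have hmem : ⁅y, k⁆ ∈ wOf K := Subgroup.commutator_mem_commutator hy hk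
      refine ⟨W_le_Y hmem, ?_⟩
      rw [commutatorElement_def]
      have he : y * k * y⁻¹ * k⁻¹ = y * (k * y * k⁻¹)⁻¹ := by group
      rw [he]
      rcases hx.tri k hk with h1 | h1 | h1
      · have h2 : k * y * k⁻¹ = y := by
          rw [Y_cent hy h1]; group
        rw [h2, mul_inv_cancel, nm_one]
      · -- `k = x⁻¹ o`
        have h2 : k * y * k⁻¹ = x⁻¹ * y * x := by
          have h3 := Y_cent hy h1
          have h4 : (x * k) * y * (x * k)⁻¹ = y := by rw [h3]; group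
          calc k * y * k⁻¹ = x⁻¹ * ((x * k) * y * (x * k)⁻¹) * x := by group
            _ = x⁻¹ * y * x := by rw [h4]
        rw [h2]
        set y2 := x⁻¹ * y * x with hy2
        have hy2Y : y2 ∈ Y := by
          rw [hy2, hx.x_inv]
          have := hxY _ (hxY y hy)
          have e : x * x * y * x = x * (x * y * x⁻¹) * x⁻¹ := by
            have h1 : x = (x * x)⁻¹ := by
              have := hx.x_inv
              rw [eq_comm, inv_eq_iff_mul_eq_one]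
              rw [← this]; group
            calc x * x * y * x = x * x * y * (x * x)⁻¹ := by rw [← h1]
              _ = x * (x * y * x⁻¹) * x⁻¹ := by group
          rw [e]; exact this
        have e : y = x * y2 * x⁻¹ := by rw [hy2]; group
        rw [nm_mul hYc hxY hy (Y.inv_mem hy2Y), nm_inv hYc hxY hy2Y]
        conv_lhs => rw [e]
        rw [nm_conj hYc hxY hx.pow3 hy2Y, mul_inv_cancel]
      · have h2 : k * y * k⁻¹ = x * y * x⁻¹ := by
          have h3 := Y_cent hy h1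
          have h4 : (x⁻¹ * k) * y * (x⁻¹ * k)⁻¹ = y := by rw [h3]; group
          calc k * y * k⁻¹ = x * ((x⁻¹ * k) * y * (x⁻¹ * k)⁻¹) * x⁻¹ := by group
            _ = x * y * x⁻¹ := by rw [h4]
        rw [h2]
        exact hxk y hy
    | one => exact ⟨Y.one_mem, nm_one x⟩
    | mul a b _ _ ha hb =>
      exact ⟨Y.mul_mem ha.1 hb.1, by rw [nm_mul hYc hxY ha.1 hb.1, ha.2, hb.2, one_mul]⟩
    | inv a _ ha =>
      exact ⟨Y.inv_mem ha.1, by rw [nm_inv hYc hxY ha.1, ha.2, inv_one]⟩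
  have h1 := (hgen w hw).2
  unfold nm at h1
  rw [hf, hf, (mem_omegaCenterOf.1 (W_le_Y hw)).2.2, one_mul] at h1
  exact h1

end Data

/-- The basic facts on `V = ⟨Ω₁(Z(S))⟩`. -/
theorem V_facts {L : Subgroup G} (hLS : LS L) {v : ↥L} (hv : v ∈ omegaSylow 2 ↥L) :
    (v : G) ∈ pCoreOf 2 L ∧ (∀ q ∈ pCoreOf 2 L, q * (v : G) = (v : G) * q) ∧ (v : G) * (v : G) = 1 := by
  have h1 : omegaSylow 2 ↥L ≤ centralizer (pCore 2 ↥L : Set ↥L) := by
    refine iSup_le fun S => ?_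
    intro z hz
    have hz' := omegaOne_le _ hz
    refine Subgroup.mem_centralizer_iff.2 fun y hy => ?_
    exact Subgroup.mem_centralizer_iff.1 hz'.2 y (Cfsg.Agent.Lib.Basic.pCore_le_sylow S hy)
  have hE := omegaSylow_isEA hLS.hcX
  refine ⟨⟨v, hLS.hcX (h1 hv), rfl⟩, ?_, ?_⟩
  · rintro _ ⟨u, hu, rfl⟩
    exact congrArg Subtype.val (Subgroup.mem_centralizer_iff.1 (h1 hv) u hu)
  · have := (isEA_iff.1 hE).2 v hv
    have h2 := congrArg Subtype.val this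
    simpa [pow_two] using h2

theorem V_comm {L : Subgroup G} (hLS : LS L) {u v : ↥L} (hu : u ∈ omegaSylow 2 ↥L) (hv : v ∈ omegaSylow 2 ↥L) :
    (u : G) * v = v * u :=
  congrArg Subtype.val ((isEA_iff.1 (omegaSylow_isEA hLS.hcX)).1 u hu v hv)

namespace Pre

variable {L T A : Subgroup G} {a x : G} (h : Pre L T A a x)
include h

theorem W_ne_bot : wOf (KK L x) ≠ ⊥ := by
  intro hbot
  set K := KK L x with hK
  have hxx : (⟨x, h.hx⟩ : ↥L) ∉ centralizer ((omegaSylow 2 ↥L : Subgroup ↥L) : Set ↥L) :=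
    fun hc => h.hxC ⟨_, hc, rfl⟩
  rw [Subgroup.mem_centralizer_iff] at hxx
  push Not at hxx
  obtain ⟨v, hv, hvx⟩ := hxx
  obtain ⟨hv1, hv2, hv3⟩ := V_facts h.hLS hv
  set xx : ↥L := ⟨x, h.hx⟩ with hxxd
  have hvxG : (v : G) * x ≠ x * v := fun he => hvx (Subtype.ext he)
  have hw : xx * v * xx⁻¹ ∈ omegaSylow 2 ↥L := (omegaSylow_normal_inst).conj_mem _ hv xx
  obtain ⟨hw1, hw2, hw3⟩ := V_facts h.hLS hw
  have hwc := V_comm h.hLS hw hv
  set w : G := x * v * x⁻¹ with hwd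
  have hwe : ((xx * v * xx⁻¹ : ↥L) : G) = w := rfl
  rw [hwe] at hw1 hw2 hw3 hwc
  have hui : (v : G)⁻¹ = v := inv_eq_of_mul_eq_one_left hv3
  have hwi : w⁻¹ = w := inv_eq_of_mul_eq_one_left hw3
  set u : G := w * v with hud
  have huV : (⟨u, L.mul_mem (hw1 |> Cfsg.Agent.Lib.LocalEven.pCoreOf_le L) v.2⟩ : ↥L) ∈ omegaSylow 2 ↥L :=
    Subgroup.mul_mem _ hw hv
  obtain ⟨hu1, hu2, hu3⟩ := V_facts h.hLS huV
  simp only at hu1 hu2 hu3
  have huK : u ∈ K := by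
    have e : u = x * ((v : G) * x⁻¹ * (v : G)⁻¹) := by
      rw [hud, hwd, hui]
      group
    rw [e]
    have h1 : (v : G) * x⁻¹ * (v : G)⁻¹ ∈ K :=
      (Subgroup.mem_normalizer_iff.1 (h.K_nK (QKh hv1)) _).1 (K.inv_mem h.xK)
    exact K.mul_mem h.xK h1
  have huO : u ∈ pCoreOf 2 K := by
    rw [hK, h.O_eq]
    exact ⟨huK, hu1⟩
  have huY : u ∈ omegaCenterOf (pCoreOf 2 K) := by
    refine mem_omegaCenterOf.2 ⟨huO, Subgroup.mem_centralizer_iff.2 fun o ho => ?_, hu3⟩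
    rw [hK, h.O_eq] at ho
    exact hu2 o ho.2
  have hm : ⁅u, x⁆ ∈ wOf K := Subgroup.commutator_mem_commutator huY h.xK
  rw [hbot, Subgroup.mem_bot, commutatorElement_eq_one_iff_mul_comm] at hm
  -- now `x` fixes `u`
  have hxu : x * u * x⁻¹ = u := by
    rw [← hm]; group
  have hx2 : x * x * x = 1 := by rw [← h.hx3, pow_succ, pow_two]
  have hxi : x * x = x⁻¹ := by
    symm
    apply inv_eq_of_mul_eq_one_left
    exact hx2
  have hxii : x⁻¹ * x⁻¹ = x := by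
    rw [← hxi]
    calc x * x * (x * x) = (x * x * x) * x := by group
      _ = x := by rw [hx2, one_mul]
  have h1 : x * w * x⁻¹ * w = w * v := by
    have e : x * u * x⁻¹ = (x * w * x⁻¹) * w := by
      rw [hud]
      have : x * (w * v) * x⁻¹ = (x * w * x⁻¹) * (x * v * x⁻¹) := by group
      rw [this]
    rw [← e, hxu]
  have h2 : x * w * x⁻¹ = v := by
    have : x * w * x⁻¹ = (x * w * x⁻¹ * w) * w⁻¹ := by group
    rw [this, h1, hwi]
    calc w * (v : G) * w = (v : G) * w * w := by rw [← hud, hwc]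
      _ = v * (w * w) := by group
      _ = v := by rw [hw3, mul_one]
  have h3 : x⁻¹ * (v : G) * x = v := by
    calc x⁻¹ * (v : G) * x = (x * x) * (v : G) * (x⁻¹ * x⁻¹) := by rw [hxi, hxii]
      _ = x * (x * v * x⁻¹) * x⁻¹ := by group
      _ = v := h2
  apply hvxG
  calc (v : G) * x = x * (x⁻¹ * (v : G) * x) := by group
    _ = x * v := by rw [h3]

theorem W_le_Q : wOf (KK L x) ≤ pCoreOf 2 L := by
  have h1 : wOf (KK L x) ≤ pCoreOf 2 (KK L x) := Data.W_le_O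
  rw [h.O_eq] at h1
  exact h1.trans inf_le_right

theorem A_le_J : A ≤ thompsonSubgroupOf 2 T := le_thompsonSubgroupOf h.hA

theorem AL {b : G} (hb : b ∈ A) : b ∈ L := h.hT.1 (h.hA.1 hb)

/-- The elements of `A` centralizing `x` modulo `Q`. -/
def Azero (h : Pre L T A a x) : Subgroup G where
  carrier := {b | b ∈ A ∧ b * x * b⁻¹ * x⁻¹ ∈ pCoreOf 2 L}
  one_mem' := ⟨A.one_mem, by
    have : (1 : G) * x * 1⁻¹ * x⁻¹ = 1 := by group
    rw [this]
    exact Subgroup.one_mem _⟩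
  mul_mem' := by
    rintro b₁ b₂ ⟨h1, h2⟩ ⟨h3, h4⟩
    refine ⟨A.mul_mem h1 h3, ?_⟩
    have e : b₁ * b₂ * x * (b₁ * b₂)⁻¹ * x⁻¹ = (b₁ * (b₂ * x * b₂⁻¹ * x⁻¹) * b₁⁻¹) * (b₁ * x * b₁⁻¹ * x⁻¹) := by group
    rw [e]
    exact Subgroup.mul_mem _ ((Subgroup.mem_normalizer_iff.1 (hQn L (h.AL h1)) _).1 h4) h2
  inv_mem' := by
    rintro b ⟨h1, h2⟩
    refine ⟨A.inv_mem h1, ?_⟩
    have e : b⁻¹ * x * b⁻¹⁻¹ * x⁻¹ = b⁻¹ * (b * x * b⁻¹ * x⁻¹)⁻¹ * b⁻¹⁻¹ := by group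
    rw [e]
    exact (Subgroup.mem_normalizer_iff.1 (hQn L (L.inv_mem (h.AL h1))) _).1 (Subgroup.inv_mem _ h2)

theorem Azero_le : h.Azero ≤ A := fun _ hb => hb.1

theorem inv_of_notMem {b : G} (hb : b ∈ A) (hn : b ∉ h.Azero) : b * x * b⁻¹ * x ∈ pCoreOf 2 L := by
  rcases h.hJ b (h.A_le_J hb) with h1 | h1
  · exact absurd ⟨hb, h1⟩ hn
  · exact h1

theorem hcard : Nat.card A ≤ 2 * Nat.card h.Azero := by
  apply card_le_two_mul_of_mul_mem h.Azero_le
  intro b₁ h1 b₂ h2 hn1 hn2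
  refine ⟨A.mul_mem h1 h2, ?_⟩
  have q1 := h.inv_of_notMem h1 hn1
  have q2 := h.inv_of_notMem h2 hn2
  have e : b₁ * b₂ * x * (b₁ * b₂)⁻¹ * x⁻¹ =
      (b₁ * (b₂ * x * b₂⁻¹ * x) * b₁⁻¹) * (x * (b₁ * x * b₁⁻¹ * x)⁻¹ * x⁻¹) := by group
  rw [e]
  refine Subgroup.mul_mem _ ((Subgroup.mem_normalizer_iff.1 (hQn L (h.AL h1)) _).1 q2) ?_
  exact (Subgroup.mem_normalizer_iff.1 (hQn L h.hx) _).1 (Subgroup.inv_mem _ q1)

theorem hsplit {b : G} (hb : b ∈ A) : b ∈ h.Azero ∨ a * b ∈ h.Azero := by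
  by_cases hn : b ∈ h.Azero
  · exact Or.inl hn
  · right
    refine ⟨A.mul_mem h.ha hb, ?_⟩
    have q := h.inv_of_notMem hb hn
    have h2 : a * x⁻¹ * a⁻¹ = x := by
      have : a * x⁻¹ * a⁻¹ = (a * x * a⁻¹)⁻¹ := by group
      rw [this, h.hax, inv_inv]
    have e : a * b * x * (a * b)⁻¹ * x⁻¹ = (a * (b * x * b⁻¹ * x) * a⁻¹) * ((a * x⁻¹ * a⁻¹) * x⁻¹) := by group
    rw [e, h2, mul_inv_cancel, mul_one]
    exact (Subgroup.mem_normalizer_iff.1 (hQn L (h.AL h.ha)) _).1 q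

theorem four : Four (wOf (KK L x)) T A h.Azero x a := by
  set K := KK L x with hK
  have hWK : normalizer ((K : Subgroup G) : Set G) ≤ normalizer ((wOf K : Subgroup G) : Set G) := Data.W_norm
  refine ⟨isEA_mono Data.W_le_Y (isEA_omegaCenterOf _), h.W_le_Q.trans (Q_le_T h.hT), h.hA, h.ha, ?_, h.hx3, ?_, h.hax,
    (h.A_le_J.trans h.J_nK).trans hWK, h.Azero_le, h.hcard, ?_, ?_, h.W_ne_bot⟩
  · intro w hw
    exact (Subgroup.mem_normalizer_iff.1 (hWK (le_normalizer h.xK)) w).1 hw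
  · intro w hw hf
    exact Data.fpf' h.isX hw hf
  · rintro b ⟨hb1, hb2⟩ w hw
    have hbK := h.A_le_J.trans h.J_nK hb1
    have hz : b * x * b⁻¹ * x⁻¹ ∈ pCoreOf 2 K := by
      rw [hK, h.O_eq]
      refine ⟨K.mul_mem ((Subgroup.mem_normalizer_iff.1 hbK x).1 h.xK) (K.inv_mem h.xK), hb2⟩
    have hbw : b * w * b⁻¹ ∈ wOf K := (Subgroup.mem_normalizer_iff.1 (hWK hbK) w).1 hw
    have hxbw : x * (b * w * b⁻¹) * x⁻¹ ∈ wOf K :=
      (Subgroup.mem_normalizer_iff.1 (hWK (le_normalizer h.xK)) _).1 hbw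
    have hc := Data.O_cent_W hz hxbw
    set z := b * x * b⁻¹ * x⁻¹ with hzd
    have e : b * (x * w * x⁻¹) * b⁻¹ = z * (x * (b * w * b⁻¹) * x⁻¹) * z⁻¹ := by
      rw [hzd]; group
    rw [e, hc]
    group
  · intro b hb
    exact h.hsplit hb

theorem isJ : IsJComponent T (KK L x) :=
  ⟨h.hgen, h.hcomm, h.hidx, h.hth, h.four.card_W, fun w hw => (mem_omegaCenterOf.1 (Data.W_le_Y hw)).2.2⟩

end Pre

theorem comm_pow_aux {B : Type*} [Group B] {j x e : B} (h : j * x * j⁻¹ = e * x) (hej : j * e = e * j)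
    (hex : x * e = e * x) (n : ℕ) : j ^ n * x * (j ^ n)⁻¹ = e ^ n * x := by
  induction n with
  | zero => simp
  | succ n ih =>
    have hc : Commute j (e ^ n) := (show Commute j e from hej).pow_right n
    have h1 : j * e ^ n * j⁻¹ = e ^ n := by rw [hc.eq]; group
    calc j ^ (n + 1) * x * (j ^ (n + 1))⁻¹ = j * (j ^ n * x * (j ^ n)⁻¹) * j⁻¹ := by
          rw [pow_succ']; group
      _ = j * (e ^ n * x) * j⁻¹ := by rw [ih]
      _ = (j * e ^ n * j⁻¹) * (j * x * j⁻¹) := by group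
      _ = e ^ n * (e * x) := by rw [h1, h]
      _ = e ^ (n + 1) * x := by rw [pow_succ]; group

theorem comm_mem_Q {L T : Subgroup G} (hLS : LS L) (hT : IsSylowTwoIn T L)
    (hQ : L ≤ normalizer ((pCoreOf 2 L : Subgroup G) : Set G)) {j x : G} (hj : j ∈ T)
    (hxD : x ∈ LS.DC L hQ) (he : j * x * j⁻¹ * x⁻¹ ∈ CCL L) : j * x * j⁻¹ * x⁻¹ ∈ pCoreOf 2 L := by
  have hjL : j ∈ L := hT.1 hj
  have hxL : x ∈ L := hxD.1
  set e := j * x * j⁻¹ * x⁻¹ with hed
  have heL : e ∈ L := CCL_le L he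
  set jj : ↥L := ⟨j, hjL⟩ with hjj
  set xx : ↥L := ⟨x, hxL⟩ with hxx
  set ee : ↥L := ⟨e, heL⟩ with hee
  have heq : ee = jj * xx * jj⁻¹ * xx⁻¹ := rfl
  set Q' := pCore 2 ↥L with hQ'
  haveI : Q'.Normal := Cfsg.Agent.Lib.Basic.pCore_normal 2
  let π := QuotientGroup.mk' Q'
  have hπ : ∀ u : ↥L, (u : G) ∈ pCoreOf 2 L → π u = 1 := fun u hu =>
    (QuotientGroup.eq_one_iff u).2 (CompIn.mem_Q' hu)
  have h1 : π jj * π ee = π ee * π jj := by
    have h2 := hLS.comm_T_C hT hj he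
    have h3 := hπ (jj * ee * jj⁻¹ * ee⁻¹) h2
    simp only [map_mul, map_inv] at h3
    have := mul_inv_eq_one.1 h3
    exact mul_inv_eq_iff_eq_mul.1 this
  have h2 : π xx * π ee = π ee * π xx := by
    have h3 := hπ (xx * ee * xx⁻¹ * ee⁻¹) (hxD.2 e he)
    simp only [map_mul, map_inv] at h3
    have := mul_inv_eq_one.1 h3
    exact mul_inv_eq_iff_eq_mul.1 this
  have h3 : π jj * π xx * (π jj)⁻¹ = π ee * π xx := by
    rw [heq]
    simp only [map_mul, map_inv]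
    group
  obtain ⟨t, ht⟩ := Cfsg.Agent.Lib.LocalEven.orderOf_of_mem_isPGroup hT.2.1 hj
  have h4 : (π jj) ^ 2 ^ t = 1 := by
    rw [← map_pow]
    have : jj ^ 2 ^ t = 1 := by
      apply Subtype.ext
      show j ^ 2 ^ t = 1
      rw [← ht, pow_orderOf_eq_one]
    rw [this, map_one]
  have h5 := comm_pow_aux h3 h1 h2 (2 ^ t)
  rw [h4, one_mul, inv_one, mul_one] at h5
  have h6 : (π ee) ^ 2 ^ t = 1 := by
    have := mul_eq_right.1 h5.symm
    exact this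
  have h7 : ee ^ 2 ^ t ∈ Q' := by
    rw [← QuotientGroup.eq_one_iff]
    show π (ee ^ 2 ^ t) = 1
    rw [map_pow, h6]
  have h8 : e ^ 2 ^ t ∈ pCoreOf 2 L := ⟨_, h7, rfl⟩
  obtain ⟨s, hs⟩ := Cfsg.Agent.Lib.LocalEven.orderOf_of_mem_isPGroup (Pre.hQp L) h8
  have h9 : e ^ (2 ^ t * 2 ^ s) = 1 := by
    rw [pow_mul, ← hs, pow_orderOf_eq_one]
  have h10 : orderOf e ∣ 2 ^ (t + s) := by
    apply orderOf_dvd_of_pow_eq_one
    rw [pow_add]
    exact h9
  obtain ⟨m, _, hm⟩ := (Nat.dvd_prime_pow Nat.prime_two).1 h10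
  have hp : IsPGroup 2 (zpowers e) := by
    rw [IsPGroup.iff_card, Nat.card_zpowers, hm]
    exact ⟨m, rfl⟩
  exact hLS.T_inf_C_le_Q hT ⟨hLS.two_elem_mem hT he hp, he⟩

section offender

variable {Γ : Type*} [Group Γ] [Finite Γ] {V H : Subgroup Γ}

theorem sl2_inv : ∀ c y : Matrix.SpecialLinearGroup (Fin 2) (ZMod 2), c * c = 1 → c ≠ 1 → y * y * y = 1 → y ≠ 1 →
    c * y * c = y * y := by
  decide

theorem fac_inv (S : OffSetup 2 V H) {c y : Γ} (hc : Trv 2 V H c) (hy : y ∈ ⁅coreOf 2 H, zpowers c⁆) (hy1 : y ≠ 1) :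
    c * y * c⁻¹ = y⁻¹ := by
  obtain ⟨_, ⟨e⟩⟩ := S.pack_sl2 hc
  have hc2 : c * c = 1 := by
    have := hc.pow
    rwa [pow_two] at this
  have hci : c⁻¹ = c := inv_eq_of_mul_eq_one_left hc2
  have hy3 : y * y * y = 1 := by
    have h1 := pow_card_eq_one' (x := (⟨y, hy⟩ : ↥(⁅coreOf 2 H, zpowers c⁆)))
    rw [fac'_card S hc] at h1
    have h2 := congrArg Subtype.val h1
    simpa [pow_succ, pow_two] using h2
  have hyi : y⁻¹ = y * y := by
    apply inv_eq_of_mul_eq_one_left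
    exact hy3
  set cE : ↥(⁅coreOf 2 H, zpowers c⁆ ⊔ zpowers c) := ⟨c, fac_mem S hc⟩ with hcE
  set yE : ↥(⁅coreOf 2 H, zpowers c⁆ ⊔ zpowers c) := ⟨y, fac'_le S hc hy⟩ with hyE
  have h1 := sl2_inv (e cE) (e yE) (by rw [← map_mul]; rw [show cE * cE = 1 from Subtype.ext hc2, map_one])
    (by
      intro he
      have := e.injective (he.trans (map_one e).symm)
      exact hc.ne (congrArg Subtype.val this))
    (by rw [← map_mul, ← map_mul, show yE * yE * yE = 1 from Subtype.ext hy3, map_one])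
    (by
      intro he
      have := e.injective (he.trans (map_one e).symm)
      exact hy1 (congrArg Subtype.val this))
  rw [← map_mul, ← map_mul, ← map_mul] at h1
  have h2 := congrArg Subtype.val (e.injective h1)
  rw [hci, hyi]
  exact h2

end offender

end Cfsg.Agent.Lib.LocalEven2.JC
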