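import Cfsg.Agent.Lib.LocalEven2.JC8

/-!
# Existence of `J(T)`-components: the main theorem
-/

set_option autoImplicit false
set_option linter.unusedSectionVars false
set_option linter.unusedVariables false

namespace Cfsg.Agent.Lib.LocalEven2.JC

open Subgroup Cfsg Cfsg.Agent.Lib.PLocal
open Cfsg.Agent.Lib.OddLocal (MaxEA thompsonSubgroupOf_eq le_thompsonSubgroupOf MaxEA_nonempty isElementaryAbelian_map)
open Cfsg.Agent.Lib.LocalEven (cj cj_inv_cj cj_cj_inv le_cj_iff cj_mono isPGroup_cj cj_eq_of_mem_normalizer)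
open scoped commutatorElement

variable {G : Type*} [Group G] [Finite G]

theorem ker_mem' {L : Subgroup G} {g : ↥L} (h1 : phi ↥L g = 1) : (g : G) ∈ CCL L := by
  refine ⟨g, ?_, rfl⟩
  have : g ∈ (phi ↥L).ker := h1
  rwa [ker_phi] at this

theorem phi_ne_of_notMem {L : Subgroup G} {g : ↥L} (h1 : (g : G) ∉ CCL L) : phi ↥L g ≠ 1 := fun he =>
  h1 (ker_mem' he)

/-- The element `x`. -/
theorem exists_x0 {L T A : Subgroup G} {a : G} (hLS : LS L) (hT : IsSylowTwoIn T L) (hA : A ∈ MaxEA 2 T) (ha : a ∈ A)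
    (haL : a ∈ L) (hc : Trv 2 (VX ↥L) (HX ↥L) (phi ↥L ⟨a, haL⟩))
    (hQ : L ≤ normalizer ((pCoreOf 2 L : Subgroup G) : Set G)) :
    ∃ x : ↥L, (x : G) ^ 3 = 1 ∧ a * x * a⁻¹ = (x : G)⁻¹ ∧
      phi ↥L x ∈ ⁅coreOf 2 (HX ↥L), zpowers (phi ↥L ⟨a, haL⟩)⁆ ∧ phi ↥L x ≠ 1 ∧ (x : G) ∈ LS.DC L hQ := by
  classical
  have S := setupX hLS.hsol hLS.hcX
  set aa : ↥L := ⟨a, haL⟩ with haa
  set c := phi ↥L aa with hcd
  have haT : a ∈ T := hA.1 ha
  have haa2 : aa * aa = 1 := by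
    have := (isEA_iff.1 hA.2.1).2 a ha
    rw [pow_two] at this
    exact Subtype.ext this
  have haai : aa⁻¹ = aa := inv_eq_of_mul_eq_one_left haa2
  have hcard := fac'_card S hc
  obtain ⟨y, hy, hy1⟩ : ∃ y ∈ ⁅coreOf 2 (HX ↥L), zpowers c⁆, y ≠ 1 := by
    rcases Subgroup.bot_or_exists_ne_one ⁅coreOf 2 (HX ↥L), zpowers c⁆ with he | he
    · rw [he, Subgroup.card_bot] at hcard
      omega
    · exact he
  have hinv := fac_inv S hc hy hy1
  have hyH : y ∈ HX ↥L := fac_le S hc (fac'_le S hc hy)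
  obtain ⟨g, hg, rfl⟩ := hyH
  set y := phi ↥L g with hyd
  have hy3 : y ^ 3 = 1 := by
    have h1 := pow_card_eq_one' (x := (⟨y, hy⟩ : ↥(⁅coreOf 2 (HX ↥L), zpowers c⁆)))
    rw [hcard] at h1
    exact congrArg Subtype.val h1
  set u : ↥L := g * aa * g⁻¹ * aa⁻¹ with hud
  have hphi : phi ↥L u = y * y := by
    rw [hud]
    simp only [map_mul, map_inv]
    rw [← hcd, ← hyd]
    have e : y * c * y⁻¹ * c⁻¹ = y * (c * y * c⁻¹)⁻¹ := by group
    rw [e, hinv, inv_inv]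
  have hau : aa * u * aa⁻¹ = u⁻¹ := by
    rw [hud, haai]
    calc aa * (g * aa * g⁻¹ * aa) * aa = aa * g * aa * g⁻¹ * (aa * aa) := by group
      _ = aa * g * aa * g⁻¹ := by rw [haa2, mul_one]
      _ = (g * aa * g⁻¹ * aa)⁻¹ := by
        have : (g * aa * g⁻¹ * aa)⁻¹ = aa⁻¹ * g * aa⁻¹ * g⁻¹ := by group
        rw [this, haai]
  obtain ⟨r, m, hm3, hm⟩ := Nat.exists_eq_pow_mul_and_not_dvd (orderOf_pos u).ne' 3 (by norm_num)
  set x₀ : ↥L := u ^ m with hx₀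
  have hx₀r : x₀ ^ 3 ^ r = 1 := by
    rw [hx₀, ← pow_mul, mul_comm, ← hm, pow_orderOf_eq_one]
  have hax₀ : aa * x₀ * aa⁻¹ = x₀⁻¹ := by
    rw [hx₀, ← conj_pow, hau, inv_pow]
  have hφx₀ : phi ↥L x₀ = (y * y) ^ m := by
    rw [hx₀, map_pow, hphi]
  have hφmem : phi ↥L x₀ ∈ ⁅coreOf 2 (HX ↥L), zpowers c⁆ := by
    rw [hφx₀]
    exact Subgroup.pow_mem _ (Subgroup.mul_mem _ hy hy) m
  have hφne : phi ↥L x₀ ≠ 1 := by
    rw [hφx₀]
    intro he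
    have h1 : y ^ (2 * m) = 1 := by
      rw [pow_mul, pow_two]
      exact he
    haveI : Fact (Nat.Prime 3) := ⟨Nat.prime_three⟩
    have h2 : orderOf y = 3 := orderOf_eq_prime hy3 hy1
    have h3 : 3 ∣ 2 * m := by
      rw [← h2]
      exact orderOf_dvd_of_pow_eq_one h1
    have h4 : 3 ∣ m := (Nat.Coprime.dvd_of_dvd_mul_left (by norm_num) h3)
    exact hm3 h4
  -- `d = x₀³` lies in the kernel
  set d : ↥L := x₀ ^ 3 with hd
  have hd1 : phi ↥L d = 1 := by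
    rw [hd, map_pow]
    have h1 := pow_card_eq_one' (x := (⟨phi ↥L x₀, hφmem⟩ : ↥(⁅coreOf 2 (HX ↥L), zpowers c⁆)))
    rw [hcard] at h1
    exact congrArg Subtype.val h1
  have hdC : (d : G) ∈ CCL L := ker_mem' hd1
  have had : aa * d * aa⁻¹ = d⁻¹ := by
    rw [hd, ← conj_pow, hax₀, inv_pow]
  have h2 := hLS.comm_T_C hT haT hdC
  have h3 : a * (d : G) * a⁻¹ * (d : G)⁻¹ = (d : G)⁻¹ * (d : G)⁻¹ := by
    have : a * (d : G) * a⁻¹ = (d : G)⁻¹ := congrArg Subtype.val had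
    rw [this]
  rw [h3] at h2
  have hdr : d ^ 3 ^ r = 1 := by
    rw [hd, ← pow_mul, mul_comm, pow_mul, hx₀r, one_pow]
  have hdrG : (d : G) ^ 3 ^ r = 1 := congrArg Subtype.val hdr
  have hodd3 : Odd (3 ^ r) := Odd.pow (by decide)
  have h4 : (d : G)⁻¹ * (d : G)⁻¹ = 1 := by
    refine Data.eq_one_of_odd (Pre.hQp L) h2 ?_
    refine hodd3.of_dvd_nat (orderOf_dvd_of_pow_eq_one ?_)
    have hcm : Commute (d : G)⁻¹ (d : G)⁻¹ := Commute.refl _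
    rw [hcm.mul_pow, inv_pow, hdrG, inv_one, one_mul]
  have h5 : (d : G) * (d : G) = 1 := by
    have : (d : G) * (d : G) = ((d : G)⁻¹ * (d : G)⁻¹)⁻¹ := by
      rw [mul_inv_rev, inv_inv]
    rw [this, h4, inv_one]
  have h6 : (d : G) = 1 := by
    obtain ⟨k, hk⟩ := hodd3
    rw [hk, pow_succ, pow_mul, pow_two, h5, one_pow, one_mul] at hdrG
    exact hdrG
  refine ⟨x₀, ?_, congrArg Subtype.val hax₀, hφmem, hφne, ?_⟩
  · exact h6
  · -- membership in `DC`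
    have haD : a ∈ LS.DC L hQ := ⟨haL, fun c' hc' => hLS.comm_T_C hT haT hc'⟩
    have hu : (u : G) ∈ LS.DC L hQ := by
      have e : (u : G) = (g : G) * a * (g : G)⁻¹ * a⁻¹ := rfl
      rw [e]
      exact (LS.DC L hQ).mul_mem (LS.DC_conj hQ g.2 haD) ((LS.DC L hQ).inv_mem haD)
    have e : ((x₀ : ↥L) : G) = (u : G) ^ m := rfl
    rw [e]
    exact (LS.DC L hQ).pow_mem hu m

/-- Construction of the data. -/
theorem exists_pre {L T A : Subgroup G} {a : G} (hLS : LS L) (hT : IsSylowTwoIn T L) (hA : A ∈ MaxEA 2 T) (ha : a ∈ A)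
    (haL : a ∈ L) (hc : Trv 2 (VX ↥L) (HX ↥L) (phi ↥L ⟨a, haL⟩)) :
    ∃ x : ↥L, Pre L T A a x ∧ phi ↥L x ∈ ⁅coreOf 2 (HX ↥L), zpowers (phi ↥L ⟨a, haL⟩)⁆ ∧ phi ↥L x ≠ 1 := by
  classical
  have hQ : L ≤ normalizer ((pCoreOf 2 L : Subgroup G) : Set G) := Pre.hQn L
  obtain ⟨x, hx3, hax, hE', hne, hxD⟩ := exists_x0 hLS hT hA ha haL hc hQ
  refine ⟨x, ?_, hE', hne⟩
  have S := setupX hLS.hsol hLS.hcX
  have hgen := genX hLS.hsol hLS.hcX
  have hxC : (x : G) ∉ CCL L := by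
    rintro ⟨v, hv, hve⟩
    have : v = x := Subtype.ext hve
    apply hne
    have h1 : v ∈ (phi ↥L).ker := by rw [ker_phi]; exact hv
    rw [← this]
    exact h1
  set aa : ↥L := ⟨a, haL⟩ with haa
  set c := phi ↥L aa with hcd
  have hz3 := Cfsg.Agent.Lib.PLocal.eq_zpowers_of_card (fac'_card S hc) hE' hne
  have hy3 : (phi ↥L x) ^ 3 = 1 := by
    rw [← map_pow]
    have : x ^ 3 = 1 := Subtype.ext hx3
    rw [this, map_one]
  have hcinv : c * phi ↥L x * c⁻¹ = (phi ↥L x)⁻¹ := by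
    have : aa * x * aa⁻¹ = x⁻¹ := Subtype.ext hax
    have h1 := congrArg (phi ↥L) this
    simpa only [map_mul, map_inv] using h1
  refine ⟨hLS, hT, hA, ha, x.2, hx3, hxC, hax, ?_⟩
  intro j hj
  obtain ⟨jj, hjj, rfl⟩ := thompson_le_JL hT hj
  have hjT : (jj : G) ∈ T := thompson_le T hj
  have hφj : phi ↥L jj ∈ HX ↥L := ⟨jj, hjj, rfl⟩
  have h1 := fac'_normal hgen S hc hφj hE'
  rw [hz3] at h1
  rcases zp3 h1 hy3 with e | e | e
  · exfalso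
    apply hne
    have : phi ↥L x = (phi ↥L jj)⁻¹ * (phi ↥L jj * phi ↥L x * (phi ↥L jj)⁻¹) * phi ↥L jj := by group
    rw [this, e]
    group
  · left
    apply comm_mem_Q hLS hT hQ hjT hxD
    have h2 : phi ↥L (jj * x * jj⁻¹ * x⁻¹) = 1 := by
      simp only [map_mul, map_inv]
      rw [e]
      group
    exact ker_mem' h2
  · right
    have hajT : a * (jj : G) ∈ T := T.mul_mem (hA.1 ha) hjT
    have h2 : a * (jj : G) * (x : G) * (a * (jj : G))⁻¹ * (x : G)⁻¹ ∈ pCoreOf 2 L := by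
      apply comm_mem_Q hLS hT hQ hajT hxD
      have h3 : phi ↥L (aa * jj * x * (aa * jj)⁻¹ * x⁻¹) = 1 := by
        simp only [map_mul, map_inv]
        rw [← hcd]
        have e2 : c * phi ↥L jj * phi ↥L x * (c * phi ↥L jj)⁻¹ * (phi ↥L x)⁻¹ =
            c * (phi ↥L jj * phi ↥L x * (phi ↥L jj)⁻¹) * c⁻¹ * (phi ↥L x)⁻¹ := by group
        rw [e2, e]
        have e3 : c * (phi ↥L x)⁻¹ * c⁻¹ = (c * phi ↥L x * c⁻¹)⁻¹ := by group
        rw [e3, hcinv]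
        group
      exact ker_mem' h3
    have hax' : a⁻¹ * (x : G)⁻¹ * a = x := by
      rw [← hax]; group
    have e4 : (jj : G) * x * (jj : G)⁻¹ * x =
        a⁻¹ * (a * (jj : G) * (x : G) * (a * (jj : G))⁻¹ * (x : G)⁻¹) * a⁻¹⁻¹ := by
      calc (jj : G) * x * (jj : G)⁻¹ * x = (jj : G) * x * (jj : G)⁻¹ * (a⁻¹ * (x : G)⁻¹ * a) := by rw [hax']
        _ = _ := by group
    show (jj : G) * x * (jj : G)⁻¹ * x ∈ pCoreOf 2 L
    rw [e4]
    exact (Subgroup.mem_normalizer_iff.1 (hQ (L.inv_mem haL)) _).1 h2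

/-- **Existence of `J(T)`-components.** -/
theorem exists_comp {L T A : Subgroup G} {a : G} (hLS : LS L) (hT : IsSylowTwoIn T L) (hA : A ∈ MaxEA 2 T) (ha : a ∈ A)
    (haL : a ∈ L) (hc : Trv 2 (VX ↥L) (HX ↥L) (phi ↥L ⟨a, haL⟩)) :
    ∃ K : Subgroup G, IsJComponent T K ∧ K ≤ L ∧ ∃ x : ↥L, Data.IsX K x ∧
      phi ↥L x ∈ ⁅coreOf 2 (HX ↥L), zpowers (phi ↥L ⟨a, haL⟩)⁆ ∧ phi ↥L x ≠ 1 := by
  obtain ⟨x, hP, hE, hne⟩ := exists_pre hLS hT hA ha haL hc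
  exact ⟨_, hP.isJ, hP.KL, x, hP.isX, hE, hne⟩

end Cfsg.Agent.Lib.LocalEven2.JC
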