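import Cfsg.Agent.Lib.LocalEven.StrongClosed
import Cfsg.Agent.Lib.Coprime.Extraspecial
import Cfsg.Agent.Lib.OddLocal.Rank2A
import Cfsg.Agent.Lib.PGroups.Parts

/-!
The modular extraspecial group of order `p ^ 3`: the centre of a Sylow subgroup of this shape is
strongly closed.
-/

set_option autoImplicit false

namespace Cfsg.Agent.Lib.LocalEven2.M3

open Cfsg
open scoped commutatorElement

section A

variable {G : Type*} [Group G]

theorem conj_inv'' (y e : G) : y * e⁻¹ * y⁻¹ = (y * e * y⁻¹)⁻¹ := by group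

/-- Elements acting on `E` as the identity or as inversion. -/
def scal (E : Subgroup G) : Subgroup G where
  carrier := {y | (∀ e ∈ E, y * e * y⁻¹ = e) ∨ (∀ e ∈ E, y * e * y⁻¹ = e⁻¹)}
  one_mem' := Or.inl (by simp)
  mul_mem' := by
    intro a b ha hb
    rcases ha with ha | ha <;> rcases hb with hb | hb
    · left; intro e he
      calc a * b * e * (a * b)⁻¹ = a * (b * e * b⁻¹) * a⁻¹ := by group
        _ = e := by rw [hb e he, ha e he]
    · right; intro e he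
      calc a * b * e * (a * b)⁻¹ = a * (b * e * b⁻¹) * a⁻¹ := by group
        _ = e⁻¹ := by rw [hb e he, conj_inv'', ha e he]
    · right; intro e he
      calc a * b * e * (a * b)⁻¹ = a * (b * e * b⁻¹) * a⁻¹ := by group
        _ = e⁻¹ := by rw [hb e he, ha e he]
    · left; intro e he
      calc a * b * e * (a * b)⁻¹ = a * (b * e * b⁻¹) * a⁻¹ := by group
        _ = e := by rw [hb e he, conj_inv'', ha e he, inv_inv]
  inv_mem' := by
    intro a ha
    rcases ha with ha | ha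
    · left; intro e he
      have h := ha e he
      calc a⁻¹ * e * a⁻¹⁻¹ = a⁻¹ * (a * e * a⁻¹) * a := by rw [h]; group
        _ = e := by group
    · right; intro e he
      have h := ha e he
      calc a⁻¹ * e * a⁻¹⁻¹ = a⁻¹ * (a * e * a⁻¹)⁻¹ * a := by rw [h, inv_inv]; group
        _ = e⁻¹ := by group

theorem mem_scal {E : Subgroup G} {y : G} :
    y ∈ scal E ↔ (∀ e ∈ E, y * e * y⁻¹ = e) ∨ (∀ e ∈ E, y * e * y⁻¹ = e⁻¹) := Iff.rfl

theorem scal_le_normalizer [Finite G] (E : Subgroup G) : scal E ≤ Subgroup.normalizer (E : Set G) := by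
  intro y hy
  apply Cfsg.Agent.Lib.PGroups.mem_normalizer_of_conj_le'
  intro w hw
  rcases hy with hy | hy
  · rw [hy w hw]; exact hw
  · rw [hy w hw]; exact E.inv_mem hw

theorem scal_conj {E : Subgroup G} {n y : G} (hn : n ∈ Subgroup.normalizer (E : Set G))
    (hy : y ∈ scal E) : n * y * n⁻¹ ∈ scal E := by
  rw [Subgroup.mem_normalizer_iff] at hn
  have hn' : ∀ e ∈ E, n⁻¹ * e * n ∈ E := by
    intro e he
    rw [hn]
    have : n * (n⁻¹ * e * n) * n⁻¹ = e := by group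
    rwa [this]
  rcases hy with hy | hy
  · left
    intro e he
    calc n * y * n⁻¹ * e * (n * y * n⁻¹)⁻¹ = n * (y * (n⁻¹ * e * n) * y⁻¹) * n⁻¹ := by group
      _ = e := by rw [hy _ (hn' e he)]; group
  · right
    intro e he
    calc n * y * n⁻¹ * e * (n * y * n⁻¹)⁻¹ = n * (y * (n⁻¹ * e * n) * y⁻¹) * n⁻¹ := by group
      _ = e⁻¹ := by rw [hy _ (hn' e he)]; group

theorem inverts_conj {E : Subgroup G} {n y : G} (hn : n ∈ Subgroup.normalizer (E : Set G))
    (hy : ∀ e ∈ E, y * e * y⁻¹ = e⁻¹) : ∀ e ∈ E, (n * y * n⁻¹) * e * (n * y * n⁻¹)⁻¹ = e⁻¹ := by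
  rw [Subgroup.mem_normalizer_iff] at hn
  have hn' : ∀ e ∈ E, n⁻¹ * e * n ∈ E := by
    intro e he
    rw [hn]
    have : n * (n⁻¹ * e * n) * n⁻¹ = e := by group
    rwa [this]
  intro e he
  calc n * y * n⁻¹ * e * (n * y * n⁻¹)⁻¹ = n * (y * (n⁻¹ * e * n) * y⁻¹) * n⁻¹ := by group
    _ = e⁻¹ := by rw [hy _ (hn' e he)]; group

theorem pow_odd_inverts {E : Subgroup G} {v : G} (hv : ∀ e ∈ E, v * e * v⁻¹ = e⁻¹) {m : ℕ}
    (hm : Odd m) : ∀ e ∈ E, v ^ m * e * (v ^ m)⁻¹ = e⁻¹ := by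
  obtain ⟨j, rfl⟩ := hm
  induction j with
  | zero => simpa using hv
  | succ j ih =>
    intro e he
    have h1 : v ^ (2 * (j + 1) + 1) = v ^ (2 * j + 1) * v * v := by
      rw [show 2 * (j + 1) + 1 = (2 * j + 1) + 1 + 1 by ring, pow_succ, pow_succ]
    rw [h1]
    calc v ^ (2 * j + 1) * v * v * e * (v ^ (2 * j + 1) * v * v)⁻¹
        = v ^ (2 * j + 1) * (v * (v * e * v⁻¹) * v⁻¹) * (v ^ (2 * j + 1))⁻¹ := by group
      _ = v ^ (2 * j + 1) * e * (v ^ (2 * j + 1))⁻¹ := by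
          rw [hv e he, hv _ (E.inv_mem he), inv_inv]
      _ = e⁻¹ := ih e he

theorem mem_of_pow_mem_of_coprime (Y : Subgroup G) {t : G} {m : ℕ} (h : t ^ m ∈ Y)
    (hc : Nat.Coprime m (orderOf t)) : t ∈ Y := by
  have h1 : ((Nat.gcd m (orderOf t) : ℕ) : ℤ) = m * Nat.gcdA m (orderOf t) + orderOf t * Nat.gcdB m (orderOf t) :=
    Nat.gcd_eq_gcd_ab _ _
  rw [hc] at h1
  have h2 : t = (t ^ m) ^ (Nat.gcdA m (orderOf t)) := by
    calc t = t ^ ((1 : ℕ) : ℤ) := by simp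
      _ = t ^ ((m : ℤ) * Nat.gcdA m (orderOf t) + orderOf t * Nat.gcdB m (orderOf t)) := by rw [h1]
      _ = (t ^ m) ^ (Nat.gcdA m (orderOf t)) := by
          rw [zpow_add, zpow_mul, zpow_mul t (orderOf t : ℤ), zpow_natCast, zpow_natCast,
            pow_orderOf_eq_one, one_zpow, mul_one]
  rw [h2]
  exact Y.zpow_mem h _

theorem pow_eq_of_mul {Y : Subgroup G} {d t : G} (hd : d ∈ Y)
    (ht : ∀ y ∈ Y, t * y * t⁻¹ ∈ Y) (n : ℕ) : ∃ y ∈ Y, (d * t) ^ n = y * t ^ n := by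
  induction n with
  | zero => exact ⟨1, Y.one_mem, by simp⟩
  | succ n ih =>
    obtain ⟨y, hy, h⟩ := ih
    have h2 : ∀ k : ℕ, t ^ k * d * (t ^ k)⁻¹ ∈ Y := by
      intro k
      induction k with
      | zero => simpa using hd
      | succ k ik =>
        have := ht _ ik
        have e : t ^ (k + 1) * d * (t ^ (k + 1))⁻¹ = t * (t ^ k * d * (t ^ k)⁻¹) * t⁻¹ := by
          rw [pow_succ']; group
        rwa [e]
    refine ⟨y * (t ^ n * d * (t ^ n)⁻¹), Y.mul_mem hy (h2 n), ?_⟩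
    rw [pow_succ, h, pow_succ]
    group

variable [Finite G] {p : ℕ} [hpf : Fact p.Prime]

/-- The contradiction of step 3: `t` acts nontrivially and non-centrally, and an inverter exists. -/
theorem core (hp2 : p ≠ 2) {E P : Subgroup G} (hPN : P ≤ Subgroup.normalizer (E : Set G))
    (hPp : IsPGroup p P) (hPi : ¬ p ∣ P.index) (hΩ : ∀ a ∈ P, a ^ p = 1 → a ∈ E)
    {t v : G} (ht : t ∈ P) (h1 : ¬ ∀ e ∈ E, t * e * t⁻¹ = e) (h2 : ¬ ∀ e ∈ E, t * e * t⁻¹ = e⁻¹)
    (hv : ∀ e ∈ E, v * e * v⁻¹ = e⁻¹) : False := by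
  classical
  haveI : Fact (Nat.Prime 2) := ⟨Nat.prime_two⟩
  have hYN := scal_le_normalizer E
  have htN := hPN ht
  have htY : t ∉ scal E := by
    rintro (h | h)
    · exact h1 h
    · exact h2 h
  obtain ⟨k, m, hm, hk⟩ := Nat.exists_eq_two_pow_mul_odd (orderOf_pos v).ne'
  have hu := pow_odd_inverts hv hm
  have huY : v ^ m ∈ scal E := Or.inr hu
  have hu2 : IsPGroup 2 (Subgroup.zpowers (v ^ m)) := by
    rw [Cfsg.Agent.Lib.PGroups.isPGroup_zpowers_iff]
    have : (v ^ m) ^ (2 ^ k) = 1 := by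
      rw [← pow_mul, mul_comm, ← hk, pow_orderOf_eq_one]
    obtain ⟨j, -, hj⟩ := (Nat.dvd_prime_pow Nat.prime_two).1 (orderOf_dvd_of_pow_eq_one this)
    exact ⟨j, hj⟩
  obtain ⟨R, hR⟩ := Cfsg.Agent.Lib.Coprime.exists_isSylowOf 2 (scal E)
  obtain ⟨c, hcY, hcR⟩ := Cfsg.Agent.Lib.LocalEven.exists_cj_le_of_relIndex hR.le hR.isP hR.not_dvd
    (Q := Subgroup.zpowers (v ^ m)) (Subgroup.zpowers_le.2 huY) hu2
  have huR : c * v ^ m * c⁻¹ ∈ R :=
    hcR (Cfsg.Agent.Lib.LocalEven.conj_mem_cj (Subgroup.mem_zpowers _))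
  have huinv := inverts_conj (hYN hcY) hu
  -- Frattini
  have hcjY : Cfsg.Agent.Lib.LocalEven.cj t R ≤ scal E := by
    rintro _ ⟨r, hr, rfl⟩
    exact scal_conj htN (hR.le hr)
  have hcjP : IsPGroup 2 (Cfsg.Agent.Lib.LocalEven.cj t R) := hR.isP.map _
  obtain ⟨d, hdY, hdR⟩ := Cfsg.Agent.Lib.LocalEven.exists_cj_le_of_relIndex hR.le hR.isP hR.not_dvd
    hcjY hcjP
  have hlR : d * t ∈ Subgroup.normalizer (R : Set G) := by
    apply Cfsg.Agent.Lib.PGroups.mem_normalizer_of_conj_le'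
    intro w hw
    have e : d * t * w * (d * t)⁻¹ = d * (t * w * t⁻¹) * d⁻¹ := by group
    rw [e]
    exact hdR (Cfsg.Agent.Lib.LocalEven.conj_mem_cj (Cfsg.Agent.Lib.LocalEven.conj_mem_cj hw))
  have hlN : d * t ∈ Subgroup.normalizer (E : Set G) := Subgroup.mul_mem _ (hYN hdY) htN
  have hord : ∃ r : ℕ, orderOf t = p ^ r := by
    have h3 : IsPGroup p (Subgroup.zpowers t) := by
      refine hPp.to_le ?_
      exact Subgroup.zpowers_le.2 ht
    exact Cfsg.Agent.Lib.PGroups.isPGroup_zpowers_iff.1 h3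
  have hpl : p ∣ orderOf (d * t) := by
    by_contra hc
    obtain ⟨y, hy, hyt⟩ := pow_eq_of_mul hdY (fun y hy => scal_conj htN hy) (orderOf (d * t))
    rw [pow_orderOf_eq_one] at hyt
    have h3 : t ^ orderOf (d * t) ∈ scal E := by
      have : t ^ orderOf (d * t) = y⁻¹ := (eq_inv_of_mul_eq_one_right hyt.symm)
      rw [this]; exact (scal E).inv_mem hy
    obtain ⟨r, hr⟩ := hord
    refine htY (mem_of_pow_mem_of_coprime _ h3 ?_)
    rw [hr]
    exact Nat.Coprime.pow_right r (Nat.Coprime.symm ((Nat.Prime.coprime_iff_not_dvd hpf.out).2 hc))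
  have hos : orderOf ((d * t) ^ (orderOf (d * t) / p)) = p :=
    orderOf_pow_orderOf_div (orderOf_pos _).ne' hpl
  set s := (d * t) ^ (orderOf (d * t) / p) with hs
  have hsN : s ∈ Subgroup.normalizer (E : Set G) := Subgroup.pow_mem _ hlN _
  have hsR : s ∈ Subgroup.normalizer (R : Set G) := Subgroup.pow_mem _ hlR _
  have hsp : s ^ p = 1 := by rw [← hos, pow_orderOf_eq_one]
  have hsE : s ∈ E := by
    have hi : ¬ p ∣ P.relIndex (Subgroup.normalizer (E : Set G)) := by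
      intro hd
      apply hPi
      rw [← Subgroup.relIndex_mul_index hPN]
      exact hd.mul_right _
    obtain ⟨h, hh, hhP⟩ := Cfsg.Agent.Lib.LocalEven.exists_cj_le_of_relIndex hPN hPp hi
      (Q := Subgroup.zpowers s) (Subgroup.zpowers_le.2 hsN)
      (Cfsg.Agent.Lib.PGroups.isPGroup_zpowers_iff.2 ⟨1, by rw [hos, pow_one]⟩)
    have h3 : h * s * h⁻¹ ∈ P := hhP (Cfsg.Agent.Lib.LocalEven.conj_mem_cj (Subgroup.mem_zpowers _))
    have h4 : h * s * h⁻¹ ∈ E := by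
      apply hΩ _ h3
      rw [conj_pow, hsp]; group
    exact (Subgroup.mem_normalizer_iff.1 hh s).2 h4
  -- the final computation
  have h5 : s * (c * v ^ m * c⁻¹) * s⁻¹ ∈ R :=
    (Subgroup.mem_normalizer_iff.1 hsR _).1 huR
  have h6 : (c * v ^ m * c⁻¹) * s⁻¹ * (c * v ^ m * c⁻¹)⁻¹ = (s⁻¹)⁻¹ := huinv _ (E.inv_mem hsE)
  have h7 : s * s ∈ R := by
    have h8 : s * (c * v ^ m * c⁻¹) * s⁻¹ * (c * v ^ m * c⁻¹)⁻¹ = s * s := by
      calc s * (c * v ^ m * c⁻¹) * s⁻¹ * (c * v ^ m * c⁻¹)⁻¹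
          = s * ((c * v ^ m * c⁻¹) * s⁻¹ * (c * v ^ m * c⁻¹)⁻¹) := by group
        _ = s * s := by rw [h6, inv_inv]
    rw [← h8]
    exact R.mul_mem h5 (R.inv_mem huR)
  have h9 : orderOf (s * s) = p := by
    have : s * s = s ^ 2 := (pow_two s).symm
    rw [this, Nat.Coprime.orderOf_pow, hos]
    rw [hos]
    exact (Nat.coprime_primes hpf.out Nat.prime_two).2 hp2
  have h10 : IsPGroup 2 (Subgroup.zpowers (s * s)) :=
    hR.isP.to_le (Subgroup.zpowers_le.2 h7)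
  obtain ⟨j, hj⟩ := Cfsg.Agent.Lib.PGroups.isPGroup_zpowers_iff.1 h10
  rw [h9] at hj
  have h11 : p ∣ 2 ^ j := by rw [hj]
  exact hp2 ((Nat.prime_dvd_prime_iff_eq hpf.out Nat.prime_two).1 (hpf.out.dvd_of_dvd_pow h11))

end A

section B

variable {G : Type*} [Group G] [Finite G] {p : ℕ} [hpf : Fact p.Prime]

/-- Choosing the power of a transvection-like element. -/
theorem exists_power {u c d c₁ w : G} (hcp : orderOf c = p) (huc : u * c * u⁻¹ = c)
    (hud : u * d * u⁻¹ = d * c₁) (hc₁ : c₁ ∈ Subgroup.zpowers c) (hc₁' : c₁ ≠ 1)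
    (hw : w ∈ Subgroup.zpowers c) :
    ∃ i : ℕ, u ^ i * c * (u ^ i)⁻¹ = c ∧ u ^ i * d * (u ^ i)⁻¹ = d * w := by
  have hz : Subgroup.zpowers c₁ = Subgroup.zpowers c := by
    apply Subgroup.eq_of_le_of_card_ge (Subgroup.zpowers_le.2 hc₁)
    rw [Nat.card_zpowers, Nat.card_zpowers, hcp]
    obtain ⟨k, rfl⟩ := hc₁
    have : orderOf (c ^ k) = p := by
      apply orderOf_eq_prime
      · rw [← zpow_natCast, ← zpow_mul, mul_comm, zpow_mul, zpow_natCast, ← hcp, pow_orderOf_eq_one,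
          one_zpow]
      · exact hc₁'
    simp only at this ⊢
    exact this.ge
  have hw' : w ∈ Subgroup.zpowers c₁ := by rw [hz]; exact hw
  rw [← mem_powers_iff_mem_zpowers] at hw'
  obtain ⟨i, rfl⟩ := hw'
  have hcomm : Commute u c := by
    show u * c = c * u
    calc u * c = u * c * u⁻¹ * u := by group
      _ = c * u := by rw [huc]
  have hcomm1 : Commute u c₁ := by
    obtain ⟨k, rfl⟩ := hc₁
    exact hcomm.zpow_right k
  refine ⟨i, ?_⟩
  simp only
  clear hw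
  induction i with
  | zero => simp
  | succ i ih =>
    constructor
    · calc u ^ (i + 1) * c * (u ^ (i + 1))⁻¹ = u ^ i * (u * c * u⁻¹) * (u ^ i)⁻¹ := by
            rw [pow_succ]; group
        _ = c := by rw [huc, ih.1]
    · calc u ^ (i + 1) * d * (u ^ (i + 1))⁻¹ = u ^ i * (u * d * u⁻¹) * (u ^ i)⁻¹ := by
            rw [pow_succ]; group
        _ = (u ^ i * d * (u ^ i)⁻¹) * (u ^ i * c₁ * (u ^ i)⁻¹) := by rw [hud]; group
        _ = d * c₁ ^ i * c₁ := by
            rw [ih.2, ((hcomm1.pow_left i).eq), mul_inv_cancel_right]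
        _ = d * c₁ ^ (i + 1) := by rw [pow_succ]; group

/-- From two opposite transvection-like elements to an inverter. -/
theorem exists_inverter {z x t g c c' : G} (hzx : z * x = x * z) (hz : orderOf z = p)
    (hg : g * z * g⁻¹ = x) (htz : t * z * t⁻¹ = z) (htx : t * x * t⁻¹ = x * c) (hc : c ∈ Subgroup.zpowers z)
    (hc1 : c ≠ 1) (hty : t * (g⁻¹ * z * g) * t⁻¹ = (g⁻¹ * z * g) * c')
    (hc' : c' ∈ Subgroup.zpowers z) (hc1' : c' ≠ 1) :
    ∃ v : G, v * z * v⁻¹ = z⁻¹ ∧ v * x * v⁻¹ = x⁻¹ := by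
  have hx : orderOf x = p := by
    rw [← hg, ← hz]
    exact Cfsg.Agent.Lib.PGroups.orderOf_conj_eq _ _
  obtain ⟨i, hi1, hi2⟩ := exists_power hz htz htx hc hc1 (Subgroup.mem_zpowers z)
  have hgg : g⁻¹ * x * g = z := by rw [← hg]; group
  have hu1 : (g * t * g⁻¹) * x * (g * t * g⁻¹)⁻¹ = x := by
    calc (g * t * g⁻¹) * x * (g * t * g⁻¹)⁻¹ = g * (t * (g⁻¹ * x * g) * t⁻¹) * g⁻¹ := by group
      _ = x := by rw [hgg, htz, hg]
  have hu2 : (g * t * g⁻¹) * z * (g * t * g⁻¹)⁻¹ = z * (g * c' * g⁻¹) := by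
    calc (g * t * g⁻¹) * z * (g * t * g⁻¹)⁻¹ = g * (t * (g⁻¹ * z * g) * t⁻¹) * g⁻¹ := by group
      _ = z * (g * c' * g⁻¹) := by rw [hty]; group
  have hc2 : g * c' * g⁻¹ ∈ Subgroup.zpowers x := by
    obtain ⟨k, rfl⟩ := hc'
    refine ⟨k, ?_⟩
    simp only [← hg, conj_zpow]
  have hc3 : g * c' * g⁻¹ ≠ 1 := by
    intro h
    apply hc1'
    have : c' = g⁻¹ * (g * c' * g⁻¹) * g := by group
    rw [this, h]; group
  obtain ⟨j, hj1, hj2⟩ := exists_power hx hu1 hu2 hc2 hc3 (Subgroup.inv_mem _ (Subgroup.mem_zpowers x))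
  set a := t ^ i with ha
  set b := (g * t * g⁻¹) ^ j with hb
  have hw1 : (a * b * a) * z * (a * b * a)⁻¹ = x⁻¹ := by
    calc (a * b * a) * z * (a * b * a)⁻¹ = a * (b * (a * z * a⁻¹) * b⁻¹) * a⁻¹ := by group
      _ = a * (z * x⁻¹) * a⁻¹ := by rw [hi1, hj2]
      _ = a * z * a⁻¹ * (a * x * a⁻¹)⁻¹ := by group
      _ = z * (x * z)⁻¹ := by rw [hi1, hi2]
      _ = x⁻¹ := by group
  have hw2 : (a * b * a) * x * (a * b * a)⁻¹ = z := by
    calc (a * b * a) * x * (a * b * a)⁻¹ = a * (b * (a * x * a⁻¹) * b⁻¹) * a⁻¹ := by group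
      _ = a * ((b * x * b⁻¹) * (b * z * b⁻¹)) * a⁻¹ := by rw [hi2]; group
      _ = a * (x * (z * x⁻¹)) * a⁻¹ := by rw [hj1, hj2]
      _ = a * z * a⁻¹ := by
        have : x * (z * x⁻¹) = z := by rw [← mul_assoc, ← hzx]; group
        rw [this]
      _ = z := hi1
  refine ⟨(a * b * a) * (a * b * a), ?_, ?_⟩
  · calc (a * b * a) * (a * b * a) * z * ((a * b * a) * (a * b * a))⁻¹
        = (a * b * a) * ((a * b * a) * z * (a * b * a)⁻¹) * (a * b * a)⁻¹ := by group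
      _ = ((a * b * a) * x * (a * b * a)⁻¹)⁻¹ := by rw [hw1]; group
      _ = z⁻¹ := by rw [hw2]
  · calc (a * b * a) * (a * b * a) * x * ((a * b * a) * (a * b * a))⁻¹
        = (a * b * a) * ((a * b * a) * x * (a * b * a)⁻¹) * (a * b * a)⁻¹ := by group
      _ = x⁻¹ := by rw [hw2, hw1]

end B

section C

variable {Q : Type*} [Group Q] [Finite Q] {p : ℕ} [hpf : Fact p.Prime]

open Cfsg.Agent.Lib.Coprime

theorem data_Q (hodd : p ≠ 2) (hE : IsExtraspecial p Q) (hcard : Nat.card Q = p ^ 3)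
    (hexp : Monoid.exponent Q = p ^ 2) :
    ∃ E₀ : Subgroup Q, ∃ t : Q, (∀ a, a ∈ E₀ ↔ a ^ p = 1) ∧ t ^ p ≠ 1 ∧
      ∀ z y : Q, z ∈ Subgroup.center Q → z ≠ 1 → y ^ p = 1 → y ∉ Subgroup.center Q →
        (∀ e : Q, e ^ p = 1 → ∃ i j : ℤ, e = z ^ i * y ^ j) ∧
          ∃ c ∈ Subgroup.center Q, c ≠ 1 ∧ t * y * t⁻¹ = y * c := by
  have hc := ext_commutator_mem hE
  have hcp : ∀ a b : Q, ⁅a, b⁆ ^ p = 1 := fun a b => ext_pow_center hE (hc a b)
  let F : Q →* Q := Cfsg.Agent.Lib.OddLocal.powHom p hodd hc hcp 1 le_rfl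
  have hF : ∀ a, F a = a ^ p := by
    intro a
    show a ^ p ^ 1 = a ^ p
    rw [pow_one]
  have hex : ∃ t : Q, t ^ p ≠ 1 := by
    by_contra h
    push_neg at h
    have h1 := Monoid.exponent_dvd_of_forall_pow_eq_one h
    rw [hexp] at h1
    have h2 := Nat.le_of_dvd hpf.out.pos h1
    have h3 : p * 1 < p * p := Nat.mul_lt_mul_of_pos_left hpf.out.one_lt hpf.out.pos
    rw [mul_one, ← pow_two] at h3
    omega
  obtain ⟨t, ht⟩ := hex
  have hmem : ∀ a, a ∈ F.ker ↔ a ^ p = 1 := by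
    intro a
    rw [MonoidHom.mem_ker, hF]
  have hrange : F.range ≤ Subgroup.center Q := by
    rintro _ ⟨a, rfl⟩
    rw [hF]
    exact ext_pow_mem hE a
  have hidx : F.ker.index = p := by
    rw [Subgroup.index_ker]
    have h1 : Nat.card F.range ∣ p := by
      rw [← hE.2]
      exact Subgroup.card_dvd_of_le hrange
    rcases (Nat.dvd_prime hpf.out).1 h1 with h2 | h2
    · exfalso
      have h3 : F t ∈ F.range := ⟨t, rfl⟩
      have h4 := (Subgroup.card_eq_one.1 ?_ : F.range = ⊥)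
      · rw [h4, Subgroup.mem_bot, hF] at h3
        exact ht h3
      · exact h2
    · exact h2
  have hkcard : Nat.card F.ker = p ^ 2 := by
    have h := Subgroup.card_mul_index F.ker
    rw [hidx, hcard] at h
    have h2 : p ^ 3 = p ^ 2 * p := by ring
    rw [h2] at h
    exact Nat.eq_of_mul_eq_mul_right hpf.out.pos h
  have hcoat : IsCoatom F.ker :=
    Cfsg.Agent.Lib.Basic.isCoatom_of_index_prime (by rw [hidx]; exact hpf.out)
  refine ⟨F.ker, t, hmem, ht, ?_⟩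
  intro z y hz hz1 hy hyc
  have hzo : orderOf z = p := orderOf_eq_prime (ext_pow_center hE hz) hz1
  have hcz : Subgroup.center Q = Subgroup.zpowers z := by
    symm
    apply Subgroup.eq_of_le_of_card_ge (Subgroup.zpowers_le.2 hz)
    rw [hE.2, Nat.card_zpowers, hzo]
  have hN : Subgroup.zpowers y ≤ Subgroup.normalizer (Subgroup.center Q : Set Q) := by
    rw [Subgroup.normalizer_eq_top_iff.2 inferInstance]
    exact le_top
  have hform : ∀ e : Q, e ^ p = 1 → ∃ i j : ℤ, e = z ^ i * y ^ j := by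
    set W := Subgroup.center Q ⊔ Subgroup.zpowers y with hW
    have hWk : W ≤ F.ker := by
      refine sup_le ?_ (Subgroup.zpowers_le.2 ((hmem y).2 hy))
      intro w hw
      exact (hmem w).2 (ext_pow_center hE hw)
    have hlt : Subgroup.center Q < W := by
      refine lt_of_le_of_ne le_sup_left ?_
      intro h
      apply hyc
      rw [h]
      exact (le_sup_right : Subgroup.zpowers y ≤ W) (Subgroup.mem_zpowers y)
    have hcardlt : p < Nat.card W := by
      have : Nat.card (Subgroup.center Q) < Nat.card W :=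
        lt_of_le_of_ne (Subgroup.card_le_of_le hlt.le)
          (fun e => hlt.ne (Subgroup.eq_of_le_of_card_ge hlt.le e.ge))
      rwa [hE.2] at this
    have hdvd : Nat.card W ∣ p ^ 2 := by
      rw [← hkcard]
      exact Subgroup.card_dvd_of_le hWk
    have hWeq : W = F.ker := by
      apply Subgroup.eq_of_le_of_card_ge hWk
      rw [hkcard]
      obtain ⟨k, hk2, hk⟩ := (Nat.dvd_prime_pow hpf.out).1 hdvd
      rw [hk] at hcardlt ⊢
      have hk0 : k ≠ 0 := by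
        rintro rfl
        simp at hcardlt
        exact absurd hcardlt (by have := hpf.out.pos; omega)
      have hk1 : k ≠ 1 := by
        rintro rfl
        simp at hcardlt
      have : k = 2 := by omega
      rw [this]
    intro e he
    have h1 : e ∈ W := by rw [hWeq]; exact (hmem e).2 he
    obtain ⟨k, hk, y', hy', rfl⟩ := (mem_sup_iff_of_le_normalizer hN e).1 h1
    rw [hcz] at hk
    obtain ⟨i, rfl⟩ := hk
    obtain ⟨j, rfl⟩ := hy'
    exact ⟨i, j, rfl⟩
  refine ⟨hform, y⁻¹ * (t * y * t⁻¹), ?_, ?_, by group⟩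
  · have := hc y⁻¹ t
    rw [commutatorElement_def, inv_inv] at this
    have e : y⁻¹ * t * y * t⁻¹ = y⁻¹ * (t * y * t⁻¹) := by group
    rwa [e] at this
  · intro h1
    have hcomm : t * y = y * t := by
      have h2 : t * y * t⁻¹ = y := by
        calc t * y * t⁻¹ = y * (y⁻¹ * (t * y * t⁻¹)) := by group
          _ = y := by rw [h1, mul_one]
      calc t * y = t * y * t⁻¹ * t := by group
        _ = y * t := by rw [h2]
    let A : Subgroup Q := Subgroup.centralizer {y}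
    have hkA : F.ker ≤ A := by
      intro e he
      obtain ⟨i, j, rfl⟩ := hform e ((hmem e).1 he)
      rw [Subgroup.mem_centralizer_singleton_iff]
      have h1 : y * z ^ i = z ^ i * y := by
        have h3 : z ^ i ∈ Subgroup.center Q := Subgroup.zpow_mem _ hz i
        exact (Subgroup.mem_center_iff.1 h3 y)
      have h2 : y * y ^ j = y ^ j * y := (Commute.refl y).zpow_right j
      calc z ^ i * y ^ j * y = z ^ i * (y ^ j * y) := by group
        _ = z ^ i * (y * y ^ j) := by rw [h2]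
        _ = (z ^ i * y) * y ^ j := by group
        _ = (y * z ^ i) * y ^ j := by rw [h1]
        _ = y * (z ^ i * y ^ j) := by group
    have htA : t ∈ A := by
      rw [Subgroup.mem_centralizer_singleton_iff]
      exact hcomm
    have hlt : F.ker < A := by
      refine lt_of_le_of_ne hkA ?_
      intro h
      apply ht
      rw [← hmem, h]
      exact htA
    have htop := hcoat.2 A hlt
    apply hyc
    rw [Subgroup.mem_center_iff]
    intro g
    have : g ∈ A := by rw [htop]; trivial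
    rw [Subgroup.mem_centralizer_singleton_iff] at this
    exact this

end C

section D

variable {G : Type*} [Group G] [Finite G] {p : ℕ} [hpf : Fact p.Prime]

open Cfsg.Agent.Lib.Coprime

theorem main (hodd : p ≠ 2) (S : Subgroup G) (hSp : IsPGroup p S) (hSi : ¬ p ∣ S.index)
    (hE : IsExtraspecial p S) (hcard : Nat.card S = p ^ 3) (hexp : Monoid.exponent S = p ^ 2) :
    IsStronglyClosed ((Subgroup.center S).map S.subtype) S := by
  classical
  have hZS : (Subgroup.center S).map S.subtype ≤ S := by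
    rintro _ ⟨z, -, rfl⟩
    exact z.2
  refine ⟨hZS, ?_⟩
  obtain ⟨E₀, t₀, hE₀, ht₀, hdata⟩ := data_Q hodd hE hcard hexp
  intro z hzZ g hg
  by_contra hxZ
  set Z := (Subgroup.center S).map S.subtype with hZ
  have hZmem : ∀ w, w ∈ Z ↔ ∃ h : w ∈ S, (⟨w, h⟩ : S) ∈ Subgroup.center S := by
    intro w
    constructor
    · rintro ⟨c, hc, rfl⟩
      exact ⟨c.2, hc⟩
    · rintro ⟨h, hc⟩
      exact ⟨_, hc, rfl⟩
  obtain ⟨hzS, hzc⟩ := (hZmem z).1 hzZ
  have hz1 : z ≠ 1 := by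
    rintro rfl
    apply hxZ
    have : g * 1 * g⁻¹ = 1 := by group
    rw [this]
    exact Z.one_mem
  have hcardZ : Nat.card Z = p := by
    rw [hZ, Subgroup.card_map_of_injective S.subtype_injective, hE.2]
  let E : Subgroup G := E₀.map S.subtype
  have hEmem : ∀ a, a ∈ E ↔ a ∈ S ∧ a ^ p = 1 := by
    intro a
    constructor
    · rintro ⟨a₀, h, rfl⟩
      refine ⟨a₀.2, ?_⟩
      have := congrArg Subtype.val ((hE₀ a₀).1 h)
      simpa using this
    · rintro ⟨h, hp⟩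
      exact ⟨⟨a, h⟩, (hE₀ _).2 (Subtype.ext (by simpa using hp)), rfl⟩
  have hzcent : ∀ b ∈ S, b * z = z * b := by
    intro b hb
    have := Subgroup.mem_center_iff.1 hzc ⟨b, hb⟩
    exact congrArg Subtype.val this
  have hzp : z ^ p = 1 := by
    have := congrArg Subtype.val (ext_pow_center hE hzc)
    simpa using this
  have hzo : orderOf z = p := orderOf_eq_prime hzp hz1
  have hZz : ∀ w ∈ Z, w ∈ Subgroup.zpowers z := by
    have h1 : Subgroup.zpowers z = Z := by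
      apply Subgroup.eq_of_le_of_card_ge (Subgroup.zpowers_le.2 hzZ)
      rw [hcardZ, Nat.card_zpowers, hzo]
    rw [h1]
    exact fun w hw => hw
  have hxp : (g * z * g⁻¹) ^ p = 1 := by
    rw [conj_pow, hzp]; group
  set x := g * z * g⁻¹ with hx
  have hxE : x ∈ E := (hEmem x).2 ⟨hg, hxp⟩
  have hzE : z ∈ E := (hEmem z).2 ⟨hzS, hzp⟩
  have hxc : (⟨x, hg⟩ : S) ∉ Subgroup.center S := fun h => hxZ ((hZmem x).2 ⟨hg, h⟩)
  have hz₀ : (⟨z, hzS⟩ : S) ≠ 1 := fun h => hz1 (congrArg Subtype.val h)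
  obtain ⟨hform, c₀, hc₀, hc₀1, hcx⟩ := hdata ⟨z, hzS⟩ ⟨x, hg⟩ hzc hz₀
    (Subtype.ext (by simpa using hxp)) hxc
  have hzx : z * x = x * z := (hzcent x hg).symm
  have hform' : ∀ e ∈ E, ∃ i j : ℤ, e = z ^ i * x ^ j := by
    intro e he
    obtain ⟨heS, hep⟩ := (hEmem e).1 he
    obtain ⟨i, j, h⟩ := hform ⟨e, heS⟩ (Subtype.ext (by simpa using hep))
    refine ⟨i, j, ?_⟩
    have := congrArg Subtype.val h
    simpa using this
  -- the conjugation
  have hgC : Cfsg.Agent.Lib.LocalEven.cj g S ≤ Subgroup.centralizer {x} := by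
    rintro _ ⟨w, hw, rfl⟩
    rw [Subgroup.mem_centralizer_singleton_iff]
    have := hzcent w hw
    simp only [MulEquiv.coe_toMonoidHom, MulAut.conj_apply, hx]
    calc g * w * g⁻¹ * (g * z * g⁻¹) = g * (w * z) * g⁻¹ := by group
      _ = g * (z * w) * g⁻¹ := by rw [this]
      _ = g * z * g⁻¹ * (g * w * g⁻¹) := by group
  have hEC : E ≤ Subgroup.centralizer {x} := by
    intro e he
    rw [Subgroup.mem_centralizer_singleton_iff]
    obtain ⟨i, j, rfl⟩ := hform' e he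
    have h1 : Commute z x := hzx
    exact ((h1.zpow_left i).mul_left (Commute.refl x |>.zpow_left j))
  have hEp : IsPGroup p E := hSp.to_le (fun a ha => ((hEmem a).1 ha).1)
  have hgi : ¬ p ∣ (Cfsg.Agent.Lib.LocalEven.cj g S).relIndex (Subgroup.centralizer {x}) := by
    have hs : IsSylowOf p S ⊤ := ⟨le_top, hSp, by rwa [Subgroup.relIndex_top_right]⟩
    have h1 := (hs.conj (g := g) (Subgroup.mem_top g)).not_dvd
    rw [Subgroup.relIndex_top_right] at h1
    intro hd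
    apply h1
    rw [← Subgroup.relIndex_mul_index hgC]
    exact hd.mul_right _
  obtain ⟨k, hkC, hkE⟩ := Cfsg.Agent.Lib.LocalEven.exists_cj_le_of_relIndex hgC (hSp.map _) hgi hEC hEp
  rw [Subgroup.mem_centralizer_singleton_iff] at hkC
  have hkx : k⁻¹ * x * k = x := by
    calc k⁻¹ * x * k = k⁻¹ * (x * k) := by group
      _ = k⁻¹ * (k * x) := by rw [hkC]
      _ = x := by group
  have hg'z : (k⁻¹ * g) * z * (k⁻¹ * g)⁻¹ = x := by
    calc (k⁻¹ * g) * z * (k⁻¹ * g)⁻¹ = k⁻¹ * (g * z * g⁻¹) * k := by group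
      _ = x := hkx
  have hg'E : ∀ w ∈ E, (k⁻¹ * g)⁻¹ * w * (k⁻¹ * g) ∈ E := by
    intro w hw
    have h1 : k * w * k⁻¹ ∈ Cfsg.Agent.Lib.LocalEven.cj g S :=
      hkE (Cfsg.Agent.Lib.LocalEven.conj_mem_cj hw)
    have h2 := Cfsg.Agent.Lib.LocalEven.mem_cj.1 h1
    have e : (k⁻¹ * g)⁻¹ * w * (k⁻¹ * g) = g⁻¹ * (k * w * k⁻¹) * g := by group
    rw [e]
    refine (hEmem _).2 ⟨h2, ?_⟩
    have e2 : g⁻¹ * (k * w * k⁻¹) * g = (g⁻¹ * k) * w * (g⁻¹ * k)⁻¹ := by group
    rw [e2, conj_pow, ((hEmem w).1 hw).2]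
    group
  set g' := k⁻¹ * g with hg'
  have hg'N : g' ∈ Subgroup.normalizer (E : Set G) := by
    have h1 : g'⁻¹ ∈ Subgroup.normalizer (E : Set G) := by
      apply Cfsg.Agent.Lib.PGroups.mem_normalizer_of_conj_le'
      intro w hw
      rw [inv_inv]
      exact hg'E w hw
    simpa using Subgroup.inv_mem _ h1
  have hyE : g'⁻¹ * z * g' ∈ E := hg'E z hzE
  obtain ⟨hyS, hyp⟩ := (hEmem _).1 hyE
  have hy1 : g'⁻¹ * z * g' ≠ 1 := by
    intro h
    apply hz1
    have : z = g' * (g'⁻¹ * z * g') * g'⁻¹ := by group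
    rw [this, h]; group
  have hyc : (⟨g'⁻¹ * z * g', hyS⟩ : S) ∉ Subgroup.center S := by
    intro hc
    have hyZ : g'⁻¹ * z * g' ∈ Z := (hZmem _).2 ⟨hyS, hc⟩
    have hyo : orderOf (g'⁻¹ * z * g') = p := orderOf_eq_prime hyp hy1
    have h1 : Subgroup.zpowers (g'⁻¹ * z * g') = Z := by
      apply Subgroup.eq_of_le_of_card_ge (Subgroup.zpowers_le.2 hyZ)
      rw [hcardZ, Nat.card_zpowers, hyo]
    have h2 : z ∈ Subgroup.zpowers (g'⁻¹ * z * g') := by rw [h1]; exact hzZ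
    obtain ⟨n, hn⟩ := h2
    simp only at hn
    apply hxZ
    have h3 : g' * z * g'⁻¹ = z ^ n := by
      calc g' * z * g'⁻¹ = g' * (g'⁻¹ * z * g') ^ n * g'⁻¹ := by rw [hn]
        _ = (g' * (g'⁻¹ * z * g') * g'⁻¹) ^ n := conj_zpow.symm
        _ = z ^ n := by
          congr 1
          group
    rw [hg'z] at h3
    rw [h3]
    exact Z.zpow_mem hzZ n
  obtain ⟨-, c₁, hc₁, hc₁1, hcy⟩ := hdata ⟨z, hzS⟩ ⟨g'⁻¹ * z * g', hyS⟩ hzc hz₀
    (Subtype.ext (by simpa using hyp)) hyc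
  have hcxG : (t₀ : G) * x * (t₀ : G)⁻¹ = x * c₀ := by
    have := congrArg Subtype.val hcx
    simpa using this
  have hcyG : (t₀ : G) * (g'⁻¹ * z * g') * (t₀ : G)⁻¹ = (g'⁻¹ * z * g') * c₁ := by
    have := congrArg Subtype.val hcy
    simpa using this
  have htz : (t₀ : G) * z * (t₀ : G)⁻¹ = z := by
    rw [hzcent _ t₀.2]; group
  have hc₀1' : (c₀ : G) ≠ 1 := fun h => hc₀1 (Subtype.ext h)
  have hc₁1' : (c₁ : G) ≠ 1 := fun h => hc₁1 (Subtype.ext h)
  obtain ⟨v, hvz, hvx⟩ := exists_inverter hzx hzo hg'z htz hcxG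
    (hZz _ ((hZmem _).2 ⟨c₀.2, hc₀⟩)) hc₀1' hcyG (hZz _ ((hZmem _).2 ⟨c₁.2, hc₁⟩)) hc₁1'
  have hv : ∀ e ∈ E, v * e * v⁻¹ = e⁻¹ := by
    intro e he
    obtain ⟨i, j, rfl⟩ := hform' e he
    have h1 : v * z ^ i * v⁻¹ = (z ^ i)⁻¹ := by
      have := conj_zpow (a := v) (b := z) (i := i)
      rw [hvz, inv_zpow] at this
      exact this.symm
    have h2 : v * x ^ j * v⁻¹ = (x ^ j)⁻¹ := by
      have := conj_zpow (a := v) (b := x) (i := j)
      rw [hvx, inv_zpow] at this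
      exact this.symm
    have h3 : Commute (z ^ i) (x ^ j) := (show Commute z x from hzx).zpow_zpow i j
    calc v * (z ^ i * x ^ j) * v⁻¹ = (v * z ^ i * v⁻¹) * (v * x ^ j * v⁻¹) := by group
      _ = (z ^ i)⁻¹ * (x ^ j)⁻¹ := by rw [h1, h2]
      _ = (x ^ j * z ^ i)⁻¹ := by group
      _ = (z ^ i * x ^ j)⁻¹ := by rw [h3.eq]
  have hSN : S ≤ Subgroup.normalizer (E : Set G) := by
    intro s hs
    apply Cfsg.Agent.Lib.PGroups.mem_normalizer_of_conj_le'
    intro w hw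
    obtain ⟨hwS, hwp⟩ := (hEmem w).1 hw
    refine (hEmem _).2 ⟨S.mul_mem (S.mul_mem hs hwS) (S.inv_mem hs), ?_⟩
    rw [conj_pow, hwp]; group
  refine core hodd hSN hSp hSi (fun a ha hap => (hEmem a).2 ⟨ha, hap⟩) t₀.2 ?_ ?_ hv
  · intro h
    have h1 := h x hxE
    rw [hcxG] at h1
    exact hc₀1' (mul_left_cancel (a := x) (by rw [h1, mul_one]))
  · intro h
    have h1 := h z hzE
    rw [htz] at h1
    have h2 : z ^ 2 = 1 := by
      rw [pow_two]
      nth_rw 1 [h1]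
      group
    have h3 := orderOf_dvd_of_pow_eq_one h2
    rw [hzo] at h3
    exact hodd ((Nat.prime_dvd_prime_iff_eq hpf.out Nat.prime_two).1 h3)

end D

end Cfsg.Agent.Lib.LocalEven2.M3
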