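import Cfsg.Agent.Lib.LocalEven2.S50a

/-! Block decomposition of endomorphism rings, the natural module structure. -/

set_option autoImplicit false
set_option linter.unusedVariables false
set_option linter.unusedSectionVars false

namespace Cfsg.Agent.Lib.LocalEven2.S50

open Matrix

/-- A splitting `A ≅ W ⊕ W`. -/
structure Split (A W : Type*) [AddCommGroup A] [AddCommGroup W] where
  i1 : W →+ A
  i2 : W →+ A
  p1 : A →+ W
  p2 : A →+ W
  p1i1 : ∀ w, p1 (i1 w) = w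
  p1i2 : ∀ w, p1 (i2 w) = 0
  p2i1 : ∀ w, p2 (i1 w) = 0
  p2i2 : ∀ w, p2 (i2 w) = w
  sum : ∀ a, i1 (p1 a) + i2 (p2 a) = a

namespace Split

variable {A W : Type*} [AddCommGroup A] [AddCommGroup W] (s : Split A W)

theorem ext' {a b : A} (h1 : s.p1 a = s.p1 b) (h2 : s.p2 a = s.p2 b) : a = b := by
  rw [← s.sum a, ← s.sum b, h1, h2]

/-- A section of an endomorphism. -/
def sec (p : A →+ W) (X : AddMonoid.End A) (i : W →+ A) : AddMonoid.End W :=
  AddMonoidHom.comp p (AddMonoidHom.comp X i)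

omit s in
@[simp] theorem sec_apply (p : A →+ W) (X : AddMonoid.End A) (i : W →+ A) (w : W) :
    sec p X i w = p (X (i w)) := rfl

/-- The blocks of an endomorphism. -/
def blk (X : AddMonoid.End A) : Matrix (Fin 2) (Fin 2) (AddMonoid.End W) :=
  !![sec s.p1 X s.i1, sec s.p1 X s.i2; sec s.p2 X s.i1, sec s.p2 X s.i2]

theorem blk_mul (X Y : AddMonoid.End A) : s.blk (X * Y) = s.blk X * s.blk Y := by
  rw [blk, blk, blk, Matrix.mul_fin_two]
  apply mat2_ext
  · refine AddMonoidHom.ext fun w => ?_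
    show s.p1 (X (Y (s.i1 w))) = s.p1 (X (s.i1 (s.p1 (Y (s.i1 w))))) + s.p1 (X (s.i2 (s.p2 (Y (s.i1 w)))))
    rw [← map_add, ← map_add, s.sum]
  · refine AddMonoidHom.ext fun w => ?_
    show s.p1 (X (Y (s.i2 w))) = s.p1 (X (s.i1 (s.p1 (Y (s.i2 w))))) + s.p1 (X (s.i2 (s.p2 (Y (s.i2 w)))))
    rw [← map_add, ← map_add, s.sum]
  · refine AddMonoidHom.ext fun w => ?_
    show s.p2 (X (Y (s.i1 w))) = s.p2 (X (s.i1 (s.p1 (Y (s.i1 w))))) + s.p2 (X (s.i2 (s.p2 (Y (s.i1 w)))))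
    rw [← map_add, ← map_add, s.sum]
  · refine AddMonoidHom.ext fun w => ?_
    show s.p2 (X (Y (s.i2 w))) = s.p2 (X (s.i1 (s.p1 (Y (s.i2 w))))) + s.p2 (X (s.i2 (s.p2 (Y (s.i2 w)))))
    rw [← map_add, ← map_add, s.sum]

theorem blk_one : s.blk (1 : AddMonoid.End A) = 1 := by
  rw [blk, Matrix.one_fin_two]
  apply mat2_ext
  · refine AddMonoidHom.ext fun w => ?_
    exact s.p1i1 w
  · refine AddMonoidHom.ext fun w => ?_
    exact s.p1i2 w
  · refine AddMonoidHom.ext fun w => ?_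
    exact s.p2i1 w
  · refine AddMonoidHom.ext fun w => ?_
    exact s.p2i2 w

/-- Blocks as a monoid homomorphism. -/
def blkHom : AddMonoid.End A →* Matrix (Fin 2) (Fin 2) (AddMonoid.End W) where
  toFun := s.blk
  map_one' := s.blk_one
  map_mul' := s.blk_mul

theorem p1_blk (X : AddMonoid.End A) (a : A) {b00 b01 b10 b11 : AddMonoid.End W}
    (h : s.blk X = !![b00, b01; b10, b11]) : s.p1 (X a) = b00 (s.p1 a) + b01 (s.p2 a) := by
  obtain ⟨h1, h2, h3, h4⟩ := mat2_inj h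
  subst h1 h2 h3 h4
  show s.p1 (X a) = s.p1 (X (s.i1 (s.p1 a))) + s.p1 (X (s.i2 (s.p2 a)))
  rw [← map_add, ← map_add, s.sum]

theorem p2_blk (X : AddMonoid.End A) (a : A) {b00 b01 b10 b11 : AddMonoid.End W}
    (h : s.blk X = !![b00, b01; b10, b11]) : s.p2 (X a) = b10 (s.p1 a) + b11 (s.p2 a) := by
  obtain ⟨h1, h2, h3, h4⟩ := mat2_inj h
  subst h1 h2 h3 h4
  show s.p2 (X a) = s.p2 (X (s.i1 (s.p1 a))) + s.p2 (X (s.i2 (s.p2 a)))
  rw [← map_add, ← map_add, s.sum]

end Split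

section splitOf

variable {A : Type*} [AddCommGroup A]

/-- Splitting from a "Clifford pair". -/
def splitOf (E F : AddMonoid.End A) (hE : E * E = 0) (hF : F * F = 0) (hEF : E * F + F * E = 1) :
    Split A (AddMonoidHom.ker (E : A →+ A)) where
  i1 := (AddMonoidHom.ker (E : A →+ A)).subtype
  i2 := AddMonoidHom.comp (F : A →+ A) (AddMonoidHom.ker (E : A →+ A)).subtype
  p1 := AddMonoidHom.codRestrict (AddMonoidHom.comp (E : A →+ A) (F : A →+ A)) _ (fun a => by
    show E (E (F a)) = 0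
    exact DFunLike.congr_fun hE (F a))
  p2 := AddMonoidHom.codRestrict (E : A →+ A) _ (fun a => by
    show E (E a) = 0
    exact DFunLike.congr_fun hE a)
  p1i1 := fun w => by
    apply Subtype.ext
    have h := DFunLike.congr_fun hEF (w : A)
    have hw : E (w : A) = 0 := w.2
    show E (F (w : A)) = w
    have h' : E (F (w : A)) + F (E (w : A)) = w := h
    rwa [hw, map_zero, add_zero] at h'
  p1i2 := fun w => by
    apply Subtype.ext
    show E (F (F (w : A))) = 0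
    have : F (F (w : A)) = 0 := DFunLike.congr_fun hF (w : A)
    rw [this, map_zero]
  p2i1 := fun w => by
    apply Subtype.ext
    exact w.2
  p2i2 := fun w => by
    apply Subtype.ext
    have h := DFunLike.congr_fun hEF (w : A)
    have hw : E (w : A) = 0 := w.2
    show E (F (w : A)) = w
    have h' : E (F (w : A)) + F (E (w : A)) = w := h
    rwa [hw, map_zero, add_zero] at h'
  sum := fun a => by
    exact DFunLike.congr_fun hEF a

end splitOf

section ops

variable {R : Type*} [Ring R]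

theorem ops (h4 : (4 : R) = 0) (U V : R) (hU : U * U = 1) (hV : V * V = 1) (h : 1 + U * V + V * U = 0) :
    ∃ E F : R, E * E = 0 ∧ F * F = 0 ∧ E * F + F * E = 1 ∧ U = 1 + E - (F * E + F * E) ∧
      V = 1 + F - (E * F + E * F) := by
  have h4' : ∀ x : R, 4 * x = 0 := fun x => by rw [h4, zero_mul]
  obtain ⟨e, he'⟩ : ∃ e, e = U - 1 := ⟨_, rfl⟩
  obtain ⟨f, hf'⟩ : ∃ f, f = V - 1 := ⟨_, rfl⟩
  have he : e * e + 2 * e = 0 := by
    have : e * e + 2 * e = U * U - 1 := by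
      rw [he']
      noncomm_ring
    rw [this, hU, sub_self]
  have hf : f * f + 2 * f = 0 := by
    have : f * f + 2 * f = V * V - 1 := by
      rw [hf']
      noncomm_ring
    rw [this, hV, sub_self]
  have hef : e * f + f * e + (1 + 1 + 1) + 2 * e + 2 * f = 0 := by
    have : e * f + f * e + (1 + 1 + 1) + 2 * e + 2 * f = 1 + U * V + V * U := by
      rw [he', hf']
      noncomm_ring
    rw [this, h]
  have hefe : e * f * e - e = 0 := by
    have : e * f * e - e = e * (e * f + f * e + (1 + 1 + 1) + 2 * e + 2 * f) - (e * e + 2 * e) * f -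
        2 * (e * e + 2 * e) := by noncomm_ring
    rw [this, hef, he]
    simp
  have hfef : f * e * f - f = 0 := by
    have : f * e * f - f = f * (e * f + f * e + (1 + 1 + 1) + 2 * e + 2 * f) - (f * f + 2 * f) * e -
        2 * (f * f + 2 * f) := by noncomm_ring
    rw [this, hef, hf]
    simp
  refine ⟨e + 2 * (f * e), f + 2 * (e * f), ?_, ?_, ?_, ?_, ?_⟩
  · have : (e + 2 * (f * e)) * (e + 2 * (f * e)) = (e * e + 2 * e) + 2 * (e * f * e - e) +
        2 * (f * (e * e + 2 * e)) + 4 * (f * e * f * e - f * e) := by noncomm_ring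
    rw [this, he, hefe, h4']
    simp
  · have : (f + 2 * (e * f)) * (f + 2 * (e * f)) = (f * f + 2 * f) + 2 * (f * e * f - f) +
        2 * (e * (f * f + 2 * f)) + 4 * (e * f * e * f - e * f) := by noncomm_ring
    rw [this, hf, hfef, h4']
    simp
  · have : (e + 2 * (f * e)) * (f + 2 * (e * f)) + (f + 2 * (e * f)) * (e + 2 * (f * e)) =
        1 + (e * f + f * e + (1 + 1 + 1) + 2 * e + 2 * f) + 2 * ((e * e + 2 * e) * f) + 2 * ((f * f + 2 * f) * e) +
        2 * (f * e * f - f) + 2 * (e * f * e - e) +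
        4 * (f * e * e * f + e * f * f * e - e * f - f * e - 1) := by noncomm_ring
    rw [this, hef, he, hf, hefe, hfef, h4']
    simp
  · have : 1 + (e + 2 * (f * e)) - ((f + 2 * (e * f)) * (e + 2 * (f * e)) + (f + 2 * (e * f)) * (e + 2 * (f * e))) =
        (1 + e) - 4 * (f * f * e + e * f * e + 2 * (e * f * f * e)) := by noncomm_ring
    rw [this, h4', he']
    simp
  · have : 1 + (f + 2 * (e * f)) - ((e + 2 * (f * e)) * (f + 2 * (e * f)) + (e + 2 * (f * e)) * (f + 2 * (e * f))) =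
        (1 + f) - 4 * (e * e * f + f * e * f + 2 * (f * e * e * f)) := by noncomm_ring
    rw [this, h4', hf']
    simp

end ops

section setup

variable {K : Type*} [Field K] {A : Type*} [AddCommGroup A]

theorem setup (hK : (2 : K) = 0) (h4A : ∀ a : A, a + a + a + a = 0) (ρ : SL2 K →* AddMonoid.End A)
    (H : ∀ a, a + ρ g0 a + ρ g0 (ρ g0 a) = 0) :
    ∃ (W : AddSubgroup A) (s : Split A W), s.blk (ρ (uu 1)) = !![1, 1; 0, -1] ∧
      s.blk (ρ (vv 1)) = !![-1, 0; 1, 1] := by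
  have h4 : (4 : AddMonoid.End A) = 0 := by
    have : (4 : AddMonoid.End A) = 1 + 1 + 1 + 1 := by norm_num
    rw [this]
    refine AddMonoidHom.ext fun a => ?_
    exact h4A a
  have h11 : (1 : K) + 1 = 0 := by linear_combination hK
  have hU : ρ (uu 1) * ρ (uu 1) = 1 := by rw [← map_mul, ← uu_add, h11, uu_zero, map_one]
  have hV : ρ (vv 1) * ρ (vv 1) = 1 := by rw [← map_mul, ← vv_add, h11, vv_zero, map_one]
  have hUV : 1 + ρ (uu 1) * ρ (vv 1) + ρ (vv 1) * ρ (uu 1) = 0 := by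
    refine AddMonoidHom.ext fun a => ?_
    have h := H a
    have e1 : ρ g0 = ρ (uu 1) * ρ (vv 1) := by rw [g0, map_mul]
    have e2 : ρ g0 (ρ g0 a) = (ρ (vv 1) * ρ (uu 1)) a := by
      show (ρ g0 * ρ g0) a = _
      rw [← map_mul, rel_g0_sq hK, map_mul]
    rw [e2, e1] at h
    exact h
  obtain ⟨E, F, hE, hF, hEF, hUe, hVe⟩ := ops h4 _ _ hU hV hUV
  have hEa : ∀ a, E (E a) = 0 := fun a => DFunLike.congr_fun hE a
  have hFa : ∀ a, F (F a) = 0 := fun a => DFunLike.congr_fun hF a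
  have hEFa : ∀ a, E (F a) + F (E a) = a := fun a => DFunLike.congr_fun hEF a
  have hEFw : ∀ w : A, E w = 0 → E (F w) = w := by
    intro w hw
    have := hEFa w
    rwa [hw, map_zero, add_zero] at this
  have hUa : ∀ a, ρ (uu 1) a = a + E a - (F (E a) + F (E a)) := by
    intro a
    rw [hUe]
    rfl
  have hVa : ∀ a, ρ (vv 1) a = a + F a - (E (F a) + E (F a)) := by
    intro a
    rw [hVe]
    rfl
  have hUw : ∀ w : A, E w = 0 → ρ (uu 1) w = w := by
    intro w hw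
    rw [hUa, hw, map_zero]
    abel
  have hUFw : ∀ w : A, E w = 0 → ρ (uu 1) (F w) = w - F w := by
    intro w hw
    rw [hUa, hEFw w hw]
    abel
  have hVw : ∀ w : A, E w = 0 → ρ (vv 1) w = F w - w := by
    intro w hw
    rw [hVa, hEFw w hw]
    abel
  have hVFw : ∀ w : A, ρ (vv 1) (F w) = F w := by
    intro w
    rw [hVa, hFa, map_zero]
    abel
  refine ⟨AddMonoidHom.ker (E : A →+ A), splitOf E F hE hF hEF, ?_, ?_⟩
  · rw [Split.blk]
    apply mat2_ext
    · refine AddMonoidHom.ext fun w => Subtype.ext ?_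
      show E (F (ρ (uu 1) (w : A))) = w
      rw [hUw w w.2, hEFw w w.2]
    · refine AddMonoidHom.ext fun w => Subtype.ext ?_
      show E (F (ρ (uu 1) (F (w : A)))) = w
      rw [hUFw w w.2, map_sub, hFa, map_sub, map_zero, hEFw w w.2]
      abel
    · refine AddMonoidHom.ext fun w => Subtype.ext ?_
      show E (ρ (uu 1) (w : A)) = 0
      rw [hUw w w.2]
      exact w.2
    · refine AddMonoidHom.ext fun w => Subtype.ext ?_
      show E (ρ (uu 1) (F (w : A))) = -(w : A)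
      have hw : E (w : A) = 0 := w.2
      rw [hUFw w w.2, map_sub, hw, hEFw w w.2]
      abel
  · rw [Split.blk]
    apply mat2_ext
    · refine AddMonoidHom.ext fun w => Subtype.ext ?_
      show E (F (ρ (vv 1) (w : A))) = -(w : A)
      rw [hVw w w.2, map_sub, hFa, map_sub, map_zero, hEFw w w.2]
      abel
    · refine AddMonoidHom.ext fun w => Subtype.ext ?_
      show E (F (ρ (vv 1) (F (w : A)))) = 0
      rw [hVFw, hFa, map_zero]
    · refine AddMonoidHom.ext fun w => Subtype.ext ?_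
      show E (ρ (vv 1) (w : A)) = w
      have hw : E (w : A) = 0 := w.2
      rw [hVw w w.2, map_sub, hw, hEFw w w.2]
      abel
    · refine AddMonoidHom.ext fun w => Subtype.ext ?_
      show E (ρ (vv 1) (F (w : A))) = w
      rw [hVFw, hEFw w w.2]

end setup

/-- The natural module structure. -/
def IsNat {K A W : Type*} [Field K] [AddCommGroup A] [AddCommGroup W] (ρ : SL2 K →* AddMonoid.End A)
    (s : Split A W) (q : K →+* AddMonoid.End W) : Prop :=
  ∀ (g : SL2 K) (a : A),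
    s.p1 (ρ g a) = q ((g : Matrix (Fin 2) (Fin 2) K) 0 0) (s.p1 a) + q ((g : Matrix (Fin 2) (Fin 2) K) 0 1) (s.p2 a) ∧
    s.p2 (ρ g a) = q ((g : Matrix (Fin 2) (Fin 2) K) 1 0) (s.p1 a) + q ((g : Matrix (Fin 2) (Fin 2) K) 1 1) (s.p2 a)

namespace IsNat

variable {K A W : Type*} [Field K] [AddCommGroup A] [AddCommGroup W] {ρ : SL2 K →* AddMonoid.End A}
  {s : Split A W} {q : K →+* AddMonoid.End W} (h : IsNat ρ s q)

include h

theorem of (g : SL2 K) (a b c d : K) (hg : (g : Matrix (Fin 2) (Fin 2) K) = !![a, b; c, d]) (x : A) :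
    s.p1 (ρ g x) = q a (s.p1 x) + q b (s.p2 x) ∧ s.p2 (ρ g x) = q c (s.p1 x) + q d (s.p2 x) := by
  have := h g x
  rw [hg] at this
  simpa using this

omit h in
theorem q1 (q : K →+* AddMonoid.End W) (w : W) : q 1 w = w := by
  rw [map_one]
  rfl

omit h in
theorem q0 (q : K →+* AddMonoid.End W) (w : W) : q 0 w = 0 := by
  rw [map_zero]
  rfl

theorem p_uu (t : K) (x : A) : s.p1 (ρ (uu t) x) = s.p1 x + q t (s.p2 x) ∧ s.p2 (ρ (uu t) x) = s.p2 x := by
  have := h.of (uu t) 1 t 0 1 rfl x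
  simpa [q1, q0] using this

theorem p_vv (t : K) (x : A) : s.p1 (ρ (vv t) x) = s.p1 x ∧ s.p2 (ρ (vv t) x) = q t (s.p1 x) + s.p2 x := by
  have := h.of (vv t) 1 0 t 1 rfl x
  simpa [q1, q0] using this

theorem p_dd (t : K) (ht : t ≠ 0) (x : A) :
    s.p1 (ρ (dd t ht) x) = q t (s.p1 x) ∧ s.p2 (ρ (dd t ht) x) = q t⁻¹ (s.p2 x) := by
  have := h.of (dd t ht) t 0 0 t⁻¹ rfl x
  simpa [q1, q0] using this

theorem p_ww (hK : (2 : K) = 0) (x : A) : s.p1 (ρ (ww 1) x) = s.p2 x ∧ s.p2 (ρ (ww 1) x) = s.p1 x := by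
  have := h.of (ww 1) 0 1 1 0 (by rw [ww_coe 1 one_ne_zero hK, inv_one]) x
  simpa [q1, q0] using this

theorem q_inv_cancel (t : K) (ht : t ≠ 0) {x y : W} (e : q t x = q t y) : x = y := by
  have h1 : ∀ z, q t⁻¹ (q t z) = z := by
    intro z
    show (q t⁻¹ * q t) z = z
    rw [← map_mul, inv_mul_cancel₀ ht, q1]
  rw [← h1 x, e, h1]

end IsNat

section module_thm

variable {K : Type*} [Field K] {A : Type*} [AddCommGroup A]

theorem module_thm [Finite K] (hK : (2 : K) = 0) (hexp : ∀ a : A, a + a = 0)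
    (ρ : SL2 K →* AddMonoid.End A) (H : ∀ a, a + ρ g0 a + ρ g0 (ρ g0 a) = 0) :
    ∃ (W : AddSubgroup A) (s : Split A W) (q : K →+* AddMonoid.End W), IsNat ρ s q := by
  obtain ⟨W, s, hbU, hbV⟩ := setup hK (fun a => by rw [hexp, zero_add, hexp]) ρ H
  have h2 : ∀ x : AddMonoid.End W, x + x = 0 := fun x =>
    AddMonoidHom.ext fun w => Subtype.ext (hexp _)
  have hneg : (-1 : AddMonoid.End W) = 1 := neg_eq_of_add_eq_zero_left (h2 1)
  rw [hneg] at hbU hbV
  obtain ⟨q, hq⟩ := rigid hK h2 (s.blkHom.comp ρ) hbU hbV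
  refine ⟨W, s, q, fun g a => ?_⟩
  have hb : s.blk (ρ g) = !![q ((g : Matrix (Fin 2) (Fin 2) K) 0 0), q ((g : Matrix (Fin 2) (Fin 2) K) 0 1);
      q ((g : Matrix (Fin 2) (Fin 2) K) 1 0), q ((g : Matrix (Fin 2) (Fin 2) K) 1 1)] := by
    have h3 := hq g
    change s.blk (ρ g) = _ at h3
    rw [h3]
    ext i j : 2
    fin_cases i <;> fin_cases j <;> rfl
  exact ⟨s.p1_blk _ _ hb, s.p2_blk _ _ hb⟩

end module_thm

section comm_zero

variable {K A Y WA WY : Type*} [Field K] [AddCommGroup A] [AddCommGroup Y] [AddCommGroup WA] [AddCommGroup WY]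

/-- An invariant biadditive map between natural modules vanishes. -/
theorem comm_zero (hK : (2 : K) = 0) (t : K) (ht0 : t ≠ 0) (ht1 : t ≠ 1)
    {ρA : SL2 K →* AddMonoid.End A} {ρY : SL2 K →* AddMonoid.End Y}
    {sA : Split A WA} {sY : Split Y WY} {qA : K →+* AddMonoid.End WA} {qY : K →+* AddMonoid.End WY}
    (hA : IsNat ρA sA qA) (hY : IsNat ρY sY qY) (c : A → A → Y)
    (hc1 : ∀ a a' b, c (a + a') b = c a b + c a' b) (hc2 : ∀ a b b', c a (b + b') = c a b + c a b')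
    (hinv : ∀ g a b, c (ρA g a) (ρA g b) = ρY g (c a b)) (a b : A) : c a b = 0 := by
  have hc10 : ∀ b, c 0 b = 0 := by
    intro b
    have := hc1 0 0 b
    rw [add_zero] at this
    exact left_eq_add.mp this
  have hc20 : ∀ a, c a 0 = 0 := by
    intro a
    have := hc2 a 0 0
    rw [add_zero] at this
    exact left_eq_add.mp this
  -- action formulas on `A`
  have hu1 : ∀ l w, ρA (uu l) (sA.i1 w) = sA.i1 w := by
    intro l w
    apply sA.ext'
    · rw [(hA.p_uu l _).1, sA.p2i1, map_zero, add_zero]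
    · rw [(hA.p_uu l _).2]
  have hu2 : ∀ l w, ρA (uu l) (sA.i2 w) = sA.i1 (qA l w) + sA.i2 w := by
    intro l w
    apply sA.ext'
    · rw [(hA.p_uu l _).1, map_add, sA.p1i2, sA.p1i1, sA.p2i2, add_zero, zero_add]
    · rw [(hA.p_uu l _).2, map_add, sA.p2i1, sA.p2i2, zero_add]
  have hb12 : ∀ l w w', sY.p1 (c (sA.i1 w) (sA.i1 (qA l w'))) = qY l (sY.p2 (c (sA.i1 w) (sA.i2 w'))) ∧
      sY.p2 (c (sA.i1 w) (sA.i1 (qA l w'))) = 0 := by
    intro l w w'
    have h := hinv (uu l) (sA.i1 w) (sA.i2 w')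
    rw [hu1, hu2, hc2] at h
    have e1 := congrArg sY.p1 h
    have e2 := congrArg sY.p2 h
    rw [(hY.p_uu l _).1, map_add] at e1
    rw [(hY.p_uu l _).2, map_add] at e2
    constructor
    · rw [add_comm] at e1
      exact add_left_cancel e1
    · exact add_eq_right.mp e2
  have hb3 : ∀ w w', sY.p1 (c (sA.i1 w) (sA.i1 w')) = sY.p2 (c (sA.i1 w) (sA.i2 w')) := by
    intro w w'
    have := (hb12 1 w w').1
    rwa [IsNat.q1, IsNat.q1] at this
  have hb4 : ∀ w w', sY.p2 (c (sA.i1 w) (sA.i1 w')) = 0 := by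
    intro w w'
    have := (hb12 1 w w').2
    rwa [IsNat.q1] at this
  have hlin : ∀ l w w', sY.p1 (c (sA.i1 w) (sA.i1 (qA l w'))) = qY l (sY.p1 (c (sA.i1 w) (sA.i1 w'))) := by
    intro l w w'
    rw [(hb12 l w w').1, hb3]
  have hdd1 : ∀ τ (hτ : τ ≠ 0) w, ρA (dd τ hτ) (sA.i1 w) = sA.i1 (qA τ w) := by
    intro τ hτ w
    apply sA.ext'
    · rw [(hA.p_dd τ hτ _).1, sA.p1i1, sA.p1i1]
    · rw [(hA.p_dd τ hτ _).2, sA.p2i1, sA.p2i1, map_zero]
  have hfix : ∀ τ, τ ≠ 0 → ∀ w w', sY.p1 (c (sA.i1 (qA τ w)) (sA.i1 w')) = sY.p1 (c (sA.i1 w) (sA.i1 w')) := by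
    intro τ hτ w w'
    have h := hinv (dd τ hτ) (sA.i1 w) (sA.i1 w')
    rw [hdd1, hdd1] at h
    have e1 := congrArg sY.p1 h
    rw [(hY.p_dd τ hτ _).1, hlin] at e1
    exact IsNat.q_inv_cancel hY τ hτ e1
  have hb0 : ∀ w w', sY.p1 (c (sA.i1 w) (sA.i1 w')) = 0 := by
    intro w w'
    have ht1' : t + 1 ≠ 0 := fun h => ht1 (by linear_combination h - hK)
    have h1 := hfix (t + 1) ht1' w w'
    have h3 : qA (t + 1) w = qA t w + w := by
      rw [map_add, map_one]
      rfl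
    rw [h3, map_add, hc1, map_add] at h1
    have h4 := add_eq_right.mp h1
    exact (hfix t ht0 w w').symm.trans h4
  have h11 : ∀ w w', c (sA.i1 w) (sA.i1 w') = 0 := fun w w' =>
    sY.ext' (by rw [hb0, map_zero]) (by rw [hb4, map_zero])
  have hww1 : ∀ w, ρA (ww 1) (sA.i1 w) = sA.i2 w := by
    intro w
    apply sA.ext'
    · rw [(hA.p_ww hK _).1, sA.p2i1, sA.p1i2]
    · rw [(hA.p_ww hK _).2, sA.p1i1, sA.p2i2]
  have hww2 : ∀ w, ρA (ww 1) (sA.i2 w) = sA.i1 w := by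
    intro w
    apply sA.ext'
    · rw [(hA.p_ww hK _).1, sA.p2i2, sA.p1i1]
    · rw [(hA.p_ww hK _).2, sA.p1i2, sA.p2i1]
  have h22 : ∀ w w', c (sA.i2 w) (sA.i2 w') = 0 := by
    intro w w'
    rw [← hww1, ← hww1, hinv, h11, map_zero]
  have hvv1 : ∀ w, ρA (vv 1) (sA.i1 w) = sA.i1 w + sA.i2 w := by
    intro w
    apply sA.ext'
    · rw [(hA.p_vv 1 _).1, map_add, sA.p1i1, sA.p1i2, add_zero]
    · rw [(hA.p_vv 1 _).2, map_add, IsNat.q1, sA.p1i1, sA.p2i1, sA.p2i2, add_zero, zero_add]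
  have hvv2 : ∀ w, ρA (vv 1) (sA.i2 w) = sA.i2 w := by
    intro w
    apply sA.ext'
    · rw [(hA.p_vv 1 _).1]
    · rw [(hA.p_vv 1 _).2, IsNat.q1, sA.p1i2, zero_add]
  have h12 : ∀ w w', c (sA.i1 w) (sA.i2 w') = 0 := by
    intro w w'
    have h := hinv (vv 1) (sA.i1 w) (sA.i2 w')
    rw [hvv1, hvv2, hc1, h22, add_zero] at h
    have e2 := congrArg sY.p2 h
    rw [(hY.p_vv 1 _).2, IsNat.q1] at e2
    have e3 : sY.p1 (c (sA.i1 w) (sA.i2 w')) = 0 := add_eq_right.mp e2.symm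
    exact sY.ext' (by rw [e3, map_zero]) (by rw [← hb3, hb0, map_zero])
  have h21 : ∀ w w', c (sA.i2 w) (sA.i1 w') = 0 := by
    intro w w'
    rw [← hww1 w, ← hww2 w', hinv, h12, map_zero]
  rw [← sA.sum a, ← sA.sum b, hc1, hc2, hc2, h11, h12, h21, h22]
  simp

end comm_zero

end Cfsg.Agent.Lib.LocalEven2.S50
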