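import Cfsg.Agent.Lib.LocalEven2.S50b

/-! The natural module does not lift modulo four. -/

set_option autoImplicit false
set_option linter.unusedVariables false
set_option linter.unusedSectionVars false

namespace Cfsg.Agent.Lib.LocalEven2.S50

open Matrix

section modtwo

variable {W : Type*} [AddCommGroup W]

/-- Doubling. -/
def dbl (W : Type*) [AddCommGroup W] : W →+ W := AddMonoidHom.mk' (fun w => w + w) (by intro a b; abel)

/-- `2W`. -/
abbrev TT (W : Type*) [AddCommGroup W] : AddSubgroup W := (dbl W).range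

theorem TT_stable (X : AddMonoid.End W) : TT W ≤ (TT W).comap (X : W →+ W) := by
  rintro _ ⟨v, rfl⟩
  refine ⟨X v, ?_⟩
  show X v + X v = X (v + v)
  rw [map_add]

/-- Reduction modulo two. -/
def rr : AddMonoid.End W →+* AddMonoid.End (W ⧸ TT W) where
  toFun X := QuotientAddGroup.map (TT W) (TT W) (X : W →+ W) (TT_stable X)
  map_one' := AddMonoidHom.ext fun z => by
    obtain ⟨w, rfl⟩ := QuotientAddGroup.mk_surjective z
    rfl
  map_mul' X Y := AddMonoidHom.ext fun z => by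
    obtain ⟨w, rfl⟩ := QuotientAddGroup.mk_surjective z
    rfl
  map_zero' := AddMonoidHom.ext fun z => by
    obtain ⟨w, rfl⟩ := QuotientAddGroup.mk_surjective z
    rfl
  map_add' X Y := AddMonoidHom.ext fun z => by
    obtain ⟨w, rfl⟩ := QuotientAddGroup.mk_surjective z
    rfl

theorem rr_mk (X : AddMonoid.End W) (w : W) : rr X (w : W ⧸ TT W) = ((X w : W) : W ⧸ TT W) := rfl

/-- Endomorphisms with image in `2W`. -/
def IsT (X : AddMonoid.End W) : Prop := ∀ w, ∃ v, X w = v + v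

theorem isT_of_rr {X : AddMonoid.End W} (h : rr X = 0) : IsT X := by
  intro w
  have h1 : ((X w : W) : W ⧸ TT W) = 0 := by
    rw [← rr_mk, h]
    rfl
  have h2 : X w ∈ TT W := (QuotientAddGroup.eq_zero_iff _).mp h1
  obtain ⟨v, hv⟩ := h2
  exact ⟨v, hv.symm⟩

theorem IsT.add_self (h4W : ∀ w : W, w + w + w + w = 0) {X : AddMonoid.End W} (h : IsT X) : X + X = 0 := by
  refine AddMonoidHom.ext fun w => ?_
  obtain ⟨v, hv⟩ := h w
  show X w + X w = 0
  rw [hv, ← add_assoc, h4W]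

theorem IsT.mul_zero (h4W : ∀ w : W, w + w + w + w = 0) {X Y : AddMonoid.End W} (hX : IsT X) (hY : IsT Y) :
    X * Y = 0 := by
  refine AddMonoidHom.ext fun w => ?_
  obtain ⟨v, hv⟩ := hY w
  show X (Y w) = 0
  rw [hv, map_add]
  exact DFunLike.congr_fun (hX.add_self h4W) v

end modtwo

section tele

variable {R : Type*} [Ring R]

theorem tele (τ b κ β : R) (h2τ : τ + τ = 0) (hκ2 : κ + κ = 0) (hD1 : τ * b + b * τ = b * κ)
    (hκb : b * κ = κ * b) (m : ℕ) (hm : Odd m) (hβ : b ^ m = 1 + β) (h1 : τ * β = 0) (h2 : β * τ = 0)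
    (h3 : β * κ = 0) : κ = 0 := by
  have hD : ∀ k : ℕ, τ * b ^ k + b ^ k * τ = k • (b ^ k * κ) := by
    intro k
    induction k with
    | zero =>
      simp [h2τ]
    | succ k ih =>
      have e1 : τ * b ^ (k + 1) + b ^ (k + 1) * τ =
          b * (τ * b ^ k + b ^ k * τ) + (τ * b + b * τ) * b ^ k := by
        have : b * (τ * b ^ k + b ^ k * τ) + (τ * b + b * τ) * b ^ k =
            τ * b ^ (k + 1) + b ^ (k + 1) * τ + b * (τ + τ) * b ^ k := by
          rw [pow_succ' b k]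
          noncomm_ring
        rw [this, h2τ]
        simp
      have hcomm : Commute κ (b ^ k) := Commute.pow_right (Commute.symm hκb) k
      rw [e1, ih, hD1, mul_smul_comm, succ_nsmul, pow_succ' b k]
      congr 1
      · rw [mul_assoc]
      · rw [mul_assoc, hcomm.eq, mul_assoc]
  have hm' := hD m
  rw [hβ] at hm'
  have hL : τ * (1 + β) + (1 + β) * τ = 0 := by
    rw [mul_add, add_mul, h1, h2, mul_one, one_mul, add_zero, h2τ]
  have hR : (1 + β) * κ = κ := by
    rw [add_mul, h3, one_mul, add_zero]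
  rw [hL, hR] at hm'
  obtain ⟨l, rfl⟩ := hm
  have : (2 * l + 1) • κ = l • (κ + κ) + κ := by
    rw [add_nsmul, one_nsmul, mul_comm, mul_nsmul, two_nsmul, smul_add]
  rw [this, hκ2, smul_zero, zero_add] at hm'
  exact hm'.symm

end tele

section exp

variable {K A : Type*} [Field K] [AddCommGroup A]

theorem exp_lemma [Finite K] (hK : (2 : K) = 0) (t : K) (ht0 : t ≠ 0) (ht1 : t ≠ 1) (m : ℕ) (hm : Odd m)
    (htm : t ^ m = 1) (h4A : ∀ a : A, a + a + a + a = 0) (ρ : SL2 K →* AddMonoid.End A)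
    (H : ∀ a, a + ρ g0 a + ρ g0 (ρ g0 a) = 0) : ∀ a : A, a + a = 0 := by
  obtain ⟨W, s, hbU, hbV⟩ := setup hK h4A ρ H
  have h4W : ∀ w : W, w + w + w + w = 0 := fun w => Subtype.ext (h4A _)
  suffices hW : ∀ w : W, w + w = 0 by
    intro a
    rw [← s.sum a]
    calc s.i1 (s.p1 a) + s.i2 (s.p2 a) + (s.i1 (s.p1 a) + s.i2 (s.p2 a))
        = s.i1 (s.p1 a + s.p1 a) + s.i2 (s.p2 a + s.p2 a) := by
          simp only [map_add]
          abel
      _ = 0 := by rw [hW, hW, map_zero, map_zero, add_zero]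
  have hKadd : ∀ a : K, a + a = 0 := fun a => by linear_combination a * hK
  -- reduction modulo 2
  let ρ' : SL2 K →* Matrix (Fin 2) (Fin 2) (AddMonoid.End (W ⧸ TT W)) :=
    (RingHom.mapMatrix (m := Fin 2) (rr (W := W))).toMonoidHom.comp (s.blkHom.comp ρ)
  have hρ' : ∀ g i j, ρ' g i j = rr (s.blk (ρ g) i j) := fun g i j => rfl
  have hbar2 : ∀ y : W ⧸ TT W, y + y = 0 := by
    intro y
    obtain ⟨w, rfl⟩ := QuotientAddGroup.mk_surjective y
    rw [← QuotientAddGroup.mk_add]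
    exact (QuotientAddGroup.eq_zero_iff _).mpr ⟨w, rfl⟩
  have h2bar : ∀ x : AddMonoid.End (W ⧸ TT W), x + x = 0 := fun x =>
    AddMonoidHom.ext fun z => hbar2 _
  have hneg : (-1 : AddMonoid.End (W ⧸ TT W)) = 1 := neg_eq_of_add_eq_zero_left (h2bar 1)
  have hu' : ρ' (uu 1) = !![1, 1; 0, 1] := by
    ext1 i j
    rw [hρ', hbU]
    fin_cases i <;> fin_cases j <;> simp [hneg]
  have hv' : ρ' (vv 1) = !![1, 0; 1, 1] := by
    ext1 i j
    rw [hρ', hbV]
    fin_cases i <;> fin_cases j <;> simp [hneg]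
  obtain ⟨q, hq⟩ := rigid hK h2bar ρ' hu' hv'
  obtain ⟨a, b, c, d, hX⟩ : ∃ a b c d, s.blk (ρ (uu t)) = !![a, b; c, d] :=
    ⟨_, _, _, _, Matrix.eta_fin_two _⟩
  have hbar : rr a = q 1 ∧ rr b = q t ∧ rr c = q 0 ∧ rr d = q 1 := by
    refine ⟨?_, ?_, ?_, ?_⟩
    · have h := congrFun (congrFun (hq (uu t)) 0) 0
      rw [hρ', hX] at h
      simpa using h
    · have h := congrFun (congrFun (hq (uu t)) 0) 1
      rw [hρ', hX] at h
      simpa using h
    · have h := congrFun (congrFun (hq (uu t)) 1) 0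
      rw [hρ', hX] at h
      simpa using h
    · have h := congrFun (congrFun (hq (uu t)) 1) 1
      rw [hρ', hX] at h
      simpa using h
  have hcomm : !![a, b; c, d] * !![1, 1; 0, -1] = !![1, 1; 0, -1] * !![a, b; c, d] := by
    rw [← hX, ← hbU, ← s.blk_mul, ← s.blk_mul, ← map_mul, ← map_mul, uu_comm]
  rw [Matrix.mul_fin_two, Matrix.mul_fin_two] at hcomm
  obtain ⟨c00, c01, _, _⟩ := mat2_inj hcomm
  simp only [mul_one, mul_zero, one_mul, zero_mul, add_zero, zero_add, mul_neg] at c00 c01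
  have hc : c = 0 := by
    have : a + c = a := c00.symm
    exact add_eq_left.mp this
  have hsq : !![a, b; c, d] * !![a, b; c, d] = 1 := by
    rw [← hX, ← s.blk_mul, ← map_mul, ← uu_add, hKadd, uu_zero, map_one, s.blk_one]
  rw [Matrix.mul_fin_two, Matrix.one_fin_two] at hsq
  obtain ⟨_, s01, _, _⟩ := mat2_inj hsq
  -- `s01 : a * b + b * d = 0`, `c01 : a + -b = b + d`
  have hd : d = a - b - b := by
    rw [show a - b - b = (a + -b) - b by abel, c01]
    abel
  have hτ : IsT (a - 1) := isT_of_rr (by rw [map_sub, hbar.1, map_one, map_one, sub_self])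
  have hβ : IsT (b ^ m - 1) := isT_of_rr (by
    rw [map_sub, map_pow, hbar.2.1, ← map_pow, htm, map_one, map_one, sub_self])
  have hκ : IsT (b + b - 1 - 1) := fun w => ⟨b w - w, by
    show b w + b w - w - w = (b w - w) + (b w - w)
    abel⟩
  have hD1 : (a - 1) * b + b * (a - 1) = b * (b + b - 1 - 1) := by
    have : (a - 1) * b + b * (a - 1) - b * (b + b - 1 - 1) = a * b + b * d := by
      rw [hd]
      noncomm_ring
    exact sub_eq_zero.mp (this.trans s01)
  have hκb : b * (b + b - 1 - 1) = (b + b - 1 - 1) * b := by noncomm_ring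
  have hκ0 : b + b - 1 - 1 = 0 :=
    tele (a - 1) b (b + b - 1 - 1) (b ^ m - 1) (hτ.add_self h4W) (hκ.add_self h4W) hD1 hκb m hm
      (by abel) (hτ.mul_zero h4W hβ) (hβ.mul_zero h4W hτ) (hβ.mul_zero h4W hκ)
  intro w
  obtain ⟨y, hy⟩ := QuotientAddGroup.mk_surjective (q (t - 1)⁻¹ (w : W ⧸ TT W))
  have ht' : t - 1 ≠ 0 := sub_ne_zero.mpr ht1
  have e : rr (b - 1) (y : W ⧸ TT W) = (w : W ⧸ TT W) := by
    have h1 : q t - 1 = q (t - 1) := by rw [map_sub, map_one]
    rw [map_sub, hbar.2.1, map_one, h1]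
    show (q (t - 1)) ((y : W) : W ⧸ TT W) = _
    rw [show ((y : W) : W ⧸ TT W) = q (t - 1)⁻¹ (w : W ⧸ TT W) from hy]
    show (q (t - 1) * q (t - 1)⁻¹) _ = _
    rw [← map_mul, mul_inv_cancel₀ ht', map_one]
    rfl
  rw [rr_mk] at e
  obtain ⟨v, hv⟩ := QuotientAddGroup.eq.mp e
  have hv' : v + v = -((b - 1) y) + w := hv
  have hκy : b y + b y - y - y = 0 := DFunLike.congr_fun hκ0 y
  have e2 : w = (b - 1) y + (v + v) := by
    rw [hv']
    abel
  have e3 : (b - 1) y + (b - 1) y = 0 := by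
    show b y - y + (b y - y) = 0
    rw [← hκy]
    abel
  rw [e2]
  calc (b - 1) y + (v + v) + ((b - 1) y + (v + v)) = ((b - 1) y + (b - 1) y) + (v + v + v + v) := by abel
    _ = 0 := by rw [e3, h4W, add_zero]

end exp

end Cfsg.Agent.Lib.LocalEven2.S50
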