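import Cfsg.Agent.Lib.LocalEven2.S50c
import Cfsg.Agent.Lib.PGroups.Fpf3

/-! Group-level induction: the normal subgroup is elementary abelian. -/

set_option autoImplicit false
set_option linter.unusedVariables false
set_option linter.unusedSectionVars false
set_option linter.style.haveILetI false

namespace Cfsg.Agent.Lib.LocalEven2.S50

open Matrix
open scoped commutatorElement

universe u

section rep

variable {K : Type*} [Field K] {Γ : Type*} [Group Γ] {M : Type*} [CommGroup M]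

theorem exists_rep (π : Γ →* SL2 K) (hπ : Function.Surjective π) (ι : M →* Γ) (hι : Function.Injective ι)
    (hnorm : ∀ g m, ∃ m', ι m' = g * ι m * g⁻¹) (htriv : ∀ k, π k = 1 → ∀ m, k * ι m * k⁻¹ = ι m) :
    ∃ ρ : SL2 K →* AddMonoid.End (Additive M),
      ∀ g m, ι (Additive.toMul (ρ (π g) (Additive.ofMul m))) = g * ι m * g⁻¹ := by
  classical
  choose cj hcj using hnorm
  have cj_mul : ∀ g m m', cj g (m * m') = cj g m * cj g m' := by
    intro g m m'
    apply hι
    rw [hcj, map_mul, map_mul, hcj, hcj]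
    group
  let f0 : Γ → AddMonoid.End (Additive M) := fun g =>
    AddMonoidHom.mk' (fun a => Additive.ofMul (cj g (Additive.toMul a))) (fun a b => by
      show Additive.ofMul (cj g (Additive.toMul a * Additive.toMul b)) = _
      rw [cj_mul]
      rfl)
  have hf0 : ∀ g a, ι (Additive.toMul (f0 g a)) = g * ι (Additive.toMul a) * g⁻¹ := fun g a => hcj g _
  have f_one : f0 1 = 1 := AddMonoidHom.ext fun a => by
    apply Additive.toMul.injective
    apply hι
    show ι (Additive.toMul (f0 1 a)) = ι (Additive.toMul a)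
    rw [hf0]
    simp
  have f_mul : ∀ g h, f0 (g * h) = f0 g * f0 h := fun g h => AddMonoidHom.ext fun a => by
    apply Additive.toMul.injective
    apply hι
    show ι (Additive.toMul (f0 (g * h) a)) = ι (Additive.toMul (f0 g (f0 h a)))
    rw [hf0, hf0, hf0]
    group
  have hf_eq : ∀ a b, π a = π b → f0 a = f0 b := by
    intro a b hab
    have hk : π (a⁻¹ * b) = 1 := by rw [map_mul, map_inv, hab, inv_mul_cancel]
    have h1 : f0 (a⁻¹ * b) = 1 := AddMonoidHom.ext fun x => by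
      apply Additive.toMul.injective
      apply hι
      show ι (Additive.toMul (f0 (a⁻¹ * b) x)) = ι (Additive.toMul x)
      rw [hf0, htriv _ hk]
    have : b = a * (a⁻¹ * b) := by group
    rw [this, f_mul, h1, mul_one]
  let s := Function.surjInv hπ
  have hs : ∀ g, π (s g) = g := Function.surjInv_eq hπ
  let ρ : SL2 K →* AddMonoid.End (Additive M) :=
    { toFun := fun g => f0 (s g)
      map_one' := by
        rw [← f_one]
        apply hf_eq
        rw [hs, map_one]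
      map_mul' := fun g h => by
        rw [← f_mul]
        apply hf_eq
        rw [hs, map_mul, hs, hs] }
  refine ⟨ρ, fun g m => ?_⟩
  have : ρ (π g) = f0 g := hf_eq _ _ (hs _)
  rw [this]
  exact hcj g _

theorem rep_H [Finite M] (π : Γ →* SL2 K) (ι : M →* Γ) (hι : Function.Injective ι)
    (ρ : SL2 K →* AddMonoid.End (Additive M))
    (hρ : ∀ g m, ι (Additive.toMul (ρ (π g) (Additive.ofMul m))) = g * ι m * g⁻¹)
    (x₀ : Γ) (hx₀ : π x₀ = g0) (hx₃ : x₀ ^ 3 = 1)
    (hfpf : ∀ m, x₀ * ι m * x₀⁻¹ = ι m → m = 1) (a : Additive M) :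
    a + ρ g0 a + ρ g0 (ρ g0 a) = 0 := by
  let σ : M →* M :=
    { toFun := fun m => Additive.toMul (ρ g0 (Additive.ofMul m))
      map_one' := by
        show Additive.toMul (ρ g0 0) = 1
        rw [map_zero]
        rfl
      map_mul' := fun m m' => by
        show Additive.toMul (ρ g0 (Additive.ofMul m + Additive.ofMul m')) = _
        rw [map_add]
        rfl }
  have hσ : ∀ m, ι (σ m) = x₀ * ι m * x₀⁻¹ := fun m => by
    rw [← hρ x₀ m, hx₀]
    rfl
  have hσ3 : ∀ m, σ (σ (σ m)) = m := fun m => by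
    apply hι
    rw [hσ, hσ, hσ]
    have : x₀ * (x₀ * (x₀ * ι m * x₀⁻¹) * x₀⁻¹) * x₀⁻¹ = x₀ ^ 3 * ι m * (x₀ ^ 3)⁻¹ := by
      rw [pow_three']
      group
    rw [this, hx₃]
    simp
  have hfix : ∀ m, σ m = m → m = 1 := fun m h => hfpf m (by rw [← hσ, h])
  exact Cfsg.Agent.Lib.PGroups.Fpf3.mul_three σ hσ3 hfix (Additive.toMul a)

end rep

section commutators

variable {G : Type*} [Group G]

theorem cmt1 (a b n : G) (h : Commute n b) : ⁅a * n, b⁆ = ⁅a, b⁆ := by
  rw [commutatorElement_def, commutatorElement_def]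
  calc a * n * b * (a * n)⁻¹ * b⁻¹ = a * (n * b) * n⁻¹ * a⁻¹ * b⁻¹ := by group
    _ = a * (b * n) * n⁻¹ * a⁻¹ * b⁻¹ := by rw [h.eq]
    _ = a * b * a⁻¹ * b⁻¹ := by group

theorem cmt2 (a b n : G) (h : Commute n a) : ⁅a, b * n⁆ = ⁅a, b⁆ := by
  rw [commutatorElement_def, commutatorElement_def]
  calc a * (b * n) * a⁻¹ * (b * n)⁻¹ = a * b * (n * a⁻¹) * n⁻¹ * b⁻¹ := by group
    _ = a * b * (a⁻¹ * n) * n⁻¹ * b⁻¹ := by rw [h.inv_right.eq]
    _ = a * b * a⁻¹ * b⁻¹ := by group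

end commutators

section step

variable {K : Type*} [Field K]

theorem comm_step [Finite K] (hK : (2 : K) = 0) (t : K) (ht0 : t ≠ 0) (ht1 : t ≠ 1)
    {G : Type*} [Group G] [Finite G] (π : G →* SL2 K) (hπ : Function.Surjective π)
    (N : Subgroup G) [hNn : N.Normal] (hNQ : ∀ z ∈ N, π z = 1) (hNc : ∀ z ∈ N, ∀ a, π a = 1 → a * z = z * a)
    (hN2 : ∀ z ∈ N, z * z = 1) (x₀ : G) (hx₀ : π x₀ = g0) (hx₃ : x₀ ^ 3 = 1)
    (hfpf : ∀ q, π q = 1 → x₀ * q * x₀⁻¹ = q → q = 1)
    (π' : G ⧸ N →* SL2 K) (hπ' : ∀ g : G, π' (g : G ⧸ N) = π g)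
    (hA1 : ∀ a b : G ⧸ N, π' a = 1 → π' b = 1 → a * b = b * a) (hA2 : ∀ a : G ⧸ N, π' a = 1 → a * a = 1)
    (hfpf' : ∀ q : G ⧸ N, π' q = 1 → (x₀ : G ⧸ N) * q * (x₀ : G ⧸ N)⁻¹ = q → q = 1) :
    ∀ a b, π a = 1 → π b = 1 → a * b = b * a := by
  classical
  have hπs : Function.Surjective π' := fun g => by
    obtain ⟨x, rfl⟩ := hπ g
    exact ⟨x, hπ' x⟩
  letI cY : CommGroup ↥N :=
    { (inferInstance : Group ↥N) with
      mul_comm := fun a b => Subtype.ext (hNc _ b.2 _ (hNQ _ a.2)) }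
  letI cA : CommGroup ↥π'.ker :=
    { (inferInstance : Group ↥π'.ker) with
      mul_comm := fun a b => Subtype.ext (hA1 _ _ a.2 b.2) }
  obtain ⟨ρY, hρY⟩ := exists_rep (M := ↥N) π hπ N.subtype Subtype.val_injective
    (fun g m => ⟨⟨g * m * g⁻¹, hNn.conj_mem _ m.2 g⟩, rfl⟩) (fun k hk m => by
      show k * (m : G) * k⁻¹ = m
      rw [hNc _ m.2 k hk]
      group)
  obtain ⟨ρA, hρA⟩ := exists_rep (M := ↥π'.ker) π' hπs π'.ker.subtype Subtype.val_injective
    (fun g m => ⟨⟨g * m * g⁻¹, (inferInstance : π'.ker.Normal).conj_mem _ m.2 g⟩, rfl⟩) (fun k hk m => by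
      show k * (m : G ⧸ N) * k⁻¹ = m
      rw [hA1 k m hk m.2]
      group)
  have HY := rep_H (M := ↥N) π N.subtype Subtype.val_injective ρY hρY x₀ hx₀ hx₃
    (fun m h => Subtype.ext (hfpf _ (hNQ _ m.2) h))
  have HA := rep_H (M := ↥π'.ker) π' π'.ker.subtype Subtype.val_injective ρA hρA (x₀ : G ⧸ N)
    (by rw [hπ', hx₀]) (by
      rw [← QuotientGroup.mk_pow, hx₃]
      rfl)
    (fun m h => Subtype.ext (hfpf' _ m.2 h))
  have hexpY : ∀ y : Additive ↥N, y + y = 0 := fun y =>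
    Additive.toMul.injective (Subtype.ext (hN2 _ (Additive.toMul y).2))
  have hexpA : ∀ y : Additive ↥π'.ker, y + y = 0 := fun y =>
    Additive.toMul.injective (Subtype.ext (hA2 _ (Additive.toMul y).2))
  obtain ⟨WA, sA, qA, hA⟩ := module_thm hK hexpA ρA HA
  obtain ⟨WY, sY, qY, hY⟩ := module_thm hK hexpY ρY HY
  have hmem : ∀ a : G, π a = 1 → π' (a : G ⧸ N) = 1 := fun a h => by rw [hπ', h]
  have hs : ∀ m : ↥π'.ker, ∃ a : G, (a : G ⧸ N) = m ∧ π a = 1 := fun m => by
    obtain ⟨a, ha⟩ := QuotientGroup.mk_surjective (m : G ⧸ N)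
    refine ⟨a, ha, ?_⟩
    rw [← hπ', ha]
    exact m.2
  choose s hs1 hs2 using hs
  have hcm : ∀ a b : G, π a = 1 → π b = 1 → ⁅a, b⁆ ∈ N := fun a b ha hb => by
    rw [← QuotientGroup.eq_one_iff]
    have h1 : ((⁅a, b⁆ : G) : G ⧸ N) = ⁅(a : G ⧸ N), (b : G ⧸ N)⁆ := map_commutatorElement (QuotientGroup.mk' N) a b
    rw [h1, commutatorElement_eq_one_iff_mul_comm]
    exact hA1 _ _ (hmem a ha) (hmem b hb)
  have hcQ : ∀ a b : G, π a = 1 → π b = 1 → π ⁅a, b⁆ = 1 := fun a b ha hb => hNQ _ (hcm a b ha hb)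
  have hrep : ∀ a a' b b' : G, π a = 1 → π b = 1 → π a' = 1 → π b' = 1 →
      (a : G ⧸ N) = a' → (b : G ⧸ N) = b' → ⁅a, b⁆ = ⁅a', b'⁆ := by
    intro a a' b b' ha hb ha' hb' h1 h2
    have n1 : a⁻¹ * a' ∈ N := QuotientGroup.eq.mp h1
    have n2 : b⁻¹ * b' ∈ N := QuotientGroup.eq.mp h2
    have e1 : a' = a * (a⁻¹ * a') := by group
    have e2 : b' = b * (b⁻¹ * b') := by group
    have c1 : Commute (a⁻¹ * a') b' := (hNc _ n1 b' hb').symm
    have c2 : Commute (b⁻¹ * b') a := (hNc _ n2 a ha).symm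
    rw [e1, cmt1 _ _ _ c1, e2, cmt2 _ _ _ c2]
  let c : Additive ↥π'.ker → Additive ↥π'.ker → Additive ↥N := fun a b =>
    Additive.ofMul ⟨⁅s (Additive.toMul a), s (Additive.toMul b)⁆, hcm _ _ (hs2 _) (hs2 _)⟩
  have hc1 : ∀ a a' b, c (a + a') b = c a b + c a' b := by
    intro a a' b
    apply Additive.toMul.injective
    apply Subtype.ext
    show ⁅s (Additive.toMul (a + a')), s (Additive.toMul b)⁆ =
      ⁅s (Additive.toMul a), s (Additive.toMul b)⁆ * ⁅s (Additive.toMul a'), s (Additive.toMul b)⁆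
    have hx := hs2 (Additive.toMul a)
    have hy := hs2 (Additive.toMul a')
    have hz := hs2 (Additive.toMul b)
    have hxy : π (s (Additive.toMul a) * s (Additive.toMul a')) = 1 := by rw [map_mul, hx, hy, mul_one]
    have e := hrep (s (Additive.toMul (a + a'))) (s (Additive.toMul a) * s (Additive.toMul a'))
      (s (Additive.toMul b)) (s (Additive.toMul b)) (hs2 _) hz hxy hz (by
        rw [hs1, QuotientGroup.mk_mul, hs1, hs1]
        rfl) rfl
    rw [e]
    generalize s (Additive.toMul a) = x at *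
    generalize s (Additive.toMul a') = y at *
    generalize s (Additive.toMul b) = z at *
    rw [Cfsg.Agent.Lib.PGroups.Fpf3.comm_mul_left, hNc _ (hcm y z hy hz) x hx, mul_inv_cancel_right]
    exact (hNc _ (hcm y z hy hz) _ (hcQ x z hx hz)).symm
  have hc2 : ∀ a b b', c a (b + b') = c a b + c a b' := by
    intro a b b'
    apply Additive.toMul.injective
    apply Subtype.ext
    show ⁅s (Additive.toMul a), s (Additive.toMul (b + b'))⁆ =
      ⁅s (Additive.toMul a), s (Additive.toMul b)⁆ * ⁅s (Additive.toMul a), s (Additive.toMul b')⁆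
    have hx := hs2 (Additive.toMul a)
    have hy := hs2 (Additive.toMul b)
    have hz := hs2 (Additive.toMul b')
    have hyz : π (s (Additive.toMul b) * s (Additive.toMul b')) = 1 := by rw [map_mul, hy, hz, mul_one]
    have e := hrep (s (Additive.toMul a)) (s (Additive.toMul a)) (s (Additive.toMul (b + b')))
      (s (Additive.toMul b) * s (Additive.toMul b')) hx (hs2 _) hx hyz rfl (by
        rw [hs1, QuotientGroup.mk_mul, hs1, hs1]
        rfl)
    rw [e]
    generalize s (Additive.toMul a) = x at *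
    generalize s (Additive.toMul b) = y at *
    generalize s (Additive.toMul b') = z at *
    rw [Cfsg.Agent.Lib.PGroups.Fpf3.comm_mul_right, hNc _ (hcm x z hx hz) y hy, mul_inv_cancel_right]
  have hinv : ∀ g a b, c (ρA g a) (ρA g b) = ρY g (c a b) := by
    intro g a b
    obtain ⟨γ, rfl⟩ := hπ g
    apply Additive.toMul.injective
    apply Subtype.ext
    have hR : ((Additive.toMul (ρY (π γ) (c a b)) : ↥N) : G) =
        γ * ⁅s (Additive.toMul a), s (Additive.toMul b)⁆ * γ⁻¹ := hρY γ (Additive.toMul (c a b))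
    rw [hR]
    show ⁅s (Additive.toMul (ρA (π γ) a)), s (Additive.toMul (ρA (π γ) b))⁆ = _
    have hA' : ∀ a : Additive ↥π'.ker, ((s (Additive.toMul (ρA (π γ) a)) : G) : G ⧸ N) =
        ((γ * s (Additive.toMul a) * γ⁻¹ : G) : G ⧸ N) := by
      intro a
      rw [hs1]
      have h3 := hρA (γ : G ⧸ N) (Additive.toMul a)
      rw [hπ'] at h3
      have h4 : ((Additive.toMul (ρA (π γ) a) : ↥π'.ker) : G ⧸ N) =
          (γ : G ⧸ N) * ((Additive.toMul a : ↥π'.ker) : G ⧸ N) * (γ : G ⧸ N)⁻¹ := h3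
      rw [h4, QuotientGroup.mk_mul, QuotientGroup.mk_mul, QuotientGroup.mk_inv, hs1]
    have hconj : ∀ x : G, π x = 1 → π (γ * x * γ⁻¹) = 1 := fun x hx => by
      rw [map_mul, map_mul, hx, mul_one, map_inv, mul_inv_cancel]
    rw [hrep _ _ _ _ (hs2 _) (hs2 _) (hconj _ (hs2 _)) (hconj _ (hs2 _)) (hA' a) (hA' b)]
    exact (conjugate_commutatorElement _ _ _).symm
  have hc0 := comm_zero hK t ht0 ht1 hA hY c hc1 hc2 hinv
  intro a b ha hb
  let m : ↥π'.ker := ⟨a, hmem a ha⟩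
  let n : ↥π'.ker := ⟨b, hmem b hb⟩
  have h0 := hc0 (Additive.ofMul m) (Additive.ofMul n)
  have h1 : ⁅s m, s n⁆ = 1 := congrArg (fun y : Additive ↥N => ((Additive.toMul y : ↥N) : G)) h0
  have h2 : ⁅a, b⁆ = ⁅s m, s n⁆ := hrep a (s m) b (s n) ha hb (hs2 _) (hs2 _) (hs1 m).symm (hs1 n).symm
  rw [h1] at h2
  exact commutatorElement_eq_one_iff_mul_comm.mp h2

theorem exp_step [Finite K] (hK : (2 : K) = 0) (t : K) (ht0 : t ≠ 0) (ht1 : t ≠ 1) (m : ℕ) (hm : Odd m)
    (htm : t ^ m = 1) {G : Type*} [Group G] [Finite G] (π : G →* SL2 K) (hπ : Function.Surjective π)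
    (x₀ : G) (hx₀ : π x₀ = g0) (hx₃ : x₀ ^ 3 = 1) (hfpf : ∀ q, π q = 1 → x₀ * q * x₀⁻¹ = q → q = 1)
    (hcomm : ∀ a b, π a = 1 → π b = 1 → a * b = b * a) (h4 : ∀ a, π a = 1 → a * a * a * a = 1) :
    ∀ a, π a = 1 → a * a = 1 := by
  letI cQ : CommGroup ↥π.ker :=
    { (inferInstance : Group ↥π.ker) with
      mul_comm := fun a b => Subtype.ext (hcomm _ _ a.2 b.2) }
  obtain ⟨ρ, hρ⟩ := exists_rep (M := ↥π.ker) π hπ π.ker.subtype Subtype.val_injective
    (fun g m => ⟨⟨g * m * g⁻¹, (inferInstance : π.ker.Normal).conj_mem _ m.2 g⟩, rfl⟩) (fun k hk m => by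
      show k * (m : G) * k⁻¹ = m
      rw [hcomm k m hk m.2]
      group)
  have H := rep_H (M := ↥π.ker) π π.ker.subtype Subtype.val_injective ρ hρ x₀ hx₀ hx₃
    (fun m h => Subtype.ext (hfpf _ m.2 h))
  have h4A : ∀ a : Additive ↥π.ker, a + a + a + a = 0 := fun y =>
    Additive.toMul.injective (Subtype.ext (h4 _ (Additive.toMul y).2))
  have h2 := exp_lemma hK t ht0 ht1 m hm htm h4A ρ H
  intro a ha
  have h := h2 (Additive.ofMul ⟨a, ha⟩)
  exact congrArg (fun y : Additive ↥π.ker => ((Additive.toMul y : ↥π.ker) : G)) h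

end step

end Cfsg.Agent.Lib.LocalEven2.S50
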