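import Cfsg.Agent.Lib.LocalEven2.S50d
import Cfsg.Prelude.Def_BaumannBlocks

/-! Group-level induction and the decomposition into natural modules. -/

set_option autoImplicit false
set_option linter.unusedVariables false
set_option linter.unusedSectionVars false
set_option linter.style.haveILetI false

namespace Cfsg.Agent.Lib.LocalEven2.S50

open Matrix
open scoped commutatorElement

universe u

section omega

variable {G : Type*} [Group G]

/-- Central involutions of `Q`. -/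
def cOmega (Q : Subgroup G) : Subgroup G where
  carrier := {z | z ∈ Q ∧ (∀ a ∈ Q, a * z = z * a) ∧ z * z = 1}
  mul_mem' := by
    rintro z w ⟨hz, hzc, hz2⟩ ⟨hw, hwc, hw2⟩
    refine ⟨Q.mul_mem hz hw, fun a ha => ?_, ?_⟩
    · rw [← mul_assoc, hzc a ha, mul_assoc, hwc a ha, mul_assoc]
    · calc z * w * (z * w) = z * (w * z) * w := by group
        _ = z * (z * w) * w := by rw [hzc w hw]
        _ = (z * z) * (w * w) := by group
        _ = 1 := by rw [hz2, hw2, one_mul]
  one_mem' := ⟨Q.one_mem, fun a _ => by simp, by simp⟩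
  inv_mem' := by
    rintro z ⟨hz, hzc, hz2⟩
    have hinv : z⁻¹ = z := inv_eq_of_mul_eq_one_left hz2
    rw [Set.mem_setOf_eq, hinv]
    exact ⟨hz, hzc, hz2⟩

instance cOmega_normal (Q : Subgroup G) [hQ : Q.Normal] : (cOmega Q).Normal where
  conj_mem := by
    rintro z ⟨hz, hzc, hz2⟩ g
    refine ⟨hQ.conj_mem _ hz g, fun a ha => ?_, ?_⟩
    · have hb : g⁻¹ * a * g ∈ Q := by
        have := hQ.conj_mem a ha g⁻¹
        simpa using this
      have h1 := hzc _ hb
      calc a * (g * z * g⁻¹) = g * ((g⁻¹ * a * g) * z) * g⁻¹ := by group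
        _ = g * (z * (g⁻¹ * a * g)) * g⁻¹ := by rw [h1]
        _ = g * z * g⁻¹ * a := by group
    · calc g * z * g⁻¹ * (g * z * g⁻¹) = g * (z * z) * g⁻¹ := by group
        _ = 1 := by rw [hz2]; group

theorem cOmega_ne_bot [Finite G] {Q : Subgroup G} (hQ : IsPGroup 2 ↥Q) (hne : Q ≠ ⊥) : cOmega Q ≠ ⊥ := by
  haveI : Nontrivial ↥Q := (Subgroup.nontrivial_iff_ne_bot Q).mpr hne
  haveI : Nontrivial (Subgroup.center ↥Q) := hQ.center_nontrivial
  have hC : IsPGroup 2 (Subgroup.center ↥Q) := hQ.to_subgroup _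
  obtain ⟨n, hn0, hn⟩ := hC.nontrivial_iff_card.mp inferInstance
  have hdvd : 2 ∣ Nat.card (Subgroup.center ↥Q) := by
    rw [hn]
    exact dvd_pow_self 2 hn0.ne'
  haveI : Fact (Nat.Prime 2) := ⟨Nat.prime_two⟩
  obtain ⟨x, hx⟩ := exists_prime_orderOf_dvd_card' 2 hdvd
  intro hbot
  have hmem : (((x : ↥Q) : G)) ∈ cOmega Q := by
    refine ⟨(x : ↥Q).2, fun a ha => ?_, ?_⟩
    · have := Subgroup.mem_center_iff.mp x.2 ⟨a, ha⟩
      exact congrArg Subtype.val this
    · have h2 : x ^ 2 = 1 := by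
        rw [← hx]
        exact pow_orderOf_eq_one x
      have h3 : x * x = 1 := by rwa [sq] at h2
      have h4 := congrArg (fun y : Subgroup.center ↥Q => ((y : ↥Q) : G)) h3
      exact h4
  rw [hbot, Subgroup.mem_bot] at hmem
  have hx1 : x = 1 := Subtype.ext (Subtype.ext hmem)
  rw [hx1, orderOf_one] at hx
  norm_num at hx

end omega

section main

variable {K : Type*} [Field K]

theorem main_ind [Finite K] (hK : (2 : K) = 0) (t : K) (ht0 : t ≠ 0) (ht1 : t ≠ 1) (m : ℕ) (hm : Odd m)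
    (htm : t ^ m = 1) : ∀ (n : ℕ) (G : Type u) [Group G] [Finite G] (π : G →* SL2 K), Nat.card G = n →
      Function.Surjective π → IsPGroup 2 ↥π.ker → ∀ x₀ : G, π x₀ = g0 → x₀ ^ 3 = 1 →
      (∀ q, π q = 1 → x₀ * q * x₀⁻¹ = q → q = 1) →
      (∀ a b, π a = 1 → π b = 1 → a * b = b * a) ∧ (∀ a, π a = 1 → a * a = 1) := by
  intro n
  induction n using Nat.strong_induction_on with
  | _ n ih =>
  intro G _ _ π hcard hπ hQ x₀ hx₀ hx₃ hfpf
  classical
  by_cases hbot : π.ker = ⊥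
  · have htriv : ∀ a, π a = 1 → a = 1 := fun a ha => by
      have h1 : a ∈ π.ker := ha
      rw [hbot] at h1
      exact h1
    exact ⟨fun a b ha hb => by rw [htriv a ha, htriv b hb], fun a ha => by rw [htriv a ha, one_mul]⟩
  have hNne : cOmega π.ker ≠ ⊥ := cOmega_ne_bot hQ hbot
  obtain ⟨N, hNdef⟩ : ∃ N, N = cOmega π.ker := ⟨_, rfl⟩
  rw [← hNdef] at hNne
  haveI hNn : N.Normal := by
    rw [hNdef]
    infer_instance
  have hNQ : ∀ z ∈ N, π z = 1 := fun z hz => by
    rw [hNdef] at hz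
    exact hz.1
  have hNc : ∀ z ∈ N, ∀ a, π a = 1 → a * z = z * a := fun z hz a ha => by
    rw [hNdef] at hz
    exact hz.2.1 a ha
  have hN2 : ∀ z ∈ N, z * z = 1 := fun z hz => by
    rw [hNdef] at hz
    exact hz.2.2
  let π' : G ⧸ N →* SL2 K := QuotientGroup.lift N π hNQ
  have hπ' : ∀ g : G, π' (g : G ⧸ N) = π g := fun g => rfl
  have hsurj' : Function.Surjective π' := fun g => by
    obtain ⟨x, rfl⟩ := hπ g
    exact ⟨x, hπ' x⟩
  have hcard' : Nat.card (G ⧸ N) < n := by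
    have h1 := Subgroup.card_eq_card_quotient_mul_card_subgroup N
    have h2 : 1 < Nat.card ↥N := (Subgroup.one_lt_card_iff_ne_bot N).mpr hNne
    have h3 : 0 < Nat.card (G ⧸ N) := Nat.card_pos
    rw [← hcard, h1]
    nlinarith
  have hker' : ∀ a : G, π' (a : G ⧸ N) = 1 → π a = 1 := fun a h => by rwa [← hπ']
  have hQ' : IsPGroup 2 ↥π'.ker := by
    rintro ⟨z, hz⟩
    obtain ⟨a, rfl⟩ := QuotientGroup.mk_surjective z
    have ha : π a = 1 := hker' a hz
    obtain ⟨k, hk⟩ := hQ ⟨a, ha⟩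
    refine ⟨k, Subtype.ext ?_⟩
    have h1 : a ^ (2 ^ k) = 1 := congrArg Subtype.val hk
    show (a : G ⧸ N) ^ (2 ^ k) = 1
    rw [← QuotientGroup.mk_pow, h1]
    rfl
  have hfpf' : ∀ q : G ⧸ N, π' q = 1 → (x₀ : G ⧸ N) * q * (x₀ : G ⧸ N)⁻¹ = q → q = 1 := by
    intro q hq hq2
    obtain ⟨a, rfl⟩ := QuotientGroup.mk_surjective q
    have ha : π a = 1 := hker' a hq
    let σ : ↥π.ker →* ↥π.ker :=
      { toFun := fun y => ⟨x₀ * y * x₀⁻¹, (inferInstance : π.ker.Normal).conj_mem _ y.2 _⟩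
        map_one' := Subtype.ext (by simp)
        map_mul' := fun y z => Subtype.ext (by simp) }
    have hfix : ∀ y, σ y = y → y = 1 := fun y h =>
      Subtype.ext (hfpf y y.2 (congrArg Subtype.val h))
    have hu : (⟨a, ha⟩ : ↥π.ker) ∈ N.subgroupOf π.ker := by
      apply Cfsg.Agent.Lib.PGroups.Fpf3.mem_of_norm_mem σ hfix
      · intro y hy
        rw [Subgroup.mem_subgroupOf] at hy ⊢
        exact hNn.conj_mem _ hy _
      · rw [Subgroup.mem_subgroupOf]
        have h1 : (a : G ⧸ N) = ((x₀ * a * x₀⁻¹ : G) : G ⧸ N) := hq2.symm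
        exact QuotientGroup.eq.mp h1
    rw [Subgroup.mem_subgroupOf] at hu
    exact (QuotientGroup.eq_one_iff _).mpr hu
  obtain ⟨hA1, hA2⟩ := ih _ hcard' (G ⧸ N) π' rfl hsurj' hQ' (x₀ : G ⧸ N) (by rw [hπ', hx₀]) (by
      rw [← QuotientGroup.mk_pow, hx₃]
      rfl) hfpf'
  have hC := comm_step hK t ht0 ht1 π hπ N hNQ hNc hN2 x₀ hx₀ hx₃ hfpf π' hπ' hA1 hA2 hfpf'
  have h4 : ∀ a, π a = 1 → a * a * a * a = 1 := by
    intro a ha
    have h1 : a * a ∈ N := by
      rw [← QuotientGroup.eq_one_iff]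
      exact hA2 _ (by rw [hπ', ha])
    have h2 := hN2 _ h1
    rwa [← mul_assoc] at h2
  exact ⟨hC, exp_step hK t ht0 ht1 m hm htm π hπ x₀ hx₀ hx₃ hfpf hC h4⟩

theorem g0_coe (hK : (2 : K) = 0) : ((g0 : SL2 K) : Matrix (Fin 2) (Fin 2) K) = !![0, 1; 1, 1] := by
  simp only [g0, Matrix.SpecialLinearGroup.coe_mul, uu_coe, vv_coe, Matrix.mul_fin_two]
  apply mat2_ext
  · linear_combination hK
  · ring
  · ring
  · ring

theorem conj_to_g0 [Finite K] (hK : (2 : K) = 0) (z : SL2 K) (hz3 : z ^ 3 = 1) (hz1 : z ≠ 1) :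
    ∃ H : SL2 K, z * H = H * g0 := by
  obtain ⟨a, b, c, d, hz⟩ : ∃ a b c d : K, (z : Matrix (Fin 2) (Fin 2) K) = !![a, b; c, d] :=
    ⟨_, _, _, _, Matrix.eta_fin_two _⟩
  have hdet : a * d - b * c = 1 := by
    have h := z.2
    rw [hz, Matrix.det_fin_two] at h
    simpa using h
  have h3' : !![a, b; c, d] * !![a, b; c, d] * !![a, b; c, d] = (1 : Matrix (Fin 2) (Fin 2) K) := by
    have h1 : z * z * z = 1 := by rw [← pow_three', hz3]
    have h2 := congrArg (fun y : SL2 K => (y : Matrix (Fin 2) (Fin 2) K)) h1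
    simp only [Matrix.SpecialLinearGroup.coe_mul, Matrix.SpecialLinearGroup.coe_one, hz] at h2
    exact h2
  rw [Matrix.mul_fin_two, Matrix.mul_fin_two, Matrix.one_fin_two] at h3'
  obtain ⟨E00, E01, E10, E11⟩ := mat2_inj h3'
  have hb : b * ((a + d) * (a + d) + 1) = 0 := by linear_combination E01 + b * hdet + b * hK
  have hc : c * ((a + d) * (a + d) + 1) = 0 := by linear_combination E10 + c * hdet + c * hK
  have hTT : (a + d) * ((a + d) * (a + d) + 1) = 0 := by
    linear_combination E00 + E11 + 3 * (a + d) * hdet + (2 * (a + d) + 1) * hK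
  have hT01 : a + d = 0 ∨ a + d = 1 := by
    have h1 : (a + d) * ((a + d + 1) * (a + d + 1)) = 0 := by
      linear_combination hTT + (a + d) * (a + d) * hK
    rcases mul_eq_zero.mp h1 with h | h
    · exact Or.inl h
    · right
      have := mul_self_eq_zero.mp h
      linear_combination this - hK
  have hT : a + d = 1 := by
    rcases hT01 with hT0 | hT1
    · exfalso
      apply hz1
      have hda : d = a := by linear_combination hT0 - a * hK
      have hb0 : b = 0 := by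
        rw [hT0] at hb
        simpa using hb
      have hc0 : c = 0 := by
        rw [hT0] at hc
        simpa using hc
      subst hb0 hc0 hda
      have h1 : d * d = 1 := by linear_combination hdet
      have h2 : d = 1 := by linear_combination E00 - d * h1
      apply sl_ext
      rw [hz, h2, Matrix.SpecialLinearGroup.coe_one, Matrix.one_fin_two]
    · exact hT1
  have hdet2 : a * d + b * c = 1 := by linear_combination hdet + b * c * hK
  have hsq := sq_surj hK
  by_cases hc0 : c = 0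
  · by_cases hb0 : b = 0
    · subst hc0 hb0
      obtain ⟨H, hH⟩ : ∃ H : SL2 K, (H : Matrix (Fin 2) (Fin 2) K) = !![1, a; 1, d] :=
        ⟨⟨!![1, a; 1, d], by
          rw [Matrix.det_fin_two]
          simp
          linear_combination hT - a * hK⟩, rfl⟩
      refine ⟨H, sl_ext ?_⟩
      rw [Matrix.SpecialLinearGroup.coe_mul, Matrix.SpecialLinearGroup.coe_mul, g0_coe hK, hz, hH,
        Matrix.mul_fin_two, Matrix.mul_fin_two]
      apply mat2_ext
      · ring
      · linear_combination a * hT - hdet2 - 1 * hK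
      · ring
      · linear_combination d * hT - hdet2 - 1 * hK
    · obtain ⟨s, hs⟩ := hsq b⁻¹
      have hsb : s * s * b = 1 := by rw [hs, inv_mul_cancel₀ hb0]
      obtain ⟨H, hH⟩ : ∃ H : SL2 K, (H : Matrix (Fin 2) (Fin 2) K) = !![0, s * b; s, s * d] :=
        ⟨⟨!![0, s * b; s, s * d], by
          rw [Matrix.det_fin_two]
          simp
          linear_combination -hsb - hK⟩, rfl⟩
      refine ⟨H, sl_ext ?_⟩
      rw [Matrix.SpecialLinearGroup.coe_mul, Matrix.SpecialLinearGroup.coe_mul, g0_coe hK, hz, hH,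
        Matrix.mul_fin_two, Matrix.mul_fin_two]
      apply mat2_ext
      · ring
      · linear_combination s * b * hT
      · ring
      · linear_combination s * hdet2 + s * d * hT - s * a * d * hK
  · obtain ⟨s, hs⟩ := hsq c⁻¹
    have hsc : s * s * c = 1 := by rw [hs, inv_mul_cancel₀ hc0]
    obtain ⟨H, hH⟩ : ∃ H : SL2 K, (H : Matrix (Fin 2) (Fin 2) K) = !![s, s * a; 0, s * c] :=
      ⟨⟨!![s, s * a; 0, s * c], by
        rw [Matrix.det_fin_two]
        simp
        linear_combination hsc⟩, rfl⟩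
    refine ⟨H, sl_ext ?_⟩
    rw [Matrix.SpecialLinearGroup.coe_mul, Matrix.SpecialLinearGroup.coe_mul, g0_coe hK, hz, hH,
      Matrix.mul_fin_two, Matrix.mul_fin_two]
    apply mat2_ext
    · ring
    · linear_combination s * hdet2 + s * a * hT - s * a * d * hK
    · ring
    · linear_combination s * c * hT

theorem exists_x0 [Finite K] (hK : (2 : K) = 0) {G : Type*} [Group G] [Finite G] (π : G →* SL2 K)
    (hπ : Function.Surjective π) (hQ : IsPGroup 2 ↥π.ker) (x : G) (hx : orderOf x = 3)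
    (hfpf : ∀ q, π q = 1 → x * q * x⁻¹ = q → q = 1) :
    ∃ x₀ : G, π x₀ = g0 ∧ x₀ ^ 3 = 1 ∧ ∀ q, π q = 1 → x₀ * q * x₀⁻¹ = q → q = 1 := by
  have hx3 : x ^ 3 = 1 := by
    rw [← hx]
    exact pow_orderOf_eq_one x
  have hx1 : π x ≠ 1 := by
    intro h
    obtain ⟨k, hk⟩ := hQ ⟨x, h⟩
    have h1 : x ^ (2 ^ k) = 1 := congrArg Subtype.val hk
    have h2 : 3 ∣ 2 ^ k := hx ▸ orderOf_dvd_of_pow_eq_one h1
    have h3 : 3 ∣ 2 := Nat.Prime.dvd_of_dvd_pow Nat.prime_three h2
    omega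
  obtain ⟨H, hH⟩ := conj_to_g0 hK (π x) (by rw [← map_pow, hx3, map_one]) hx1
  obtain ⟨y, rfl⟩ := hπ H
  refine ⟨y⁻¹ * x * y, ?_, ?_, ?_⟩
  · rw [map_mul, map_mul, map_inv, mul_assoc, hH, inv_mul_cancel_left]
  · have : (y⁻¹ * x * y) ^ 3 = y⁻¹ * x ^ 3 * y := by
      rw [pow_three', pow_three']
      group
    rw [this, hx3]
    simp
  · intro q hq h
    have hq' : π (y * q * y⁻¹) = 1 := by
      rw [map_mul, map_mul, hq, mul_one, map_inv, mul_inv_cancel]
    have h1 : x * (y * q * y⁻¹) * x⁻¹ = y * q * y⁻¹ := by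
      calc x * (y * q * y⁻¹) * x⁻¹ = y * ((y⁻¹ * x * y) * q * (y⁻¹ * x * y)⁻¹) * y⁻¹ := by group
        _ = y * q * y⁻¹ := by rw [h]
    have h2 := hfpf _ hq' h1
    have h3 : q = y⁻¹ * (y * q * y⁻¹) * y := by group
    rw [h3, h2]
    simp

end main

end Cfsg.Agent.Lib.LocalEven2.S50
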