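import Cfsg.Agent.Lib.LocalEven2.S50e

/-! The decomposition into natural modules. -/

set_option autoImplicit false
set_option linter.unusedVariables false
set_option linter.unusedSectionVars false
set_option linter.style.haveILetI false

namespace Cfsg.Agent.Lib.LocalEven2.S50

open Matrix

section decomp

variable {K : Type*} [Field K]

theorem decomp_core {G : Type*} [Group G] {k : ℕ} (π : G →* SL2 K) (hπ : Function.Surjective π)
    (κ : Fin k → G → (Fin 2 → K))
    (hadd : ∀ i a b, π a = 1 → π b = 1 → κ i (a * b) = κ i a + κ i b)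
    (hinj : ∀ a, π a = 1 → (∀ i, κ i a = 0) → a = 1)
    (hsurj : ∀ i v, ∃ a, π a = 1 ∧ κ i a = v ∧ ∀ j, j ≠ i → κ j a = 0)
    (hequi : ∀ g a i, π a = 1 → κ i (g * a * g⁻¹) = ((π g : SL2 K) : Matrix (Fin 2) (Fin 2) K).mulVec (κ i a)) :
    ∃ V : Fin k → Subgroup G, (∀ i, V i ≤ π.ker ∧ (V i).Normal ∧
      Cfsg.ActsAsSL2OnSection K ⊤ ⊤ (V i) ⊥) ∧ iSupIndep V ∧ ⨆ i, V i = π.ker := by
  have h1 : ∀ i, κ i 1 = 0 := by
    intro i
    have := hadd i 1 1 (map_one π) (map_one π)
    rw [mul_one] at this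
    exact left_eq_add.mp this
  have hinv : ∀ i a, π a = 1 → κ i a⁻¹ = -κ i a := by
    intro i a ha
    have := hadd i a a⁻¹ ha (by rw [map_inv, ha, inv_one])
    rw [mul_inv_cancel, h1] at this
    exact eq_neg_of_add_eq_zero_right this.symm
  have hconj : ∀ g a, π a = 1 → π (g * a * g⁻¹) = 1 := by
    intro g a ha
    rw [map_mul, map_mul, ha, mul_one, map_inv, mul_inv_cancel]
  let V : Fin k → Subgroup G := fun i =>
    { carrier := {z | π z = 1 ∧ ∀ j, j ≠ i → κ j z = 0}
      mul_mem' := by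
        rintro a b ⟨ha, ha'⟩ ⟨hb, hb'⟩
        refine ⟨by rw [map_mul, ha, hb, mul_one], fun j hj => ?_⟩
        rw [hadd j a b ha hb, ha' j hj, hb' j hj, add_zero]
      one_mem' := ⟨map_one π, fun j _ => h1 j⟩
      inv_mem' := by
        rintro a ⟨ha, ha'⟩
        refine ⟨by rw [map_inv, ha, inv_one], fun j hj => ?_⟩
        rw [hinv j a ha, ha' j hj, neg_zero] }
  have hVmem : ∀ i z, z ∈ V i ↔ π z = 1 ∧ ∀ j, j ≠ i → κ j z = 0 := fun _ _ => Iff.rfl
  have hVn : ∀ i, (V i).Normal := fun i =>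
    ⟨fun z hz g => ⟨hconj g z hz.1, fun j hj => by rw [hequi g z j hz.1, hz.2 j hj, Matrix.mulVec_zero]⟩⟩
  refine ⟨V, fun i => ⟨fun z hz => hz.1, hVn i, ?_⟩, ?_, ?_⟩
  · haveI := hVn i
    let ψ : ↥(V i) →* Multiplicative (Fin 2 → K) :=
      { toFun := fun u => Multiplicative.ofAdd (κ i u)
        map_one' := by
          show Multiplicative.ofAdd (κ i 1) = 1
          rw [h1]
          rfl
        map_mul' := fun u v => by
          show Multiplicative.ofAdd (κ i ((u : G) * v)) = _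
          rw [hadd i _ _ u.2.1 v.2.1]
          rfl }
    refine ⟨?_, bot_le, π.comp (⊤ : Subgroup G).subtype, ψ, ?_, ?_, ?_, ?_⟩
    · intro g _
      rw [Subgroup.mem_normalizer_iff]
      intro h
      constructor
      · intro hh
        exact (hVn i).conj_mem _ hh g
      · intro hh
        have := (hVn i).conj_mem _ hh g⁻¹
        simpa [mul_assoc] using this
    · rw [MonoidHom.range_eq_top]
      intro g
      obtain ⟨x, rfl⟩ := hπ g
      exact ⟨⟨x, trivial⟩, rfl⟩
    · intro v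
      obtain ⟨a, ha, ha1, ha2⟩ := hsurj i (Multiplicative.toAdd v)
      exact ⟨⟨a, ha, ha2⟩, congrArg Multiplicative.ofAdd ha1⟩
    · intro u
      constructor
      · intro hu
        have hu' : κ i u = 0 := congrArg Multiplicative.toAdd hu
        have : (u : G) = 1 := hinj _ u.2.1 (fun j => by
          by_cases hj : j = i
          · rw [hj, hu']
          · exact u.2.2 j hj)
        rw [this]
        exact Subgroup.one_mem _
      · intro hu
        have hu1 : (u : G) = 1 := hu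
        show Multiplicative.ofAdd (κ i u) = 1
        rw [hu1, h1]
        rfl
    · intro e u
      exact ⟨⟨(e : G) * u * (e : G)⁻¹, (hVn i).conj_mem _ u.2 _⟩, rfl, hequi _ _ _ u.2.1⟩
  · intro i
    let Ni : Subgroup G :=
      { carrier := {z | π z = 1 ∧ κ i z = 0}
        mul_mem' := by
          rintro a b ⟨ha, ha'⟩ ⟨hb, hb'⟩
          refine ⟨by rw [map_mul, ha, hb, mul_one], ?_⟩
          rw [hadd i a b ha hb, ha', hb', add_zero]
        one_mem' := ⟨map_one π, h1 i⟩
        inv_mem' := by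
          rintro a ⟨ha, ha'⟩
          refine ⟨by rw [map_inv, ha, inv_one], ?_⟩
          rw [hinv i a ha, ha', neg_zero] }
    have hle : (⨆ j, ⨆ (_ : j ≠ i), V j) ≤ Ni :=
      iSup₂_le fun j hj z hz => ⟨hz.1, hz.2 i (Ne.symm hj)⟩
    refine Disjoint.mono_right hle ?_
    rw [Subgroup.disjoint_def]
    intro x hx hx'
    refine hinj x hx.1 (fun j => ?_)
    by_cases hj : j = i
    · rw [hj]
      exact hx'.2
    · exact hx.2 j hj
  · apply le_antisymm
    · exact iSup_le fun i z hz => hz.1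
    · intro a ha
      have key : ∀ S : Finset (Fin k), ∀ a, π a = 1 → (∀ j, j ∉ S → κ j a = 0) → a ∈ ⨆ i, V i := by
        classical
        intro S
        induction S using Finset.induction_on with
        | empty =>
          intro a ha h
          have : a = 1 := hinj a ha (fun j => h j (Finset.notMem_empty j))
          rw [this]
          exact Subgroup.one_mem _
        | insert i S hi ih =>
          intro a ha h
          obtain ⟨b, hb1, hb2, hb3⟩ := hsurj i (κ i a)
          have hbV : b ∈ V i := ⟨hb1, hb3⟩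
          have hb' : π b⁻¹ = 1 := by rw [map_inv, hb1, inv_one]
          have h3 : a * b⁻¹ ∈ ⨆ i, V i := by
            refine ih (a * b⁻¹) (by rw [map_mul, ha, hb', mul_one]) (fun j hj => ?_)
            rw [hadd j a b⁻¹ ha hb', hinv j b hb1]
            by_cases hji : j = i
            · rw [hji, hb2]
              simp
            · have hj' : j ∉ insert i S := by
                simp [hji, hj]
              rw [h j hj', hb3 j hji]
              simp
          have e : a = a * b⁻¹ * b := by group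
          rw [e]
          exact Subgroup.mul_mem _ h3 (Subgroup.mem_iSup_of_mem i hbV)
      exact key Finset.univ a ha (fun j hj => absurd (Finset.mem_univ j) hj)

theorem kappa_exists [Finite K] {A W : Type*} [AddCommGroup A] [AddCommGroup W] [Finite W]
    (ρ : SL2 K →* AddMonoid.End A) (s : Split A W) (q : K →+* AddMonoid.End W) (hN : IsNat ρ s q) :
    ∃ (k : ℕ) (κ0 : Fin k → A → (Fin 2 → K)), (∀ i a b, κ0 i (a + b) = κ0 i a + κ0 i b) ∧
      (∀ a, (∀ i, κ0 i a = 0) → a = 0) ∧ (∀ i v, ∃ a, κ0 i a = v ∧ ∀ j, j ≠ i → κ0 j a = 0) ∧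
      (∀ (h : SL2 K) a i, κ0 i (ρ h a) = ((h : SL2 K) : Matrix (Fin 2) (Fin 2) K).mulVec (κ0 i a)) := by
  classical
  letI mW : Module K W := Module.compHom W q
  have hsmul : ∀ (r : K) (w : W), q r w = r • w := fun _ _ => rfl
  haveI : Module.Finite K W := Module.Finite.of_finite
  let B := Module.finBasis K W
  have hlin : ∀ (a b : K) (x y : W) i, B.repr (q a x + q b y) i = a * B.repr x i + b * B.repr y i := by
    intro a b x y i
    rw [hsmul, hsmul]
    simp
  refine ⟨_, fun i a => ![B.repr (s.p1 a) i, B.repr (s.p2 a) i], ?_, ?_, ?_, ?_⟩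
  · intro i a b
    ext j
    fin_cases j <;> simp [map_add]
  · intro a h
    apply s.ext'
    · rw [map_zero]
      apply B.repr.injective
      ext i
      have h4 := congrFun (h i) 0
      simpa using h4
    · rw [map_zero]
      apply B.repr.injective
      ext i
      have h4 := congrFun (h i) 1
      simpa using h4
  · intro i v
    refine ⟨s.i1 (v 0 • B i) + s.i2 (v 1 • B i), ?_, ?_⟩
    · have hp1 : s.p1 (s.i1 (v 0 • B i) + s.i2 (v 1 • B i)) = v 0 • B i := by
        rw [map_add, s.p1i1, s.p1i2, add_zero]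
      have hp2 : s.p2 (s.i1 (v 0 • B i) + s.i2 (v 1 • B i)) = v 1 • B i := by
        rw [map_add, s.p2i1, s.p2i2, zero_add]
      ext j
      fin_cases j <;> simp [hp1, hp2]
    · intro j hj
      have hp1 : s.p1 (s.i1 (v 0 • B i) + s.i2 (v 1 • B i)) = v 0 • B i := by
        rw [map_add, s.p1i1, s.p1i2, add_zero]
      have hp2 : s.p2 (s.i1 (v 0 • B i) + s.i2 (v 1 • B i)) = v 1 • B i := by
        rw [map_add, s.p2i1, s.p2i2, zero_add]
      have hj' : i ≠ j := Ne.symm hj
      ext l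
      fin_cases l <;> simp [hp1, hp2, Finsupp.single_apply, hj']
  · intro h a i
    ext j
    fin_cases j
    · show B.repr (s.p1 (ρ h a)) i = _
      rw [(hN h a).1, hlin]
      simp [Matrix.mulVec, dotProduct, Fin.sum_univ_two]
    · show B.repr (s.p2 (ρ h a)) i = _
      rw [(hN h a).2, hlin]
      simp [Matrix.mulVec, dotProduct, Fin.sum_univ_two]

theorem decomp [Finite K] (hK : (2 : K) = 0) {G : Type*} [Group G] [Finite G] (π : G →* SL2 K)
    (hπ : Function.Surjective π) (x₀ : G) (hx₀ : π x₀ = g0) (hx₃ : x₀ ^ 3 = 1)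
    (hfpf : ∀ q, π q = 1 → x₀ * q * x₀⁻¹ = q → q = 1)
    (hcomm : ∀ a b, π a = 1 → π b = 1 → a * b = b * a) (h2 : ∀ a, π a = 1 → a * a = 1) :
    ∃ (k : ℕ) (V : Fin k → Subgroup G), (∀ i, V i ≤ π.ker ∧ (V i).Normal ∧
      Cfsg.ActsAsSL2OnSection K ⊤ ⊤ (V i) ⊥) ∧ iSupIndep V ∧ ⨆ i, V i = π.ker := by
  classical
  letI cQ : CommGroup ↥π.ker :=
    { (inferInstance : Group ↥π.ker) with
      mul_comm := fun a b => Subtype.ext (hcomm _ _ a.2 b.2) }
  obtain ⟨ρ, hρ⟩ := exists_rep (M := ↥π.ker) π hπ π.ker.subtype Subtype.val_injective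
    (fun g m => ⟨⟨g * m * g⁻¹, (inferInstance : π.ker.Normal).conj_mem _ m.2 g⟩, rfl⟩) (fun k hk m => by
      show k * (m : G) * k⁻¹ = m
      rw [hcomm k m hk m.2]
      group)
  have H := rep_H (M := ↥π.ker) π π.ker.subtype Subtype.val_injective ρ hρ x₀ hx₀ hx₃
    (fun m h => Subtype.ext (hfpf _ m.2 h))
  have hexp : ∀ y : Additive ↥π.ker, y + y = 0 := fun y =>
    Additive.toMul.injective (Subtype.ext (h2 _ (Additive.toMul y).2))
  obtain ⟨W, s, q, hN⟩ := module_thm hK hexp ρ H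
  obtain ⟨k, κ0, hκadd, hκinj, hκsurj, hκequi⟩ := kappa_exists ρ s q hN
  let κ : Fin k → G → (Fin 2 → K) := fun i z =>
    if h : π z = 1 then κ0 i (Additive.ofMul ⟨z, h⟩) else 0
  have hκ : ∀ i z (h : π z = 1), κ i z = κ0 i (Additive.ofMul ⟨z, h⟩) := fun i z h => dif_pos h
  obtain ⟨V, hV⟩ := decomp_core π hπ κ
    (fun i a b ha hb => by
      rw [hκ i (a * b) (by rw [map_mul, ha, hb, mul_one]), hκ i a ha, hκ i b hb]
      exact hκadd i (Additive.ofMul ⟨a, ha⟩) (Additive.ofMul ⟨b, hb⟩))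
    (fun a ha h => by
      have hA : Additive.ofMul (⟨a, ha⟩ : ↥π.ker) = 0 := hκinj _ (fun i => by
        rw [← hκ i a ha]
        exact h i)
      exact congrArg (fun y : Additive ↥π.ker => ((Additive.toMul y : ↥π.ker) : G)) hA)
    (fun i v => by
      obtain ⟨A, hA1, hA2⟩ := hκsurj i v
      refine ⟨((Additive.toMul A : ↥π.ker) : G), (Additive.toMul A).2, ?_, ?_⟩
      · rw [hκ i _ (Additive.toMul A).2]
        exact hA1
      · intro j hj
        rw [hκ j _ (Additive.toMul A).2]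
        exact hA2 j hj)
    (fun g a i ha => by
      have hc : π (g * a * g⁻¹) = 1 := by
        rw [map_mul, map_mul, ha, mul_one, map_inv, mul_inv_cancel]
      rw [hκ i _ hc, hκ i a ha]
      have e : Additive.ofMul (⟨g * a * g⁻¹, hc⟩ : ↥π.ker) = ρ (π g) (Additive.ofMul ⟨a, ha⟩) := by
        apply Additive.toMul.injective
        apply Subtype.ext
        exact (hρ g ⟨a, ha⟩).symm
      rw [e]
      exact hκequi _ _ _)
  exact ⟨k, V, hV⟩

theorem final {G : Type*} [Group G] [Finite G]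
    (Q : Subgroup G) [Q.Normal] (hQ : IsPGroup 2 ↥Q) (n : ℕ) (hn : 2 ≤ n)
    (K : Type*) [Field K] [Fintype K] (hK : Fintype.card K = 2 ^ n)
    (e : G ⧸ Q ≃* Matrix.SpecialLinearGroup (Fin 2) K)
    (x : G) (hx : orderOf x = 3) (hfpf : ∀ q ∈ Q, x * q * x⁻¹ = q → q = 1) :
    Cfsg.IsElementaryAbelian 2 Q ∧
      ∃ (k : ℕ) (V : Fin k → Subgroup G), (∀ i, V i ≤ Q ∧ (V i).Normal ∧
        Cfsg.ActsAsSL2OnSection K ⊤ ⊤ (V i) ⊥) ∧ iSupIndep V ∧ ⨆ i, V i = Q := by
  classical
  have hK2 : (2 : K) = 0 := by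
    have h := FiniteField.cast_card_eq_zero K
    rw [hK] at h
    push_cast at h
    exact pow_eq_zero_iff (by omega) |>.mp h
  obtain ⟨t, ht0, ht1⟩ : ∃ t : K, t ≠ 0 ∧ t ≠ 1 := by
    by_contra hcon
    push Not at hcon
    have h1 : Fintype.card K ≤ 2 := by
      have h2 : (Finset.univ : Finset K) ⊆ {0, 1} := fun t _ => by
        by_cases h : t = 0
        · simp [h]
        · simp [hcon t h]
      calc Fintype.card K = (Finset.univ : Finset K).card := rfl
        _ ≤ ({0, 1} : Finset K).card := Finset.card_le_card h2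
        _ ≤ 2 := Finset.card_le_two
    rw [hK] at h1
    have h3 : 2 ^ 2 ≤ 2 ^ n := Nat.pow_le_pow_right (by norm_num) hn
    omega
  have hm : Odd (Fintype.card K - 1) := by
    rw [hK]
    obtain ⟨n', rfl⟩ : ∃ n', n = n' + 1 := ⟨n - 1, by omega⟩
    refine ⟨2 ^ n' - 1, ?_⟩
    have h1 : 1 ≤ 2 ^ n' := Nat.one_le_two_pow
    rw [pow_succ]
    omega
  have htm : t ^ (Fintype.card K - 1) = 1 := FiniteField.pow_card_sub_one_eq_one t ht0
  let π : G →* SL2 K := e.toMonoidHom.comp (QuotientGroup.mk' Q)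
  have hπ1 : ∀ z, π z = 1 ↔ z ∈ Q := fun z => by
    show e (z : G ⧸ Q) = 1 ↔ _
    rw [map_eq_one_iff e e.injective, QuotientGroup.eq_one_iff]
  have hπ : Function.Surjective π := e.surjective.comp (QuotientGroup.mk'_surjective Q)
  have hker : π.ker = Q := Subgroup.ext hπ1
  have hQ' : IsPGroup 2 ↥π.ker := by
    rw [hker]
    exact hQ
  obtain ⟨x₀, hx₀, hx₃, hfpf₀⟩ := exists_x0 hK2 π hπ hQ' x hx (fun q hq => hfpf q ((hπ1 q).mp hq))
  obtain ⟨hC, hE⟩ := main_ind hK2 t ht0 ht1 _ hm htm _ G π rfl hπ hQ' x₀ hx₀ hx₃ hfpf₀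
  obtain ⟨k, V, hV⟩ := decomp hK2 π hπ x₀ hx₀ hx₃ hfpf₀ hC hE
  rw [hker] at hV
  refine ⟨⟨isMulCommutative_iff.mpr (fun a b => Subtype.ext (hC _ _ ((hπ1 _).mpr a.2) ((hπ1 _).mpr b.2))),
    fun a ha => ?_⟩, k, V, hV⟩
  rw [sq]
  exact hE a ((hπ1 a).mpr ha)

end decomp

end Cfsg.Agent.Lib.LocalEven2.S50
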