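import Cfsg.Agent.Lib.LocalEven2.SylowFamily
import Cfsg.Agent.Lib.Coprime.Sylow
import Cfsg.Agent.Lib.Components.Local2

/-!
# Chains of Sylow subgroups and families of normalizers
-/

set_option autoImplicit false
set_option linter.unusedSectionVars false

namespace Cfsg.Agent.Lib.LocalEven2.SC

open Cfsg Cfsg.Agent.Lib.Basic Cfsg.Agent.Lib.LocalEven Cfsg.Agent.Lib.Coprime Cfsg.Agent.Lib.LocalEven2

section Chain

variable {G : Type*} [Group G] {p : ℕ}

/-- One step in a chain. -/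
def FStep (𝓖 : Set (Subgroup G)) (D : Subgroup G) (A B : Sylow p G) : Prop :=
  ∃ X : Subgroup G, X ∈ sylowMembers p 𝓖 (A : Subgroup G) ∧ X ∈ sylowMembers p 𝓖 (B : Subgroup G) ∧
    ∃ x ∈ X, subgroupConjRight x (B : Subgroup G) = A ∧ D ≤ (B : Subgroup G) ⊓ X

/-- Connected by steps. -/
abbrev Conn (𝓖 : Set (Subgroup G)) (D : Subgroup G) : Sylow p G → Sylow p G → Prop :=
  Relation.ReflTransGen (FStep 𝓖 D)

theorem Conn.mono {𝓖 : Set (Subgroup G)} {D D' : Subgroup G} (h : D ≤ D') {A B : Sylow p G}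
    (hc : Conn 𝓖 D' A B) : Conn 𝓖 D A B := by
  refine Relation.ReflTransGen.lift id ?_ _ _ hc
  rintro A B ⟨X, h1, h2, x, hx, h3, h4⟩
  exact ⟨X, h1, h2, x, hx, h3, h.trans h4⟩

theorem exists_chain_of_conn {𝓖 : Set (Subgroup G)} {D : Subgroup G} {A B : Sylow p G} (h : Conn 𝓖 D A B) :
    ∃ (n : ℕ) (c : Fin (n + 1) → Sylow p G) (X : Fin n → Subgroup G) (x : Fin n → G),
      c 0 = A ∧ c (Fin.last n) = B ∧ ∀ i : Fin n,
        X i ∈ sylowMembers p 𝓖 (c i.castSucc : Subgroup G) ∧ X i ∈ sylowMembers p 𝓖 (c i.succ : Subgroup G) ∧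
        x i ∈ X i ∧ subgroupConjRight (x i) (c i.succ : Subgroup G) = (c i.castSucc : Subgroup G) ∧
        D ≤ (c i.succ : Subgroup G) ⊓ X i := by
  induction h with
  | refl => exact ⟨0, fun _ => A, Fin.elim0, Fin.elim0, rfl, rfl, fun i => i.elim0⟩
  | @tail B C _ hstep ih =>
    obtain ⟨n, c, X, x, h0, hn, hi⟩ := ih
    obtain ⟨X₀, h1, h2, x₀, hx₀, h3, h4⟩ := hstep
    refine ⟨n + 1, Fin.snoc c C, Fin.snoc X X₀, Fin.snoc x x₀, ?_, ?_, ?_⟩
    · have e : (0 : Fin (n + 2)) = (0 : Fin (n + 1)).castSucc := rfl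
      rw [e, Fin.snoc_castSucc, h0]
    · simp
    · intro i
      induction i using Fin.lastCases with
      | last =>
        rw [Fin.succ_last, Fin.snoc_last, Fin.snoc_last, Fin.snoc_last, Fin.snoc_castSucc, hn]
        exact ⟨h1, h2, hx₀, h3, h4⟩
      | cast j =>
        rw [Fin.snoc_castSucc (α := fun _ => Subgroup G), Fin.snoc_castSucc (α := fun _ => G),
          ← Fin.castSucc_succ, Fin.snoc_castSucc, Fin.snoc_castSucc (α := fun _ => Sylow p G)]
        exact hi j

theorem conn_of_fin {α : Type*} {r : α → α → Prop} {n : ℕ} (c : Fin (n + 1) → α)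
    (h : ∀ i : Fin n, Relation.ReflTransGen r (c i.castSucc) (c i.succ)) :
    Relation.ReflTransGen r (c 0) (c (Fin.last n)) := by
  have key : ∀ i : Fin (n + 1), Relation.ReflTransGen r (c 0) (c i) := by
    intro i
    induction i using Fin.induction with
    | zero => exact Relation.ReflTransGen.refl
    | succ i ih => exact ih.trans (h i)
  exact key _

end Chain

section Members

variable {G : Type*} [Group G] [Finite G] {p : ℕ} [Fact p.Prime]

theorem mem_members_of_le {𝓖 : Set (Subgroup G)} {X : Subgroup G} (hX : X ∈ 𝓖) (A : Sylow p G)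
    (hA : (A : Subgroup G) ≤ X) : X ∈ sylowMembers p 𝓖 (A : Subgroup G) := by
  refine ⟨hX, A.subtype hA, ?_⟩
  rw [Sylow.coe_subtype, Subgroup.subgroupOf_map_subtype]

theorem mem_members_of_sylowOf {𝓖 : Set (Subgroup G)} {M R : Subgroup G} (hM : M ∈ 𝓖) (hR : IsSylowOf p R M)
    (A : Sylow p G) (h : R ≤ A) : M ∈ sylowMembers p 𝓖 (A : Subgroup G) := by
  refine ⟨hM, ?_⟩
  have hT : (A : Subgroup G) ⊓ M = R := by
    have := eq_of_isPGroup_of_not_dvd_relIndex (Q := R) (T := (A : Subgroup G) ⊓ M) (N := M)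
      (le_inf h hR.le) inf_le_right (A.isPGroup'.to_le inf_le_left) hR.not_dvd
    exact this
  rw [hT]
  obtain ⟨Q, hQ⟩ := exists_sylow_of_relIndex hR.le hR.isP hR.not_dvd
  refine ⟨Q, ?_⟩
  rw [hQ]
  exact Subgroup.map_subgroupOf_eq_of_le hR.le

theorem le_of_mem_members {𝓕 : Set (Subgroup G)} {X : Subgroup G} {A Q : Sylow p G}
    (hX : X ∈ sylowMembers p 𝓕 (A : Subgroup G)) (hQ : (Q : Subgroup G) ≤ X) : (A : Subgroup G) ≤ X := by
  obtain ⟨_, P, hP⟩ := hX
  have h1 : Nat.card ↥((A : Subgroup G) ⊓ X) = Nat.card P := by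
    rw [← hP]
    exact (Subgroup.card_map_of_injective X.subtype_injective)
  have h2 : Nat.card P = Nat.card ↥(Q.subtype hQ : Subgroup X) := by
    rw [Sylow.card_eq_multiplicity P, Sylow.card_eq_multiplicity (Q.subtype hQ)]
  have h3 : Nat.card ↥(Q.subtype hQ : Subgroup X) = Nat.card Q := by
    rw [Sylow.coe_subtype]
    exact Nat.card_congr (Subgroup.subgroupOfEquivOfLe hQ).toEquiv
  have h4 : Nat.card Q = Nat.card A := by
    rw [Sylow.card_eq_multiplicity Q, Sylow.card_eq_multiplicity A]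
  have h5 : (A : Subgroup G) ⊓ X = A := by
    apply Subgroup.eq_of_le_of_card_ge inf_le_left
    rw [h1, h2, h3, h4]
  exact inf_eq_left.1 h5

theorem le_of_isSylowOf {R M T : Subgroup G} (hR : IsSylowOf p R M) (hT : IsPGroup p T) (hTM : T ≤ M)
    (hn : R ≤ Subgroup.normalizer (T : Set G)) : T ≤ R := by
  have h1 : IsPGroup p ↥(R ⊔ T) := IsPGroup.to_sup_of_normal_right' hR.isP hT hn
  have h2 := eq_of_isPGroup_of_not_dvd_relIndex (Q := R) (T := R ⊔ T) (N := M) le_sup_left
    (sup_le hR.le hTM) h1 hR.not_dvd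
  exact le_sup_right.trans h2.le

theorem sylow_coe_eq {R : Subgroup G} (hR : IsPGroup p R) (hi : ¬ p ∣ R.index) (A : Sylow p G)
    (h : R ≤ A) : (A : Subgroup G) = R := by
  have := eq_of_isPGroup_of_not_dvd_relIndex (Q := R) (T := (A : Subgroup G)) (N := ⊤) h le_top A.isPGroup'
    (by rwa [Subgroup.relIndex_top_right])
  exact this

/-- Right conjugate of a Sylow subgroup. -/
def cS (g : G) (A : Sylow p G) : Sylow p G := g⁻¹ • A

theorem coe_cS (g : G) (A : Sylow p G) : (cS g A : Subgroup G) = subgroupConjRight g (A : Subgroup G) := by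
  unfold cS
  rw [Sylow.coe_subgroup_smul]
  ext y
  rw [mem_subgroupConjRight, Subgroup.mem_pointwise_smul_iff_inv_smul_mem]
  simp [MulAut.smul_def, MulAut.conj_apply, mul_assoc]

theorem cS_inv_cS (g : G) (A : Sylow p G) : cS g⁻¹ (cS g A) = A := by
  unfold cS
  simp

theorem cS_cS_inv (g : G) (A : Sylow p G) : cS g (cS g⁻¹ A) = A := by
  unfold cS
  simp

/-- Conjugation-invariance of connectedness. -/
theorem conn_conj {𝓖 : Set (Subgroup G)} (h𝓖 : IsNormalSet 𝓖) {D : Subgroup G} {A B : Sylow p G} (g : G)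
    (h : Conn 𝓖 D A B) : Conn 𝓖 (subgroupConjRight g D) (cS g A) (cS g B) := by
  refine Relation.ReflTransGen.lift (cS g) ?_ _ _ h
  rintro A B ⟨X, h1, h2, x, hx, h3, h4⟩
  refine ⟨subgroupConjRight g X, ?_, ?_, g⁻¹ * x * g, ?_, ?_, ?_⟩
  · rw [coe_cS]; exact sylowMembers_conj h𝓖 h1 g
  · rw [coe_cS]; exact sylowMembers_conj h𝓖 h2 g
  · rw [mem_subgroupConjRight]
    have e : g * (g⁻¹ * x * g) * g⁻¹ = x := by group
    rw [e]; exact hx
  · rw [coe_cS, coe_cS, ← subgroupConjRight_mul, ← h3, ← subgroupConjRight_mul]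
    congr 1
    group
  · rw [coe_cS, ← subgroupConjRight_inf]
    exact subgroupConjRight_mono h4 g

end Members

section Family

variable {G : Type*} [Group G] [Finite G] {p : ℕ} [Fact p.Prime]

/-- Normalizers of members of `f(P)`, `P` Sylow. -/
def fam (p : ℕ) (f : Subgroup G → Set (Subgroup G)) : Set (Subgroup G) :=
  {X | ∃ P : Sylow p G, ∃ F ∈ f (P : Subgroup G), X = Subgroup.normalizer (F : Set G)}

theorem fam_normal {f : Subgroup G → Set (Subgroup G)} (hf : IsNormalizerFunctor p f) :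
    IsNormalSet (fam p f) := by
  rintro X ⟨P, F, hF, rfl⟩ g
  refine ⟨cS g P, subgroupConjRight g F, ?_, ?_⟩
  · rw [coe_cS]
    unfold subgroupConjRight
    rw [(hf _ P.isPGroup').2 g⁻¹]
    exact ⟨F, hF, rfl⟩
  · ext y
    rw [mem_subgroupConjRight, Subgroup.mem_normalizer_iff, Subgroup.mem_normalizer_iff]
    constructor
    · intro h w
      rw [mem_subgroupConjRight, mem_subgroupConjRight]
      have := h (g * w * g⁻¹)
      have e : g * y * g⁻¹ * (g * w * g⁻¹) * (g * y * g⁻¹)⁻¹ = g * (y * w * y⁻¹) * g⁻¹ := by group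
      rw [e] at this
      exact this
    · intro h w
      have := h (g⁻¹ * w * g)
      rw [mem_subgroupConjRight, mem_subgroupConjRight] at this
      have e1 : g * (g⁻¹ * w * g) * g⁻¹ = w := by group
      have e2 : g * (y * (g⁻¹ * w * g) * y⁻¹) * g⁻¹ = g * y * g⁻¹ * w * (g * y * g⁻¹)⁻¹ := by group
      rw [e1, e2] at this
      exact this

/-- A Sylow subgroup of `M ≥ S` is Sylow in `G`. -/
theorem exists_sylow_map {M : Subgroup G} (hi : ¬ p ∣ M.index) (P : Sylow p M) :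
    ∃ Q : Sylow p G, (Q : Subgroup G) = (P : Subgroup M).map M.subtype := by
  have hp : IsPGroup p ↥((P : Subgroup M).map M.subtype) := P.isPGroup'.map _
  have hi2 : ¬ p ∣ ((P : Subgroup M).map M.subtype).index := by
    rw [Subgroup.index_map_subtype]
    intro h
    rcases (Nat.Prime.dvd_mul Fact.out).1 h with h | h
    · exact P.not_dvd_index h
    · exact hi h
  exact ⟨hp.toSylow hi2, rfl⟩

theorem map_conjRight_subtype {M : Subgroup G} (x : M) (K : Subgroup M) :
    (subgroupConjRight x K).map M.subtype = subgroupConjRight (x : G) (K.map M.subtype) := by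
  ext y
  rw [mem_subgroupConjRight]
  constructor
  · rintro ⟨z, hz, rfl⟩
    have hz' : z ∈ subgroupConjRight x K := hz
    rw [mem_subgroupConjRight] at hz'
    exact ⟨_, hz', rfl⟩
  · rintro ⟨z, hz, e⟩
    have hyM : y ∈ M := by
      have : (x : G) * y * (x : G)⁻¹ ∈ M := by
        rw [← e]; exact z.2
      have e2 : y = (x : G)⁻¹ * ((x : G) * y * (x : G)⁻¹) * x := by group
      rw [e2]
      exact M.mul_mem (M.mul_mem (M.inv_mem x.2) this) x.2
    refine ⟨⟨y, hyM⟩, ?_, rfl⟩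
    show _ ∈ subgroupConjRight x K
    rw [mem_subgroupConjRight]
    have : x * ⟨y, hyM⟩ * x⁻¹ = z := by
      apply Subtype.ext
      exact e.symm
    rw [this]; exact hz

/-- Data from the family of `M`. -/
theorem reg_data {f : Subgroup G → Set (Subgroup G)} (hf : IsNormalizerFunctor p f) {M : Subgroup G}
    {X' : Subgroup M} (hX' : X' ∈ (fun X : Subgroup G => X.subgroupOf M) '' functorFamily p f M) :
    ∃ (P : Sylow p M) (F : Subgroup G), F ∈ f ((P : Subgroup M).map M.subtype) ∧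
      X' = (M ⊓ Subgroup.normalizer (F : Set G)).subgroupOf M ∧ (P : Subgroup M) ≤ X' := by
  obtain ⟨Y, ⟨P, F, hF, rfl⟩, rfl⟩ := hX'
  refine ⟨P, F, hF, rfl, ?_⟩
  intro y hy
  rw [Subgroup.mem_subgroupOf]
  refine ⟨y.2, ?_⟩
  have h1 := ((hf _ (P.isPGroup'.map M.subtype)).1 F hF).2
  exact h1 (Subgroup.le_normalizer ⟨y, hy, rfl⟩)

end Family

section Regular

variable {G : Type*} [Group G] [Finite G] {p : ℕ} [Fact p.Prime]

theorem cS_mul (g h : G) (A : Sylow p G) : cS (g * h) A = cS h (cS g A) := by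
  unfold cS
  rw [mul_inv_rev, mul_smul]

theorem exists_cS_eq (R Q : Sylow p G) : ∃ g : G, Q = cS g R := by
  obtain ⟨g, hg⟩ := exists_subgroupConjRight_eq R Q
  refine ⟨g, Sylow.ext ?_⟩
  rw [hg, coe_cS]

/-- The chain in a regular subgroup containing a Sylow subgroup. -/
theorem conn_of_regular {f : Subgroup G → Set (Subgroup G)} (hf : IsNormalizerFunctor p f) {M : Subgroup G}
    (hi : ¬ p ∣ M.index) (hr : IsFunctorRegular p f M) (A B : Sylow p G) (hA : (A : Subgroup G) ≤ M)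
    (hB : (B : Subgroup G) ≤ M) (hne : (A : Subgroup G) ⊓ B ≠ ⊥) :
    Conn (fam p f) ((A : Subgroup G) ⊓ B) A B := by
  classical
  by_cases hAB : A = B
  · subst hAB; exact Relation.ReflTransGen.refl
  have hAh : (A.subtype hA : Subgroup M).map M.subtype = A := by
    rw [Sylow.coe_subtype, Subgroup.subgroupOf_map_subtype, inf_of_le_left hA]
  have hBh : (B.subtype hB : Subgroup M).map M.subtype = B := by
    rw [Sylow.coe_subtype, Subgroup.subgroupOf_map_subtype, inf_of_le_left hB]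
  have hne' : A.subtype hA ≠ B.subtype hB := by
    intro e
    apply hAB
    apply Sylow.ext
    rw [← hAh, ← hBh, e]
  have hbot : (A.subtype hA : Subgroup M) ⊓ (B.subtype hB : Subgroup M) ≠ ⊥ := by
    intro e
    apply hne
    rw [eq_bot_iff]
    rintro y ⟨hy1, hy2⟩
    have h1 : (⟨y, hA hy1⟩ : M) ∈ (A.subtype hA : Subgroup M) ⊓ (B.subtype hB : Subgroup M) := by
      rw [Sylow.coe_subtype, Sylow.coe_subtype]
      exact ⟨Subgroup.mem_subgroupOf.2 hy1, Subgroup.mem_subgroupOf.2 hy2⟩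
    rw [e, Subgroup.mem_bot] at h1
    have := congrArg Subtype.val h1
    simpa using this
  obtain ⟨n, c, X, x, h0, hn, hi'⟩ := hr _ _ hne' hbot
  choose ct hct using fun i => exists_sylow_map hi (c i)
  have hstep : ∀ i : Fin n, FStep (fam p f) ((A : Subgroup G) ⊓ B) (ct i.castSucc) (ct i.succ) := by
    intro i
    obtain ⟨h1, h2, h3, h4, h5⟩ := hi' i
    obtain ⟨P, F, hF, hXe, hPX⟩ := reg_data hf h1.1
    have hc1 : (c i.castSucc : Subgroup M) ≤ X i := le_of_mem_members h1 hPX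
    have hc2 : (c i.succ : Subgroup M) ≤ X i := le_of_mem_members h2 hPX
    obtain ⟨Q, hQ⟩ := exists_sylow_map hi P
    have hFQ : F ∈ f (Q : Subgroup G) := by rw [hQ]; exact hF
    have hmemF : Subgroup.normalizer (F : Set G) ∈ fam p f := ⟨Q, F, hFQ, rfl⟩
    have hXN : ∀ y ∈ X i, (y : G) ∈ Subgroup.normalizer (F : Set G) := by
      intro y hy
      rw [hXe] at hy
      exact (Subgroup.mem_subgroupOf.1 hy).2
    refine ⟨Subgroup.normalizer (F : Set G), mem_members_of_le hmemF _ ?_, mem_members_of_le hmemF _ ?_,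
      (x i : G), hXN _ h3, ?_, ?_⟩
    · rw [hct]
      rintro _ ⟨y, hy, rfl⟩
      exact hXN y (hc1 hy)
    · rw [hct]
      rintro _ ⟨y, hy, rfl⟩
      exact hXN y (hc2 hy)
    · rw [hct, hct, ← map_conjRight_subtype, h4]
    · rintro y ⟨hy1, hy2⟩
      have h6 : (⟨y, hA hy1⟩ : M) ∈ (A.subtype hA : Subgroup M) ⊓ (B.subtype hB : Subgroup M) := by
        rw [Sylow.coe_subtype, Sylow.coe_subtype]
        exact ⟨Subgroup.mem_subgroupOf.2 hy1, Subgroup.mem_subgroupOf.2 hy2⟩
      obtain ⟨h7, h8⟩ := h5 h6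
      refine ⟨?_, hXN _ h8⟩
      rw [hct]
      exact ⟨_, h7, rfl⟩
  have h1 := conn_of_fin ct (fun i => Relation.ReflTransGen.single (hstep i))
  have e0 : ct 0 = A := Sylow.ext (by rw [hct, h0, hAh])
  have en : ct (Fin.last n) = B := Sylow.ext (by rw [hct, hn, hBh])
  rwa [e0, en] at h1

/-- From chains to regularity of the whole group. -/
theorem regular_top {f : Subgroup G → Set (Subgroup G)} (hf : IsNormalizerFunctor p f)
    (h : ∀ T₁ T₂ : Sylow p G, T₁ ≠ T₂ → (T₁ : Subgroup G) ⊓ T₂ ≠ ⊥ →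
      Conn (fam p f) ((T₁ : Subgroup G) ⊓ T₂) T₁ T₂) : IsFunctorRegular p f ⊤ := by
  classical
  intro Sh Th hne hbot
  have htop : ¬ p ∣ (⊤ : Subgroup G).index := by
    rw [Subgroup.index_top]
    exact Nat.Prime.one_lt (Fact.out : p.Prime) |> fun h => by
      intro hd
      exact absurd (Nat.le_of_dvd one_pos hd) (by omega)
  obtain ⟨S', hS'⟩ := exists_sylow_map htop Sh
  obtain ⟨T', hT'⟩ := exists_sylow_map htop Th
  have hback : ∀ K : Subgroup (⊤ : Subgroup G), (K.map (⊤ : Subgroup G).subtype).subgroupOf ⊤ = K :=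
    fun K => Cfsg.Agent.Lib.Components.map_subtype_subgroupOf K
  have hne' : S' ≠ T' := by
    intro e
    apply hne
    apply Sylow.ext
    rw [← hback (Sh : Subgroup _), ← hback (Th : Subgroup _), ← hS', ← hT', e]
  have hbot' : (S' : Subgroup G) ⊓ T' ≠ ⊥ := by
    intro e
    apply hbot
    rw [eq_bot_iff]
    intro y hy
    have h1 : (y : G) ∈ (S' : Subgroup G) ⊓ T' := by
      rw [hS', hT']
      exact ⟨⟨y, hy.1, rfl⟩, ⟨y, hy.2, rfl⟩⟩
    rw [e, Subgroup.mem_bot] at h1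
    exact Subtype.ext h1
  obtain ⟨n, c, X, x, h0, hn, hi⟩ := exists_chain_of_conn (h S' T' hne' hbot')
  refine ⟨n, fun i => (c i).subtype le_top, fun i => (X i).subgroupOf ⊤, fun i => ⟨x i, trivial⟩, ?_, ?_, ?_⟩
  · apply Sylow.ext
    rw [Sylow.coe_subtype, h0, hS', hback]
  · apply Sylow.ext
    rw [Sylow.coe_subtype, hn, hT', hback]
  · intro i
    obtain ⟨h1, h2, h3, h4, h5⟩ := hi i
    obtain ⟨P, F, hF, e⟩ := h1.1
    have hPX : (P : Subgroup G) ≤ X i := by
      rw [e]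
      exact Subgroup.le_normalizer.trans ((hf _ P.isPGroup').1 F hF).2
    have hc1 : (c i.castSucc : Subgroup G) ≤ X i := le_of_mem_members h1 hPX
    have hc2 : (c i.succ : Subgroup G) ≤ X i := le_of_mem_members h2 hPX
    have hmem : (X i).subgroupOf ⊤ ∈ (fun Y : Subgroup G => Y.subgroupOf (⊤ : Subgroup G)) '' functorFamily p f ⊤ := by
      refine ⟨X i, ⟨P.subtype le_top, F, ?_, ?_⟩, rfl⟩
      · rw [Sylow.coe_subtype, Subgroup.subgroupOf_map_subtype, inf_of_le_left le_top]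
        exact hF
      · rw [top_inf_eq, e]
    have hle : ∀ K : Subgroup G, K ≤ X i → K.subgroupOf ⊤ ≤ (X i).subgroupOf ⊤ :=
      fun K hK y hy => Subgroup.mem_subgroupOf.2 (hK (Subgroup.mem_subgroupOf.1 hy))
    refine ⟨mem_members_of_le hmem ((c _).subtype le_top) ?_, mem_members_of_le hmem ((c _).subtype le_top) ?_,
      Subgroup.mem_subgroupOf.2 h3, ?_, ?_⟩
    · rw [Sylow.coe_subtype]; exact hle _ hc1
    · rw [Sylow.coe_subtype]; exact hle _ hc2
    · rw [Sylow.coe_subtype, Sylow.coe_subtype]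
      ext y
      rw [mem_subgroupConjRight, Subgroup.mem_subgroupOf, Subgroup.mem_subgroupOf, ← h4, mem_subgroupConjRight]
      rfl
    · rw [Sylow.coe_subtype]
      rintro y ⟨hy1, hy2⟩
      have h6 : (y : G) ∈ (S' : Subgroup G) ⊓ T' := by
        rw [hS', hT']
        exact ⟨⟨y, hy1, rfl⟩, ⟨y, hy2, rfl⟩⟩
      obtain ⟨h7, h8⟩ := h5 h6
      exact ⟨Subgroup.mem_subgroupOf.2 h7, Subgroup.mem_subgroupOf.2 h8⟩

end Regular

end Cfsg.Agent.Lib.LocalEven2.SC
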