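import Cfsg.Agent.Lib.LocalEven2.SC
import Cfsg.Agent.Lib.OddLocal.UniqueP

/-!
# Normalizers and singular maximal `p`-locals control Sylow intersections
-/

set_option autoImplicit false
set_option linter.unusedSectionVars false

namespace Cfsg.Agent.Lib.LocalEven2.SC

open Cfsg Cfsg.Agent.Lib.Basic Cfsg.Agent.Lib.LocalEven Cfsg.Agent.Lib.Coprime Cfsg.Agent.Lib.LocalEven2

variable {G : Type*} [Group G] [Finite G] {p : ℕ} [Fact p.Prime]

/-- The singular maximal `p`-locals. -/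
def sing (p : ℕ) (f : Subgroup G → Set (Subgroup G)) : Set (Subgroup G) :=
  {M | IsMaximalPLocal p M ∧ ¬ IsFunctorRegular p f M}

/-- The whole family. -/
abbrev fam2 (p : ℕ) (f : Subgroup G → Set (Subgroup G)) : Set (Subgroup G) := fam p f ∪ sing p f

theorem exists_maxLocal {W : Subgroup G} (hW : IsPLocal p W) : ∃ M, IsMaximalPLocal p M ∧ W ≤ M := by
  have hfin : ({N | IsPLocal p N ∧ W ≤ N} : Set (Subgroup G)).Finite := Set.toFinite _
  obtain ⟨M, hWM, hmax⟩ := hfin.exists_le_maximal (a := W) ⟨hW, le_rfl⟩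
  refine ⟨M, ⟨hmax.prop.1, ?_⟩, hWM⟩
  intro N hN hMN
  exact le_antisymm (hmax.le_of_ge ⟨hN, hWM.trans hMN⟩ hMN) hMN

theorem exists_sylowOf_ge {E M : Subgroup G} (hE : IsPGroup p E) (hEM : E ≤ M) :
    ∃ R, IsSylowOf p R M ∧ E ≤ R := by
  have h1 : IsPGroup p (E.subgroupOf M) := hE.of_equiv (Subgroup.subgroupOfEquivOfLe hEM).symm
  obtain ⟨Q, hQ⟩ := h1.exists_le_sylow
  refine ⟨(Q : Subgroup M).map M.subtype, ⟨Subgroup.map_subtype_le _, Q.isPGroup'.map _,
    sylow_relIndex_not_dvd Q⟩, ?_⟩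
  intro e he
  exact ⟨⟨e, hEM he⟩, hQ (Subgroup.mem_subgroupOf.2 he), rfl⟩

theorem card_eq_of_isSylowOf {R R' M : Subgroup G} (h : IsSylowOf p R M) (h' : IsSylowOf p R' M) :
    Nat.card R = Nat.card R' := by
  obtain ⟨g, _, e⟩ := h.exists_conj h'
  rw [e]
  exact (Subgroup.card_map_of_injective (MulAut.conj g).injective).symm

theorem lprime {f : Subgroup G → Set (Subgroup G)} (hf : IsNormalizerFunctor p f)
    (hf1 : ∀ P : Subgroup G, IsPGroup p ↥P → P ≠ ⊥ → ∀ F ∈ f P, F ≠ ⊥) (D : Subgroup G) (hD : D ≠ ⊥)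
    (H1 : ∀ (E : Subgroup G) (A B : Sylow p G), D < E → E ≤ A → E ≤ B → Conn (fam2 p f) D A B) :
    ∀ (k : ℕ) (M R₁ R₂ : Subgroup G), Nat.card G - Nat.card R₁ = k → IsMaximalPLocal p M →
      IsSylowOf p R₁ M → IsSylowOf p R₂ M → D ≤ R₁ → D ≤ R₂ → D < R₁ →
      ∀ A B : Sylow p G, R₁ ≤ A → R₂ ≤ B → Conn (fam2 p f) D A B := by
  classical
  intro k
  induction k using Nat.strong_induction_on with
  | _ k IH =>
  intro M R₁ R₂ hk hM hR₁ hR₂ hD₁ hD₂ hlt A B hA hB
  have hcardlt : Nat.card D < Nat.card R₁ := Cfsg.Agent.Lib.OddLocal.card_lt_of_lt hlt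
  have hcard₁₂ := card_eq_of_isSylowOf hR₁ hR₂
  have hlt₂ : D < R₂ := lt_of_le_of_ne hD₂ (fun e => by rw [← e] at hcard₁₂; omega)
  by_cases hreg : IsFunctorRegular p f M
  swap
  · -- singular
    have hMs : M ∈ fam2 p f := Or.inr ⟨hM, hreg⟩
    obtain ⟨y, hy, he⟩ := hR₂.exists_conj hR₁
    set x := y⁻¹ with hx
    have hxM : x ∈ M := M.inv_mem hy
    have hconj : subgroupConjRight x R₂ = R₁ := by
      rw [he, hx]
      unfold subgroupConjRight
      rw [inv_inv]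
    have hA₂ : R₁ ≤ (cS x B : Sylow p G) := by
      rw [coe_cS, ← hconj]
      exact subgroupConjRight_mono hB x
    refine (H1 R₁ A (cS x B) hlt hA hA₂).trans (Relation.ReflTransGen.single ?_)
    refine ⟨M, mem_members_of_sylowOf hMs hR₁ _ hA₂, mem_members_of_sylowOf hMs hR₂ _ hB, x, hxM, ?_, ?_⟩
    · rw [coe_cS]
    · exact le_inf (hD₂.trans hB) (hD₂.trans hR₂.le)
  -- regular
  by_cases hRR : R₁ = R₂
  · subst hRR
    exact H1 R₁ A B hlt hA hB
  obtain ⟨P₁, hP₁⟩ := exists_sylow_of_relIndex hR₁.le hR₁.isP hR₁.not_dvd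
  obtain ⟨P₂, hP₂⟩ := exists_sylow_of_relIndex hR₂.le hR₂.isP hR₂.not_dvd
  have hmap₁ : (P₁ : Subgroup M).map M.subtype = R₁ := by
    rw [hP₁]; exact Subgroup.map_subgroupOf_eq_of_le hR₁.le
  have hmap₂ : (P₂ : Subgroup M).map M.subtype = R₂ := by
    rw [hP₂]; exact Subgroup.map_subgroupOf_eq_of_le hR₂.le
  have hne : P₁ ≠ P₂ := by
    intro e
    apply hRR
    rw [← hmap₁, ← hmap₂, e]
  have hDmem : ∀ (d : G) (hd : d ∈ D), (⟨d, hR₁.le (hD₁ hd)⟩ : M) ∈ (P₁ : Subgroup M) ⊓ (P₂ : Subgroup M) := by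
    intro d hd
    rw [hP₁, hP₂]
    exact ⟨Subgroup.mem_subgroupOf.2 (hD₁ hd), Subgroup.mem_subgroupOf.2 (hD₂ hd)⟩
  have hbot : (P₁ : Subgroup M) ⊓ (P₂ : Subgroup M) ≠ ⊥ := by
    intro e
    apply hD
    rw [eq_bot_iff]
    intro d hd
    have := hDmem d hd
    rw [e, Subgroup.mem_bot] at this
    have h2 := congrArg Subtype.val this
    simpa using h2
  obtain ⟨n, c, X, x, h0, hn, hi⟩ := hreg P₁ P₂ hne hbot
  set ct : Fin (n + 1) → Subgroup G := fun i => (c i : Subgroup M).map M.subtype with hctdef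
  have hctS : ∀ i, IsSylowOf p (ct i) M := fun i =>
    ⟨Subgroup.map_subtype_le _, (c i).isPGroup'.map _, sylow_relIndex_not_dvd (c i)⟩
  have hct0 : ct 0 = R₁ := by rw [hctdef]; simp only; rw [h0, hmap₁]
  have hctn : ct (Fin.last n) = R₂ := by rw [hctdef]; simp only; rw [hn, hmap₂]
  have hDct : ∀ i, D ≤ ct i := by
    intro i
    induction i using Fin.cases with
    | zero => rw [hct0]; exact hD₁
    | succ j =>
      intro d hd
      have h1 := ((hi j).2.2.2.2 (hDmem d hd)).1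
      exact ⟨_, h1, rfl⟩
  have hcard : ∀ i, Nat.card (ct i) = Nat.card R₁ := fun i => card_eq_of_isSylowOf (hctS i) hR₁
  have hlti : ∀ i, D < ct i := fun i =>
    lt_of_le_of_ne (hDct i) (fun e => by
      have := hcard i
      rw [← e] at this
      omega)
  choose At hAt using fun i => (hctS i).isP.exists_le_sylow
  have hA0 : Conn (fam2 p f) D A (At 0) := H1 R₁ A (At 0) hlt hA (by rw [← hct0]; exact hAt 0)
  have hAn : Conn (fam2 p f) D (At (Fin.last n)) B :=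
    H1 R₂ _ B hlt₂ (by rw [← hctn]; exact hAt _) hB
  refine hA0.trans ((conn_of_fin At ?_).trans hAn)
  intro i
  obtain ⟨h1, h2, h3, h4, h5⟩ := hi i
  obtain ⟨P, F, hF, hXe, hPX⟩ := reg_data hf h1.1
  have hc1 : (c i.castSucc : Subgroup M) ≤ X i := le_of_mem_members h1 hPX
  have hc2 : (c i.succ : Subgroup M) ≤ X i := le_of_mem_members h2 hPX
  set Pt : Subgroup G := (P : Subgroup M).map M.subtype with hPt
  have hPtS : IsSylowOf p Pt M :=
    ⟨Subgroup.map_subtype_le _, P.isPGroup'.map _, sylow_relIndex_not_dvd P⟩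
  have hXN : ∀ y ∈ X i, (y : G) ∈ Subgroup.normalizer (F : Set G) := by
    intro y hy
    rw [hXe] at hy
    exact (Subgroup.mem_subgroupOf.1 hy).2
  have hctN₁ : ct i.castSucc ≤ Subgroup.normalizer (F : Set G) := by
    rintro _ ⟨y, hy, rfl⟩
    exact hXN y (hc1 hy)
  have hctN₂ : ct i.succ ≤ Subgroup.normalizer (F : Set G) := by
    rintro _ ⟨y, hy, rfl⟩
    exact hXN y (hc2 hy)
  have hPtN : Pt ≤ Subgroup.normalizer (F : Set G) := by
    rintro _ ⟨y, hy, rfl⟩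
    exact hXN y (hPX hy)
  have hFP : F ≤ Pt := ((hf Pt hPtS.isP).1 F hF).1
  have hPt1 : Pt ≠ ⊥ := by
    obtain ⟨Q, hQp, hQ1, hMe⟩ := hM.1
    have hQP : Q ≤ Pt := le_of_isSylowOf hPtS hQp (by rw [hMe]; exact Subgroup.le_normalizer)
      (by rw [← hMe]; exact hPtS.le)
    intro e
    apply hQ1
    rw [eq_bot_iff, ← e]
    exact hQP
  have hF1 : F ≠ ⊥ := hf1 Pt hPtS.isP hPt1 F hF
  have hFp : IsPGroup p F := hPtS.isP.to_le hFP
  have hFM : F ≤ M := hFP.trans hPtS.le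
  have hFc₁ : F ≤ ct i.castSucc := le_of_isSylowOf (hctS _) hFp hFM hctN₁
  have hFc₂ : F ≤ ct i.succ := le_of_isSylowOf (hctS _) hFp hFM hctN₂
  have hxN : ((x i : M) : G) ∈ Subgroup.normalizer (F : Set G) := hXN _ h3
  have hxM : ((x i : M) : G) ∈ M := (x i).2
  have hconj : subgroupConjRight ((x i : M) : G) (ct i.succ) = ct i.castSucc := by
    rw [hctdef]; simp only
    rw [← map_conjRight_subtype, h4]
  have hDN : D ≤ Subgroup.normalizer (F : Set G) := by
    intro d hd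
    exact hXN _ (h5 (hDmem d hd)).2
  by_cases hFD : F ≤ D
  swap
  · -- `F` not in `D`
    have hE : D < D ⊔ F := lt_of_le_of_ne le_sup_left (fun e => hFD (by rw [e]; exact le_sup_right))
    exact H1 (D ⊔ F) _ _ hE ((sup_le (hDct _) hFc₁).trans (hAt _)) ((sup_le (hDct _) hFc₂).trans (hAt _))
  -- `F ≤ D`
  have hFf : F ∈ f (ct i.succ) := by
    have hrel : ∀ R : Subgroup G, IsSylowOf p R M → R ≤ Subgroup.normalizer (F : Set G) →
        IsSylowOf p R (M ⊓ Subgroup.normalizer (F : Set G)) := by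
      intro R hR hRN
      refine ⟨le_inf hR.le hRN, hR.isP, fun hd => hR.not_dvd ?_⟩
      rw [← Subgroup.relIndex_mul_relIndex R (M ⊓ Subgroup.normalizer (F : Set G)) M (le_inf hR.le hRN) inf_le_left]
      exact hd.mul_right _
    obtain ⟨w, hw, he⟩ := (hrel Pt hPtS hPtN).exists_conj (hrel _ (hctS i.succ) hctN₂)
    rw [he, (hf Pt hPtS.isP).2 w]
    refine ⟨F, hF, ?_⟩
    exact (conj_map_eq_iff_mem_normalizer F w).2 hw.2
  have hNc : Subgroup.normalizer ((ct i.succ : Subgroup G) : Set G) ≤ Subgroup.normalizer (F : Set G) :=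
    ((hf _ (hctS i.succ).isP).1 F hFf).2
  by_cases hS : p ∣ (ct i.succ).index
  swap
  · -- Sylow in `G`
    have hA' : ((At i.succ : Sylow p G) : Subgroup G) = ct i.succ :=
      sylow_coe_eq (hctS _).isP hS _ (hAt _)
    have hFf' : F ∈ f ((At i.succ : Sylow p G) : Subgroup G) := by rw [hA']; exact hFf
    have hm : Subgroup.normalizer (F : Set G) ∈ fam2 p f := Or.inl ⟨_, F, hFf', rfl⟩
    have hcoe : ((cS ((x i : M) : G) (At i.succ) : Sylow p G) : Subgroup G) = ct i.castSucc := by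
      rw [coe_cS, hA', hconj]
    have hA'' : ((At i.castSucc : Sylow p G) : Subgroup G) = ct i.castSucc := by
      apply sylow_coe_eq (hctS _).isP _ _ (hAt _)
      rw [← hcoe]
      exact (cS _ _ : Sylow p G).not_dvd_index
    refine Relation.ReflTransGen.single ⟨Subgroup.normalizer (F : Set G),
      mem_members_of_le hm _ (by rw [hA'']; exact hctN₁), mem_members_of_le hm _ (by rw [hA']; exact hctN₂),
      _, hxN, ?_, ?_⟩
    · rw [hA', hA'', hconj]
    · rw [hA']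
      exact le_inf (hDct _) hDN
  -- not Sylow in `G`
  have hltA : ct i.succ < At i.succ := by
    refine lt_of_le_of_ne (hAt _) ?_
    intro e
    apply (At i.succ).not_dvd_index
    rw [← e]
    exact hS
  have hE : ct i.succ < ((At i.succ : Sylow p G) : Subgroup G) ⊓ Subgroup.normalizer ((ct i.succ : Subgroup G) : Set G) :=
    lt_inf_normalizer_of_lt (At i.succ).isPGroup' hltA
  set E : Subgroup G := ((At i.succ : Sylow p G) : Subgroup G) ⊓ Subgroup.normalizer ((ct i.succ : Subgroup G) : Set G) with hEdef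
  have hEp : IsPGroup p E := (At i.succ).isPGroup'.to_le inf_le_left
  obtain ⟨M', hM', hWM'⟩ := exists_maxLocal (p := p) (W := Subgroup.normalizer (F : Set G)) ⟨F, hFp, hF1, rfl⟩
  have hEM' : E ≤ M' := (inf_le_right.trans hNc).trans hWM'
  obtain ⟨R₂', hR₂', hER⟩ := exists_sylowOf_ge hEp hEM'
  have hxM' : ((x i : M) : G) ∈ M' := hWM' hxN
  have hR₁' : IsSylowOf p (subgroupConjRight ((x i : M) : G) R₂') M' := hR₂'.conj (M'.inv_mem hxM')
  have hcR : ct i.castSucc ≤ subgroupConjRight ((x i : M) : G) R₂' := by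
    rw [← hconj]
    exact subgroupConjRight_mono (hE.le.trans hER) _
  have hlt₁' : D < subgroupConjRight ((x i : M) : G) R₂' := lt_of_lt_of_le (hlti _) hcR
  have hcards : Nat.card R₁ < Nat.card ↥(subgroupConjRight ((x i : M) : G) R₂') := by
    rw [card_eq_of_isSylowOf hR₁' hR₂', ← hcard i.succ]
    exact lt_of_lt_of_le (Cfsg.Agent.Lib.OddLocal.card_lt_of_lt hE)
      (Subgroup.card_le_of_le hER)
  have hcardG : Nat.card ↥(subgroupConjRight ((x i : M) : G) R₂') ≤ Nat.card G := Subgroup.card_le_card_group _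
  obtain ⟨At₁, hAt₁⟩ := hR₁'.isP.exists_le_sylow
  obtain ⟨At₂, hAt₂⟩ := hR₂'.isP.exists_le_sylow
  have c1 := H1 (ct i.castSucc) (At i.castSucc) At₁ (hlti _) (hAt _) (hcR.trans hAt₁)
  have c2 := IH _ (by omega) M' _ R₂' rfl hM' hR₁' hR₂' hlt₁'.le
    ((hDct i.succ).trans (hE.le.trans hER)) hlt₁' At₁ At₂ hAt₁ hAt₂
  have c3 := H1 E At₂ (At i.succ) (lt_of_le_of_lt (hDct _) hE) (hER.trans hAt₂) inf_le_left
  exact c1.trans (c2.trans c3)

/-- The main connectivity. -/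
theorem conn_main {f : Subgroup G → Set (Subgroup G)} (hf : IsNormalizerFunctor p f)
    (hf1 : ∀ P : Subgroup G, IsPGroup p ↥P → P ≠ ⊥ → ∀ F ∈ f P, F ≠ ⊥) :
    ∀ (k : ℕ) (D : Subgroup G), Nat.card G - Nat.card D = k → D ≠ ⊥ → ∀ A B : Sylow p G,
      D ≤ A → D ≤ B → Conn (fam2 p f) D A B := by
  intro k
  induction k using Nat.strong_induction_on with
  | _ k IH =>
  intro D hk hD A B hA hB
  have H1 : ∀ (E : Subgroup G) (A B : Sylow p G), D < E → E ≤ A → E ≤ B → Conn (fam2 p f) D A B := by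
    intro E A B hE h1 h2
    refine Conn.mono hE.le (IH (Nat.card G - Nat.card E) ?_ E rfl ?_ A B h1 h2)
    · have h3 := Cfsg.Agent.Lib.OddLocal.card_lt_of_lt hE
      have h4 : Nat.card E ≤ Nat.card G := Subgroup.card_le_card_group _
      omega
    · intro e
      rw [e] at hE
      exact absurd hE (not_lt_bot)
  by_cases hAB : A = B
  · subst hAB; exact Relation.ReflTransGen.refl
  have hDA : D < A := by
    refine lt_of_le_of_ne hA (fun e => hAB ?_)
    apply Sylow.ext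
    exact (sylow_coe_eq A.isPGroup' A.not_dvd_index B (by rw [← e]; exact hB)).symm
  have hDB : D < B := by
    refine lt_of_le_of_ne hB (fun e => hAB ?_)
    apply Sylow.ext
    exact sylow_coe_eq B.isPGroup' B.not_dvd_index A (by rw [← e]; exact hA)
  have hEA := lt_inf_normalizer_of_lt A.isPGroup' hDA
  have hEB := lt_inf_normalizer_of_lt B.isPGroup' hDB
  obtain ⟨M, hM, hWM⟩ := exists_maxLocal (p := p) (W := Subgroup.normalizer (D : Set G))
    ⟨D, A.isPGroup'.to_le hA, hD, rfl⟩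
  obtain ⟨R₁, hR₁, hER₁⟩ := exists_sylowOf_ge (E := (A : Subgroup G) ⊓ Subgroup.normalizer (D : Set G)) (M := M)
    (A.isPGroup'.to_le inf_le_left) (inf_le_right.trans hWM)
  obtain ⟨R₂, hR₂, hER₂⟩ := exists_sylowOf_ge (E := (B : Subgroup G) ⊓ Subgroup.normalizer (D : Set G)) (M := M)
    (B.isPGroup'.to_le inf_le_left) (inf_le_right.trans hWM)
  obtain ⟨A₁, hA₁⟩ := hR₁.isP.exists_le_sylow
  obtain ⟨B₁, hB₁⟩ := hR₂.isP.exists_le_sylow
  have c1 := H1 _ A A₁ hEA inf_le_left (hER₁.trans hA₁)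
  have c2 := lprime hf hf1 D hD H1 _ M R₁ R₂ rfl hM hR₁ hR₂ (hEA.le.trans hER₁) (hEB.le.trans hER₂)
    (lt_of_lt_of_le hEA hER₁) A₁ B₁ hA₁ hB₁
  have c3 := H1 _ B₁ B hEB (hER₂.trans hB₁) inf_le_left
  exact c1.trans (c2.trans c3)

theorem fam_subset {f : Subgroup G → Set (Subgroup G)} : fam p f ⊆ functorFamily p f ⊤ := by
  rintro X ⟨P, F, hF, rfl⟩
  refine ⟨P.subtype le_top, F, ?_, ?_⟩
  · rw [Sylow.coe_subtype, Subgroup.subgroupOf_map_subtype, inf_of_le_left le_top]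
    exact hF
  · rw [top_inf_eq]

theorem controls_main {f : Subgroup G → Set (Subgroup G)} (hf : IsNormalizerFunctor p f)
    (hf1 : ∀ P : Subgroup G, IsPGroup p ↥P → P ≠ ⊥ → ∀ F ∈ f P, F ≠ ⊥) :
    ControlsSylowIntersections p (functorFamily p f ⊤ ∪
      {M | IsMaximalPLocal p M ∧ ¬ IsFunctorRegular p f M}) := by
  intro S T _ hST
  obtain ⟨n, c, X, x, h0, hn, hi⟩ := exists_chain_of_conn (conn_main hf hf1 _ _ rfl hST S T inf_le_left inf_le_right)
  have hsub : fam2 p f ⊆ functorFamily p f ⊤ ∪ {M | IsMaximalPLocal p M ∧ ¬ IsFunctorRegular p f M} :=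
    Set.union_subset_union_left _ fam_subset
  refine ⟨n, c, X, x, h0, hn, fun i => ?_⟩
  obtain ⟨h1, h2, h3, h4, h5⟩ := hi i
  exact ⟨⟨hsub h1.1, h1.2⟩, ⟨hsub h2.1, h2.2⟩, h3, h4, h5⟩

end Cfsg.Agent.Lib.LocalEven2.SC
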