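import Mathlib
import Cfsg.Agent.Lib.Transfer.Critical2
import Cfsg.Agent.Lib.PGroups.OmegaFour
import Cfsg.Agent.Lib.Basic.Hall

/-!
# Automorphisms of `p`-groups normalizing all subgroups of a fixed order

Let `α` be an automorphism of a finite `p`-group `R` all of whose order's prime divisors exceed `p`.
If `α` leaves invariant every subgroup of order `p ^ d` (and of order `4` if `p ^ d = 2`), where
`1 < p ^ d < #R`, then `α = 1`.
-/

set_option autoImplicit false

universe u

namespace Cfsg.Agent.Lib.LocalEven2.SCN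

open Subgroup

/-- All prime divisors of `n` exceed `p`. -/
def Big (p n : ℕ) : Prop := ∀ q : ℕ, q.Prime → q ∣ n → p < q

theorem Big.dvd {p a b : ℕ} (hb : Big p b) (h : a ∣ b) : Big p a := fun q hq hd => hb q hq (hd.trans h)

section Basic

variable {p : ℕ} [hp : Fact p.Prime]

theorem Big.coprime {n : ℕ} (h : Big p n) : Nat.Coprime n p := by
  rw [Nat.coprime_comm, Nat.Prime.coprime_iff_not_dvd hp.out]
  intro hd
  exact lt_irrefl p (h p hp.out hd)

variable {R : Type*} [Group R] [Finite R]

/-- Restriction of an automorphism to an invariant subgroup. -/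
noncomputable def restr (α : MulAut R) (C : Subgroup R) (hC : ∀ y ∈ C, α y ∈ C) : MulAut C :=
  MulEquiv.ofBijective ((α.toMonoidHom.comp C.subtype).codRestrict C (fun y => hC y y.2))
    (Finite.injective_iff_bijective.mp (fun a b h => Subtype.ext (α.injective (congrArg Subtype.val h))))

theorem restr_apply (α : MulAut R) (C : Subgroup R) (hC : ∀ y ∈ C, α y ∈ C) (y : C) :
    (restr α C hC y : R) = α y := rfl

theorem restr_pow (α : MulAut R) (C : Subgroup R) (hC : ∀ y ∈ C, α y ∈ C) (n : ℕ) (y : C) :
    ((restr α C hC ^ n) y : R) = (α ^ n) (y : R) := by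
  induction n generalizing y with
  | zero => rfl
  | succ n ih =>
    rw [pow_succ, pow_succ, MulAut.mul_apply, MulAut.mul_apply, ih, restr_apply]

/-- An automorphism of order prime to `p (p - 1)` fixes `x` if it leaves `⟨x⟩` invariant. -/
theorem fix_of_mem_zpowers (hR : IsPGroup p R) {α : MulAut R} {m : ℕ} (hm : α ^ m = 1) (hb : Big p m)
    {x : R} (h : α x ∈ zpowers x) : α x = x := by
  have hC : ∀ y ∈ zpowers x, α y ∈ zpowers x := by
    intro y hy
    obtain ⟨k, rfl⟩ := mem_zpowers_iff.mp hy
    rw [map_zpow]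
    exact zpow_mem h k
  set β := restr α (zpowers x) hC with hβ
  have h1 : β ^ m = 1 := by
    ext y
    rw [hβ, restr_pow, hm]
    rfl
  have h2 : orderOf β ∣ m := orderOf_dvd_of_pow_eq_one h1
  have h3 : orderOf β ∣ Nat.card (MulAut (zpowers x)) := orderOf_dvd_natCard β
  rw [IsCyclic.card_mulAut] at h3
  obtain ⟨k, hk⟩ := (hR.to_subgroup (zpowers x)).exists_card_eq
  have h4 : orderOf β = 1 := by
    by_contra hne
    obtain ⟨q, hq, hqd⟩ := Nat.exists_prime_and_dvd hne
    have h5 := hb q hq (hqd.trans h2)
    have h6 := hqd.trans h3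
    rw [hk] at h6
    rcases k with _ | k
    · simp at h6
      exact hq.one_lt.ne' h6
    · rw [Nat.totient_prime_pow_succ hp.out] at h6
      rcases (Nat.Prime.dvd_mul hq).mp h6 with h7 | h7
      · have := (Nat.prime_dvd_prime_iff_eq hq hp.out).mp (hq.dvd_of_dvd_pow h7)
        omega
      · have h8 := Nat.le_of_dvd (Nat.sub_pos_of_lt hp.out.one_lt) h7
        omega
  have h8 : β = 1 := orderOf_eq_one_iff.mp h4
  have := congrArg (fun f : MulAut (zpowers x) => ((f ⟨x, mem_zpowers x⟩ : zpowers x) : R)) h8
  exact this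

/-- Subgroups between two subgroups of a `p`-group, with prescribed order. -/
theorem exists_between (H K : Subgroup R) (hKH : K ≤ H) {i j t : ℕ} (hK : Nat.card K = p ^ i)
    (hH : Nat.card H = p ^ t) (hij : i ≤ j) (hjt : j ≤ t) :
    ∃ E : Subgroup R, K ≤ E ∧ E ≤ H ∧ Nat.card E = p ^ j := by
  have hK' : Nat.card (K.subgroupOf H) = p ^ i := by
    rw [← hK]
    exact Nat.card_congr (Subgroup.subgroupOfEquivOfLe hKH).toEquiv
  have hd : p ^ j ∣ Nat.card H := by
    rw [hH]
    exact pow_dvd_pow p hjt
  obtain ⟨E', hE', hle⟩ := Sylow.exists_subgroup_card_pow_prime_le p hd (K.subgroupOf H) hK' hij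
  refine ⟨E'.map H.subtype, ?_, Subgroup.map_subtype_le E', ?_⟩
  · intro x hx
    exact ⟨⟨x, hKH hx⟩, hle hx, rfl⟩
  · rw [Subgroup.card_map_of_injective H.subtype_injective]
    exact hE'

theorem normal_of_le_center {A : Subgroup R} (h : A ≤ center R) : A.Normal := by
  refine ⟨fun n hn g => ?_⟩
  have h1 := (mem_center_iff.mp (h hn)) g
  rw [h1, mul_inv_cancel_right]
  exact hn

end Basic

section Main

variable {p : ℕ} [hp : Fact p.Prime]

/-- `α` fixes `x` if `x⁻¹ α(x)` has order dividing `p` and is fixed. -/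
theorem fix_of_comm_fixed {R : Type*} [Group R] {α : MulAut R} {m : ℕ} (hm : α ^ m = 1) (hb : Big p m)
    {x c : R} (hc : α x = x * c) (hαc : α c = c) (hcp : c ^ p = 1) : α x = x := by
  have h1 : ∀ j : ℕ, (α ^ j) x = x * c ^ j := by
    intro j
    induction j with
    | zero => simp
    | succ j ih =>
      rw [pow_succ, MulAut.mul_apply, hc, map_mul, ih]
      have h2 : (α ^ j) c = c := by
        clear ih
        induction j with
        | zero => simp
        | succ j ih2 => rw [pow_succ, MulAut.mul_apply, hαc, ih2]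
      rw [h2, pow_succ, mul_assoc]
  have h2 := h1 m
  rw [hm, MulAut.one_apply] at h2
  have h3 : c ^ m = 1 := by
    have : x * c ^ m = x * 1 := by rw [← h2, mul_one]
    exact mul_left_cancel this
  have h4 : c = 1 := by
    have h5 := (pow_gcd_eq_one).mpr ⟨h3, hcp⟩
    rwa [Nat.Coprime.gcd_eq_one (Big.coprime hb), pow_one] at h5
  rw [hc, h4, mul_one]

theorem propA : ∀ (c : ℕ) (R : Type u) [Group R] [Finite R] (α : MulAut R) (m d : ℕ),
    Nat.card R = c → IsPGroup p R → α ^ m = 1 → Big p m → 1 ≤ d → p ^ d < Nat.card R →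
    (∀ E : Subgroup R, Nat.card E = p ^ d → ∀ x ∈ E, α x ∈ E) →
    (p ^ d = 2 → ∀ E : Subgroup R, Nat.card E = 4 → ∀ x ∈ E, α x ∈ E) → α = 1 := by
  intro c
  induction c using Nat.strong_induction_on with
  | _ c ih =>
  intro R _ _ α m d hc hR hm hb hd hlt hE hE4
  have hpp : p.Prime := hp.out
  have hob : Big p (orderOf α) := hb.dvd (orderOf_dvd_of_pow_eq_one hm)
  have hcop : Nat.Coprime (orderOf α) p := Big.coprime hob
  have hcard : ∃ t, Nat.card R = p ^ t := hR.exists_card_eq
  obtain ⟨t, ht⟩ := hcard
  have hdt : d < t := by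
    rw [ht] at hlt
    exact (Nat.pow_lt_pow_iff_right hpp.one_lt).mp hlt
  -- the cyclic subgroups of order `p ^ d` (or 4)
  by_cases hd1 : d = 1
  · subst hd1
    rw [pow_one] at hE hE4
    by_cases hp2 : p = 2
    · subst hp2
      refine Cfsg.Agent.Lib.PGroups.eq_one_of_fix_omega_four hR α hcop ?_
      intro x hx
      have h1 : orderOf x ∣ 2 ^ 2 := orderOf_dvd_of_pow_eq_one hx
      obtain ⟨j, hj, hoj⟩ := (Nat.dvd_prime_pow Nat.prime_two).mp h1
      interval_cases j
      · have : x = 1 := orderOf_eq_one_iff.mp (by simpa using hoj)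
        rw [this, map_one]
      · refine fix_of_mem_zpowers hR hm hb (hE (zpowers x) ?_ x (mem_zpowers x))
        rw [Nat.card_zpowers, hoj, pow_one]
      · refine fix_of_mem_zpowers hR hm hb (hE4 rfl (zpowers x) ?_ x (mem_zpowers x))
        rw [Nat.card_zpowers, hoj]
        norm_num
    · refine Cfsg.Agent.Lib.Transfer.eq_one_of_fix_omega hp2 hR α hcop ?_
      intro x hx
      by_cases hx1 : x = 1
      · rw [hx1, map_one]
      · refine fix_of_mem_zpowers hR hm hb (hE (zpowers x) ?_ x (mem_zpowers x))
        rw [Nat.card_zpowers]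
        exact orderOf_eq_prime hx hx1
  have hd2 : 2 ≤ d := by omega
  -- nontriviality and the minimal invariant central elementary subgroup
  haveI hnt : Nontrivial R := by
    rw [← Finite.one_lt_card_iff_nontrivial, ht]
    exact Nat.one_lt_pow (by omega) hpp.one_lt
  let Good : Subgroup R → Prop := fun N =>
    N ≠ ⊥ ∧ N ≤ center R ∧ (∀ x ∈ N, x ^ p = 1) ∧ (∀ x ∈ N, α x ∈ N)
  have hexG : ∃ N, Good N := by
    let Ω : Subgroup R :=
      { carrier := {x | x ∈ center R ∧ x ^ p = 1}
        mul_mem' := fun {a b} ha hb => by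
          refine ⟨mul_mem ha.1 hb.1, ?_⟩
          have hcomm : Commute a b := (mem_center_iff.mp ha.1 b).symm
          rw [hcomm.mul_pow, ha.2, hb.2, one_mul]
        one_mem' := ⟨one_mem _, one_pow _⟩
        inv_mem' := fun {a} ha => ⟨inv_mem ha.1, by rw [inv_pow, ha.2, inv_one]⟩ }
    refine ⟨Ω, ?_, fun x hx => hx.1, fun x hx => hx.2, ?_⟩
    · haveI : Nontrivial (center R) := hR.center_nontrivial
      have hcen : IsPGroup p (center R) := hR.to_subgroup _
      obtain ⟨k, hk⟩ := hcen.exists_card_eq
      have hk0 : k ≠ 0 := by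
        rintro rfl
        have := Finite.one_lt_card_iff_nontrivial.mpr (inferInstance : Nontrivial (center R))
        rw [hk] at this
        simp at this
      have hdvd : p ∣ Nat.card (center R) := by
        rw [hk]
        exact dvd_pow_self p hk0
      obtain ⟨z, hz⟩ := exists_prime_orderOf_dvd_card' p hdvd
      intro hbot
      have hz1 : (z : R) ∈ Ω := by
        refine ⟨z.2, ?_⟩
        have := pow_orderOf_eq_one z
        rw [hz] at this
        exact congrArg Subtype.val this
      rw [hbot, Subgroup.mem_bot] at hz1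
      have hz2 : z = 1 := Subtype.ext hz1
      rw [hz2, orderOf_one] at hz
      exact hpp.one_lt.ne hz
    · intro x hx
      refine ⟨?_, by rw [← map_pow, hx.2, map_one]⟩
      rw [mem_center_iff]
      intro g
      have h1 := (mem_center_iff.mp hx.1) (α.symm g)
      have h2 := congrArg α h1
      simpa using h2
  obtain ⟨N, hNmin⟩ := (Set.toFinite {N | Good N}).exists_minimal hexG
  have hNG : Good N := hNmin.1
  obtain ⟨hN1, hNc, hNe, hNi⟩ := hNG
  have hNm : ∀ A : Subgroup R, A ≤ N → A ≠ ⊥ → (∀ x ∈ A, α x ∈ A) → A = N := by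
    intro A hAN hA1 hAi
    have hGA : Good A := ⟨hA1, hAN.trans hNc, fun x hx => hNe x (hAN hx), hAi⟩
    exact le_antisymm hAN (hNmin.2 hGA hAN)
  haveI hNn : N.Normal := normal_of_le_center hNc
  obtain ⟨k, hk⟩ := (hR.to_subgroup N).exists_card_eq
  have hk1 : 1 ≤ k := by
    by_contra hk0
    have : k = 0 := by omega
    subst this
    rw [pow_zero] at hk
    exact hN1 (Subgroup.card_eq_one.mp hk)
  have hcardbot : Nat.card (⊥ : Subgroup R) = p ^ 0 := by simp
  -- the key contradiction
  have key : ∀ (A F : Subgroup R), A ≤ N → A ≠ ⊥ → A ≠ N → (hAn : A.Normal) →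
      Nat.card ((F.map (QuotientGroup.mk' A)).comap (QuotientGroup.mk' A)) = p ^ d →
      (∀ f ∈ F, f ∈ N → f ∈ A) → False := by
    intro A F hAN hA1 hAN' hAn hcE hFN
    apply hAN'
    refine hNm A hAN hA1 ?_
    intro a ha
    have h1 : a ∈ (F.map (QuotientGroup.mk' A)).comap (QuotientGroup.mk' A) := by
      rw [Subgroup.mem_comap]
      have : QuotientGroup.mk' A a = 1 := (QuotientGroup.eq_one_iff a).mpr ha
      rw [this]
      exact one_mem _
    have h2 := hE _ hcE a h1
    rw [Subgroup.mem_comap] at h2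
    obtain ⟨f, hf, hfe⟩ := h2
    have h3 : (f : R)⁻¹ * α a ∈ A := by
      have : QuotientGroup.mk' A f = QuotientGroup.mk' A (α a) := hfe
      exact QuotientGroup.eq.mp this
    have h4 : f ∈ N := by
      have h5 : f = α a * ((f : R)⁻¹ * α a)⁻¹ := by group
      rw [h5]
      exact mul_mem (hNi a (hAN ha)) (inv_mem (hAN h3))
    have h6 := hFN f hf h4
    have h7 : α a = f * ((f : R)⁻¹ * α a) := by group
    rw [h7]
    exact mul_mem h6 h3
  -- hyperplanes in `N` containing a given element
  have hyper : ∀ z ∈ N, 2 ≤ k → ∃ A : Subgroup R, A ≤ N ∧ z ∈ A ∧ Nat.card A = p ^ (k - 1) := by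
    intro z hz hk2
    have hzo : orderOf z ∣ p ^ 1 := by
      rw [pow_one]
      exact orderOf_dvd_of_pow_eq_one (hNe z hz)
    obtain ⟨j, hj, hoj⟩ := (Nat.dvd_prime_pow hpp).mp hzo
    have hcz : Nat.card (zpowers z) = p ^ j := by rw [Nat.card_zpowers, hoj]
    obtain ⟨A, h1, h2, h3⟩ := exists_between (p := p) N (zpowers z)
      (by rwa [zpowers_le]) hcz hk (i := j) (j := k - 1) (t := k) (by omega) (by omega)
    exact ⟨A, h2, h1 (mem_zpowers z), h3⟩
  have hAne : ∀ A : Subgroup R, Nat.card A = p ^ (k - 1) → 2 ≤ k → A ≠ ⊥ ∧ A ≠ N := by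
    intro A hA hk2
    constructor
    · rintro rfl
      rw [Subgroup.card_bot] at hA
      have := Nat.one_lt_pow (n := k - 1) (by omega) hpp.one_lt
      omega
    · rintro rfl
      rw [hk] at hA
      have := Nat.pow_right_injective hpp.two_le hA
      omega
  have hAn : ∀ A : Subgroup R, A ≤ N → A.Normal := fun A hA => normal_of_le_center (hA.trans hNc)
  -- elements outside `N`: the order of the image modulo `A`
  have hcardE : ∀ (A : Subgroup R) (hAn' : A.Normal) (w : R) (s : ℕ), orderOf (QuotientGroup.mk' A w) = s →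
      Nat.card (((zpowers w).map (QuotientGroup.mk' A)).comap (QuotientGroup.mk' A)) = Nat.card A * s := by
    intro A hAn' w s hs
    rw [Cfsg.Agent.Lib.Basic.card_comap_mk, MonoidHom.map_zpowers, Nat.card_zpowers, hs]
  rcases lt_trichotomy k d with hkd | hkd | hkd
  · -- `N` small: pass to the quotient
    have hcq : Nat.card (R ⧸ N) = p ^ (t - k) := by
      have h1 := Subgroup.card_eq_card_quotient_mul_card_subgroup N
      rw [ht, hk] at h1
      have h4 : p ^ t = p ^ (t - k) * p ^ k := by rw [← pow_add]; congr 1; omega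
      rw [h4] at h1
      exact (Nat.eq_of_mul_eq_mul_right (pow_pos hpp.pos k) h1).symm
    have hNfix1 : k = 1 → ∀ n ∈ N, α n = n := by
      intro hk1 n hn
      by_cases hn1 : n = 1
      · rw [hn1, map_one]
      · apply fix_of_mem_zpowers hR hm hb
        have h1 : zpowers n = N := by
          apply Subgroup.eq_of_le_of_card_ge ((zpowers_le).mpr hn)
          rw [hk, hk1, pow_one, Nat.card_zpowers, orderOf_eq_prime (hNe n hn) hn1]
        rw [h1]
        exact hNi n hn
    by_cases hsp : p ^ (d - k) = 2 ∧ k = 1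
    · -- the direct case
      obtain ⟨hs2, hk1⟩ := hsp
      have hp2 : p = 2 := by
        have h1 : p ∣ 2 := by
          rw [← hs2]
          exact dvd_pow_self p (by omega)
        exact (Nat.prime_dvd_prime_iff_eq hpp Nat.prime_two).mp h1
      subst hp2
      have hdd : d = 2 := by
        have h1 : d - k = 1 := Nat.pow_right_injective (le_refl 2) (by simpa using hs2)
        omega
      subst hdd
      subst hk1
      refine Cfsg.Agent.Lib.PGroups.eq_one_of_fix_omega_four hR α hcop ?_
      intro x hx
      have h1 : orderOf x ∣ 2 ^ 2 := orderOf_dvd_of_pow_eq_one hx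
      obtain ⟨j, hj, hoj⟩ := (Nat.dvd_prime_pow Nat.prime_two).mp h1
      interval_cases j
      · have : x = 1 := orderOf_eq_one_iff.mp (by simpa using hoj)
        rw [this, map_one]
      · by_cases hxN : x ∈ N
        · exact hNfix1 rfl x hxN
        · have hx2 : x ^ 2 = 1 := by
            have := pow_orderOf_eq_one x
            rwa [hoj, pow_one] at this
          have hord : orderOf (QuotientGroup.mk' N x) = 2 := by
            apply orderOf_eq_prime
            · rw [← map_pow, hx2, map_one]
            · intro h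
              exact hxN ((QuotientGroup.eq_one_iff x).mp h)
          have hEc : Nat.card (((zpowers x).map (QuotientGroup.mk' N)).comap (QuotientGroup.mk' N)) = 2 ^ 2 := by
            rw [hcardE N hNn x 2 hord, hk]
            norm_num
          have hmem := hE _ hEc x (by
            rw [Subgroup.mem_comap]
            exact ⟨x, mem_zpowers x, rfl⟩)
          rw [Subgroup.mem_comap] at hmem
          obtain ⟨f, hf, hfe⟩ := hmem
          obtain ⟨l, rfl⟩ := mem_zpowers_iff.mp hf
          have hfe2 : ((x ^ l : R) : R ⧸ N) = ((α x : R) : R ⧸ N) := hfe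
          have hc1 : (x ^ l)⁻¹ * α x ∈ N := QuotientGroup.eq.mp hfe2
          rcases Int.even_or_odd' l with ⟨r, rfl | rfl⟩
          · -- even power
            have h2 : x ^ (2 * r) = 1 := by
              rw [zpow_mul, zpow_ofNat, hx2, one_zpow]
            rw [h2, inv_one, one_mul] at hc1
            have h3 := hNfix1 rfl _ hc1
            exact α.injective h3
          · -- odd power
            have h2 : x ^ (2 * r + 1) = x := by
              rw [zpow_add, zpow_mul, zpow_ofNat, hx2, one_zpow, one_mul, zpow_one]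
            rw [h2] at hc1
            exact fix_of_comm_fixed (p := 2) hm hb (by group) (hNfix1 rfl _ hc1) (hNe _ hc1)
      · refine fix_of_mem_zpowers hR hm hb (hE (zpowers x) ?_ x (mem_zpowers x))
        rw [Nat.card_zpowers, hoj]
    -- the automorphism of the quotient
    have hmap : N.map α.toMonoidHom = N := by
      apply Subgroup.eq_of_le_of_card_ge
      · rintro _ ⟨x, hx, rfl⟩
        exact hNi x hx
      · rw [Subgroup.card_map_of_injective α.injective]
    let αb : MulAut (R ⧸ N) := QuotientGroup.congr N N α hmap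
    have hαb : ∀ x : R, αb (x : R ⧸ N) = ((α x : R) : R ⧸ N) := fun x => rfl
    have hαbpow : ∀ j : ℕ, ∀ x : R, (αb ^ j) (x : R ⧸ N) = (((α ^ j) x : R) : R ⧸ N) := by
      intro j
      induction j with
      | zero => intro x; rfl
      | succ j ih2 =>
        intro x
        rw [pow_succ, pow_succ, MulAut.mul_apply, MulAut.mul_apply, hαb, ih2]
    have hαbm : αb ^ m = 1 := by
      ext y
      obtain ⟨x, rfl⟩ := QuotientGroup.mk_surjective y
      rw [hαbpow, hm]
      rfl
    have hEb : ∀ Eb : Subgroup (R ⧸ N), Nat.card Eb = p ^ (d - k) → ∀ y ∈ Eb, αb y ∈ Eb := by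
      intro Eb hEbc y hy
      obtain ⟨x, rfl⟩ := QuotientGroup.mk_surjective y
      have h1 : Nat.card (Eb.comap (QuotientGroup.mk' N)) = p ^ d := by
        rw [Cfsg.Agent.Lib.Basic.card_comap_mk, hk, hEbc, ← pow_add]
        congr 1
        omega
      have h2 := hE _ h1 x hy
      exact h2
    have hEb4 : p ^ (d - k) = 2 → ∀ Eb : Subgroup (R ⧸ N), Nat.card Eb = 4 → ∀ y ∈ Eb, αb y ∈ Eb := by
      intro hs2 Eb hEbc y hy
      have hk2 : 2 ≤ k := by
        have : k ≠ 1 := fun h => hsp ⟨hs2, h⟩
        omega
      have hp2 : p = 2 := by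
        have h1 : p ∣ 2 := by
          rw [← hs2]
          exact dvd_pow_self p (by omega)
        exact (Nat.prime_dvd_prime_iff_eq hpp Nat.prime_two).mp h1
      by_cases hall : ∀ v ∈ Eb, v ^ 2 = 1
      · by_cases hy1 : y = 1
        · rw [hy1, map_one]
          exact one_mem _
        · have h1 : Nat.card (zpowers y) = p ^ (d - k) := by
            rw [hs2, Nat.card_zpowers]
            exact orderOf_eq_prime (hall y hy) hy1
          have h2 := hEb _ h1 y (mem_zpowers y)
          exact (zpowers_le.mpr hy) h2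
      · exfalso
        subst hp2
        push Not at hall
        obtain ⟨v', hv', hv2⟩ := hall
        obtain ⟨v, rfl⟩ := QuotientGroup.mk_surjective v'
        have hv4 : ((v : R ⧸ N)) ^ 4 = 1 := by
          have h1 : orderOf (⟨(v : R ⧸ N), hv'⟩ : Eb) ∣ Nat.card Eb := orderOf_dvd_natCard _
          rw [hEbc] at h1
          have h2 := orderOf_dvd_iff_pow_eq_one.mp h1
          exact congrArg Subtype.val h2
        have hvN4 : v ^ 4 ∈ N := by
          have h1 : ((v ^ 4 : R) : R ⧸ N) = 1 := by rw [QuotientGroup.mk_pow, hv4]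
          exact (QuotientGroup.eq_one_iff _).mp h1
        have hvN2 : v ^ 2 ∉ N := by
          intro h
          apply hv2
          have h1 : ((v ^ 2 : R) : R ⧸ N) = 1 := (QuotientGroup.eq_one_iff _).mpr h
          rwa [QuotientGroup.mk_pow] at h1
        obtain ⟨A, hAN, hzA, hAc⟩ := hyper _ hvN4 hk2
        obtain ⟨hA1, hAN'⟩ := hAne A hAc hk2
        haveI hAnn := hAn A hAN
        have hord : orderOf (QuotientGroup.mk' A v) = 2 ^ (1 + 1) := by
          apply orderOf_eq_prime_pow
          · intro h
            apply hvN2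
            have h3 : QuotientGroup.mk' A (v ^ 2) = 1 := by
              rw [map_pow]
              simpa using h
            exact hAN ((QuotientGroup.eq_one_iff _).mp h3)
          · rw [← map_pow]
            exact (QuotientGroup.eq_one_iff _).mpr hzA
        refine key A (zpowers v) hAN hA1 hAN' hAnn ?_ ?_
        · rw [hcardE A hAnn v _ hord, hAc, ← pow_add]
          have h1 : d - k = 1 := Nat.pow_right_injective (le_refl 2) (by simpa using hs2)
          congr 1
          omega
        · intro f hf hfN
          obtain ⟨j, rfl⟩ := mem_zpowers_iff.mp hf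
          have h1 : ((v : R ⧸ N)) ^ j = 1 := by
            have : ((v ^ j : R) : R ⧸ N) = 1 := (QuotientGroup.eq_one_iff _).mpr hfN
            rwa [QuotientGroup.mk_zpow] at this
          have hordb : orderOf ((v : R ⧸ N)) = 2 ^ (1 + 1) := by
            apply orderOf_eq_prime_pow
            · simpa using hv2
            · simpa using hv4
          have h2 : ((2 ^ (1 + 1) : ℕ) : ℤ) ∣ j := by
            rw [← hordb]
            exact orderOf_dvd_iff_zpow_eq_one.mpr h1
          obtain ⟨l, rfl⟩ := h2
          rw [zpow_mul, zpow_natCast]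
          exact zpow_mem (by simpa using hzA) l
    have hNcard1 : 1 < Nat.card N := by
      rw [hk]
      exact Nat.one_lt_pow (by omega) hpp.one_lt
    have hres : αb = 1 := by
      refine ih (Nat.card (R ⧸ N)) ?_ (R ⧸ N) αb m (d - k) rfl (hR.to_quotient N) hαbm hb (by omega) ?_ hEb hEb4
      · rw [← hc, ht, hcq]
        exact Nat.pow_lt_pow_right hpp.one_lt (by omega)
      · rw [hcq]
        exact Nat.pow_lt_pow_right hpp.one_lt (by omega)
    have hcomm : ∀ x : R, x⁻¹ * α x ∈ N := by
      intro x
      have h1 : αb (x : R ⧸ N) = (x : R ⧸ N) := by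
        rw [hres]
        rfl
      rw [hαb] at h1
      exact QuotientGroup.eq.mp h1.symm
    by_cases hk1 : k = 1
    · ext x
      have h1 := hcomm x
      exact fix_of_comm_fixed hm hb (by group) (hNfix1 hk1 _ h1) (hNe _ h1)
    -- `k ≥ 2`
    exfalso
    have hk2 : 2 ≤ k := by omega
    have hfpf : ∀ n ∈ N, α n = n → n = 1 := by
      intro n hn hαn
      by_contra hne
      have h1 : zpowers n = N := by
        apply hNm _ ((zpowers_le).mpr hn)
        · intro h
          rw [zpowers_eq_bot] at h
          exact hne h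
        · intro y hy
          obtain ⟨l, rfl⟩ := mem_zpowers_iff.mp hy
          rw [map_zpow, hαn]
          exact hy
      have h2 := Nat.card_zpowers n
      rw [h1, hk, orderOf_eq_prime (hNe n hn) hne] at h2
      have h3 : k = 1 := Nat.pow_right_injective hpp.two_le (by simpa using h2)
      exact hk1 h3
    -- the fixed points
    let Fx : Subgroup R :=
      { carrier := {x | α x = x}
        mul_mem' := fun {a b} ha hb' => by
          show α (a * b) = a * b
          rw [map_mul, ha, hb']
        one_mem' := map_one α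
        inv_mem' := fun {a} ha => by
          show α a⁻¹ = a⁻¹
          rw [map_inv, ha] }
    have hcentral : ∀ n ∈ N, ∀ g : R, n * g = g * n := fun n hn g => ((mem_center_iff.mp (hNc hn)) g).symm
    have hsurj : ∀ x : R, ∃ n ∈ N, α (x * n) = x * n := by
      intro x
      let δ : N → N := fun n => ⟨(n : R)⁻¹ * α n, mul_mem (inv_mem n.2) (hNi _ n.2)⟩
      have hδ : Function.Injective δ := by
        intro a b hab
        have h1 : (a : R)⁻¹ * α a = (b : R)⁻¹ * α b := congrArg Subtype.val hab
        have h2 : (a : R) * (b : R)⁻¹ = 1 := by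
          apply hfpf _ (mul_mem a.2 (inv_mem b.2))
          rw [map_mul, map_inv]
          have h3 : α a = a * ((b : R)⁻¹ * α b) := by rw [← h1]; group
          rw [h3]
          group
        exact Subtype.ext (by rwa [mul_inv_eq_one] at h2)
      have hδs := Finite.surjective_of_injective hδ
      obtain ⟨n, hn⟩ := hδs ⟨(x⁻¹ * α x)⁻¹, inv_mem (hcomm x)⟩
      refine ⟨n, n.2, ?_⟩
      have h1 : (n : R)⁻¹ * α n = (x⁻¹ * α x)⁻¹ := congrArg Subtype.val hn
      have h2 : α n = n * (x⁻¹ * α x)⁻¹ := by rw [← h1]; group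
      rw [map_mul, h2]
      have h3 := hcentral _ (hcomm x) (x⁻¹ * α x)⁻¹
      have h4 : α x = x * (x⁻¹ * α x) := by group
      calc α x * (n * (x⁻¹ * α x)⁻¹) = x * ((x⁻¹ * α x) * n) * (x⁻¹ * α x)⁻¹ := by
            rw [h4]
            group
        _ = x * (n * (x⁻¹ * α x)) * (x⁻¹ * α x)⁻¹ := by rw [hcentral _ (hcomm x) n]
        _ = x * n := by group
    have hFxc : Nat.card Fx = p ^ (t - k) := by
      rw [← hcq]
      refine Nat.card_congr (Equiv.ofBijective (fun y : Fx => ((y : R) : R ⧸ N)) ⟨?_, ?_⟩)
      · intro a b hab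
        have h1 : (a : R)⁻¹ * b ∈ N := QuotientGroup.eq.mp hab
        have h2 : (a : R)⁻¹ * b = 1 := by
          apply hfpf _ h1
          rw [map_mul, map_inv, show α a = a from a.2, show α b = b from b.2]
        exact Subtype.ext (by rwa [inv_mul_eq_one] at h2)
      · intro y
        obtain ⟨x, rfl⟩ := QuotientGroup.mk_surjective y
        obtain ⟨n, hn, hfix⟩ := hsurj x
        refine ⟨⟨x * n, hfix⟩, ?_⟩
        show ((x * n : R) : R ⧸ N) = x
        rw [QuotientGroup.eq]
        have : (x * n)⁻¹ * x = n⁻¹ := by group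
        rw [this]
        exact inv_mem hn
    obtain ⟨F, -, hFFx, hFc⟩ := exists_between (p := p) Fx ⊥ bot_le hcardbot hFxc (i := 0) (j := d - k + 1) (t := t - k)
      (by omega) (by omega)
    obtain ⟨A, hAN, -, hAc⟩ := hyper 1 (one_mem _) hk2
    obtain ⟨hA1, hAN'⟩ := hAne A hAc hk2
    haveI hAnn := hAn A hAN
    have hFN1 : ∀ f ∈ F, f ∈ N → f = 1 := fun f hf hfN => hfpf f hfN (hFFx hf)
    refine key A F hAN hA1 hAN' hAnn ?_ ?_
    · rw [Cfsg.Agent.Lib.Basic.card_comap_mk, hAc]
      have hinj : Function.Injective ((QuotientGroup.mk' A).comp F.subtype) := by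
        rw [injective_iff_map_eq_one]
        intro a ha
        have h1 : (a : R) ∈ A := (QuotientGroup.eq_one_iff _).mp ha
        exact Subtype.ext (hFN1 a a.2 (hAN h1))
      have h2 : F.map (QuotientGroup.mk' A) = ((QuotientGroup.mk' A).comp F.subtype).range := by
        rw [MonoidHom.range_comp, Subgroup.range_subtype]
      rw [h2, ← Nat.card_congr (MonoidHom.ofInjective hinj).toEquiv, hFc, ← pow_add]
      congr 1
      omega
    · intro f hf hfN
      rw [hFN1 f hf hfN]
      exact one_mem _
  · -- `N` has order `p ^ d`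
    subst hkd
    have hk2 : 2 ≤ k := hd2
    -- an element outside `N` with `p`-th power in `N`
    have hq1 : IsPGroup p (R ⧸ N) := hR.to_quotient N
    have hntq : p ∣ Nat.card (R ⧸ N) := by
      have h1 := Subgroup.card_eq_card_quotient_mul_card_subgroup N
      rw [ht, hk] at h1
      have h2 : p ^ k ∣ p ^ t := pow_dvd_pow p hdt.le
      have h3 : Nat.card (R ⧸ N) = p ^ (t - k) := by
        have h4 : p ^ t = p ^ (t - k) * p ^ k := by rw [← pow_add]; congr 1; omega
        rw [h4] at h1
        exact (Nat.eq_of_mul_eq_mul_right (pow_pos hpp.pos k) h1).symm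
      rw [h3]
      exact dvd_pow_self p (by omega)
    obtain ⟨w', hw'⟩ := exists_prime_orderOf_dvd_card' p hntq
    obtain ⟨w, rfl⟩ := QuotientGroup.mk_surjective w'
    have hw1 : ((w : R ⧸ N)) ≠ 1 := by
      intro h
      rw [h, orderOf_one] at hw'
      exact hpp.one_lt.ne hw'
    have hwN : w ∉ N := fun h => hw1 ((QuotientGroup.eq_one_iff w).mpr h)
    have hwp : w ^ p ∈ N := by
      have h1 : ((w ^ p : R) : R ⧸ N) = 1 := by
        rw [QuotientGroup.mk_pow, ← hw', pow_orderOf_eq_one]
      exact (QuotientGroup.eq_one_iff _).mp h1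
    obtain ⟨A, hAN, hzA, hAc⟩ := hyper _ hwp hk2
    obtain ⟨hA1, hAN'⟩ := hAne A hAc hk2
    haveI hAnn := hAn A hAN
    have hord : orderOf (QuotientGroup.mk' A w) = p := by
      apply orderOf_eq_prime
      · rw [← map_pow]
        exact (QuotientGroup.eq_one_iff _).mpr hzA
      · intro h
        exact hwN (hAN ((QuotientGroup.eq_one_iff w).mp h))
    exfalso
    refine key A (zpowers w) hAN hA1 hAN' hAnn ?_ ?_
    · rw [hcardE A hAnn w p hord, hAc, ← pow_succ]
      congr 1
      omega
    · intro f hf hfN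
      obtain ⟨j, rfl⟩ := mem_zpowers_iff.mp hf
      have h1 : ((w : R ⧸ N)) ^ j = 1 := by
        have : ((w ^ j : R) : R ⧸ N) = 1 := (QuotientGroup.eq_one_iff _).mpr hfN
        rwa [QuotientGroup.mk_zpow] at this
      have h2 : (p : ℤ) ∣ j := by
        rw [← hw']
        exact orderOf_dvd_iff_zpow_eq_one.mpr h1
      obtain ⟨l, rfl⟩ := h2
      rw [zpow_mul, zpow_natCast]
      exact zpow_mem hzA l
  · -- `N` too large
    obtain ⟨E, -, hEN, hEc⟩ := exists_between (p := p) N ⊥ bot_le hcardbot hk (i := 0) (j := d) (t := k)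
      (by omega) (by omega)
    have hE1 : E ≠ ⊥ := by
      rintro rfl
      rw [Subgroup.card_bot] at hEc
      have := Nat.one_lt_pow (n := d) (by omega) hpp.one_lt
      omega
    have := hNm E hEN hE1 (hE E hEc)
    rw [this, hk] at hEc
    have h2 := Nat.pow_right_injective hpp.two_le hEc
    omega

end Main

end Cfsg.Agent.Lib.LocalEven2.SCN
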