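import Mathlib
import Cfsg.Agent.Lib.LocalEven2.SCN
import Cfsg.Agent.Lib.LocalEven2.Sylow
import Cfsg.Agent.Lib.TwoFusion.FusionInv
import Cfsg.Agent.Lib.TwoFusion.FusionInv2
import Cfsg.Agent.Lib.Transfer.Tate
import Cfsg.Agent.Lib.Basic.Frattini
import Cfsg.Agent.Lib.Transfer.Basic
import Cfsg.Agent.Lib.LocalEven.Basic

/-!
# Strongly closed subgroups of a fixed order and normal `p`-complements
-/

set_option autoImplicit false
set_option linter.unusedSectionVars false

universe u

namespace Cfsg.Agent.Lib.LocalEven2.SCN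

open Subgroup Cfsg Cfsg.FusionSystem
open scoped commutatorElement

section Basic

variable {G : Type*} [Group G] [Finite G] {p : ℕ} [hp : Fact p.Prime]

theorem normalizes_of_sc {P E : Subgroup G} (hP : IsPGroup p P) (hEP : E ≤ P)
    (hE : ∀ g : G, E.map (MulAut.conj g).toMonoidHom ⊓ normalizer (E : Set G) ≤ E) :
    P ≤ normalizer (E : Set G) := by
  by_contra hne
  have hlt : P ⊓ normalizer (E : Set G) < P := by
    refine lt_of_le_of_ne inf_le_left (fun h => hne ?_)
    rw [← h]
    exact inf_le_right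
  have h1 := lt_inf_normalizer_of_lt hP hlt
  obtain ⟨w, hw, hwN⟩ := SetLike.exists_of_lt h1
  have hwP : w ∈ P := hw.1
  have hwNN : w ∈ normalizer ((P ⊓ normalizer (E : Set G) : Subgroup G) : Set G) := hw.2
  have hEN₁ : E ≤ P ⊓ normalizer (E : Set G) := le_inf hEP le_normalizer
  have h2 : E.map (MulAut.conj w).toMonoidHom ≤ E := by
    intro x hx
    refine hE w ⟨hx, ?_⟩
    obtain ⟨e, he, rfl⟩ := hx
    have h3 : w * e * w⁻¹ ∈ P ⊓ normalizer (E : Set G) := (mem_normalizer_iff.mp hwNN e).mp (hEN₁ he)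
    exact h3.2
  have h4 : E.map (MulAut.conj w).toMonoidHom = E :=
    Subgroup.eq_of_le_of_card_ge h2 (by rw [Subgroup.card_map_of_injective (MulAut.conj w).injective])
  apply hwN
  refine ⟨hwP, ?_⟩
  show w ∈ normalizer (E : Set G)
  rw [mem_normalizer_iff]
  intro e
  constructor
  · intro he
    exact h2 ⟨e, he, rfl⟩
  · intro he
    rw [← h4] at he
    obtain ⟨e', he', heq⟩ := he
    have h5 : w * e' * w⁻¹ = w * e * w⁻¹ := heq
    have h6 : e' = e := by
      have := mul_right_cancel h5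
      exact mul_left_cancel this
    rwa [← h6]

/-- Strong closure in the `p`-group. -/
theorem sc_closed {P E : Subgroup G} (hP : IsPGroup p P) (hEP : E ≤ P)
    (hE : ∀ g : G, E.map (MulAut.conj g).toMonoidHom ⊓ normalizer (E : Set G) ≤ E) {e g : G} (he : e ∈ E)
    (h : g * e * g⁻¹ ∈ P) : g * e * g⁻¹ ∈ E :=
  hE g ⟨⟨e, he, rfl⟩, normalizes_of_sc hP hEP hE h⟩

/-- An automorphism of order having only primes larger than `p` acts trivially on an invariant
quotient of order `p`. -/
theorem quot_fix {R : Type*} [Group R] [Finite R] (hR : IsPGroup p R) {α : MulAut R} {m : ℕ}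
    (hm : α ^ m = 1) (hb : Big p m) (A : Subgroup R) [hA : A.Normal] (hAi : A.index ∣ p)
    (hαA : ∀ a ∈ A, α a ∈ A) (x : R) : x⁻¹ * α x ∈ A := by
  have hpp : p.Prime := hp.out
  have hmap : A.map α.toMonoidHom = A := by
    apply Subgroup.eq_of_le_of_card_ge
    · rintro _ ⟨y, hy, rfl⟩
      exact hαA y hy
    · rw [Subgroup.card_map_of_injective α.injective]
  let αb : MulAut (R ⧸ A) := QuotientGroup.congr A A α hmap
  have hαb : ∀ y : R, αb (y : R ⧸ A) = ((α y : R) : R ⧸ A) := fun y => rfl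
  have hαbpow : ∀ j : ℕ, ∀ y : R, (αb ^ j) (y : R ⧸ A) = (((α ^ j) y : R) : R ⧸ A) := by
    intro j
    induction j with
    | zero => intro y; rfl
    | succ j ih2 =>
      intro y
      rw [pow_succ, pow_succ, MulAut.mul_apply, MulAut.mul_apply, hαb, ih2]
  have hαbm : αb ^ m = 1 := by
    ext y
    obtain ⟨z, rfl⟩ := QuotientGroup.mk_surjective y
    rw [hαbpow, hm]
    rfl
  by_cases hx : (x : R ⧸ A) = 1
  · have h1 : x ∈ A := (QuotientGroup.eq_one_iff x).mp hx
    exact mul_mem (inv_mem h1) (hαA x h1)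
  · have hq : IsPGroup p (R ⧸ A) := hR.to_quotient A
    have hc : Nat.card (R ⧸ A) ∣ p := hAi
    have ho : orderOf (x : R ⧸ A) ∣ p := (_root_.orderOf_dvd_natCard _).trans hc
    have ho2 : orderOf (x : R ⧸ A) = p := by
      rcases (Nat.dvd_prime hpp).mp ho with h | h
      · exact absurd (orderOf_eq_one_iff.mp h) hx
      · exact h
    have hz : zpowers (x : R ⧸ A) = ⊤ := by
      apply Subgroup.eq_top_of_le_card
      rw [Nat.card_zpowers, ho2]
      exact Nat.le_of_dvd hpp.pos hc
    have h1 : αb (x : R ⧸ A) = x := fix_of_mem_zpowers hq hαbm hb (by rw [hz]; trivial)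
    rw [hαb] at h1
    exact QuotientGroup.eq.mp h1.symm

/-- The key local statement: the action of a `p'`-element on a subgroup of `P` is trivial modulo
the Frattini subgroup of `P`. -/
theorem star (hmin : ∀ q : ℕ, q.Prime → q ∣ Nat.card G → p ≤ q) (P : Sylow p G) {D : Subgroup G}
    (hD1 : 1 < Nat.card D) (hDP : D ≤ (P : Subgroup G)) (hDlt : Nat.card D < Nat.card (P : Subgroup G))
    (hSC : ∀ E : Subgroup G, E ≤ (P : Subgroup G) → (Nat.card E = Nat.card D ∨ (Nat.card D = 2 ∧ Nat.card E = 4)) →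
        ∀ g : G, E.map (MulAut.conj g).toMonoidHom ⊓ Subgroup.normalizer (E : Set G) ≤ E)
    {R : Subgroup G} (hRP : R ≤ (P : Subgroup G)) {y : G} (hy : y ∈ normalizer (R : Set G))
    (hyc : Nat.Coprime (orderOf y) p) {x : G} (hx : x ∈ R) :
    x⁻¹ * (y * x * y⁻¹) ∈ (frattini (P : Subgroup G)).map (P : Subgroup G).subtype := by
  have hpp : p.Prime := hp.out
  have hPp : IsPGroup p (P : Subgroup G) := P.2
  have hDp : IsPGroup p D := hPp.to_le hDP
  obtain ⟨d, hd⟩ := hDp.exists_card_eq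
  obtain ⟨n, hn⟩ := hPp.exists_card_eq
  have hd1 : 1 ≤ d := by
    by_contra h
    have : d = 0 := by omega
    subst this
    simp [hd] at hD1
  have hdn : d < n := by
    rw [hd, hn] at hDlt
    exact (Nat.pow_lt_pow_iff_right hpp.one_lt).mp hDlt
  have hRp : IsPGroup p R := hPp.to_le hRP
  have hC : ∀ r ∈ R, MulAut.conj y r ∈ R := by
    intro r hr
    rw [MulAut.conj_apply]
    exact (mem_normalizer_iff.mp hy r).mp hr
  let α : MulAut R := restr (MulAut.conj y) R hC
  have hαv : ∀ z : R, ((α z : R) : G) = y * z * y⁻¹ := fun z => rfl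
  have hαm : α ^ (orderOf y) = 1 := by
    ext z
    rw [restr_pow]
    have h1 : (MulAut.conj y) ^ (orderOf y) = 1 := by
      rw [← map_pow, pow_orderOf_eq_one, map_one]
    rw [h1]
    rfl
  have hb : Big p (orderOf y) := by
    intro q hq hqd
    have h1 : p ≤ q := hmin q hq (hqd.trans (orderOf_dvd_natCard y))
    have h2 : q ≠ p := by
      rintro rfl
      have := Nat.dvd_gcd hqd (dvd_refl q)
      rw [hyc] at this
      exact hq.one_lt.ne' (Nat.dvd_one.mp this)
    omega
  -- closure of the subgroups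
  have hclosed : ∀ E : Subgroup G, E ≤ (P : Subgroup G) →
      (Nat.card E = Nat.card D ∨ (Nat.card D = 2 ∧ Nat.card E = 4)) → ∀ e ∈ E, e ∈ R → y * e * y⁻¹ ∈ E := by
    intro E hEP hEc e he heR
    exact sc_closed hPp hEP (hSC E hEP hEc) he (hRP (hC e heR))
  by_cases hcase : p ^ d < Nat.card R
  · have hE1 : ∀ E : Subgroup R, Nat.card E = p ^ d → ∀ z ∈ E, α z ∈ E := by
      intro E hE z hz
      have h1 : E.map R.subtype ≤ (P : Subgroup G) := (Subgroup.map_subtype_le E).trans hRP
      have h2 : Nat.card (E.map R.subtype) = Nat.card D := by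
        rw [Subgroup.card_map_of_injective R.subtype_injective, hE, hd]
      have h3 := hclosed _ h1 (Or.inl h2) (z : G) ⟨z, hz, rfl⟩ z.2
      obtain ⟨w, hw, hwe⟩ := h3
      have h4 : w = α z := Subtype.ext (by rw [hαv]; exact hwe)
      rwa [← h4]
    have hE2 : p ^ d = 2 → ∀ E : Subgroup R, Nat.card E = 4 → ∀ z ∈ E, α z ∈ E := by
      intro h2d E hE z hz
      have h1 : E.map R.subtype ≤ (P : Subgroup G) := (Subgroup.map_subtype_le E).trans hRP
      have h2 : Nat.card (E.map R.subtype) = 4 := by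
        rw [Subgroup.card_map_of_injective R.subtype_injective, hE]
      have h3 := hclosed _ h1 (Or.inr ⟨by rw [hd, h2d], h2⟩) (z : G) ⟨z, hz, rfl⟩ z.2
      obtain ⟨w, hw, hwe⟩ := h3
      have h4 : w = α z := Subtype.ext (by rw [hαv]; exact hwe)
      rwa [← h4]
    have hα1 : α = 1 := propA (p := p) (Nat.card R) R α (orderOf y) d rfl hRp hαm hb hd1 hcase hE1 hE2
    have h1 : α ⟨x, hx⟩ = ⟨x, hx⟩ := by rw [hα1]; rfl
    have h2 : y * x * y⁻¹ = x := by
      have := congrArg Subtype.val h1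
      rwa [hαv] at this
    rw [h2, inv_mul_cancel]
    exact one_mem _
  · -- small `R`
    push Not at hcase
    have hxP : x ∈ (P : Subgroup G) := hRP hx
    have hyxP : y * x * y⁻¹ ∈ (P : Subgroup G) := hRP (hC x hx)
    have hmemP : x⁻¹ * (y * x * y⁻¹) ∈ (P : Subgroup G) := mul_mem (inv_mem hxP) hyxP
    refine ⟨⟨_, hmemP⟩, ?_, rfl⟩
    show (⟨_, hmemP⟩ : (P : Subgroup G)) ∈ frattini (P : Subgroup G)
    rw [Cfsg.Agent.Lib.Basic.mem_frattini_iff]
    intro M hM
    obtain ⟨hMn, hMi⟩ := Cfsg.Agent.Lib.Transfer.normal_and_index_of_isCoatom hPp hM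
    haveI := hMn
    have hMc : Nat.card M = p ^ (n - 1) := by
      have h1 := Subgroup.card_mul_index M
      rw [hMi, hn] at h1
      have h2 : p ^ n = p ^ (n - 1) * p := by
        rw [← pow_succ]
        congr 1
        omega
      rw [h2] at h1
      exact Nat.eq_of_mul_eq_mul_right hpp.pos h1
    let M₁ : Subgroup G := M.map (P : Subgroup G).subtype
    have hM₁c : Nat.card M₁ = p ^ (n - 1) := by
      rw [Subgroup.card_map_of_injective (P : Subgroup G).subtype_injective, hMc]
    have hM₁mem : ∀ z (hz : z ∈ (P : Subgroup G)), z ∈ M₁ ↔ (⟨z, hz⟩ : (P : Subgroup G)) ∈ M := by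
      intro z hz
      constructor
      · rintro ⟨w, hw, rfl⟩
        exact hw
      · intro h
        exact ⟨_, h, rfl⟩
    let f : R →* ((P : Subgroup G) ⧸ M) := (QuotientGroup.mk' M).comp (Subgroup.inclusion hRP)
    have hfker : ∀ z : R, f z = 1 ↔ (z : G) ∈ M₁ := by
      intro z
      show ((Subgroup.inclusion hRP z : (P : Subgroup G)) : (P : Subgroup G) ⧸ M) = 1 ↔ _
      rw [QuotientGroup.eq_one_iff, hM₁mem _ (hRP z.2)]
      rfl
    let A : Subgroup R := f.ker
    have hAmem : ∀ z : R, z ∈ A ↔ (z : G) ∈ M₁ := fun z => by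
      rw [MonoidHom.mem_ker, hfker]
    have hAi : A.index ∣ p := by
      rw [Subgroup.index_ker]
      have h1 := Subgroup.card_subgroup_dvd_card f.range
      have h2 : Nat.card ((P : Subgroup G) ⧸ M) = p := hMi
      rwa [h2] at h1
    have hAinv : ∀ a ∈ A, α a ∈ A := by
      intro a ha
      rw [hAmem] at ha ⊢
      rw [hαv]
      have hao : IsPGroup p (zpowers (a : G)) := hRp.to_le ((zpowers_le).mpr a.2)
      obtain ⟨i, hi⟩ := hao.exists_card_eq
      have hile : i ≤ d := by
        have h1 : Nat.card (zpowers (a : G)) ≤ Nat.card R :=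
          Subgroup.card_le_of_le (zpowers_le.mpr a.2)
        rw [hi] at h1
        exact (Nat.pow_le_pow_iff_right hpp.one_lt).mp (h1.trans hcase)
      obtain ⟨E, hE1, hE2, hE3⟩ := exists_between (p := p) M₁ (zpowers (a : G)) ((zpowers_le).mpr ha) hi hM₁c hile
        (by omega)
      have hEP : E ≤ (P : Subgroup G) := hE2.trans (Subgroup.map_subtype_le M)
      exact hE2 (hclosed E hEP (Or.inl (by rw [hE3, hd])) a (hE1 (mem_zpowers _)) a.2)
    have h := quot_fix hRp hαm hb A hAi hAinv ⟨x, hx⟩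
    rw [hAmem] at h
    have h2 : x⁻¹ * (y * x * y⁻¹) ∈ M₁ := h
    rw [hM₁mem _ hmemP] at h2
    exact h2

/-- Invariance under a Sylow subgroup of the normalizer and under the `p'`-elements implies
invariance under the normalizer. -/
theorem all_of_sylow_of_coprime {Z : Type*} (I : G → Z) {R T : Subgroup G}
    (hT : Cfsg.Agent.Lib.Fusion.SylowIn p T (normalizer (R : Set G)))
    (h1 : ∀ g ∈ T, ∀ x ∈ R, I (g * x * g⁻¹) = I x)
    (h2 : ∀ g ∈ normalizer (R : Set G), Nat.Coprime (orderOf g) p → ∀ x ∈ R, I (g * x * g⁻¹) = I x) :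
    ∀ g ∈ normalizer (R : Set G), ∀ x ∈ R, I (g * x * g⁻¹) = I x := by
  obtain ⟨Q, hQ⟩ := hT
  have hnorm : ∀ g ∈ normalizer (R : Set G), ∀ x ∈ R, g * x * g⁻¹ ∈ R :=
    fun g hg x hx => (mem_normalizer_iff.mp hg x).mp hx
  let W : Subgroup (normalizer (R : Set G)) :=
    { carrier := {g | ∀ x ∈ R, I ((g : G) * x * (g : G)⁻¹) = I x}
      mul_mem' := by
        intro a b ha hb x hx
        have e : ((a * b : normalizer (R : Set G)) : G) * x * ((a * b : normalizer (R : Set G)) : G)⁻¹
            = (a : G) * ((b : G) * x * (b : G)⁻¹) * (a : G)⁻¹ := by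
          push_cast
          group
        rw [e, ha _ (hnorm b b.2 x hx), hb x hx]
      one_mem' := by
        intro x hx
        simp
      inv_mem' := by
        intro a ha x hx
        have h3 := ha ((a : G)⁻¹ * x * (a : G)) (by
          have := hnorm _ (inv_mem a.2) x hx
          simpa using this)
        have e : (a : G) * ((a : G)⁻¹ * x * (a : G)) * (a : G)⁻¹ = x := by group
        rw [e] at h3
        have e2 : ((a⁻¹ : normalizer (R : Set G)) : G) * x * ((a⁻¹ : normalizer (R : Set G)) : G)⁻¹ =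
            (a : G)⁻¹ * x * (a : G) := by
          push_cast
          group
        rw [e2]
        exact h3.symm }
  have hWtop : W = ⊤ := by
    have h3 := Cfsg.Agent.Lib.LocalEven.pResidual_sup_sylow (p := p) Q
    rw [eq_top_iff, ← h3]
    refine sup_le ?_ ?_
    · rw [Cfsg.pResidual, Subgroup.closure_le]
      intro g hg
      exact h2 g g.2 (by rwa [Subgroup.orderOf_coe])
    · intro g hg
      rw [hQ, Subgroup.mem_subgroupOf] at hg
      exact h1 g hg
  intro g hg x hx
  have : (⟨g, hg⟩ : normalizer (R : Set G)) ∈ W := by rw [hWtop]; trivial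
  exact this x hx

end Basic

section Main

variable {G : Type u} [Group G] [Finite G] {p : ℕ} [hp : Fact p.Prime]

/-- The main theorem in the non-cyclic case. -/
theorem hnpc_of_sc (hmin : ∀ q : ℕ, q.Prime → q ∣ Nat.card G → p ≤ q) (P : Sylow p G) {D : Subgroup G}
    (hD1 : 1 < Nat.card D) (hDP : D ≤ (P : Subgroup G)) (hDlt : Nat.card D < Nat.card (P : Subgroup G))
    (hSC : ∀ E : Subgroup G, E ≤ (P : Subgroup G) → (Nat.card E = Nat.card D ∨ (Nat.card D = 2 ∧ Nat.card E = 4)) →
        ∀ g : G, E.map (MulAut.conj g).toMonoidHom ⊓ Subgroup.normalizer (E : Set G) ≤ E) :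
    HasNormalPComplement p G := by
  have hpp : p.Prime := hp.out
  have hPp : IsPGroup p (P : Subgroup G) := P.2
  let P₀ : Subgroup G := (frattini (P : Subgroup G)).map (P : Subgroup G).subtype
  let I : G → Set G := fun x => {y | x⁻¹ * y ∈ P₀}
  have hI : ∀ a b : G, I a = I b ↔ a⁻¹ * b ∈ P₀ := by
    intro a b
    constructor
    · intro h
      have h1 : b ∈ I b := by
        show b⁻¹ * b ∈ P₀
        rw [inv_mul_cancel]
        exact one_mem _
      rw [← h] at h1
      exact h1
    · intro h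
      ext y
      constructor
      · intro hy
        have hy' : a⁻¹ * y ∈ P₀ := hy
        have e : b⁻¹ * y = (a⁻¹ * b)⁻¹ * (a⁻¹ * y) := by group
        show b⁻¹ * y ∈ P₀
        rw [e]
        exact mul_mem (inv_mem h) hy'
      · intro hy
        have hy' : b⁻¹ * y ∈ P₀ := hy
        have e : a⁻¹ * y = (a⁻¹ * b) * (b⁻¹ * y) := by group
        show a⁻¹ * y ∈ P₀
        rw [e]
        exact mul_mem h hy'
  have hcomm : ∀ a ∈ (P : Subgroup G), ∀ b ∈ (P : Subgroup G), a⁻¹ * (b * a * b⁻¹) ∈ P₀ := by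
    intro a ha b hb
    haveI : Group.IsNilpotent (P : Subgroup G) := hPp.isNilpotent
    have h1 : ((⟨a, ha⟩ : (P : Subgroup G))⁻¹ * ((⟨b, hb⟩ : (P : Subgroup G)) * ⟨a, ha⟩ * (⟨b, hb⟩ : (P : Subgroup G))⁻¹))
        ∈ frattini (P : Subgroup G) := by
      apply Cfsg.Agent.Lib.Basic.commutator_le_frattini_of_isNilpotent
      have e : ((⟨a, ha⟩ : (P : Subgroup G))⁻¹ * ((⟨b, hb⟩ : (P : Subgroup G)) * ⟨a, ha⟩ * (⟨b, hb⟩ : (P : Subgroup G))⁻¹))
          = ⁅(⟨a, ha⟩ : (P : Subgroup G))⁻¹, (⟨b, hb⟩ : (P : Subgroup G))⁆ := by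
        rw [commutatorElement_def]
        group
      rw [e]
      exact Subgroup.commutator_mem_commutator (Subgroup.mem_top _) (Subgroup.mem_top _)
    exact ⟨_, h1, rfl⟩
  have hS : ∀ s ∈ (P : Subgroup G), ∀ x ∈ (P : Subgroup G), I (s * x * s⁻¹) = I x := by
    intro s hs x hx
    rw [eq_comm, hI]
    exact hcomm x hx s hs
  have hExc : ∀ R : Subgroup G, R ≤ P → centralizerIn (P : Subgroup G) R ≤ R →
      Cfsg.Agent.Lib.Fusion.SylowIn p (normalizerIn (P : Subgroup G) R) (normalizer (R : Set G)) →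
      (∃ g ∈ normalizer (R : Set G), Nat.Coprime (orderOf g) p ∧ g ∉ centralizer (R : Set G)) →
      ∀ g ∈ normalizer (R : Set G), ∀ x ∈ R, I (g * x * g⁻¹) = I x := by
    intro R hRP _ hSy _
    refine all_of_sylow_of_coprime I hSy ?_ ?_
    · intro g hg x hx
      exact hS g hg.1 x (hRP hx)
    · intro g hg hgc x hx
      rw [eq_comm, hI]
      exact star hmin P hD1 hDP hDlt hSC hRP hg hgc hx
  have hfus : ∀ a g : G, a ∈ (P : Subgroup G) → g * a * g⁻¹ ∈ (P : Subgroup G) → a⁻¹ * (g * a * g⁻¹) ∈ P₀ := by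
    intro a g ha hb
    exact (hI _ _).mp (Cfsg.Agent.Lib.TwoFusion.fusion_invariant P I hS hExc ha hb).symm
  obtain ⟨K, hKn, hKi, hKs⟩ := Cfsg.Agent.Lib.TwoFusion.exists_normal_of_focal P hcomm hfus
  haveI := hKn
  have htate : HasNormalPComplement p K := by
    refine Cfsg.Agent.Lib.Transfer.tate_hasNormalPComplement P K ?_
    rintro s ⟨hsK, hsP⟩
    exact (hKs s hsP).mp hsK
  obtain ⟨n, hn⟩ := hPp.exists_card_eq
  have hidx : ∃ k, K.index = p ^ k := by
    rw [hKi]
    have h1 : (P₀.subgroupOf (P : Subgroup G)).index ∣ Nat.card (P : Subgroup G) := Subgroup.index_dvd_card _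
    rw [hn] at h1
    obtain ⟨k, _, hk⟩ := (Nat.dvd_prime_pow hpp).mp h1
    exact ⟨k, hk⟩
  obtain ⟨k, hk⟩ := hidx
  exact Cfsg.Agent.Lib.Transfer.hasNormalPComplement_of_normal_of_index hk htate

end Main

end Cfsg.Agent.Lib.LocalEven2.SCN
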