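import Mathlib
import Cfsg.Agent.Lib.LocalEven2.SCN2
import Cfsg.Agent.Lib.Basic.Super
import Cfsg.Agent.Lib.PGroups.Parts

/-!
# Triangular actions on normal `p`-subgroups

A normal `p`-subgroup `R` on which the `p'`-elements of a subgroup `B ≥ G'`, containing all
`(p-1)`-th powers, act trivially has a chain of `G`-normal subgroups with factors of order `p`.
-/

set_option autoImplicit false
set_option linter.unusedSectionVars false

universe u

namespace Cfsg.Agent.Lib.LocalEven2.SCN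

open Subgroup Cfsg

open Polynomial in
theorem exists_eigen_module {p : ℕ} [hp : Fact p.Prime] {V : Type*} [AddCommGroup V] [Module (ZMod p) V] [Finite V]
    [Nontrivial V] (f : Module.End (ZMod p) V) (hf : f ^ p = f) : ∃ c : ZMod p, ∃ v : V, v ≠ 0 ∧ f v = c • v := by
  haveI : Module.Finite (ZMod p) V := Module.Finite.of_finite
  haveI : FiniteDimensional (ZMod p) V := inferInstance
  have hg : aeval f (X ^ p - X : (ZMod p)[X]) = 0 := by
    simp [hf]
  have hd : minpoly (ZMod p) f ∣ (X ^ p - X : (ZMod p)[X]) := minpoly.dvd _ _ hg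
  have hint : IsIntegral (ZMod p) f := Algebra.IsIntegral.isIntegral f
  have hdeg : 0 < (minpoly (ZMod p) f).degree := minpoly.degree_pos hint
  have hne : (X ^ p - X : (ZMod p)[X]) ≠ 0 := FiniteField.X_pow_card_sub_X_ne_zero (ZMod p) hp.out.one_lt
  have hsplit := (GaloisField.splits_zmod_X_pow_sub_X p).of_dvd hne hd
  obtain ⟨c, hc⟩ := hsplit.exists_eval_eq_zero hdeg.ne'
  have hroot : (minpoly (ZMod p) f).IsRoot c := hc
  obtain ⟨v, hv⟩ := (Module.End.hasEigenvalue_of_isRoot hroot).exists_hasEigenvector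
  exact ⟨c, v, hv.2, hv.apply_eq_smul⟩

theorem exists_eigen_aux {p : ℕ} [hp : Fact p.Prime] {A : Type*} [CommGroup A] [Finite A] [Nontrivial A]
    [Module (ZMod p) (Additive A)] (L : MulAut A) (hL : L ^ p = L) : ∃ m : A, m ≠ 1 ∧ ∃ c : ℕ, L m = m ^ c := by
  let f : Module.End (ZMod p) (Additive A) := (L.toMonoidHom.toAdditive).toZModLinearMap p
  have hfv : ∀ x : Additive A, f x = Additive.ofMul (L (Additive.toMul x)) := fun x => rfl
  have hpow : ∀ n : ℕ, ∀ x : Additive A, (f ^ n) x = Additive.ofMul ((L ^ n) (Additive.toMul x)) := by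
    intro n
    induction n with
    | zero => intro x; rfl
    | succ n ih =>
      intro x
      rw [pow_succ, Module.End.mul_apply, ih, hfv, pow_succ, MulAut.mul_apply]
      rfl
  have hf : f ^ p = f := by
    ext x
    rw [hpow, hL, hfv]
  haveI : Finite (Additive A) := inferInstanceAs (Finite A)
  haveI : Nontrivial (Additive A) := inferInstanceAs (Nontrivial A)
  obtain ⟨c, v, hv, hfc⟩ := exists_eigen_module f hf
  refine ⟨Additive.toMul v, ?_, c.val, ?_⟩
  · intro h
    exact hv (by rw [← ofMul_toMul v, h]; rfl)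
  · have h1 : (c • v : Additive A) = c.val • v := by
      conv_lhs => rw [← ZMod.natCast_zmod_val c]
      rw [Nat.cast_smul_eq_nsmul]
    rw [h1, hfv] at hfc
    have := congrArg Additive.toMul hfc
    simpa using this

theorem exists_eigen {p : ℕ} [hp : Fact p.Prime] {A : Type*} [CommGroup A] [Finite A] [Nontrivial A]
    (hexp : ∀ x : A, x ^ p = 1) (L : MulAut A) (hL : L ^ p = L) : ∃ m : A, m ≠ 1 ∧ ∃ c : ℕ, L m = m ^ c := by
  letI : Module (ZMod p) (Additive A) := AddCommGroup.zmodModule (fun x => by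
    show Additive.ofMul ((Additive.toMul x) ^ p) = 0
    rw [hexp]; rfl)
  exact exists_eigen_aux L hL

section Tri

variable {G : Type u} [Group G] {p : ℕ}

/-- The action on `R` is triangular with respect to `p`. -/
def Tri (p : ℕ) (R : Subgroup G) : Prop :=
  ∃ B : Subgroup G, (∀ y z : G, y * z * y⁻¹ * z⁻¹ ∈ B) ∧ (∀ y : G, y ^ (p - 1) ∈ B) ∧
    ∀ b ∈ B, Nat.Coprime (orderOf b) p → ∀ r ∈ R, b * r * b⁻¹ = r

variable [Finite G] [hp : Fact p.Prime]

theorem exists_fixed_of_pgroup {T M : Subgroup G} [hM : M.Normal] (hT : IsPGroup p T) (hMp : IsPGroup p M)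
    (hM1 : M ≠ ⊥) : ∃ m ∈ M, m ≠ 1 ∧ ∀ t ∈ T, t * m * t⁻¹ = m := by
  obtain ⟨S, hS⟩ := hT.exists_le_sylow
  have h1 := S.is_maximal' (hMp.to_sup_of_normal_left S.isPGroup') le_sup_right
  have hMS : M ≤ (S : Subgroup G) := by
    have h2 : M ≤ M ⊔ (S : Subgroup G) := le_sup_left
    rwa [h1] at h2
  haveI : (M.subgroupOf (S : Subgroup G)).Normal := Subgroup.Normal.subgroupOf hM _
  have hne : M.subgroupOf (S : Subgroup G) ≠ ⊥ := by
    intro h
    apply hM1
    rw [eq_bot_iff]
    intro x hx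
    have h3 : (⟨x, hMS hx⟩ : (S : Subgroup G)) ∈ M.subgroupOf (S : Subgroup G) := by
      rw [Subgroup.mem_subgroupOf]
      exact hx
    rw [h, Subgroup.mem_bot] at h3
    exact congrArg Subtype.val h3
  obtain ⟨z, hz, hz1, hzc, -⟩ := Cfsg.Agent.Lib.Transfer.exists_central_of_normal S.isPGroup' hne
  refine ⟨z, hz, fun h => hz1 (Subtype.ext h), ?_⟩
  intro t ht
  have h4 := congrArg Subtype.val (hzc ⟨t, hS ht⟩)
  have h5 : t * (z : G) = z * t := h4
  rw [h5, mul_inv_cancel_right]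

theorem exists_fixed_of_tri {B M : Subgroup G} [hM : M.Normal] (hMp : IsPGroup p M) (hM1 : M ≠ ⊥)
    (hB : ∀ b ∈ B, Nat.Coprime (orderOf b) p → ∀ r ∈ M, b * r * b⁻¹ = r) :
    ∃ m ∈ M, m ≠ 1 ∧ ∀ b ∈ B, b * m * b⁻¹ = m := by
  let Q : Sylow p B := default
  have hT : IsPGroup p ((Q : Subgroup B).map B.subtype) := Q.isPGroup'.map _
  obtain ⟨m, hm, hm1, hfix⟩ := exists_fixed_of_pgroup hT hMp hM1
  refine ⟨m, hm, hm1, ?_⟩
  let W : Subgroup B :=
    { carrier := {b | (b : G) * m * (b : G)⁻¹ = m}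
      mul_mem' := by
        intro a b ha hb
        have ha' : (a : G) * m * (a : G)⁻¹ = m := ha
        have hb' : (b : G) * m * (b : G)⁻¹ = m := hb
        show ((a * b : B) : G) * m * ((a * b : B) : G)⁻¹ = m
        have e : ((a * b : B) : G) * m * ((a * b : B) : G)⁻¹ = (a : G) * ((b : G) * m * (b : G)⁻¹) * (a : G)⁻¹ := by
          push_cast
          group
        rw [e, hb', ha']
      one_mem' := by
        show ((1 : B) : G) * m * ((1 : B) : G)⁻¹ = m
        simp
      inv_mem' := by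
        intro a ha
        have ha' : (a : G) * m * (a : G)⁻¹ = m := ha
        show ((a⁻¹ : B) : G) * m * ((a⁻¹ : B) : G)⁻¹ = m
        push_cast
        nth_rewrite 1 [← ha']
        group }
  have hW : W = ⊤ := by
    have h3 := Cfsg.Agent.Lib.LocalEven.pResidual_sup_sylow (p := p) Q
    rw [eq_top_iff, ← h3]
    refine sup_le ?_ ?_
    · rw [Cfsg.pResidual, Subgroup.closure_le]
      intro g hg
      exact hB g g.2 (by rwa [Subgroup.orderOf_coe]) m hm
    · intro g hg
      exact hfix g ⟨g, hg, rfl⟩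
  intro b hb
  have : (⟨b, hb⟩ : B) ∈ W := by rw [hW]; trivial
  exact this

/-- An element acting on an elementary abelian normal subgroup with `y ^ p` acting as `y` has an
eigenvector. -/
theorem eigen_sub {M : Subgroup G} [hM : M.Normal] (hc : ∀ x ∈ M, ∀ y ∈ M, x * y = y * x) (hexp : ∀ x ∈ M, x ^ p = 1)
    (hM1 : M ≠ ⊥) (y : G) (hy : ∀ m ∈ M, y ^ p * m * (y ^ p)⁻¹ = y * m * y⁻¹) :
    ∃ m ∈ M, m ≠ 1 ∧ ∃ c : ℕ, y * m * y⁻¹ = m ^ c := by
  haveI : Nontrivial M := (Subgroup.nontrivial_iff_ne_bot M).mpr hM1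
  letI : CommGroup M :=
    { (inferInstance : Group M) with
      mul_comm := fun a b => Subtype.ext (hc a a.2 b b.2) }
  let L : MulAut M := MulAut.conjNormal y
  have hLv : ∀ m : M, ((L m : M) : G) = y * m * y⁻¹ := fun m => rfl
  have hLp : L ^ p = L := by
    ext m
    have h1 : ((L ^ p) m : M) = MulAut.conjNormal (y ^ p) m := by
      rw [map_pow]
    rw [h1, hLv]
    show y ^ p * (m : G) * (y ^ p)⁻¹ = _
    exact hy m m.2
  obtain ⟨m, hm1, c, hmc⟩ := exists_eigen (p := p) (A := M) (fun x => Subtype.ext (hexp x x.2)) L hLp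
  refine ⟨m, m.2, fun h => hm1 (Subtype.ext h), c, ?_⟩
  have h2 := congrArg Subtype.val hmc
  rw [hLv] at h2
  rw [h2]
  rfl

/-- A triangular action has an invariant line. -/
theorem exists_line {R : Subgroup G} [hR : R.Normal] (hRp : IsPGroup p R) (hR1 : R ≠ ⊥) (hT : Tri p R) :
    ∃ s ∈ R, s ≠ 1 ∧ s ^ p = 1 ∧ (zpowers s).Normal := by
  have hpp : p.Prime := hp.out
  obtain ⟨B, hcomm, hpow, hB⟩ := hT
  have hBn : ∀ b ∈ B, ∀ g : G, g * b * g⁻¹ ∈ B := by
    intro b hb g
    have e : g * b * g⁻¹ = (g * b * g⁻¹ * b⁻¹) * b := by group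
    rw [e]
    exact mul_mem (hcomm g b) hb
  let Good : Subgroup G → Prop := fun M =>
    M ≠ ⊥ ∧ M.Normal ∧ M ≤ R ∧ (∀ x ∈ M, x ^ p = 1) ∧ (∀ x ∈ M, ∀ y ∈ M, x * y = y * x)
  have hexG : ∃ M, Good M := by
    let Ω : Subgroup G :=
      { carrier := {x | x ∈ R ∧ (∀ r ∈ R, x * r = r * x) ∧ x ^ p = 1}
        mul_mem' := fun {a b} ha hb => by
          refine ⟨mul_mem ha.1 hb.1, ?_, ?_⟩
          · intro r hr
            rw [mul_assoc, hb.2.1 r hr, ← mul_assoc, ha.2.1 r hr, mul_assoc]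
          · have hcomm : Commute a b := ha.2.1 b hb.1
            rw [hcomm.mul_pow, ha.2.2, hb.2.2, one_mul]
        one_mem' := ⟨one_mem _, by simp, one_pow _⟩
        inv_mem' := fun {a} ha => by
          refine ⟨inv_mem ha.1, ?_, by rw [inv_pow, ha.2.2, inv_one]⟩
          intro r hr
          have := ha.2.1 r hr
          rw [inv_mul_eq_iff_eq_mul, ← mul_assoc, this, mul_inv_cancel_right] }
    refine ⟨Ω, ?_, ?_, fun x hx => hx.1, fun x hx => hx.2.2, fun x hx y hy => hx.2.1 y hy.1⟩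
    · have hne : (⊤ : Subgroup R) ≠ ⊥ := by
        intro h
        apply hR1
        rw [eq_bot_iff]
        intro x hx
        have h3 : (⟨x, hx⟩ : R) ∈ (⊤ : Subgroup R) := trivial
        rw [h, Subgroup.mem_bot] at h3
        exact congrArg Subtype.val h3
      obtain ⟨z, -, hz1, hzc, hzp⟩ := Cfsg.Agent.Lib.Transfer.exists_central_of_normal hRp hne
      intro hbot
      have hzΩ : (z : G) ∈ Ω := by
        refine ⟨z.2, ?_, congrArg Subtype.val hzp⟩
        intro r hr
        have := congrArg Subtype.val (hzc ⟨r, hr⟩)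
        exact this.symm
      rw [hbot, Subgroup.mem_bot] at hzΩ
      exact hz1 (Subtype.ext hzΩ)
    · refine ⟨fun n hn g => ⟨hR.conj_mem n hn.1 g, ?_, by rw [conj_pow, hn.2.2]; group⟩⟩
      intro r hr
      have h1 := hn.2.1 (g⁻¹ * r * g) (by
        have := hR.conj_mem r hr g⁻¹
        simpa using this)
      have e : g * n * g⁻¹ * r = g * (n * (g⁻¹ * r * g)) * g⁻¹ := by group
      have e2 : r * (g * n * g⁻¹) = g * ((g⁻¹ * r * g) * n) * g⁻¹ := by group
      rw [e, e2, h1]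
  obtain ⟨M, hMmin⟩ := (Set.toFinite {M | Good M}).exists_minimal hexG
  obtain ⟨hM1, hMn, hMR, hMe, hMc⟩ := hMmin.1
  have hMm : ∀ A : Subgroup G, A ≤ M → A ≠ ⊥ → A.Normal → A = M := by
    intro A hAM hA1 hAn
    have hGA : Good A := ⟨hA1, hAn, hAM.trans hMR, fun x hx => hMe x (hAM hx),
      fun x hx y hy => hMc x (hAM hx) y (hAM hy)⟩
    exact le_antisymm hAM (hMmin.2 hGA hAM)
  haveI := hMn
  have hMp : IsPGroup p M := hRp.to_le hMR
  -- `B` acts trivially on `M`
  have hBM : ∀ b ∈ B, ∀ m ∈ M, b * m * b⁻¹ = m := by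
    obtain ⟨m₀, hm₀, hm₀1, hm₀f⟩ := exists_fixed_of_tri (B := B) hMp hM1
      (fun b hb hbc r hr => hB b hb hbc r (hMR hr))
    let C : Subgroup G :=
      { carrier := {x | x ∈ M ∧ ∀ b ∈ B, b * x * b⁻¹ = x}
        mul_mem' := fun {a c} ha hc => by
          refine ⟨mul_mem ha.1 hc.1, fun b hb => ?_⟩
          have e : b * (a * c) * b⁻¹ = (b * a * b⁻¹) * (b * c * b⁻¹) := by group
          rw [e, ha.2 b hb, hc.2 b hb]
        one_mem' := ⟨one_mem _, fun b _ => by simp⟩
        inv_mem' := fun {a} ha => by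
          refine ⟨inv_mem ha.1, fun b hb => ?_⟩
          have e : b * a⁻¹ * b⁻¹ = (b * a * b⁻¹)⁻¹ := by group
          rw [e, ha.2 b hb] }
    have hCn : C.Normal := by
      refine ⟨fun n hn g => ⟨hMn.conj_mem n hn.1 g, fun b hb => ?_⟩⟩
      have h1 := hn.2 (g⁻¹ * b * g) (by
        have := hBn b hb g⁻¹
        simpa using this)
      have e : b * (g * n * g⁻¹) * b⁻¹ = g * ((g⁻¹ * b * g) * n * (g⁻¹ * b * g)⁻¹) * g⁻¹ := by group
      rw [e, h1]
    have hC1 : C ≠ ⊥ := by
      intro h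
      have : m₀ ∈ C := ⟨hm₀, hm₀f⟩
      rw [h, Subgroup.mem_bot] at this
      exact hm₀1 this
    have hCM : C = M := hMm C (fun x hx => hx.1) hC1 hCn
    intro b hb m hm
    rw [← hCM] at hm
    exact hm.2 b hb
  -- every element acts as a scalar
  obtain ⟨s, hsM, hs1⟩ : ∃ s ∈ M, s ≠ 1 := by
    by_contra hne
    push Not at hne
    apply hM1
    rw [eq_bot_iff]
    intro x hx
    exact hne x hx
  have hscalar : ∀ y : G, y * s * y⁻¹ ∈ zpowers s := by
    intro y
    have hyp : ∀ m ∈ M, y ^ p * m * (y ^ p)⁻¹ = y * m * y⁻¹ := by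
      intro m hm
      have h1 : y ^ p = y * y ^ (p - 1) := by
        rw [← pow_succ']
        congr 1
        have := hpp.two_le
        omega
      rw [h1]
      have h2 := hBM _ (hpow y) m hm
      have e : y * y ^ (p - 1) * m * (y * y ^ (p - 1))⁻¹ = y * (y ^ (p - 1) * m * (y ^ (p - 1))⁻¹) * y⁻¹ := by group
      rw [e, h2]
    obtain ⟨m, hm, hm1, c, hmc⟩ := eigen_sub (p := p) hMc hMe hM1 y hyp
    let Mc : Subgroup G :=
      { carrier := {x | x ∈ M ∧ y * x * y⁻¹ = x ^ c}
        mul_mem' := fun {a b} ha hb => by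
          refine ⟨mul_mem ha.1 hb.1, ?_⟩
          have e : y * (a * b) * y⁻¹ = (y * a * y⁻¹) * (y * b * y⁻¹) := by group
          have hcomm : Commute a b := hMc a ha.1 b hb.1
          rw [e, ha.2, hb.2, hcomm.mul_pow]
        one_mem' := ⟨one_mem _, by simp⟩
        inv_mem' := fun {a} ha => by
          refine ⟨inv_mem ha.1, ?_⟩
          have e : y * a⁻¹ * y⁻¹ = (y * a * y⁻¹)⁻¹ := by group
          rw [e, ha.2, inv_pow] }
    have hMcn : Mc.Normal := by
      refine ⟨fun n hn z => ⟨hMn.conj_mem n hn.1 z, ?_⟩⟩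
      have h1 := hBM _ (hcomm y z) _ (hMn.conj_mem _ (pow_mem hn.1 c) z)
      have e : y * (z * n * z⁻¹) * y⁻¹ =
          (y * z * y⁻¹ * z⁻¹) * (z * (y * n * y⁻¹) * z⁻¹) * (y * z * y⁻¹ * z⁻¹)⁻¹ := by group
      rw [e, hn.2, h1, conj_pow]
    have hMc1 : Mc ≠ ⊥ := by
      intro h
      have : m ∈ Mc := ⟨hm, hmc⟩
      rw [h, Subgroup.mem_bot] at this
      exact hm1 this
    have hMcM : Mc = M := hMm Mc (fun x hx => hx.1) hMc1 hMcn
    have hsc : s ∈ Mc := by rw [hMcM]; exact hsM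
    rw [hsc.2]
    exact pow_mem (mem_zpowers s) c
  refine ⟨s, hMR hsM, hs1, hMe s hsM, ⟨?_⟩⟩
  intro u hu g
  obtain ⟨k, rfl⟩ := mem_zpowers_iff.mp hu
  rw [← conj_zpow]
  exact zpow_mem (hscalar g) k

/-- Triangular actions pass to quotients. -/
theorem Tri.map {R N : Subgroup G} [hN : N.Normal] (h : Tri p R) : Tri p (R.map (QuotientGroup.mk' N)) := by
  have hpp : p.Prime := hp.out
  obtain ⟨B, hc, hpw, hB⟩ := h
  refine ⟨B.map (QuotientGroup.mk' N), ?_, ?_, ?_⟩
  · intro y z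
    obtain ⟨y', rfl⟩ := QuotientGroup.mk_surjective y
    obtain ⟨z', rfl⟩ := QuotientGroup.mk_surjective z
    exact ⟨_, hc y' z', rfl⟩
  · intro y
    obtain ⟨y', rfl⟩ := QuotientGroup.mk_surjective y
    exact ⟨_, hpw y', rfl⟩
  · rintro _ ⟨b, hb, rfl⟩ hbc _ ⟨r, hr, rfl⟩
    obtain ⟨u, v, huv, -, ⟨k, hk⟩, hv, hu1, hv1⟩ := Cfsg.Agent.Lib.PGroups.exists_pPart p b
    have hπu : QuotientGroup.mk' N u = 1 := by
      have h1 : orderOf (QuotientGroup.mk' N u) ∣ p ^ k := by
        rw [← hk]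
        exact orderOf_map_dvd _ _
      have h2 : QuotientGroup.mk' N u ∈ zpowers (QuotientGroup.mk' N b) := by
        obtain ⟨j, rfl⟩ := mem_zpowers_iff.mp hu1
        rw [map_zpow]
        exact zpow_mem (mem_zpowers _) j
      have h3 : orderOf (QuotientGroup.mk' N u) ∣ orderOf (QuotientGroup.mk' N b) :=
        orderOf_dvd_of_mem_zpowers h2
      have h4 : Nat.Coprime (orderOf (QuotientGroup.mk' N u)) (p ^ k) :=
        Nat.Coprime.pow_right k (Nat.Coprime.coprime_dvd_left h3 hbc)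
      have h5 : orderOf (QuotientGroup.mk' N u) = 1 := Nat.Coprime.eq_one_of_dvd h4 h1
      exact orderOf_eq_one_iff.mp h5
    have hvB : v ∈ B := by
      obtain ⟨j, rfl⟩ := mem_zpowers_iff.mp hv1
      exact zpow_mem hb j
    have hvc : Nat.Coprime (orderOf v) p := by
      rw [Nat.coprime_comm, Nat.Prime.coprime_iff_not_dvd hpp]
      exact hv
    have h1 := hB v hvB hvc r hr
    have h2 : QuotientGroup.mk' N b = QuotientGroup.mk' N v := by
      rw [huv, map_mul, hπu, one_mul]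
    rw [h2, ← map_inv, ← map_mul, ← map_mul, h1]

end Tri

/-- A normal `p`-subgroup with a triangular action and supersolvable quotient gives a supersolvable
group. -/
theorem supersolvable_of_tri {p : ℕ} [hp : Fact p.Prime] : ∀ (c : ℕ) (G : Type u) [Group G] [Finite G] (R : Subgroup G) [R.Normal],
    Nat.card R = c → IsPGroup p R → Tri p R → IsSupersolvable (G ⧸ R) → IsSupersolvable G := by
  intro c
  induction c using Nat.strong_induction_on with
  | _ c ih =>
  intro G _ _ R hRn hc hRp hT hS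
  have hpp : p.Prime := hp.out
  by_cases hR1 : R = ⊥
  · subst hR1
    exact (Cfsg.Agent.Lib.Basic.isSupersolvable_congr (QuotientGroup.quotientBot (G := G))).mp hS
  obtain ⟨s, hsR, hs1, hsp, hsn⟩ := exists_line hRp hR1 hT
  haveI := hsn
  have hNR : zpowers s ≤ R := (zpowers_le).mpr hsR
  have hcard : Nat.card (zpowers s) = p := by
    rw [Nat.card_zpowers]
    exact orderOf_eq_prime hsp hs1
  haveI hbn : (R.map (QuotientGroup.mk' (zpowers s))).Normal :=
    Subgroup.Normal.map hRn _ (QuotientGroup.mk'_surjective _)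
  have hcm : ((R.map (QuotientGroup.mk' (zpowers s))).comap (QuotientGroup.mk' (zpowers s))) = R := by
    rw [Subgroup.comap_map_eq]
    have : (QuotientGroup.mk' (zpowers s)).ker = zpowers s := QuotientGroup.ker_mk' _
    rw [this]
    exact sup_eq_left.mpr hNR
  have hc2 : Nat.card R = p * Nat.card (R.map (QuotientGroup.mk' (zpowers s))) := by
    have := Cfsg.Agent.Lib.Basic.card_comap_mk (N := zpowers s) (R.map (QuotientGroup.mk' (zpowers s)))
    rwa [hcm, hcard] at this
  have hlt : Nat.card (R.map (QuotientGroup.mk' (zpowers s))) < c := by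
    rw [← hc, hc2]
    have hpos : 0 < Nat.card (R.map (QuotientGroup.mk' (zpowers s))) := Nat.card_pos
    nlinarith [hpp.two_le]
  have hQ : IsSupersolvable ((G ⧸ zpowers s) ⧸ (R.map (QuotientGroup.mk' (zpowers s)))) :=
    (Cfsg.Agent.Lib.Basic.isSupersolvable_congr (QuotientGroup.quotientQuotientEquivQuotient (zpowers s) R hNR)).mpr hS
  have h1 : IsSupersolvable (G ⧸ zpowers s) :=
    ih _ hlt (G ⧸ zpowers s) (R.map (QuotientGroup.mk' (zpowers s))) rfl (hRp.map _ |>.to_le le_rfl) hT.map hQ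
  exact Cfsg.Agent.Lib.Basic.isSupersolvable_of_cyclic_normal (zpowers s) h1

end Cfsg.Agent.Lib.LocalEven2.SCN
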