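import Mathlib
import Cfsg.Agent.Lib.LocalEven2.SCN3

/-!
# Groups of automorphisms of `p`-groups leaving invariant the subgroups of a fixed order

For `p` odd, a group `Γ` of automorphisms of a finite `p`-group `R` leaving invariant every subgroup of
order `p ^ d` (with `1 < p ^ d < |R|`) acts triangularly.
-/

set_option autoImplicit false
set_option linter.unusedSectionVars false

universe u v

namespace Cfsg.Agent.Lib.LocalEven2.SCN

open Subgroup Cfsg

section Aux

variable {R : Type*} [Group R] {Γ : Type*} [Group Γ]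

theorem fix_of_comm_fixed' {p : ℕ} {α : MulAut R} {m : ℕ} (hm : α ^ m = 1) (hc : Nat.Coprime m p)
    {x c : R} (h : α x = x * c) (hαc : α c = c) (hcp : c ^ p = 1) : α x = x := by
  have h1 : ∀ j : ℕ, (α ^ j) x = x * c ^ j := by
    intro j
    induction j with
    | zero => simp
    | succ j ih =>
      rw [pow_succ, MulAut.mul_apply, h, map_mul, ih]
      have h2 : (α ^ j) c = c := by
        clear ih
        induction j with
        | zero => simp
        | succ j ih2 => rw [pow_succ, MulAut.mul_apply, hαc, ih2]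
      rw [h2, pow_succ, mul_assoc]
  have h2 := h1 m
  rw [hm, MulAut.one_apply] at h2
  have h3 : c ^ m = 1 := by
    have : x * c ^ m = x * 1 := by rw [← h2, mul_one]
    exact mul_left_cancel this
  have h4 : c = 1 := by
    have h5 := (pow_gcd_eq_one).mpr ⟨h3, hcp⟩
    rwa [Nat.Coprime.gcd_eq_one hc, pow_one] at h5
  rw [h, h4, mul_one]

/-- Coprime action: an automorphism trivial modulo a central elementary subgroup `N` has fixed points
in each coset of `N`. -/
theorem exists_fix_mul {p : ℕ} (hp1 : 1 < p) {α : MulAut R} {m : ℕ} (hm : α ^ m = 1) (hc : Nat.Coprime m p)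
    {N : Subgroup R} (hNc : N ≤ center R) (hNe : ∀ x ∈ N, x ^ p = 1) (hNi : ∀ x ∈ N, α x ∈ N)
    (hcomm : ∀ y : R, y⁻¹ * α y ∈ N) (x : R) : ∃ n ∈ N, α (x * n) = x * n := by
  have hcent : ∀ z ∈ N, ∀ g : R, z * g = g * z := fun z hz g => ((mem_center_iff.mp (hNc hz)) g).symm
  let c : R := x⁻¹ * α x
  have hcN : c ∈ N := hcomm x
  let f : ℕ → R := fun i => x⁻¹ * (α ^ i) x
  have hf0 : f 0 = 1 := by
    simp [f]
  have hrec : ∀ i, f (i + 1) = c * α (f i) := by
    intro i
    show x⁻¹ * (α ^ (i + 1)) x = x⁻¹ * α x * α (x⁻¹ * (α ^ i) x)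
    rw [pow_succ', MulAut.mul_apply, map_mul, map_inv]
    group
  have hfN : ∀ i, f i ∈ N := by
    intro i
    induction i with
    | zero => rw [hf0]; exact one_mem _
    | succ i ih =>
      rw [hrec]
      exact mul_mem hcN (hNi _ ih)
  have hαf : ∀ i, α (f i) = c⁻¹ * f (i + 1) := by
    intro i
    rw [hrec]
    group
  have hT : ∀ j : ℕ, ∃ t ∈ N, α t = (c ^ j)⁻¹ * t * f j := by
    intro j
    induction j with
    | zero =>
      refine ⟨1, one_mem _, ?_⟩
      rw [hf0]
      simp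
    | succ j ih =>
      obtain ⟨t, htN, ht⟩ := ih
      refine ⟨t * f j, mul_mem htN (hfN j), ?_⟩
      rw [map_mul, ht, hαf]
      have h1 : (c ^ j)⁻¹ * t * f j * c⁻¹ = c⁻¹ * ((c ^ j)⁻¹ * t * f j) :=
        (hcent _ (inv_mem hcN) _).symm
      calc (c ^ j)⁻¹ * t * f j * (c⁻¹ * f (j + 1)) = ((c ^ j)⁻¹ * t * f j * c⁻¹) * f (j + 1) := by group
        _ = c⁻¹ * ((c ^ j)⁻¹ * t * f j) * f (j + 1) := by rw [h1]
        _ = (c ^ (j + 1))⁻¹ * (t * f j) * f (j + 1) := by
          rw [pow_succ]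
          group
  obtain ⟨t, htN, ht⟩ := hT m
  have hfm : f m = 1 := by
    show x⁻¹ * (α ^ m) x = 1
    rw [hm, MulAut.one_apply, inv_mul_cancel]
  rw [hfm, mul_one] at ht
  obtain ⟨m', -, hm'⟩ := Nat.exists_mul_mod_eq_one_of_coprime hc hp1
  refine ⟨t ^ m', pow_mem htN m', ?_⟩
  have hcpow : c ^ (m * m') = c := by
    have h1 : m * m' = p * (m * m' / p) + 1 := by
      conv_lhs => rw [← Nat.div_add_mod (m * m') p, hm']
    rw [h1, pow_succ, pow_mul, hNe c hcN, one_pow, one_mul]
  have h2 : α (t ^ m') = c⁻¹ * t ^ m' := by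
    rw [map_pow, ht]
    have hcm : Commute (c ^ m)⁻¹ t := (hcent _ htN _).symm
    rw [hcm.mul_pow, inv_pow, ← pow_mul, hcpow]
  rw [map_mul, h2]
  show α x * (c⁻¹ * t ^ m') = x * t ^ m'
  have h3 : α x = x * c := by
    show α x = x * (x⁻¹ * α x)
    group
  rw [h3]
  group

theorem scalar_comm (φ : Γ →* MulAut R) {x : R} (hinv : ∀ γ, φ γ x ∈ zpowers x) (y z : Γ) :
    φ (y * z * y⁻¹ * z⁻¹) x = x := by
  have hz : ∀ γ, ∀ w ∈ zpowers x, φ γ w ∈ zpowers x := by
    intro γ w hw
    obtain ⟨l, rfl⟩ := mem_zpowers_iff.mp hw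
    rw [map_zpow]
    exact zpow_mem (hinv γ) l
  have hc : ∀ w ∈ zpowers x, φ y (φ z w) = φ z (φ y w) := by
    intro w hw
    obtain ⟨l, rfl⟩ := mem_zpowers_iff.mp hw
    obtain ⟨a, ha⟩ := mem_zpowers_iff.mp (hinv y)
    obtain ⟨b, hb⟩ := mem_zpowers_iff.mp (hinv z)
    have hyz : φ y (φ z x) = φ z (φ y x) := by
      rw [← hb, ← ha, map_zpow, map_zpow, ← ha, ← hb, ← zpow_mul, ← zpow_mul, mul_comm a b]
    simp only [map_zpow]
    rw [hyz]
  have h1 := hz z⁻¹ x (mem_zpowers x)
  have h2 := hz y⁻¹ _ h1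
  have h3 := hc _ h2
  have e1 : φ y (φ y⁻¹ (φ z⁻¹ x)) = φ z⁻¹ x := by
    rw [← MulAut.mul_apply, ← map_mul, mul_inv_cancel, map_one]
    rfl
  have e2 : φ z (φ z⁻¹ x) = x := by
    rw [← MulAut.mul_apply, ← map_mul, mul_inv_cancel, map_one]
    rfl
  rw [map_mul, map_mul, map_mul, MulAut.mul_apply, MulAut.mul_apply, MulAut.mul_apply, h3, e1, e2]

theorem scalar_pow [Finite R] {p : ℕ} [hp : Fact p.Prime] (φ : Γ →* MulAut R) {x : R} (hx : x ^ p = 1)
    (hinv : ∀ γ, φ γ x ∈ zpowers x) (y : Γ) : φ (y ^ (p - 1)) x = x := by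
  by_cases hx1 : x = 1
  · rw [hx1, map_one]
  have hC : ∀ w ∈ zpowers x, φ y w ∈ zpowers x := by
    intro w hw
    obtain ⟨l, rfl⟩ := mem_zpowers_iff.mp hw
    rw [map_zpow]
    exact zpow_mem (hinv y) l
  let β : MulAut (zpowers x) := restr (φ y) (zpowers x) hC
  have h1 : Nat.card (MulAut (zpowers x)) = p - 1 := by
    rw [IsCyclic.card_mulAut, Nat.card_zpowers, orderOf_eq_prime hx hx1, Nat.totient_prime hp.out]
  have h2 : β ^ (p - 1) = 1 := by
    rw [← h1]
    exact pow_card_eq_one'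
  have h3 : (((β ^ (p - 1)) ⟨x, mem_zpowers x⟩ : zpowers x) : R) = x := by
    rw [h2]
    rfl
  rw [restr_pow] at h3
  rw [map_pow]
  exact h3

/-- The action on a quotient. -/
noncomputable def quotHom (φ : Γ →* MulAut R) (N : Subgroup R) [hN : N.Normal] [Finite R] (hi : ∀ γ, ∀ x ∈ N, φ γ x ∈ N) :
    Γ →* MulAut (R ⧸ N) where
  toFun γ := QuotientGroup.congr N N (φ γ) (by
    apply Subgroup.eq_of_le_of_card_ge
    · rintro _ ⟨x, hx, rfl⟩
      exact hi γ x hx
    · rw [Subgroup.card_map_of_injective (φ γ).injective])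
  map_one' := by
    ext y
    obtain ⟨x, rfl⟩ := QuotientGroup.mk_surjective y
    show ((φ 1 x : R) : R ⧸ N) = (x : R ⧸ N)
    rw [map_one]
    rfl
  map_mul' := by
    intro a b
    ext y
    obtain ⟨x, rfl⟩ := QuotientGroup.mk_surjective y
    show ((φ (a * b) x : R) : R ⧸ N) = ((φ a (φ b x) : R) : R ⧸ N)
    rw [map_mul]
    rfl

theorem quotHom_apply (φ : Γ →* MulAut R) (N : Subgroup R) [hN : N.Normal] [Finite R] (hi : ∀ γ, ∀ x ∈ N, φ γ x ∈ N)
    (γ : Γ) (x : R) : quotHom φ N hi γ (x : R ⧸ N) = ((φ γ x : R) : R ⧸ N) := rfl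

end Aux

section Main

variable {p : ℕ} [hp : Fact p.Prime] {Γ : Type v} [Group Γ] [Finite Γ]

theorem tri_of_invariant (hp2 : p ≠ 2) : ∀ (c : ℕ) (R : Type u) [Group R] [Finite R] (φ : Γ →* MulAut R) (d : ℕ),
    Nat.card R = c → IsPGroup p R → 1 ≤ d → p ^ d < Nat.card R →
    (∀ E : Subgroup R, Nat.card E = p ^ d → ∀ γ : Γ, ∀ x ∈ E, φ γ x ∈ E) →
    ∃ B : Subgroup Γ, (∀ y z : Γ, y * z * y⁻¹ * z⁻¹ ∈ B) ∧ (∀ y : Γ, y ^ (p - 1) ∈ B) ∧
      ∀ b ∈ B, Nat.Coprime (orderOf b) p → φ b = 1 := by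
  intro c
  induction c using Nat.strong_induction_on with
  | _ c ih =>
  intro R _ _ φ d hc hR hd hlt hE
  have hpp : p.Prime := hp.out
  have hcardR : ∃ t, Nat.card R = p ^ t := hR.exists_card_eq
  obtain ⟨t, ht⟩ := hcardR
  have hdt : d < t := by
    rw [ht] at hlt
    exact (Nat.pow_lt_pow_iff_right hpp.one_lt).mp hlt
  have hord : ∀ b : Γ, Nat.Coprime (orderOf b) p → Nat.Coprime (orderOf (φ b)) p := fun b hb =>
    Nat.Coprime.coprime_dvd_left (orderOf_map_dvd φ b) hb
  have hpowφ : ∀ b : Γ, (φ b) ^ (orderOf b) = 1 := by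
    intro b
    rw [← map_pow, pow_orderOf_eq_one, map_one]
  by_cases hd1 : d = 1
  · subst hd1
    rw [pow_one] at hE
    have hline : ∀ x : R, x ^ p = 1 → ∀ γ, φ γ x ∈ zpowers x := by
      intro x hx γ
      by_cases hx1 : x = 1
      · rw [hx1, map_one]
        exact one_mem _
      · exact hE (zpowers x) (by rw [Nat.card_zpowers]; exact orderOf_eq_prime hx hx1) γ x (mem_zpowers x)
    let B : Subgroup Γ :=
      { carrier := {b | ∀ x : R, x ^ p = 1 → φ b x = x}
        mul_mem' := fun {a b} ha hb x hx => by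
          rw [map_mul, MulAut.mul_apply, hb x hx, ha x hx]
        one_mem' := fun x _ => by rw [map_one]; rfl
        inv_mem' := fun {a} ha x hx => by
          have h1 : x ^ p = 1 := hx
          have h2 : (φ a⁻¹ x) ^ p = 1 := by rw [← map_pow, h1, map_one]
          have h3 := ha _ h2
          have e : φ a (φ a⁻¹ x) = x := by
            rw [← MulAut.mul_apply, ← map_mul, mul_inv_cancel, map_one]
            rfl
          rw [e] at h3
          exact h3.symm }
    refine ⟨B, fun y z x hx => scalar_comm φ (hline x hx) y z, fun y x hx => scalar_pow φ hx (hline x hx) y, ?_⟩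
    intro b hb hbc
    exact Cfsg.Agent.Lib.Transfer.eq_one_of_fix_omega hp2 hR (φ b) (hord b hbc) hb
  have hd2 : 2 ≤ d := by omega
  haveI hnt : Nontrivial R := by
    rw [← Finite.one_lt_card_iff_nontrivial, ht]
    exact Nat.one_lt_pow (by omega) hpp.one_lt
  let Good : Subgroup R → Prop := fun N =>
    N ≠ ⊥ ∧ N ≤ center R ∧ (∀ x ∈ N, x ^ p = 1) ∧ (∀ γ, ∀ x ∈ N, φ γ x ∈ N)
  have hexG : ∃ N, Good N := by
    let Ω : Subgroup R :=
      { carrier := {x | x ∈ center R ∧ x ^ p = 1}
        mul_mem' := fun {a b} ha hb => by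
          refine ⟨mul_mem ha.1 hb.1, ?_⟩
          have hcomm : Commute a b := (mem_center_iff.mp ha.1 b).symm
          rw [hcomm.mul_pow, ha.2, hb.2, one_mul]
        one_mem' := ⟨one_mem _, one_pow _⟩
        inv_mem' := fun {a} ha => ⟨inv_mem ha.1, by rw [inv_pow, ha.2, inv_one]⟩ }
    refine ⟨Ω, ?_, fun x hx => hx.1, fun x hx => hx.2, ?_⟩
    · haveI : Nontrivial (center R) := hR.center_nontrivial
      have hcen : IsPGroup p (center R) := hR.to_subgroup _
      obtain ⟨k, hk⟩ := hcen.exists_card_eq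
      have hk0 : k ≠ 0 := by
        rintro rfl
        have := Finite.one_lt_card_iff_nontrivial.mpr (inferInstance : Nontrivial (center R))
        rw [hk] at this
        simp at this
      have hdvd : p ∣ Nat.card (center R) := by
        rw [hk]
        exact dvd_pow_self p hk0
      obtain ⟨z, hz⟩ := exists_prime_orderOf_dvd_card' p hdvd
      intro hbot
      have hz1 : (z : R) ∈ Ω := by
        refine ⟨z.2, ?_⟩
        have := pow_orderOf_eq_one z
        rw [hz] at this
        exact congrArg Subtype.val this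
      rw [hbot, Subgroup.mem_bot] at hz1
      have hz2 : z = 1 := Subtype.ext hz1
      rw [hz2, orderOf_one] at hz
      exact hpp.one_lt.ne hz
    · intro γ x hx
      refine ⟨?_, by rw [← map_pow, hx.2, map_one]⟩
      rw [mem_center_iff]
      intro g
      have h1 := (mem_center_iff.mp hx.1) ((φ γ).symm g)
      have h2 := congrArg (φ γ) h1
      simpa using h2
  obtain ⟨N, hNmin⟩ := (Set.toFinite {N | Good N}).exists_minimal hexG
  have hNG : Good N := hNmin.1
  obtain ⟨hN1, hNc, hNe, hNi⟩ := hNG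
  have hNm : ∀ A : Subgroup R, A ≤ N → A ≠ ⊥ → (∀ γ, ∀ x ∈ A, φ γ x ∈ A) → A = N := by
    intro A hAN hA1 hAi
    have hGA : Good A := ⟨hA1, hAN.trans hNc, fun x hx => hNe x (hAN hx), hAi⟩
    exact le_antisymm hAN (hNmin.2 hGA hAN)
  haveI hNn : N.Normal := normal_of_le_center hNc
  obtain ⟨k, hk⟩ := (hR.to_subgroup N).exists_card_eq
  have hk1 : 1 ≤ k := by
    by_contra hk0
    have : k = 0 := by omega
    subst this
    rw [pow_zero] at hk
    exact hN1 (Subgroup.card_eq_one.mp hk)
  have hcardbot : Nat.card (⊥ : Subgroup R) = p ^ 0 := by simp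
  -- the key contradiction
  have key : ∀ (A E : Subgroup R), A ≤ N → A ≠ ⊥ → A ≠ N → Nat.card E = p ^ d → A ≤ E →
      (∀ e ∈ E, e ∈ N → e ∈ A) → False := by
    intro A E hAN hA1 hAN' hcE hAE hEN
    apply hAN'
    refine hNm A hAN hA1 ?_
    intro γ a ha
    exact hEN _ (hE E hcE γ a (hAE ha)) (hNi γ a (hAN ha))
  have hyper : ∀ C : Subgroup R, C ≤ N → C ≠ N → 1 ≤ k → ∃ A : Subgroup R, C ≤ A ∧ A ≤ N ∧ Nat.card A = p ^ (k - 1) := by
    intro C hCN hCne _
    obtain ⟨a, ha⟩ := (hR.to_subgroup C).exists_card_eq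
    have hak : a < k := by
      have h1 : Nat.card C < Nat.card N := by
        refine lt_of_le_of_ne (Subgroup.card_le_of_le hCN) ?_
        intro h
        exact hCne (Subgroup.eq_of_le_of_card_ge hCN h.ge)
      rw [ha, hk] at h1
      exact (Nat.pow_lt_pow_iff_right hpp.one_lt).mp h1
    obtain ⟨A, h1, h2, h3⟩ := exists_between (p := p) N C hCN ha hk (i := a) (j := k - 1) (t := k) (by omega) (by omega)
    exact ⟨A, h1, h2, h3⟩
  have hAne : ∀ A : Subgroup R, Nat.card A = p ^ (k - 1) → 2 ≤ k → A ≠ ⊥ ∧ A ≠ N := by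
    intro A hA hk2
    constructor
    · rintro rfl
      rw [Subgroup.card_bot] at hA
      have := Nat.one_lt_pow (n := k - 1) (by omega) hpp.one_lt
      omega
    · rintro rfl
      rw [hk] at hA
      have := Nat.pow_right_injective hpp.two_le hA
      omega
  have hAn : ∀ A : Subgroup R, A ≤ N → A.Normal := fun A hA => normal_of_le_center (hA.trans hNc)
  rcases lt_trichotomy k d with hkd | hkd | hkd
  · -- `N` small: pass to the quotient
    have hcq : Nat.card (R ⧸ N) = p ^ (t - k) := by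
      have h1 := Subgroup.card_eq_card_quotient_mul_card_subgroup N
      rw [ht, hk] at h1
      have h4 : p ^ t = p ^ (t - k) * p ^ k := by rw [← pow_add]; congr 1; omega
      rw [h4] at h1
      exact (Nat.eq_of_mul_eq_mul_right (pow_pos hpp.pos k) h1).symm
    have hEb : ∀ Eb : Subgroup (R ⧸ N), Nat.card Eb = p ^ (d - k) → ∀ γ : Γ, ∀ y ∈ Eb, quotHom φ N hNi γ y ∈ Eb := by
      intro Eb hEbc γ y hy
      obtain ⟨x, rfl⟩ := QuotientGroup.mk_surjective y
      have h1 : Nat.card (Eb.comap (QuotientGroup.mk' N)) = p ^ d := by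
        rw [Cfsg.Agent.Lib.Basic.card_comap_mk, hk, hEbc, ← pow_add]
        congr 1
        omega
      have h2 := hE _ h1 γ x hy
      exact h2
    have hNcard1 : 1 < Nat.card N := by
      rw [hk]
      exact Nat.one_lt_pow (by omega) hpp.one_lt
    obtain ⟨B', hB1, hB2, hB3⟩ := ih (Nat.card (R ⧸ N)) (by
        rw [← hc, ht, hcq]
        exact Nat.pow_lt_pow_right hpp.one_lt (by omega)) (R ⧸ N) (quotHom φ N hNi) (d - k) rfl (hR.to_quotient N) (by omega)
      (by
        rw [hcq]
        exact Nat.pow_lt_pow_right hpp.one_lt (by omega)) hEb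
    have hcomm : ∀ b ∈ B', Nat.Coprime (orderOf b) p → ∀ x : R, x⁻¹ * φ b x ∈ N := by
      intro b hb hbc x
      have h1 : quotHom φ N hNi b (x : R ⧸ N) = (x : R ⧸ N) := by
        rw [hB3 b hb hbc]
        rfl
      rw [quotHom_apply] at h1
      exact QuotientGroup.eq.mp h1.symm
    have hfin : ∀ b ∈ B', Nat.Coprime (orderOf b) p → (∀ n ∈ N, φ b n = n) → φ b = 1 := by
      intro b hb hbc hfix
      ext x
      have h1 := hcomm b hb hbc x
      exact fix_of_comm_fixed' (p := p) (hpowφ b) hbc (by group) (hfix _ h1) (hNe _ h1)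
    by_cases hk1' : k = 1
    · subst hk1'
      have hline : ∀ n ∈ N, ∀ γ, φ γ n ∈ zpowers n := by
        intro n hn γ
        by_cases hn1 : n = 1
        · rw [hn1, map_one]
          exact one_mem _
        · have h1 : zpowers n = N := by
            apply Subgroup.eq_of_le_of_card_ge ((zpowers_le).mpr hn)
            rw [hk, pow_one, Nat.card_zpowers, orderOf_eq_prime (hNe n hn) hn1]
          rw [h1]
          exact hNi γ n hn
      let BN : Subgroup Γ :=
        { carrier := {b | ∀ n ∈ N, φ b n = n}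
          mul_mem' := fun {a b} ha hb x hx => by
            rw [map_mul, MulAut.mul_apply, hb x hx, ha x hx]
          one_mem' := fun x _ => by rw [map_one]; rfl
          inv_mem' := fun {a} ha x hx => by
            have h3 := ha _ (hNi a⁻¹ x hx)
            have e : φ a (φ a⁻¹ x) = x := by
              rw [← MulAut.mul_apply, ← map_mul, mul_inv_cancel, map_one]
              rfl
            rw [e] at h3
            exact h3.symm }
      refine ⟨B' ⊓ BN, fun y z => ⟨hB1 y z, fun n hn => scalar_comm φ (hline n hn) y z⟩,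
        fun y => ⟨hB2 y, fun n hn => scalar_pow φ (hNe n hn) (hline n hn) y⟩, ?_⟩
      intro b hb hbc
      exact hfin b hb.1 hbc hb.2
    -- `k ≥ 2`
    have hk2 : 2 ≤ k := by omega
    refine ⟨B', hB1, hB2, ?_⟩
    intro b hb hbc
    apply hfin b hb hbc
    by_contra hnfix
    push Not at hnfix
    obtain ⟨n₀, hn₀, hn₀f⟩ := hnfix
    let α : MulAut R := φ b
    let Fx : Subgroup R :=
      { carrier := {x | α x = x}
        mul_mem' := fun {a b} ha hb' => by
          show α (a * b) = a * b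
          rw [map_mul, ha, hb']
        one_mem' := map_one α
        inv_mem' := fun {a} ha => by
          show α a⁻¹ = a⁻¹
          rw [map_inv, ha] }
    have hCne : Fx ⊓ N ≠ N := by
      intro h
      have : n₀ ∈ Fx ⊓ N := by rw [h]; exact hn₀
      exact hn₀f this.1
    obtain ⟨A, hCA, hAN, hAc⟩ := hyper (Fx ⊓ N) inf_le_right hCne hk1
    obtain ⟨hA1, hAN'⟩ := hAne A hAc hk2
    haveI hAnn := hAn A hAN
    have hsurj : ∀ x : R, ∃ n ∈ N, α (x * n) = x * n := fun x =>
      exists_fix_mul hpp.one_lt (hpowφ b) hbc hNc hNe (hNi b) (hcomm b hb hbc) x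
    let μ : Fx →* R ⧸ N := (QuotientGroup.mk' N).comp Fx.subtype
    let ν : Fx →* R ⧸ A := (QuotientGroup.mk' A).comp Fx.subtype
    have hμs : Function.Surjective μ := by
      intro y
      obtain ⟨x, rfl⟩ := QuotientGroup.mk_surjective y
      obtain ⟨n, hn, hfix⟩ := hsurj x
      refine ⟨⟨x * n, hfix⟩, ?_⟩
      show ((x * n : R) : R ⧸ N) = x
      rw [QuotientGroup.eq]
      have : (x * n)⁻¹ * x = n⁻¹ := by group
      rw [this]
      exact inv_mem hn
    have hker : μ.ker = ν.ker := by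
      ext z
      rw [MonoidHom.mem_ker, MonoidHom.mem_ker]
      constructor
      · intro h
        have h1 : (z : R) ∈ N := (QuotientGroup.eq_one_iff _).mp h
        exact (QuotientGroup.eq_one_iff _).mpr (hCA ⟨z.2, h1⟩)
      · intro h
        have h1 : (z : R) ∈ A := (QuotientGroup.eq_one_iff _).mp h
        exact (QuotientGroup.eq_one_iff _).mpr (hAN h1)
    have hνc : Nat.card ν.range = p ^ (t - k) := by
      rw [← Subgroup.index_ker, ← hker, Subgroup.index_ker, MonoidHom.range_eq_top.mpr hμs, Subgroup.card_top, hcq]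
    have hcb : Nat.card (⊥ : Subgroup (R ⧸ A)) = p ^ 0 := by simp
    obtain ⟨Ft, -, hFt1, hFt2⟩ := exists_between (p := p) ν.range ⊥ bot_le hcb hνc (i := 0) (j := d - k + 1) (t := t - k)
      (by omega) (by omega)
    refine key A (Ft.comap (QuotientGroup.mk' A)) hAN hA1 hAN' ?_ ?_ ?_
    · rw [Cfsg.Agent.Lib.Basic.card_comap_mk, hAc, hFt2, ← pow_add]
      congr 1
      omega
    · intro a ha
      rw [Subgroup.mem_comap]
      have : QuotientGroup.mk' A a = 1 := (QuotientGroup.eq_one_iff a).mpr ha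
      rw [this]
      exact one_mem _
    · intro e he heN
      rw [Subgroup.mem_comap] at he
      obtain ⟨w, hw⟩ := hFt1 he
      have h1 : ((w : R) : R ⧸ A) = (e : R ⧸ A) := hw
      have h2 : (w : R)⁻¹ * e ∈ A := QuotientGroup.eq.mp h1
      have h3 : (w : R) ∈ N := by
        have e1 : (w : R) = e * ((w : R)⁻¹ * e)⁻¹ := by group
        rw [e1]
        exact mul_mem heN (inv_mem (hAN h2))
      have h4 : (w : R) ∈ A := hCA ⟨w.2, h3⟩
      have e2 : e = (w : R) * ((w : R)⁻¹ * e) := by group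
      rw [e2]
      exact mul_mem h4 h2
  · -- `N` has order `p ^ d`
    subst hkd
    have hk2 : 2 ≤ k := hd2
    have hq1 : IsPGroup p (R ⧸ N) := hR.to_quotient N
    have hntq : p ∣ Nat.card (R ⧸ N) := by
      have h1 := Subgroup.card_eq_card_quotient_mul_card_subgroup N
      rw [ht, hk] at h1
      have h3 : Nat.card (R ⧸ N) = p ^ (t - k) := by
        have h4 : p ^ t = p ^ (t - k) * p ^ k := by rw [← pow_add]; congr 1; omega
        rw [h4] at h1
        exact (Nat.eq_of_mul_eq_mul_right (pow_pos hpp.pos k) h1).symm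
      rw [h3]
      exact dvd_pow_self p (by omega)
    obtain ⟨w', hw'⟩ := exists_prime_orderOf_dvd_card' p hntq
    obtain ⟨w, rfl⟩ := QuotientGroup.mk_surjective w'
    have hw1 : ((w : R ⧸ N)) ≠ 1 := by
      intro h
      rw [h, orderOf_one] at hw'
      exact hpp.one_lt.ne hw'
    have hwN : w ∉ N := fun h => hw1 ((QuotientGroup.eq_one_iff w).mpr h)
    have hwp : w ^ p ∈ N := by
      have h1 : ((w ^ p : R) : R ⧸ N) = 1 := by
        rw [QuotientGroup.mk_pow, ← hw', pow_orderOf_eq_one]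
      exact (QuotientGroup.eq_one_iff _).mp h1
    have hCne : zpowers (w ^ p) ≠ N := by
      intro h
      have h1 : orderOf (w ^ p) ∣ p ^ 1 := by
        rw [pow_one]
        exact orderOf_dvd_of_pow_eq_one (hNe _ hwp)
      have h2 := hk
      rw [← h, Nat.card_zpowers] at h2
      rw [h2] at h1
      have h3 := (Nat.pow_dvd_pow_iff_le_right hpp.one_lt).mp h1
      omega
    obtain ⟨A, hCA, hAN, hAc⟩ := hyper _ ((zpowers_le).mpr hwp) hCne hk1
    have hzA : w ^ p ∈ A := hCA (mem_zpowers _)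
    obtain ⟨hA1, hAN'⟩ := hAne A hAc hk2
    haveI hAnn := hAn A hAN
    have hord : orderOf (QuotientGroup.mk' A w) = p := by
      apply orderOf_eq_prime
      · rw [← map_pow]
        exact (QuotientGroup.eq_one_iff _).mpr hzA
      · intro h
        exact hwN (hAN ((QuotientGroup.eq_one_iff w).mp h))
    exfalso
    refine key A ((zpowers (QuotientGroup.mk' A w)).comap (QuotientGroup.mk' A)) hAN hA1 hAN' ?_ ?_ ?_
    · rw [Cfsg.Agent.Lib.Basic.card_comap_mk, Nat.card_zpowers, hord, hAc, ← pow_succ]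
      congr 1
      omega
    · intro a ha
      rw [Subgroup.mem_comap]
      have : QuotientGroup.mk' A a = 1 := (QuotientGroup.eq_one_iff a).mpr ha
      rw [this]
      exact one_mem _
    · intro e he heN
      rw [Subgroup.mem_comap] at he
      obtain ⟨j, hj⟩ := mem_zpowers_iff.mp he
      have h1 : ((w ^ j : R) : R ⧸ A) = (e : R ⧸ A) := by
        rw [QuotientGroup.mk_zpow]
        exact hj
      have h2 : (w ^ j)⁻¹ * e ∈ A := QuotientGroup.eq.mp h1
      have h3 : w ^ j ∈ N := by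
        have e1 : w ^ j = e * ((w ^ j)⁻¹ * e)⁻¹ := by group
        rw [e1]
        exact mul_mem heN (inv_mem (hAN h2))
      have h4 : ((w : R ⧸ N)) ^ j = 1 := by
        have : ((w ^ j : R) : R ⧸ N) = 1 := (QuotientGroup.eq_one_iff _).mpr h3
        rwa [QuotientGroup.mk_zpow] at this
      have h5 : (p : ℤ) ∣ j := by
        rw [← hw']
        exact orderOf_dvd_iff_zpow_eq_one.mpr h4
      obtain ⟨l, rfl⟩ := h5
      have h6 : w ^ ((p : ℤ) * l) ∈ A := by
        rw [zpow_mul, zpow_natCast]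
        exact zpow_mem hzA l
      have e2 : e = w ^ ((p : ℤ) * l) * ((w ^ ((p : ℤ) * l))⁻¹ * e) := by group
      rw [e2]
      exact mul_mem h6 h2
  · -- `N` too large
    obtain ⟨E, -, hEN, hEc⟩ := exists_between (p := p) N ⊥ bot_le hcardbot hk (i := 0) (j := d) (t := k)
      (by omega) (by omega)
    have hE1 : E ≠ ⊥ := by
      rintro rfl
      rw [Subgroup.card_bot] at hEc
      have := Nat.one_lt_pow (n := d) (by omega) hpp.one_lt
      omega
    have := hNm E hEN hE1 (hE E hEc)
    rw [this, hk] at hEc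
    have h2 := Nat.pow_right_injective hpp.two_le hEc
    omega

end Main

end Cfsg.Agent.Lib.LocalEven2.SCN
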