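import Mathlib
import Cfsg.Agent.Lib.LocalEven2.SCN4
import Cfsg.Agent.Lib.Fusion.Saturation
import Cfsg.Agent.Lib.Transfer.Basic

/-!
# Supersolvability from the subgroups of a fixed order of the Sylow subgroups of a normal subgroup
-/

set_option autoImplicit false
set_option linter.unusedSectionVars false

universe u

namespace Cfsg.Agent.Lib.LocalEven2.SCN

open Subgroup Cfsg

section Step

variable {G : Type u} [Group G] [Finite G]

/-- The hypothesis of the theorem. -/
def Hyp (G : Type u) [Group G] (E : Subgroup G) : Prop :=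
  ∀ p : ℕ, p.Prime → ∀ P : Subgroup G, P ≤ E → IsPGroup p P → ¬ p ∣ P.relIndex E → ¬ IsCyclic ↥P →
    ∃ D : Subgroup G, D ≤ P ∧ 1 < Nat.card D ∧ Nat.card D < Nat.card P ∧
      ∀ F : Subgroup G, F ≤ P → (Nat.card F = Nat.card D ∨ (Nat.card D = 2 ∧ Nat.card F = 4)) →
        ∀ g : G, F.map (MulAut.conj g).toMonoidHom ⊓ Subgroup.normalizer (F : Set G) ≤ F

theorem subOf_map (H : Subgroup G) (K : Subgroup H) : (K.map H.subtype).subgroupOf H = K := by
  ext x
  rw [Subgroup.mem_subgroupOf]
  constructor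
  · rintro ⟨w, hw, he⟩
    have : w = x := Subtype.ext he
    rwa [← this]
  · intro h
    exact ⟨x, h, rfl⟩

variable {p : ℕ} [hp : Fact p.Prime]

/-- A triangular action from the invariance of the subgroups of a fixed order. -/
theorem tri_of_sc (E : Subgroup G) [hE : E.Normal] (hEp : IsPGroup p E) {D : Subgroup G} (hDE : D ≤ E)
    (hD1 : 1 < Nat.card D) (hDlt : Nat.card D < Nat.card E)
    (hSC : ∀ F : Subgroup G, F ≤ E → (Nat.card F = Nat.card D ∨ (Nat.card D = 2 ∧ Nat.card F = 4)) →
        ∀ g : G, F.map (MulAut.conj g).toMonoidHom ⊓ Subgroup.normalizer (F : Set G) ≤ F) : Tri p E := by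
  have hpp : p.Prime := hp.out
  have hDp : IsPGroup p D := hEp.to_le hDE
  obtain ⟨d, hd⟩ := hDp.exists_card_eq
  have hd1 : 1 ≤ d := by
    by_contra h
    have : d = 0 := by omega
    subst this
    simp [hd] at hD1
  have hlt : p ^ d < Nat.card E := by rwa [← hd]
  have hinv : ∀ F : Subgroup E, (Nat.card F = Nat.card D ∨ (Nat.card D = 2 ∧ Nat.card F = 4)) →
      ∀ γ : G, ∀ x ∈ F, MulAut.conjNormal γ x ∈ F := by
    intro F hF γ x hx
    have h1 : F.map E.subtype ≤ E := Subgroup.map_subtype_le F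
    have hc : Nat.card (F.map E.subtype) = Nat.card F := Subgroup.card_map_of_injective E.subtype_injective
    have h2 := sc_closed hEp h1 (hSC _ h1 (by rwa [hc])) (g := γ) (e := (x : G)) ⟨x, hx, rfl⟩
      (hE.conj_mem _ x.2 γ)
    obtain ⟨w, hw, hwe⟩ := h2
    have h3 : w = MulAut.conjNormal γ x := Subtype.ext (by
      rw [MulAut.conjNormal_apply]
      exact hwe)
    rwa [← h3]
  by_cases hp2 : p = 2
  · subst hp2
    refine ⟨⊤, fun _ _ => trivial, fun _ => trivial, ?_⟩
    intro b _ hbc r hr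
    let α : MulAut E := MulAut.conjNormal b
    have hαm : α ^ (orderOf b) = 1 := by
      rw [← map_pow, pow_orderOf_eq_one, map_one]
    have hb : Big 2 (orderOf b) := by
      intro q hq hqd
      have h2 : q ≠ 2 := by
        rintro rfl
        have := Nat.dvd_gcd hqd (dvd_refl 2)
        rw [hbc] at this
        exact absurd (Nat.dvd_one.mp this) (by norm_num)
      have := hq.two_le
      omega
    have hα : α = 1 := propA (p := 2) (Nat.card E) E α (orderOf b) d rfl hEp hαm hb hd1 hlt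
      (fun F hF x hx => hinv F (Or.inl (by rw [hF, hd])) b x hx)
      (fun h2 F hF x hx => hinv F (Or.inr ⟨by rw [hd, h2], hF⟩) b x hx)
    have h1 : α ⟨r, hr⟩ = ⟨r, hr⟩ := by rw [hα]; rfl
    have h2 := congrArg Subtype.val h1
    rwa [MulAut.conjNormal_apply] at h2
  · obtain ⟨B, h1, h2, h3⟩ := tri_of_invariant (p := p) hp2 (Γ := G) (Nat.card E) E MulAut.conjNormal d rfl hEp hd1 hlt
      (fun F hF γ x hx => hinv F (Or.inl (by rw [hF, hd])) γ x hx)
    refine ⟨B, h1, h2, ?_⟩
    intro b hb hbc r hr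
    have h4 : (MulAut.conjNormal b : MulAut E) ⟨r, hr⟩ = ⟨r, hr⟩ := by
      rw [h3 b hb hbc]
      rfl
    have h5 := congrArg Subtype.val h4
    rwa [MulAut.conjNormal_apply] at h5

/-- The conjugation step of the quotient argument. -/
theorem conj_step {K F L : Subgroup G} (hKp : Nat.Coprime (Nat.card K) p) (hFp : IsPGroup p F) (hFL : F ≤ L)
    (hL : ∀ l ∈ L, ∃ f ∈ F, ∃ k ∈ K, l = f * k)
    (hSC : ∀ g : G, F.map (MulAut.conj g).toMonoidHom ⊓ Subgroup.normalizer (F : Set G) ≤ F) {g f : G}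
    (hf : f ∈ F) (hx : g * f * g⁻¹ ∈ normalizer (L : Set G)) : g * f * g⁻¹ ∈ L := by
  have hpp : p.Prime := hp.out
  let H : Subgroup G := normalizer (L : Set G)
  have hF' : IsPGroup p (F.subgroupOf H) := hFp.comap_subtype
  obtain ⟨S, hS⟩ := hF'.exists_le_sylow
  let T : Subgroup G := (S : Subgroup H).map H.subtype
  have hTp : IsPGroup p T := S.isPGroup'.map _
  have hTs : T ≤ H := Subgroup.map_subtype_le _
  have hSy : ∃ R : Sylow p H, (R : Subgroup H) = T.subgroupOf H := ⟨S, (subOf_map H _).symm⟩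
  have hFH : F ≤ H := hFL.trans Subgroup.le_normalizer
  have hFT : F ≤ T := by
    intro x hx
    have h1 : (⟨x, hFH hx⟩ : H) ∈ F.subgroupOf H := by
      rw [Subgroup.mem_subgroupOf]
      exact hx
    exact ⟨_, hS h1, rfl⟩
  have hUp : IsPGroup p (zpowers (g * f * g⁻¹)) := by
    have h1 : IsPGroup p (F.map (MulAut.conj g).toMonoidHom) := hFp.map _
    exact h1.to_le ((zpowers_le).mpr ⟨f, hf, rfl⟩)
  obtain ⟨c, hc, hcU⟩ := Cfsg.Agent.Lib.Fusion.exists_conj_of_isSylowIn hSy hUp ((zpowers_le).mpr hx)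
  have hyT : c * (g * f * g⁻¹) * c⁻¹ ∈ T := hcU _ (mem_zpowers _)
  have hclaim : ∀ s ∈ T, ∀ f₀ ∈ F, s * f₀ * s⁻¹ ∈ F := by
    intro s hs f₀ hf₀
    have h1 : s * f₀ * s⁻¹ ∈ L := (mem_normalizer_iff.mp (hTs hs) f₀).mp (hFL hf₀)
    obtain ⟨f₁, hf₁, k₁, hk₁, he⟩ := hL _ h1
    have h2 : k₁ ∈ T := by
      have e : k₁ = f₁⁻¹ * (s * f₀ * s⁻¹) := by rw [he]; group
      rw [e]
      exact mul_mem (inv_mem (hFT hf₁)) (mul_mem (mul_mem hs (hFT hf₀)) (inv_mem hs))
    obtain ⟨n, hn⟩ := hTp.exists_card_eq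
    have h3 : orderOf k₁ ∣ Nat.card K := Subgroup.orderOf_dvd_natCard K hk₁
    have h4 : orderOf k₁ ∣ p ^ n := by
      rw [← hn]
      exact Subgroup.orderOf_dvd_natCard T h2
    have h5 : Nat.Coprime (Nat.card K) (p ^ n) := Nat.Coprime.pow_right n hKp
    have h6 : orderOf k₁ = 1 := Nat.eq_one_of_dvd_coprimes h5 h3 h4
    have h7 : k₁ = 1 := orderOf_eq_one_iff.mp h6
    rw [he, h7, mul_one]
    exact hf₁
  have hyN : c * (g * f * g⁻¹) * c⁻¹ ∈ normalizer (F : Set G) := by
    rw [mem_normalizer_iff]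
    intro f₀
    constructor
    · exact hclaim _ hyT f₀
    · intro h
      have h1 := hclaim _ (inv_mem hyT) _ h
      have e : (c * (g * f * g⁻¹) * c⁻¹)⁻¹ * (c * (g * f * g⁻¹) * c⁻¹ * f₀ * (c * (g * f * g⁻¹) * c⁻¹)⁻¹) *
          (c * (g * f * g⁻¹) * c⁻¹)⁻¹⁻¹ = f₀ := by group
      rwa [e] at h1
  have hyF : c * (g * f * g⁻¹) * c⁻¹ ∈ F := by
    refine hSC (c * g) ⟨⟨f, hf, ?_⟩, hyN⟩
    show (c * g) * f * (c * g)⁻¹ = _
    group
  have h1 := (mem_normalizer_iff.mp (inv_mem hc) _).mp (hFL hyF)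
  have e : c⁻¹ * (c * (g * f * g⁻¹) * c⁻¹) * c⁻¹⁻¹ = g * f * g⁻¹ := by group
  rwa [e] at h1

/-- The normal `p`-complement for the smallest prime. -/
theorem hnpc_of_hyp {E : Subgroup G} (hH : Hyp G E) (hdiv : p ∣ Nat.card E)
    (hmin : ∀ q : ℕ, q.Prime → q ∣ Nat.card E → p ≤ q) : HasNormalPComplement p E := by
  have hpp : p.Prime := hp.out
  let P₀ : Sylow p E := default
  let P : Subgroup G := (P₀ : Subgroup E).map E.subtype
  have hPE : P ≤ E := Subgroup.map_subtype_le _
  have hPp : IsPGroup p P := P₀.isPGroup'.map _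
  have hsub : P.subgroupOf E = (P₀ : Subgroup E) := subOf_map E _
  have hrel : ¬ p ∣ P.relIndex E := by
    rw [Subgroup.relIndex, hsub]
    exact P₀.not_dvd_index
  have hcPc : Nat.card P = Nat.card (P₀ : Subgroup E) := Subgroup.card_map_of_injective E.subtype_injective
  by_cases hc : IsCyclic ↥(P₀ : Subgroup E)
  · have hn : Nat.card E ≠ 1 := by
      intro h1
      rw [h1] at hdiv
      exact hpp.one_lt.ne' (Nat.dvd_one.mp hdiv)
    have hmf : (Nat.card E).minFac = p :=
      le_antisymm (Nat.minFac_le_of_dvd hpp.two_le hdiv)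
        (hmin _ (Nat.minFac_prime hn) (Nat.minFac_dvd _))
    have hcc := IsCyclic.isComplement' hmf (P := P₀) hc
    exact ⟨P₀, _, MonoidHom.normal_ker _, hcc⟩
  · have hc' : ¬ IsCyclic ↥P := by
      intro h
      apply hc
      let e := (P₀ : Subgroup E).equivMapOfInjective E.subtype E.subtype_injective
      exact isCyclic_of_surjective e.symm.toMonoidHom e.symm.surjective
    obtain ⟨D, hDP, hD1, hDlt, hSC⟩ := hH p hpp P hPE hPp hrel hc'
    have hDE : D ≤ E := hDP.trans hPE
    have hcD : Nat.card (D.subgroupOf E) = Nat.card D := Nat.card_congr (Subgroup.subgroupOfEquivOfLe hDE).toEquiv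
    refine hnpc_of_sc hmin P₀ (D := D.subgroupOf E) (by rwa [hcD]) ?_ (by rw [hcD, ← hcPc]; exact hDlt) ?_
    · intro x hx
      rw [Subgroup.mem_subgroupOf] at hx
      obtain ⟨w, hw, he⟩ := hDP hx
      have : w = x := Subtype.ext he
      rwa [← this]
    · intro E' hE'P hE'c g
      have hF1 : E'.map E.subtype ≤ P := Subgroup.map_mono hE'P
      have hF2 : Nat.card (E'.map E.subtype) = Nat.card E' := Subgroup.card_map_of_injective E.subtype_injective
      have h3 := hSC (E'.map E.subtype) hF1 (by rw [hF2]; rwa [hcD] at hE'c) (g : G)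
      rintro u ⟨hu1, hu2⟩
      have hmem : ∀ z (hz : z ∈ E), z ∈ E'.map E.subtype ↔ (⟨z, hz⟩ : E) ∈ E' := by
        intro z hz
        constructor
        · rintro ⟨w, hw, rfl⟩
          exact hw
        · intro h
          exact ⟨_, h, rfl⟩
      have h5 : (u : G) ∈ E'.map E.subtype := by
        refine h3 ⟨?_, ?_⟩
        · obtain ⟨w, hw, rfl⟩ := hu1
          exact ⟨w, ⟨w, hw, rfl⟩, rfl⟩
        · show (u : G) ∈ normalizer ((E'.map E.subtype : Subgroup G) : Set G)
          rw [mem_normalizer_iff]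
          intro z
          by_cases hz : z ∈ E
          · have h6 : (u : G) * z * (u : G)⁻¹ ∈ E := mul_mem (mul_mem u.2 hz) (inv_mem u.2)
            rw [hmem z hz, hmem _ h6]
            exact mem_normalizer_iff.mp hu2 ⟨z, hz⟩
          · constructor
            · intro h
              exact absurd ((Subgroup.map_subtype_le E') h) hz
            · intro h
              exfalso
              apply hz
              have h6 := (Subgroup.map_subtype_le E') h
              have e : z = (u : G)⁻¹ * ((u : G) * z * (u : G)⁻¹) * (u : G) := by group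
              rw [e]
              exact mul_mem (mul_mem (inv_mem u.2) h6) u.2
      exact (hmem _ u.2).mp h5

/-- The hypothesis for a normal Hall `p'`-subgroup. -/
theorem hyp_sub {E K : Subgroup G} (hH : Hyp G E) (hKE : K ≤ E) (hKc : Nat.Coprime (Nat.card K) p) {j : ℕ}
    (hj : K.relIndex E = p ^ j) : Hyp G K := by
  have hpp : p.Prime := hp.out
  intro q hq P hPK hPq hrel hnc
  have hqp : q ≠ p := by
    rintro rfl
    by_cases hPt : Nontrivial P
    · obtain ⟨n, hn⟩ := hPq.exists_card_eq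
      have hn0 : n ≠ 0 := by
        rintro rfl
        have := Finite.one_lt_card_iff_nontrivial.mpr hPt
        rw [hn] at this
        simp at this
      have h1 : q ∣ Nat.card P := by
        rw [hn]
        exact dvd_pow_self q hn0
      have h2 : q ∣ Nat.card K := h1.trans (Subgroup.card_dvd_of_le hPK)
      have h3 := Nat.dvd_gcd h2 (dvd_refl q)
      rw [hKc] at h3
      exact hq.one_lt.ne' (Nat.dvd_one.mp h3)
    · apply hnc
      rw [not_nontrivial_iff_subsingleton] at hPt
      exact inferInstance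
  refine hH q hq P (hPK.trans hKE) hPq ?_ hnc
  rw [← Subgroup.relIndex_mul_relIndex P K E hPK hKE, hj]
  intro h
  rcases (Nat.Prime.dvd_mul hq).mp h with h1 | h1
  · exact hrel h1
  · exact hqp ((Nat.prime_dvd_prime_iff_eq hq hpp).mp (hq.dvd_of_dvd_pow h1))

/-- The hypothesis in the quotient by a normal Hall `p'`-subgroup. -/
theorem hyp_quot {E K : Subgroup G} [hKn : K.Normal] (hKE : K ≤ E) (hH : Hyp G E) (hKc : Nat.Coprime (Nat.card K) p)
    {j : ℕ} (hj : K.relIndex E = p ^ j) : Hyp (G ⧸ K) (E.map (QuotientGroup.mk' K)) := by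
  have hpp : p.Prime := hp.out
  let π := QuotientGroup.mk' K
  have hcm : (E.map π).comap π = E := by
    rw [Subgroup.comap_map_eq]
    have : π.ker = K := QuotientGroup.ker_mk' _
    rw [this]
    exact sup_eq_left.mpr hKE
  have hcardE : Nat.card E = Nat.card K * Nat.card (E.map π) := by
    have := Cfsg.Agent.Lib.Basic.card_comap_mk (N := K) (E.map π)
    rwa [hcm] at this
  have hcardE2 : Nat.card E = p ^ j * Nat.card K := by
    have h1 := Subgroup.index_mul_card (K.subgroupOf E)
    have h2 : Nat.card (K.subgroupOf E) = Nat.card K := Nat.card_congr (Subgroup.subgroupOfEquivOfLe hKE).toEquiv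
    rw [h2] at h1
    rw [← h1]
    congr 1
  have hcardb : Nat.card (E.map π) = p ^ j := by
    have h1 : Nat.card K * Nat.card (E.map π) = Nat.card K * p ^ j := by
      rw [← hcardE, hcardE2, mul_comm]
    exact Nat.eq_of_mul_eq_mul_left Nat.card_pos h1
  intro q hq Q hQE hQq hrel hnc
  haveI : Fact q.Prime := ⟨hq⟩
  have hQnt : Nontrivial Q := by
    by_contra hQt
    apply hnc
    rw [not_nontrivial_iff_subsingleton] at hQt
    exact inferInstance
  have hqp : q = p := by
    obtain ⟨n, hn⟩ := hQq.exists_card_eq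
    have hn0 : n ≠ 0 := by
      rintro rfl
      have := Finite.one_lt_card_iff_nontrivial.mpr hQnt
      rw [hn] at this
      simp at this
    have h1 : q ∣ Nat.card Q := by
      rw [hn]
      exact dvd_pow_self q hn0
    have h2 : q ∣ p ^ j := by
      rw [← hcardb]
      exact h1.trans (Subgroup.card_dvd_of_le hQE)
    exact (Nat.prime_dvd_prime_iff_eq hq hpp).mp (hq.dvd_of_dvd_pow h2)
  subst hqp
  have hQeq : Q = E.map π := by
    apply le_antisymm hQE
    have h1 : Q.relIndex (E.map π) ∣ q ^ j := by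
      rw [← hcardb]
      exact Subgroup.index_dvd_card _
    obtain ⟨i, hi, hi2⟩ := (Nat.dvd_prime_pow hq).mp h1
    have hi0 : i = 0 := by
      by_contra hne
      apply hrel
      rw [hi2]
      exact dvd_pow_self q hne
    rw [hi0, pow_zero] at hi2
    exact Subgroup.relIndex_eq_one.mp hi2
  let P₀ : Sylow q E := default
  let P : Subgroup G := (P₀ : Subgroup E).map E.subtype
  have hPE : P ≤ E := Subgroup.map_subtype_le _
  have hPp : IsPGroup q P := P₀.isPGroup'.map _
  have hsub : P.subgroupOf E = (P₀ : Subgroup E) := subOf_map E _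
  have hrelP : ¬ q ∣ P.relIndex E := by
    rw [Subgroup.relIndex, hsub]
    exact P₀.not_dvd_index
  have hPK : ∀ x ∈ P, x ∈ K → x = 1 := by
    intro x hxP hxK
    obtain ⟨n, hn⟩ := hPp.exists_card_eq
    have h3 : orderOf x ∣ Nat.card K := Subgroup.orderOf_dvd_natCard K hxK
    have h4 : orderOf x ∣ q ^ n := by
      rw [← hn]
      exact Subgroup.orderOf_dvd_natCard P hxP
    have h5 : Nat.Coprime (Nat.card K) (q ^ n) := Nat.Coprime.pow_right n hKc
    exact orderOf_eq_one_iff.mp (Nat.eq_one_of_dvd_coprimes h5 h3 h4)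
  have hinj : ∀ A : Subgroup G, A ≤ P → Nat.card (A.map π) = Nat.card A := by
    intro A hA
    have hf : Function.Injective (π.comp A.subtype) := by
      rw [injective_iff_map_eq_one]
      intro a ha
      have h1 : (a : G) ∈ K := (QuotientGroup.eq_one_iff _).mp ha
      exact Subtype.ext (hPK a (hA a.2) h1)
    have h2 : A.map π = (π.comp A.subtype).range := by
      rw [MonoidHom.range_comp, Subgroup.range_subtype]
    rw [h2]
    exact (Nat.card_congr (MonoidHom.ofInjective hf).toEquiv).symm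
  have hcP : Nat.card P = q ^ j := by
    obtain ⟨a, ha⟩ := hPp.exists_card_eq
    have h1 := Subgroup.index_mul_card (P.subgroupOf E)
    have h2 : Nat.card (P.subgroupOf E) = Nat.card P := Nat.card_congr (Subgroup.subgroupOfEquivOfLe hPE).toEquiv
    rw [h2, ha, hcardE2] at h1
    have h3 : Nat.Coprime (q ^ a) (Nat.card K) := Nat.Coprime.pow_left a (Nat.coprime_comm.mp hKc)
    have h4 : q ^ a ∣ q ^ j := h3.dvd_of_dvd_mul_right (h1 ▸ dvd_mul_left _ _)
    have h5 : Nat.Coprime (q ^ j) ((P.subgroupOf E).index) :=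
      Nat.Coprime.pow_left j ((Nat.Prime.coprime_iff_not_dvd hq).mpr hrelP)
    have h6 : q ^ j ∣ q ^ a := h5.dvd_of_dvd_mul_left (h1.symm ▸ dvd_mul_right _ _)
    rw [ha]
    exact Nat.dvd_antisymm h4 h6
  have hPb : P.map π = E.map π := by
    apply Subgroup.eq_of_le_of_card_ge (Subgroup.map_mono hPE)
    rw [hinj P le_rfl, hcP, hcardb]
  have hQP : Q = P.map π := hQeq.trans hPb.symm
  have hncP : ¬ IsCyclic ↥P := by
    intro h
    apply hnc
    rw [hQP]
    exact isCyclic_of_surjective (π.subgroupMap P) (π.subgroupMap_surjective P)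
  obtain ⟨D, hDP, hD1, hDlt, hSC⟩ := hH q hq P hPE hPp hrelP hncP
  refine ⟨D.map π, by rw [hQP]; exact Subgroup.map_mono hDP, by rwa [hinj D hDP], ?_, ?_⟩
  · rw [hinj D hDP, hQP, hinj P le_rfl]
    exact hDlt
  intro Fb hFQ hcF gb
  let F : Subgroup G := P ⊓ Fb.comap π
  have hFP : F ≤ P := inf_le_left
  have hFmap : F.map π = Fb := by
    apply le_antisymm
    · rintro _ ⟨x, hx, rfl⟩
      exact hx.2
    · intro y hy
      have h1 : y ∈ P.map π := by
        rw [← hQP]
        exact hFQ hy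
      obtain ⟨x, hx, rfl⟩ := h1
      exact ⟨x, ⟨hx, hy⟩, rfl⟩
  have hcFF : Nat.card F = Nat.card Fb := by
    rw [← hinj F hFP, hFmap]
  have hs := hSC F hFP (by
    rw [hcFF]
    rcases hcF with h | ⟨h1, h2⟩
    · left
      rw [h, hinj D hDP]
    · right
      rw [← hinj D hDP]
      exact ⟨h1, h2⟩)
  rintro _ ⟨⟨fb, hfb, rfl⟩, hn⟩
  obtain ⟨g, rfl⟩ := QuotientGroup.mk'_surjective K gb
  rw [← hFmap] at hfb
  obtain ⟨f, hf, rfl⟩ := hfb
  have hconj : g * f * g⁻¹ ∈ normalizer ((Fb.comap π : Subgroup G) : Set G) := by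
    rw [mem_normalizer_iff]
    intro y
    have h1 := mem_normalizer_iff.mp hn (π y)
    rw [Subgroup.mem_comap, Subgroup.mem_comap]
    rw [h1]
    simp only [map_mul, map_inv]
    rfl
  have h2 := conj_step (p := q) (F := F) (L := Fb.comap π) hKc (hPp.to_le hFP) inf_le_right
    (by
      intro l hl
      have h3 : π l ∈ F.map π := by
        rw [hFmap]
        exact hl
      obtain ⟨f₁, hf₁, he⟩ := h3
      refine ⟨f₁, hf₁, f₁⁻¹ * l, QuotientGroup.eq.mp he, ?_⟩
      group) hs hf hconj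
  have h3 : π (g * f * g⁻¹) ∈ Fb := h2
  simp only [map_mul, map_inv] at h3
  exact h3

end Step

/-- **The main theorem.** -/
theorem supersolvable_of_hyp : ∀ (c : ℕ) (G : Type u) [Group G] [Finite G] (E : Subgroup G) [E.Normal],
    Nat.card E = c → IsSupersolvable (G ⧸ E) → Hyp G E → IsSupersolvable G := by
  intro c
  induction c using Nat.strong_induction_on with
  | _ c ih =>
  intro G _ _ E hEn hc hS hH
  by_cases hE1 : E = ⊥
  · subst hE1
    exact (Cfsg.Agent.Lib.Basic.isSupersolvable_congr (QuotientGroup.quotientBot (G := G))).mp hS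
  have hcn1 : Nat.card E ≠ 1 := fun h => hE1 (Subgroup.card_eq_one.mp h)
  let p := (Nat.card E).minFac
  have hpp : p.Prime := Nat.minFac_prime hcn1
  haveI : Fact p.Prime := ⟨hpp⟩
  have hdiv : p ∣ Nat.card E := Nat.minFac_dvd _
  have hmin : ∀ q : ℕ, q.Prime → q ∣ Nat.card E → p ≤ q := fun q hq hd => Nat.minFac_le_of_dvd hq.two_le hd
  have h1 := hnpc_of_hyp hH hdiv hmin
  obtain ⟨K', hK'n, hK'c, j, hj⟩ := Cfsg.Agent.Lib.Transfer.exists_hall_of_hasNormalPComplement h1
  haveI := hK'n
  let K : Subgroup G := K'.map E.subtype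
  have hKE : K ≤ E := Subgroup.map_subtype_le _
  have hKcard : Nat.card K = Nat.card K' := Subgroup.card_map_of_injective E.subtype_injective
  have hKc : Nat.Coprime (Nat.card K) p := by rwa [hKcard]
  have hKsub : K.subgroupOf E = K' := subOf_map E _
  have hKrel : K.relIndex E = p ^ j := by
    rw [Subgroup.relIndex, hKsub]
    exact hj
  have hKn : K.Normal := by
    refine ⟨fun n hn g => ?_⟩
    obtain ⟨w, hw, rfl⟩ := hn
    have h2 := (Cfsg.Agent.Lib.Transfer.mem_iff_coprime_of_hall hK'c hj w).mp hw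
    have h3 : g * (w : G) * g⁻¹ ∈ E := hEn.conj_mem _ w.2 g
    refine ⟨⟨_, h3⟩, ?_, rfl⟩
    show (⟨_, h3⟩ : E) ∈ K'
    rw [Cfsg.Agent.Lib.Transfer.mem_iff_coprime_of_hall hK'c hj]
    have h4 : orderOf (⟨_, h3⟩ : E) = orderOf w := by
      rw [← Subgroup.orderOf_coe, ← Subgroup.orderOf_coe w]
      show orderOf (g * (w : G) * g⁻¹) = _
      exact MulEquiv.orderOf_eq (MulAut.conj g) _
    rwa [h4]
  haveI := hKn
  by_cases hK1 : K = ⊥
  · -- `E` is a `p`-group
    have hK'1 : K' = ⊥ := by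
      rw [← hKsub, hK1]
      simp
    have hEc : Nat.card E = p ^ j := by
      rw [← hj, hK'1, Subgroup.index_bot]
    have hEp : IsPGroup p E := IsPGroup.of_card hEc
    by_cases hcyc : IsCyclic ↥E
    · exact Cfsg.Agent.Lib.Basic.isSupersolvable_of_cyclic_normal E hS
    · have hrel : ¬ p ∣ E.relIndex E := by
        rw [Subgroup.relIndex_self]
        intro h
        exact hpp.one_lt.ne' (Nat.dvd_one.mp h)
      obtain ⟨D, hDE, hD1, hDlt, hSC⟩ := hH p hpp E le_rfl hEp hrel hcyc
      exact supersolvable_of_tri (p := p) (Nat.card E) G E rfl hEp (tri_of_sc E hEp hDE hD1 hDlt hSC) hS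
  · -- reduce to the quotient and `K`
    have hKlt : Nat.card K < c := by
      rw [← hc]
      refine lt_of_le_of_ne (Subgroup.card_le_of_le hKE) ?_
      intro h
      rw [hKcard] at h
      rw [← h] at hdiv
      have h3 := Nat.dvd_gcd hdiv (dvd_refl p)
      rw [hK'c] at h3
      exact hpp.one_lt.ne' (Nat.dvd_one.mp h3)
    have hK1' : 1 < Nat.card K := by
      refine lt_of_le_of_ne Nat.card_pos ?_
      intro h
      exact hK1 (Subgroup.card_eq_one.mp h.symm)
    haveI hbn : (E.map (QuotientGroup.mk' K)).Normal := Subgroup.Normal.map hEn _ (QuotientGroup.mk'_surjective _)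
    have hcm : (E.map (QuotientGroup.mk' K)).comap (QuotientGroup.mk' K) = E := by
      rw [Subgroup.comap_map_eq]
      have : (QuotientGroup.mk' K).ker = K := QuotientGroup.ker_mk' _
      rw [this]
      exact sup_eq_left.mpr hKE
    have hcardE : Nat.card E = Nat.card K * Nat.card (E.map (QuotientGroup.mk' K)) := by
      have := Cfsg.Agent.Lib.Basic.card_comap_mk (N := K) (E.map (QuotientGroup.mk' K))
      rwa [hcm] at this
    have hlt2 : Nat.card (E.map (QuotientGroup.mk' K)) < c := by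
      rw [← hc, hcardE]
      have hpos : 0 < Nat.card (E.map (QuotientGroup.mk' K)) := Nat.card_pos
      nlinarith
    have hQ : IsSupersolvable ((G ⧸ K) ⧸ (E.map (QuotientGroup.mk' K))) :=
      (Cfsg.Agent.Lib.Basic.isSupersolvable_congr (QuotientGroup.quotientQuotientEquivQuotient K E hKE)).mpr hS
    have h2 : IsSupersolvable (G ⧸ K) :=
      ih _ hlt2 (G ⧸ K) (E.map (QuotientGroup.mk' K)) rfl hQ (hyp_quot hKE hH hKc hKrel)
    exact ih _ hKlt G K rfl h2 (hyp_sub hH hKE hKc hKrel)

end Cfsg.Agent.Lib.LocalEven2.SCN
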