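import Cfsg.Agent.Lib.LocalEven2.StrongEmbed
import Cfsg.Agent.Lib.LocalEven2.CD
import Cfsg.Agent.Lib.PGroups.Parts
import Cfsg.Agent.Lib.OddLocal.Sup
import Cfsg.Agent.Lib.Basic.Nilpotent
import Cfsg.Agent.Lib.Coprime.Action
import Cfsg.Agent.Lib.Components.Signal
import Cfsg.Prelude.Def_Transfer

/-!
# Strongly `p`-embedded subgroups: further facts
-/

set_option autoImplicit false
set_option linter.unusedSectionVars false
set_option linter.style.haveILetI false

namespace Cfsg.Agent.Lib.LocalEven2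

open Cfsg Cfsg.Agent.Lib.Basic Cfsg.Agent.Lib.Coprime Subgroup

variable {G : Type*} [Group G] {p : ℕ} [Fact p.Prime]

/-- A strongly `p`-embedded subgroup contains the normalizers of its nontrivial `p`-subgroups. -/
theorem normalizer_le_of_strongly_embedded [Finite G] {H T : Subgroup G}
    (hse : ∀ g : G, g ∉ H → ¬ p ∣ Nat.card ↥(H ⊓ H.map (MulAut.conj g).toMonoidHom))
    (hT : IsPGroup p T) (hTH : T ≤ H) (hT1 : T ≠ ⊥) : normalizer (T : Set G) ≤ H := by
  intro g hg
  by_contra hgH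
  apply hse g hgH
  refine (dvd_card_of_ne_bot hT hT1).trans (Subgroup.card_dvd_of_le ?_)
  refine le_inf hTH ?_
  intro x hx
  rw [mem_conj_map]
  have h1 := (mem_normalizer_iff.1 (Subgroup.inv_mem _ hg) x).1 hx
  simp only [inv_inv] at h1
  exact hTH h1

/-- A strongly `p`-embedded subgroup contains the centralizers of its nontrivial `p`-elements. -/
theorem centralizer_le_of_strongly_embedded [Finite G] {H : Subgroup G}
    (hse : ∀ g : G, g ∉ H → ¬ p ∣ Nat.card ↥(H ⊓ H.map (MulAut.conj g).toMonoidHom))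
    {e : G} (he : ∃ k, orderOf e = p ^ k) (heH : e ∈ H) (he1 : e ≠ 1) :
    centralizer ({e} : Set G) ≤ H := by
  have h1 := normalizer_le_of_strongly_embedded hse (isPGroup_zpowers he)
    ((zpowers_le).2 heH) (by
      intro h
      exact he1 (Subgroup.zpowers_eq_bot.1 h))
  refine le_trans ?_ h1
  intro c hc
  apply Cfsg.Agent.Lib.PGroups.mem_normalizer_of_conj_le'
  intro w hw
  obtain ⟨k, rfl⟩ := Subgroup.mem_zpowers_iff.1 hw
  have h2 : Commute c e := mem_centralizer_singleton_iff.1 hc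
  have e2 : c * e ^ k * c⁻¹ = e ^ k := by
    rw [(h2.zpow_right k).eq]
    group
  rwa [e2]

/-- `m` with `[m, a]` in a normal `p'`-subgroup `K`, `a` a nontrivial `p`-element of `H`, lies in `K H`. -/
theorem mem_sup_of_comm [Finite G] {H K : Subgroup G} [hKn : K.Normal]
    (hse : ∀ g : G, g ∉ H → ¬ p ∣ Nat.card ↥(H ⊓ H.map (MulAut.conj g).toMonoidHom))
    (hK : ¬ p ∣ Nat.card K) {a m : G} (ha : ∃ k, orderOf a = p ^ k) (haH : a ∈ H) (ha1 : a ≠ 1)
    (hm : m * a * m⁻¹ * a⁻¹ ∈ K) : m ∈ K ⊔ H := by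
  have hpp : p.Prime := Fact.out
  set M' : Subgroup G := K ⊔ zpowers a with hM'
  have haM : a ∈ M' := (le_sup_right : zpowers a ≤ M') (mem_zpowers a)
  have hyM : m * a * m⁻¹ ∈ M' := by
    have e : m * a * m⁻¹ = (m * a * m⁻¹ * a⁻¹) * a := by group
    rw [e]
    exact M'.mul_mem ((le_sup_left : K ≤ M') hm) haM
  have hyp : ∃ k, orderOf (m * a * m⁻¹) = p ^ k := by
    obtain ⟨k, hk⟩ := ha
    exact ⟨k, by rw [orderOf_conj, hk]⟩
  obtain ⟨m', hm', T, hT, hTM, haT, hT2⟩ := exists_conj_common_of_pElement (M := M') ha hyp haM hyM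
  have hTa : T = zpowers a := by
    apply le_antisymm _ ((zpowers_le).2 haT)
    have hle : zpowers a ≤ T := (zpowers_le).2 haT
    have h1 : Nat.card T ∣ Nat.card (zpowers a) * Nat.card K := by
      have h2 := Subgroup.card_dvd_of_le hTM
      rw [hM', sup_comm] at h2
      exact h2.trans (card_sup_dvd_of_normal _ _)
    obtain ⟨j, hj⟩ := IsPGroup.iff_card.1 hT
    have h3 : (Nat.card T).Coprime (Nat.card K) := by
      rw [hj]
      exact Nat.Coprime.pow_left _ ((Nat.Prime.coprime_iff_not_dvd hpp).2 hK)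
    have h4 : Nat.card T ∣ Nat.card (zpowers a) := h3.dvd_of_dvd_mul_right h1
    have h5 := Subgroup.eq_of_le_of_card_ge hle (Nat.le_of_dvd Nat.card_pos h4)
    rw [h5]
  rw [hTa] at hT2
  have hg : m' * m ∈ normalizer ((zpowers a : Subgroup G) : Set G) := by
    apply Cfsg.Agent.Lib.PGroups.mem_normalizer_of_conj_le'
    intro w hw
    obtain ⟨k, rfl⟩ := Subgroup.mem_zpowers_iff.1 hw
    have e : m' * m * a ^ k * (m' * m)⁻¹ = ((m' * m) * a * (m' * m)⁻¹) ^ k := conj_zpow.symm
    have e2 : (m' * m) * a * (m' * m)⁻¹ = m' * (m * a * m⁻¹) * m'⁻¹ := by group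
    rw [e, e2]
    exact Subgroup.zpow_mem _ hT2 k
  have hgH : m' * m ∈ H := normalizer_le_of_strongly_embedded hse (isPGroup_zpowers ha)
    ((zpowers_le).2 haH) (by
      intro h
      exact ha1 (Subgroup.zpowers_eq_bot.1 h)) hg
  have hm'2 : m' ∈ K ⊔ H := by
    have hle : M' ≤ K ⊔ H := sup_le le_sup_left ((zpowers_le).2 (Subgroup.mem_sup_right haH))
    exact hle hm'
  have e : m = m'⁻¹ * (m' * m) := by group
  rw [e]
  exact Subgroup.mul_mem _ (Subgroup.inv_mem _ hm'2) (Subgroup.mem_sup_right hgH)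

/-- The join of two commuting cyclic groups of exponent `p` is elementary abelian. -/
theorem ea_sup_zpowers {a b : G} (ha : a ^ p = 1) (hb : b ^ p = 1) (hc : Commute a b) [Finite G] :
    IsElementaryAbelian p (zpowers a ⊔ zpowers b) := by
  constructor
  · haveI : IsMulCommutative (zpowers a) := ⟨⟨fun u v => by
      obtain ⟨u, i, hi⟩ := u
      obtain ⟨v, j, hj⟩ := v
      apply Subtype.ext
      simp only [Subgroup.coe_mul]
      rw [← hi, ← hj]
      exact (Commute.refl a).zpow_zpow i j⟩⟩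
    haveI : IsMulCommutative (zpowers b) := ⟨⟨fun u v => by
      obtain ⟨u, i, hi⟩ := u
      obtain ⟨v, j, hj⟩ := v
      apply Subtype.ext
      simp only [Subgroup.coe_mul]
      rw [← hi, ← hj]
      exact (Commute.refl b).zpow_zpow i j⟩⟩
    apply isMulCommutative_sup_of_commute
    intro u hu
    rw [mem_centralizer_iff]
    intro v hv
    obtain ⟨i, rfl⟩ := Subgroup.mem_zpowers_iff.1 hu
    obtain ⟨j, rfl⟩ := Subgroup.mem_zpowers_iff.1 hv
    exact (hc.zpow_zpow i j).eq.symm
  · intro w hw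
    have hle : zpowers b ≤ normalizer ((zpowers a : Subgroup G) : Set G) := by
      intro y hy
      obtain ⟨j, rfl⟩ := Subgroup.mem_zpowers_iff.1 hy
      apply Cfsg.Agent.Lib.PGroups.mem_normalizer_of_conj_le'
      intro u hu
      obtain ⟨i, rfl⟩ := Subgroup.mem_zpowers_iff.1 hu
      have e : b ^ j * a ^ i * (b ^ j)⁻¹ = a ^ i := by
        rw [← (hc.zpow_zpow i j).eq]; group
      rw [e]
      exact hu
    obtain ⟨k, hk, y, hy, rfl⟩ := (mem_sup_iff_of_le_normalizer hle w).1 hw
    obtain ⟨i, rfl⟩ := Subgroup.mem_zpowers_iff.1 hk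
    obtain ⟨j, rfl⟩ := Subgroup.mem_zpowers_iff.1 hy
    have h1 : (a ^ i) ^ p = 1 := by
      rw [← zpow_natCast, ← zpow_mul, mul_comm, zpow_mul, zpow_natCast, ha, one_zpow]
    have h2 : (b ^ j) ^ p = 1 := by
      rw [← zpow_natCast, ← zpow_mul, mul_comm, zpow_mul, zpow_natCast, hb, one_zpow]
    rw [(hc.zpow_zpow i j).mul_pow, h1, h2, one_mul]

/-- The intersection of a Sylow subgroup with a normal subgroup of order divisible by `p` has order
divisible by `p`. -/
theorem dvd_card_inf_sylow [Finite G] (S : Sylow p G) (T : Subgroup G) [T.Normal] (h : p ∣ Nat.card T) :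
    p ∣ Nat.card ↥((S : Subgroup G) ⊓ T) := by
  have hpp : p.Prime := Fact.out
  have h1 := sylow_relIndex_normal_not_dvd S T
  have h2 : Nat.card ↥((S : Subgroup G) ⊓ T) * ((S : Subgroup G) ⊓ T).relIndex T = Nat.card T :=
    card_mul_relIndex_of_le inf_le_right
  rw [Subgroup.inf_relIndex_right] at h2
  rw [← h2] at h
  exact (hpp.dvd_mul.1 h).resolve_right h1

/-- A subgroup of a `p'`-group that is a `p`-group is trivial. -/
theorem eq_bot_of_isPGroup_of_not_dvd [Finite G] {T K : Subgroup G} (hT : IsPGroup p T) (hTK : T ≤ K)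
    (hK : ¬ p ∣ Nat.card K) : T = ⊥ := by
  by_contra hne
  exact hK ((dvd_card_of_ne_bot hT hne).trans (Subgroup.card_dvd_of_le hTK))

/-- The main consequence: a noncyclic elementary abelian subgroup of a strongly embedded subgroup
normalizing a `p'`-subgroup `K` forces `K ≤ H`. -/
theorem le_of_ea_of_strongly_embedded [Finite G] {H K E : Subgroup G}
    (hse : ∀ g : G, g ∉ H → ¬ p ∣ Nat.card ↥(H ⊓ H.map (MulAut.conj g).toMonoidHom))
    (hK : ¬ p ∣ Nat.card K) (hE : IsElementaryAbelian p E) (hEH : E ≤ H) (hEc : p < Nat.card E)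
    (hEK : E ≤ normalizer (K : Set G)) : K ≤ H := by
  have hpp : p.Prime := Fact.out
  refine (Cfsg.Agent.Lib.Components.le_iSup_centralizer_hyperplane hE hK hEK).trans (iSup_le ?_)
  rintro ⟨B, hBE, hBi⟩
  have hB1 : B ≠ ⊥ := by
    rintro rfl
    rw [Subgroup.relIndex_bot_left] at hBi
    omega
  obtain ⟨⟨e, heB⟩, he1⟩ := Subgroup.ne_bot_iff_exists_ne_one.1 hB1
  have he1' : e ≠ 1 := fun h => he1 (Subtype.ext h)
  have hep : e ^ p = 1 := hE.2 e (hBE heB)
  have hord : orderOf e = p := orderOf_eq_prime hep he1'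
  have h2 := centralizer_le_of_strongly_embedded hse (e := e) ⟨1, by simpa using hord⟩ (hEH (hBE heB)) he1'
  refine inf_le_right.trans (le_trans ?_ h2)
  intro c hc
  rw [mem_centralizer_singleton_iff]
  exact (mem_centralizer_iff.1 hc e heB).symm

end Cfsg.Agent.Lib.LocalEven2
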