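import Cfsg.Agent.Lib.LocalEven2.Sylow
import Cfsg.Prelude.Def_SylowChains

/-!
# Families of subgroups and Sylow control: conjugation
-/

set_option autoImplicit false
set_option linter.unusedSectionVars false

namespace Cfsg.Agent.Lib.LocalEven2

open Cfsg Cfsg.Agent.Lib.Basic Cfsg.Agent.Lib.LocalEven Cfsg.Agent.Lib.Coprime

variable {G : Type*} [Group G] {p : ℕ} [Fact p.Prime]

theorem mem_subgroupConjRight {X : Subgroup G} {g x : G} :
    x ∈ subgroupConjRight g X ↔ g * x * g⁻¹ ∈ X := by
  unfold subgroupConjRight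
  rw [mem_conj_map, inv_inv]

theorem subgroupConjRight_mul (X : Subgroup G) (g h : G) :
    subgroupConjRight (g * h) X = subgroupConjRight h (subgroupConjRight g X) := by
  ext x
  simp only [mem_subgroupConjRight]
  have e : g * h * x * (g * h)⁻¹ = g * (h * x * h⁻¹) * g⁻¹ := by group
  rw [e]

theorem subgroupConjRight_one (X : Subgroup G) : subgroupConjRight 1 X = X := by
  ext x
  simp [mem_subgroupConjRight]

theorem subgroupConjRight_inv_self (X : Subgroup G) (g : G) :
    subgroupConjRight g (subgroupConjRight g⁻¹ X) = X := by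
  rw [← subgroupConjRight_mul, inv_mul_cancel, subgroupConjRight_one]

theorem subgroupConjRight_self_inv (X : Subgroup G) (g : G) :
    subgroupConjRight g⁻¹ (subgroupConjRight g X) = X := by
  rw [← subgroupConjRight_mul, mul_inv_cancel, subgroupConjRight_one]

theorem subgroupConjRight_of_mem {X : Subgroup G} {g : G} (hg : g ∈ X) : subgroupConjRight g X = X := by
  ext x
  rw [mem_subgroupConjRight]
  constructor
  · intro h
    have e : x = g⁻¹ * (g * x * g⁻¹) * g := by group
    rw [e]
    exact X.mul_mem (X.mul_mem (X.inv_mem hg) h) hg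
  · intro h
    exact X.mul_mem (X.mul_mem hg h) (X.inv_mem hg)

theorem subgroupConjRight_inf (X Y : Subgroup G) (g : G) :
    subgroupConjRight g (X ⊓ Y) = subgroupConjRight g X ⊓ subgroupConjRight g Y := by
  ext x
  simp only [Subgroup.mem_inf, mem_subgroupConjRight]

theorem subgroupConjRight_mono {X Y : Subgroup G} (h : X ≤ Y) (g : G) :
    subgroupConjRight g X ≤ subgroupConjRight g Y := by
  intro x hx
  rw [mem_subgroupConjRight] at *
  exact h hx

/-- Conjugates of Sylow subgroups as a Sylow subgroup. -/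
theorem exists_sylow_subgroupConjRight (R : Sylow p G) (g : G) :
    ∃ Q : Sylow p G, (Q : Subgroup G) = subgroupConjRight g (R : Subgroup G) :=
  exists_sylow_eq_conj R g⁻¹

/-- Any two Sylow subgroups are conjugate, right conjugation form. -/
theorem exists_subgroupConjRight_eq [Finite G] (R Q : Sylow p G) :
    ∃ g : G, (Q : Subgroup G) = subgroupConjRight g (R : Subgroup G) := by
  obtain ⟨h, hh⟩ := MulAction.exists_smul_eq G R Q
  refine ⟨h⁻¹, ?_⟩
  rw [← hh, Sylow.coe_subgroup_smul]
  ext y
  rw [mem_subgroupConjRight, Subgroup.mem_pointwise_smul_iff_inv_smul_mem]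
  simp [MulAut.smul_def, MulAut.conj_apply, mul_assoc]

/-- The members of `𝓕(S)` and conjugation. -/
theorem sylowMembers_conj [Finite G] {𝓕 : Set (Subgroup G)} (h𝓕 : IsNormalSet 𝓕) {S X : Subgroup G}
    (hX : X ∈ sylowMembers p 𝓕 S) (g : G) :
    subgroupConjRight g X ∈ sylowMembers p 𝓕 (subgroupConjRight g S) := by
  obtain ⟨hXF, P, hP⟩ := hX
  refine ⟨h𝓕 X hXF g, ?_⟩
  rw [← subgroupConjRight_inf]
  have hT : IsPGroup p (S ⊓ X : Subgroup G) := by
    rw [← hP]; exact P.isPGroup'.map _
  have hnd : ¬ p ∣ (S ⊓ X : Subgroup G).relIndex X := by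
    rw [← hP]; exact sylow_relIndex_not_dvd P
  have hle : subgroupConjRight g (S ⊓ X) ≤ subgroupConjRight g X :=
    subgroupConjRight_mono inf_le_right g
  have hnd' : ¬ p ∣ (subgroupConjRight g (S ⊓ X)).relIndex (subgroupConjRight g X) := by
    unfold subgroupConjRight
    rw [relIndex_conj]
    exact hnd
  obtain ⟨Q, hQ⟩ := exists_sylow_of_relIndex hle (isPGroup_conj_map hT _) hnd'
  refine ⟨Q, ?_⟩
  rw [hQ]
  exact Subgroup.map_subgroupOf_eq_of_le hle

end Cfsg.Agent.Lib.LocalEven2
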