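import Mathlib
import Cfsg.Prelude.Def_Classical
import Cfsg.Agent.Lib.LocalEven2.Tab
import Cfsg.Agent.Lib.Classical.Symp2

/-! Sylow `2`-subgroups of `A₈` and of `PSp₄(3)` are isomorphic: the explicit table. -/

set_option autoImplicit false
set_option linter.unusedVariables false
set_option linter.unusedSectionVars false

namespace Cfsg.Agent.Lib.LocalEven2.Tab1

open Matrix Cfsg.Agent.Lib.LocalEven2.Tab

abbrev Idx := Fin 2 ⊕ Fin 2

/-- Position of a coordinate. -/
def idx : Idx → ℕ := Sum.elim (fun i => i.val) (fun i => i.val + 2)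

/-- A permutation table, octal digits. -/
def pf (c : ℕ) (k : Fin 8) : Fin 8 := Fin.ofNat 8 (c / 8 ^ k.val)

/-- A matrix code, ternary digits. -/
def tm (c : ℕ) : Matrix Idx Idx (ZMod 3) := fun a b => ((c / 3 ^ (4 * idx a + idx b) : ℕ) : ZMod 3)

def pc : List ℕ := [
  16434824, 9954945, 343525, 4988389, 14571144, 2177847, 5016375, 6823404,
  11788826, 16433690, 2178540, 11789960, 11761281, 343980, 4988844, 6851390,
  16404570, 9953370, 342846, 16406145, 2207205, 9954504, 16405704, 14598675,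
  4987255, 342391, 9953811, 6852069, 14599809, 2177406, 5015934, 6823845,
  9925146, 14570010, 2178981, 9926280, 371511, 14570689, 9925825, 11788371,
  5017068, 14569555, 6822711, 16433235, 11789505, 372204, 372645, 6822270,
  16434369, 5017509, 6850935, 14598234, 11759706, 2207660, 11760840, 14599368,
  16405011, 4987710, 11760147, 6852524, 2206526, 2206071, 371070, 9924691]

def mc : List ℕ := [
  14408200, 29340090, 13165020, 24651849, 30283039, 8417451, 26706799, 17261521,
  14157373, 33541807, 8221503, 30194371, 588088, 1646184, 2175001, 27856933,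
  40517509, 40733667, 6886803, 29554093, 10387195, 30635968, 17667082, 2678176,
  4266984, 1611828, 22428163, 36640305, 1103004, 9743250, 35258899, 19430737,
  24391525, 14337400, 5080737, 28935361, 32022316, 5709018, 28570863, 21586345,
  27097501, 42912984, 17356570, 38894101, 5647768, 16471561, 21963250, 38620411,
  35745343, 27191341, 8695548, 33028866, 16906495, 38230896, 41226823, 41080189,
  40182034, 24729289, 2687539, 9001105, 10472196, 26233225, 22158895, 39007083]

def rt : List ℕ := [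
  1, 2, 3, 4, 5, 6, 7, 8,
  9, 10, 11, 0, 12, 13, 14, 15,
  16, 17, 18, 19, 1, 20, 21, 22,
  23, 24, 25, 26, 3, 2, 27, 17,
  16, 28, 25, 24, 0, 29, 30, 31,
  32, 33, 34, 35, 4, 36, 37, 38,
  39, 40, 10, 41, 6, 5, 42, 33,
  32, 11, 10, 40, 40, 39, 43, 37,
  36, 42, 44, 45, 7, 32, 31, 46,
  29, 0, 11, 47, 9, 8, 33, 42,
  36, 45, 44, 48, 35, 34, 49, 50,
  51, 52, 25, 28, 12, 53, 54, 55,
  56, 57, 18, 58, 14, 13, 59, 52,
  51, 19, 18, 57, 57, 56, 26, 54,
  53, 59, 22, 60, 15, 51, 50, 61,
  2, 1, 19, 52, 59, 53, 60, 22,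
  21, 17, 27, 20, 55, 61, 50, 3,
  26, 56, 14, 58, 23, 61, 55, 54,
  21, 20, 27, 13, 12, 28, 62, 48,
  44, 63, 49, 34, 43, 30, 29, 49,
  63, 41, 48, 62, 47, 38, 46, 31,
  8, 7, 45, 5, 4, 35, 9, 47,
  62, 46, 38, 37, 6, 41, 63, 30,
  43, 39, 24, 23, 58, 16, 15, 60]

def gc : List ℕ := [
  9954945, 343525, 4988389]

def gci : List ℕ := [
  11761281, 4987255, 4988389]

def gm : List ℕ := [
  29340090, 13165020, 24651849]

/-- The table. -/
def r (i : Fin 64) (s : Fin 3) : Fin 64 := Fin.ofNat 64 (rt.getD (3 * i.val + s.val) 0)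

def x (i : Fin 64) : Function.End (Fin 8) := pf (pc.getD i.val 0)

set_option maxRecDepth 100000 in
theorem gA_h₁ : ∀ (s : Fin 3) (k : Fin 8), pf (gc.getD s.val 0) (pf (gci.getD s.val 0) k) = k := by
  decide +kernel

set_option maxRecDepth 100000 in
theorem gA_h₂ : ∀ (s : Fin 3) (k : Fin 8), pf (gci.getD s.val 0) (pf (gc.getD s.val 0) k) = k := by
  decide +kernel

/-- Generators as permutations. -/
def gA₀ (s : Fin 3) : Equiv.Perm (Fin 8) :=
  ⟨pf (gc.getD s.val 0), pf (gci.getD s.val 0), gA_h₂ s, gA_h₁ s⟩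

set_option maxRecDepth 100000 in
theorem gA_sign : ∀ s : Fin 3, Equiv.Perm.sign (gA₀ s) = 1 := by
  decide +kernel

/-- Generators in the alternating group. -/
def gA (s : Fin 3) : alternatingGroup (Fin 8) := ⟨gA₀ s, gA_sign s⟩

/-- Even permutations as endomorphisms. -/
def φ : alternatingGroup (Fin 8) →* Function.End (Fin 8) where
  toFun g := ⇑g.1
  map_one' := rfl
  map_mul' _ _ := rfl

theorem φ_inj : Function.Injective φ := fun _ _ h => Subtype.ext (Equiv.ext (fun k => congrFun h k))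

set_option maxRecDepth 100000 in
theorem tm_mem : ∀ i : Fin 64, tm (mc.getD i.val 0) * Matrix.J (Fin 2) (ZMod 3) * (tm (mc.getD i.val 0))ᵀ = Matrix.J (Fin 2) (ZMod 3) := by
  decide +kernel

set_option maxRecDepth 100000 in
theorem tm_r : ∀ (i : Fin 64) (s : Fin 3),
    tm (mc.getD (r i s).val 0) = tm (mc.getD i.val 0) * tm (gm.getD s.val 0) ∨
    tm (mc.getD (r i s).val 0) = -(tm (mc.getD i.val 0) * tm (gm.getD s.val 0)) := by
  decide +kernel

set_option maxRecDepth 100000 in
theorem tm_inj : ∀ i j : Fin 64, tm (mc.getD i.val 0) = tm (mc.getD j.val 0) ∨ tm (mc.getD i.val 0) = - tm (mc.getD j.val 0) → i = j := by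
  decide +kernel

set_option maxRecDepth 100000 in
theorem tm_gm : ∀ s : Fin 3, tm (gm.getD s.val 0) * Matrix.J (Fin 2) (ZMod 3) * (tm (gm.getD s.val 0))ᵀ = Matrix.J (Fin 2) (ZMod 3) := by
  decide +kernel

set_option maxRecDepth 100000 in
theorem tm_zero : tm (mc.getD 0 0) = 1 := by decide +kernel

set_option maxRecDepth 100000 in
theorem x0_aux : ∀ k : Fin 8, pf (pc.getD 0 0) k = k := by decide +kernel

set_option maxRecDepth 100000 in
theorem xr_aux : ∀ (i : Fin 64) (s : Fin 3) (k : Fin 8),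
    pf (pc.getD (r i s).val 0) k = pf (pc.getD i.val 0) (pf (gc.getD s.val 0) k) := by
  decide +kernel

set_option maxRecDepth 100000 in
theorem xi_aux : ∀ i j : Fin 64, (∀ k : Fin 8, pf (pc.getD i.val 0) k = pf (pc.getD j.val 0) k) → i = j := by
  decide +kernel

set_option maxRecDepth 100000 in
theorem reach_aux : ∀ i : Fin 64, i ≠ 0 → ∃ j, j < i ∧ ∃ s, r j s = i := by
  decide +kernel

abbrev Sp3 := Matrix.symplecticGroup (Fin 2) (ZMod 3)

/-- The rows as symplectic matrices. -/
def spR (i : Fin 64) : Sp3 := ⟨tm (mc.getD i.val 0), SymplecticGroup.mem_iff.2 (tm_mem i)⟩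

/-- The generators as symplectic matrices. -/
def spG (s : Fin 3) : Sp3 := ⟨tm (gm.getD s.val 0), SymplecticGroup.mem_iff.2 (tm_gm s)⟩

theorem neg_central : (⟨-1, SymplecticGroup.neg_mem (one_mem _)⟩ : Sp3) ∈ Subgroup.center Sp3 := by
  rw [Subgroup.mem_center_iff]
  intro g
  apply Subtype.ext
  show g.1 * (-1) = (-1) * g.1
  simp

theorem mk_eq_of (a b : Sp3) (h : a.1 = b.1 ∨ a.1 = -b.1) :
    (QuotientGroup.mk a : Cfsg.PSp 2 (ZMod 3)) = QuotientGroup.mk b := by
  rcases h with h | h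
  · rw [Subtype.ext h]
  · rw [QuotientGroup.eq]
    have h1 : a⁻¹ * b = ⟨-1, SymplecticGroup.neg_mem (one_mem _)⟩ := by
      rw [inv_mul_eq_iff_eq_mul]
      apply Subtype.ext
      show b.1 = a.1 * (-1)
      rw [h]
      simp
    rw [h1]
    exact neg_central

theorem of_mk_eq (a b : Sp3) (h : (QuotientGroup.mk a : Cfsg.PSp 2 (ZMod 3)) = QuotientGroup.mk b) :
    a.1 = b.1 ∨ a.1 = -b.1 := by
  rw [QuotientGroup.eq] at h
  have h1 := Cfsg.Agent.Lib.Classical.sp_central_one_or_neg (by norm_num) _ h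
  have h2 : b.1 = a.1 * (a⁻¹ * b).1 := by
    rw [← Submonoid.coe_mul, mul_inv_cancel_left]
  rcases h1 with h1 | h1
  · left
    rw [h2, h1]
    simp
  · right
    rw [h2, h1]
    simp

/-- The rows in the projective group. -/
def y (i : Fin 64) : Cfsg.PSp 2 (ZMod 3) := QuotientGroup.mk (spR i)

/-- The generators in the projective group. -/
def gB (s : Fin 3) : Cfsg.PSp 2 (ZMod 3) := QuotientGroup.mk (spG s)

theorem main_table :
    Nat.card (Subgroup.closure (Set.range gA)) = 64 ∧
      Nat.card (Subgroup.closure (Set.range gB)) = 64 ∧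
      Nonempty (Subgroup.closure (Set.range gA) ≃* Subgroup.closure (Set.range gB)) := by
  haveI : Finite (Cfsg.PSp 2 (ZMod 3)) := by
    haveI : Finite Sp3 := by
      apply Subtype.finite
    exact Quotient.finite _
  refine table_iso (n := 64) φ (MonoidHom.id _) φ_inj Function.injective_id gA gB x y r ?_ ?_ ?_ ?_ ?_ ?_ reach_aux
  · funext k
    exact x0_aux k
  · have : spR 0 = 1 := Subtype.ext tm_zero
    show (QuotientGroup.mk (spR 0) : Cfsg.PSp 2 (ZMod 3)) = 1
    rw [this]
    rfl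
  · intro i s
    funext k
    exact xr_aux i s k
  · intro i s
    show (QuotientGroup.mk (spR (r i s)) : Cfsg.PSp 2 (ZMod 3)) = QuotientGroup.mk (spR i * spG s)
    exact mk_eq_of _ _ (tm_r i s)
  · intro i j h
    exact xi_aux i j (fun k => congrFun h k)
  · intro i j h
    exact tm_inj i j (of_mk_eq _ _ h)

end Cfsg.Agent.Lib.LocalEven2.Tab1
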