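import Cfsg.Agent.Lib.ThreeTrans.ZStarF
import Cfsg.Agent.Lib.LocalEven2.Sylow
import Cfsg.Agent.Lib.Fusion.GroupFusion
import Cfsg.Agent.Lib.Fusion.Saturation
import Cfsg.Prelude.Def_SubgroupEmbedding

/-!
# Families of abelian `2`-subgroups, any two of which generate a `2`-nilpotent group

A `G`-invariant family `F` of abelian `2`-subgroups such that any two members generate a group with
a normal `2`-complement and with the members as Sylow subgroups: all members of `F` have the same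
image modulo `O(G)`.  The relation "`x⁻¹ y` has odd order" turns out to be transitive; Glauberman's
`Z*`-theorem then finishes the proof.
-/

set_option autoImplicit false
set_option linter.unusedSectionVars false
set_option linter.style.haveILetI false
set_option linter.unusedVariables false

namespace Cfsg.Agent.Lib.LocalEven2.XC

open Cfsg Cfsg.Agent.Lib.ThreeTrans.ZS Cfsg.Agent.Lib.Fusion Cfsg.Agent.Lib.Basic

universe u

section Rel

variable {G : Type u} [Group G]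

/-- `x⁻¹ y` has odd order. -/
def Rel (x y : G) : Prop := Odd (orderOf (x⁻¹ * y))

theorem Rel.refl (x : G) : Rel x x := by simp [Rel]

theorem Rel.symm {x y : G} (h : Rel x y) : Rel y x := by
  unfold Rel at *
  have h1 : y⁻¹ * x = (x⁻¹ * y)⁻¹ := by group
  rw [h1, orderOf_inv]
  exact h

theorem Rel.conj {x y : G} (h : Rel x y) (g : G) : Rel (g * x * g⁻¹) (g * y * g⁻¹) := by
  unfold Rel at *
  have h1 : (g * x * g⁻¹)⁻¹ * (g * y * g⁻¹) = g * (x⁻¹ * y) * g⁻¹ := by group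
  rw [h1, ord_conj]
  exact h

theorem rel_coe_iff {C : Subgroup G} (x y : C) : Rel (x : G) (y : G) ↔ Rel x y := by
  unfold Rel
  have h1 : (x : G)⁻¹ * (y : G) = ((x⁻¹ * y : C) : G) := by simp
  rw [h1, Subgroup.orderOf_coe]

/-- `O` is an odd normal subgroup of `D` with `D / O` a `2`-group. -/
structure Sec (D O : Subgroup G) : Prop where
  le : O ≤ D
  nrm : ∀ d ∈ D, ∀ o ∈ O, d * o * d⁻¹ ∈ O
  odd : Odd (Nat.card O)
  two : ∀ w ∈ D, ∃ k : ℕ, w ^ (2 ^ k) ∈ O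

variable [Finite G]

theorem Sec.mem_of_rel {D O : Subgroup G} (h : Sec D O) {u v : G} (hu : u ∈ D) (hv : v ∈ D)
    (hr : Rel u v) : u⁻¹ * v ∈ O := by
  obtain ⟨k, hk⟩ := h.two _ (D.mul_mem (D.inv_mem hu) hv)
  have hcop : (2 ^ k).Coprime (orderOf (u⁻¹ * v)) :=
    Nat.Coprime.pow_left k (Nat.coprime_two_left.mpr hr)
  obtain ⟨m, hm⟩ := exists_pow_eq_self_of_coprime hcop
  rw [← hm]
  exact O.pow_mem hk m

theorem rel_of_mem {O : Subgroup G} (h : Odd (Nat.card O)) {u v : G} (huv : u⁻¹ * v ∈ O) :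
    Rel u v :=
  Odd.of_dvd_nat h (Subgroup.orderOf_dvd_natCard O huv)

theorem Sec.trans {D O : Subgroup G} (h : Sec D O) {u v w : G} (hu : u ∈ D) (hv : v ∈ D) (hw : w ∈ D)
    (h1 : Rel u v) (h2 : Rel v w) : Rel u w := by
  have h3 := O.mul_mem (h.mem_of_rel hu hv h1) (h.mem_of_rel hv hw h2)
  have h4 : u⁻¹ * v * (v⁻¹ * w) = u⁻¹ * w := by group
  rw [h4] at h3
  exact rel_of_mem h.odd h3

theorem exists_two_pow {Q : Subgroup G} (hQ : IsPGroup 2 Q) {x : G} (hx : x ∈ Q) :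
    ∃ k : ℕ, x ^ (2 ^ k) = 1 := by
  obtain ⟨k, hk⟩ := hQ ⟨x, hx⟩
  refine ⟨k, ?_⟩
  have := congrArg (fun z : Q => (z : G)) hk
  simpa using this

theorem eq_one_of_odd_of_pow {y : G} (h1 : Odd (orderOf y)) {k : ℕ} (h2 : y ^ (2 ^ k) = 1) : y = 1 :=
  eq_one_of_odd_of_two_pow h1 (orderOf_dvd_of_pow_eq_one h2)

theorem two_eq {Q : Subgroup G} (hQ : IsPGroup 2 Q) {y y' : G} (hy : y ∈ Q) (hy' : y' ∈ Q)
    (hr : Rel y y') : y = y' := by
  obtain ⟨k, hk⟩ := exists_two_pow hQ (Q.mul_mem (Q.inv_mem hy) hy')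
  have h1 := eq_one_of_odd_of_pow hr hk
  exact inv_mul_eq_one.mp h1

/-- Two commuting `2`-elements with product of odd order. -/
theorem eq_of_commute {w h : G} (hc : Commute w h) {k l : ℕ} (hw : w ^ (2 ^ k) = 1) (hh : h ^ (2 ^ l) = 1)
    (hodd : Rel h w) : w = h := by
  have h1 : (h⁻¹ * w) ^ (2 ^ (k + l)) = 1 := by
    have hc' : Commute h⁻¹ w := (hc.symm.inv_left)
    rw [hc'.mul_pow, inv_pow]
    have e1 : h ^ (2 ^ (k + l)) = 1 := by
      rw [add_comm, pow_add, pow_mul, hh, one_pow]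
    have e2 : w ^ (2 ^ (k + l)) = 1 := by
      rw [pow_add, pow_mul, hw, one_pow]
    rw [e1, e2]
    simp
  have h2 := eq_one_of_odd_of_pow hodd h1
  exact (inv_mul_eq_one.mp h2).symm

theorem Sec.of_fact {D O P : Subgroup G} (hOD : O ≤ D) (hn : ∀ d ∈ D, ∀ o ∈ O, d * o * d⁻¹ ∈ O)
    (hodd : Odd (Nat.card O)) (hP : IsPGroup 2 P) (hPD : P ≤ D)
    (hf : ∀ w ∈ D, ∃ o ∈ O, ∃ h ∈ P, w = o * h) : Sec D O := by
  refine ⟨hOD, hn, hodd, ?_⟩
  intro w hw
  obtain ⟨o, ho, h, hh, rfl⟩ := hf w hw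
  have key : ∀ n : ℕ, ∃ o' ∈ O, (o * h) ^ n = o' * h ^ n := by
    intro n
    induction n with
    | zero => exact ⟨1, O.one_mem, by simp⟩
    | succ n ih =>
      obtain ⟨o', ho', he⟩ := ih
      refine ⟨o' * (h ^ n * o * (h ^ n)⁻¹), O.mul_mem ho' (hn _ (D.pow_mem (hPD hh) n) _ ho), ?_⟩
      rw [pow_succ, he, pow_succ]
      group
  obtain ⟨k, hk⟩ := exists_two_pow hP hh
  obtain ⟨o', ho', he⟩ := key (2 ^ k)
  refine ⟨k, ?_⟩
  rw [he, hk, mul_one]
  exact ho'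

end Rel

section Fam

variable {G : Type u} [Group G]

/-- The families under consideration. -/
structure Fam (F : Set (Subgroup G)) : Prop where
  ab : ∀ P ∈ F, ∀ x ∈ P, ∀ y ∈ P, x * y = y * x
  two : ∀ P ∈ F, IsPGroup 2 P
  conj : ∀ P ∈ F, ∀ g : G, cj g P ∈ F
  sec : ∀ P ∈ F, ∀ Q ∈ F, ∃ O : Subgroup G, O ≤ P ⊔ Q ∧ (∀ d ∈ P ⊔ Q, ∀ o ∈ O, d * o * d⁻¹ ∈ O) ∧
    Odd (Nat.card O) ∧ ∀ w ∈ P ⊔ Q, ∃ o ∈ O, ∃ h ∈ P, w = o * h

variable [Finite G] {F : Set (Subgroup G)}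

theorem Fam.sec' (hF : Fam F) {P Q : Subgroup G} (hP : P ∈ F) (hQ : Q ∈ F) :
    ∃ O : Subgroup G, Sec (P ⊔ Q) O ∧ ∀ w ∈ P ⊔ Q, ∃ o ∈ O, ∃ h ∈ P, w = o * h := by
  obtain ⟨O, h1, h2, h3, h4⟩ := hF.sec P hP Q hQ
  exact ⟨O, Sec.of_fact h1 h2 h3 (hF.two P hP) le_sup_left h4, h4⟩

theorem exists_partner (hF : Fam F) {P Q : Subgroup G} (hP : P ∈ F) (hQ : Q ∈ F) {x : G} (hx : x ∈ P) :
    ∃ y ∈ Q, Rel x y := by
  obtain ⟨O, hs, hf⟩ := hF.sec' hQ hP
  have hxD : x ∈ Q ⊔ P := (le_sup_right : P ≤ Q ⊔ P) hx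
  obtain ⟨o, ho, h, hh, rfl⟩ := hf x hxD
  refine ⟨h, hh, rel_of_mem hs.odd ?_⟩
  have h1 : (o * h)⁻¹ * h = h⁻¹ * o⁻¹ * (h⁻¹)⁻¹ := by group
  rw [h1]
  exact hs.nrm _ (Subgroup.inv_mem _ ((le_sup_left : Q ≤ Q ⊔ P) hh)) _ (O.inv_mem ho)

theorem partner_unique (hF : Fam F) {P Q : Subgroup G} (hP : P ∈ F) (hQ : Q ∈ F) {x y y' : G}
    (hx : x ∈ P) (hy : y ∈ Q) (hy' : y' ∈ Q) (h1 : Rel x y) (h2 : Rel x y') : y = y' := by
  obtain ⟨O, hs, -⟩ := hF.sec' hP hQ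
  exact two_eq (hF.two Q hQ) hy hy' (hs.trans ((le_sup_right : Q ≤ P ⊔ Q) hy)
    ((le_sup_left : P ≤ P ⊔ Q) hx) ((le_sup_right : Q ≤ P ⊔ Q) hy') h1.symm h2)

theorem partner_invol (hF : Fam F) {P Q : Subgroup G} (hP : P ∈ F) (hQ : Q ∈ F) {a y : G}
    (ha : orderOf a = 2) (haP : a ∈ P) (hy : y ∈ Q) (hr : Rel a y) : orderOf y = 2 := by
  haveI : Fact (Nat.Prime 2) := ⟨Nat.prime_two⟩
  obtain ⟨O, hs, -⟩ := hF.sec' hP hQ
  have haD : a ∈ P ⊔ Q := (le_sup_left : P ≤ P ⊔ Q) haP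
  have hyD : y ∈ P ⊔ Q := (le_sup_right : Q ≤ P ⊔ Q) hy
  have h1 := hs.mem_of_rel haD hyD hr
  have haa := invol_mul_self ha
  have hai := invol_inv ha
  rw [hai] at h1
  have h2 : y * y = (a * (a * y) * a⁻¹) * (a * y) := by
    have h3 : y * y = a * a * y * (a * a * y) := by rw [haa, one_mul]
    rw [hai]
    rw [h3]
    have h4 : a * (a * y) * a * (a * y) = a * a * y * a * (a * y) := by group
    rw [h4]
    group
  have h3 : y * y ∈ O := by
    rw [h2]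
    exact O.mul_mem (hs.nrm _ haD _ h1) h1
  have h4 : Odd (orderOf (y * y)) := Odd.of_dvd_nat hs.odd (Subgroup.orderOf_dvd_natCard O h3)
  obtain ⟨k, hk⟩ := exists_two_pow (hF.two Q hQ) (Q.mul_mem hy hy)
  have h5 := eq_one_of_odd_of_pow h4 hk
  refine orderOf_eq_prime (by rw [pow_two]; exact h5) ?_
  rintro rfl
  have h6 : Odd (orderOf (a⁻¹ * 1)) := hr
  rw [mul_one, orderOf_inv, ha] at h6
  exact absurd h6 (by decide)

/-- Local transitivity at `a`. -/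
def LocT (F : Set (Subgroup G)) (a : G) : Prop :=
  ∀ P₁ ∈ F, ∀ P₂ ∈ F, ∀ P₃ ∈ F, a ∈ P₁ → a ∈ P₂ → a ∈ P₃ →
    ∀ x ∈ P₁, ∀ y ∈ P₂, ∀ z ∈ P₃, Rel x y → Rel y z → Rel x z

/-- Transitivity through `P₂`, `P₃`. -/
def TT (F : Set (Subgroup G)) (P₂ P₃ : Subgroup G) : Prop :=
  ∀ P₁ ∈ F, ∀ x ∈ P₁, ∀ y ∈ P₂, ∀ z ∈ P₃, Rel x y → Rel y z → Rel x z

theorem adj_trans (hF : Fam F) {a : G} (hL : LocT F a) (ha : orderOf a = 2) {P₂ P₃ : Subgroup G}
    (hP₂ : P₂ ∈ F) (hP₃ : P₃ ∈ F) (ha₂ : a ∈ P₂) (ha₃ : a ∈ P₃) : TT F P₂ P₃ := by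
  intro P₁ hP₁ x hx y hy z hz hxy hyz
  obtain ⟨a₁, ha₁, hr⟩ := exists_partner hF hP₂ hP₁ ha₂
  have ho₁ := partner_invol hF hP₂ hP₁ ha ha₂ ha₁ hr
  have haa := invol_mul_self ha
  have ha₁a₁ := invol_mul_self ho₁
  have hr' : Rel a₁ a := hr.symm
  have hodd : Odd (orderOf (a₁ * a)) := by
    have h1 : Odd (orderOf (a₁⁻¹ * a)) := hr'
    rwa [invol_inv ho₁] at h1
  obtain ⟨c, hc, hca⟩ := dih_odd_exists ha₁a₁ haa hodd
  have hP₁' := hF.conj P₁ hP₁ c
  have hax : a ∈ cj c P₁ := by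
    rw [← hca]
    exact conj_mem_cj ha₁
  have hx' : c * x * c⁻¹ ∈ cj c P₁ := conj_mem_cj hx
  -- the first pair
  obtain ⟨O₁, hs₁, -⟩ := hF.sec' hP₁ hP₂
  have hmem : ∀ {O : Subgroup G} {P' : Subgroup G}, Sec (P₁ ⊔ P') O → a ∈ P' → c ∈ O := by
    intro O P' hs haP'
    have h1 := hs.mem_of_rel ((le_sup_left : P₁ ≤ P₁ ⊔ P') ha₁) ((le_sup_right : P' ≤ P₁ ⊔ P') haP') hr'
    rw [invol_inv ho₁] at h1
    exact (Subgroup.zpowers_le.mpr h1) hc
  have hc₁ := hmem hs₁ ha₂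
  have hxx : ∀ {O : Subgroup G} {P' : Subgroup G}, Sec (P₁ ⊔ P') O → c ∈ O → Rel x (c * x * c⁻¹) := by
    intro O P' hs hcO
    refine rel_of_mem hs.odd ?_
    have h1 : x⁻¹ * (c * x * c⁻¹) = (x⁻¹ * c * (x⁻¹)⁻¹) * c⁻¹ := by group
    rw [h1]
    exact O.mul_mem (hs.nrm _ (Subgroup.inv_mem _ ((le_sup_left : P₁ ≤ P₁ ⊔ P') hx)) _ hcO) (O.inv_mem hcO)
  have hxD : ∀ {O : Subgroup G} {P' : Subgroup G}, Sec (P₁ ⊔ P') O → c ∈ O → c * x * c⁻¹ ∈ P₁ ⊔ P' := by
    intro O P' hs hcO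
    have hcD := hs.le hcO
    exact Subgroup.mul_mem _ (Subgroup.mul_mem _ hcD ((le_sup_left : P₁ ≤ P₁ ⊔ P') hx)) (Subgroup.inv_mem _ hcD)
  have hxx' : Rel x (c * x * c⁻¹) := hxx hs₁ hc₁
  have hx'y : Rel (c * x * c⁻¹) y :=
    hs₁.trans (hxD hs₁ hc₁) ((le_sup_left : P₁ ≤ P₁ ⊔ P₂) hx) ((le_sup_right : P₂ ≤ P₁ ⊔ P₂) hy) hxx'.symm hxy
  have hx'z := hL _ hP₁' P₂ hP₂ P₃ hP₃ hax ha₂ ha₃ _ hx' y hy z hz hx'y hyz
  -- the second pair
  obtain ⟨O₃, hs₃, -⟩ := hF.sec' hP₁ hP₃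
  have hc₃ := hmem hs₃ ha₃
  exact hs₃.trans ((le_sup_left : P₁ ≤ P₁ ⊔ P₃) hx) (hxD hs₃ hc₃) ((le_sup_right : P₃ ≤ P₁ ⊔ P₃) hz) hxx' hx'z

theorem TT.comp (hF : Fam F) {P₂ P P₃ : Subgroup G} (hP₂ : P₂ ∈ F) (hP : P ∈ F) (hP₃ : P₃ ∈ F)
    (h1 : TT F P₂ P) (h2 : TT F P P₃) : TT F P₂ P₃ := by
  intro P₁ hP₁ x hx y hy z hz hxy hyz
  obtain ⟨p, hp, hyp⟩ := exists_partner hF hP₂ hP hy
  have hxp := h1 P₁ hP₁ x hx y hy p hp hxy hyp
  obtain ⟨z', hz', hpz'⟩ := exists_partner hF hP hP₃ hp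
  have hyz' := h2 P₂ hP₂ y hy p hp z' hz' hyp hpz'
  have hzz : z' = z := partner_unique hF hP₂ hP₃ hy hz' hz hyz' hyz
  subst hzz
  exact h2 P₁ hP₁ x hx p hp z' hz' hxp hpz'

/-- A `2`-subgroup of `P ⊔ Q` is conjugate into `P`. -/
theorem exists_conj_in (hF : Fam F) {P Q R : Subgroup G} (hP : P ∈ F) (hQ : Q ∈ F) (hR : IsPGroup 2 R)
    (hRD : R ≤ P ⊔ Q) : ∃ d ∈ P ⊔ Q, ∀ r ∈ R, d * r * d⁻¹ ∈ P := by
  haveI : Fact (Nat.Prime 2) := ⟨Nat.prime_two⟩
  obtain ⟨O, hs, hf⟩ := hF.sec' hP hQ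
  refine exists_conj_of_isSylowIn (p := 2) ?_ hR hRD
  have hT' : IsPGroup 2 (P.subgroupOf (P ⊔ Q)) := (hF.two P hP).comap_subtype
  obtain ⟨T, hT⟩ := hT'.exists_le_sylow
  refine ⟨T, le_antisymm ?_ hT⟩
  intro r hr
  obtain ⟨o, ho, h, hh, he⟩ := hf r r.2
  have hhT : (⟨h, (le_sup_left : P ≤ P ⊔ Q) hh⟩ : ↥(P ⊔ Q)) ∈ (T : Subgroup ↥(P ⊔ Q)) :=
    hT (by simpa [Subgroup.mem_subgroupOf] using hh)
  have hoT : r * (⟨h, (le_sup_left : P ≤ P ⊔ Q) hh⟩ : ↥(P ⊔ Q))⁻¹ ∈ (T : Subgroup ↥(P ⊔ Q)) :=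
    Subgroup.mul_mem _ hr (Subgroup.inv_mem _ hhT)
  obtain ⟨k, hk⟩ := T.isPGroup' ⟨_, hoT⟩
  have hk' : ((r : G) * h⁻¹) ^ (2 ^ k) = 1 := by
    have := congrArg (fun z : (T : Subgroup ↥(P ⊔ Q)) => ((z : ↥(P ⊔ Q)) : G)) hk
    simpa using this
  have ho' : (r : G) * h⁻¹ = o := by
    rw [he]
    group
  rw [ho'] at hk'
  have h1 : Odd (orderOf o) := Odd.of_dvd_nat hs.odd (Subgroup.orderOf_dvd_natCard O ho)
  have h2 := eq_one_of_odd_of_pow h1 hk'
  rw [Subgroup.mem_subgroupOf, he, h2, one_mul]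
  exact hh

/-- Two commuting involutions generate a `2`-group. -/
theorem isPGroup_sup_of_commute {y w : G} (hy : orderOf y = 2) (hw : orderOf w = 2) (hc : Commute y w) :
    IsPGroup 2 ↥(Subgroup.zpowers y ⊔ Subgroup.zpowers w) := by
  have h1 : IsPGroup 2 (Subgroup.zpowers y) :=
    IsPGroup.of_card (n := 1) (by rw [Nat.card_zpowers, hy, pow_one])
  have h2 : IsPGroup 2 (Subgroup.zpowers w) :=
    IsPGroup.of_card (n := 1) (by rw [Nat.card_zpowers, hw, pow_one])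
  refine h1.to_sup_of_normal_right' h2 ?_
  rw [Subgroup.zpowers_le, Subgroup.mem_normalizer_iff]
  intro x
  constructor
  · rintro ⟨i, rfl⟩
    have : y * w ^ i * y⁻¹ = w ^ i := by
      have h3 : Commute y (w ^ i) := hc.zpow_right i
      rw [h3.eq]
      group
    simp only [this]
    exact ⟨i, rfl⟩
  · intro h
    have h3 : Commute y (y * x * y⁻¹) := by
      obtain ⟨i, hi⟩ := h
      simp only at hi
      rw [← hi]
      exact hc.zpow_right i
    have h4 : x = y⁻¹ * (y * x * y⁻¹) * y := by group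
    rw [h4]
    have h5 : y⁻¹ * (y * x * y⁻¹) * y = y * x * y⁻¹ := by
      have := h3.inv_left.eq
      rw [this]
      group
    rw [h5]
    exact h

theorem exists_other_invol {Q : Subgroup G} {p : G} (h : ∃ y₁ ∈ Q, ∃ y₂ ∈ Q, orderOf y₁ = 2 ∧ orderOf y₂ = 2 ∧ y₁ ≠ y₂) :
    ∃ z ∈ Q, orderOf z = 2 ∧ z ≠ p := by
  obtain ⟨y₁, h1, y₂, h2, h3, h4, h5⟩ := h
  by_cases h6 : y₁ = p
  · exact ⟨y₂, h2, h4, fun h7 => h5 (h6.trans h7.symm)⟩
  · exact ⟨y₁, h1, h3, h6⟩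

/-- Any two members are linked by a chain of members sharing involutions. -/
theorem connect (hF : Fam F) (hL : ∀ a, ∀ P₀ ∈ F, a ∈ P₀ → orderOf a = 2 → LocT F a)
    (h2 : ∀ P ∈ F, ∃ y₁ ∈ P, ∃ y₂ ∈ P, orderOf y₁ = 2 ∧ orderOf y₂ = 2 ∧ y₁ ≠ y₂)
    {P Q : Subgroup G} (hP : P ∈ F) (hQ : Q ∈ F) : TT F P Q := by
  haveI : Fact (Nat.Prime 2) := ⟨Nat.prime_two⟩
  obtain ⟨y, hy, y₂, hy₂, ho, ho₂, hne⟩ := h2 P hP
  obtain ⟨p, hp, hr⟩ := exists_partner hF hP hQ hy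
  obtain ⟨z, hz, hoz, hzp⟩ := exists_other_invol (p := p) (h2 Q hQ)
  have hnr : ¬ Rel y z := fun h => hzp (partner_unique hF hP hQ hy hz hp h hr)
  have hyy := invol_mul_self ho
  have hzz := invol_mul_self hoz
  have hev : ¬ Odd (orderOf (y * z)) := by
    intro h
    apply hnr
    unfold Rel
    rwa [invol_inv ho]
  set r := y * z with hr'
  obtain ⟨m, hm⟩ : ∃ m, orderOf r = 2 * m := by
    obtain ⟨m, hm⟩ := Nat.not_odd_iff_even.mp hev
    exact ⟨m, by omega⟩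
  have hrpos : 0 < orderOf r := orderOf_pos r
  have hm0 : m ≠ 0 := by
    rintro rfl
    omega
  set w := r ^ m with hw
  have hww : w * w = 1 := by
    rw [hw, ← pow_add, ← two_mul, ← hm, pow_orderOf_eq_one]
  have hw1 : w ≠ 1 := pow_ne_one_of_lt_orderOf hm0 (by omega)
  have hwo : orderOf w = 2 := orderOf_eq_prime (by rw [pow_two]; exact hww) hw1
  have hwi : w⁻¹ = w := inv_eq_of_mul_eq_one_left hww
  have hcyw : Commute y w := by
    have h1 := (dih_semiconj hyy hzz).pow_right m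
    rw [inv_pow, ← hr', ← hw, hwi] at h1
    exact h1
  have hcrw : Commute r w := (Commute.refl r).pow_right m
  have hczw : Commute z w := by
    have h1 : z = y * r := by
      rw [hr', ← mul_assoc, hyy, one_mul]
    rw [h1]
    exact hcyw.mul_left hcrw
  have hyD : y ∈ P ⊔ Q := (le_sup_left : P ≤ P ⊔ Q) hy
  have hzD : z ∈ P ⊔ Q := (le_sup_right : Q ≤ P ⊔ Q) hz
  have hwD : w ∈ P ⊔ Q := Subgroup.pow_mem _ (Subgroup.mul_mem _ hyD hzD) m
  have hwD' : w ∈ Q ⊔ P := by rwa [sup_comm]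
  -- the two conjugates
  obtain ⟨d, -, hd⟩ := exists_conj_in hF hP hQ (isPGroup_sup_of_commute ho hwo hcyw)
    (sup_le (Subgroup.zpowers_le.mpr hyD) (Subgroup.zpowers_le.mpr hwD))
  obtain ⟨d', -, hd'⟩ := exists_conj_in hF hQ hP (isPGroup_sup_of_commute hoz hwo hczw)
    (sup_le (Subgroup.zpowers_le.mpr ((le_sup_left : Q ≤ Q ⊔ P) hz)) (Subgroup.zpowers_le.mpr hwD'))
  have hP₁ := hF.conj P hP d⁻¹
  have hP₂ := hF.conj Q hQ d'⁻¹
  have hyP₁ : y ∈ cj d⁻¹ P := by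
    rw [mem_cj, inv_inv]
    exact hd _ ((le_sup_left : Subgroup.zpowers y ≤ _) (Subgroup.mem_zpowers y))
  have hwP₁ : w ∈ cj d⁻¹ P := by
    rw [mem_cj, inv_inv]
    exact hd _ ((le_sup_right : Subgroup.zpowers w ≤ _) (Subgroup.mem_zpowers w))
  have hzP₂ : z ∈ cj d'⁻¹ Q := by
    rw [mem_cj, inv_inv]
    exact hd' _ ((le_sup_left : Subgroup.zpowers z ≤ _) (Subgroup.mem_zpowers z))
  have hwP₂ : w ∈ cj d'⁻¹ Q := by
    rw [mem_cj, inv_inv]
    exact hd' _ ((le_sup_right : Subgroup.zpowers w ≤ _) (Subgroup.mem_zpowers w))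
  have t1 : TT F P (cj d⁻¹ P) := adj_trans hF (hL y P hP hy ho) ho hP hP₁ hy hyP₁
  have t2 : TT F (cj d⁻¹ P) (cj d'⁻¹ Q) := adj_trans hF (hL w _ hP₁ hwP₁ hwo) hwo hP₁ hP₂ hwP₁ hwP₂
  have t3 : TT F (cj d'⁻¹ Q) Q := adj_trans hF (hL z Q hQ hz hoz) hoz hP₂ hQ hzP₂ hz
  exact TT.comp hF hP hP₁ hQ t1 (TT.comp hF hP₁ hP₂ hQ t2 t3)

/-- The kernel of the action on the family. -/
def kerS (hF : Fam F) (hT : ∀ P ∈ F, ∀ Q ∈ F, TT F P Q) : Subgroup G where
  carrier := {g | ∀ P ∈ F, ∀ x ∈ P, Rel x (g * x * g⁻¹)}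
  mul_mem' := by
    intro g h hg hh P hP x hx
    have h1 := hh P hP x hx
    have hP' := hF.conj P hP h
    have h2 := hg _ hP' (h * x * h⁻¹) (conj_mem_cj hx)
    have hP'' := hF.conj _ hP' g
    have h3 := hT _ hP' _ hP'' P hP x hx _ (conj_mem_cj hx) _ (conj_mem_cj (conj_mem_cj hx)) h1 h2
    have e : g * h * x * (g * h)⁻¹ = g * (h * x * h⁻¹) * g⁻¹ := by group
    change Rel x (g * h * x * (g * h)⁻¹)
    rw [e]
    exact h3
  one_mem' := by
    intro P hP x hx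
    simp [Rel.refl]
  inv_mem' := by
    intro g hg P hP x hx
    have hP' := hF.conj P hP g⁻¹
    have h1 := hg _ hP' (g⁻¹ * x * g⁻¹⁻¹) (conj_mem_cj hx)
    have e : g * (g⁻¹ * x * g⁻¹⁻¹) * g⁻¹ = x := by group
    rw [e] at h1
    exact h1.symm

theorem mem_kerS {hF : Fam F} {hT : ∀ P ∈ F, ∀ Q ∈ F, TT F P Q} {g : G} :
    g ∈ kerS hF hT ↔ ∀ P ∈ F, ∀ x ∈ P, Rel x (g * x * g⁻¹) := Iff.rfl

instance kerS_normal (hF : Fam F) (hT : ∀ P ∈ F, ∀ Q ∈ F, TT F P Q) : (kerS hF hT).Normal := by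
  constructor
  intro g hg b P hP x hx
  have hP' := hF.conj P hP b⁻¹
  have h1 := hg _ hP' (b⁻¹ * x * b⁻¹⁻¹) (conj_mem_cj hx)
  have h2 := h1.conj b
  have e1 : b * (b⁻¹ * x * b⁻¹⁻¹) * b⁻¹ = x := by group
  have e2 : b * (g * (b⁻¹ * x * b⁻¹⁻¹) * g⁻¹) * b⁻¹ = b * g * b⁻¹ * x * (b * g * b⁻¹)⁻¹ := by group
  rw [e1, e2] at h2
  exact h2

theorem le_kerS (hF : Fam F) (hT : ∀ P ∈ F, ∀ Q ∈ F, TT F P Q) {P : Subgroup G} (hP : P ∈ F) :
    P ≤ kerS hF hT := by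
  intro h hh Q hQ x hx
  obtain ⟨O, hs, hf⟩ := hF.sec' hQ hP
  obtain ⟨o, ho, q, hq, he⟩ := hf h ((le_sup_right : P ≤ Q ⊔ P) hh)
  refine rel_of_mem hs.odd ?_
  have hcomm := hF.ab Q hQ q hq x hx
  have e : x⁻¹ * (h * x * h⁻¹) = (x⁻¹ * o * (x⁻¹)⁻¹) * o⁻¹ := by
    rw [he]
    have e1 : o * q * x * (o * q)⁻¹ = o * (q * x) * q⁻¹ * o⁻¹ := by group
    rw [e1, hcomm]
    group
  rw [e]
  exact O.mul_mem (hs.nrm _ (Subgroup.inv_mem _ ((le_sup_left : Q ≤ Q ⊔ P) hx)) _ ho) (O.inv_mem ho)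

/-- If the relation is transitive and `O(G) = 1`, then all members of the family coincide. -/
theorem le_of_trans (hF : Fam F) (hT : ∀ P ∈ F, ∀ Q ∈ F, TT F P Q) (hO : pPrimeCore 2 G = ⊥)
    {P Q : Subgroup G} (hP : P ∈ F) (hQ : Q ∈ F) : Q ≤ P := by
  haveI : Fact (Nat.Prime 2) := ⟨Nat.prime_two⟩
  have hcen : ∀ P ∈ F, ∀ x ∈ P, ∀ g ∈ kerS hF hT, g * x = x * g := by
    intro P hP x hx g hg
    set K := kerS hF hT with hK
    have hcore : pPrimeCore 2 K = ⊥ := core_sub_bot hO K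
    have hpg : IsPGroup 2 (P.subgroupOf K) := (hF.two P hP).comap_subtype
    obtain ⟨S, hS⟩ := hpg.exists_le_sylow
    have hPK : P ≤ K := le_kerS hF hT hP
    have key := central_of_weaklyClosed _ K rfl hcore S (P.subgroupOf K) hS (by
      intro x' hx' g' hg'
      have h1 : Rel ((x' : K) : G) ((g' : G) * (x' : G) * (g' : G)⁻¹) :=
        g'.2 P hP _ (Subgroup.mem_subgroupOf.mp hx')
      have h2 : Rel x' (g' * x' * g'⁻¹) := by
        rw [← rel_coe_iff]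
        simpa using h1
      exact (two_eq S.isPGroup' (hS hx') hg' h2).symm)
    have h1 := key ⟨x, hPK hx⟩ (Subgroup.mem_subgroupOf.mpr hx) ⟨g, hg⟩
    exact congrArg (fun z : K => (z : G)) h1
  intro w hw
  obtain ⟨O, hs, hf⟩ := hF.sec' hP hQ
  obtain ⟨o, ho, h, hh, he⟩ := hf w ((le_sup_right : Q ≤ P ⊔ Q) hw)
  have hc : Commute w h := (hcen P hP h hh w (le_kerS hF hT hQ hw))
  obtain ⟨k, hk⟩ := exists_two_pow (hF.two Q hQ) hw
  obtain ⟨l, hl⟩ := exists_two_pow (hF.two P hP) hh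
  have hr : Rel h w := by
    refine rel_of_mem hs.odd ?_
    have e : h⁻¹ * w = h⁻¹ * o * (h⁻¹)⁻¹ := by
      rw [he]
      group
    rw [e]
    exact hs.nrm _ (Subgroup.inv_mem _ ((le_sup_left : P ≤ P ⊔ Q) hh)) _ ho
  rw [eq_of_commute hc hk hl hr]
  exact hh

end Fam

section Maps

variable {G : Type u} [Group G] [Finite G] {F : Set (Subgroup G)}

/-- Images of families under surjections. -/
theorem Fam.map {Q : Type u} [Group Q] [Finite Q] (hF : Fam F) (f : G →* Q) (hf : Function.Surjective f) :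
    Fam (Subgroup.map f '' F) := by
  refine ⟨?_, ?_, ?_, ?_⟩
  · rintro _ ⟨P, hP, rfl⟩ _ ⟨x, hx, rfl⟩ _ ⟨y, hy, rfl⟩
    rw [← map_mul, ← map_mul, hF.ab P hP x hx y hy]
  · rintro _ ⟨P, hP, rfl⟩
    exact (hF.two P hP).map f
  · rintro _ ⟨P, hP, rfl⟩ ĝ
    obtain ⟨g, rfl⟩ := hf ĝ
    refine ⟨cj g P, hF.conj P hP g, ?_⟩
    ext y
    constructor
    · rintro ⟨_, ⟨x, hx, rfl⟩, rfl⟩
      exact ⟨f x, ⟨x, hx, rfl⟩, by simp⟩
    · rintro ⟨_, ⟨x, hx, rfl⟩, rfl⟩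
      exact ⟨g * x * g⁻¹, conj_mem_cj hx, by simp⟩
  · rintro _ ⟨P, hP, rfl⟩ _ ⟨R, hR, rfl⟩
    obtain ⟨O, h1, h2, h3, h4⟩ := hF.sec P hP R hR
    refine ⟨O.map f, ?_, ?_, ?_, ?_⟩
    · rw [← Subgroup.map_sup]
      exact Subgroup.map_mono h1
    · rw [← Subgroup.map_sup]
      rintro _ ⟨d, hd, rfl⟩ _ ⟨o, ho, rfl⟩
      exact ⟨d * o * d⁻¹, h2 d hd o ho, by simp⟩
    · exact Odd.of_dvd_nat h3 (Subgroup.card_map_dvd O f)
    · rw [← Subgroup.map_sup]
      rintro _ ⟨w, hw, rfl⟩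
      obtain ⟨o, ho, h, hh, rfl⟩ := h4 w hw
      exact ⟨f o, ⟨o, ho, rfl⟩, f h, ⟨h, hh, rfl⟩, by simp⟩

/-- The members of a family lying in a subgroup. -/
def subF (F : Set (Subgroup G)) (C : Subgroup G) : Set (Subgroup C) :=
  {Q | ∃ P ∈ F, P ≤ C ∧ Q = P.subgroupOf C}

theorem mem_sup_subgroupOf {C P R : Subgroup G} (hP : P ≤ C) (hR : R ≤ C) (w : C) :
    w ∈ P.subgroupOf C ⊔ R.subgroupOf C ↔ (w : G) ∈ P ⊔ R := by
  have h1 : (P.subgroupOf C ⊔ R.subgroupOf C).map C.subtype = P ⊔ R := by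
    rw [Subgroup.map_sup, Subgroup.map_subgroupOf_eq_of_le hP, Subgroup.map_subgroupOf_eq_of_le hR]
  rw [← h1]
  constructor
  · intro h
    exact ⟨w, h, rfl⟩
  · rintro ⟨w', hw', he⟩
    have : w' = w := Subtype.ext he
    rwa [← this]

theorem Fam.sub (hF : Fam F) (C : Subgroup G) : Fam (subF F C) := by
  refine ⟨?_, ?_, ?_, ?_⟩
  · rintro _ ⟨P, hP, hPC, rfl⟩ x hx y hy
    exact Subtype.ext (hF.ab P hP _ (Subgroup.mem_subgroupOf.mp hx) _ (Subgroup.mem_subgroupOf.mp hy))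
  · rintro _ ⟨P, hP, hPC, rfl⟩
    exact (hF.two P hP).comap_subtype
  · rintro _ ⟨P, hP, hPC, rfl⟩ c
    refine ⟨cj (c : G) P, hF.conj P hP c, ?_, ?_⟩
    · rw [cj_le_iff]
      intro x hx
      exact C.mul_mem (C.mul_mem c.2 (hPC hx)) (C.inv_mem c.2)
    · ext y
      constructor
      · rintro ⟨z, hz, rfl⟩
        have hz' : (z : G) ∈ P := Subgroup.mem_subgroupOf.mp hz
        refine Subgroup.mem_subgroupOf.mpr ?_
        simpa using conj_mem_cj (g := (c : G)) hz'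
      · intro hy
        rw [Subgroup.mem_subgroupOf] at hy
        refine ⟨c⁻¹ * y * c, Subgroup.mem_subgroupOf.mpr ?_, by simp [mul_assoc]⟩
        have := mem_cj.mp hy
        simpa using this
  · rintro _ ⟨P, hP, hPC, rfl⟩ _ ⟨R, hR, hRC, rfl⟩
    obtain ⟨O, h1, h2, h3, h4⟩ := hF.sec P hP R hR
    have hOC : O ≤ C := h1.trans (sup_le hPC hRC)
    refine ⟨O.subgroupOf C, ?_, ?_, ?_, ?_⟩
    · intro o ho
      rw [mem_sup_subgroupOf hPC hRC]
      exact h1 (Subgroup.mem_subgroupOf.mp ho)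
    · intro d hd o ho
      rw [mem_sup_subgroupOf hPC hRC] at hd
      rw [Subgroup.mem_subgroupOf] at ho ⊢
      simpa using h2 _ hd _ ho
    · have h5 : Nat.card (O.subgroupOf C) = Nat.card O :=
        Nat.card_congr (Subgroup.subgroupOfEquivOfLe hOC).toEquiv
      rw [h5]
      exact h3
    · intro w hw
      rw [mem_sup_subgroupOf hPC hRC] at hw
      obtain ⟨o, ho, h, hh, he⟩ := h4 _ hw
      refine ⟨⟨o, hOC ho⟩, Subgroup.mem_subgroupOf.mpr ho, ⟨h, hPC hh⟩, Subgroup.mem_subgroupOf.mpr hh, ?_⟩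
      exact Subtype.ext he

end Maps

/-- **The main theorem on families.** -/
theorem main_aux : ∀ (n : ℕ) (G : Type u) [Group G] [Finite G], Nat.card G = n →
    ∀ F : Set (Subgroup G), Fam F → ∃ O : Subgroup G, O.Normal ∧ Odd (Nat.card O) ∧
      ∀ P ∈ F, ∀ Q ∈ F, ∀ w ∈ Q, ∃ o ∈ O, ∃ h ∈ P, w = o * h := by
  intro n
  induction n using Nat.strong_induction_on with
  | _ n IH =>
    intro G _ _ hcard F hF
    haveI : Fact (Nat.Prime 2) := ⟨Nat.prime_two⟩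
    by_cases hO : pPrimeCore 2 G = ⊥
    · refine ⟨⊥, inferInstance, by simp, ?_⟩
      suffices key : ∀ P ∈ F, ∀ Q ∈ F, Q ≤ P by
        intro P hP Q hQ w hw
        exact ⟨1, Subgroup.one_mem _, w, key P hP Q hQ hw, by simp⟩
      intro P hP Q hQ
      by_cases hc : ∃ P₀ ∈ F, ∃ a ∈ P₀, orderOf a = 2 ∧ ∀ g : G, g * a = a * g
      · -- a central involution: pass to the quotient
        obtain ⟨P₀, hP₀, a, haP₀, ha, hac⟩ := hc
        have hall : ∀ P ∈ F, a ∈ P := by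
          intro P hP
          obtain ⟨O, hs, hf⟩ := hF.sec' hP hP₀
          obtain ⟨o, ho, h, hh, he⟩ := hf a ((le_sup_right : P₀ ≤ P ⊔ P₀) haP₀)
          obtain ⟨k, hk⟩ := exists_two_pow (hF.two P₀ hP₀) haP₀
          obtain ⟨l, hl⟩ := exists_two_pow (hF.two P hP) hh
          have hr : Rel h a := by
            refine rel_of_mem hs.odd ?_
            have e : h⁻¹ * a = h⁻¹ * o * (h⁻¹)⁻¹ := by
              rw [he]
              group
            rw [e]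
            exact hs.nrm _ (Subgroup.inv_mem _ ((le_sup_left : P ≤ P ⊔ P₀) hh)) _ ho
          have hcc : Commute a h := (hac h).symm
          rw [eq_of_commute hcc hk hl hr]
          exact hh
        haveI hN : (Subgroup.zpowers a).Normal := by
          constructor
          rintro _ ⟨i, rfl⟩ g
          have h1 : Commute g (a ^ i) := Commute.zpow_right (hac g) i
          refine ⟨i, ?_⟩
          simp only
          rw [h1.eq]
          group
        have hne : Subgroup.zpowers a ≠ ⊥ := by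
          intro h
          rw [Subgroup.zpowers_eq_bot] at h
          rw [h, orderOf_one] at ha
          omega
        have hlt := card_quot_lt hne
        rw [hcard] at hlt
        set f := QuotientGroup.mk' (Subgroup.zpowers a) with hf
        have hfs : Function.Surjective f := QuotientGroup.mk'_surjective _
        obtain ⟨Ō, hŌ, hŌo, hfac⟩ := IH _ hlt (G ⧸ Subgroup.zpowers a) rfl _ (hF.map f hfs)
        have hcore := core_quot_bot hO ha hac
        have hŌb : Ō = ⊥ := by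
          have := le_pPrimeCore hŌ (Nat.coprime_two_right.mpr hŌo)
          rw [hcore, le_bot_iff] at this
          exact this
        intro w hw
        obtain ⟨o, ho, h, hh, he⟩ := hfac _ ⟨P, hP, rfl⟩ _ ⟨Q, hQ, rfl⟩ (f w) ⟨w, hw, rfl⟩
        rw [hŌb, Subgroup.mem_bot] at ho
        rw [ho, one_mul] at he
        obtain ⟨h', hh', rfl⟩ := hh
        have h1 : h'⁻¹ * w ∈ Subgroup.zpowers a := by
          have h2 : f (h'⁻¹ * w) = 1 := by
            rw [map_mul, map_inv, he, inv_mul_cancel]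
          rw [hf, QuotientGroup.mk'_apply] at h2
          exact (QuotientGroup.eq_one_iff _).mp h2
        have h2 : h'⁻¹ * w ∈ P := (Subgroup.zpowers_le.mpr (hall P hP)) h1
        have h3 := P.mul_mem hh' h2
        simpa using h3
      · -- no central involution
        push_neg at hc
        have hL : ∀ a, ∀ P₀ ∈ F, a ∈ P₀ → orderOf a = 2 → LocT F a := by
          intro a P₀ hP₀ haP₀ ha P₁ hP₁ P₂ hP₂ P₃ hP₃ ha₁ ha₂ ha₃ x hx y hy z hz hxy hyz
          set C := Subgroup.centralizer ({a} : Set G) with hC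
          have hleC : ∀ R ∈ F, a ∈ R → R ≤ C := by
            intro R hR haR r hr
            rw [hC, Subgroup.mem_centralizer_singleton_iff]
            exact hF.ab R hR r hr a haR
          have hne : C ≠ ⊤ := by
            intro h
            obtain ⟨g, hg⟩ := hc P₀ hP₀ a haP₀ ha
            apply hg
            have : g ∈ C := by rw [h]; trivial
            rw [hC, Subgroup.mem_centralizer_singleton_iff] at this
            exact this
          have hlt := card_lt_of_ne_top hne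
          rw [hcard] at hlt
          obtain ⟨O, hOn, hOo, hfac⟩ := IH _ hlt C rfl _ (hF.sub C)
          have hP₁C := hleC P₁ hP₁ ha₁
          have hP₂C := hleC P₂ hP₂ ha₂
          have hP₃C := hleC P₃ hP₃ ha₃
          have hm₁ : (⟨P₁.subgroupOf C, P₁, hP₁, hP₁C, rfl⟩ : subF F C) = ⟨_, P₁, hP₁, hP₁C, rfl⟩ := rfl
          have hsub : Sec (O ⊔ P₂.subgroupOf C) O := by
            refine Sec.of_fact (P := P₂.subgroupOf C) le_sup_left ?_ hOo (hF.two P₂ hP₂).comap_subtype le_sup_right ?_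
            · intro d _ o ho
              exact hOn.conj_mem o ho d
            · intro w hw
              have h1 : w ∈ ((O ⊔ P₂.subgroupOf C : Subgroup C) : Set C) := hw
              rw [Subgroup.normal_mul] at h1
              obtain ⟨o, ho, h, hh, rfl⟩ := Set.mem_mul.mp h1
              exact ⟨o, ho, h, hh, rfl⟩
          have hmem : ∀ R ∈ F, ∀ hR : R ≤ C, ∀ r, ∀ hr : r ∈ R, (⟨r, hR hr⟩ : C) ∈ O ⊔ P₂.subgroupOf C := by
            intro R hR hRC r hr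
            obtain ⟨o, ho, h, hh, he⟩ := hfac _ ⟨P₂, hP₂, hP₂C, rfl⟩ _ ⟨R, hR, hRC, rfl⟩
              (⟨r, hRC hr⟩ : C) (Subgroup.mem_subgroupOf.mpr hr)
            rw [he]
            exact Subgroup.mul_mem _ ((le_sup_left : O ≤ _) ho) ((le_sup_right : P₂.subgroupOf C ≤ _) hh)
          have hx' := hmem P₁ hP₁ hP₁C x hx
          have hy' := hmem P₂ hP₂ hP₂C y hy
          have hz' := hmem P₃ hP₃ hP₃C z hz
          have hxy' : Rel (⟨x, hP₁C hx⟩ : C) ⟨y, hP₂C hy⟩ := (rel_coe_iff _ _).mp hxy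
          have hyz' : Rel (⟨y, hP₂C hy⟩ : C) ⟨z, hP₃C hz⟩ := (rel_coe_iff _ _).mp hyz
          have hxz' := hsub.trans hx' hy' hz' hxy' hyz'
          exact (rel_coe_iff (⟨x, hP₁C hx⟩ : C) ⟨z, hP₃C hz⟩).mpr hxz'
        by_cases hu : ∃ P₁ ∈ F, ∃ y₁ ∈ P₁, ∃ y₂ ∈ P₁, orderOf y₁ = 2 ∧ orderOf y₂ = 2 ∧ y₁ ≠ y₂
        · -- two involutions in the members
          obtain ⟨P₁, hP₁, y₁, hy₁, y₂, hy₂, ho₁, ho₂, hne⟩ := hu
          have h2 : ∀ P ∈ F, ∃ y₁ ∈ P, ∃ y₂ ∈ P, orderOf y₁ = 2 ∧ orderOf y₂ = 2 ∧ y₁ ≠ y₂ := by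
            intro P hP
            obtain ⟨p₁, hp₁, hr₁⟩ := exists_partner hF hP₁ hP hy₁
            obtain ⟨p₂, hp₂, hr₂⟩ := exists_partner hF hP₁ hP hy₂
            refine ⟨p₁, hp₁, p₂, hp₂, partner_invol hF hP₁ hP ho₁ hy₁ hp₁ hr₁,
              partner_invol hF hP₁ hP ho₂ hy₂ hp₂ hr₂, ?_⟩
            rintro rfl
            obtain ⟨O, hs, -⟩ := hF.sec' hP₁ hP
            exact hne (two_eq (hF.two P₁ hP₁) hy₁ hy₂ (hs.trans ((le_sup_left : P₁ ≤ P₁ ⊔ P) hy₁)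
              ((le_sup_right : P ≤ P₁ ⊔ P) hp₁) ((le_sup_left : P₁ ≤ P₁ ⊔ P) hy₂) hr₁ hr₂.symm))
          have hT : ∀ P ∈ F, ∀ Q ∈ F, TT F P Q := fun P hP Q hQ => connect hF hL h2 hP hQ
          exact le_of_trans hF hT hO hP hQ
        · -- a unique involution in the members: the `Z*`-theorem
          push_neg at hu
          intro w hw
          by_contra hwP
          have hw1 : w ≠ 1 := by
            rintro rfl
            exact hwP (Subgroup.one_mem _)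
          have hQ2 : 2 ∣ Nat.card Q := by
            obtain ⟨k, hk⟩ := IsPGroup.iff_card.mp (hF.two Q hQ)
            rw [hk]
            have hk0 : k ≠ 0 := by
              rintro rfl
              have h1 : Nat.card Q = 1 := by simpa using hk
              have h2 : (⟨w, hw⟩ : Q) = 1 := by
                have : Subsingleton Q := (Nat.card_eq_one_iff_unique.mp h1).1
                exact Subsingleton.elim _ _
              exact hw1 (congrArg (fun z : Q => (z : G)) h2)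
            exact dvd_pow_self 2 hk0
          obtain ⟨a', ha'⟩ := exists_prime_orderOf_dvd_card' 2 hQ2
          have haQ : (a' : G) ∈ Q := a'.2
          have ha : orderOf (a' : G) = 2 := by rw [Subgroup.orderOf_coe, ha']
          set a : G := (a' : G) with hadef
          have hiso : IsoInv a := by
            refine ⟨ha, fun g => ?_⟩
            have hQg := hF.conj Q hQ g
            obtain ⟨y, hy, hr⟩ := exists_partner hF hQ hQg haQ
            have hyo := partner_invol hF hQ hQg ha haQ hy hr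
            have hag : g * a * g⁻¹ ∈ cj g Q := conj_mem_cj haQ
            have hago : orderOf (g * a * g⁻¹) = 2 := by rw [ord_conj, ha]
            have he : y = g * a * g⁻¹ := by
              by_contra hne
              exact hne (hu _ hQg y hy _ hag hyo hago)
            rw [he] at hr
            have h1 : Odd (orderOf (a⁻¹ * (g * a * g⁻¹))) := hr
            rwa [invol_inv ha] at h1
          obtain ⟨g, hg⟩ := hc Q hQ a haQ ha
          have h1 := zstar hiso g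
          rw [hO, Subgroup.mem_bot] at h1
          apply hg
          have h2 : a * g * a⁻¹ = g := mul_inv_eq_one.mp h1
          have h3 : a * g = g * a := mul_inv_eq_iff_eq_mul.mp h2
          exact h3.symm
    · -- pass to `G / O(G)`
      set N := pPrimeCore 2 G with hN
      haveI hNn : N.Normal := Cfsg.Agent.Lib.Basic.pPrimeCore_normal (G := G) 2
      have hlt := card_quot_lt hO
      rw [hcard] at hlt
      set f := QuotientGroup.mk' N with hf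
      have hfs : Function.Surjective f := QuotientGroup.mk'_surjective _
      obtain ⟨Ō, hŌ, hŌo, hfac⟩ := IH _ hlt (G ⧸ N) rfl _ (hF.map f hfs)
      refine ⟨N, hNn, Nat.coprime_two_right.mp (pPrimeCore_coprime 2), ?_⟩
      intro P hP Q hQ w hw
      obtain ⟨o, ho, _, ⟨h, hh, rfl⟩, he⟩ := hfac _ ⟨P, hP, rfl⟩ _ ⟨Q, hQ, rfl⟩ (f w) ⟨w, hw, rfl⟩
      refine ⟨w * h⁻¹, ?_, h, hh, by group⟩
      have h1 := le_pPrimeCore hŌ (Nat.coprime_two_right.mpr hŌo)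
      have h2 := Cfsg.Agent.Lib.LocalEven2.comap_pPrimeCore_le (p := 2) N (pPrimeCore_coprime 2)
      apply h2
      rw [Subgroup.mem_comap]
      apply h1
      have h3 : f (w * h⁻¹) = o := by
        rw [map_mul, map_inv, he]
        group
      rw [← hf, h3]
      exact ho

section Closed

variable {G : Type u} [Group G] [Finite G]

/-- Burnside's normal complement, at the prime two. -/
theorem burnside_aux {X : Type u} [Group X] [Finite X] (T : Sylow 2 X)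
    (hN : Subgroup.normalizer ((T : Subgroup X) : Set X) ≤ Subgroup.centralizer ((T : Subgroup X) : Set X)) :
    ∃ K : Subgroup X, K.Normal ∧ Odd (Nat.card K) ∧ ∀ x : X, ∃ k ∈ K, ∃ t ∈ (T : Subgroup X), k * t = x := by
  haveI : Fact (Nat.Prime 2) := ⟨Nat.prime_two⟩
  have hc := MonoidHom.ker_transferSylow_isComplement' T hN
  refine ⟨(MonoidHom.transferSylow T hN).ker, MonoidHom.normal_ker _, ?_, ?_⟩
  · have h6 := hc.index_eq_card
    have h3 : ¬ 2 ∣ (T : Subgroup X).index := T.not_dvd_index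
    rw [← h6]
    exact Nat.not_even_iff_odd.mp (fun h => h3 h.two_dvd)
  · intro x
    obtain ⟨⟨k, t⟩, he, -⟩ := hc.existsUnique x
    exact ⟨k, k.2, t, t.2, he⟩

/-- An extremely closed abelian `2`-subgroup is a complement of an odd normal subgroup in the
subgroup generated by it and any conjugate. -/
theorem exists_sec_of_closed {H : Subgroup G} (hp : IsPGroup 2 H) (hab : ∀ x ∈ H, ∀ y ∈ H, x * y = y * x)
    (hcl : IsExtremelyClosed H) (g : G) :
    ∃ O : Subgroup G, O ≤ H ⊔ cj g H ∧ (∀ d ∈ H ⊔ cj g H, ∀ o ∈ O, d * o * d⁻¹ ∈ O) ∧ Odd (Nat.card O) ∧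
      ∀ w ∈ H ⊔ cj g H, ∃ o ∈ O, ∃ h ∈ H, w = o * h := by
  haveI : Fact (Nat.Prime 2) := ⟨Nat.prime_two⟩
  set D := H ⊔ cj g H with hD
  have hHD : H ≤ D := le_sup_left
  -- elements of `D` normalizing `H` lie in `H`
  have hnorm : ∀ t : D, t ∈ Subgroup.normalizer ((H.subgroupOf D : Subgroup D) : Set D) → t ∈ H.subgroupOf D := by
    intro t ht
    have h1 : (t : G) ∈ D ⊓ Subgroup.normalizer (H : Set G) := by
      refine ⟨t.2, ?_⟩
      show (t : G) ∈ Subgroup.normalizer (H : Set G)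
      rw [Subgroup.mem_normalizer_iff]
      intro x
      have hmem := (Subgroup.mem_normalizer_iff.mp ht)
      constructor
      · intro hx
        have h2 := (hmem ⟨x, hHD hx⟩).mp (Subgroup.mem_subgroupOf.mpr hx)
        simpa [Subgroup.mem_subgroupOf] using h2
      · intro hx
        have hxD : x ∈ D := by
          have h3 : (t : G)⁻¹ * ((t : G) * x * (t : G)⁻¹) * t = x := by group
          rw [← h3]
          exact D.mul_mem (D.mul_mem (D.inv_mem t.2) (hHD hx)) t.2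
        have h2 := (hmem ⟨x, hxD⟩).mpr (Subgroup.mem_subgroupOf.mpr (by simpa using hx))
        simpa [Subgroup.mem_subgroupOf] using h2
    have h2 := hcl g
    rw [← hD] at h2
    rw [h2] at h1
    exact Subgroup.mem_subgroupOf.mpr h1
  -- `H` is a Sylow subgroup of `D`
  have hT' : IsPGroup 2 (H.subgroupOf D) := hp.comap_subtype
  obtain ⟨T, hT⟩ := hT'.exists_le_sylow
  have hTe : (T : Subgroup D) = H.subgroupOf D := by
    by_contra hne
    have hlt : H.subgroupOf D < (T : Subgroup D) := lt_of_le_of_ne hT (Ne.symm hne)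
    have h2 := Cfsg.Agent.Lib.LocalEven2.lt_inf_normalizer_of_lt T.isPGroup' hlt
    obtain ⟨t, ht, htn⟩ := SetLike.exists_of_lt h2
    exact htn (hnorm t ht.2)
  -- Burnside
  have hN : Subgroup.normalizer ((T : Subgroup D) : Set D) ≤
      Subgroup.centralizer ((T : Subgroup D) : Set D) := by
    intro t ht
    rw [hTe] at ht ⊢
    have h3 := hnorm t ht
    rw [Subgroup.mem_centralizer_iff]
    intro y hy
    exact Subtype.ext (hab _ (Subgroup.mem_subgroupOf.mp hy) _ (Subgroup.mem_subgroupOf.mp h3))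
  obtain ⟨K, hKn, hKo, hKf⟩ := burnside_aux T hN
  refine ⟨K.map D.subtype, ?_, ?_, ?_, ?_⟩
  · rintro _ ⟨k, -, rfl⟩
    exact k.2
  · rintro d hd _ ⟨k, hk, rfl⟩
    exact ⟨⟨d, hd⟩ * k * ⟨d, hd⟩⁻¹, hKn.conj_mem k hk _, by simp⟩
  · have h5 : Nat.card (K.map D.subtype) = Nat.card K := Subgroup.card_map_of_injective D.subtype_injective
    rw [h5]
    exact hKo
  · intro w hw
    obtain ⟨k, hk, t, ht, he⟩ := hKf ⟨w, hw⟩
    have ht' : t ∈ H.subgroupOf D := by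
      rw [← hTe]
      exact ht
    refine ⟨(k : D), ⟨k, hk, rfl⟩, (t : D), Subgroup.mem_subgroupOf.mp ht', ?_⟩
    exact (congrArg (fun z : D => (z : G)) he).symm

/-- The conjugates of an extremely closed abelian `2`-subgroup form a family. -/
theorem fam_of_closed {H : Subgroup G} (hp : IsPGroup 2 H) (hab : ∀ x ∈ H, ∀ y ∈ H, x * y = y * x)
    (hcl : IsExtremelyClosed H) : Fam {P | ∃ g : G, P = cj g H} := by
  refine ⟨?_, ?_, ?_, ?_⟩
  · rintro _ ⟨g, rfl⟩ _ ⟨x, hx, rfl⟩ _ ⟨y, hy, rfl⟩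
    simp only [MulEquiv.toMonoidHom_eq_coe, MonoidHom.coe_coe, MulAut.conj_apply]
    have h1 : g * x * g⁻¹ * (g * y * g⁻¹) = g * (x * y) * g⁻¹ := by group
    have h2 : g * y * g⁻¹ * (g * x * g⁻¹) = g * (y * x) * g⁻¹ := by group
    rw [h1, h2, hab x hx y hy]
  · rintro _ ⟨g, rfl⟩
    exact isPGroup_cj hp g
  · rintro _ ⟨g, rfl⟩ g'
    exact ⟨g' * g, (cj_mul g' g H).symm⟩
  · rintro _ ⟨a, rfl⟩ _ ⟨b, rfl⟩
    obtain ⟨O, h1, h2, h3, h4⟩ := exists_sec_of_closed hp hab hcl (a⁻¹ * b)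
    have hD : cj a H ⊔ cj b H = cj a (H ⊔ cj (a⁻¹ * b) H) := by
      rw [cj, cj, cj, Subgroup.map_sup]
      congr 1
      have h5 : cj b H = cj a (cj (a⁻¹ * b) H) := by
        rw [← cj_mul]
        congr 1
        group
      exact h5
    rw [hD]
    refine ⟨cj a O, Subgroup.map_mono h1, ?_, ?_, ?_⟩
    · rintro _ ⟨d, hd, rfl⟩ _ ⟨o, ho, rfl⟩
      refine ⟨d * o * d⁻¹, h2 d hd o ho, ?_⟩
      simp only [MulEquiv.toMonoidHom_eq_coe, MonoidHom.coe_coe, MulAut.conj_apply]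
      group
    · rw [card_cj]
      exact h3
    · rintro _ ⟨w, hw, rfl⟩
      obtain ⟨o, ho, h, hh, rfl⟩ := h4 w hw
      refine ⟨a * o * a⁻¹, conj_mem_cj ho, a * h * a⁻¹, conj_mem_cj hh, ?_⟩
      simp only [MulEquiv.toMonoidHom_eq_coe, MonoidHom.coe_coe, MulAut.conj_apply]
      group

/-- **Extremely closed abelian `2`-subgroups.** -/
theorem normalizer_sup_oddCore {H : Subgroup G} (hp : IsPGroup 2 H) (hab : ∀ x ∈ H, ∀ y ∈ H, x * y = y * x)
    (hcl : IsExtremelyClosed H) : Subgroup.normalizer (H : Set G) ⊔ pPrimeCore 2 G = ⊤ := by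
  haveI : Fact (Nat.Prime 2) := ⟨Nat.prime_two⟩
  obtain ⟨O, hOn, hOo, hfac⟩ := main_aux _ G rfl _ (fam_of_closed hp hab hcl)
  have hOle : O ≤ pPrimeCore 2 G := le_pPrimeCore hOn (Nat.coprime_two_right.mpr hOo)
  have h1 : ∀ x ∈ H, ∀ g : G, g * x * g⁻¹ ∈ O ⊔ H := by
    intro x hx g
    obtain ⟨o, ho, h, hh, he⟩ := hfac H ⟨1, (cj_one H).symm⟩ (cj g H) ⟨g, rfl⟩ _ (conj_mem_cj hx)
    have hh' : h ∈ H := hh
    rw [he]
    exact Subgroup.mul_mem _ ((le_sup_left : O ≤ O ⊔ H) ho) ((le_sup_right : H ≤ O ⊔ H) hh')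
  set L := O ⊔ H with hL
  have hsyl : ∃ R : Sylow 2 L, (R : Subgroup L) = H.subgroupOf L := by
    have hT' : IsPGroup 2 (H.subgroupOf L) := hp.comap_subtype
    obtain ⟨T, hT⟩ := hT'.exists_le_sylow
    refine ⟨T, le_antisymm ?_ hT⟩
    intro r hr
    have hr' : (r : G) ∈ ((O ⊔ H : Subgroup G) : Set G) := r.2
    rw [Subgroup.normal_mul] at hr'
    obtain ⟨o, ho, h, hh, he⟩ := Set.mem_mul.mp hr'
    have hhL : h ∈ L := (le_sup_right : H ≤ O ⊔ H) hh
    have hhT : (⟨h, hhL⟩ : L) ∈ (T : Subgroup L) := hT (by simpa [Subgroup.mem_subgroupOf] using hh)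
    have hoT : r * (⟨h, hhL⟩ : L)⁻¹ ∈ (T : Subgroup L) := Subgroup.mul_mem _ hr (Subgroup.inv_mem _ hhT)
    obtain ⟨k, hk⟩ := T.isPGroup' ⟨_, hoT⟩
    have hk' : ((r : G) * h⁻¹) ^ (2 ^ k) = 1 := by
      have := congrArg (fun z : (T : Subgroup L) => ((z : L) : G)) hk
      simpa using this
    have ho' : (r : G) * h⁻¹ = o := by
      rw [← he]
      group
    rw [ho'] at hk'
    have h2 : Odd (orderOf o) := Odd.of_dvd_nat hOo (Subgroup.orderOf_dvd_natCard O ho)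
    have h3 := eq_one_of_odd_of_pow h2 hk'
    rw [Subgroup.mem_subgroupOf, ← he, h3, one_mul]
    exact hh
  rw [eq_top_iff]
  intro g _
  have hU : cj g H ≤ L := by
    rintro _ ⟨x, hx, rfl⟩
    exact h1 x hx g
  obtain ⟨c, hc, hcU⟩ := exists_conj_of_isSylowIn (p := 2) hsyl (isPGroup_cj hp g) hU
  have hle : cj (c * g) H ≤ H := by
    rw [cj_mul, cj_le_iff]
    intro u hu
    exact hcU u hu
  have heq : cj (c * g) H = H := Subgroup.eq_of_le_of_card_ge hle (by rw [card_cj])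
  have hN : c * g ∈ Subgroup.normalizer (H : Set G) := by
    rw [Subgroup.mem_normalizer_iff]
    intro x
    constructor
    · intro hx
      rw [← heq]
      exact conj_mem_cj hx
    · intro hx
      rw [← heq] at hx
      have := mem_cj.mp hx
      have e : (c * g)⁻¹ * (c * g * x * (c * g)⁻¹) * (c * g) = x := by group
      rwa [e] at this
  have hcN : c ∈ Subgroup.normalizer (H : Set G) ⊔ pPrimeCore 2 G := by
    have : L ≤ Subgroup.normalizer (H : Set G) ⊔ pPrimeCore 2 G :=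
      sup_le (hOle.trans le_sup_right) (Subgroup.le_normalizer.trans le_sup_left)
    exact this hc
  have e : g = c⁻¹ * (c * g) := by group
  rw [e]
  exact Subgroup.mul_mem _ (Subgroup.inv_mem _ hcN) ((le_sup_left : _ ≤ Subgroup.normalizer (H : Set G) ⊔ pPrimeCore 2 G) hN)

end Closed

end Cfsg.Agent.Lib.LocalEven2.XC
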